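import Cfsg.Statements.S4252
import Mathlib
import Cfsg.Agent.Lib.Helper7.Basic

set_option autoImplicit false
open Cfsg

namespace Cfsg.Agent.S4252

open Cfsg.Agent.Lib.Helper7
open scoped Pointwise

/-- Let a finite group G act on a finite set Ω with more than one point, transitively but not regularly, so that no non-identity element of G fixes two distinct points. Then the stabilizer H of any point is a Frobenius complement in G (nontrivial, proper, meeting its other conjugates trivially), and the Frobenius kernel of G with respect to H (the identity together with the elements lying in no conjugate of H) is exactly the set consisting of the identity and the elements fixing no point. -/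
theorem result {G Ω : Type*} [Group G] [Finite G] [Fintype Ω] [MulAction G Ω] (hΩ : 1 < Fintype.card Ω)
    (htrans : ∀ α β : Ω, ∃ g : G, g • α = β) (hnreg : ∃ g : G, g ≠ 1 ∧ ∃ α : Ω, g • α = α)
    (hfix : ∀ g : G, g ≠ 1 → ∀ α β : Ω, g • α = α → g • β = β → α = β) (α : Ω) :
    Cfsg.IsFrobeniusComplement (MulAction.stabilizer G α) ∧
      Cfsg.frobeniusKernel (MulAction.stabilizer G α) = {g : G | g = 1 ∨ ∀ ω : Ω, g • ω ≠ ω} := by
  have hconj : ∀ (x g : G), x ∈ MulAut.conj g • MulAction.stabilizer G α ↔ x • (g • α) = g • α := by
    intro x g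
    rw [mem_conj_smul, MulAction.mem_stabilizer_iff, mul_smul, mul_smul]
    constructor
    · intro h
      have := congrArg (fun z => g • z) h
      simpa using this
    · intro h
      rw [h, inv_smul_smul]
  refine ⟨⟨?_, ?_, ?_⟩, ?_⟩
  · obtain ⟨g, hg1, β, hgβ⟩ := hnreg
    obtain ⟨k, hk⟩ := htrans α β
    intro hbot
    have h1 : k⁻¹ * g * k ∈ MulAction.stabilizer G α := by
      rw [MulAction.mem_stabilizer_iff, mul_smul, mul_smul, hk, hgβ, ← hk, inv_smul_smul]
    rw [hbot, Subgroup.mem_bot] at h1
    apply hg1
    have : g = k * (k⁻¹ * g * k) * k⁻¹ := by group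
    rw [this, h1]; simp
  · intro htop
    obtain ⟨a, b, hab⟩ := Fintype.one_lt_card_iff.mp hΩ
    obtain ⟨g1, hg1⟩ := htrans α a
    obtain ⟨g2, hg2⟩ := htrans α b
    have h1 : g1 ∈ MulAction.stabilizer G α := by rw [htop]; trivial
    have h2 : g2 ∈ MulAction.stabilizer G α := by rw [htop]; trivial
    rw [MulAction.mem_stabilizer_iff] at h1 h2
    exact hab (by rw [← hg1, ← hg2, h1, h2])
  · intro g hg
    rw [eq_bot_iff]
    intro y hy
    rw [Subgroup.mem_inf, hconj] at hy
    rw [Subgroup.mem_bot]
    by_contra hy1
    have := hfix y hy1 α (g • α) hy.1 hy.2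
    exact hg (by rw [MulAction.mem_stabilizer_iff]; exact this.symm)
  · ext x
    simp only [Cfsg.frobeniusKernel, Set.mem_setOf_eq]
    constructor
    · rintro (h | h)
      · left; exact h
      · right
        intro ω hω
        obtain ⟨g, rfl⟩ := htrans α ω
        exact h g ((hconj x g).mpr hω)
    · rintro (h | h)
      · left; exact h
      · right
        intro g hg
        exact h (g • α) ((hconj x g).mp hg)

end Cfsg.Agent.S4252
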