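import Cfsg.Statements.S0098
import Mathlib
import Cfsg.Agent.S3799
-- import your own Cfsg.Agent.* helpers here

set_option autoImplicit false
open Cfsg

namespace Cfsg.Agent.S0098

open Matrix Cfsg.Agent.S3799

section
variable {E : Type*} [Group E] {p : ℕ} [Fact p.Prime]

def pw (w : E) (c : ZMod p) : E := w ^ c.val

theorem pw_zero (w : E) : pw w (0 : ZMod p) = 1 := by simp [pw]

theorem pw_one (w : E) : pw w (1 : ZMod p) = w := by
  haveI : Fact (1 < p) := ⟨(Fact.out : p.Prime).one_lt⟩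
  simp [pw, ZMod.val_one]

theorem pw_add {w : E} (hw : w ^ p = 1) (c d : ZMod p) : pw w (c + d) = pw w c * pw w d := by
  unfold pw
  rw [← pow_add, ZMod.val_add, ← pow_eq_pow_mod _ hw]

theorem pw_mul {w : E} (hw : w ^ p = 1) (c d : ZMod p) : pw w (c * d) = (pw w c) ^ d.val := by
  unfold pw
  rw [← pow_mul, ZMod.val_mul, ← pow_eq_pow_mod _ hw]

theorem pw_eq_one {w : E} (hw : orderOf w = p) {c : ZMod p} (h : pw w c = 1) : c = 0 := by
  unfold pw at h
  have h1 : orderOf w ∣ c.val := orderOf_dvd_of_pow_eq_one h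
  rw [hw] at h1
  have h2 : c.val < p := ZMod.val_lt c
  have h3 : c.val = 0 := Nat.eq_zero_of_dvd_of_lt h1 h2
  exact (ZMod.val_eq_zero c).mp h3

theorem pw_central {z : E} (hz : ∀ g : E, g * z = z * g) (c : ZMod p) (g : E) :
    g * pw z c = pw z c * g :=
  ((Commute.pow_right (show Commute g z from hz g) _)).eq

theorem rel_pow_right {u v w : E} (hw : ∀ g : E, g * w = w * g) (h : u * v = v * u * w) (k : ℕ) :
    u * v ^ k = v ^ k * u * w ^ k := by
  induction k with
  | zero => simp
  | succ k ih =>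
    have hc : w ^ k * v = v * w ^ k := ((Commute.pow_left (show Commute w v from (hw v).symm) k)).eq
    calc u * v ^ (k + 1) = (u * v ^ k) * v := by rw [pow_succ, mul_assoc]
      _ = v ^ k * u * w ^ k * v := by rw [ih]
      _ = v ^ k * u * (w ^ k * v) := by simp only [mul_assoc]
      _ = v ^ k * u * (v * w ^ k) := by rw [hc]
      _ = v ^ k * (u * v) * w ^ k := by simp only [mul_assoc]
      _ = v ^ k * (v * u * w) * w ^ k := by rw [h]
      _ = v ^ (k + 1) * u * w ^ (k + 1) := by rw [pow_succ, pow_succ']; simp only [mul_assoc]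

theorem rel_pow_left {u v w : E} (hw : ∀ g : E, g * w = w * g) (h : u * v = v * u * w) (k : ℕ) :
    u ^ k * v = v * u ^ k * w ^ k := by
  induction k with
  | zero => simp
  | succ k ih =>
    have hc : w ^ k * u = u * w ^ k := ((Commute.pow_left (show Commute w u from (hw u).symm) k)).eq
    calc u ^ (k + 1) * v = u ^ k * (u * v) := by rw [pow_succ, mul_assoc]
      _ = u ^ k * (v * u * w) := by rw [h]
      _ = (u ^ k * v) * u * w := by simp only [mul_assoc]
      _ = v * u ^ k * w ^ k * u * w := by rw [ih]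
      _ = v * u ^ k * (w ^ k * u) * w := by simp only [mul_assoc]
      _ = v * u ^ k * (u * w ^ k) * w := by rw [hc]
      _ = v * u ^ (k + 1) * w ^ (k + 1) := by rw [pow_succ, pow_succ]; simp only [mul_assoc]

/-- an additive-to-multiplicative map with prescribed values on the standard basis -/
structure PM (n p : ℕ) (E : Type*) [Group E] (x : Fin n → E) where
  f : (Fin n → ZMod p) → E
  zero : f 0 = 1
  add : ∀ a b, f (a + b) = f a * f b
  single : ∀ i c, f (Pi.single i c) = pw (x i) c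

noncomputable def mkPM {n : ℕ} (hexp : ∀ g : E, g ^ p = 1) (x : Fin n → E)
    (hxx : ∀ i j, x i * x j = x j * x i) : PM n p E x := by
  classical
  let ϕ : Fin n → (ZMod p →+ Additive E) := fun i =>
    { toFun := fun c => Additive.ofMul (pw (x i) c)
      map_zero' := by rw [pw_zero]; rfl
      map_add' := fun c d => by rw [pw_add (hexp _)]; rfl }
  have hcomm : Pairwise fun i j => ∀ c d, AddCommute (ϕ i c) (ϕ j d) := by
    intro i j _ c d
    show Additive.ofMul (pw (x i) c * pw (x j) d) = Additive.ofMul (pw (x j) d * pw (x i) c)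
    congr 1
    exact ((Commute.pow_pow (show Commute (x i) (x j) from hxx i j) _ _)).eq
  let Φ := AddMonoidHom.noncommPiCoprod ϕ hcomm
  exact
    { f := fun a => Additive.toMul (Φ a)
      zero := by rw [map_zero]; rfl
      add := fun a b => by rw [map_add]; rfl
      single := fun i c => by
        rw [AddMonoidHom.noncommPiCoprod_single]; rfl }

theorem PM.comm_of {n : ℕ} {x : Fin n → E} (X : PM n p E x) {g : E}
    (h : ∀ i, g * x i = x i * g) (a : Fin n → ZMod p) : g * X.f a = X.f a * g := by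
  classical
  refine Pi.single_induction (fun a => g * X.f a = X.f a * g) a ?_ ?_ ?_
  · show g * X.f 0 = X.f 0 * g
    rw [X.zero]; simp
  · intro f g' hf hg
    show g * X.f (f + g') = X.f (f + g') * g
    rw [X.add, ← mul_assoc, hf, mul_assoc, hg, mul_assoc]
  · intro i c
    show g * X.f (Pi.single i c) = X.f (Pi.single i c) * g
    rw [X.single]
    exact ((Commute.pow_right (show Commute g (x i) from h i) _)).eq

/-- right relation: `u * y j = y j * u * z^(t j)` for all `j` gives `u * Y b = Y b * u * z^(t ⬝ b)`. -/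
theorem PM.rel_right {n : ℕ} {y : Fin n → E} (Y : PM n p E y) {z u : E}
    (hz : ∀ g : E, g * z = z * g) (hzp : z ^ p = 1) (t : Fin n → ZMod p)
    (h : ∀ j, u * y j = y j * u * pw z (t j)) (b : Fin n → ZMod p) :
    u * Y.f b = Y.f b * u * pw z (t ⬝ᵥ b) := by
  classical
  refine Pi.single_induction (fun b => u * Y.f b = Y.f b * u * pw z (t ⬝ᵥ b)) b ?_ ?_ ?_
  · show u * Y.f 0 = Y.f 0 * u * pw z (t ⬝ᵥ 0)
    rw [Y.zero, dotProduct_zero, pw_zero]; simp
  · intro f g hf hg
    show u * Y.f (f + g) = Y.f (f + g) * u * pw z (t ⬝ᵥ (f + g))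
    rw [Y.add, dotProduct_add, pw_add hzp]
    calc u * (Y.f f * Y.f g) = (u * Y.f f) * Y.f g := by rw [mul_assoc]
      _ = Y.f f * u * pw z (t ⬝ᵥ f) * Y.f g := by rw [hf]
      _ = Y.f f * u * (pw z (t ⬝ᵥ f) * Y.f g) := by simp only [mul_assoc]
      _ = Y.f f * u * (Y.f g * pw z (t ⬝ᵥ f)) := by rw [← pw_central hz]
      _ = Y.f f * (u * Y.f g) * pw z (t ⬝ᵥ f) := by simp only [mul_assoc]
      _ = Y.f f * (Y.f g * u * pw z (t ⬝ᵥ g)) * pw z (t ⬝ᵥ f) := by rw [hg]
      _ = Y.f f * Y.f g * u * (pw z (t ⬝ᵥ g) * pw z (t ⬝ᵥ f)) := by simp only [mul_assoc]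
      _ = Y.f f * Y.f g * u * (pw z (t ⬝ᵥ f) * pw z (t ⬝ᵥ g)) := by rw [pw_central hz]
  · intro j c
    show u * Y.f (Pi.single j c) = Y.f (Pi.single j c) * u * pw z (t ⬝ᵥ Pi.single j c)
    rw [Y.single, dotProduct_single, pw_mul hzp]
    exact rel_pow_right (fun g => pw_central hz _ g) (h j) _

/-- left relation: `x i * v = v * x i * z^(s i)` for all `i` gives `X a * v = v * X a * z^(a ⬝ s)`. -/
theorem PM.rel_left {n : ℕ} {x : Fin n → E} (X : PM n p E x) {z v : E}
    (hz : ∀ g : E, g * z = z * g) (hzp : z ^ p = 1) (s : Fin n → ZMod p)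
    (h : ∀ i, x i * v = v * x i * pw z (s i)) (a : Fin n → ZMod p) :
    X.f a * v = v * X.f a * pw z (a ⬝ᵥ s) := by
  classical
  refine Pi.single_induction (fun a => X.f a * v = v * X.f a * pw z (a ⬝ᵥ s)) a ?_ ?_ ?_
  · show X.f 0 * v = v * X.f 0 * pw z (0 ⬝ᵥ s)
    rw [X.zero, zero_dotProduct, pw_zero]; simp
  · intro f g hf hg
    show X.f (f + g) * v = v * X.f (f + g) * pw z ((f + g) ⬝ᵥ s)
    rw [X.add, add_dotProduct, pw_add hzp]
    calc X.f f * X.f g * v = X.f f * (X.f g * v) := by rw [mul_assoc]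
      _ = X.f f * (v * X.f g * pw z (g ⬝ᵥ s)) := by rw [hg]
      _ = (X.f f * v) * X.f g * pw z (g ⬝ᵥ s) := by simp only [mul_assoc]
      _ = v * X.f f * pw z (f ⬝ᵥ s) * X.f g * pw z (g ⬝ᵥ s) := by rw [hf]
      _ = v * X.f f * (pw z (f ⬝ᵥ s) * X.f g) * pw z (g ⬝ᵥ s) := by simp only [mul_assoc]
      _ = v * X.f f * (X.f g * pw z (f ⬝ᵥ s)) * pw z (g ⬝ᵥ s) := by rw [← pw_central hz]
      _ = v * (X.f f * X.f g) * (pw z (f ⬝ᵥ s) * pw z (g ⬝ᵥ s)) := by simp only [mul_assoc]
  · intro i c
    show X.f (Pi.single i c) * v = v * X.f (Pi.single i c) * pw z (Pi.single i c ⬝ᵥ s)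
    rw [X.single, single_dotProduct, mul_comm c (s i), pw_mul hzp]
    exact rel_pow_left (fun g => pw_central hz _ g) (h i) _

end

section
variable {E : Type*} [Group E] {p : ℕ} [Fact p.Prime]

structure Amb (E : Type*) [Group E] (p : ℕ) [Fact p.Prime] (z : E) : Prop where
  hexp : ∀ g : E, g ^ p = 1
  hz : ∀ g : E, g * z = z * g
  hzo : orderOf z = p
  hcen : ∀ w : E, (∀ g : E, g * w = w * g) → ∃ c : ZMod p, w = pw z c
  hcm : ∀ g h k : E, k * ((h * g)⁻¹ * (g * h)) = ((h * g)⁻¹ * (g * h)) * k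

structure Good {n : ℕ} (x y : Fin n → E) (z : E) : Prop where
  xx : ∀ i j, x i * x j = x j * x i
  yy : ∀ i j, y i * y j = y j * y i
  xy : ∀ i j, x i * y j = y j * x i * (if i = j then z else 1)

theorem zif {n : ℕ} (z : E) (i j : Fin n) :
    (if i = j then z else 1) = pw z ((Pi.single i (1 : ZMod p) : Fin n → ZMod p) j) := by
  by_cases h : i = j
  · subst h; simp [pw_one]
  · rw [if_neg h, Pi.single_eq_of_ne (Ne.symm h), pw_zero]

theorem zif' {n : ℕ} (z : E) (i j : Fin n) :
    (if i = j then z else 1) = pw z ((Pi.single j (1 : ZMod p) : Fin n → ZMod p) i) := by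
  by_cases h : i = j
  · subst h; simp [pw_one]
  · rw [if_neg h, Pi.single_eq_of_ne h, pw_zero]

theorem R1 {n : ℕ} {x y : Fin n → E} {z : E} (A : Amb E p z) (G : Good x y z)
    (Y : PM n p E y) (i : Fin n) (b : Fin n → ZMod p) :
    x i * Y.f b = Y.f b * x i * pw z (b i) := by
  have h := Y.rel_right A.hz (A.hexp z) (Pi.single i 1) (fun j => by rw [G.xy i j, zif (p := p)]) b
  rw [single_dotProduct, one_mul] at h
  exact h

theorem R2 {n : ℕ} {x y : Fin n → E} {z : E} (A : Amb E p z) (G : Good x y z)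
    (X : PM n p E x) (Y : PM n p E y) (a b : Fin n → ZMod p) :
    X.f a * Y.f b = Y.f b * X.f a * pw z (a ⬝ᵥ b) :=
  X.rel_left A.hz (A.hexp z) b (fun i => R1 A G Y i b) a

theorem R3 {n : ℕ} {x y : Fin n → E} {z : E} (A : Amb E p z) (G : Good x y z)
    (X : PM n p E x) (a : Fin n → ZMod p) (j : Fin n) :
    X.f a * y j = y j * X.f a * pw z (a j) := by
  have h := X.rel_left A.hz (A.hexp z) (Pi.single j 1) (fun i => by rw [G.xy i j, zif' (p := p)]) a
  rw [dotProduct_single, mul_one] at h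
  exact h

noncomputable def phiFun {n : ℕ} {x y : Fin n → E} (z : E) (X : PM n p E x) (Y : PM n p E y)
    (g : Heis n p) : E :=
  Y.f g.b * X.f g.a * pw z g.c

theorem phi_mul_aux {yb yb' xa xa' P P' Q : E} (hP : ∀ g : E, g * P = P * g)
    (hP' : ∀ g : E, g * P' = P' * g) (hQ : ∀ g : E, g * Q = Q * g)
    (hR : xa * yb' = yb' * xa * Q) :
    yb * yb' * (xa * xa') * (P * P' * Q) = (yb * xa * P) * (yb' * xa' * P') := by
  symm
  calc (yb * xa * P) * (yb' * xa' * P') = yb * xa * (P * (yb' * xa' * P')) := by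
        simp only [mul_assoc]
    _ = yb * xa * ((yb' * xa' * P') * P) := by rw [← hP (yb' * xa' * P')]
    _ = yb * (xa * yb') * xa' * P' * P := by simp only [mul_assoc]
    _ = yb * (yb' * xa * Q) * xa' * P' * P := by rw [hR]
    _ = yb * yb' * xa * (Q * xa') * P' * P := by simp only [mul_assoc]
    _ = yb * yb' * xa * (xa' * Q) * P' * P := by rw [← hQ xa']
    _ = yb * yb' * (xa * xa') * ((Q * P') * P) := by simp only [mul_assoc]
    _ = yb * yb' * (xa * xa') * (P * (Q * P')) := by rw [hP (Q * P')]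
    _ = yb * yb' * (xa * xa') * (P * (P' * Q)) := by rw [hP' Q]
    _ = yb * yb' * (xa * xa') * (P * P' * Q) := by rw [mul_assoc P P' Q]

theorem phi_mul {n : ℕ} {x y : Fin n → E} {z : E} (A : Amb E p z) (G : Good x y z)
    (X : PM n p E x) (Y : PM n p E y) (g g' : Heis n p) :
    phiFun z X Y (g * g') = phiFun z X Y g * phiFun z X Y g' := by
  unfold phiFun
  rw [Heis.mul_a, Heis.mul_b, Heis.mul_c, Y.add, X.add, pw_add (A.hexp z), pw_add (A.hexp z)]
  exact phi_mul_aux (fun k => pw_central A.hz _ k) (fun k => pw_central A.hz _ k)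
    (fun k => pw_central A.hz _ k) (R2 A G X Y g.a g'.b)

theorem phi_y {n : ℕ} {x y : Fin n → E} {z : E} (A : Amb E p z) (G : Good x y z)
    (X : PM n p E x) (Y : PM n p E y) (t : Heis n p) (j : Fin n) :
    phiFun z X Y t * y j = y j * phiFun z X Y t * pw z (t.a j) := by
  unfold phiFun
  have h1 := R3 A G X t.a j
  have h2 : y j * Y.f t.b = Y.f t.b * y j := Y.comm_of (fun i => G.yy j i) t.b
  calc Y.f t.b * X.f t.a * pw z t.c * y j = Y.f t.b * X.f t.a * (pw z t.c * y j) := by
        simp only [mul_assoc]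
    _ = Y.f t.b * X.f t.a * (y j * pw z t.c) := by rw [← pw_central A.hz t.c (y j)]
    _ = Y.f t.b * (X.f t.a * y j) * pw z t.c := by simp only [mul_assoc]
    _ = Y.f t.b * (y j * X.f t.a * pw z (t.a j)) * pw z t.c := by rw [h1]
    _ = (Y.f t.b * y j) * X.f t.a * (pw z (t.a j) * pw z t.c) := by simp only [mul_assoc]
    _ = (y j * Y.f t.b) * X.f t.a * (pw z t.c * pw z (t.a j)) := by
        rw [← h2, pw_central A.hz t.c (pw z (t.a j))]
    _ = y j * (Y.f t.b * X.f t.a * pw z t.c) * pw z (t.a j) := by simp only [mul_assoc]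

theorem x_phi {n : ℕ} {x y : Fin n → E} {z : E} (A : Amb E p z) (G : Good x y z)
    (X : PM n p E x) (Y : PM n p E y) (t : Heis n p) (i : Fin n) :
    x i * phiFun z X Y t = phiFun z X Y t * x i * pw z (t.b i) := by
  unfold phiFun
  have h1 := R1 A G Y i t.b
  have h2 : x i * X.f t.a = X.f t.a * x i := X.comm_of (fun k => G.xx i k) t.a
  calc x i * (Y.f t.b * X.f t.a * pw z t.c) = (x i * Y.f t.b) * X.f t.a * pw z t.c := by
        simp only [mul_assoc]
    _ = Y.f t.b * x i * pw z (t.b i) * X.f t.a * pw z t.c := by rw [h1]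
    _ = Y.f t.b * x i * (pw z (t.b i) * X.f t.a) * pw z t.c := by simp only [mul_assoc]
    _ = Y.f t.b * x i * (X.f t.a * pw z (t.b i)) * pw z t.c := by
        rw [← pw_central A.hz (t.b i) (X.f t.a)]
    _ = Y.f t.b * (x i * X.f t.a) * (pw z (t.b i) * pw z t.c) := by simp only [mul_assoc]
    _ = Y.f t.b * (X.f t.a * x i) * (pw z t.c * pw z (t.b i)) := by
        rw [h2, pw_central A.hz t.c (pw z (t.b i))]
    _ = Y.f t.b * X.f t.a * (x i * pw z t.c) * pw z (t.b i) := by simp only [mul_assoc]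
    _ = Y.f t.b * X.f t.a * (pw z t.c * x i) * pw z (t.b i) := by
        rw [pw_central A.hz t.c (x i)]
    _ = Y.f t.b * X.f t.a * pw z t.c * x i * pw z (t.b i) := by simp only [mul_assoc]

theorem phi_inj {n : ℕ} {x y : Fin n → E} {z : E} (A : Amb E p z) (G : Good x y z)
    (X : PM n p E x) (Y : PM n p E y) : Function.Injective (phiFun z X Y) := by
  have key : ∀ t : Heis n p, phiFun z X Y t = 1 → t = 1 := by
    intro t ht
    have ha : ∀ j, t.a j = 0 := by
      intro j
      have h := phi_y A G X Y t j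
      rw [ht, one_mul, mul_one] at h
      have h' : y j * 1 = y j * pw z (t.a j) := by rw [mul_one]; exact h
      exact pw_eq_one A.hzo (mul_left_cancel h').symm
    have hb : ∀ i, t.b i = 0 := by
      intro i
      have h := x_phi A G X Y t i
      rw [ht, one_mul, mul_one] at h
      have h' : x i * 1 = x i * pw z (t.b i) := by rw [mul_one]; exact h
      exact pw_eq_one A.hzo (mul_left_cancel h').symm
    have hc : t.c = 0 := by
      have h : Y.f t.b * X.f t.a * pw z t.c = 1 := ht
      rw [funext hb, funext ha] at h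
      have h0a : X.f (fun _ => (0 : ZMod p)) = 1 := X.zero
      have h0b : Y.f (fun _ => (0 : ZMod p)) = 1 := Y.zero
      rw [h0a, h0b, one_mul, one_mul] at h
      exact pw_eq_one A.hzo h
    exact Cfsg.Agent.S3799.Heis.ext (funext ha) (funext hb) hc
  exact (injective_iff_map_eq_one (MonoidHom.mk' (phiFun z X Y) (phi_mul A G X Y))).mpr key

theorem adjust {n : ℕ} {x y : Fin n → E} {z : E} (A : Amb E p z) (G : Good x y z)
    (X : PM n p E x) (Y : PM n p E y) (g : E) :
    ∃ t : Heis n p, (∀ i, x i * (g * phiFun z X Y t) = (g * phiFun z X Y t) * x i) ∧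
      (∀ j, (g * phiFun z X Y t) * y j = y j * (g * phiFun z X Y t)) := by
  have hα : ∀ j, ∃ c : ZMod p, g * y j = y j * g * pw z c := by
    intro j
    obtain ⟨c, hc⟩ := A.hcen ((y j * g)⁻¹ * (g * y j)) (fun k => A.hcm g (y j) k)
    refine ⟨c, ?_⟩
    rw [← hc]; group
  have hβ : ∀ i, ∃ c : ZMod p, x i * g = g * x i * pw z c := by
    intro i
    obtain ⟨c, hc⟩ := A.hcen ((g * x i)⁻¹ * (x i * g)) (fun k => A.hcm (x i) g k)
    refine ⟨c, ?_⟩
    rw [← hc]; group
  choose α hα using hα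
  choose β hβ using hβ
  refine ⟨⟨-α, -β, 0⟩, ?_, ?_⟩
  · intro i
    have h1 : x i * phiFun z X Y ⟨-α, -β, 0⟩ = phiFun z X Y ⟨-α, -β, 0⟩ * x i * pw z (-(β i)) :=
      x_phi A G X Y ⟨-α, -β, 0⟩ i
    generalize phiFun z X Y ⟨-α, -β, 0⟩ = u at h1 ⊢
    calc x i * (g * u) = (x i * g) * u := by rw [mul_assoc]
      _ = g * x i * pw z (β i) * u := by rw [hβ i]
      _ = g * x i * (pw z (β i) * u) := by simp only [mul_assoc]
      _ = g * x i * (u * pw z (β i)) := by rw [← pw_central A.hz (β i) u]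
      _ = g * (x i * u) * pw z (β i) := by simp only [mul_assoc]
      _ = g * (u * x i * pw z (-(β i))) * pw z (β i) := by rw [h1]
      _ = g * u * x i * (pw z (-(β i)) * pw z (β i)) := by simp only [mul_assoc]
      _ = g * u * x i := by rw [← pw_add (A.hexp z), neg_add_cancel, pw_zero, mul_one]
  · intro j
    have h1 : phiFun z X Y ⟨-α, -β, 0⟩ * y j = y j * phiFun z X Y ⟨-α, -β, 0⟩ * pw z (-(α j)) :=
      phi_y A G X Y ⟨-α, -β, 0⟩ j
    generalize phiFun z X Y ⟨-α, -β, 0⟩ = u at h1 ⊢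
    calc g * u * y j = g * (u * y j) := by rw [mul_assoc]
      _ = g * (y j * u * pw z (-(α j))) := by rw [h1]
      _ = (g * y j) * u * pw z (-(α j)) := by simp only [mul_assoc]
      _ = y j * g * pw z (α j) * u * pw z (-(α j)) := by rw [hα j]
      _ = y j * g * (pw z (α j) * u) * pw z (-(α j)) := by simp only [mul_assoc]
      _ = y j * g * (u * pw z (α j)) * pw z (-(α j)) := by rw [← pw_central A.hz (α j) u]
      _ = y j * (g * u) * (pw z (α j) * pw z (-(α j))) := by simp only [mul_assoc]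
      _ = y j * (g * u) := by rw [← pw_add (A.hexp z), add_neg_cancel, pw_zero, mul_one]

end

section
variable {E : Type*} [Group E] {p : ℕ} [Fact p.Prime]

theorem extend {n : ℕ} {x y : Fin n → E} {z : E} (A : Amb E p z) (G : Good x y z)
    (X : PM n p E x) (Y : PM n p E y) (g : E) (hgx : ∀ i, x i * g = g * x i)
    (hgy : ∀ j, g * y j = y j * g) (hg : ¬ ∀ k : E, k * g = g * k) :
    ∃ (x' y' : Fin (n + 1) → E), Good x' y' z := by
  push_neg at hg
  obtain ⟨w, hw⟩ := hg
  obtain ⟨t, htx, hty⟩ := adjust A G X Y w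
  have hgφ : g * phiFun z X Y t = phiFun z X Y t * g := by
    unfold phiFun
    have h1 : g * Y.f t.b = Y.f t.b * g := Y.comm_of hgy t.b
    have h2 : g * X.f t.a = X.f t.a * g := X.comm_of (fun i => (hgx i).symm) t.a
    calc g * (Y.f t.b * X.f t.a * pw z t.c) = (g * Y.f t.b) * X.f t.a * pw z t.c := by
          simp only [mul_assoc]
      _ = Y.f t.b * g * X.f t.a * pw z t.c := by rw [h1]
      _ = Y.f t.b * (g * X.f t.a) * pw z t.c := by simp only [mul_assoc]
      _ = Y.f t.b * (X.f t.a * g) * pw z t.c := by rw [h2]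
      _ = Y.f t.b * X.f t.a * (g * pw z t.c) := by simp only [mul_assoc]
      _ = Y.f t.b * X.f t.a * (pw z t.c * g) := by rw [pw_central A.hz t.c g]
      _ = Y.f t.b * X.f t.a * pw z t.c * g := by simp only [mul_assoc]
  generalize phiFun z X Y t = u at htx hty hgφ
  obtain ⟨γ, hγ⟩ := A.hcen (((w * u) * g)⁻¹ * (g * (w * u))) (fun k => A.hcm g (w * u) k)
  have hrel : g * (w * u) = (w * u) * g * pw z γ := by rw [← hγ]; group
  have hγ0 : γ ≠ 0 := by
    intro h0
    rw [h0, pw_zero, mul_one] at hrel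
    apply hw
    have h3 : g * w * u = w * g * u := by
      calc g * w * u = g * (w * u) := by rw [mul_assoc]
        _ = w * u * g := hrel
        _ = w * (u * g) := by rw [mul_assoc]
        _ = w * (g * u) := by rw [hgφ]
        _ = w * g * u := by rw [mul_assoc]
    exact (mul_right_cancel h3).symm
  have hrel2 : g * (w * u) ^ (γ⁻¹).val = (w * u) ^ (γ⁻¹).val * g * z := by
    have h4 := rel_pow_right (fun q => pw_central A.hz γ q) hrel (γ⁻¹).val
    rw [← pw_mul (A.hexp z), mul_inv_cancel₀ hγ0, pw_one] at h4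
    exact h4
  have hwx : ∀ i, x i * (w * u) ^ (γ⁻¹).val = (w * u) ^ (γ⁻¹).val * x i := fun i =>
    ((Commute.pow_right (show Commute (x i) (w * u) from htx i) _)).eq
  have hwy : ∀ j, (w * u) ^ (γ⁻¹).val * y j = y j * (w * u) ^ (γ⁻¹).val := fun j =>
    ((Commute.pow_left (show Commute (w * u) (y j) from hty j) _)).eq
  generalize (w * u) ^ (γ⁻¹).val = v at hrel2 hwx hwy
  refine ⟨(Fin.snoc x g : Fin (n + 1) → E), (Fin.snoc y v : Fin (n + 1) → E), ?_, ?_, ?_⟩
  · intro i j
    induction i using Fin.lastCases with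
    | last =>
      induction j using Fin.lastCases with
      | last => rfl
      | cast j => simp only [Fin.snoc_last, Fin.snoc_castSucc]; exact (hgx j).symm
    | cast i =>
      induction j using Fin.lastCases with
      | last => simp only [Fin.snoc_last, Fin.snoc_castSucc]; exact hgx i
      | cast j => simp only [Fin.snoc_castSucc]; exact G.xx i j
  · intro i j
    induction i using Fin.lastCases with
    | last =>
      induction j using Fin.lastCases with
      | last => rfl
      | cast j => simp only [Fin.snoc_last, Fin.snoc_castSucc]; exact hwy j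
    | cast i =>
      induction j using Fin.lastCases with
      | last => simp only [Fin.snoc_last, Fin.snoc_castSucc]; exact (hwy i).symm
      | cast j => simp only [Fin.snoc_castSucc]; exact G.yy i j
  · intro i j
    induction i using Fin.lastCases with
    | last =>
      induction j using Fin.lastCases with
      | last => simp only [Fin.snoc_last, if_true]; exact hrel2
      | cast j =>
        simp only [Fin.snoc_last, Fin.snoc_castSucc]
        rw [if_neg (Fin.castSucc_lt_last j).ne', mul_one]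
        exact hgy j
    | cast i =>
      induction j using Fin.lastCases with
      | last =>
        simp only [Fin.snoc_last, Fin.snoc_castSucc]
        rw [if_neg (Fin.castSucc_lt_last i).ne, mul_one]
        exact hwx i
      | cast j =>
        simp only [Fin.snoc_castSucc, Fin.castSucc_inj]
        exact G.xy i j

theorem exists_iso [Finite E] {z : E} (A : Amb E p z) : ∃ n, Nonempty (Heis n p ≃* E) := by
  classical
  have hP0 : ∃ (x y : Fin 0 → E), Good x y z :=
    ⟨fun i => i.elim0, fun i => i.elim0, ⟨fun i => i.elim0, fun i => i.elim0, fun i => i.elim0⟩⟩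
  have hbound : ∀ n, (∃ (x y : Fin n → E), Good x y z) → p ^ (1 + 2 * n) ≤ Nat.card E := by
    rintro n ⟨x, y, G⟩
    have hinj := phi_inj A G (mkPM A.hexp x G.xx) (mkPM A.hexp y G.yy)
    rw [← Heis.card_heis (n := n) (p := p)]
    exact Nat.card_le_card_of_injective _ hinj
  have hmax : ∃ n, (∃ (x y : Fin n → E), Good x y z) ∧
      ¬ ∃ (x y : Fin (n + 1) → E), Good x y z := by
    by_contra hcon
    push_neg at hcon
    have hall : ∀ n, ∃ (x y : Fin n → E), Good x y z := by
      intro n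
      induction n with
      | zero => exact hP0
      | succ n ih => exact hcon n ih
    have h1 := hbound (Nat.card E) (hall _)
    have h2 : Nat.card E < p ^ (1 + 2 * Nat.card E) := by
      calc Nat.card E < 2 ^ Nat.card E := Nat.lt_two_pow_self
        _ ≤ p ^ Nat.card E := Nat.pow_le_pow_left (Fact.out : p.Prime).two_le _
        _ ≤ p ^ (1 + 2 * Nat.card E) := Nat.pow_le_pow_right (Fact.out : p.Prime).pos (by omega)
    omega
  obtain ⟨n, ⟨x, y, G⟩, hno⟩ := hmax
  let X : PM n p E x := mkPM A.hexp x G.xx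
  let Y : PM n p E y := mkPM A.hexp y G.yy
  let Φ : Heis n p →* E := MonoidHom.mk' (phiFun z X Y) (phi_mul A G X Y)
  have hinj : Function.Injective Φ := phi_inj A G X Y
  have hsurj : Function.Surjective Φ := by
    intro g
    obtain ⟨t, htx, hty⟩ := adjust A G X Y g
    by_cases hcen : ∀ k : E, k * (g * phiFun z X Y t) = (g * phiFun z X Y t) * k
    · obtain ⟨c, hc⟩ := A.hcen _ hcen
      refine ⟨(⟨0, 0, c⟩ : Heis n p) * t⁻¹, ?_⟩
      rw [map_mul, map_inv]
      have h1 : Φ ⟨0, 0, c⟩ = pw z c := by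
        show Y.f 0 * X.f 0 * pw z c = pw z c
        rw [Y.zero, X.zero, one_mul, one_mul]
      rw [h1, ← hc]
      show g * phiFun z X Y t * (phiFun z X Y t)⁻¹ = g
      group
    · exfalso
      exact hno (extend A G X Y _ htx hty hcen)
  exact ⟨n, ⟨MulEquiv.ofBijective Φ ⟨hinj, hsurj⟩⟩⟩

theorem amb_of_extraspecial [Finite E] (h : Cfsg.IsExtraspecial p E)
    (he : Monoid.exponent E = p) : ∃ z : E, Amb E p z := by
  obtain ⟨⟨hP, hFr, hComm⟩, hZ⟩ := h
  have hexp : ∀ g : E, g ^ p = 1 := fun g => by rw [← he]; exact Monoid.pow_exponent_eq_one g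
  have hpp : p.Prime := Fact.out
  haveI : Nontrivial (Subgroup.center E) := by
    rw [← Finite.one_lt_card_iff_nontrivial, hZ]; exact hpp.one_lt
  obtain ⟨⟨z, hzm⟩, hz1⟩ := exists_ne (1 : Subgroup.center E)
  have hz1' : z ≠ 1 := fun h => hz1 (Subtype.ext h)
  have hzo : orderOf z = p := orderOf_eq_prime (hexp z) hz1'
  have hzp : Subgroup.zpowers z = Subgroup.center E := by
    apply Subgroup.eq_of_le_of_card_ge
    · rw [Subgroup.zpowers_le]; exact hzm
    · rw [Nat.card_zpowers, hzo, hZ]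
  refine ⟨z, hexp, fun g => (Subgroup.mem_center_iff.mp hzm g), hzo, ?_, ?_⟩
  · intro w hw
    have hwm : w ∈ Subgroup.zpowers z := by rw [hzp, Subgroup.mem_center_iff]; exact hw
    obtain ⟨k, hk⟩ := Subgroup.mem_zpowers_iff.mp hwm
    refine ⟨(k : ZMod p), ?_⟩
    unfold pw
    rw [← hk, ← zpow_natCast, ZMod.val_intCast]
    exact zpow_eq_zpow_emod k (by rw [zpow_natCast]; exact hexp z)
  · intro g h k
    have hmem : (h * g)⁻¹ * (g * h) ∈ Subgroup.center E := by
      rw [← hComm]
      have h1 := Subgroup.commutator_mem_commutator (Subgroup.mem_top g⁻¹) (Subgroup.mem_top h⁻¹)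
      rw [← commutator_def, commutatorElement_def] at h1
      have e : g⁻¹ * h⁻¹ * g⁻¹⁻¹ * h⁻¹⁻¹ = (h * g)⁻¹ * (g * h) := by group
      rw [← e]; exact h1
    exact Subgroup.mem_center_iff.mp hmem k

end

/-- For odd p, extraspecial p-groups of exponent p are determined up to isomorphism by their order. -/
theorem result {E₁ : Type*} {E₂ : Type*} [Group E₁] [Group E₂] [Finite E₁] [Finite E₂] {p : ℕ} [Fact p.Prime] (hp : p ≠ 2) (h₁ : Cfsg.IsExtraspecial p E₁) (h₂ : Cfsg.IsExtraspecial p E₂) (he₁ : Monoid.exponent E₁ = p) (he₂ : Monoid.exponent E₂ = p) (hc : Nat.card E₁ = Nat.card E₂) : Nonempty (E₁ ≃* E₂) := by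
  classical
  obtain ⟨z₁, A₁⟩ := amb_of_extraspecial h₁ he₁
  obtain ⟨z₂, A₂⟩ := amb_of_extraspecial h₂ he₂
  obtain ⟨n₁, ⟨e₁⟩⟩ := exists_iso A₁
  obtain ⟨n₂, ⟨e₂⟩⟩ := exists_iso A₂
  have hpp : p.Prime := Fact.out
  have h1 : p ^ (1 + 2 * n₁) = p ^ (1 + 2 * n₂) := by
    rw [← Heis.card_heis (n := n₁) (p := p), ← Heis.card_heis (n := n₂) (p := p),
      Nat.card_congr e₁.toEquiv, Nat.card_congr e₂.toEquiv, hc]
  have h2 : n₁ = n₂ := by
    have := Nat.pow_right_injective hpp.two_le h1
    omega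
  subst h2
  exact ⟨e₁.symm.trans e₂⟩

end Cfsg.Agent.S0098
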