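import Cfsg.Statements.S0164
import Mathlib
import Cfsg.Agent.Lib.Lead.SylowAux2
import Cfsg.Agent.Lib.Lead.BrauerInd

set_option autoImplicit false
open Cfsg Cfsg.Agent.Lib.Lead

namespace Cfsg.Agent.S0164

open scoped Pointwise commutatorElement

/-- Brauer's characterisation of characters: a class function on a finite group whose restriction to every elementary subgroup is a generalized character is a generalized character. -/
theorem result {G : Type*} [Group G] [Finite G] (θ : G → ℂ) (hθ : Cfsg.IsClassFunction G θ) (hE : ∀ (E : Subgroup G) (p : ℕ), p.Prime → Cfsg.IsElementary p E → Cfsg.IsGeneralizedCharacter E (fun e : E => θ e)) : Cfsg.IsGeneralizedCharacter G θ := by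
  classical
  haveI : Fintype G := Fintype.ofFinite _
  obtain ⟨l, hl, hsum⟩ := one_inBr (G := G)
  have e : θ = (fun _ : G => (1 : ℂ)) * θ := by funext g; simp
  rw [e, hsum]
  have key : ∀ l' : List ((E : Subgroup G) × ((E →* ℂˣ) × ℤ)),
      (∀ t ∈ l', ∃ p : ℕ, p.Prime ∧ Cfsg.IsElementary p t.1) →
      Cfsg.IsGeneralizedCharacter G
        ((l'.map fun t => (t.2.2 : ℂ) • Cfsg.indFun t.1 (fun e => (t.2.1 e : ℂ))).sum * θ) := by
    intro l'
    induction l' with
    | nil => intro _; rw [List.map_nil, List.sum_nil, zero_mul]; exact isGenChar_zero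
    | cons a l' ih =>
      intro h
      rw [List.map_cons, List.sum_cons, add_mul]
      apply isGenChar_add
      · obtain ⟨p, hp, hEl⟩ := h a (by simp)
        rw [smul_mul_assoc, ← indFun_mul_restrict a.1 _ θ hθ]
        have h1 : Cfsg.IsGeneralizedCharacter a.1
            ((fun e : a.1 => (a.2.1 e : ℂ)) * fun n : a.1 => θ n) := by
          rw [mul_comm]
          exact isGenChar_mul_char (hE a.1 p hp hEl) (isCharacter_of_hom a.2.1)
        have h2 := isGenChar_indFun a.1 h1
        exact isGenChar_zsmul_lead a.2.2 h2
      · exact ih (fun t ht => h t (List.mem_cons_of_mem _ ht))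
  exact key l hl

end Cfsg.Agent.S0164
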