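import Cfsg.Statements.S4425
import Mathlib
import Cfsg.Agent.Lib.Lead.SylowAux2
import Cfsg.Agent.Lib.Lead.PRegular
import Cfsg.Agent.Lib.Lead.CharZeros
import Cfsg.Agent.Lib.Lead.CharMichler2

set_option autoImplicit false
open Cfsg Cfsg.Agent.Lib.Lead

namespace Cfsg.Agent.S4425

open scoped Pointwise commutatorElement

/-- Let χ be an irreducible character of the finite group G, p a prime, p^a the p-part of the order of G and p^b the p-part of the degree χ(1). Let χ̃ be the class function equal to p^a · χ on p-regular elements and zero on p-singular elements. Then p^(−b) · χ̃ is a generalized character of G, while p^(−(b+1)) · χ̃ is not. -/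
theorem result {G : Type*} [Group G] [Finite G] (p : ℕ) [Fact p.Prime] (χ : Cfsg.IrrCharacter G) : Cfsg.IsGeneralizedCharacter G (fun x : G => if p ∣ orderOf x then (0 : ℂ) else ((p ^ ((Nat.card G).factorization p - (Cfsg.charDegree (χ : G → ℂ)).factorization p) : ℕ) : ℂ) * (χ : G → ℂ) x) ∧ ¬ Cfsg.IsGeneralizedCharacter G (fun x : G => if p ∣ orderOf x then (0 : ℂ) else ((p ^ (Nat.card G).factorization p : ℕ) : ℂ) / ((p ^ ((Cfsg.charDegree (χ : G → ℂ)).factorization p + 1) : ℕ) : ℂ) * (χ : G → ℂ) x) := by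
  classical
  haveI : Fintype G := Fintype.ofFinite _
  have hp : p.Prime := Fact.out
  have hχirr : Cfsg.IsIrrCharacter G (χ : G → ℂ) := χ.2
  have hχ := isCharacter_of_isIrrCharacter hχirr
  obtain ⟨hχ1, hD0⟩ := charDegree_irr hχirr
  obtain ⟨a, hadef⟩ : ∃ a : ℕ, a = (Nat.card G).factorization p := ⟨_, rfl⟩
  obtain ⟨D, hDdef⟩ : ∃ D : ℕ, D = Cfsg.charDegree (χ : G → ℂ) := ⟨_, rfl⟩
  obtain ⟨b₀, hb₀def⟩ : ∃ b₀ : ℕ, b₀ = D.factorization p := ⟨_, rfl⟩
  rw [← hDdef] at hχ1 hD0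
  rw [← hadef, ← hDdef, ← hb₀def]
  have hχ' := hχirr
  obtain ⟨r, ρ, hρirr, hρχ⟩ := hχ'
  haveI := hρirr
  have hr : Module.finrank ℂ (Fin r → ℂ) = r := Module.finrank_fin_fun ℂ
  have hDr : D = r := by
    have h1 : (χ : G → ℂ) 1 = r := by rw [← hρχ, Representation.char_one, hr]
    rw [hχ1] at h1
    exact_mod_cast h1
  have hDdvd : D ∣ Nat.card G := by
    rw [hDr]
    have h1 := degree_dvd_card ρ
    rw [hr] at h1; exact h1
  have hGpos : Nat.card G ≠ 0 := Nat.card_pos.ne'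
  have hb₀a : b₀ ≤ a := by
    have h1 : p ^ b₀ ∣ Nat.card G :=
      dvd_trans (by rw [hb₀def]; exact Nat.ordProj_dvd D p) hDdvd
    rw [hadef]
    exact (Nat.Prime.pow_dvd_iff_le_factorization hp hGpos).mp h1
  obtain ⟨t, htdef⟩ : ∃ t : ℕ, t = Nat.card G / p ^ (Nat.card G).factorization p := ⟨_, rfl⟩
  have hcardG : p ^ a * t = Nat.card G := by
    rw [htdef, hadef]; exact Nat.ordProj_mul_ordCompl_eq_self (Nat.card G) p
  have hpt : ¬ p ∣ t := by rw [htdef]; exact Nat.not_dvd_ordCompl hp hGpos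
  obtain ⟨f, hfdef⟩ : ∃ f : ℕ, f = D / p ^ D.factorization p := ⟨_, rfl⟩
  have hDf : p ^ b₀ * f = D := by
    rw [hfdef, hb₀def]; exact Nat.ordProj_mul_ordCompl_eq_self D p
  constructor
  · apply preg_genChar p (χ : G → ℂ) hχ (p ^ (a - b₀)) t hpt
    intro y k hk
    obtain ⟨cy, hcy⟩ := hk
    have hidx := Subgroup.card_mul_index (Subgroup.centralizer ({y} : Set G))
    have hω := isIntegral_class_char ρ y
    rw [hρχ, hr] at hω
    have hkey : (t : ℂ) * ((p ^ (a - b₀) : ℕ) : ℂ) * (χ : G → ℂ) y / ((p ^ k : ℕ) : ℂ) =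
        (((Subgroup.centralizer ({y} : Set G)).index : ℂ) * (χ : G → ℂ) y / (r : ℂ)) *
          ((cy * f : ℕ) : ℂ) := by
      have h0 : ((p ^ k : ℕ) : ℂ) ≠ 0 := by exact_mod_cast (pow_pos hp.pos k).ne'
      have hr0 : (r : ℂ) ≠ 0 := by rw [← hDr]; exact Nat.cast_ne_zero.mpr hD0
      have hnat : (Subgroup.centralizer ({y} : Set G)).index * (p ^ k * cy) * f =
          p ^ (a - b₀) * t * r := by
        have h1 : p ^ a = p ^ (a - b₀) * p ^ b₀ := by rw [← pow_add, Nat.sub_add_cancel hb₀a]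
        rw [← hcy, mul_comm (Subgroup.centralizer ({y} : Set G)).index, hidx, ← hcardG, h1,
          ← hDr, ← hDf]
        ring
      have hc : (((Subgroup.centralizer ({y} : Set G)).index : ℂ)) *
          (((p ^ k : ℕ) : ℂ) * (cy : ℂ)) * (f : ℂ) =
          ((p ^ (a - b₀) : ℕ) : ℂ) * (t : ℂ) * (r : ℂ) := by
        exact_mod_cast hnat
      rw [div_mul_eq_mul_div, div_eq_div_iff h0 hr0]
      push_cast
      push_cast at hc
      linear_combination (-(χ : G → ℂ) y) * hc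
    rw [hkey]
    exact IsIntegral.mul hω (isIntegral_natCast _)
  · intro hgen
    obtain ⟨φ, hφdef⟩ : ∃ φ : G → ℂ, φ = (fun x : G => if p ∣ orderOf x then (0 : ℂ) else
        ((p ^ a : ℕ) : ℂ) / ((p ^ (b₀ + 1) : ℕ) : ℂ) * (χ : G → ℂ) x) := ⟨_, rfl⟩
    rw [← hφdef] at hgen
    obtain ⟨χ₁, χ₂, h₁, h₂, heq⟩ := hgen
    obtain ⟨P⟩ : Nonempty (Sylow p G) := inferInstance
    haveI : Fintype (P : Subgroup G) := Fintype.ofFinite _
    have hcardP : Nat.card (P : Subgroup G) = p ^ a := by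
      rw [hadef]; exact P.card_eq_multiplicity
    obtain ⟨n₁, hn₁⟩ := classInner_char_char_nat (isCharacter_restrict (P : Subgroup G) h₁)
      (isCharacter_one (G := (P : Subgroup G)))
    obtain ⟨n₂, hn₂⟩ := classInner_char_char_nat (isCharacter_restrict (P : Subgroup G) h₂)
      (isCharacter_one (G := (P : Subgroup G)))
    have hres : Cfsg.classInner (fun h : (P : Subgroup G) => φ (h : G)) (fun _ => 1) =
        (n₁ : ℂ) - (n₂ : ℂ) := by
      have e : (fun h : (P : Subgroup G) => φ (h : G)) =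
          (fun h : (P : Subgroup G) => χ₁ h) - (fun h : (P : Subgroup G) => χ₂ h) := by
        funext h; rw [heq]; rfl
      rw [e, classInner_sub_left, hn₁, hn₂]
    have hsum : Cfsg.classInner (fun h : (P : Subgroup G) => φ (h : G)) (fun _ => 1) =
        (Nat.card (P : Subgroup G) : ℂ)⁻¹ * φ 1 := by
      unfold Cfsg.classInner
      congr 1
      rw [Finset.sum_eq_single (1 : (P : Subgroup G))]
      · simp
      · intro h _ hne
        have hdvd : p ∣ orderOf (h : G) := by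
          obtain ⟨k, hk⟩ := (IsPGroup.iff_orderOf.mp P.isPGroup') h
          rw [Subgroup.orderOf_coe, hk]
          apply dvd_pow_self
          intro hk0
          rw [hk0, pow_zero, orderOf_eq_one_iff] at hk
          exact hne hk
        have hφh : φ (h : G) = 0 := by rw [hφdef]; exact if_pos hdvd
        simp only [hφh, zero_mul]
      · intro h; exact absurd (Finset.mem_univ _) h
    have hφ1 : φ 1 = ((p ^ a : ℕ) : ℂ) / ((p ^ (b₀ + 1) : ℕ) : ℂ) * (D : ℂ) := by
      rw [hφdef]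
      have hnd : ¬ p ∣ orderOf (1 : G) := by
        rw [orderOf_one]; exact fun h => hp.one_lt.ne' (Nat.dvd_one.mp h)
      show (if p ∣ orderOf (1 : G) then (0 : ℂ) else
        ((p ^ a : ℕ) : ℂ) / ((p ^ (b₀ + 1) : ℕ) : ℂ) * (χ : G → ℂ) 1) = _
      rw [if_neg hnd, hχ1]
    rw [hres, hcardP, hφ1] at hsum
    have hpa0 : ((p ^ a : ℕ) : ℂ) ≠ 0 := by exact_mod_cast (pow_pos hp.pos a).ne'
    have hpb0 : ((p ^ (b₀ + 1) : ℕ) : ℂ) ≠ 0 := by
      exact_mod_cast (pow_pos hp.pos (b₀ + 1)).ne'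
    have h3 : (D : ℂ) = ((p ^ (b₀ + 1) : ℕ) : ℂ) * ((n₁ : ℂ) - (n₂ : ℂ)) := by
      rw [hsum]
      field_simp
    have h4 : (D : ℤ) = ((p ^ (b₀ + 1) : ℕ) : ℤ) * ((n₁ : ℤ) - (n₂ : ℤ)) := by
      exact_mod_cast h3
    have h5 : p ^ (b₀ + 1) ∣ D := by
      have h6 : ((p ^ (b₀ + 1) : ℕ) : ℤ) ∣ (D : ℤ) := ⟨_, h4⟩
      exact Int.natCast_dvd_natCast.mp h6
    have h7 := (Nat.Prime.pow_dvd_iff_le_factorization hp hD0).mp h5
    rw [← hb₀def] at h7
    omega

end Cfsg.Agent.S4425
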