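import Cfsg.Statements.S0967
import Mathlib
import Cfsg.Agent.Lib.Lead.SylowAux2
import Cfsg.Agent.Lib.Lead.BlockAux
import Cfsg.Agent.Lib.Helper8.CharQuotient

set_option autoImplicit false
open Cfsg Cfsg.Agent.Lib.Lead

namespace Cfsg.Agent.S0967

open scoped Pointwise commutatorElement

theorem sum_quot_fiber_lead {G : Type*} [Group G] [Fintype G] (N : Subgroup G) [N.Normal]
    [Fintype (G ⧸ N)] (F : G ⧸ N → ℂ) :
    ∑ g : G, F (g : G ⧸ N) = (Nat.card N : ℂ) * ∑ q : G ⧸ N, F q := by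
  classical
  rw [← Finset.sum_fiberwise Finset.univ (fun g : G => (g : G ⧸ N)), Finset.mul_sum]
  apply Finset.sum_congr rfl
  intro q _
  rw [Finset.sum_congr rfl (fun g hg => by rw [(Finset.mem_filter.mp hg).2]),
    Finset.sum_const, nsmul_eq_mul]
  congr 1
  have h := QuotientGroup.card_preimage_mk N ({q} : Set (G ⧸ N))
  have h1 : Nat.card ({q} : Set (G ⧸ N)) = 1 := by simp
  rw [h1, mul_one] at h
  have h2 : Nat.card {g : G // (g : G ⧸ N) = q} = Nat.card N := h
  rw [← h2, Nat.card_eq_fintype_card, Fintype.card_subtype]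

/-- Let N be a normal subgroup of the finite group G of order prime to p and fix a maximal ideal M of the algebraic integers containing p. If χ is an irreducible character of G ⧸ N and ψ lies in the block of its inflation χ ∘ (quotient map), then ψ is itself inflated from an irreducible character ψ' of G ⧸ N lying in the block of χ. (Over a normal p'-subgroup, blocks of the quotient are whole blocks of G.) -/
theorem result {G : Type*} [Group G] [Finite G] (p : ℕ) [Fact p.Prime] (M : Ideal Cfsg.AlgInt) (hM : Cfsg.IsPModular p M) (N : Subgroup G) [N.Normal] (hN : ¬ p ∣ Nat.card N) (χ : Cfsg.IrrCharacter (G ⧸ N)) (ψ : Cfsg.IrrCharacter G) (hψ : ψ ∈ Cfsg.blockOf M ((χ : G ⧸ N → ℂ) ∘ QuotientGroup.mk)) : ∃ ψ' : Cfsg.IrrCharacter (G ⧸ N), (ψ : G → ℂ) = (ψ' : G ⧸ N → ℂ) ∘ QuotientGroup.mk ∧ Cfsg.SameBlock M (χ : G ⧸ N → ℂ) (ψ' : G ⧸ N → ℂ) := by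
  classical
  haveI : Fintype G := Fintype.ofFinite G
  haveI : Fintype N := Fintype.ofFinite N
  haveI : Fintype (G ⧸ N) := Fintype.ofFinite _
  haveI : Fintype (ConjClasses G) := Fintype.ofFinite _
  have hp : p.Prime := Fact.out
  have hcop : (Nat.card N).Coprime p := ((Nat.Prime.coprime_iff_not_dvd hp).mpr hN).symm
  have hM' := hM
  obtain ⟨-, hMmax, hpM⟩ := hM'
  have hMprime : M.IsPrime := hMmax.isPrime
  have hMtop : M ≠ ⊤ := hMprime.ne_top
  have hNM : ((Nat.card N : ℕ) : Cfsg.AlgInt) ∉ M :=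
    natCast_not_mem_lead hMtop p (Nat.card N) hcop hpM
  have hN0 : (Nat.card N : ℂ) ≠ 0 := by exact_mod_cast Nat.card_pos.ne'
  have hχG : Cfsg.IsIrrCharacter G ((χ : G ⧸ N → ℂ) ∘ QuotientGroup.mk) :=
    isIrrCharacter_comp_surj (QuotientGroup.mk' N) (QuotientGroup.mk'_surjective N) χ.2
  have hSB : Cfsg.SameBlock M ((χ : G ⧸ N → ℂ) ∘ QuotientGroup.mk) (ψ : G → ℂ) := hψ
  have hmk1 : ∀ n : N, ((n : G) : G ⧸ N) = 1 := fun n =>
    (QuotientGroup.eq_one_iff (n : G)).mpr n.2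
  obtain ⟨d, hd0, hd⟩ := irr_one χ.2
  have hχ1 : (χ : G ⧸ N → ℂ) 1 ≠ 0 := by
    rw [hd]
    exact_mod_cast hd0
  have hres : (fun n : N => ((χ : G ⧸ N → ℂ) ∘ QuotientGroup.mk) (n : G)) =
      ((χ : G ⧸ N → ℂ) 1) • (fun _ : N => (1 : ℂ)) := by
    funext n
    show (χ : G ⧸ N → ℂ) ((n : G) : G ⧸ N) = (χ : G ⧸ N → ℂ) 1 • (1 : ℂ)
    rw [hmk1 n, smul_eq_mul, mul_one]
  have hcon0 : Cfsg.classInner (fun n : N => ((χ : G ⧸ N → ℂ) ∘ QuotientGroup.mk) (n : G))
      (fun _ : N => (1 : ℂ)) ≠ 0 := by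
    rw [hres, classInner_smul_left, classInner_irr_self (isIrrCharacter_one N), mul_one]
    exact hχ1
  have hcon := same_block_constituent_lead p M hM N hcop ⟨_, hχG⟩ ψ hSB
    ⟨fun _ => 1, isIrrCharacter_one N⟩ hcon0
  obtain ⟨e, he0, -, he⟩ := restrict_eq_smul_of_invariant N (ψ : G → ℂ) ψ.2
    (fun _ : N => (1 : ℂ)) (isIrrCharacter_one N) hcon (fun g n => rfl)
  have hψN : ∀ x ∈ N, (ψ : G → ℂ) x = (ψ : G → ℂ) 1 := by
    intro x hx
    have h1 := congrFun he ⟨x, hx⟩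
    have h2 := congrFun he ⟨1, N.one_mem⟩
    simp only [Pi.smul_apply] at h1 h2
    exact h1.trans h2.symm
  obtain ⟨φ, hφ, hψφ⟩ := Cfsg.Agent.Lib.Helper8.irr_deflate N ψ.2 hψN
  refine ⟨⟨φ, hφ⟩, hψφ, ?_⟩
  intro gb
  show Cfsg.MemLocalIdeal M (Cfsg.centralChar (χ : G ⧸ N → ℂ) gb - Cfsg.centralChar φ gb)
  have hχcl := isClassFunction_of_irr χ.2
  have hφcl := isClassFunction_of_irr hφ
  obtain ⟨δ, hδ⟩ : ∃ δ : ℂ, δ = (χ : G ⧸ N → ℂ) gb / (χ : G ⧸ N → ℂ) 1 - φ gb / φ 1 :=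
    ⟨_, rfl⟩
  have hF : ∀ g h : G, (if IsConj ((h * g * h⁻¹ : G) : G ⧸ N) gb then δ else 0) =
      (if IsConj ((g : G) : G ⧸ N) gb then δ else 0) := by
    intro g h
    have hc : IsConj ((g : G) : G ⧸ N) ((h * g * h⁻¹ : G) : G ⧸ N) :=
      isConj_iff.mpr ⟨(h : G ⧸ N), rfl⟩
    have hiff : IsConj ((h * g * h⁻¹ : G) : G ⧸ N) gb ↔ IsConj ((g : G) : G ⧸ N) gb :=
      ⟨fun h1 => hc.trans h1, fun h1 => hc.symm.trans h1⟩
    exact if_congr hiff rfl rfl
  have hreg : ∑ g : G, (if IsConj ((g : G) : G ⧸ N) gb then δ else 0) =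
      ∑ c : ConjClasses G, ((Subgroup.centralizer ({Quotient.out c} : Set G)).index : ℂ) *
        (if IsConj ((Quotient.out c : G) : G ⧸ N) gb then δ else 0) :=
    sum_classFun_regroup_lead (fun g : G => if IsConj ((g : G) : G ⧸ N) gb then δ else 0) hF
  have hfib : ∑ g : G, (if IsConj ((g : G) : G ⧸ N) gb then δ else 0) =
      (Nat.card N : ℂ) * ∑ q : G ⧸ N, (if IsConj q gb then δ else 0) :=
    sum_quot_fiber_lead N (fun x : G ⧸ N => if IsConj x gb then δ else 0)
  have hcount : ∑ q : G ⧸ N, (if IsConj q gb then δ else 0) =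
      ((Subgroup.centralizer ({gb} : Set (G ⧸ N))).index : ℂ) * δ := by
    rw [← Finset.sum_filter, Finset.sum_const, nsmul_eq_mul]
    have h3 := card_class_mul_card_centralizer gb
    have h4 := Subgroup.card_mul_index (Subgroup.centralizer ({gb} : Set (G ⧸ N)))
    have h5 : Nat.card {x : G ⧸ N // IsConj x gb} =
        (Subgroup.centralizer ({gb} : Set (G ⧸ N))).index := by
      have hpos : 0 < Nat.card (Subgroup.centralizer ({gb} : Set (G ⧸ N))) := Nat.card_pos
      apply Nat.eq_of_mul_eq_mul_right hpos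
      rw [h3, mul_comm, h4]
    congr 1
    rw [← h5, Nat.card_eq_fintype_card, Fintype.card_subtype]
  have hterm : ∀ c : ConjClasses G, Cfsg.MemLocalIdeal M
      (((Subgroup.centralizer ({Quotient.out c} : Set G)).index : ℂ) *
        (if IsConj ((Quotient.out c : G) : G ⧸ N) gb then δ else 0)) := by
    intro c
    by_cases hc : IsConj ((Quotient.out c : G) : G ⧸ N) gb
    · rw [if_pos hc]
      obtain ⟨k, hk⟩ := isConj_iff.mp hc
      have e1 : (χ : G ⧸ N → ℂ) ((Quotient.out c : G) : G ⧸ N) = (χ : G ⧸ N → ℂ) gb := by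
        rw [← hk]
        exact (hχcl _ k).symm
      have e2 : φ ((Quotient.out c : G) : G ⧸ N) = φ gb := by
        rw [← hk]
        exact (hφcl _ k).symm
      have h := hSB (Quotient.out c)
      have e3 : Cfsg.centralChar ((χ : G ⧸ N → ℂ) ∘ QuotientGroup.mk) (Quotient.out c) -
          Cfsg.centralChar (ψ : G → ℂ) (Quotient.out c) =
          ((Subgroup.centralizer ({Quotient.out c} : Set G)).index : ℂ) * δ := by
        rw [hψφ]
        show ((Subgroup.centralizer ({Quotient.out c} : Set G)).index : ℂ) *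
            (χ : G ⧸ N → ℂ) ((Quotient.out c : G) : G ⧸ N) / (χ : G ⧸ N → ℂ) 1 -
          ((Subgroup.centralizer ({Quotient.out c} : Set G)).index : ℂ) *
            φ ((Quotient.out c : G) : G ⧸ N) / φ 1 = _
        rw [e1, e2, hδ]
        ring
      rw [← e3]
      exact h
    · rw [if_neg hc, mul_zero]
      exact memLocalIdeal_zero_lead hMtop
  have hsum : Cfsg.MemLocalIdeal M (∑ c : ConjClasses G,
      ((Subgroup.centralizer ({Quotient.out c} : Set G)).index : ℂ) *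
        (if IsConj ((Quotient.out c : G) : G ⧸ N) gb then δ else 0)) := by
    apply memLocalIdeal_sum_lead hMprime
    intro c _
    exact hterm c
  have hfinal : Cfsg.centralChar (χ : G ⧸ N → ℂ) gb - Cfsg.centralChar φ gb =
      ((1 : Cfsg.AlgInt) : ℂ) / (((Nat.card N : ℕ) : Cfsg.AlgInt) : ℂ) *
        (∑ c : ConjClasses G, ((Subgroup.centralizer ({Quotient.out c} : Set G)).index : ℂ) *
          (if IsConj ((Quotient.out c : G) : G ⧸ N) gb then δ else 0)) := by
    rw [← hreg, hfib, hcount]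
    show ((Subgroup.centralizer ({gb} : Set (G ⧸ N))).index : ℂ) * (χ : G ⧸ N → ℂ) gb /
          (χ : G ⧸ N → ℂ) 1 -
        ((Subgroup.centralizer ({gb} : Set (G ⧸ N))).index : ℂ) * φ gb / φ 1 =
      (1 : ℂ) / (Nat.card N : ℂ) * ((Nat.card N : ℂ) *
        (((Subgroup.centralizer ({gb} : Set (G ⧸ N))).index : ℂ) * δ))
    rw [hδ, one_div, inv_mul_cancel_left₀ hN0]
    ring
  rw [hfinal]
  exact memLocalIdeal_div_mul_lead hMprime 1 _ hNM hsum

end Cfsg.Agent.S0967
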