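import Cfsg.Statements.S0862
import Mathlib
import Cfsg.Agent.Lib.Helper7.CharExt

set_option autoImplicit false
open Cfsg

namespace Cfsg.Agent.S0862

open Cfsg.Agent.Lib.Lead Cfsg.Agent.Lib.Helper7

/-- Let N be a normal subgroup of the finite group G and ϑ an irreducible character of N of degree d coprime to the index of N, which is the restriction of some irreducible character of G. Let μ be a character of G of degree 1 whose restriction to N is the determinantal character of ϑ. Then there is exactly one irreducible character χ of G restricting to ϑ whose determinantal character is μ. -/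
theorem result {G : Type*} [Group G] [Finite G] (N : Subgroup G) [N.Normal] (ϑ : N → ℂ) (hϑ : Cfsg.IsIrrCharacter N ϑ) (d : ℕ) (hd : ϑ 1 = d) (hcop : Nat.Coprime N.index d) (hext : ∃ η : G → ℂ, Cfsg.IsIrrCharacter G η ∧ (∀ n : N, η n = ϑ n)) (μ : G → ℂ) (hμ : Cfsg.IsCharacter G μ ∧ μ 1 = 1) (hμN : ∀ n : N, μ n = Cfsg.detChar ϑ n) : ∃! χ : G → ℂ, Cfsg.IsIrrCharacter G χ ∧ (∀ n : N, χ n = ϑ n) ∧ Cfsg.detChar χ = μ := by
  classical
  obtain ⟨η, hη, hηN⟩ := hext
  have hηc := isCharacter_of_isIrrCharacter hη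
  obtain ⟨μ', hμ'⟩ := exists_hom_of_linear (isIrrCharacter_of_linear hμ.1 hμ.2) hμ.2
  obtain ⟨δ, hδ⟩ := exists_detHom hηc
  have hresfun : (fun n : N => η n) = ϑ := funext hηN
  have hη1 : η 1 = d := by rw [← hd]; exact hηN 1
  have hδN : ∀ x : N, δ x = μ' x := by
    intro x
    apply Units.ext
    rw [← hδ]
    have h1 := detChar_restrict N hηc x
    rw [hresfun] at h1
    rw [← h1, ← hμN x, hμ']
  have hidx : N.index ≠ 0 := Subgroup.index_ne_zero_of_finite
  have hpow : ∀ g : G, g ^ N.index ∈ N := fun g => Subgroup.pow_index_mem N g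
  let γ : G →* ℂˣ := μ' * δ⁻¹
  have hγ : ∀ g, γ g = μ' g * (δ g)⁻¹ := fun g => rfl
  have hγN : ∀ x ∈ N, γ x = 1 := by
    intro x hx
    rw [hγ, hδN ⟨x, hx⟩, mul_inv_cancel]
  have hγpow : ∀ g, γ g ^ N.index = 1 := by
    intro g
    rw [← map_pow]
    exact hγN _ (hpow g)
  obtain ⟨u, -, hu⟩ := Nat.exists_mul_mod_eq_of_coprime 1 hcop.symm hidx
  have hγu : ∀ g, (γ g ^ u) ^ d = γ g := by
    intro g
    rw [← pow_mul, mul_comm, pow_eq_pow_mod (d * u) (hγpow g), hu,
      ← pow_eq_pow_mod 1 (hγpow g), pow_one]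
  let β : G →* ℂˣ := γ ^ u
  have hβ : ∀ g, β g = γ g ^ u := fun g => by
    show (γ ^ u) g = _
    rw [MonoidHom.pow_apply]
  have hβN : ∀ x ∈ N, β x = 1 := by
    intro x hx
    rw [hβ, hγN x hx, one_pow]
  let χ : G → ℂ := fun g => (β g : ℂ) * η g
  have hχ : Cfsg.IsIrrCharacter G χ := isIrr_twist β hη
  have hχN : ∀ n : N, χ n = ϑ n := by
    intro n
    show (β n : ℂ) * η n = ϑ n
    rw [hβN n n.2, Units.val_one, one_mul, hηN]
  have hχdet : Cfsg.detChar χ = μ := by
    have h1 := (detChar_twist β hηc d hη1).2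
    have h2 : Cfsg.detChar χ = fun g => (β g : ℂ) ^ d * Cfsg.detChar η g := h1
    rw [h2, hμ']
    funext g
    rw [hδ, hβ, ← Units.val_pow_eq_pow_val, hγu g, hγ, ← Units.val_mul, inv_mul_cancel_right]
  refine ⟨χ, ⟨hχ, hχN, hχdet⟩, ?_⟩
  rintro χ' ⟨hχ', hχ'N, hχ'det⟩
  have hχNirr : Cfsg.IsIrrCharacter N (fun n : N => χ n) := by
    rw [show (fun n : N => χ n) = ϑ from funext hχN]; exact hϑ
  obtain ⟨lam, hlamN, hlameq⟩ := gallagher_ext N hχ hχ' hχNirr (fun n => by rw [hχ'N, hχN])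
  have hχ1 : χ 1 = d := by rw [← hd]; exact hχN 1
  have h1 := (detChar_twist lam (isCharacter_of_isIrrCharacter hχ) d hχ1).2
  have hone : ∀ g, lam g = 1 := by
    intro g
    have h2 : Cfsg.detChar χ' g = (lam g : ℂ) ^ d * Cfsg.detChar χ g := by
      rw [hlameq]; exact congrFun h1 g
    rw [hχ'det, hχdet, hμ'] at h2
    have h3 : (lam g) ^ d = 1 := by
      apply Units.ext
      rw [Units.val_pow_eq_pow_val, Units.val_one]
      have h4 : ((lam g : ℂ) ^ d - 1) * (μ' g : ℂ) = 0 := by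
        rw [sub_mul, one_mul, ← h2, sub_self]
      rcases mul_eq_zero.1 h4 with h | h
      · exact sub_eq_zero.1 h
      · exact absurd h (Units.ne_zero _)
    have h5 : (lam g) ^ N.index = 1 := by
      rw [← map_pow]; exact hlamN _ (hpow g)
    have h6 : (lam g) ^ (Nat.gcd d N.index) = 1 := pow_gcd_eq_one.2 ⟨h3, h5⟩
    have h7 : Nat.gcd d N.index = 1 := hcop.symm
    rw [h7, pow_one] at h6
    exact h6
  rw [hlameq]
  funext g
  rw [hone g, Units.val_one, one_mul]

end Cfsg.Agent.S0862
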