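import Cfsg.Statements.S0866
import Mathlib
import Cfsg.Agent.Lib.Helper7.ExtGrp

set_option autoImplicit false
open Cfsg

namespace Cfsg.Agent.S0866

open Cfsg.Agent.Lib.Lead Cfsg.Agent.Lib.Helper7

universe u

/-- an invariant irreducible representation of degree prime to the index whose determinant
extends to a homomorphism of `G` extends to `G` (Schur–Zassenhaus in the group of
intertwining pairs with prescribed determinant) -/
theorem ext_of_det {G : Type u} [Group G] [Finite G] (N : Subgroup G) [hN : N.Normal] {n : ℕ}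
    (ρ : Representation ℂ N (Fin n → ℂ)) [ρ.IsIrreducible]
    (hinv : ∀ (g : G) (m : N), ρ.character (conjHom N g m) = ρ.character m)
    (hcop : Nat.Coprime N.index n) (μ : G →* ℂˣ)
    (hμ : ∀ m : N, (μ m : ℂ) = LinearMap.det (ρ m)) :
    ∃ χ : G → ℂ, Cfsg.IsIrrCharacter G χ ∧ ∀ m : N, χ m = ρ.character m := by
  classical
  have hn0 : 0 < n := by
    have h1 := finrank_pos_of_irr ρ
    rw [Module.finrank_fin_fun] at h1
    exact h1
  let detU : (Endn n)ˣ →* ℂˣ := Units.map (LinearMap.det : Endn n →* ℂ)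
  let δ : liftGrp N ρ →* ℂˣ := (detU.comp (liftRep N ρ)) * (μ.comp (liftProj N ρ))⁻¹
  have hδ : ∀ y, δ y = detU (liftRep N ρ y) * (μ (liftProj N ρ y))⁻¹ := fun y => rfl
  have hδker : ∀ y, y ∈ δ.ker ↔
      LinearMap.det ((liftRep N ρ y : (Endn n)ˣ) : Endn n) = (μ (liftProj N ρ y) : ℂ) := by
    intro y
    rw [MonoidHom.mem_ker, hδ, mul_inv_eq_one]
    constructor
    · intro h
      exact congrArg Units.val h
    · intro h
      exact Units.ext h
  obtain ⟨E₁, hE₁⟩ : ∃ E₁ : Subgroup (liftGrp N ρ), E₁ = δ.ker := ⟨_, rfl⟩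
  have hE₁mem : ∀ y, y ∈ E₁ ↔
      LinearMap.det ((liftRep N ρ y : (Endn n)ˣ) : Endn n) = (μ (liftProj N ρ y) : ℂ) := by
    intro y; rw [hE₁]; exact hδker y
  have hιmem : ∀ m : N, liftIncl N ρ m ∈ E₁ := by
    intro m
    rw [hE₁mem, liftRep_incl, liftProj_incl, hμ]
  let ι₁ : N →* E₁ := (liftIncl N ρ).codRestrict E₁ hιmem
  let π₁ : E₁ →* G := (liftProj N ρ).comp E₁.subtype
  let τ₁ : E₁ →* (Endn n)ˣ := (liftRep N ρ).comp E₁.subtype
  have hπ₁surj : Function.Surjective π₁ := by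
    intro g
    obtain ⟨P, hP⟩ := liftGrp_surj N ρ hinv g
    have hdet0 : LinearMap.det (P : Endn n) ≠ 0 := (detU P).ne_zero
    obtain ⟨a, ha⟩ := IsAlgClosed.exists_pow_nat_eq ((μ g : ℂ) / LinearMap.det (P : Endn n)) hn0
    have ha0 : a ≠ 0 := by
      rintro rfl
      rw [zero_pow hn0.ne'] at ha
      exact (div_ne_zero (μ g).ne_zero hdet0) ha.symm
    have hmem : ((g, scalarUnit n (Units.mk0 a ha0) * P) : G × (Endn n)ˣ) ∈ liftGrp N ρ := by
      have h1 := Subgroup.mul_mem _ (scalarUnit_mem N ρ (Units.mk0 a ha0)) hP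
      have h2 : (((1 : G), scalarUnit n (Units.mk0 a ha0)) : G × (Endn n)ˣ) *
          ((g, P) : G × (Endn n)ˣ) = (g, scalarUnit n (Units.mk0 a ha0) * P) := by
        rw [Prod.mk_mul_mk, one_mul]
      rw [h2] at h1; exact h1
    have hmem1 : (⟨_, hmem⟩ : liftGrp N ρ) ∈ E₁ := by
      rw [hE₁mem]
      show LinearMap.det (((scalarUnit n (Units.mk0 a ha0) * P : (Endn n)ˣ)) : Endn n) =
        (μ g : ℂ)
      rw [Units.val_mul, scalarUnit_val, smul_mul_assoc, one_mul, LinearMap.det_smul,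
        Module.finrank_fin_fun, Units.val_mk0, ha, div_mul_cancel₀ _ hdet0]
    exact ⟨⟨⟨_, hmem⟩, hmem1⟩, rfl⟩
  have hscal : ∀ y : E₁, π₁ y ∈ N → ∃ (m₀ : N) (c : ℂ), π₁ y = m₀ ∧
      ((τ₁ y : (Endn n)ˣ) : Endn n) = c • ρ m₀ ∧ c ^ n = 1 := by
    intro y hy
    have hmem : ((((⟨π₁ y, hy⟩ : N) : G), τ₁ y) : G × (Endn n)ˣ) ∈ liftGrp N ρ := y.1.2
    obtain ⟨c, hc⟩ := liftGrp_scalar N ρ ⟨π₁ y, hy⟩ (τ₁ y) hmem
    refine ⟨⟨π₁ y, hy⟩, c, rfl, hc, ?_⟩
    have h2 : LinearMap.det ((τ₁ y : (Endn n)ˣ) : Endn n) = (μ (π₁ y) : ℂ) :=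
      (hE₁mem y.1).1 y.2
    rw [hc, LinearMap.det_smul, Module.finrank_fin_fun] at h2
    have h4 : (μ (π₁ y) : ℂ) = LinearMap.det (ρ ⟨π₁ y, hy⟩) := hμ ⟨π₁ y, hy⟩
    have hne : LinearMap.det (ρ ⟨π₁ y, hy⟩) ≠ 0 := by
      rw [← h4]; exact (μ (π₁ y)).ne_zero
    rw [h4] at h2
    exact mul_right_cancel₀ hne (h2.trans (one_mul _).symm)
  have hfinker : Finite π₁.ker := by
    have hfinroots : Finite {z : ℂ // z ^ n = 1} := by
      have h1 : {z : ℂ | z ^ n = 1}.Finite := by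
        apply Set.Finite.subset (Polynomial.nthRoots n (1 : ℂ)).toFinset.finite_toSet
        intro z hz
        rw [Finset.mem_coe, Multiset.mem_toFinset, Polynomial.mem_nthRoots hn0]
        exact hz
      exact h1.to_subtype
    have hker_scal : ∀ y : π₁.ker, ∃ c : ℂ,
        ((τ₁ y.1 : (Endn n)ˣ) : Endn n) = c • (1 : Endn n) ∧ c ^ n = 1 := by
      intro y
      have hy1 : π₁ y.1 = 1 := y.2
      obtain ⟨m₀, c, h1, h2, h3⟩ := hscal y.1 (by rw [hy1]; exact N.one_mem)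
      have hm₀ : m₀ = 1 := Subtype.ext (h1.symm.trans hy1)
      rw [hm₀, map_one] at h2
      exact ⟨c, h2, h3⟩
    let φ : π₁.ker → {z : ℂ // z ^ n = 1} := fun y =>
      ⟨Classical.choose (hker_scal y), (Classical.choose_spec (hker_scal y)).2⟩
    have hφ : Function.Injective φ := by
      intro y y' hyy
      have h1 := (Classical.choose_spec (hker_scal y)).1
      have h2 := (Classical.choose_spec (hker_scal y')).1
      have hc : Classical.choose (hker_scal y) = Classical.choose (hker_scal y') :=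
        congrArg Subtype.val hyy
      rw [hc, ← h2] at h1
      apply Subtype.ext; apply Subtype.ext; apply Subtype.ext
      apply Prod.ext
      · exact (y.2 : π₁ y.1 = 1).trans (y'.2 : π₁ y'.1 = 1).symm
      · exact Units.ext h1
    exact Finite.of_injective φ hφ
  haveI hfinE : Finite E₁ := by
    have h1 := Subgroup.card_mul_index π₁.ker
    have h2 : π₁.ker.index = Nat.card G := by
      rw [Subgroup.index_ker, MonoidHom.range_eq_top.2 hπ₁surj, Subgroup.card_top]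
    have h3 : Nat.card E₁ ≠ 0 := by
      rw [← h1, h2]
      exact mul_ne_zero Nat.card_pos.ne' Nat.card_pos.ne'
    exact Nat.finite_of_card_ne_zero h3
  obtain ⟨Nh, hNhdef⟩ : ∃ Nh : Subgroup E₁, Nh = ι₁.range := ⟨_, rfl⟩
  have hNhmem : ∀ m : N, ι₁ m ∈ Nh := fun m => by rw [hNhdef]; exact ⟨m, rfl⟩
  haveI hNh : Nh.Normal := by
    rw [hNhdef]
    constructor
    rintro x ⟨m, rfl⟩ y
    refine ⟨conjHom N (π₁ y) m, ?_⟩
    apply Subtype.ext
    show liftIncl N ρ (conjHom N (liftProj N ρ y.1) m) = y.1 * liftIncl N ρ m * y.1⁻¹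
    exact (liftIncl_conj N ρ y.1 m).symm
  obtain ⟨W, hWdef⟩ : ∃ W : Subgroup E₁, W = N.comap π₁ := ⟨_, rfl⟩
  have hWmem : ∀ y, y ∈ W ↔ π₁ y ∈ N := fun y => by rw [hWdef]; exact Iff.rfl
  haveI hW : W.Normal := by rw [hWdef]; exact hN.comap π₁
  obtain ⟨q, hq⟩ : ∃ q : E₁ →* E₁ ⧸ Nh, q = QuotientGroup.mk' Nh := ⟨_, rfl⟩
  have hqsurj : Function.Surjective q := by rw [hq]; exact QuotientGroup.mk'_surjective Nh
  have hqone : ∀ y, q y = 1 ↔ y ∈ Nh := by
    intro y; rw [hq]; exact QuotientGroup.eq_one_iff y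
  obtain ⟨Wb, hWbdef⟩ : ∃ Wb : Subgroup (E₁ ⧸ Nh), Wb = W.map q := ⟨_, rfl⟩
  haveI hWb : Wb.Normal := by rw [hWbdef]; exact hW.map q hqsurj
  have hNhW : Nh ≤ W := by
    rw [hNhdef]
    rintro x ⟨m, rfl⟩
    rw [hWmem]
    exact m.2
  have hidx : Wb.index = N.index := by
    have h1 : Wb.index = W.index := by
      rw [hWbdef]
      apply Subgroup.index_map_eq _ hqsurj
      rw [hq, QuotientGroup.ker_mk']; exact hNhW
    rw [h1, hWdef]
    exact Subgroup.index_comap_of_surjective N hπ₁surj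
  have hcopW : Nat.Coprime (Nat.card Wb) Wb.index := by
    rw [hidx]
    by_contra hnc
    obtain ⟨p, hp, hp1, hp2⟩ := Nat.Prime.not_coprime_iff_dvd.1 hnc
    haveI : Fact p.Prime := ⟨hp⟩
    obtain ⟨x, hx⟩ := exists_prime_orderOf_dvd_card' p hp1
    have hx2 : (x : E₁ ⧸ Nh) ∈ W.map q := by rw [← hWbdef]; exact x.2
    obtain ⟨w, hwW, hwx⟩ := hx2
    obtain ⟨m₀, c, h1, h2, h3⟩ := hscal w ((hWmem w).1 hwW)
    have hwn : w ^ n = ι₁ (m₀ ^ n) := by
      apply Subtype.ext; apply Subtype.ext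
      apply Prod.ext
      · show (π₁ (w ^ n)) = ((m₀ ^ n : N) : G)
        rw [map_pow, h1, Subgroup.coe_pow]
      · apply Units.ext
        show ((τ₁ (w ^ n) : (Endn n)ˣ) : Endn n) =
          ((MonoidHom.toHomUnits ρ (m₀ ^ n) : (Endn n)ˣ) : Endn n)
        rw [MonoidHom.coe_toHomUnits, map_pow ρ, map_pow τ₁, Units.val_pow_eq_pow_val, h2,
          smul_pow, h3, one_smul]
    have hxn : x ^ n = 1 := by
      apply Subtype.ext
      rw [Subgroup.coe_pow, ← hwx, ← map_pow, hwn]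
      show q (ι₁ (m₀ ^ n)) = 1
      exact (hqone _).2 (hNhmem _)
    have hpn : p ∣ n := by rw [← hx]; exact orderOf_dvd_of_pow_eq_one hxn
    have h5 := Nat.dvd_gcd hp2 hpn
    rw [hcop.gcd_eq_one] at h5
    exact hp.one_lt.ne' (Nat.dvd_one.1 h5)
  obtain ⟨Kb, hKb⟩ := Subgroup.exists_right_complement'_of_coprime hcopW
  obtain ⟨K, hKdef⟩ : ∃ K : Subgroup E₁, K = Kb.comap q := ⟨_, rfl⟩
  have hKmem : ∀ y, y ∈ K ↔ q y ∈ Kb := fun y => by rw [hKdef]; exact Iff.rfl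
  have hιK : ∀ m : N, ι₁ m ∈ K := by
    intro m
    rw [hKmem, (hqone _).2 (hNhmem m)]
    exact Kb.one_mem
  apply ext_of_section N ρ π₁ τ₁ ι₁ (fun m => rfl) (fun m => liftRep_incl N ρ m) K hιK
  · intro g
    obtain ⟨x, hx⟩ := hπ₁surj g
    obtain ⟨⟨⟨wb, hwb⟩, ⟨kb, hkb⟩⟩, hprod⟩ := hKb.2 (q x)
    have hprod' : wb * kb = q x := hprod
    have hwb' : wb ∈ W.map q := by rw [← hWbdef]; exact hwb
    obtain ⟨w, hwW, rfl⟩ := hwb'
    have hk : w⁻¹ * x ∈ K := by
      rw [hKmem, map_mul, map_inv, ← hprod', inv_mul_cancel_left]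
      exact hkb
    have hwN : π₁ w ∈ N := (hWmem w).1 hwW
    refine ⟨ι₁ ⟨π₁ w, hwN⟩ * (w⁻¹ * x), K.mul_mem (hιK _) hk, ?_⟩
    rw [map_mul, map_mul, map_inv, hx]
    show π₁ w * ((π₁ w)⁻¹ * g) = g
    rw [mul_inv_cancel_left]
  · intro k hk hπk
    have hkW : k ∈ W := by rw [hWmem, hπk]; exact N.one_mem
    have hqk : q k ∈ Wb ⊓ Kb := by
      refine ⟨?_, (hKmem k).1 hk⟩
      rw [hWbdef]; exact ⟨k, hkW, rfl⟩
    have hdisj := hKb.disjoint
    rw [disjoint_iff] at hdisj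
    rw [hdisj] at hqk
    have hqk1 : q k = 1 := Subgroup.mem_bot.1 hqk
    have hkNh : k ∈ Nh := (hqone k).1 hqk1
    rw [hNhdef] at hkNh
    obtain ⟨m, rfl⟩ := hkNh
    have hm : m = 1 := Subtype.ext hπk
    rw [hm, map_one]

/-- Let N be a normal subgroup of the finite group G and ϑ an irreducible character of N, invariant under conjugation by G, of degree d coprime to the index of N. Then ϑ is the restriction of an irreducible character of G if and only if the determinantal character of ϑ is the restriction of a character of G of degree 1. -/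
theorem result {G : Type*} [Group G] [Finite G] (N : Subgroup G) [hN : N.Normal] (ϑ : N → ℂ) (hϑ : Cfsg.IsIrrCharacter N ϑ) (hinv : ∀ (g : G) (n : N), ϑ ⟨g * n * g⁻¹, hN.conj_mem (n : G) n.2 g⟩ = ϑ n) (d : ℕ) (hd : ϑ 1 = d) (hcop : Nat.Coprime N.index d) : (∃ χ : G → ℂ, Cfsg.IsIrrCharacter G χ ∧ (∀ n : N, χ n = ϑ n)) ↔ ∃ μ : G → ℂ, Cfsg.IsCharacter G μ ∧ μ 1 = 1 ∧ ∀ n : N, μ n = Cfsg.detChar ϑ n := by
  constructor
  · rintro ⟨χ, hχ, hχN⟩
    have hχc := isCharacter_of_isIrrCharacter hχ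
    obtain ⟨δ, hδ⟩ := exists_detHom hχc
    refine ⟨Cfsg.detChar χ, ?_, detChar_one hχc, ?_⟩
    · have h1 := isCharacter_of_isIrrCharacter (isIrr_twist δ (isIrrCharacter_one G))
      have h2 : Cfsg.detChar χ = fun g => (δ g : ℂ) * (fun _ => (1 : ℂ)) g := by
        funext g
        rw [hδ, mul_one]
      rw [h2]; exact h1
    · intro n
      have h1 := detChar_restrict N hχc n
      rw [show (fun n : N => χ n) = ϑ from funext hχN] at h1
      exact h1.symm
  · rintro ⟨μ, hμ, hμ1, hμN⟩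
    obtain ⟨n, ρ, hρ, rfl⟩ := hϑ
    haveI := hρ
    have hnd : n = d := by
      have h1 : ρ.character 1 = (n : ℂ) := by
        show LinearMap.trace ℂ (Fin n → ℂ) (ρ 1) = n
        rw [map_one]
        show LinearMap.trace ℂ (Fin n → ℂ) LinearMap.id = n
        rw [LinearMap.trace_id, Module.finrank_fin_fun]
      rw [h1] at hd
      exact_mod_cast hd
    subst hnd
    obtain ⟨μh, hμh⟩ := exists_hom_of_linear (isIrrCharacter_of_linear hμ hμ1) hμ1
    subst hμh
    have hdet : ∀ m : N, (μh m : ℂ) = LinearMap.det (ρ m) := by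
      intro m
      have h1 := hμN m
      rw [detChar_of_rep] at h1
      exact h1
    exact ext_of_det N ρ (fun g m => hinv g m) hcop μh hdet

end Cfsg.Agent.S0866
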