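import Cfsg.Statements.S0867
import Mathlib
import Cfsg.Agent.Lib.Helper7.ExtGrp
import Cfsg.Agent.S0862
import Cfsg.Agent.S0865
import Cfsg.Agent.S0866

set_option autoImplicit false
open Cfsg

namespace Cfsg.Agent.S0867

open Cfsg.Agent.Lib.Lead Cfsg.Agent.Lib.Helper7

universe u

/-- the determinantal character of a character is a character of degree one -/
theorem detChar_isLinear {H : Type u} [Group H] [Finite H] {φ : H → ℂ}
    (hφ : Cfsg.IsCharacter H φ) :
    Cfsg.IsCharacter H (Cfsg.detChar φ) ∧ Cfsg.detChar φ 1 = 1 := by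
  obtain ⟨δ, hδ⟩ := exists_detHom hφ
  refine ⟨?_, detChar_one hφ⟩
  have h1 := isCharacter_of_isIrrCharacter (isIrr_twist δ (isIrrCharacter_one H))
  have h2 : Cfsg.detChar φ = fun g => (δ g : ℂ) * (fun _ => (1 : ℂ)) g := by
    funext g; rw [hδ, mul_one]
  rw [h2]; exact h1

/-- Let N be a normal subgroup of the finite group G and ϑ an irreducible character of N of degree d, invariant under conjugation by G, such that the index of N is coprime to the product of d and the determinantal order of ϑ. Then there is an irreducible character χ of G restricting to ϑ whose determinantal order equals that of ϑ, and χ is the only irreducible character of G restricting to ϑ whose determinantal order is coprime to the index of N. -/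
theorem result {G : Type*} [Group G] [Finite G] (N : Subgroup G) [hN : N.Normal] (ϑ : N → ℂ) (hϑ : Cfsg.IsIrrCharacter N ϑ) (hinv : ∀ (g : G) (n : N), ϑ ⟨g * n * g⁻¹, hN.conj_mem (n : G) n.2 g⟩ = ϑ n) (d : ℕ) (hd : ϑ 1 = d) (hcop : Nat.Coprime N.index (Cfsg.detOrder ϑ * d)) : ∃ χ : G → ℂ, (Cfsg.IsIrrCharacter G χ ∧ (∀ n : N, χ n = ϑ n) ∧ Cfsg.detOrder χ = Cfsg.detOrder ϑ) ∧ ∀ χ' : G → ℂ, Cfsg.IsIrrCharacter G χ' → (∀ n : N, χ' n = ϑ n) → Nat.Coprime N.index (Cfsg.detOrder χ') → χ' = χ := by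
  classical
  have hϑc := isCharacter_of_isIrrCharacter hϑ
  have hcop_o : Nat.Coprime N.index (orderOf (Cfsg.detChar ϑ)) :=
    Nat.Coprime.coprime_mul_right_right hcop
  have hcop_d : Nat.Coprime N.index d := Nat.Coprime.coprime_mul_left_right hcop
  have hlam := detChar_isLinear hϑc
  have hlaminv : ∀ (g : G) (n : N),
      Cfsg.detChar ϑ ⟨g * n * g⁻¹, hN.conj_mem (n : G) n.2 g⟩ = Cfsg.detChar ϑ n := by
    intro g n
    have h1 := detChar_comp (conjHom N g) hϑc
    have h2 : ϑ ∘ conjHom N g = ϑ := by funext x; exact hinv g x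
    rw [h2] at h1
    exact (congrFun h1 n).symm
  obtain ⟨μ, ⟨hμc, hμ1, hμN, hμord⟩, hμuniq⟩ :=
    Cfsg.Agent.S0865.result N (Cfsg.detChar ϑ) hlam hlaminv hcop_o
  have hext : ∃ η : G → ℂ, Cfsg.IsIrrCharacter G η ∧ ∀ n : N, η n = ϑ n :=
    (Cfsg.Agent.S0866.result N ϑ hϑ hinv d hd hcop_d).2 ⟨μ, hμc, hμ1, hμN⟩
  obtain ⟨χ, ⟨hχ, hχN, hχdet⟩, hχuniq⟩ :=
    Cfsg.Agent.S0862.result N ϑ hϑ d hd hcop_d hext μ ⟨hμc, hμ1⟩ hμN
  refine ⟨χ, ⟨hχ, hχN, ?_⟩, ?_⟩
  · show orderOf (Cfsg.detChar χ) = orderOf (Cfsg.detChar ϑ)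
    rw [hχdet, hμord]
  · intro χ' hχ' hχ'N hχ'cop
    have hχ'c := isCharacter_of_isIrrCharacter hχ'
    have hlin' := detChar_isLinear hχ'c
    have hres : ∀ n : N, Cfsg.detChar χ' n = Cfsg.detChar ϑ n := by
      intro n
      have h1 := detChar_restrict N hχ'c n
      rw [show (fun n : N => χ' n) = ϑ from funext hχ'N] at h1
      exact h1.symm
    have hμ' : Cfsg.detChar χ' = μ := hμuniq (Cfsg.detChar χ') hlin' hres hχ'cop
    exact hχuniq χ' ⟨hχ', hχ'N, hμ'⟩

end Cfsg.Agent.S0867
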