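import Cfsg.Statements.S0888
import Mathlib
import Cfsg.Agent.Lib.Helper7.ExtGrp2

set_option autoImplicit false
open Cfsg

namespace Cfsg.Agent.S0888

open Cfsg.Agent.Lib.Lead Cfsg.Agent.Lib.Helper7

/-- Let N be a normal subgroup of the finite group G and ϑ an irreducible character of N invariant under conjugation by G. Suppose that for every prime p there are a subgroup P containing N, of index prime to p and with the index of N in P a power of p, and an irreducible character of P restricting to ϑ. Then ϑ is the restriction of an irreducible character of G. -/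
theorem result {G : Type*} [Group G] [Finite G] (N : Subgroup G) [hN : N.Normal] (ϑ : N → ℂ) (hϑ : Cfsg.IsIrrCharacter N ϑ) (hinv : ∀ (g : G) (n : N), ϑ ⟨g * n * g⁻¹, hN.conj_mem (n : G) n.2 g⟩ = ϑ n) (hsyl : ∀ p : ℕ, p.Prime → ∃ (P : Subgroup G) (hNP : N ≤ P) (η : P → ℂ), Nat.Coprime P.index p ∧ (∃ k : ℕ, N.relIndex P = p ^ k) ∧ Cfsg.IsIrrCharacter P η ∧ ∀ n : N, η ⟨(n : G), hNP n.2⟩ = ϑ n) : ∃ χ : G → ℂ, Cfsg.IsIrrCharacter G χ ∧ ∀ n : N, χ n = ϑ n := by
  classical
  obtain ⟨n, ρ, hρ, rfl⟩ := hϑ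
  haveI := hρ
  have hn0 : 0 < n := by
    have h1 := finrank_pos_of_irr ρ
    rw [Module.finrank_fin_fun] at h1
    exact h1
  have hinv' : ∀ (g : G) (m : N), ρ.character (conjHom N g m) = ρ.character m :=
    fun g m => hinv g m
  obtain ⟨M, hMdef⟩ : ∃ M, M = Nat.card G := ⟨_, rfl⟩
  have hM0 : 0 < M := by rw [hMdef]; exact Nat.card_pos
  have hMdet : ∀ m : N, LinearMap.det (ρ m) ^ M = 1 := by
    intro m
    have h1 : m ^ M = 1 := by
      apply Subtype.ext
      rw [Subgroup.coe_pow, hMdef]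
      exact pow_card_eq_one'
    rw [← map_pow, ← map_pow, h1, map_one, map_one]
  haveI : Finite (finGrp N ρ M) := finGrp_finite N ρ hinv' M hM0
  have hπsurj := finProj_surj N ρ hinv' M
  haveI := finD_normal N ρ M
  obtain ⟨lam, hlam⟩ := exists_finLam N ρ M hn0
  have hlaminv := finLam_inv N ρ M hn0 lam hlam
  have hsyl' : ∀ p : ℕ, p.Prime → ∃ (H : Subgroup (finGrp N ρ M)) (hDH : finD N ρ M ≤ H)
      (ν : H →* ℂˣ), Nat.Coprime H.index p ∧
      ∀ y : finD N ρ M, ν ⟨(y : finGrp N ρ M), hDH y.2⟩ = lam y := by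
    intro p hp
    obtain ⟨P, hNP, η, hcop, -, hη, hηN⟩ := hsyl p hp
    obtain ⟨n', σ, hσ, rfl⟩ := hη
    have hnn : n' = n := by
      have h1 := hηN 1
      have h2 : σ.character 1 = (n' : ℂ) := by
        show LinearMap.trace ℂ (Fin n' → ℂ) (σ 1) = n'
        rw [map_one]
        show LinearMap.trace ℂ (Fin n' → ℂ) LinearMap.id = n'
        rw [LinearMap.trace_id, Module.finrank_fin_fun]
      have h3 : ρ.character 1 = (n : ℂ) := by
        show LinearMap.trace ℂ (Fin n → ℂ) (ρ 1) = n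
        rw [map_one]
        show LinearMap.trace ℂ (Fin n → ℂ) LinearMap.id = n
        rw [LinearMap.trace_id, Module.finrank_fin_fun]
      have h4 : σ.character (⟨((1 : N) : G), hNP (1 : N).2⟩ : P) = σ.character 1 := rfl
      rw [h4, h2, h3] at h1
      exact_mod_cast h1
    subst hnn
    let σN : Representation ℂ N (Fin n' → ℂ) := σ.comp (Subgroup.inclusion hNP)
    have hchar : ρ.character = σN.character := by
      funext m
      exact (hηN m).symm
    obtain ⟨e⟩ := equiv_of_char_eq ρ σN hchar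
    obtain ⟨Pe, hPe⟩ : ∃ Pe : (Endn n')ˣ, Pe =
        LinearMap.GeneralLinearGroup.ofLinearEquiv e.toLinearEquiv := ⟨_, rfl⟩
    have hPeval : ∀ m : N, (Pe : Endn n') * ρ m = σ (Subgroup.inclusion hNP m) * (Pe : Endn n') := by
      intro m
      rw [hPe]
      exact e.isIntertwining' m
    -- the extension to `P` normalised to restrict to `ρ`
    let Y : P →* (Endn n')ˣ :=
      (MulAut.conj (Pe⁻¹)).toMonoidHom.comp (MonoidHom.toHomUnits σ)
    have hYval : ∀ g : P, ((Y g : (Endn n')ˣ) : Endn n') =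
        ((Pe⁻¹ : (Endn n')ˣ) : Endn n') * σ g * (Pe : Endn n') := by
      intro g
      show (((Pe⁻¹ * MonoidHom.toHomUnits σ g * Pe⁻¹⁻¹ : (Endn n')ˣ)) : Endn n') = _
      rw [inv_inv, Units.val_mul, Units.val_mul, MonoidHom.coe_toHomUnits]
    have hYN : ∀ m : N, ((Y (Subgroup.inclusion hNP m) : (Endn n')ˣ) : Endn n') = ρ m := by
      intro m
      rw [hYval, mul_assoc, ← hPeval m, ← mul_assoc, Units.inv_mul, one_mul]
    have hYN' : ∀ m : N, Y (Subgroup.inclusion hNP m) = MonoidHom.toHomUnits ρ m := by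
      intro m
      apply Units.ext
      rw [hYN, MonoidHom.coe_toHomUnits]
    obtain ⟨H, hHdef⟩ : ∃ H : Subgroup (finGrp N ρ M), H = P.comap (finProj N ρ M) := ⟨_, rfl⟩
    have hHmem : ∀ x, x ∈ H ↔ finProj N ρ M x ∈ P := fun x => by rw [hHdef]; exact Iff.rfl
    have hDH : finD N ρ M ≤ H := by
      intro y hy
      rw [hHmem]
      exact hNP hy
    let πH : H →* P := ((finProj N ρ M).comp H.subtype).codRestrict P
      (fun x => (hHmem x.1).1 x.2)
    -- the graph of `Y` lies in the intertwining group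
    have hgraph : ∀ g : P, (((g : G), Y g) : G × (Endn n')ˣ) ∈ liftGrp N ρ := by
      intro g
      rw [mem_liftGrp]
      intro m
      show ((Y g : (Endn n')ˣ) : Endn n') * ρ m = ρ (conjHom N (g : G) m) * ((Y g : (Endn n')ˣ) : Endn n')
      rw [← hYN m, ← hYN (conjHom N (g : G) m), ← Units.val_mul, ← Units.val_mul, ← map_mul,
        ← map_mul]
      congr 2
      apply Subtype.ext
      show (g : G) * (m : G) = (g : G) * (m : G) * (g : G)⁻¹ * (g : G)
      rw [inv_mul_cancel_right]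
    have hratio : ∀ x : H, ∃ c : ℂ, ((finRep N ρ M x.1 : (Endn n')ˣ) : Endn n') =
        c • ((Y (πH x) : (Endn n')ˣ) : Endn n') := by
      intro x
      have h1 : (x.1.1 : G × (Endn n')ˣ) * (((πH x : P) : G), Y (πH x))⁻¹ ∈ liftGrp N ρ :=
        Subgroup.mul_mem _ x.1.1.2 (Subgroup.inv_mem _ (hgraph (πH x)))
      have h2 : (x.1.1 : G × (Endn n')ˣ) * (((πH x : P) : G), Y (πH x))⁻¹ =
          ((((1 : N) : G)), finRep N ρ M x.1 * (Y (πH x))⁻¹) := by
        apply Prod.ext
        · show finProj N ρ M x.1 * (finProj N ρ M x.1)⁻¹ = 1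
          rw [mul_inv_cancel]
        · rfl
      rw [h2] at h1
      obtain ⟨c, hc⟩ := liftGrp_scalar N ρ 1 _ h1
      rw [map_one, Units.val_mul] at hc
      refine ⟨c, ?_⟩
      have h3 : ((finRep N ρ M x.1 : (Endn n')ˣ) : Endn n') =
          ((finRep N ρ M x.1 : (Endn n')ˣ) : Endn n') * (((Y (πH x))⁻¹ : (Endn n')ˣ) : Endn n') *
            ((Y (πH x) : (Endn n')ˣ) : Endn n') := by
        rw [mul_assoc, Units.inv_mul, mul_one]
      rw [h3, hc, smul_mul_assoc, one_mul]
    obtain ⟨ν, hν⟩ := scalar_ratio_hom hn0 ((finRep N ρ M).comp H.subtype) (Y.comp πH) hratio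
    refine ⟨H, hDH, ν, ?_, ?_⟩
    · have h1 : H.index = P.index := by
        rw [hHdef]; exact Subgroup.index_comap_of_surjective P hπsurj
      rw [h1]; exact hcop
    · intro y
      apply Units.ext
      apply smul_unit_cancel hn0 (MonoidHom.toHomUnits ρ (finDProj N ρ M y))
      have h1 := hν ⟨(y : finGrp N ρ M), hDH y.2⟩
      have h2 : (Y.comp πH) ⟨(y : finGrp N ρ M), hDH y.2⟩ =
          MonoidHom.toHomUnits ρ (finDProj N ρ M y) := by
        rw [← hYN']
        rfl
      rw [h2] at h1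
      rw [← h1, MonoidHom.coe_toHomUnits]
      exact hlam y
  obtain ⟨μ, hμ⟩ := hom_ext_of_coprime_indices (finD N ρ M) lam hlaminv hsyl'
  let τ' : finGrp N ρ M →* (Endn n)ˣ :=
    { toFun := fun x => scalarUnit n (μ x)⁻¹ * finRep N ρ M x
      map_one' := by rw [map_one, inv_one, map_one, map_one, one_mul]
      map_mul' := fun x y => by
        have hc := scalarUnit_commute (μ y)⁻¹ (finRep N ρ M x)
        rw [map_mul, mul_inv, map_mul, map_mul, mul_assoc, mul_assoc,
          ← mul_assoc (scalarUnit n (μ y)⁻¹), hc.eq, mul_assoc] }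
  have hτ' : ∀ x, τ' x = scalarUnit n (μ x)⁻¹ * finRep N ρ M x := fun x => rfl
  apply ext_of_factor N ρ (finProj N ρ M) hπsurj τ' (finIncl N ρ M hMdet) (fun m => rfl)
  · intro m
    have hmem : finIncl N ρ M hMdet m ∈ finD N ρ M := m.2
    have h1 := hlam ⟨_, hmem⟩
    have h2 : lam ⟨_, hmem⟩ = 1 := by
      apply Units.ext
      apply smul_unit_cancel hn0 (MonoidHom.toHomUnits ρ m)
      rw [MonoidHom.coe_toHomUnits, Units.val_one, one_smul]
      exact h1.symm.trans (finRep_incl N ρ M hMdet m)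
    have h3 : μ (finIncl N ρ M hMdet m) = 1 := by
      rw [← h2]; exact hμ ⟨_, hmem⟩
    rw [hτ', h3, inv_one, map_one, one_mul]
    exact finRep_incl N ρ M hMdet m
  · intro k hk
    have hmem : k ∈ finD N ρ M := by
      show finProj N ρ M k ∈ N
      rw [hk]; exact N.one_mem
    have h1 := hlam ⟨k, hmem⟩
    have h2 : finDProj N ρ M ⟨k, hmem⟩ = 1 := Subtype.ext hk
    rw [h2, map_one] at h1
    have h3 : μ k = lam ⟨k, hmem⟩ := hμ ⟨k, hmem⟩
    apply Units.ext
    rw [hτ', Units.val_mul, scalarUnit_val, h1, h3, smul_mul_smul_comm, mul_one,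
      Units.val_inv_eq_inv_val, inv_mul_cancel₀ (Units.ne_zero _), one_smul, Units.val_one]

end Cfsg.Agent.S0888
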