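import Cfsg.Statements.S0130
import Mathlib
import Cfsg.Agent.Lib.Lead.SylowAux2
import Cfsg.Agent.S4399
import Cfsg.Agent.Lib.Lead.Class2
import Cfsg.Agent.Lib.Lead.Glauberman2
import Cfsg.Agent.Lib.Lead.SZ

set_option autoImplicit false
open Cfsg Cfsg.Agent.Lib.Lead

namespace Cfsg.Agent.S0130

open scoped Pointwise commutatorElement

/-- If A is maximal among the normal abelian subgroups of exponent dividing p^n of a p-group (p^n ≠ 2), then A contains every element of order dividing p^n in its centralizer. -/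
theorem result {G : Type*} [Group G] [Finite G] {p : ℕ} [Fact p.Prime] (hG : IsPGroup p G) (n : ℕ) (hn : p ^ n ≠ 2) (A : Subgroup G) [A.Normal] (hA : IsMulCommutative A) (hAe : ∀ a ∈ A, a ^ p ^ n = 1) (hmax : ∀ B : Subgroup G, B.Normal → IsMulCommutative B → (∀ b ∈ B, b ^ p ^ n = 1) → A ≤ B → B = A) (x : G) (hx : x ∈ Subgroup.centralizer (A : Set G)) (hxn : x ^ p ^ n = 1) : x ∈ A := by
  classical
  have hp : p.Prime := Fact.out
  haveI := hA
  by_contra hxA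
  have hn1 : 1 ≤ n := by
    by_contra h0
    have hn0 : n = 0 := by omega
    subst hn0
    rw [pow_zero, pow_one] at hxn
    exact hxA (hxn ▸ A.one_mem)
  obtain ⟨C, hCdef⟩ : ∃ C : Subgroup G, C = Subgroup.centralizer (A : Set G) := ⟨_, rfl⟩
  have hCn : C.Normal := by rw [hCdef]; infer_instance
  rw [← hCdef] at hx
  have hAC : A ≤ C := by
    rw [hCdef]; exact Subgroup.le_centralizer_iff_isMulCommutative.2 hA
  have hCA : ∀ c ∈ C, ∀ a ∈ A, a * c = c * a := by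
    intro c hc a ha
    rw [hCdef, Subgroup.mem_centralizer_iff] at hc
    exact hc a ha
  have hAA : ∀ a ∈ A, ∀ b ∈ A, a * b = b * a := fun a ha b hb =>
    setLike_mul_comm (s := A) ha hb
  have hexj : ∃ j, x ^ p ^ j ∈ A := ⟨n, by rw [hxn]; exact A.one_mem⟩
  obtain ⟨j₁, hj₁, hj₁'⟩ : ∃ j₁, x ^ p ^ j₁ ∉ A ∧ x ^ p ^ (j₁ + 1) ∈ A := by
    have h1 := Nat.find_spec hexj
    have h0 : Nat.find hexj ≠ 0 := by
      intro h
      rw [h, pow_zero, pow_one] at h1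
      exact hxA h1
    obtain ⟨j₁, hj⟩ : ∃ j₁, Nat.find hexj = j₁ + 1 := ⟨Nat.find hexj - 1, by omega⟩
    refine ⟨j₁, Nat.find_min hexj (by omega), ?_⟩
    rw [← hj]; exact h1
  haveI hnil : Group.IsNilpotent (G ⧸ A) := (hG.to_quotient A).isNilpotent
  have hex : ∃ i, ∃ c, (c ∈ C ∧ c ^ p ^ n = 1 ∧ c ^ p ∈ A ∧ c ∉ A) ∧
      (QuotientGroup.mk c : G ⧸ A) ∈ Subgroup.upperCentralSeries (G ⧸ A) i := by
    refine ⟨Group.nilpotencyClass (G ⧸ A), x ^ p ^ j₁, ⟨C.pow_mem hx _, ?_, ?_, hj₁⟩, ?_⟩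
    · rw [← pow_mul, mul_comm, pow_mul, hxn, one_pow]
    · rw [← pow_mul, ← pow_succ]; exact hj₁'
    · rw [Subgroup.upperCentralSeries_nilpotencyClass]; trivial
  obtain ⟨c, hQc, hci⟩ := Nat.find_spec hex
  have hi0 : Nat.find hex ≠ 0 := by
    intro h
    rw [h, Subgroup.upperCentralSeries_zero, Subgroup.mem_bot] at hci
    exact hQc.2.2.2 ((QuotientGroup.eq_one_iff c).1 hci)
  obtain ⟨i₁, hi₁⟩ : ∃ i₁, Nat.find hex = i₁ + 1 := ⟨Nat.find hex - 1, by omega⟩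
  rw [hi₁] at hci
  obtain ⟨hcC, hcn, hcp, hcA⟩ := hQc
  have hM : ∀ u : G, (c * u * c⁻¹ * u⁻¹) ^ p ^ n = 1 → (c * u * c⁻¹ * u⁻¹) ^ p ∈ A →
      c * u * c⁻¹ * u⁻¹ ∈ A := by
    intro u h1 h2
    by_contra h3
    have hkC : c * u * c⁻¹ * u⁻¹ ∈ C := by
      have e : c * u * c⁻¹ * u⁻¹ = c * (u * c⁻¹ * u⁻¹) := by group
      rw [e]; exact C.mul_mem hcC (hCn.conj_mem _ (C.inv_mem hcC) u)
    have hkZ : (QuotientGroup.mk (c * u * c⁻¹ * u⁻¹) : G ⧸ A) ∈
        Subgroup.upperCentralSeries (G ⧸ A) i₁ := by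
      have h4 := (Subgroup.mem_upperCentralSeries_succ_iff.1 hci) (QuotientGroup.mk u)
      rw [commutatorElement_def, ← QuotientGroup.mk_inv, ← QuotientGroup.mk_inv,
        ← QuotientGroup.mk_mul, ← QuotientGroup.mk_mul, ← QuotientGroup.mk_mul] at h4
      exact h4
    exact Nat.find_min hex (by omega : i₁ < Nat.find hex) ⟨_, ⟨hkC, h1, h2, h3⟩, hkZ⟩
  obtain ⟨Y, hYdef⟩ : ∃ Y : Subgroup G, Y = A ⊔ Subgroup.zpowers c := ⟨_, rfl⟩
  have hAY : A ≤ Y := by rw [hYdef]; exact le_sup_left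
  have hcY : c ∈ Y := by rw [hYdef]; exact Subgroup.mem_sup_right (Subgroup.mem_zpowers c)
  have hYform : ∀ y ∈ Y, ∃ a ∈ A, ∃ j : ℕ, y = a * c ^ j := by
    intro y hy
    rw [hYdef, ← SetLike.mem_coe, Subgroup.normal_mul, Set.mem_mul] at hy
    obtain ⟨a, ha, z, hz, rfl⟩ := hy
    obtain ⟨j, rfl⟩ := Cfsg.Agent.S4399.exists_nat_pow hz
    exact ⟨a, ha, j, rfl⟩
  have hcj : ∀ j : ℕ, ∀ a ∈ A, Commute a (c ^ j) := by
    intro j a ha
    exact hCA (c ^ j) (C.pow_mem hcC j) a ha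
  have hYprop : ∀ y ∈ Y, y ^ p ^ n = 1 ∧ y ^ p ∈ A ∧ y ∈ C := by
    intro y hy
    obtain ⟨a, ha, j, rfl⟩ := hYform y hy
    refine ⟨?_, ?_, C.mul_mem (hAC ha) (C.pow_mem hcC j)⟩
    · rw [(hcj j a ha).mul_pow, hAe a ha, pow_right_comm, hcn, one_pow, one_mul]
    · rw [(hcj j a ha).mul_pow, pow_right_comm]
      exact A.mul_mem (A.pow_mem ha p) (A.pow_mem hcp j)
  have hYcomm : ∀ y₁ ∈ Y, ∀ y₂ ∈ Y, y₁ * y₂ = y₂ * y₁ := by
    intro y₁ h1 y₂ h2
    obtain ⟨a₁, ha₁, k₁, rfl⟩ := hYform y₁ h1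
    obtain ⟨a₂, ha₂, k₂, rfl⟩ := hYform y₂ h2
    have e1 := (hcj k₁ a₂ ha₂).eq
    have e2 := (hcj k₂ a₁ ha₁).eq
    have e3 := hAA a₁ ha₁ a₂ ha₂
    have e4 : c ^ k₁ * c ^ k₂ = c ^ k₂ * c ^ k₁ := (Commute.pow_pow_self c k₁ k₂).eq
    calc a₁ * c ^ k₁ * (a₂ * c ^ k₂) = a₁ * (c ^ k₁ * a₂) * c ^ k₂ := by simp only [mul_assoc]
      _ = a₁ * (a₂ * c ^ k₁) * c ^ k₂ := by rw [e1]
      _ = (a₁ * a₂) * (c ^ k₁ * c ^ k₂) := by simp only [mul_assoc]
      _ = (a₂ * a₁) * (c ^ k₂ * c ^ k₁) := by rw [e3, e4]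
      _ = a₂ * (a₁ * c ^ k₂) * c ^ k₁ := by simp only [mul_assoc]
      _ = a₂ * (c ^ k₂ * a₁) * c ^ k₁ := by rw [e2]
      _ = a₂ * c ^ k₂ * (a₁ * c ^ k₁) := by simp only [mul_assoc]
  obtain ⟨N, hNdef⟩ : ∃ N : Subgroup G, N = Subgroup.normalizer (Y : Set G) := ⟨_, rfl⟩
  have hYN : Y ≤ N := by rw [hNdef]; exact Subgroup.le_normalizer
  have hNN : Subgroup.normalizer (N : Set G) ≤ N := by
    intro g hg
    obtain ⟨y, hydef⟩ : ∃ y : G, y = g * c⁻¹ * g⁻¹ := ⟨_, rfl⟩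
    have hyN : y ∈ N := by
      rw [hydef]; exact conj_mem_of_mem_normalizer hg (hYN (Y.inv_mem hcY))
    have hyC : y ∈ C := by rw [hydef]; exact hCn.conj_mem _ (C.inv_mem hcC) g
    obtain ⟨k, hkdef⟩ : ∃ k : G, k = c * y * c⁻¹ * y⁻¹ := ⟨_, rfl⟩
    have hkY : k ∈ Y := by
      have e : k = c * (y * c⁻¹ * y⁻¹) := by rw [hkdef]; group
      rw [e]
      refine Y.mul_mem hcY ?_
      rw [hNdef] at hyN
      exact conj_mem_of_mem_normalizer hyN (Y.inv_mem hcY)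
    have hkA : k ∈ A := by
      obtain ⟨h1, h2, -⟩ := hYprop k hkY
      rw [hkdef] at h1 h2 ⊢
      exact hM y h1 h2
    obtain ⟨c₀, hc₀def⟩ : ∃ c₀ : G, c₀ = k⁻¹ := ⟨_, rfl⟩
    have hc₀A : c₀ ∈ A := by rw [hc₀def]; exact A.inv_mem hkA
    have hrel : y * c = c₀ * c * y := by rw [hc₀def, hkdef]; group
    have hc₀c : Commute c₀ c := hCA c hcC c₀ hc₀A
    have hc₀y : Commute c₀ y := hCA y hyC c₀ hc₀A
    have hyp : y ^ p ∈ A := by
      have e : y ^ p = g * (c ^ p)⁻¹ * g⁻¹ := by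
        rw [hydef, conj_pow, inv_pow]
      rw [e]; exact ‹A.Normal›.conj_mem _ (A.inv_mem hcp) g
    have hyn : y ^ p ^ n = 1 := by
      rw [hydef, conj_pow, inv_pow, hcn]; group
    have hc₀p : c₀ ^ p = 1 := by
      have h1 := class2_pow_left hrel hc₀y p
      have h2 : y ^ p * c = c * y ^ p := hCA c hcC _ hyp
      rw [h2, mul_assoc] at h1
      exact (mul_right_cancel ((one_mul _).trans h1)).symm
    have hpow := class2_mul_pow hrel hc₀c hc₀y p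
    obtain ⟨e, hedef⟩ : ∃ e : G, e = c₀ ^ (p.choose 2) := ⟨_, rfl⟩
    rw [← hedef] at hpow
    have heA : e ∈ A := by rw [hedef]; exact A.pow_mem hc₀A _
    have he : e ^ p ^ (n - 1) = 1 := by
      by_cases hp2 : p = 2
      · have hn2 : 2 ≤ n := by
          by_contra hlt
          have hn1' : n = 1 := by omega
          apply hn
          simp [hn1', hp2]
        rw [hedef, ← pow_mul, mul_comm, show p ^ (n - 1) = p * p ^ (n - 2) by
          rw [← pow_succ']; congr 1; omega, pow_mul, pow_mul, hc₀p, one_pow, one_pow]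
      · obtain ⟨m, hm⟩ := hp.dvd_choose_self (by norm_num : 2 ≠ 0)
          (lt_of_le_of_ne hp.two_le (Ne.symm hp2))
        rw [hedef, hm, pow_mul, hc₀p, one_pow, one_pow]
    have hcyn : (c * y) ^ p ^ n = 1 := by
      have e1 : p ^ n = p * p ^ (n - 1) := by rw [← pow_succ']; congr 1; omega
      have c1 : Commute (c ^ p) (y ^ p) := hAA _ hcp _ hyp
      have c2 : Commute (c ^ p * y ^ p) e := hAA _ (A.mul_mem hcp hyp) _ heA
      rw [e1, pow_mul, hpow, c2.mul_pow, c1.mul_pow, he, mul_one, ← pow_mul, ← pow_mul, ← e1,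
        hcn, hyn, one_mul]
    have hcyp : (c * y) ^ p ∈ A := by
      rw [hpow]; exact A.mul_mem (A.mul_mem hcp hyp) heA
    have hw : c * g * c⁻¹ * g⁻¹ ∈ A := by
      have e' : c * g * c⁻¹ * g⁻¹ = c * y := by rw [hydef]; group
      apply hM g
      · rw [e']; exact hcyn
      · rw [e']; exact hcyp
    have hgc : g * c * g⁻¹ ∈ Y := by
      have e' : g * c * g⁻¹ = (c * g * c⁻¹ * g⁻¹)⁻¹ * c := by group
      rw [e']
      exact Y.mul_mem (Y.inv_mem (hAY hw)) hcY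
    rw [hNdef]
    apply mem_normalizer_of_conj_mem
    intro z hz
    obtain ⟨a, ha, j, rfl⟩ := hYform z hz
    have e' : g * (a * c ^ j) * g⁻¹ = (g * a * g⁻¹) * (g * c * g⁻¹) ^ j := by
      rw [conj_pow]; group
    rw [e']
    exact Y.mul_mem (hAY (‹A.Normal›.conj_mem a ha g)) (Y.pow_mem hgc j)
  haveI : Group.IsNilpotent G := hG.isNilpotent
  have hNtop : N = ⊤ := by
    have hnc := Group.normalizerCondition_of_isNilpotent (G := G)
    rw [normalizerCondition_iff_only_full_group_self_normalizing] at hnc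
    exact hnc N (le_antisymm hNN Subgroup.le_normalizer)
  have hYn : Y.Normal := by
    rw [← Subgroup.normalizer_eq_top_iff, ← hNdef]; exact hNtop
  have hYA : Y = A := hmax Y hYn (Subgroup.le_centralizer_iff_isMulCommutative.1 (by
      intro y hy
      rw [Subgroup.mem_centralizer_iff]
      intro z hz
      exact hYcomm z hz y hy)) (fun b hb => (hYprop b hb).1) hAY
  apply hcA
  rw [← hYA]; exact hcY

end Cfsg.Agent.S0130
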