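import Cfsg.Statements.S0100
import Mathlib
import Cfsg.Agent.Lib.Lead.SylowAux2
import Cfsg.Agent.S0130
import Cfsg.Agent.Lib.Lead.NormalChain
import Cfsg.Agent.Lib.Helper3.PGroup

set_option autoImplicit false
open Cfsg Cfsg.Agent.Lib.Lead

namespace Cfsg.Agent.S0100

open scoped Pointwise commutatorElement

/-- For odd p, a p-group without normal elementary abelian subgroups of order p^3 has p-rank at most 2. -/
theorem result {P : Type*} [Group P] [Finite P] {p : ℕ} [Fact p.Prime] (hp : p ≠ 2) (hP : IsPGroup p P) (h : ∀ A : Subgroup P, A.Normal → IsMulCommutative A → (∀ a ∈ A, a ^ p = 1) → Nat.card A ≠ p ^ 3) (E : Subgroup P) (hE : IsMulCommutative E) (hEe : ∀ e ∈ E, e ^ p = 1) : Nat.card E ≤ p ^ 2 := by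
  classical
  have hp' : p.Prime := Fact.out
  have hpsq : p < p ^ 2 := by
    calc p = p ^ 1 := (pow_one p).symm
      _ < p ^ 2 := Nat.pow_lt_pow_right hp'.one_lt (by norm_num)
  obtain ⟨A, -, hAmax⟩ := (Set.toFinite
    {B : Subgroup P | B.Normal ∧ IsMulCommutative B ∧ ∀ b ∈ B, b ^ p = 1}).exists_le_maximal
    (a := ⊥) ⟨inferInstance, Subgroup.le_centralizer_iff_isMulCommutative.1 bot_le,
      fun b hb => by rw [Subgroup.mem_bot.1 hb, one_pow]⟩
  obtain ⟨⟨hAn, hAc, hAe⟩, hAmax'⟩ := hAmax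
  haveI := hAn
  haveI := hAc
  haveI := hE
  obtain ⟨C, hCdef⟩ : ∃ C : Subgroup P, C = Subgroup.centralizer (A : Set P) := ⟨_, rfl⟩
  have hΩ : ∀ x ∈ C, x ^ p = 1 → x ∈ A := by
    intro x hx hxp
    rw [hCdef] at hx
    exact Cfsg.Agent.S0130.result hP 1 (by rw [pow_one]; exact hp) A hAc
      (fun a ha => by rw [pow_one]; exact hAe a ha)
      (fun B hBn hBc hBe hAB => le_antisymm (hAmax' ⟨hBn, hBc, fun b hb => by
        have h1 := hBe b hb
        rwa [pow_one] at h1⟩ hAB) hAB) x hx (by rw [pow_one]; exact hxp)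
  have hA2 : Nat.card A ≤ p ^ 2 := by
    by_contra hlt
    push Not at hlt
    have h3 : p ^ 3 ≤ Nat.card A := by
      obtain ⟨k, hk⟩ := IsPGroup.iff_card.1 (hP.to_subgroup A)
      rw [hk] at hlt ⊢
      have h2k : 2 < k := (Nat.pow_lt_pow_iff_right hp'.one_lt).1 hlt
      exact Nat.pow_le_pow_right hp'.pos h2k
    obtain ⟨B, hBn, hBA, hBc⟩ := exists_normal_le_card_pow hP A 3 h3
    have hBcomm : IsMulCommutative B := by
      apply Subgroup.le_centralizer_iff_isMulCommutative.1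
      intro x hx
      rw [Subgroup.mem_centralizer_iff]
      intro y hy
      exact setLike_mul_comm (s := A) (hBA hy) (hBA hx)
    exact h B hBn hBcomm (fun a ha => hAe a (hBA ha)) hBc
  by_cases hEC : E ≤ C
  · have hEA : E ≤ A := fun e he => hΩ e (hEC he) (hEe e he)
    exact (Subgroup.card_le_of_le hEA).trans hA2
  have hAcard : Nat.card A = p ^ 2 := by
    obtain ⟨k, hk⟩ := IsPGroup.iff_card.1 (hP.to_subgroup A)
    have hk2 : k ≤ 2 := by
      rw [hk] at hA2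
      exact (Nat.pow_le_pow_iff_right hp'.one_lt).1 hA2
    have hAcen : ¬ A ≤ Subgroup.center P := by
      intro hle
      apply hEC
      intro e he
      rw [hCdef, Subgroup.mem_centralizer_iff]
      intro a ha
      exact (Subgroup.mem_center_iff.1 (hle ha) e).symm
    interval_cases k
    · exfalso; apply hAcen
      rw [pow_zero] at hk
      rw [Subgroup.eq_bot_of_card_eq A hk]; exact bot_le
    · exfalso; apply hAcen
      rw [pow_one] at hk
      exact normal_card_prime_le_center hP A hk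
    · exact hk
  obtain ⟨B, hBn, hBA, hBc⟩ := exists_normal_le_card_pow hP A 1 (by
    rw [hAcard]; exact Nat.pow_le_pow_right hp'.pos (by norm_num))
  rw [pow_one] at hBc
  haveI := hBn
  have hBZ : B ≤ Subgroup.center P := normal_card_prime_le_center hP B hBc
  have hAB : ∀ a ∈ A, ∀ g : P, g * a * g⁻¹ * a⁻¹ ∈ B := by
    obtain ⟨π, hπ⟩ : ∃ π : P →* P ⧸ B, π = QuotientGroup.mk' B := ⟨_, rfl⟩
    have hker : ∀ g : P, π g = 1 ↔ g ∈ B := by
      intro g; rw [hπ]; exact QuotientGroup.eq_one_iff g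
    have hsurj : Function.Surjective π := by rw [hπ]; exact QuotientGroup.mk'_surjective B
    obtain ⟨D, hDdef⟩ : ∃ D : Subgroup P, D = A ⊓ (Subgroup.center (P ⧸ B)).comap π :=
      ⟨_, rfl⟩
    have hBD : B ≤ D := by
      rw [hDdef]
      refine le_inf hBA ?_
      intro b hb
      rw [Subgroup.mem_comap, (hker b).2 hb]; exact Subgroup.one_mem _
    have hDA : D ≤ A := by rw [hDdef]; exact inf_le_left
    have hne : A.map π ≠ ⊥ := by
      intro h0
      rw [Subgroup.map_eq_bot_iff] at h0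
      have h1 : A ≤ B := fun a ha => (hker a).1 (MonoidHom.mem_ker.1 (h0 ha))
      have h2 := Subgroup.card_le_of_le h1
      rw [hAcard, hBc] at h2
      omega
    haveI : (A.map π).Normal := Subgroup.Normal.map hAn π hsurj
    have hPq : IsPGroup p (P ⧸ B) := hP.to_quotient B
    obtain ⟨z, hzA, hz1, hzZ⟩ :=
      Cfsg.Agent.Lib.Helper3.exists_ne_one_mem_center_of_normal hPq (A.map π) hne
    obtain ⟨a₁, ha₁, ha₁z⟩ := Subgroup.mem_map.1 hzA
    have ha₁D : a₁ ∈ D := by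
      rw [hDdef]
      exact Subgroup.mem_inf.2 ⟨ha₁, Subgroup.mem_comap.2 (by rw [ha₁z]; exact hzZ)⟩
    have ha₁B : a₁ ∉ B := by
      intro hb
      apply hz1
      rw [← ha₁z]; exact (hker a₁).2 hb
    have hDeq : D = A := by
      apply Subgroup.eq_of_le_of_card_ge hDA
      rw [hAcard]
      obtain ⟨j, hj⟩ := IsPGroup.iff_card.1 (hP.to_subgroup D)
      rw [hj]
      apply Nat.pow_le_pow_right hp'.pos
      by_contra hlt
      have hj1 : j ≤ 1 := by omega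
      have hDle : Nat.card D ≤ Nat.card B := by
        rw [hj, hBc]
        calc p ^ j ≤ p ^ 1 := Nat.pow_le_pow_right hp'.pos hj1
          _ = p := pow_one p
      have hBDeq : B = D := Subgroup.eq_of_le_of_card_ge hBD hDle
      apply ha₁B
      rw [hBDeq]; exact ha₁D
    intro a ha g
    have haD : a ∈ D := by rw [hDeq]; exact ha
    rw [hDdef] at haD
    have hc : π a ∈ Subgroup.center (P ⧸ B) := haD.2
    rw [← hker, map_mul, map_mul, map_mul, map_inv, map_inv,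
      Subgroup.mem_center_iff.1 hc (π g)]
    group
  obtain ⟨a₀, ha₀A, ha₀B⟩ : ∃ a₀ ∈ A, a₀ ∉ B := by
    by_contra hcon
    push Not at hcon
    have h1 : A ≤ B := hcon
    have h2 := Subgroup.card_le_of_le h1
    rw [hAcard, hBc] at h2
    omega
  have hAeq : B ⊔ Subgroup.zpowers a₀ = A := by
    apply Subgroup.eq_of_le_of_card_ge (sup_le hBA (by rw [Subgroup.zpowers_le]; exact ha₀A))
    rw [hAcard]
    obtain ⟨j, hj⟩ := IsPGroup.iff_card.1 (hP.to_subgroup (B ⊔ Subgroup.zpowers a₀))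
    rw [hj]
    apply Nat.pow_le_pow_right hp'.pos
    by_contra hlt
    have hj1 : j ≤ 1 := by omega
    have hle : Nat.card ↥(B ⊔ Subgroup.zpowers a₀) ≤ Nat.card B := by
      rw [hj, hBc]
      calc p ^ j ≤ p ^ 1 := Nat.pow_le_pow_right hp'.pos hj1
        _ = p := pow_one p
    have hBeq : B = B ⊔ Subgroup.zpowers a₀ := Subgroup.eq_of_le_of_card_ge le_sup_left hle
    apply ha₀B
    have h5 : a₀ ∈ B ⊔ Subgroup.zpowers a₀ := Subgroup.mem_sup_right (Subgroup.mem_zpowers a₀)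
    rw [← hBeq] at h5
    exact h5
  have hcB : ∀ b ∈ B, ∀ g : P, g * b = b * g := fun b hb g =>
    Subgroup.mem_center_iff.1 (hBZ hb) g
  have hψmul : ∀ g₁ g₂ : P, (g₁ * g₂) * a₀ * (g₁ * g₂)⁻¹ * a₀⁻¹ =
      (g₁ * a₀ * g₁⁻¹ * a₀⁻¹) * (g₂ * a₀ * g₂⁻¹ * a₀⁻¹) := by
    intro g₁ g₂
    obtain ⟨c₂, hc₂⟩ : ∃ c₂ : P, c₂ = g₂ * a₀ * g₂⁻¹ * a₀⁻¹ := ⟨_, rfl⟩
    have hc₂B : c₂ ∈ B := by rw [hc₂]; exact hAB a₀ ha₀A g₂
    have h1 := hcB c₂ hc₂B g₁
    have h2 := hcB c₂ hc₂B (g₁ * a₀ * g₁⁻¹ * a₀⁻¹)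
    rw [← hc₂, h2]
    calc g₁ * g₂ * a₀ * (g₁ * g₂)⁻¹ * a₀⁻¹
        = (g₁ * (g₂ * a₀ * g₂⁻¹ * a₀⁻¹)) * a₀ * g₁⁻¹ * a₀⁻¹ := by group
      _ = (g₁ * c₂) * a₀ * g₁⁻¹ * a₀⁻¹ := by rw [← hc₂]
      _ = (c₂ * g₁) * a₀ * g₁⁻¹ * a₀⁻¹ := by rw [h1]
      _ = c₂ * (g₁ * a₀ * g₁⁻¹ * a₀⁻¹) := by group
  obtain ⟨ψ, hψ⟩ : ∃ ψ : E →* B, ∀ g : E,
      ((ψ g : B) : P) = (g : P) * a₀ * (g : P)⁻¹ * a₀⁻¹ :=
    ⟨MonoidHom.mk' (fun g : E => (⟨(g : P) * a₀ * (g : P)⁻¹ * a₀⁻¹, hAB a₀ ha₀A g⟩ : B))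
      (fun g₁ g₂ => Subtype.ext (hψmul g₁ g₂)), fun g => rfl⟩
  obtain ⟨K, hKdef⟩ : ∃ K : Subgroup P, K = ψ.ker.map E.subtype := ⟨_, rfl⟩
  have hKcard : Nat.card K = Nat.card ψ.ker := by
    rw [hKdef]
    exact (Nat.card_congr
      (Subgroup.equivMapOfInjective ψ.ker E.subtype E.subtype_injective).toEquiv).symm
  have hKE : K ≤ E := by
    rw [hKdef]
    rintro _ ⟨g, -, rfl⟩
    exact g.2
  have hKa : ∀ k ∈ K, k * a₀ = a₀ * k := by
    intro k hk
    rw [hKdef] at hk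
    obtain ⟨g, hg, rfl⟩ := hk
    have h1 : ψ g = 1 := MonoidHom.mem_ker.1 hg
    have h2 := hψ g
    rw [h1] at h2
    have h3 : (g : P) * a₀ * (g : P)⁻¹ * a₀⁻¹ = 1 := h2.symm
    have h4 : (g : P) * a₀ = ((g : P) * a₀ * (g : P)⁻¹ * a₀⁻¹) * (a₀ * (g : P)) := by group
    rw [h3, one_mul] at h4
    exact h4
  have hKC : K ≤ C := by
    intro k hk
    rw [hCdef, Subgroup.mem_centralizer_iff]
    intro a ha
    rw [← hAeq, Subgroup.normal_mul, Set.mem_mul] at ha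
    obtain ⟨b, hb, w, hw, rfl⟩ := ha
    obtain ⟨j, rfl⟩ := Subgroup.mem_zpowers_iff.1 hw
    have e1 : k * b = b * k := hcB b hb k
    have e2 : a₀ ^ j * k = k * a₀ ^ j := ((Commute.zpow_left (hKa k hk).symm j)).eq
    calc b * a₀ ^ j * k = b * (a₀ ^ j * k) := by group
      _ = b * (k * a₀ ^ j) := by rw [e2]
      _ = (b * k) * a₀ ^ j := by group
      _ = (k * b) * a₀ ^ j := by rw [e1]
      _ = k * (b * a₀ ^ j) := by group
  have hKA : K ≤ A := fun k hk => hΩ k (hKC hk) (hEe k (hKE hk))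
  have hKne : K ≠ A := by
    intro hKA'
    apply hEC
    intro e he
    rw [hCdef, Subgroup.mem_centralizer_iff]
    intro a ha
    have haE : a ∈ E := hKE (hKA' ▸ ha)
    exact setLike_mul_comm (s := E) haE he
  have hKp : Nat.card K ≤ p := by
    have hd : Nat.card K ∣ p ^ 2 := by rw [← hAcard]; exact Subgroup.card_dvd_of_le hKA
    obtain ⟨j, hj2, hj⟩ := (Nat.dvd_prime_pow hp').1 hd
    have hjne : j ≠ 2 := by
      rintro rfl
      exact hKne (Subgroup.eq_of_le_of_card_ge hKA (by rw [hj, hAcard]))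
    rw [hj]
    calc p ^ j ≤ p ^ 1 := Nat.pow_le_pow_right hp'.pos (by omega)
      _ = p := pow_one p
  have h1 := Subgroup.card_mul_index ψ.ker
  rw [Subgroup.index_ker, ← hKcard] at h1
  have h2 : Nat.card ψ.range ≤ p := by
    have h3 := Subgroup.card_le_card_group (H := ψ.range)
    rw [hBc] at h3
    exact h3
  rw [← h1, pow_two]
  exact Nat.mul_le_mul hKp h2

end Cfsg.Agent.S0100
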