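import Cfsg.Statements.S0107
import Mathlib
import Cfsg.Agent.Lib.Lead.SylowAux2
import Cfsg.Agent.Lib.Helper5.ThompsonTransfer
import Cfsg.Agent.S4399

set_option autoImplicit false
open Cfsg Cfsg.Agent.Lib.Lead

namespace Cfsg.Agent.S0107

open scoped Pointwise commutatorElement

/-- A finite group with no nontrivial 2-group quotient and dihedral Sylow 2-subgroups of order at least 8 has a single class of involutions. -/
theorem result {G : Type*} [Group G] [Finite G] (T : Sylow 2 G) (n : ℕ) (hn : 2 ≤ n) (hT : Nonempty ((T : Subgroup G) ≃* DihedralGroup (2 ^ n))) (hO : Cfsg.pResidual 2 G = ⊤) (x y : G) (hx : orderOf x = 2) (hy : orderOf y = 2) : ∃ g : G, g * x * g⁻¹ = y := by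
  classical
  have hG : ∀ H : Subgroup G, H.index ≠ 2 := by
    intro H hH
    have hle : Cfsg.pResidual 2 G ≤ H := by
      show Subgroup.closure {g : G | Nat.Coprime (orderOf g) 2} ≤ H
      rw [Subgroup.closure_le]
      intro g hg
      have hg' : Nat.Coprime (orderOf g) 2 := hg
      have hodd : orderOf g % 2 = 1 := by
        by_contra h
        have h0 : 2 ∣ orderOf g := by omega
        have h2 : 2 ∣ Nat.gcd (orderOf g) 2 := Nat.dvd_gcd h0 dvd_rfl
        rw [Nat.Coprime.gcd_eq_one hg'] at h2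
        omega
      obtain ⟨k, hk⟩ : ∃ k, orderOf g = 2 * k + 1 := ⟨orderOf g / 2, by omega⟩
      have h1 : g = (g ^ 2) ^ (k + 1) := by
        rw [← pow_mul, show 2 * (k + 1) = orderOf g + 1 by omega, pow_succ, pow_orderOf_eq_one,
          one_mul]
      show g ∈ H
      rw [h1]
      exact H.pow_mem (Subgroup.sq_mem_of_index_two hH g) _
    rw [hO] at hle
    rw [top_le_iff.1 hle, Subgroup.index_top] at hH
    omega
  obtain ⟨e⟩ := hT
  haveI : NeZero (2 ^ n) := ⟨by positivity⟩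
  obtain ⟨a, hadef⟩ : ∃ a : G, a = ((e.symm (DihedralGroup.r 1) : (T : Subgroup G)) : G) :=
    ⟨_, rfl⟩
  have haT : a ∈ (T : Subgroup G) := by rw [hadef]; exact (e.symm (DihedralGroup.r 1)).2
  have haord : orderOf a = 2 ^ n := by
    rw [hadef, Subgroup.orderOf_coe, MulEquiv.orderOf_eq, DihedralGroup.orderOf_r_one]
  obtain ⟨M, hMdef⟩ : ∃ M : Subgroup G, M = Subgroup.zpowers a := ⟨_, rfl⟩
  have hMT : M ≤ (T : Subgroup G) := by rw [hMdef, Subgroup.zpowers_le]; exact haT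
  have hTcard : Nat.card (T : Subgroup G) = 2 * 2 ^ n := by
    rw [Nat.card_congr e.toEquiv, DihedralGroup.nat_card]
  have hMcard : Nat.card M = 2 ^ n := by rw [hMdef, Nat.card_zpowers, haord]
  have hrel : M.relIndex (T : Subgroup G) = 2 := by
    have h1 := Subgroup.relIndex_mul_relIndex (H := ⊥) (K := M) (L := (T : Subgroup G)) bot_le hMT
    rw [Subgroup.relIndex_bot_left, Subgroup.relIndex_bot_left, hMcard, hTcard] at h1
    have h2 : 2 ^ n * M.relIndex (T : Subgroup G) = 2 ^ n * 2 := by rw [h1, mul_comm]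
    exact Nat.eq_of_mul_eq_mul_left (by positivity) h2
  obtain ⟨z, hzdef⟩ : ∃ z : G, z = a ^ (2 ^ (n - 1)) := ⟨_, rfl⟩
  have hpow : (2:ℕ) ^ n = 2 ^ (n - 1) * 2 := by rw [← pow_succ]; congr 1; omega
  have hz2 : z ^ 2 = 1 := by
    rw [hzdef, ← pow_mul, ← hpow, ← haord]; exact pow_orderOf_eq_one a
  have key : ∀ w : G, orderOf w = 2 → ∃ g : G, g * w * g⁻¹ = z := by
    intro w hw
    obtain ⟨g, hg⟩ := Cfsg.Agent.Lib.Helper5.thompson_transfer_gen hG T M hrel 1 le_rfl (by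
      intro y hy hyM
      simp only [Nat.sub_self, pow_zero]
      have hy1 : y ≠ 1 := fun h => hyM (h ▸ M.one_mem)
      have hpos : 0 < orderOf y := orderOf_pos y
      have hne : orderOf y ≠ 1 := fun h => hy1 (orderOf_eq_one_iff.1 h)
      omega) w (by rw [hw, pow_one])
    refine ⟨g, ?_⟩
    obtain ⟨v, hvdef⟩ : ∃ v : G, v = g * w * g⁻¹ := ⟨_, rfl⟩
    rw [← hvdef] at hg ⊢
    have hv2 : v ^ 2 = 1 := by
      rw [hvdef, conj_pow, ← hw, pow_orderOf_eq_one]; group
    have hv1 : v ≠ 1 := by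
      intro h
      rw [hvdef] at h
      have hw1 : w = 1 := by
        have e1 : w = g⁻¹ * (g * w * g⁻¹) * g := by group
        rw [e1, h]; group
      rw [hw1, orderOf_one] at hw
      omega
    rw [hMdef] at hg
    obtain ⟨i, hi⟩ := Cfsg.Agent.S4399.exists_nat_pow hg
    have h1 : a ^ (i * 2) = 1 := by rw [pow_mul, ← hi]; exact hv2
    have h2 := orderOf_dvd_of_pow_eq_one h1
    rw [haord, hpow] at h2
    have h3 : 2 ^ (n - 1) ∣ i := Nat.dvd_of_mul_dvd_mul_right (by norm_num) h2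
    obtain ⟨j, hj⟩ := h3
    have h4 : v ∈ Subgroup.zpowers z := by
      rw [hi, hj, pow_mul, ← hzdef]
      exact Subgroup.pow_mem _ (Subgroup.mem_zpowers z) j
    rcases Cfsg.Agent.S4399.mem_two hz2 h4 with h | h
    · exact absurd h hv1
    · exact h
  obtain ⟨g₁, h₁⟩ := key x hx
  obtain ⟨g₂, h₂⟩ := key y hy
  refine ⟨g₂⁻¹ * g₁, ?_⟩
  have e2 : g₂⁻¹ * g₁ * x * (g₂⁻¹ * g₁)⁻¹ = g₂⁻¹ * (g₁ * x * g₁⁻¹) * g₂ := by group
  rw [e2, h₁, ← h₂]; group

end Cfsg.Agent.S0107
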