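import Cfsg.Statements.S0221
import Mathlib
import Cfsg.Agent.Lib.Lead.SylowAux2
import Cfsg.Agent.Lib.Lead.Rank3
import Cfsg.Agent.Lib.Helper5.ThompsonTransfer
import Cfsg.Agent.Lib.Lead.SylowAux

set_option autoImplicit false
open Cfsg Cfsg.Agent.Lib.Lead

namespace Cfsg.Agent.S0221

open scoped Pointwise commutatorElement

/-- Let G be a finite group with no subgroup of index 2 whose 2-rank is at least 3 (it contains an elementary abelian subgroup of order 8). Then the centralizer of every involution of G also contains an elementary abelian subgroup of order 8. -/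
theorem result {G : Type*} [Group G] [Finite G] (hno : ∀ H : Subgroup G, H.index ≠ 2) (hrank : ∃ E : Subgroup G, Nat.card E = 8 ∧ ∀ e ∈ E, e ^ 2 = 1) (x : G) (hx : orderOf x = 2) : ∃ E : Subgroup G, E ≤ Subgroup.centralizer ({x} : Set G) ∧ Nat.card E = 8 ∧ ∀ e ∈ E, e ^ 2 = 1 := by
  classical
  haveI : Fact (Nat.Prime 2) := ⟨Nat.prime_two⟩
  obtain ⟨E, hE8, hEe⟩ := hrank
  have hE2 : IsPGroup 2 E := IsPGroup.of_card (n := 3) (by rw [hE8]; norm_num)
  obtain ⟨S, hES⟩ := hE2.exists_le_sylow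
  obtain ⟨M', hM', hMprop'⟩ := two_group_rank3 (P := (S : Subgroup G)) S.isPGroup'
    (E.subgroupOf S) (by
      rw [Nat.card_congr (Subgroup.subgroupOfEquivOfLe hES).toEquiv]; exact hE8) (by
      intro e he
      have h1 := hEe (e : G) (Subgroup.mem_subgroupOf.1 he)
      exact Subtype.ext h1)
  obtain ⟨M, hMdef⟩ : ∃ M : Subgroup G, M = M'.map (S : Subgroup G).subtype := ⟨_, rfl⟩
  have hMS : M ≤ (S : Subgroup G) := by
    rw [hMdef]
    rintro _ ⟨m, -, rfl⟩
    exact m.2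
  have hMprop : ∀ y ∈ M, y ^ 2 = 1 → ∃ F : Subgroup G, Nat.card F = 8 ∧ (∀ f ∈ F, f ^ 2 = 1) ∧
      ∀ f ∈ F, f * y = y * f := by
    intro y hy hy2
    rw [hMdef] at hy
    obtain ⟨y', hy', rfl⟩ := hy
    have hy2' : y' ^ 2 = 1 := Subtype.ext hy2
    obtain ⟨F', hF8, hFe, hFy⟩ := hMprop' y' hy' hy2'
    refine ⟨F'.map (S : Subgroup G).subtype, ?_, ?_, ?_⟩
    · rw [Subgroup.card_map_of_injective (Subgroup.subtype_injective _)]; exact hF8
    · rintro _ ⟨f, hf, rfl⟩
      exact congrArg Subtype.val (hFe f hf)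
    · rintro _ ⟨f, hf, rfl⟩
      exact congrArg Subtype.val (hFy f hf)
  have hconj : ∃ g : G, g * x * g⁻¹ ∈ M := by
    rcases hM' with hM' | hM'
    · obtain ⟨g, hg⟩ := sylow_conj_mem S (Subgroup.zpowers x) (isPGroup_zpowers_invol hx)
      refine ⟨g, ?_⟩
      have h1 := hg x (Subgroup.mem_zpowers x)
      rw [hMdef, hM']
      exact ⟨⟨g * x * g⁻¹, h1⟩, Subgroup.mem_top _, rfl⟩
    · have hrel : M.relIndex (S : Subgroup G) = 2 := by
        rw [hMdef, Subgroup.relIndex, Subgroup.subgroupOf,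
          Subgroup.comap_map_eq_self_of_injective (Subgroup.subtype_injective _)]
        exact hM'
      exact Cfsg.Agent.Lib.Helper5.thompson_transfer_gen hno S M hrel 1 le_rfl (by
        intro y hy hyM
        simp only [Nat.sub_self, pow_zero]
        have hy1 : y ≠ 1 := fun h => hyM (h ▸ M.one_mem)
        have hpos : 0 < orderOf y := orderOf_pos y
        have hne : orderOf y ≠ 1 := fun h => hy1 (orderOf_eq_one_iff.1 h)
        omega) x (by rw [hx, pow_one])
  obtain ⟨g, hg⟩ := hconj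
  have hx2 : x ^ 2 = 1 := by rw [← hx]; exact pow_orderOf_eq_one x
  obtain ⟨y, hydef⟩ : ∃ y : G, y = g * x * g⁻¹ := ⟨_, rfl⟩
  rw [← hydef] at hg
  have hy2 : y ^ 2 = 1 := by rw [hydef, conj_pow, hx2]; group
  obtain ⟨F, hF8, hFe, hFy⟩ := hMprop y hg hy2
  refine ⟨F.map (MulAut.conj g⁻¹).toMonoidHom, ?_, ?_, ?_⟩
  · rintro _ ⟨f, hf, rfl⟩
    rw [Subgroup.mem_centralizer_iff]
    intro z hz
    rw [Set.mem_singleton_iff.1 hz]
    show x * (g⁻¹ * f * g⁻¹⁻¹) = g⁻¹ * f * g⁻¹⁻¹ * x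
    rw [inv_inv]
    have h1 := hFy f hf
    rw [hydef] at h1
    calc x * (g⁻¹ * f * g) = g⁻¹ * ((g * x * g⁻¹) * f) * g := by group
      _ = g⁻¹ * (f * (g * x * g⁻¹)) * g := by rw [h1]
      _ = g⁻¹ * f * g * x := by group
  · rw [Subgroup.card_map_of_injective (MulAut.conj g⁻¹).injective]; exact hF8
  · rintro _ ⟨f, hf, rfl⟩
    show (g⁻¹ * f * g⁻¹⁻¹) ^ 2 = 1
    rw [conj_pow, hFe f hf]; group

end Cfsg.Agent.S0221
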