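import Cfsg.Statements.S0338
import Mathlib
import Cfsg.Agent.Lib.Helper1.ZassA

set_option autoImplicit false
open Cfsg

namespace Cfsg.Agent.S0338

/-- A Zassenhaus group of odd degree is a simple group. -/
theorem result {G Ω : Type*} [Group G] [MulAction G Ω] [Fintype Ω]
    (hZ : Cfsg.IsZassenhausGroup G Ω) (hodd : Odd (Fintype.card Ω)) : IsSimpleGroup G := by
  haveI : Finite G := by
    haveI : FaithfulSMul G Ω := hZ.1
    exact Finite.of_injective (fun g : G => (MulAction.toPermHom G Ω g))
      MulAction.toPerm_injective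
  exact Cfsg.Agent.Lib.Helper1.zass_odd_simple hZ hodd

end Cfsg.Agent.S0338
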