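import Cfsg.Statements.S0436
import Mathlib

set_option autoImplicit false
open Cfsg

namespace Cfsg.Agent.S0436

/-- For distinct commuting members a, b of a set of 3-transpositions E, a member e of E centralises the product a * b if and only if it centralises both a and b. -/
theorem result {G : Type*} [Group G] {E : Set G} (hE : Cfsg.IsThreeTranspositionSet E) {a b e : G} (ha : a ∈ E) (hb : b ∈ E) (he : e ∈ E) (hab : a ≠ b) (hcomm : Commute a b) : Commute e (a * b) ↔ (Commute e a ∧ Commute e b) := by
  have inv : ∀ d ∈ E, d * d = 1 := by
    intro d hd
    have h := pow_orderOf_eq_one d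
    rw [hE.1 d hd, pow_two] at h
    exact h
  have key : ∀ d ∈ E, ∀ f ∈ E, d * f = f * d ∨ d * f * d = f * d * f := by
    intro d hd f hf
    have hd2 := inv d hd
    have hf2 := inv f hf
    rcases hE.2 d hd f hf with h | h
    · left
      simp only [pow_succ, pow_zero, one_mul] at h
      grind
    · right
      simp only [pow_succ, pow_zero, one_mul] at h
      grind
  have ha2 := inv a ha
  have hb2 := inv b hb
  have he2 := inv e he
  have hab' : a * b = b * a := hcomm.eq
  constructor
  · intro h
    have h' : e * (a * b) = a * b * e := h.eq
    rcases key e he a ha with h1 | h1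
    · have h3 : e * b = b * e := by grind
      exact ⟨h1, h3⟩
    · rcases key e he b hb with h2 | h2
      · have h3 : e * a = a * e := by grind
        exact ⟨h3, h2⟩
      · exfalso
        apply hab
        grind
  · rintro ⟨h1, h2⟩
    exact h1.mul_right h2

end Cfsg.Agent.S0436
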