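import Cfsg.Statements.S0437
import Mathlib

set_option autoImplicit false
open Cfsg

namespace Cfsg.Agent.S0437

theorem alg_a {G : Type*} [Group G] (a b c e : G) (ha2 : a * a = 1)
    (h' : e * (a * b * c) = a * b * c * e) (h1 : e * a = a * e) : e * (b * c) = b * c * e := by
  grind

theorem alg_b {G : Type*} [Group G] (a b c e : G) (hb2 : b * b = 1) (hab' : a * b = b * a) (_hbc' : b * c = c * b)
    (h' : e * (a * b * c) = a * b * c * e) (h2 : e * b = b * e) : e * (a * c) = a * c * e := by
  grind

theorem alg_c {G : Type*} [Group G] (a b c e : G) (hc2 : c * c = 1)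
    (h' : e * (a * b * c) = a * b * c * e) (h3 : e * c = c * e) : e * (a * b) = a * b * e := by
  grind

theorem alg_d {G : Type*} [Group G] (a b c e : G) (ha2 : a * a = 1) (hb2 : b * b = 1) (hc2 : c * c = 1)
    (he2 : e * e = 1) (hab' : a * b = b * a) (hac' : a * c = c * a) (hbc' : b * c = c * b)
    (h' : e * (a * b * c) = a * b * c * e) (h1 : e * a * e = a * e * a) (h2 : e * b * e = b * e * b)
    (h3 : e * c * e = c * e * c) : a = b := by
  grind (acSteps := 100000)

theorem alg_two {G : Type*} [Group G] (a b e : G) (ha2 : a * a = 1) (hb2 : b * b = 1)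
    (he2 : e * e = 1) (hab' : a * b = b * a)
    (h' : e * (a * b) = a * b * e) (h1 : e * a * e = a * e * a) (h2 : e * b * e = b * e * b) : a = b := by
  grind

theorem alg_two_a {G : Type*} [Group G] (a b e : G) (ha2 : a * a = 1)
    (h' : e * (a * b) = a * b * e) (h1 : e * a = a * e) : e * b = b * e := by
  grind

theorem alg_two_b {G : Type*} [Group G] (a b e : G) (hb2 : b * b = 1)
    (h' : e * (a * b) = a * b * e) (h1 : e * b = b * e) : e * a = a * e := by
  grind

theorem alg_key {G : Type*} [Group G] (d f : G) (hd2 : d * d = 1) (hf2 : f * f = 1)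
    (h : (d * f) ^ 2 = 1 ∨ (d * f) ^ 3 = 1) : d * f = f * d ∨ d * f * d = f * d * f := by
  rcases h with h | h
  · left
    simp only [pow_succ, pow_zero, one_mul] at h
    grind
  · right
    simp only [pow_succ, pow_zero, one_mul] at h
    grind

/-- For three distinct, pairwise commuting members a, b, c of a set of 3-transpositions E, a member e of E centralises a * b * c if and only if it centralises each of a, b and c. -/
theorem result {G : Type*} [Group G] {E : Set G} (hE : Cfsg.IsThreeTranspositionSet E) {a b c e : G} (ha : a ∈ E) (hb : b ∈ E) (hc : c ∈ E) (he : e ∈ E) (hab : a ≠ b) (hac : a ≠ c) (hbc : b ≠ c) (h₁ : Commute a b) (h₂ : Commute a c) (h₃ : Commute b c) : Commute e (a * b * c) ↔ (Commute e a ∧ Commute e b ∧ Commute e c) := by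
  have inv : ∀ d ∈ E, d * d = 1 := by
    intro d hd
    have h := pow_orderOf_eq_one d
    rw [hE.1 d hd, pow_two] at h
    exact h
  have key : ∀ d ∈ E, ∀ f ∈ E, d * f = f * d ∨ d * f * d = f * d * f := by
    intro d hd f hf
    exact alg_key d f (inv d hd) (inv f hf) (hE.2 d hd f hf)
  -- the two-element version
  have two : ∀ a b e : G, a ∈ E → b ∈ E → e ∈ E → a ≠ b → a * b = b * a → e * (a * b) = a * b * e →
      e * a = a * e ∧ e * b = b * e := by
    intro a b e ha hb he hab hab' h'
    have ha2 := inv a ha
    have hb2 := inv b hb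
    have he2 := inv e he
    rcases key e he a ha with h1 | h1
    · exact ⟨h1, alg_two_a a b e ha2 h' h1⟩
    · rcases key e he b hb with h2 | h2
      · exact ⟨alg_two_b a b e hb2 h' h2, h2⟩
      · exact absurd (alg_two a b e ha2 hb2 he2 hab' h' h1 h2) hab
  have ha2 := inv a ha
  have hb2 := inv b hb
  have hc2 := inv c hc
  have he2 := inv e he
  have hab' : a * b = b * a := h₁.eq
  have hac' : a * c = c * a := h₂.eq
  have hbc' : b * c = c * b := h₃.eq
  constructor
  · intro h
    have h' : e * (a * b * c) = a * b * c * e := h.eq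
    rcases key e he a ha with h1 | h1
    · have h4 : e * (b * c) = b * c * e := alg_a a b c e ha2 h' h1
      obtain ⟨h5, h6⟩ := two b c e hb hc he hbc hbc' h4
      exact ⟨h1, h5, h6⟩
    · rcases key e he b hb with h2 | h2
      · have h4 : e * (a * c) = a * c * e := alg_b a b c e hb2 hab' hbc' h' h2
        obtain ⟨h5, h6⟩ := two a c e ha hc he hac hac' h4
        exact ⟨h5, h2, h6⟩
      · rcases key e he c hc with h3 | h3
        · have h4 : e * (a * b) = a * b * e := alg_c a b c e hc2 h' h3
          obtain ⟨h5, h6⟩ := two a b e ha hb he hab hab' h4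
          exact ⟨h5, h6, h3⟩
        · exfalso
          exact hab (alg_d a b c e ha2 hb2 hc2 he2 hab' hac' hbc' h' h1 h2 h3)
  · rintro ⟨h1, h2, h3⟩
    exact (Commute.mul_right h1 h2).mul_right h3

end Cfsg.Agent.S0437
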