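import Cfsg.Statements.S0721
import Mathlib
import Cfsg.Agent.Lib.Helper1.Basic

set_option autoImplicit false
open Cfsg

namespace Cfsg.Agent.S0721


theorem exists_type0 (X : Type*) [Group X] [Finite X] :
    ∃ (T : Type) (_ : Group T), Nonempty (T ≃* X) := by
  have e : Fin (Nat.card X) ≃ X := (Finite.equivFin X).symm
  exact ⟨Fin (Nat.card X), e.group, ⟨e.mulEquiv⟩⟩

theorem conj_mem_sup {H : Type*} [Group H] (A B : Subgroup H) (n : H)
    (hA : ∀ x ∈ A, n * x * n⁻¹ ∈ A) (hB : ∀ x ∈ B, n * x * n⁻¹ ∈ B) :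
    ∀ x ∈ A ⊔ B, n * x * n⁻¹ ∈ A ⊔ B := by
  intro x hx
  have h1 : (A ⊔ B).map (MulAut.conj n).toMonoidHom ≤ A ⊔ B := by
    rw [Subgroup.map_sup]
    apply sup_le_sup
    · rintro _ ⟨y, hy, rfl⟩; exact hA y hy
    · rintro _ ⟨y, hy, rfl⟩; exact hB y hy
  exact h1 ⟨x, hx, rfl⟩

/-- A minimal normal subgroup of a finite group is isomorphic to a direct power `T ^ m` of a simple group `T` (possibly of prime order). -/
theorem result {H : Type*} [Group H] [Finite H] (N : Subgroup H) [N.Normal] (hN : N ≠ ⊥) (hmin : ∀ M : Subgroup H, M.Normal → M ≤ N → M = ⊥ ∨ M = N) : ∃ (T : Type) (_ : Group T) (m : ℕ), IsSimpleGroup T ∧ 0 < m ∧ Nonempty (N ≃* (Fin m → T)) := by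
  classical
  have hNn : N.Normal := inferInstance
  obtain ⟨T0, ⟨hT0ne, hT0N, hT0inv⟩, hT0min⟩ := (wellFounded_lt (α := Subgroup H)).has_min
    {K : Subgroup H | K ≠ ⊥ ∧ K ≤ N ∧ ∀ n ∈ N, ∀ x ∈ K, n * x * n⁻¹ ∈ K}
    ⟨N, hN, le_rfl, fun n _ x hx => hNn.conj_mem x hx n⟩
  have hmin0 : ∀ K : Subgroup H, K ≤ T0 → (∀ n ∈ N, ∀ x ∈ K, n * x * n⁻¹ ∈ K) →
      K = ⊥ ∨ K = T0 := by
    intro K hK hKn
    by_cases hKb : K = ⊥
    · exact Or.inl hKb
    · right
      by_contra hne
      exact hT0min K ⟨hKb, hK.trans hT0N, hKn⟩ (lt_of_le_of_ne hK hne)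
  have hcjN : ∀ h : H, T0.map (MulAut.conj h).toMonoidHom ≤ N := by
    rintro h _ ⟨t, ht, rfl⟩
    exact hNn.conj_mem t (hT0N ht) h
  have hcjinv : ∀ h : H, ∀ n ∈ N, ∀ x ∈ T0.map (MulAut.conj h).toMonoidHom,
      n * x * n⁻¹ ∈ T0.map (MulAut.conj h).toMonoidHom := by
    rintro h n hn _ ⟨t, ht, rfl⟩
    refine ⟨(h⁻¹ * n * h) * t * (h⁻¹ * n * h)⁻¹, hT0inv _ ?_ t ht, ?_⟩
    · have := hNn.conj_mem n hn h⁻¹
      simpa using this
    · show h * ((h⁻¹ * n * h) * t * (h⁻¹ * n * h)⁻¹) * h⁻¹ = n * (h * t * h⁻¹) * n⁻¹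
      group
  have hdich : ∀ (h : H) (M : Subgroup H), (∀ n ∈ N, ∀ x ∈ M, n * x * n⁻¹ ∈ M) →
      T0.map (MulAut.conj h).toMonoidHom ≤ M ∨ T0.map (MulAut.conj h).toMonoidHom ⊓ M = ⊥ := by
    intro h M hM
    have hinv : ∀ n ∈ N, ∀ x ∈ T0 ⊓ M.comap (MulAut.conj h).toMonoidHom,
        n * x * n⁻¹ ∈ T0 ⊓ M.comap (MulAut.conj h).toMonoidHom := by
      intro n hn x hx
      obtain ⟨hx1, hx2⟩ := Subgroup.mem_inf.1 hx
      refine Subgroup.mem_inf.2 ⟨hT0inv n hn x hx1, ?_⟩
      show h * (n * x * n⁻¹) * h⁻¹ ∈ M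
      have h2 : h * (n * x * n⁻¹) * h⁻¹ = (h * n * h⁻¹) * (h * x * h⁻¹) * (h * n * h⁻¹)⁻¹ := by
        group
      rw [h2]
      exact hM _ (hNn.conj_mem n hn h) _ hx2
    rcases hmin0 (T0 ⊓ M.comap (MulAut.conj h).toMonoidHom) inf_le_left hinv with h1 | h1
    · right
      rw [eq_bot_iff]
      rintro x hx
      obtain ⟨⟨t, ht, rfl⟩, hxM⟩ := Subgroup.mem_inf.1 hx
      have h3 : t ∈ T0 ⊓ M.comap (MulAut.conj h).toMonoidHom := Subgroup.mem_inf.2 ⟨ht, hxM⟩
      rw [h1, Subgroup.mem_bot] at h3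
      rw [h3, map_one]
      exact Subgroup.one_mem _
    · left
      rintro _ ⟨t, ht, rfl⟩
      have h3 : t ∈ T0 ⊓ M.comap (MulAut.conj h).toMonoidHom := by rw [h1]; exact ht
      exact (Subgroup.mem_inf.1 h3).2
  have hgen : ∀ M : Subgroup H, (∀ h : H, T0.map (MulAut.conj h).toMonoidHom ≤ M) → N ≤ M := by
    intro M hM
    have h1 : Subgroup.normalClosure (T0 : Set H) = N := by
      rcases hmin (Subgroup.normalClosure (T0 : Set H)) inferInstance
        (Subgroup.normalClosure_le_normal (fun x hx => hT0N hx)) with h | h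
      · exfalso; apply hT0ne
        rw [eq_bot_iff, ← h]; exact Subgroup.le_normalClosure
      · exact h
    rw [← h1]
    unfold Subgroup.normalClosure
    rw [Subgroup.closure_le]
    intro x hx
    rw [Group.mem_conjugatesOfSet_iff] at hx
    obtain ⟨t, ht, hconj⟩ := hx
    rw [isConj_iff] at hconj
    obtain ⟨c, rfl⟩ := hconj
    exact hM c ⟨t, ht, rfl⟩
  have hsimple : IsSimpleGroup T0 := by
    haveI : Nontrivial T0 := (Subgroup.nontrivial_iff_ne_bot T0).2 hT0ne
    constructor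
    intro K' hK'
    have hKle : K'.map T0.subtype ≤ T0 := by rintro _ ⟨k, _, rfl⟩; exact k.2
    have hKT0 : ∀ t ∈ T0, ∀ x ∈ K'.map T0.subtype, t * x * t⁻¹ ∈ K'.map T0.subtype := by
      rintro t ht _ ⟨k, hk, rfl⟩
      exact ⟨⟨t, ht⟩ * k * ⟨t, ht⟩⁻¹, hK'.conj_mem k hk ⟨t, ht⟩, rfl⟩
    have hKinv : ∀ n ∈ N, ∀ x ∈ K'.map T0.subtype, n * x * n⁻¹ ∈ K'.map T0.subtype := by
      have h1 : N ≤ Subgroup.normalizer ((K'.map T0.subtype : Subgroup H) : Set H) := by
        apply hgen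
        intro h y hy
        apply Cfsg.Agent.Lib.Helper1.mem_normalizer_of_finite
        intro x hx
        rcases hdich h T0 hT0inv with h2 | h2
        · exact hKT0 y (h2 hy) x hx
        · have hxT : x ∈ T0 := hKle hx
          have hyN : y ∈ N := hcjN h hy
          have h3 : y * x * y⁻¹ * x⁻¹ ∈ T0.map (MulAut.conj h).toMonoidHom ⊓ T0 := by
            refine Subgroup.mem_inf.2 ⟨?_, ?_⟩
            · have h4 : x * y⁻¹ * x⁻¹ ∈ T0.map (MulAut.conj h).toMonoidHom :=
                hcjinv h x (hT0N hxT) y⁻¹ (Subgroup.inv_mem _ hy)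
              have h5 : y * x * y⁻¹ * x⁻¹ = y * (x * y⁻¹ * x⁻¹) := by group
              rw [h5]; exact Subgroup.mul_mem _ hy h4
            · exact T0.mul_mem (hT0inv y hyN x hxT) (T0.inv_mem hxT)
          rw [h2, Subgroup.mem_bot] at h3
          have h6 : y * x * y⁻¹ = x := by
            have : y * x * y⁻¹ = (y * x * y⁻¹ * x⁻¹) * x := by group
            rw [this, h3, one_mul]
          rw [h6]; exact hx
      intro n hn x hx
      exact (Subgroup.mem_normalizer_iff.1 (h1 hn) x).1 hx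
    rcases hmin0 _ hKle hKinv with h | h
    · left
      rw [eq_bot_iff]
      intro k hk
      have h3 : (k : H) ∈ K'.map T0.subtype := ⟨k, hk, rfl⟩
      rw [h, Subgroup.mem_bot] at h3
      exact Subgroup.mem_bot.2 (Subtype.ext h3)
    · right
      rw [eq_top_iff]
      intro k _
      have h3 : (k : H) ∈ K'.map T0.subtype := by rw [h]; exact k.2
      obtain ⟨k', hk', hkk⟩ := h3
      have h4 : k' = k := Subtype.ext hkk
      rw [← h4]; exact hk'
  have hbot1 : ∀ n ∈ N, ∀ x ∈ (⊥ : Subgroup H), n * x * n⁻¹ ∈ (⊥ : Subgroup H) := by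
    intro n _ x hx
    rw [Subgroup.mem_bot] at hx ⊢
    rw [hx]; group
  have hbot2 : Function.Injective (1 : (Fin 0 → T0) →* H) :=
    Function.injective_of_subsingleton _
  obtain ⟨M, ⟨hMN, hMinv, r, f, hf, hfr⟩, hMmax⟩ := (wellFounded_gt (α := Subgroup H)).has_min
    {M : Subgroup H | M ≤ N ∧ (∀ n ∈ N, ∀ x ∈ M, n * x * n⁻¹ ∈ M) ∧
      ∃ (r : ℕ) (f : (Fin r → T0) →* H), Function.Injective f ∧ f.range = M}
    ⟨⊥, bot_le, hbot1, 0, 1, hbot2, MonoidHom.range_one⟩
  have hMeq : M = N := by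
    by_contra hne
    have h1 : ¬ N ≤ M := fun h => hne (le_antisymm hMN h)
    have h2 : ∃ h : H, ¬ T0.map (MulAut.conj h).toMonoidHom ≤ M := by
      by_contra hall
      push_neg at hall
      exact h1 (hgen M hall)
    obtain ⟨h, hh⟩ := h2
    have hdisj : T0.map (MulAut.conj h).toMonoidHom ⊓ M = ⊥ :=
      (hdich h M hMinv).resolve_left hh
    have hcomm : ∀ x ∈ M, ∀ y ∈ T0.map (MulAut.conj h).toMonoidHom, x * y = y * x := by
      intro x hx y hy
      have h3 : x * y * x⁻¹ * y⁻¹ ∈ T0.map (MulAut.conj h).toMonoidHom ⊓ M := by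
        refine Subgroup.mem_inf.2 ⟨?_, ?_⟩
        · exact Subgroup.mul_mem _ (hcjinv h x (hMN hx) y hy) (Subgroup.inv_mem _ hy)
        · have h4 : y * x⁻¹ * y⁻¹ ∈ M := hMinv y (hcjN h hy) x⁻¹ (M.inv_mem hx)
          have h5 : x * y * x⁻¹ * y⁻¹ = x * (y * x⁻¹ * y⁻¹) := by group
          rw [h5]; exact M.mul_mem hx h4
      rw [hdisj, Subgroup.mem_bot] at h3
      calc x * y = (x * y * x⁻¹ * y⁻¹) * (y * x) := by group
        _ = y * x := by rw [h3, one_mul]
    have hfM : ∀ u : Fin r → T0, f u ∈ M := fun u => hfr ▸ ⟨u, rfl⟩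
    have hcjmem : ∀ t : T0, h * (t : H) * h⁻¹ ∈ T0.map (MulAut.conj h).toMonoidHom :=
      fun t => ⟨(t : H), t.2, rfl⟩
    let f' : (Fin (r + 1) → T0) →* H := MonoidHom.mk'
      (fun v => f (fun i : Fin r => v i.castSucc) * (h * (v (Fin.last r) : H) * h⁻¹)) (by
        intro v w
        have e1 : (fun i : Fin r => (v * w) i.castSucc)
            = (fun i : Fin r => v i.castSucc) * (fun i : Fin r => w i.castSucc) := rfl
        have e2 : (((v * w) (Fin.last r) : T0) : H)
            = (v (Fin.last r) : H) * (w (Fin.last r) : H) := rfl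
        have hc := hcomm (f (fun i : Fin r => w i.castSucc)) (hfM _)
          (h * (v (Fin.last r) : H) * h⁻¹) (hcjmem _)
        have e3 : h * ((v (Fin.last r) : H) * (w (Fin.last r) : H)) * h⁻¹
            = (h * (v (Fin.last r) : H) * h⁻¹) * (h * (w (Fin.last r) : H) * h⁻¹) := by group
        show f (fun i : Fin r => (v * w) i.castSucc) * (h * (((v * w) (Fin.last r) : T0) : H) * h⁻¹)
          = f (fun i : Fin r => v i.castSucc) * (h * (v (Fin.last r) : H) * h⁻¹)
            * (f (fun i : Fin r => w i.castSucc) * (h * (w (Fin.last r) : H) * h⁻¹))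
        rw [e1, map_mul, e2, e3]
        calc f (fun i : Fin r => v i.castSucc) * f (fun i : Fin r => w i.castSucc)
              * ((h * (v (Fin.last r) : H) * h⁻¹) * (h * (w (Fin.last r) : H) * h⁻¹))
            = f (fun i : Fin r => v i.castSucc) * (f (fun i : Fin r => w i.castSucc)
              * (h * (v (Fin.last r) : H) * h⁻¹)) * (h * (w (Fin.last r) : H) * h⁻¹) := by
              simp only [mul_assoc]
          _ = f (fun i : Fin r => v i.castSucc) * ((h * (v (Fin.last r) : H) * h⁻¹)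
              * f (fun i : Fin r => w i.castSucc)) * (h * (w (Fin.last r) : H) * h⁻¹) := by
              rw [hc]
          _ = _ := by simp only [mul_assoc])
    have hf'apply : ∀ v, f' v = f (fun i : Fin r => v i.castSucc)
        * (h * (v (Fin.last r) : H) * h⁻¹) := fun v => rfl
    have hf'inj : Function.Injective f' := by
      rw [injective_iff_map_eq_one]
      intro v hv
      rw [hf'apply] at hv
      have h6 : f (fun i : Fin r => v i.castSucc) ∈ T0.map (MulAut.conj h).toMonoidHom ⊓ M := by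
        refine Subgroup.mem_inf.2 ⟨?_, hfM _⟩
        have h7 : f (fun i : Fin r => v i.castSucc) = (h * (v (Fin.last r) : H) * h⁻¹)⁻¹ :=
          eq_inv_of_mul_eq_one_left hv
        rw [h7]
        exact Subgroup.inv_mem _ (hcjmem _)
      rw [hdisj, Subgroup.mem_bot] at h6
      have h7 : (fun i : Fin r => v i.castSucc) = 1 := (injective_iff_map_eq_one f).1 hf _ h6
      rw [h6, one_mul] at hv
      have h8 : (v (Fin.last r) : H) = 1 := by
        have : (v (Fin.last r) : H) = h⁻¹ * (h * (v (Fin.last r) : H) * h⁻¹) * h := by group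
        rw [this, hv]; group
      funext i
      refine Fin.lastCases ?_ (fun j => ?_) i
      · exact Subtype.ext h8
      · exact congrFun h7 j
    have hf'range : f'.range = M ⊔ T0.map (MulAut.conj h).toMonoidHom := by
      apply le_antisymm
      · rintro _ ⟨v, rfl⟩
        rw [hf'apply]
        exact Subgroup.mul_mem _ (Subgroup.mem_sup_left (hfM _)) (Subgroup.mem_sup_right (hcjmem _))
      · apply sup_le
        · rw [← hfr]
          rintro _ ⟨u, rfl⟩
          refine ⟨Fin.snoc (α := fun _ => T0) u 1, ?_⟩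
          rw [hf'apply]
          simp
        · rintro _ ⟨t, ht, rfl⟩
          refine ⟨Fin.snoc (α := fun _ => T0) 1 ⟨t, ht⟩, ?_⟩
          rw [hf'apply]
          have e5 : (fun i : Fin r => (Fin.snoc (α := fun _ => T0) 1 ⟨t, ht⟩ : Fin (r + 1) → T0)
              i.castSucc) = 1 := by
            funext i; simp
          rw [e5, map_one, one_mul]
          simp
    have hinv' : ∀ n ∈ N, ∀ x ∈ M ⊔ T0.map (MulAut.conj h).toMonoidHom,
        n * x * n⁻¹ ∈ M ⊔ T0.map (MulAut.conj h).toMonoidHom := by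
      intro n hn x hx
      exact conj_mem_sup M _ n (hMinv n hn) (hcjinv h n hn) x hx
    have hlt : M < M ⊔ T0.map (MulAut.conj h).toMonoidHom :=
      lt_of_le_of_ne le_sup_left (fun heq => hh (heq ▸ le_sup_right))
    exact hMmax (M ⊔ T0.map (MulAut.conj h).toMonoidHom)
      ⟨sup_le hMN (hcjN h), hinv', r + 1, f', hf'inj, hf'range⟩ hlt
  rw [hMeq] at hfr
  have hr : 0 < r := by
    by_contra h0
    have hr0 : r = 0 := by omega
    subst hr0
    apply hN
    rw [← hfr, eq_bot_iff]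
    rintro _ ⟨v, rfl⟩
    have hv1 : v = 1 := Subsingleton.elim _ _
    rw [hv1, map_one]; exact Subgroup.one_mem _
  obtain ⟨T, hTg, ⟨e⟩⟩ := exists_type0 T0
  refine ⟨T, hTg, r, ?_, hr, ⟨?_⟩⟩
  · exact e.isSimpleGroup
  · exact ((MonoidHom.ofInjective hf).trans (MulEquiv.subgroupCongr hfr)).symm.trans
      (MulEquiv.piCongrRight (fun _ => e.symm))

end Cfsg.Agent.S0721
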