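import Cfsg.Statements.S3752
import Mathlib
import Cfsg.Agent.Lib.Helper3.BenderPair
import Cfsg.Agent.Lib.Helper3.PrimPair

set_option autoImplicit false
open Cfsg

namespace Cfsg.Agent.S3752

open Cfsg.Agent.Lib.Helper3 Cfsg.Agent.Lib.Helper2

/-- Bender's Theorem on primitive pairs. Two distinct subgroups M₁, M₂ of G form a primitive pair when, for {i, j} = {1, 2}, every non-trivial normal subgroup A of M_i contained in M₁ ∩ M₂ satisfies N_{M_j}(A) = M₁ ∩ M₂; the pair has characteristic p when moreover C_{M_i}(O_p(M_i)) ≤ O_p(M_i) for both i and O_p(M₁)O_p(M₂) ≤ M₁ ∩ M₂. If (M₁, M₂) is a primitive pair of the finite group G with F*(M₁) ≤ M₂ and F*(M₂) ≤ M₁, then for some prime p the pair has characteristic p. -/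
theorem result {G : Type*} [Group G] [Finite G] (M₁ M₂ : Subgroup G) (hne : M₁ ≠ M₂) (hP : ∀ A : Subgroup G, A ≠ ⊥ → A ≤ M₁ ⊓ M₂ → (M₁ ≤ Subgroup.normalizer (A : Set G) → M₂ ⊓ Subgroup.normalizer (A : Set G) = M₁ ⊓ M₂) ∧ (M₂ ≤ Subgroup.normalizer (A : Set G) → M₁ ⊓ Subgroup.normalizer (A : Set G) = M₁ ⊓ M₂)) (h₁ : (Cfsg.generalizedFittingSubgroup ↥M₁).map M₁.subtype ≤ M₂) (h₂ : (Cfsg.generalizedFittingSubgroup ↥M₂).map M₂.subtype ≤ M₁) : ∃ p : ℕ, p.Prime ∧ Subgroup.centralizer (Cfsg.pCore p ↥M₁ : Set ↥M₁) ≤ Cfsg.pCore p ↥M₁ ∧ Subgroup.centralizer (Cfsg.pCore p ↥M₂ : Set ↥M₂) ≤ Cfsg.pCore p ↥M₂ ∧ (Cfsg.pCore p ↥M₁).map M₁.subtype ⊔ (Cfsg.pCore p ↥M₂).map M₂.subtype ≤ M₁ ⊓ M₂ := by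
  classical
  have hstar : ∀ A : Subgroup G, A ≠ ⊥ → A ≤ M₁ ⊓ M₂ → M₁ ≤ Subgroup.normalizer (A : Set G) →
      M₂ ≤ Subgroup.normalizer (A : Set G) → False := by
    intro A hA1 hA hM1 hM2
    obtain ⟨e1, e2⟩ := hP A hA1 hA
    have e1' := e1 hM1
    have e2' := e2 hM2
    apply hne
    apply le_antisymm
    · have h1 : M₁ ≤ M₁ ⊓ Subgroup.normalizer (A : Set G) := le_inf le_rfl hM1
      exact le_trans (le_trans h1 (le_of_eq e2')) inf_le_right
    · have h2 : M₂ ≤ M₂ ⊓ Subgroup.normalizer (A : Set G) := le_inf le_rfl hM2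
      exact le_trans (le_trans h2 (le_of_eq e1')) inf_le_left
  have hprim12 : ∀ A : Subgroup G, A ≠ ⊥ → A ≤ M₁ ⊓ M₂ →
      M₁ ≤ Subgroup.normalizer (A : Set G) →
      M₂ ⊓ Subgroup.normalizer (A : Set G) ≤ M₁ := by
    intro A hA1 hA hM1
    exact le_trans (le_of_eq ((hP A hA1 hA).1 hM1)) inf_le_left
  have hprim21 : ∀ A : Subgroup G, A ≠ ⊥ → A ≤ M₁ ⊓ M₂ →
      M₂ ≤ Subgroup.normalizer (A : Set G) →
      M₁ ⊓ Subgroup.normalizer (A : Set G) ≤ M₂ := by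
    intro A hA1 hA hM2
    exact le_trans (le_of_eq ((hP A hA1 hA).2 hM2)) inf_le_right
  have hstar' : ∀ A : Subgroup G, A ≠ ⊥ → A ≤ M₂ ⊓ M₁ →
      M₂ ≤ Subgroup.normalizer (A : Set G) →
      M₁ ≤ Subgroup.normalizer (A : Set G) → False :=
    fun A hA1 hA hM2 hM1 => hstar A hA1 (by rw [inf_comm]; exact hA) hM1 hM2
  have hl1 : Cfsg.layer ↥M₁ = ⊥ := layer_eq_bot_of_pair M₁ M₂ h₁ h₂ hstar
  have hl2 : Cfsg.layer ↥M₂ = ⊥ := layer_eq_bot_of_pair M₂ M₁ h₂ h₁ hstar'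
  have hPM : ∀ s : ℕ, [Fact s.Prime] → Cfsg.pCoreOf s M₁ ≤ M₂ :=
    fun s _ => le_trans (pCoreOf_le_genFittingOf s M₁) h₁
  have hPN : ∀ s : ℕ, [Fact s.Prime] → Cfsg.pCoreOf s M₂ ≤ M₁ :=
    fun s _ => le_trans (pCoreOf_le_genFittingOf s M₂) h₂
  have hnorm : ∀ (M : Subgroup G) (s : ℕ),
      M ≤ Subgroup.normalizer ((Cfsg.pCoreOf s M : Subgroup G) : Set G) :=
    fun M s => le_trans Subgroup.le_normalizer (normalizer_le_normalizer_pCoreOf' M)
  have hQ12 : ∀ p q : ℕ, [Fact p.Prime] → [Fact q.Prime] → p ≠ q → Cfsg.pCoreOf p M₁ ≠ ⊥ →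
      Cfsg.pCoreOf q M₁ ≤ Cfsg.pCoreOf q M₂ := by
    intro p q _ _ hpq hp1
    exact pCoreOf_le_pCoreOf_of_pair M₁ M₂ hl2 p q hpq hPM hPN
      (hprim12 _ hp1 (le_inf (pCoreOf_le_self M₁) (hPM p)) (hnorm M₁ p))
  have hQ21 : ∀ p q : ℕ, [Fact p.Prime] → [Fact q.Prime] → p ≠ q → Cfsg.pCoreOf p M₂ ≠ ⊥ →
      Cfsg.pCoreOf q M₂ ≤ Cfsg.pCoreOf q M₁ := by
    intro p q _ _ hpq hp2
    exact pCoreOf_le_pCoreOf_of_pair M₂ M₁ hl1 p q hpq hPN hPM
      (hprim21 _ hp2 (le_inf (hPN p) (pCoreOf_le_self M₂)) (hnorm M₂ p))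
  have hboth : ∀ p q : ℕ, [Fact p.Prime] → [Fact q.Prime] → p ≠ q →
      ((Cfsg.pCoreOf p M₁ ≠ ⊥ ∧ Cfsg.pCoreOf q M₁ ≠ ⊥) ∨
        (Cfsg.pCoreOf p M₂ ≠ ⊥ ∧ Cfsg.pCoreOf q M₂ ≠ ⊥)) → False := by
    intro p q _ _ hpq hcase
    have key : (Cfsg.pCoreOf p M₁ ≠ ⊥ ∧ Cfsg.pCoreOf q M₁ ≠ ⊥) ∧
        (Cfsg.pCoreOf p M₂ ≠ ⊥ ∧ Cfsg.pCoreOf q M₂ ≠ ⊥) := by
      rcases hcase with ⟨hp1, hq1⟩ | ⟨hp2, hq2⟩
      · have hle12 : ∀ s : ℕ, [Fact s.Prime] → Cfsg.pCoreOf s M₁ ≤ Cfsg.pCoreOf s M₂ := by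
          intro s _
          by_cases hs : p = s
          · exact hQ12 q s (fun h => hpq (hs.trans h.symm)) hq1
          · exact hQ12 p s hs hp1
        refine ⟨⟨hp1, hq1⟩, ?_, ?_⟩
        · intro h
          have h0 := hle12 p
          rw [h] at h0
          exact hp1 (le_bot_iff.mp h0)
        · intro h
          have h0 := hle12 q
          rw [h] at h0
          exact hq1 (le_bot_iff.mp h0)
      · have hle21 : ∀ s : ℕ, [Fact s.Prime] → Cfsg.pCoreOf s M₂ ≤ Cfsg.pCoreOf s M₁ := by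
          intro s _
          by_cases hs : p = s
          · exact hQ21 q s (fun h => hpq (hs.trans h.symm)) hq2
          · exact hQ21 p s hs hp2
        refine ⟨⟨?_, ?_⟩, hp2, hq2⟩
        · intro h
          have h0 := hle21 p
          rw [h] at h0
          exact hp2 (le_bot_iff.mp h0)
        · intro h
          have h0 := hle21 q
          rw [h] at h0
          exact hq2 (le_bot_iff.mp h0)
    obtain ⟨⟨hp1, hq1⟩, hp2, hq2⟩ := key
    have hle12 : Cfsg.pCoreOf p M₁ ≤ Cfsg.pCoreOf p M₂ := hQ12 q p (Ne.symm hpq) hq1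
    have hle21 : Cfsg.pCoreOf p M₂ ≤ Cfsg.pCoreOf p M₁ := hQ21 q p (Ne.symm hpq) hq2
    have heq : Cfsg.pCoreOf p M₁ = Cfsg.pCoreOf p M₂ := le_antisymm hle12 hle21
    exact hstar (Cfsg.pCoreOf p M₁) hp1 (le_inf (pCoreOf_le_self M₁) (hPM p)) (hnorm M₁ p)
      (by rw [heq]; exact hnorm M₂ p)
  have huniq1 : ∀ p q : ℕ, [Fact p.Prime] → [Fact q.Prime] → Cfsg.pCoreOf p M₁ ≠ ⊥ →
      Cfsg.pCoreOf q M₁ ≠ ⊥ → p = q := by
    intro p q _ _ hp1 hq1
    by_contra hpq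
    exact hboth p q hpq (Or.inl ⟨hp1, hq1⟩)
  have huniq2 : ∀ p q : ℕ, [Fact p.Prime] → [Fact q.Prime] → Cfsg.pCoreOf p M₂ ≠ ⊥ →
      Cfsg.pCoreOf q M₂ ≠ ⊥ → p = q := by
    intro p q _ _ hp2 hq2
    by_contra hpq
    exact hboth p q hpq (Or.inr ⟨hp2, hq2⟩)
  have hbot : ∀ (M : Subgroup G) (s : ℕ), Cfsg.pCoreOf s M = ⊥ → Cfsg.pCore s ↥M = ⊥ := by
    intro M s h
    unfold Cfsg.pCoreOf at h
    exact (Subgroup.map_eq_bot_iff_of_injective _ M.subtype_injective).mp h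
  have hex : ∀ (M : Subgroup G), Cfsg.layer ↥M = ⊥ → M ≠ ⊥ →
      ∃ p : ℕ, ∃ _ : Fact p.Prime, Cfsg.pCoreOf p M ≠ ⊥ := by
    intro M hl hM
    by_contra hno
    have hno' : ∀ s : ℕ, [Fact s.Prime] → Cfsg.pCoreOf s M = ⊥ := by
      intro s hs
      by_contra h
      exact hno ⟨s, hs, h⟩
    apply hM
    apply eq_bot_of_genFittingOf_eq_bot
    have h2 : Fact (Nat.Prime 2) := ⟨Nat.prime_two⟩
    have h0 := genFitting_le_pCore_of hl 2 (fun s _ _ => hbot M s (hno' s))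
    rw [hbot M 2 (hno' 2)] at h0
    exact le_bot_iff.mp h0
  have hM1 : M₁ ≠ ⊥ := by
    intro h
    apply hne
    have hF2 : Cfsg.generalizedFittingSubgroup ↥M₂ = ⊥ := by
      have h0 : (Cfsg.generalizedFittingSubgroup ↥M₂).map M₂.subtype ≤ ⊥ := by
        rw [← h]; exact h₂
      exact (Subgroup.map_eq_bot_iff_of_injective _ M₂.subtype_injective).mp (le_bot_iff.mp h0)
    rw [h, eq_bot_of_genFittingOf_eq_bot M₂ hF2]
  have hM2 : M₂ ≠ ⊥ := by
    intro h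
    apply hne
    have hF1 : Cfsg.generalizedFittingSubgroup ↥M₁ = ⊥ := by
      have h0 : (Cfsg.generalizedFittingSubgroup ↥M₁).map M₁.subtype ≤ ⊥ := by
        rw [← h]; exact h₁
      exact (Subgroup.map_eq_bot_iff_of_injective _ M₁.subtype_injective).mp (le_bot_iff.mp h0)
    rw [h, eq_bot_of_genFittingOf_eq_bot M₁ hF1]
  obtain ⟨p, hpF, hp1⟩ := hex M₁ hl1 hM1
  obtain ⟨p', hpF', hp2⟩ := hex M₂ hl2 hM2
  have hpp : p = p' := by
    by_contra hpp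
    have hpM2 : Cfsg.pCoreOf p M₂ = ⊥ := by
      by_contra h
      exact hpp (huniq2 p p' h hp2)
    have hs2 : ∀ s : ℕ, [Fact s.Prime] → s ≠ p' → Cfsg.pCore s ↥M₂ = ⊥ := by
      intro s _ hs
      apply hbot
      by_contra h
      exact hs (huniq2 s p' h hp2)
    have hF2 := genFitting_le_pCore_of hl2 p' hs2
    have hle : Cfsg.pCoreOf p M₁ ≤ Cfsg.pCoreOf p' M₂ := by
      intro x hx
      have hxN : x ∈ M₂ := hPM p hx
      have hcent : (⟨x, hxN⟩ : ↥M₂) ∈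
          Subgroup.centralizer (Cfsg.generalizedFittingSubgroup ↥M₂ : Set ↥M₂) := by
        have hle' : Cfsg.generalizedFittingSubgroup ↥M₂ ≤
            Subgroup.centralizer ({(⟨x, hxN⟩ : ↥M₂)} : Set ↥M₂) := by
          unfold Cfsg.generalizedFittingSubgroup
          rw [hl2, bot_sup_eq]
          apply subnormal_nilpotent_le _ (fitting_normal ↥M₂).isSubnormal
            (fitting_isNilpotent ↥M₂)
          intro s _ y hy
          rw [Subgroup.mem_centralizer_singleton_iff]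
          by_cases hs : s = p
          · have hy1 : y = 1 := by
              have h0 := hbot M₂ p hpM2
              rw [hs, h0] at hy
              exact Subgroup.mem_bot.mp hy
            rw [hy1, one_mul, mul_one]
          · apply Subtype.ext
            exact (pCoreOf_commute M₁ M₂ p s (Ne.symm hs) (hPM p) (hPN s) x hx (y : G)
              ⟨y, hy, rfl⟩).symm
        rw [Subgroup.mem_centralizer_iff]
        intro f hf
        have h0 := hle' hf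
        rw [Subgroup.mem_centralizer_singleton_iff] at h0
        exact h0
      have h1 := hF2 (centralizer_genFitting_le ↥M₂ hcent)
      exact ⟨⟨x, hxN⟩, h1, rfl⟩
    have hdisj := IsPGroup.disjoint_of_ne p p' hpp _ _ (pCoreOf_isPGroup' (p := p) M₁)
      (pCoreOf_isPGroup' (p := p') M₂)
    apply hp1
    rw [eq_bot_iff]
    intro x hx
    exact Subgroup.mem_bot.mpr ((Subgroup.disjoint_def.mp hdisj) hx (hle hx))
  subst hpp
  have hs1 : ∀ s : ℕ, [Fact s.Prime] → s ≠ p → Cfsg.pCore s ↥M₁ = ⊥ := by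
    intro s _ hs
    apply hbot
    by_contra h
    exact hs (huniq1 s p h hp1)
  have hs2 : ∀ s : ℕ, [Fact s.Prime] → s ≠ p → Cfsg.pCore s ↥M₂ = ⊥ := by
    intro s _ hs
    apply hbot
    by_contra h
    exact hs (huniq2 s p h hp2)
  have hF1 := genFitting_le_pCore_of hl1 p hs1
  have hF2 := genFitting_le_pCore_of hl2 p hs2
  refine ⟨p, hpF.out, ?_, ?_, ?_⟩
  · exact le_trans (le_trans (Subgroup.centralizer_le (SetLike.coe_subset_coe.mpr hF1))
      (centralizer_genFitting_le ↥M₁)) hF1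
  · exact le_trans (le_trans (Subgroup.centralizer_le (SetLike.coe_subset_coe.mpr hF2))
      (centralizer_genFitting_le ↥M₂)) hF2
  · exact sup_le (le_inf (pCoreOf_le_self M₁) (hPM p)) (le_inf (hPN p) (pCoreOf_le_self M₂))

end Cfsg.Agent.S3752
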