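import Cfsg.Statements.S1312
import Mathlib
import Cfsg.Agent.S3752
import Cfsg.Agent.Lib.Helper5.ParaChar5
import Cfsg.Agent.Lib.Helper4.PCore

set_option autoImplicit false
open Cfsg

namespace Cfsg.Agent.S1312

/-- Let G be a non-abelian finite simple group and M ≠ N maximal subgroups of G with F*(M) ≤ N and F*(N) ≤ M. Then there is a prime p such that F*(M) and F*(N) are both p-groups. -/
theorem result {G : Type*} [Group G] [Finite G] [IsSimpleGroup G] (hna : ¬ IsMulCommutative G) (M N : Subgroup G) (hM : IsCoatom M) (hN : IsCoatom N) (hMN : M ≠ N) (h1 : (Cfsg.generalizedFittingSubgroup ↥M).map M.subtype ≤ N) (h2 : (Cfsg.generalizedFittingSubgroup ↥N).map N.subtype ≤ M) : ∃ p : ℕ, p.Prime ∧ IsPGroup p ↥(Cfsg.generalizedFittingSubgroup ↥M) ∧ IsPGroup p ↥(Cfsg.generalizedFittingSubgroup ↥N) := by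
  classical
  have hP : ∀ A : Subgroup G, A ≠ ⊥ → A ≤ M ⊓ N →
      (M ≤ Subgroup.normalizer (A : Set G) → N ⊓ Subgroup.normalizer (A : Set G) = M ⊓ N) ∧
      (N ≤ Subgroup.normalizer (A : Set G) → M ⊓ Subgroup.normalizer (A : Set G) = M ⊓ N) := by
    intro A hA1 hA
    have hAtop : A ≠ ⊤ := by
      intro h
      apply hM.1
      rw [eq_top_iff, ← h]
      exact le_trans hA inf_le_left
    have hnn : ¬ A.Normal := fun hn => (hn.eq_bot_or_eq_top).elim hA1 hAtop
    have hNtop : Subgroup.normalizer (A : Set G) ≠ ⊤ :=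
      fun h => hnn (Subgroup.normalizer_eq_top_iff.mp h)
    constructor
    · intro hMA
      have h0 : Subgroup.normalizer (A : Set G) = M := by
        by_contra hne'
        exact hNtop (hM.2 _ (lt_of_le_of_ne hMA (Ne.symm hne')))
      rw [h0, inf_comm]
    · intro hNA
      have h0 : Subgroup.normalizer (A : Set G) = N := by
        by_contra hne'
        exact hNtop (hN.2 _ (lt_of_le_of_ne hNA (Ne.symm hne')))
      rw [h0]
  obtain ⟨p, hp, hc1, hc2, -⟩ := Cfsg.Agent.S3752.result M N hMN hP h1 h2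
  haveI : Fact p.Prime := ⟨hp⟩
  refine ⟨p, hp, ?_, ?_⟩
  · rw [Cfsg.Agent.Lib.Helper5.genFitting_eq_pCore_of_charP5 p hc1]
    exact Cfsg.Agent.Lib.Helper4.pCore_isPGroup p ↥M
  · rw [Cfsg.Agent.Lib.Helper5.genFitting_eq_pCore_of_charP5 p hc2]
    exact Cfsg.Agent.Lib.Helper4.pCore_isPGroup p ↥N

end Cfsg.Agent.S1312
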