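import Mathlib
import Cfsg.Statements.S1313
import Cfsg.Agent.Lib.Helper2.FStar

set_option autoImplicit false
open Cfsg

namespace Cfsg.Agent.S1313

/-- For a finite group H, |H| ≤ |F*(H)|!. -/
theorem result {H : Type*} [Group H] [Finite H] : Nat.card H ≤ Nat.factorial (Nat.card ↥(Cfsg.generalizedFittingSubgroup H)) := by
  have hFsn : (Cfsg.generalizedFittingSubgroup H).Normal :=
    Cfsg.Agent.Lib.Helper2.genFitting_normal H
  let θ : H →* MulAut ↥(Cfsg.generalizedFittingSubgroup H) := MulAut.conjNormal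
  have hker : θ.ker ≤ Cfsg.generalizedFittingSubgroup H := by
    intro h hh
    apply Cfsg.Agent.Lib.Helper2.centralizer_genFitting_le H
    rw [Subgroup.mem_centralizer_iff]
    intro f hf
    have h1 : θ h ⟨f, hf⟩ = ⟨f, hf⟩ := by rw [MonoidHom.mem_ker.mp hh]; rfl
    have h2 := congrArg Subtype.val h1
    rw [MulAut.conjNormal_apply] at h2
    calc f * h = h * f * h⁻¹ * h := by rw [h2]
      _ = h * f := by simp
  have h1 : Nat.card H = Nat.card θ.ker * Nat.card θ.range := by
    rw [← Subgroup.index_ker, Subgroup.card_mul_index]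
  have h2 : Nat.card θ.ker ≤ Nat.card ↥(Cfsg.generalizedFittingSubgroup H) :=
    Subgroup.card_le_of_le hker
  have h3 : Nat.card θ.range ≤ Nat.card (MulAut ↥(Cfsg.generalizedFittingSubgroup H)) :=
    Subgroup.card_le_card_group _
  have h4 : Nat.card ↥(Cfsg.generalizedFittingSubgroup H) *
      Nat.card (MulAut ↥(Cfsg.generalizedFittingSubgroup H)) ≤
      Nat.card (Equiv.Perm ↥(Cfsg.generalizedFittingSubgroup H)) := by
    rw [← Nat.card_prod]
    apply Nat.card_le_card_of_injective
      (fun p : ↥(Cfsg.generalizedFittingSubgroup H) × MulAut ↥(Cfsg.generalizedFittingSubgroup H) =>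
        p.2.toEquiv.trans (Equiv.mulRight p.1))
    rintro ⟨c, α⟩ ⟨c', α'⟩ h
    have hc : c = c' := by
      have := congrArg (fun e : Equiv.Perm ↥(Cfsg.generalizedFittingSubgroup H) => e 1) h
      simpa using this
    subst hc
    have hα : α = α' := by
      ext x
      have := congrArg (fun e : Equiv.Perm ↥(Cfsg.generalizedFittingSubgroup H) => e x) h
      simpa using this
    rw [hα]
  rw [Nat.card_perm] at h4
  calc Nat.card H = Nat.card θ.ker * Nat.card θ.range := h1
    _ ≤ Nat.card ↥(Cfsg.generalizedFittingSubgroup H) *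
        Nat.card (MulAut ↥(Cfsg.generalizedFittingSubgroup H)) := Nat.mul_le_mul h2 h3
    _ ≤ _ := h4

end Cfsg.Agent.S1313
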