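import Cfsg.Statements.S1892
import Mathlib
import Cfsg.Agent.Lib.Helper3.PSolvAct
import Cfsg.Agent.S4218
import Cfsg.Agent.Lib.Helper4.PCore

set_option autoImplicit false
open Cfsg

namespace Cfsg.Agent.S1892

open Cfsg.Agent.Lib.Helper3
open scoped commutatorElement

/-- Let S be a finite p-solvable group with no nontrivial normal subgroup of order prime to p, A a p-subgroup of S, and Q a nontrivial A-invariant subgroup of order prime to p with [A, Q] = Q. Then the commutator [O_p(S), A, Q] is nontrivial. -/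
theorem result {S : Type*} [Group S] [Finite S] {p : ℕ} [Fact p.Prime]
    (hS : Cfsg.IsPSolvable p S) (hred : Cfsg.pPrimeCore p S = ⊥)
    (A Q : Subgroup S) (hA : IsPGroup p A) (hQ : ¬ p ∣ Nat.card Q) (hQ1 : Q ≠ ⊥)
    (hinv : ∀ a ∈ A, ∀ x ∈ Q, a * x * a⁻¹ ∈ Q) (hAQ : ⁅A, Q⁆ = Q) :
    ⁅⁅Cfsg.pCore p S, A⁆, Q⁆ ≠ ⊥ := by
  intro hbot
  obtain ⟨R, hR⟩ : ∃ R : Subgroup S, R = Cfsg.pCore p S := ⟨_, rfl⟩
  rw [← hR] at hbot
  have hRn : R.Normal := by rw [hR]; exact Cfsg.Agent.Lib.Helper4.pCore_normal p S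
  have hRp : IsPGroup p ↥R := by rw [hR]; exact Cfsg.Agent.Lib.Helper4.pCore_isPGroup p S
  have hQcop : (Nat.card ↥Q).Coprime p :=
    ((Nat.Prime.coprime_iff_not_dvd Fact.out).mpr hQ).symm
  obtain ⟨C, hC⟩ : ∃ C : Subgroup S, C = R ⊓ Subgroup.centralizer (Q : Set S) := ⟨_, rfl⟩
  have hCR : C ≤ R := by rw [hC]; exact inf_le_left
  have hCQ : ∀ c ∈ C, ∀ q ∈ Q, q * c = c * q := by
    intro c hc q hq
    rw [hC] at hc
    exact (Subgroup.mem_centralizer_iff.mp (Subgroup.mem_inf.mp hc).2) q hq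
  have hRA : ⁅R, A⁆ ≤ C := by
    rw [hC]
    exact le_inf (Subgroup.commutator_le_left R A)
      (Subgroup.commutator_eq_bot_iff_le_centralizer.mp hbot)
  -- (i) A normalizes C
  have hAC : ∀ a ∈ A, ∀ c ∈ C, a * c * a⁻¹ ∈ C := by
    intro a ha c hc
    rw [hC]
    refine Subgroup.mem_inf.mpr ⟨hRn.conj_mem c (hCR hc) a, ?_⟩
    rw [Subgroup.mem_centralizer_iff]
    intro q hq
    have h1 : a⁻¹ * q * a⁻¹⁻¹ ∈ Q := hinv a⁻¹ (A.inv_mem ha) q hq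
    have h2 := hCQ c hc _ h1
    calc q * (a * c * a⁻¹) = a * ((a⁻¹ * q * a⁻¹⁻¹) * c) * a⁻¹ := by group
      _ = a * (c * (a⁻¹ * q * a⁻¹⁻¹)) * a⁻¹ := by rw [h2]
      _ = a * c * a⁻¹ * q := by group
  -- (ii) A acts trivially on the cosets of C in R
  have hAx : ∀ a ∈ A, ∀ x ∈ R, x⁻¹ * (a * x * a⁻¹) ∈ C := by
    intro a ha x hx
    have h1 : x⁻¹ * (a * x * a⁻¹) = ⁅x⁻¹, a⁆ := by
      rw [commutatorElement_def]; group
    rw [h1]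
    exact hRA (Subgroup.commutator_mem_commutator (R.inv_mem hx) ha)
  -- the predicate
  have hpred : ∀ g ∈ ⁅A, Q⁆, (∀ c ∈ C, g * c * g⁻¹ ∈ C) ∧ (∀ c ∈ C, g⁻¹ * c * g ∈ C) ∧
      (∀ x ∈ R, x⁻¹ * (g * x * g⁻¹) ∈ C) := by
    intro g hg
    rw [Subgroup.commutator_def] at hg
    induction hg using Subgroup.closure_induction with
    | mem y hy =>
      obtain ⟨a, ha, q, hq, rfl⟩ := hy
      have hcent : ∀ c ∈ C, ⁅a, q⁆ * c * ⁅a, q⁆⁻¹ = c := by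
        intro c hc
        have h1 : q⁻¹ * c * q = c := by
          have := hCQ c hc q hq
          calc q⁻¹ * c * q = q⁻¹ * (c * q) := by group
            _ = q⁻¹ * (q * c) := by rw [this]
            _ = c := by group
        have h2 : a⁻¹ * c * a⁻¹⁻¹ ∈ C := hAC a⁻¹ (A.inv_mem ha) c hc
        have h3 : q * (a⁻¹ * c * a⁻¹⁻¹) * q⁻¹ = a⁻¹ * c * a⁻¹⁻¹ := by
          have := hCQ _ h2 q hq
          calc q * (a⁻¹ * c * a⁻¹⁻¹) * q⁻¹ = (q * (a⁻¹ * c * a⁻¹⁻¹)) * q⁻¹ := by group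
            _ = ((a⁻¹ * c * a⁻¹⁻¹) * q) * q⁻¹ := by rw [this]
            _ = a⁻¹ * c * a⁻¹⁻¹ := by group
        calc ⁅a, q⁆ * c * ⁅a, q⁆⁻¹ = a * (q * (a⁻¹ * (q⁻¹ * c * q) * a⁻¹⁻¹) * q⁻¹) * a⁻¹ := by
              rw [commutatorElement_def]; group
          _ = a * (q * (a⁻¹ * c * a⁻¹⁻¹) * q⁻¹) * a⁻¹ := by rw [h1]
          _ = a * (a⁻¹ * c * a⁻¹⁻¹) * a⁻¹ := by rw [h3]
          _ = c := by group
      refine ⟨fun c hc => by rw [hcent c hc]; exact hc, fun c hc => ?_, fun x hx => ?_⟩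
      · have h1 := hcent c hc
        have h2 : ⁅a, q⁆⁻¹ * c * ⁅a, q⁆ = ⁅a, q⁆⁻¹ * (⁅a, q⁆ * c * ⁅a, q⁆⁻¹) * ⁅a, q⁆ := by
          rw [h1]
        rw [h2]
        have h3 : ⁅a, q⁆⁻¹ * (⁅a, q⁆ * c * ⁅a, q⁆⁻¹) * ⁅a, q⁆ = c := by group
        rw [h3]; exact hc
      · -- y₁ = q⁻¹ x q
        have hy1 : q⁻¹ * x * q ∈ R := by
          have := hRn.conj_mem x hx q⁻¹
          rwa [inv_inv] at this
        have hc1 : (q⁻¹ * x * q)⁻¹ * (a⁻¹ * (q⁻¹ * x * q) * a⁻¹⁻¹) ∈ C :=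
          hAx a⁻¹ (A.inv_mem ha) _ hy1
        have hc2 : x⁻¹ * (a * x * a⁻¹) ∈ C := hAx a ha x hx
        have hc1q : q * ((q⁻¹ * x * q)⁻¹ * (a⁻¹ * (q⁻¹ * x * q) * a⁻¹⁻¹)) * q⁻¹ =
            (q⁻¹ * x * q)⁻¹ * (a⁻¹ * (q⁻¹ * x * q) * a⁻¹⁻¹) := by
          have := hCQ _ hc1 q hq
          calc q * ((q⁻¹ * x * q)⁻¹ * (a⁻¹ * (q⁻¹ * x * q) * a⁻¹⁻¹)) * q⁻¹
              = (q * ((q⁻¹ * x * q)⁻¹ * (a⁻¹ * (q⁻¹ * x * q) * a⁻¹⁻¹))) * q⁻¹ := by group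
            _ = (((q⁻¹ * x * q)⁻¹ * (a⁻¹ * (q⁻¹ * x * q) * a⁻¹⁻¹)) * q) * q⁻¹ := by rw [this]
            _ = (q⁻¹ * x * q)⁻¹ * (a⁻¹ * (q⁻¹ * x * q) * a⁻¹⁻¹) := by group
        have h5 : x⁻¹ * (⁅a, q⁆ * x * ⁅a, q⁆⁻¹) = (x⁻¹ * (a * x * a⁻¹)) *
            (a * (q * ((q⁻¹ * x * q)⁻¹ * (a⁻¹ * (q⁻¹ * x * q) * a⁻¹⁻¹)) * q⁻¹) * a⁻¹) := by
          rw [commutatorElement_def]; group
        rw [h5, hc1q]
        exact C.mul_mem hc2 (hAC a ha _ hc1)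
    | one =>
      refine ⟨fun c hc => by simpa using hc, fun c hc => by simpa using hc, fun x hx => ?_⟩
      simp
    | mul g h _ _ ihg ihh =>
      obtain ⟨g1, g2, g3⟩ := ihg
      obtain ⟨h1, h2, h3⟩ := ihh
      refine ⟨fun c hc => ?_, fun c hc => ?_, fun x hx => ?_⟩
      · have e : g * h * c * (g * h)⁻¹ = g * (h * c * h⁻¹) * g⁻¹ := by group
        rw [e]; exact g1 _ (h1 c hc)
      · have e : (g * h)⁻¹ * c * (g * h) = h⁻¹ * (g⁻¹ * c * g) * h := by group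
        rw [e]; exact h2 _ (g2 c hc)
      · have e : x⁻¹ * (g * h * x * (g * h)⁻¹) =
            (x⁻¹ * (g * x * g⁻¹)) * (g * (x⁻¹ * (h * x * h⁻¹)) * g⁻¹) := by group
        rw [e]
        exact C.mul_mem (g3 x hx) (g1 _ (h3 x hx))
    | inv g _ ihg =>
      obtain ⟨g1, g2, g3⟩ := ihg
      refine ⟨fun c hc => ?_, fun c hc => ?_, fun x hx => ?_⟩
      · have := g2 c hc
        rwa [inv_inv]
      · have := g1 c hc
        rwa [inv_inv]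
      · have hy : g⁻¹ * x * g ∈ R := by
          have := hRn.conj_mem x hx g⁻¹
          rwa [inv_inv] at this
        have h1 := C.inv_mem (g3 _ hy)
        have e : ((g⁻¹ * x * g)⁻¹ * (g * (g⁻¹ * x * g) * g⁻¹))⁻¹ = x⁻¹ * (g⁻¹ * x * g⁻¹⁻¹) := by
          group
        rw [e] at h1
        exact h1
  rw [hAQ] at hpred
  -- Q centralizes R
  have hQR : Q ≤ Subgroup.centralizer (R : Set S) := by
    intro q hq
    rw [Subgroup.mem_centralizer_iff]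
    intro x hx
    have hx' : x ∈ R := hx
    have h1 := C.inv_mem ((hpred q hq).2.2 x⁻¹ (R.inv_mem hx'))
    have e : (x⁻¹⁻¹ * (q * x⁻¹ * q⁻¹))⁻¹ = q * x * q⁻¹ * x⁻¹ := by group
    rw [e] at h1
    obtain ⟨k, hk⟩ := hRp ⟨_, hCR h1⟩
    have hk' : (q * x * q⁻¹ * x⁻¹) ^ (p ^ k) = 1 := by
      simpa using congrArg Subtype.val hk
    have h2 : q * x * q⁻¹ * x⁻¹ = 1 :=
      eq_one_of_conj_eq_mul_of_coprime q x (q * x * q⁻¹ * x⁻¹) (by group)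
        (hCQ _ h1 q hq) (Nat.card ↥Q) (p ^ k)
        (orderOf_dvd_iff_pow_eq_one.mp (Subgroup.orderOf_dvd_natCard Q hq))
        hk' (Nat.Coprime.pow_right k hQcop)
    calc x * q = (q * x * q⁻¹ * x⁻¹)⁻¹ * (q * x) := by group
      _ = q * x := by rw [h2, inv_one, one_mul]
  have hQleR : Q ≤ R := by
    rw [hR] at hQR ⊢
    exact hQR.trans (Cfsg.Agent.S4218.hh123 hS hred)
  apply hQ1
  rw [eq_bot_iff]
  intro q hq
  rw [Subgroup.mem_bot]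
  obtain ⟨k, hk⟩ := hRp ⟨q, hQleR hq⟩
  have hk' : q ^ (p ^ k) = 1 := by
    simpa using congrArg Subtype.val hk
  have h6 : orderOf q ∣ p ^ k := orderOf_dvd_of_pow_eq_one hk'
  have h7 : orderOf q ∣ Nat.card ↥Q := Subgroup.orderOf_dvd_natCard Q hq
  have h8 : orderOf q ∣ 1 := by
    have := Nat.dvd_gcd h7 h6
    rwa [Nat.Coprime.pow_right k hQcop] at this
  exact orderOf_eq_one_iff.mp (Nat.dvd_one.mp h8)

end Cfsg.Agent.S1892
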