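import Cfsg.Statements.S1894
import Mathlib
import Cfsg.Agent.Lib.Helper3.PGroup

set_option autoImplicit false
open Cfsg

namespace Cfsg.Agent.S1894

/-- Let P be a finite p-group, A a normal subgroup of P and B an abelian subgroup of A that is normal in P. Then some subgroup C of A containing B is normal in P and is self-centralizing and normal in A (C ∈ SCN(A)). -/
theorem result {P : Type*} [Group P] [Finite P] {p : ℕ} [Fact p.Prime] (hP : IsPGroup p P)
    (A : Subgroup P) [A.Normal] (B : Subgroup P) [B.Normal] (hBA : B ≤ A) (hB : IsMulCommutative B) :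
    ∃ C : Subgroup P, C.Normal ∧ B ≤ C ∧ Cfsg.IsSCN A C := by
  classical
  let 𝒮 : Set (Subgroup P) := {C | C.Normal ∧ B ≤ C ∧ C ≤ A ∧ ∀ x ∈ C, ∀ y ∈ C, x * y = y * x}
  have hBmem : B ∈ 𝒮 := ⟨inferInstance, le_rfl, hBA,
    fun x hx y hy => congrArg Subtype.val (hB.is_comm.comm ⟨x, hx⟩ ⟨y, hy⟩)⟩
  obtain ⟨C, hCmax⟩ := (Set.toFinite 𝒮).exists_maximal ⟨B, hBmem⟩
  obtain ⟨⟨hCn, hBC, hCA, hCcomm⟩, hmax⟩ := hCmax
  have hCcent : C ≤ Subgroup.centralizer (C : Set P) := by
    intro x hx
    rw [Subgroup.mem_centralizer_iff]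
    intro y hy
    exact hCcomm y hy x hx
  refine ⟨C, hCn, hBC, hCA, ?_, ?_⟩
  · rw [Subgroup.normalizer_eq_top]; exact le_top
  · by_contra hne
    set D := A ⊓ Subgroup.centralizer (C : Set P) with hD
    have hCD : C ≤ D := le_inf hCA hCcent
    have hDn : D.Normal := inferInstance
    -- an element of D outside C
    have hex : ∃ x ∈ D, x ∉ C := by
      by_contra hcon
      push Not at hcon
      exact hne (le_antisymm hcon hCD)
    obtain ⟨x0, hx0D, hx0C⟩ := hex
    set D' := D.map (QuotientGroup.mk' C) with hD'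
    have hD'n : D'.Normal := Subgroup.Normal.map hDn _ (QuotientGroup.mk'_surjective C)
    have hD'ne : D' ≠ ⊥ := by
      intro hbot
      have : QuotientGroup.mk' C x0 ∈ D' := Subgroup.mem_map_of_mem _ hx0D
      rw [hbot, Subgroup.mem_bot] at this
      exact hx0C ((QuotientGroup.eq_one_iff x0).mp this)
    have hQ : IsPGroup p (P ⧸ C) := hP.to_quotient C
    obtain ⟨z, hzD', hz1, hzc⟩ := Lib.Helper3.exists_ne_one_mem_center_of_normal hQ D' hD'ne
    obtain ⟨x, hxD, rfl⟩ := hzD'
    have hxC : x ∉ C := fun h => hz1 ((QuotientGroup.eq_one_iff x).mpr h)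
    have hZn : (Subgroup.zpowers (QuotientGroup.mk' C x)).Normal := by
      refine ⟨fun n hn g => ?_⟩
      obtain ⟨k, rfl⟩ := hn
      have hk : (QuotientGroup.mk' C x) ^ k ∈ Subgroup.center (P ⧸ C) := zpow_mem hzc k
      rw [Subgroup.mem_center_iff] at hk
      have : g * (QuotientGroup.mk' C x) ^ k * g⁻¹ = (QuotientGroup.mk' C x) ^ k := by
        rw [hk g, mul_inv_cancel_right]
      rw [this]
      exact ⟨k, rfl⟩
    set C' := (Subgroup.zpowers (QuotientGroup.mk' C x)).comap (QuotientGroup.mk' C) with hC'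
    have hC'n : C'.Normal := Subgroup.Normal.comap hZn _
    have hCC' : C ≤ C' := by
      intro c hc
      show QuotientGroup.mk' C c ∈ Subgroup.zpowers (QuotientGroup.mk' C x)
      have : QuotientGroup.mk' C c = 1 := (QuotientGroup.eq_one_iff c).mpr hc
      rw [this]; exact one_mem _
    have hxC' : x ∈ C' := Subgroup.mem_zpowers _
    -- every element of C' is x^k * c
    have hform : ∀ y ∈ C', ∃ k : ℤ, ∃ c ∈ C, y = x ^ k * c := by
      intro y hy
      obtain ⟨k, hk⟩ := hy
      refine ⟨k, (x ^ k)⁻¹ * y, ?_, by group⟩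
      have h1 : QuotientGroup.mk' C ((x ^ k)⁻¹ * y) = 1 := by
        rw [map_mul, map_inv, map_zpow]
        have hk' : (QuotientGroup.mk' C x) ^ k = QuotientGroup.mk' C y := hk
        rw [hk', inv_mul_cancel]
      exact (QuotientGroup.eq_one_iff _).mp h1
    have hxcent : ∀ c ∈ C, c * x = x * c := by
      intro c hc
      exact (Subgroup.mem_centralizer_iff.mp (Subgroup.mem_inf.mp hxD).2) c hc
    have hcl : C' ≤ Subgroup.closure ((C : Set P) ∪ {x}) := by
      intro y hy
      obtain ⟨k, c, hc, rfl⟩ := hform y hy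
      exact mul_mem (zpow_mem (Subgroup.subset_closure (show x ∈ (C : Set P) ∪ {x} from Or.inr rfl)) k)
        (Subgroup.subset_closure (show c ∈ (C : Set P) ∪ {x} from Or.inl hc))
    have hcomm : ∀ a ∈ (C : Set P) ∪ {x}, ∀ b ∈ (C : Set P) ∪ {x}, a * b = b * a := by
      rintro a (ha | ha) b (hb | hb)
      · exact hCcomm a ha b hb
      · rw [Set.mem_singleton_iff] at hb; subst hb; exact hxcent a ha
      · rw [Set.mem_singleton_iff] at ha; subst ha; exact (hxcent b hb).symm
      · rw [Set.mem_singleton_iff] at ha hb; subst ha; subst hb; rfl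
    have hclc := Subgroup.isMulCommutative_closure hcomm
    have hC'mem : C' ∈ 𝒮 := by
      refine ⟨hC'n, hBC.trans hCC', ?_, ?_⟩
      · intro y hy
        obtain ⟨k, c, hc, rfl⟩ := hform y hy
        exact mul_mem (zpow_mem (Subgroup.mem_inf.mp hxD).1 k) (hCA hc)
      · intro a ha b hb
        have := hclc.is_comm.comm (⟨a, hcl ha⟩ : Subgroup.closure ((C : Set P) ∪ {x})) ⟨b, hcl hb⟩
        exact congrArg Subtype.val this
    exact hxC (hmax hC'mem hCC' hxC')

end Cfsg.Agent.S1894
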