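import Mathlib
import Cfsg.Statements.S1897
import Cfsg.Agent.Lib.Helper2.L27Equiv
import Cfsg.Agent.Lib.Helper2.U33

set_option autoImplicit false
open Cfsg

namespace Cfsg.Agent.S1897

/-- The projective special unitary group PSU₃(3) (realised over the field with 9 elements) has a subgroup isomorphic to PSL₂(7). -/
theorem result {F : Type*} [Field F] [Fintype F] (hF : Fintype.card F = 9)
    {K : Type*} [Field K] [Fintype K] (hK : Fintype.card K = 7) :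
    ∃ H : Subgroup (Cfsg.PSU 3 F 3), Nonempty (H ≃* Matrix.ProjectiveSpecialLinearGroup (Fin 2) K) := by
  classical
  suffices hmain : ∀ R : Set (FreeGroup (Fin 2)), R = {FreeGroup.of (0 : Fin 2) * FreeGroup.of (0 : Fin 2),
        FreeGroup.of (1 : Fin 2) * FreeGroup.of (1 : Fin 2) * FreeGroup.of (1 : Fin 2) * FreeGroup.of (1 : Fin 2) * FreeGroup.of (1 : Fin 2) * FreeGroup.of (1 : Fin 2) * FreeGroup.of (1 : Fin 2),
        FreeGroup.of (0 : Fin 2) * FreeGroup.of (1 : Fin 2) * FreeGroup.of (0 : Fin 2) * FreeGroup.of (1 : Fin 2) * FreeGroup.of (0 : Fin 2) * FreeGroup.of (1 : Fin 2),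
        FreeGroup.of (1 : Fin 2) * FreeGroup.of (0 : Fin 2) * FreeGroup.of (1 : Fin 2) * FreeGroup.of (1 : Fin 2) * FreeGroup.of (1 : Fin 2) * FreeGroup.of (1 : Fin 2) * FreeGroup.of (1 : Fin 2) * FreeGroup.of (1 : Fin 2) * FreeGroup.of (0 : Fin 2) * FreeGroup.of (1 : Fin 2) * FreeGroup.of (0 : Fin 2) * FreeGroup.of (1 : Fin 2) * FreeGroup.of (1 : Fin 2) * FreeGroup.of (1 : Fin 2) * FreeGroup.of (1 : Fin 2) * FreeGroup.of (1 : Fin 2) * FreeGroup.of (1 : Fin 2) * FreeGroup.of (0 : Fin 2) * FreeGroup.of (1 : Fin 2) * FreeGroup.of (0 : Fin 2) * FreeGroup.of (1 : Fin 2) * FreeGroup.of (1 : Fin 2) * FreeGroup.of (1 : Fin 2) * FreeGroup.of (1 : Fin 2) * FreeGroup.of (1 : Fin 2) * FreeGroup.of (1 : Fin 2) * FreeGroup.of (0 : Fin 2) * FreeGroup.of (1 : Fin 2) * FreeGroup.of (0 : Fin 2) * FreeGroup.of (1 : Fin 2) * FreeGroup.of (1 : Fin 2) * FreeGroup.of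 (1 : Fin 2) * FreeGroup.of (1 : Fin 2) * FreeGroup.of (1 : Fin 2) * FreeGroup.of (1 : Fin 2) * FreeGroup.of (0 : Fin 2)} →
      ∃ H : Subgroup (Cfsg.PSU 3 F 3),
        Nonempty (H ≃* Matrix.ProjectiveSpecialLinearGroup (Fin 2) K) from hmain _ rfl
  intro R hR
  -- explicit generators over the Gaussian integers, all identities modulo three
  obtain ⟨X₀, Y₀, hXu, hYu, hXd, hYd, hm0, hm1, hm2, hm3, hnc⟩ :
      ∃ (X₀ Y₀ : Matrix (Fin 3) (Fin 3) (ℤ√(-1))),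
        Cfsg.Agent.Lib.Helper2.gaussZ33 (X₀.transpose * X₀.map (fun x => x ^ 3) - 1) ∧
        Cfsg.Agent.Lib.Helper2.gaussZ33 (Y₀.transpose * Y₀.map (fun x => x ^ 3) - 1) ∧
        Cfsg.Agent.Lib.Helper2.gaussZ3s (X₀ 0 0 * X₀ 1 1 * X₀ 2 2 - X₀ 0 0 * X₀ 1 2 * X₀ 2 1 - X₀ 0 1 * X₀ 1 0 * X₀ 2 2 + X₀ 0 1 * X₀ 1 2 * X₀ 2 0 + X₀ 0 2 * X₀ 1 0 * X₀ 2 1 - X₀ 0 2 * X₀ 1 1 * X₀ 2 0 - 1) ∧
        Cfsg.Agent.Lib.Helper2.gaussZ3s (Y₀ 0 0 * Y₀ 1 1 * Y₀ 2 2 - Y₀ 0 0 * Y₀ 1 2 * Y₀ 2 1 - Y₀ 0 1 * Y₀ 1 0 * Y₀ 2 2 + Y₀ 0 1 * Y₀ 1 2 * Y₀ 2 0 + Y₀ 0 2 * Y₀ 1 0 * Y₀ 2 1 - Y₀ 0 2 * Y₀ 1 1 * Y₀ 2 0 - 1) ∧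
        Cfsg.Agent.Lib.Helper2.gaussZ33 (X₀ * X₀ - 1) ∧
        Cfsg.Agent.Lib.Helper2.gaussZ33 (Y₀ * Y₀ * Y₀ * Y₀ * Y₀ * Y₀ * Y₀ - 1) ∧
        Cfsg.Agent.Lib.Helper2.gaussZ33 (X₀ * Y₀ * X₀ * Y₀ * X₀ * Y₀ - 1) ∧
        Cfsg.Agent.Lib.Helper2.gaussZ33 (Y₀ * X₀ * Y₀ * Y₀ * Y₀ * Y₀ * Y₀ * Y₀ * X₀ * Y₀ * X₀ * Y₀ * Y₀ * Y₀ * Y₀ * Y₀ * Y₀ * X₀ * Y₀ * X₀ * Y₀ * Y₀ * Y₀ * Y₀ * Y₀ * Y₀ * X₀ * Y₀ * X₀ * Y₀ * Y₀ * Y₀ * Y₀ * Y₀ * Y₀ * X₀ - 1) ∧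
        Cfsg.Agent.Lib.Helper2.gaussZ3s ((X₀ * Y₀ - Y₀ * X₀) 0 0 * ⟨0, 2⟩ - 1) :=
    ⟨!![⟨0, 0⟩, ⟨0, 0⟩, ⟨0, 2⟩; ⟨0, 0⟩, ⟨2, 0⟩, ⟨0, 0⟩; ⟨0, 1⟩, ⟨0, 0⟩, ⟨0, 0⟩],
     !![⟨0, 0⟩, ⟨1, 1⟩, ⟨1, 1⟩; ⟨1, 1⟩, ⟨1, 0⟩, ⟨2, 0⟩; ⟨1, 2⟩, ⟨0, 1⟩, ⟨0, 2⟩],
     by decide +kernel, by decide +kernel, by decide +kernel, by decide +kernel,
     by decide +kernel, by decide +kernel, by decide +kernel, by decide +kernel,
     by decide +kernel⟩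
  obtain ⟨e⟩ := Cfsg.Agent.Lib.Helper2.l27_equiv hK R hR
  -- the field with nine elements
  have hp3 : Fact (Nat.Prime 3) := ⟨Nat.prime_three⟩
  have hchar : CharP F 3 := charP_of_card_eq_prime_pow (f := 2) (by rw [hF]; norm_num)
  have h3 : (3 : F) = 0 := by
    have h := CharP.cast_eq_zero F 3
    rwa [Nat.cast_ofNat] at h
  have hsq : IsSquare (-1 : F) := FiniteField.isSquare_neg_one_iff.mpr (by rw [hF]; decide)
  obtain ⟨ι, hι⟩ := hsq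
  obtain ⟨θ, hθ⟩ : ∃ θ : ℤ√(-1) →+* F, True :=
    ⟨Zsqrtd.lift ⟨ι, by rw [← hι, Int.cast_neg, Int.cast_one]⟩, trivial⟩
  obtain ⟨X, hX⟩ : ∃ X : Matrix (Fin 3) (Fin 3) F, X = θ.mapMatrix X₀ := ⟨_, rfl⟩
  obtain ⟨Y, hY⟩ : ∃ Y : Matrix (Fin 3) (Fin 3) F, Y = θ.mapMatrix Y₀ := ⟨_, rfl⟩
  have hw0 : X * X = 1 := by
    rw [hX]
    simp only [← map_mul]
    exact Cfsg.Agent.Lib.Helper2.gaussZ33_eq_one θ h3 _ hm0
  have hw1 : Y * Y * Y * Y * Y * Y * Y = 1 := by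
    rw [hY]
    simp only [← map_mul]
    exact Cfsg.Agent.Lib.Helper2.gaussZ33_eq_one θ h3 _ hm1
  have hw2 : X * Y * X * Y * X * Y = 1 := by
    rw [hX, hY]
    simp only [← map_mul]
    exact Cfsg.Agent.Lib.Helper2.gaussZ33_eq_one θ h3 _ hm2
  have hw3 : Y * X * Y * Y * Y * Y * Y * Y * X * Y * X * Y * Y * Y * Y * Y * Y * X * Y * X * Y * Y * Y * Y * Y * Y * X * Y * X * Y * Y * Y * Y * Y * Y * X = 1 := by
    rw [hX, hY]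
    simp only [← map_mul]
    exact Cfsg.Agent.Lib.Helper2.gaussZ33_eq_one θ h3 _ hm3
  have hdX : X.det = 1 := by
    rw [hX]
    exact Cfsg.Agent.Lib.Helper2.u33_det θ h3 X₀ hXd
  have hdY : Y.det = 1 := by
    rw [hY]
    exact Cfsg.Agent.Lib.Helper2.u33_det θ h3 Y₀ hYd
  obtain ⟨gX, hgX⟩ : ∃ g : Matrix.SpecialLinearGroup (Fin 3) F,
      (g : Matrix (Fin 3) (Fin 3) F) = X := ⟨⟨X, hdX⟩, rfl⟩
  obtain ⟨gY, hgY⟩ : ∃ g : Matrix.SpecialLinearGroup (Fin 3) F,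
      (g : Matrix (Fin 3) (Fin 3) F) = Y := ⟨⟨Y, hdY⟩, rfl⟩
  have huX : ∀ u v : Fin 3 → F,
      Cfsg.hermForm 3 F 3 (Matrix.mulVec (gX : Matrix (Fin 3) (Fin 3) F) u)
        (Matrix.mulVec (gX : Matrix (Fin 3) (Fin 3) F) v) = Cfsg.hermForm 3 F 3 u v := by
    rw [hgX, hX]
    exact fun u v => Cfsg.Agent.Lib.Helper2.u33_herm θ h3 X₀ hXu u v
  have huY : ∀ u v : Fin 3 → F,
      Cfsg.hermForm 3 F 3 (Matrix.mulVec (gY : Matrix (Fin 3) (Fin 3) F) u)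
        (Matrix.mulVec (gY : Matrix (Fin 3) (Fin 3) F) v) = Cfsg.hermForm 3 F 3 u v := by
    rw [hgY, hY]
    exact fun u v => Cfsg.Agent.Lib.Helper2.u33_herm θ h3 Y₀ hYu u v
  have hmemX : gX ∈ Cfsg.SU 3 F 3 := huX
  have hmemY : gY ∈ Cfsg.SU 3 F 3 := huY
  obtain ⟨ψ, hψ⟩ : ∃ ψ : ↥(Cfsg.SU 3 F 3) →* Matrix (Fin 3) (Fin 3) F,
      ∀ s, ψ s = ((s : Matrix.SpecialLinearGroup (Fin 3) F) : Matrix (Fin 3) (Fin 3) F) :=
    ⟨(Cfsg.slToMat 3 F).comp (Cfsg.SU 3 F 3).subtype, fun s => rfl⟩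
  have hψinj : Function.Injective ψ := by
    intro s t hst
    rw [hψ, hψ] at hst
    exact Subtype.ext (Subtype.ext hst)
  obtain ⟨sX, hsX⟩ : ∃ s : ↥(Cfsg.SU 3 F 3), ψ s = X :=
    ⟨⟨gX, hmemX⟩, by rw [hψ]; exact hgX⟩
  obtain ⟨sY, hsY⟩ : ∃ s : ↥(Cfsg.SU 3 F 3), ψ s = Y :=
    ⟨⟨gY, hmemY⟩, by rw [hψ]; exact hgY⟩
  have hs0 : sX * sX = 1 := by
    apply hψinj
    rw [map_one]
    simp only [map_mul, hsX, hsY]
    exact hw0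
  have hs1 : sY * sY * sY * sY * sY * sY * sY = 1 := by
    apply hψinj
    rw [map_one]
    simp only [map_mul, hsX, hsY]
    exact hw1
  have hs2 : sX * sY * sX * sY * sX * sY = 1 := by
    apply hψinj
    rw [map_one]
    simp only [map_mul, hsX, hsY]
    exact hw2
  have hs3 : sY * sX * sY * sY * sY * sY * sY * sY * sX * sY * sX * sY * sY * sY * sY * sY * sY * sX * sY * sX * sY * sY * sY * sY * sY * sY * sX * sY * sX * sY * sY * sY * sY * sY * sY * sX = 1 := by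
    apply hψinj
    rw [map_one]
    simp only [map_mul, hsX, hsY]
    exact hw3
  obtain ⟨π, hπ⟩ : ∃ π : ↥(Cfsg.SU 3 F 3) →* Cfsg.PSU 3 F 3,
      ∀ x, π x = 1 → x ∈ Subgroup.center ↥(Cfsg.SU 3 F 3) :=
    ⟨QuotientGroup.mk' _, fun x hx => (QuotientGroup.eq_one_iff x).mp hx⟩
  obtain ⟨fT, hfT0, hfT1⟩ : ∃ f : Fin 2 → Cfsg.PSU 3 F 3,
      f 0 = π sX ∧ f 1 = π sY := ⟨![π sX, π sY], rfl, rfl⟩
  have hliftT : ∀ r ∈ R, FreeGroup.lift fT r = 1 := by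
    intro r hr
    rw [hR] at hr
    rcases hr with rfl | rfl | rfl | rfl
    · simp only [map_mul, FreeGroup.lift_apply_of, hfT0, hfT1]
      simp only [← map_mul]
      rw [hs0, map_one]
    · simp only [map_mul, FreeGroup.lift_apply_of, hfT0, hfT1]
      simp only [← map_mul]
      rw [hs1, map_one]
    · simp only [map_mul, FreeGroup.lift_apply_of, hfT0, hfT1]
      simp only [← map_mul]
      rw [hs2, map_one]
    · simp only [map_mul, FreeGroup.lift_apply_of, hfT0, hfT1]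
      simp only [← map_mul]
      rw [hs3, map_one]
  obtain ⟨β, hβX⟩ : ∃ β : PresentedGroup R →* Cfsg.PSU 3 F 3,
      β (PresentedGroup.of 0) = π sX :=
    ⟨PresentedGroup.toGroup hliftT, (PresentedGroup.toGroup.of hliftT).trans hfT0⟩
  have hβ1 : π sX ≠ 1 := by
    intro h
    have hc := hπ _ h
    rw [Subgroup.mem_center_iff] at hc
    have h1 := congrArg ψ (hc sY)
    rw [map_mul, map_mul, hsX, hsY] at h1
    have h2 : (X * Y - Y * X) 0 0 = 0 := by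
      rw [h1, sub_self]
      rfl
    have h4 : (X * Y - Y * X) 0 0 = θ ((X₀ * Y₀ - Y₀ * X₀) 0 0) := by
      rw [hX, hY, ← map_mul, ← map_mul, ← map_sub]
      rfl
    rw [h4] at h2
    exact Cfsg.Agent.Lib.Helper2.gaussZ3s_unit θ h3 _ _ hnc h2
  obtain ⟨γ, hγ⟩ : ∃ γ : Matrix.ProjectiveSpecialLinearGroup (Fin 2) K →* Cfsg.PSU 3 F 3,
      γ (e (PresentedGroup.of 0)) = π sX :=
    ⟨β.comp e.symm.toMonoidHom, by
      show β (e.symm (e (PresentedGroup.of 0))) = π sX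
      rw [MulEquiv.symm_apply_apply]
      exact hβX⟩
  have hsimple : IsSimpleGroup (Matrix.ProjectiveSpecialLinearGroup (Fin 2) K) :=
    Matrix.ProjectiveSpecialLinearGroup.rank_two_simple (by
      rw [Nat.card_eq_fintype_card, hK]
      norm_num)
  have hγinj : Function.Injective γ := by
    rw [← MonoidHom.ker_eq_bot_iff]
    rcases (MonoidHom.normal_ker γ).eq_bot_or_eq_top with hb | ht
    · exact hb
    · exfalso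
      have hmem : e (PresentedGroup.of 0) ∈ γ.ker := by
        rw [ht]
        exact Subgroup.mem_top _
      rw [MonoidHom.mem_ker, hγ] at hmem
      exact hβ1 hmem
  exact ⟨γ.range, ⟨(MonoidHom.ofInjective hγinj).symm⟩⟩

end Cfsg.Agent.S1897
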