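import Cfsg.Statements.S1898
import Mathlib
import Cfsg.Agent.Lib.Helper3.HallHigman

set_option autoImplicit false
open Cfsg

namespace Cfsg.Agent.S1898

open scoped commutatorElement

/-- Let X be a finite 2-group whose derived subgroup is elementary abelian and central. Then the subgroup generated by the elements of order dividing 4 has exponent dividing 4, and every automorphism of X fixing each element of order dividing 4 has 2-power order. -/
theorem result {X : Type*} [Group X] [Finite X] (hX : IsPGroup 2 X)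
    (hel : Cfsg.IsElementaryAbelian 2 (commutator X)) (hcen : commutator X ≤ Subgroup.center X) :
    (∀ x ∈ Subgroup.closure {g : X | g ^ 4 = 1}, x ^ 4 = 1) ∧
      ∀ φ : MulAut X, (∀ g : X, g ^ 4 = 1 → φ g = g) → ∃ k : ℕ, φ ^ (2 ^ k) = 1 := by
  have key : ∀ a b : X, (a * b) ^ 4 = a ^ 4 * b ^ 4 := by
    intro a b
    have hc : ⁅b, a⁆ ∈ commutator X := by
      rw [commutator_def]
      exact Subgroup.commutator_mem_commutator (Subgroup.mem_top b) (Subgroup.mem_top a)
    have hcz := hcen hc
    rw [Subgroup.mem_center_iff] at hcz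
    have h1 := Cfsg.Agent.Lib.Helper3.mul_pow_of_comm a b ⁅b, a⁆
      (by rw [commutatorElement_def]; group) (hcz a).symm (hcz b).symm 4
    have h2 : ⁅b, a⁆ ^ 2 = 1 := hel.2 _ hc
    have h3 : ⁅b, a⁆ ^ (4 * (4 - 1) / 2) = 1 := by
      have : 4 * (4 - 1) / 2 = 2 * 3 := by norm_num
      rw [this, pow_mul, h2, one_pow]
    rw [h1, h3, mul_one]
  have hinv : ∀ a : X, a ^ 4 = 1 → (a⁻¹) ^ 4 = 1 := by
    intro a ha
    rw [inv_pow, ha, inv_one]
  refine ⟨?_, ?_⟩
  · intro x hx
    induction hx using Subgroup.closure_induction with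
    | mem y hy => exact hy
    | one => exact one_pow 4
    | mul a b _ _ ha hb => rw [key, ha, hb, mul_one]
    | inv a _ ha => exact hinv a ha
  · intro φ hφ
    have claim : ∀ n : ℕ, ∀ x : X, x ^ (4 ^ (n + 1)) = 1 → (φ ^ (4 ^ n)) x = x := by
      intro n
      induction n with
      | zero =>
        intro x hx
        rw [pow_zero, pow_one]
        apply hφ
        rw [← hx]; norm_num
      | succ n ih =>
        intro x hx
        obtain ⟨ψ, hψ⟩ : ∃ ψ : MulAut X, ψ = φ ^ (4 ^ n) := ⟨_, rfl⟩
        rw [← hψ] at ih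
        have hy : (x ^ 4) ^ (4 ^ (n + 1)) = 1 := by
          rw [← pow_mul, ← pow_succ']; exact hx
        have h1 : ψ (x ^ 4) = x ^ 4 := ih _ hy
        rw [map_pow] at h1
        obtain ⟨c, hc⟩ : ∃ c : X, c = x⁻¹ * ψ x := ⟨_, rfl⟩
        have hxc : ψ x = x * c := by rw [hc]; group
        have hc4 : c ^ 4 = 1 := by
          have h2 := key x c
          rw [← hxc, h1] at h2
          exact (mul_eq_left.mp h2.symm)
        have hψc : ψ c = c := by
          apply ih
          rw [pow_succ, pow_mul', hc4, one_pow]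
        have hk : ∀ k : ℕ, (ψ ^ k) x = x * c ^ k := by
          intro k
          induction k with
          | zero => simp
          | succ k ihk =>
            rw [pow_succ', MulAut.mul_apply, ihk, map_mul, map_pow, hψc, hxc, pow_succ']
            group
        have h5 : φ ^ (4 ^ (n + 1)) = ψ ^ 4 := by
          rw [hψ, ← pow_mul, ← pow_succ]
        rw [h5, hk 4, hc4, mul_one]
    obtain ⟨m, hm⟩ := (IsPGroup.iff_card.mp hX)
    refine ⟨2 * m, ?_⟩
    have h4 : (2 : ℕ) ^ (2 * m) = 4 ^ m := by
      rw [pow_mul]; norm_num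
    rw [h4]
    ext x
    rw [MulAut.one_apply]
    apply claim
    have h6 : (4 : ℕ) ^ (m + 1) = Nat.card X * 2 ^ (m + 2) := by
      rw [hm, ← pow_add]
      have : (4 : ℕ) = 2 ^ 2 := by norm_num
      rw [this, ← pow_mul]
      congr 1
      omega
    rw [h6, pow_mul, pow_card_eq_one', one_pow]

end Cfsg.Agent.S1898
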