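import Cfsg.Statements.S1899
import Mathlib

set_option autoImplicit false
open Cfsg

namespace Cfsg.Agent.S1899

/-- Let a dihedral group of order 2n, n odd and n > 1, act on a finite abelian 2-group A through automorphisms d and t with d^n = 1, t² = 1 and t d t⁻¹ = d⁻¹, and suppose that d fixes only the identity. Then A is the internal direct product of C_A(t) and its image under d. -/
theorem result {A : Type*} [CommGroup A] [Finite A] (hA : IsPGroup 2 A)
    {n : ℕ} (hn : Odd n) (hn1 : 1 < n) (d t : MulAut A) (hd : d ^ n = 1) (ht : t ^ 2 = 1) (hdt : t * d * t⁻¹ = d⁻¹)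
    (hfix : ∀ a : A, d a = a → a = 1) :
    (MulEquiv.toMonoidHom t).eqLocus (MonoidHom.id A) ⊓ ((MulEquiv.toMonoidHom t).eqLocus (MonoidHom.id A)).map d.toMonoidHom = ⊥ ∧
      (MulEquiv.toMonoidHom t).eqLocus (MonoidHom.id A) ⊔ ((MulEquiv.toMonoidHom t).eqLocus (MonoidHom.id A)).map d.toMonoidHom = ⊤ := by
  classical
  -- basic relations
  have htd : ∀ a : A, t (d a) = d⁻¹ (t a) := by
    intro a
    have h1 : t * d = d⁻¹ * t := by
      have := congrArg (fun z => z * t) hdt
      simpa [mul_assoc] using this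
    have := congrArg (fun z : MulAut A => z a) h1
    simpa [MulAut.mul_apply] using this
  have htdi : ∀ a : A, t (d⁻¹ a) = d (t a) := by
    intro a
    have h0 : t * d⁻¹ * t⁻¹ = d := by
      have := congrArg (fun z => z⁻¹) hdt
      simpa [mul_assoc] using this
    have h1 : t * d⁻¹ = d * t := by
      have := congrArg (fun z => z * t) h0
      simpa [mul_assoc] using this
    have := congrArg (fun z : MulAut A => z a) h1
    simpa [MulAut.mul_apply] using this
  -- d^2 is fixed point free
  have hfix2 : ∀ a : A, d (d a) = a → a = 1 := by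
    intro a ha
    apply hfix
    have hk : ∀ k : ℕ, ((d ^ 2) ^ k) a = a := by
      intro k
      induction k with
      | zero => simp
      | succ k ih =>
        rw [pow_succ, MulAut.mul_apply]
        have : (d ^ 2) a = a := by
          rw [pow_two, MulAut.mul_apply]; exact ha
        rw [this, ih]
    obtain ⟨k, hk'⟩ := hn
    have h1 : d ^ (n + 1) = d := by rw [pow_succ, hd, one_mul]
    have h2 : d ^ (n + 1) = (d ^ 2) ^ (k + 1) := by
      rw [← pow_mul]; congr 1; omega
    have h3 := hk (k + 1)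
    rw [← h2, h1] at h3
    exact h3
  have hdinv : ∀ a b : A, d a = d⁻¹ b → d (d a) = b := by
    intro a b h
    have := congrArg d h
    simpa using this
  set C : Subgroup A := (MulEquiv.toMonoidHom t).eqLocus (MonoidHom.id A) with hC
  have hCmem : ∀ a : A, a ∈ C ↔ t a = a := by
    intro a
    rw [hC]
    exact Iff.rfl
  have hdisj : C ⊓ C.map d.toMonoidHom = ⊥ := by
    rw [eq_bot_iff]
    rintro x ⟨hx1, c, hc, rfl⟩
    have hx1' : t (d c) = d c := (hCmem _).mp hx1
    have hc' : t c = c := (hCmem _).mp hc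
    rw [htd, hc'] at hx1'
    have h1 : c = 1 := hfix2 c (hdinv c c hx1'.symm)
    rw [Subgroup.mem_bot]
    show d c = 1
    rw [h1]; simp
  refine ⟨hdisj, ?_⟩
  -- the homomorphisms φ(a) = a * t a and ψ(b) = d b * (d⁻¹ b)⁻¹
  let φ : A →* A :=
    { toFun := fun a => a * t a
      map_one' := by simp
      map_mul' := by intro a b; simp only [map_mul]; exact mul_mul_mul_comm _ _ _ _ }
  let ψ : A →* A :=
    { toFun := fun b => d b * (d⁻¹ b)⁻¹
      map_one' := by simp
      map_mul' := by intro a b; simp only [map_mul, mul_inv]; exact mul_mul_mul_comm _ _ _ _ }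
  have hψinj : Function.Injective ψ := by
    rw [injective_iff_map_eq_one]
    intro b hb
    have h1 : d b * (d⁻¹ b)⁻¹ = 1 := hb
    have h2 : d b = d⁻¹ b := by rwa [mul_inv_eq_one] at h1
    exact hfix2 b (hdinv b b h2)
  have hrange : φ.range ≤ C := by
    rintro _ ⟨a, rfl⟩
    rw [hCmem]
    show t (a * t a) = a * t a
    rw [map_mul]
    have h1 : t (t a) = a := by
      have := congrArg (fun z : MulAut A => z a) ht
      simpa [pow_two, MulAut.mul_apply] using this
    rw [h1, mul_comm]
  have hker : φ.ker.map ψ ≤ C := by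
    rintro _ ⟨b, hb, rfl⟩
    rw [hCmem]
    have h1 : b * t b = 1 := hb
    have h2 : t b = b⁻¹ := by
      rw [mul_comm] at h1
      exact eq_inv_of_mul_eq_one_left h1
    show t (d b * (d⁻¹ b)⁻¹) = d b * (d⁻¹ b)⁻¹
    rw [map_mul, map_inv, htd, htdi, h2, map_inv, map_inv, inv_inv, mul_comm]
  have hcard1 : Nat.card A = Nat.card φ.ker * Nat.card φ.range := by
    rw [← Subgroup.index_ker, Subgroup.card_mul_index]
  have hcard2 : Nat.card φ.ker ≤ Nat.card C := by
    rw [← Subgroup.card_map_of_injective hψinj]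
    exact Subgroup.card_le_of_le hker
  have hcard3 : Nat.card φ.range ≤ Nat.card C := Subgroup.card_le_of_le hrange
  have hcardA : Nat.card A ≤ Nat.card C * Nat.card C := by
    rw [hcard1]; exact Nat.mul_le_mul hcard2 hcard3
  have hcardD : Nat.card ↥(C.map d.toMonoidHom) = Nat.card C :=
    Subgroup.card_map_of_injective d.injective
  -- injective map C × dC → C ⊔ dC
  have hinj : Function.Injective (fun x : ↥C × ↥(C.map d.toMonoidHom) =>
      (⟨(x.1 : A) * (x.2 : A), Subgroup.mul_mem_sup x.1.2 x.2.2⟩ : ↥(C ⊔ C.map d.toMonoidHom))) := by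
    rintro ⟨x1, y1⟩ ⟨x2, y2⟩ h
    have h1 : (x1 : A) * (y1 : A) = (x2 : A) * (y2 : A) := congrArg Subtype.val h
    have h2 : (x2 : A)⁻¹ * (x1 : A) = (y2 : A) * (y1 : A)⁻¹ := by
      rw [inv_mul_eq_iff_eq_mul, ← mul_assoc, ← h1, mul_assoc, mul_inv_cancel, mul_one]
    have h3 : (x2 : A)⁻¹ * (x1 : A) ∈ C ⊓ C.map d.toMonoidHom := by
      refine Subgroup.mem_inf.mpr ⟨C.mul_mem (C.inv_mem x2.2) x1.2, ?_⟩
      rw [h2]
      exact (C.map d.toMonoidHom).mul_mem y2.2 ((C.map d.toMonoidHom).inv_mem y1.2)
    rw [hdisj, Subgroup.mem_bot] at h3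
    have h4 : (x1 : A) = x2 := by
      rw [inv_mul_eq_one] at h3; exact h3.symm
    have h5 : (y1 : A) = y2 := by
      rw [h4] at h1; exact mul_left_cancel h1
    exact Prod.ext (Subtype.ext h4) (Subtype.ext h5)
  have hcard4 := Nat.card_le_card_of_injective _ hinj
  rw [Nat.card_prod, hcardD] at hcard4
  have hcard5 := Subgroup.card_le_card_group (C ⊔ C.map d.toMonoidHom)
  apply Subgroup.eq_top_of_card_eq
  omega

end Cfsg.Agent.S1899
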