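import Mathlib
import Cfsg.Statements.S1900
import Cfsg.Agent.Lib.Helper2.TwoFix
import Cfsg.Agent.Lib.Helper1.ThompsonJ

set_option autoImplicit false
open Cfsg

namespace Cfsg.Agent.S1900

/-- Let S = PQ be a finite group with P a normal Sylow p-subgroup and Q elementary abelian of order q², q a prime different from p. If exactly two subgroups X₁, X₂ of order q in Q have a nontrivial centralizer in P, then P is the internal direct product of C_P(X₁) and C_P(X₂): they commute elementwise, meet trivially and generate P. -/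
theorem result {S : Type*} [Group S] [Finite S] {p q : ℕ} [Fact p.Prime] [Fact q.Prime] (hpq : p ≠ q)
    (P : Sylow p S) [(P : Subgroup S).Normal] (Q : Subgroup S) (hQ : Cfsg.IsElementaryAbelian q Q) (hQc : Nat.card Q = q ^ 2)
    (hS : (P : Subgroup S) ⊔ Q = ⊤)
    (X₁ X₂ : Subgroup S) (h₁ : X₁ ≤ Q) (h₂ : X₂ ≤ Q) (h₁₂ : X₁ ≠ X₂) (hc₁ : Nat.card X₁ = q) (hc₂ : Nat.card X₂ = q)
    (hf₁ : (P : Subgroup S) ⊓ Subgroup.centralizer (X₁ : Set S) ≠ ⊥)
    (hf₂ : (P : Subgroup S) ⊓ Subgroup.centralizer (X₂ : Set S) ≠ ⊥)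
    (honly : ∀ X : Subgroup S, X ≤ Q → Nat.card X = q →
      (P : Subgroup S) ⊓ Subgroup.centralizer (X : Set S) ≠ ⊥ → X = X₁ ∨ X = X₂) :
    ⁅(P : Subgroup S) ⊓ Subgroup.centralizer (X₁ : Set S), (P : Subgroup S) ⊓ Subgroup.centralizer (X₂ : Set S)⁆ = ⊥ ∧
      ((P : Subgroup S) ⊓ Subgroup.centralizer (X₁ : Set S)) ⊓ ((P : Subgroup S) ⊓ Subgroup.centralizer (X₂ : Set S)) = ⊥ ∧
      ((P : Subgroup S) ⊓ Subgroup.centralizer (X₁ : Set S)) ⊔ ((P : Subgroup S) ⊓ Subgroup.centralizer (X₂ : Set S)) = P := by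
  classical
  have hp : p.Prime := Fact.out
  have hq : q.Prime := Fact.out
  have hQcomm : ∀ a ∈ Q, ∀ b ∈ Q, a * b = b * a := fun a ha b hb =>
    Cfsg.Agent.Lib.Helper1.ea_comm hQ ha hb
  have hQq : ∀ a ∈ Q, a ^ q = 1 := hQ.2
  have hPn : (P : Subgroup S).Normal := inferInstance
  have hPp : IsPGroup p ↥(P : Subgroup S) := P.2
  obtain ⟨k, hk⟩ := IsPGroup.iff_card.mp hPp
  have hcopq : q.Coprime (Nat.card ↥(P : Subgroup S)) := by
    rw [hk]; exact Nat.Coprime.pow_right k ((Nat.coprime_primes hq hp).mpr (Ne.symm hpq))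
  have hcop₁ : (Nat.card ↥X₁).Coprime (Nat.card ↥(P : Subgroup S)) := by rw [hc₁]; exact hcopq
  have hcop₂ : (Nat.card ↥X₂).Coprime (Nat.card ↥(P : Subgroup S)) := by rw [hc₂]; exact hcopq
  have hqP : ∀ Y : Subgroup S, Y ≤ (P : Subgroup S) → ¬ q ∣ Nat.card ↥Y := by
    intro Y hY hdvd
    have h1 : q ∣ Nat.card ↥(P : Subgroup S) := hdvd.trans (Subgroup.card_dvd_of_le hY)
    exact (Nat.Prime.coprime_iff_not_dvd hq).mp hcopq h1
  -- X₁ ⊓ X₂ = ⊥
  have hX12 : ∀ g, g ∈ X₁ → g ∈ X₂ → g = 1 := by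
    intro g hg1 hg2
    by_contra hne
    have hgq : g ^ q = 1 := hQq g (h₁ hg1)
    have hord : orderOf g = q := orderOf_eq_prime hgq hne
    have hz1 : Subgroup.zpowers g = X₁ := by
      apply Subgroup.eq_of_le_of_card_ge (Subgroup.zpowers_le.mpr hg1)
      rw [Nat.card_zpowers, hord, hc₁]
    have hz2 : Subgroup.zpowers g = X₂ := by
      apply Subgroup.eq_of_le_of_card_ge (Subgroup.zpowers_le.mpr hg2)
      rw [Nat.card_zpowers, hord, hc₂]
    exact h₁₂ (hz1.symm.trans hz2)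
  -- third subgroup
  have hint : ((P : Subgroup S) ⊓ Subgroup.centralizer (X₁ : Set S)) ⊓
      ((P : Subgroup S) ⊓ Subgroup.centralizer (X₂ : Set S)) = ⊥ := by
    have hX₁ne : X₁ ≠ ⊥ := by
      intro h
      rw [h, Subgroup.card_bot] at hc₁
      exact hq.one_lt.ne hc₁
    have hX₂ne : X₂ ≠ ⊥ := by
      intro h
      rw [h, Subgroup.card_bot] at hc₂
      exact hq.one_lt.ne hc₂
    obtain ⟨x₁, hx₁, hx₁ne⟩ := (Subgroup.bot_or_exists_ne_one X₁).resolve_left hX₁ne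
    obtain ⟨x₂, hx₂, hx₂ne⟩ := (Subgroup.bot_or_exists_ne_one X₂).resolve_left hX₂ne
    have hy_mem : x₁ * x₂ ∈ Q := Subgroup.mul_mem _ (h₁ hx₁) (h₂ hx₂)
    have hy_ne : x₁ * x₂ ≠ 1 := by
      intro h
      have h' : x₁ = x₂⁻¹ := eq_inv_of_mul_eq_one_left h
      apply hx₁ne
      apply hX12 x₁ hx₁
      rw [h']; exact Subgroup.inv_mem _ hx₂
    have hy_ord : orderOf (x₁ * x₂) = q := orderOf_eq_prime (hQq _ hy_mem) hy_ne
    have hX₃Q : Subgroup.zpowers (x₁ * x₂) ≤ Q := Subgroup.zpowers_le.mpr hy_mem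
    have hX₃c : Nat.card ↥(Subgroup.zpowers (x₁ * x₂)) = q := by rw [Nat.card_zpowers, hy_ord]
    have hX₃1 : Subgroup.zpowers (x₁ * x₂) ≠ X₁ := by
      intro h
      have h1 : x₁ * x₂ ∈ X₁ := by rw [← h]; exact Subgroup.mem_zpowers _
      have h2 : x₂ ∈ X₁ := by
        have e : x₂ = x₁⁻¹ * (x₁ * x₂) := by group
        rw [e]; exact Subgroup.mul_mem _ (Subgroup.inv_mem _ hx₁) h1
      exact hx₂ne (hX12 x₂ h2 hx₂)
    have hX₃2 : Subgroup.zpowers (x₁ * x₂) ≠ X₂ := by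
      intro h
      have h1 : x₁ * x₂ ∈ X₂ := by rw [← h]; exact Subgroup.mem_zpowers _
      have h2 : x₁ ∈ X₂ := by
        have e : x₁ = (x₁ * x₂) * x₂⁻¹ := by group
        rw [e]; exact Subgroup.mul_mem _ h1 (Subgroup.inv_mem _ hx₂)
      exact hx₁ne (hX12 x₁ hx₁ h2)
    have hX₃fix : (P : Subgroup S) ⊓
        Subgroup.centralizer ((Subgroup.zpowers (x₁ * x₂) : Subgroup S) : Set S) = ⊥ := by
      by_contra hne
      rcases honly _ hX₃Q hX₃c hne with h | h
      · exact hX₃1 h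
      · exact hX₃2 h
    rw [eq_bot_iff]
    intro g hg
    obtain ⟨hg1, hg2⟩ := Subgroup.mem_inf.mp hg
    obtain ⟨hgP, hgC1⟩ := Subgroup.mem_inf.mp hg1
    obtain ⟨_, hgC2⟩ := Subgroup.mem_inf.mp hg2
    have e1 : x₁ * g = g * x₁ := Subgroup.mem_centralizer_iff.mp hgC1 x₁ hx₁
    have e2 : x₂ * g = g * x₂ := Subgroup.mem_centralizer_iff.mp hgC2 x₂ hx₂
    have hcomm : Commute (x₁ * x₂) g := by
      show x₁ * x₂ * g = g * (x₁ * x₂)
      calc x₁ * x₂ * g = x₁ * (x₂ * g) := by group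
        _ = x₁ * (g * x₂) := by rw [e2]
        _ = (x₁ * g) * x₂ := by group
        _ = g * x₁ * x₂ := by rw [e1]
        _ = g * (x₁ * x₂) := by group
    have hgC3 : g ∈ Subgroup.centralizer
        ((Subgroup.zpowers (x₁ * x₂) : Subgroup S) : Set S) := by
      rw [Subgroup.mem_centralizer_iff]
      intro h hh
      obtain ⟨j, rfl⟩ := Subgroup.mem_zpowers_iff.mp
        (show h ∈ Subgroup.zpowers (x₁ * x₂) from hh)
      exact (hcomm.zpow_left j).eq
    have hfin : g ∈ (P : Subgroup S) ⊓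
        Subgroup.centralizer ((Subgroup.zpowers (x₁ * x₂) : Subgroup S) : Set S) :=
      Subgroup.mem_inf.mpr ⟨hgP, hgC3⟩
    rw [hX₃fix] at hfin
    exact hfin
  have hgen : ∀ Y : Subgroup S, Y ≤ (P : Subgroup S) → Q ≤ Subgroup.normalizer (Y : Set S) →
      Y ≤ (Y ⊓ Subgroup.centralizer (X₁ : Set S)) ⊔ (Y ⊓ Subgroup.centralizer (X₂ : Set S)) := by
    intro Y hYP hQY
    apply Cfsg.Agent.Lib.Helper2.gen_coprime q Q Y _ hQcomm hQq (hqP Y hYP) hQY
    intro B hBQ hB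
    obtain ⟨x, hxQ, hQx⟩ := hB
    by_cases hB1 : X₁ ≤ B
    · exact le_sup_of_le_left
        (inf_le_inf_left _ (Subgroup.centralizer_le (SetLike.coe_subset_coe.mpr hB1)))
    by_cases hB2 : X₂ ≤ B
    · exact le_sup_of_le_right
        (inf_le_inf_left _ (Subgroup.centralizer_le (SetLike.coe_subset_coe.mpr hB2)))
    have hBcard : Nat.card ↥B = q := by
      have hdvd : Nat.card ↥B ∣ q ^ 2 := by rw [← hQc]; exact Subgroup.card_dvd_of_le hBQ
      obtain ⟨j, hj, hBj⟩ := (Nat.dvd_prime_pow hq).mp hdvd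
      interval_cases j
      · exfalso
        have hBbot : B = ⊥ := Subgroup.card_eq_one.mp (by rw [hBj, pow_zero])
        rw [hBbot, bot_sup_eq] at hQx
        have h1 : Nat.card ↥Q ≤ Nat.card ↥(Subgroup.zpowers x) := Subgroup.card_le_of_le hQx
        rw [Nat.card_zpowers, hQc] at h1
        have h2 : orderOf x ∣ q := orderOf_dvd_of_pow_eq_one (hQq x hxQ)
        have h3 : orderOf x ≤ q := Nat.le_of_dvd hq.pos h2
        have h4 : q ^ 2 ≤ q := h1.trans h3
        have h5 : q < q ^ 2 := by nlinarith [hq.one_lt]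
        omega
      · rw [hBj, pow_one]
      · exfalso
        have hBQeq : B = Q := Subgroup.eq_of_le_of_card_ge hBQ (by rw [hBj, hQc])
        exact hB1 (by rw [hBQeq]; exact h₁)
    have hBfix : (P : Subgroup S) ⊓ Subgroup.centralizer (B : Set S) = ⊥ := by
      by_contra hne
      rcases honly B hBQ hBcard hne with h | h
      · exact hB1 (by rw [h])
      · exact hB2 (by rw [h])
    have hle : Y ⊓ Subgroup.centralizer (B : Set S) ≤ ⊥ := by
      rw [← hBfix]; exact inf_le_inf_right _ hYP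
    exact hle.trans bot_le
  have hcommAll := Cfsg.Agent.Lib.Helper2.two_fix_comm (P : Subgroup S) Q X₁ X₂ hPp hPn hQcomm
    h₁ h₂ hcop₁ hcop₂ hgen hint
  refine ⟨?_, hint, ?_⟩
  · rw [Subgroup.commutator_eq_bot_iff_le_centralizer]
    intro a ha
    rw [Subgroup.mem_centralizer_iff]
    intro b hb
    exact (hcommAll a ha b hb).symm
  · apply le_antisymm (sup_le inf_le_left inf_le_left)
    apply hgen (P : Subgroup S) le_rfl
    rw [Subgroup.normalizer_eq_top]
    exact le_top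

end Cfsg.Agent.S1900
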