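import Cfsg.Statements.S1924
import Mathlib
import Cfsg.Agent.Lib.Helper3.SignTransfer
import Cfsg.Agent.Lib.Helper3.PRes
import Cfsg.Agent.Lib.Helper4.PCore

set_option autoImplicit false
open Cfsg

namespace Cfsg.Agent.S1924

open Cfsg.Agent.Lib.Helper3

/-- A consequence of Thompson's transfer lemma. Let G be a finite group, L a subgroup with O²(L) = L, T a Sylow 2-subgroup of L and S a Sylow 2-subgroup of G containing T. Suppose D ≤ S is a dihedral subgroup of order at least 4 (the four-group counts) with D ∩ T = 1 and S = TD as a set of products (so |S| = |T|·|D|), and C ≤ D is cyclic of index 2 in D. If no involution of D outside C is G-conjugate to an involution of the subgroup generated by T and C, and the involution of C is not G-conjugate to any involution of T, then G has a normal subgroup K, containing every Sylow 2-subgroup of L as a Sylow 2-subgroup, with G = KD. -/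
theorem result {G : Type*} [Group G] [Finite G] (L T S D C : Subgroup G) (hL : Cfsg.pResidual 2 ↥L = ⊤)
    (hTL : T ≤ L) (hT2 : IsPGroup 2 T) (hTsyl : ¬ 2 ∣ T.relIndex L)
    (hS2 : IsPGroup 2 S) (hSsyl : ¬ 2 ∣ S.index) (hTS : T ≤ S)
    (hDS : D ≤ S) (hDih : ∃ n : ℕ, 2 ≤ n ∧ Nonempty (↥D ≃* DihedralGroup n)) (hDT : D ⊓ T = ⊥) (hTD : T ⊔ D = S) (hTDc : Nat.card T * Nat.card D = Nat.card S)
    (hCD : C ≤ D) (hC : IsCyclic ↥C) (hCi : C.relIndex D = 2)
    (h1 : ∀ x ∈ D, x ∉ C → orderOf x = 2 → ∀ g : G, g * x * g⁻¹ ∈ T ⊔ C → False)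
    (h2 : ∀ c ∈ C, orderOf c = 2 → ∀ g : G, g * c * g⁻¹ ∈ T → False) :
    ∃ K : Subgroup G, K.Normal ∧ K ⊔ D = ⊤ ∧
      ∀ T' : Subgroup G, T' ≤ L → IsPGroup 2 T' → ¬ 2 ∣ T'.relIndex L → T' ≤ K ∧ ¬ 2 ∣ T'.relIndex K := by
  classical
  have hp2 : Fact (Nat.Prime 2) := ⟨Nat.prime_two⟩
  obtain ⟨n, hn, ⟨e⟩⟩ := hDih
  obtain ⟨K, hK⟩ : ∃ K : Subgroup G,
      K = Subgroup.closure {g : G | Nat.Coprime (orderOf g) 2} := ⟨_, rfl⟩
  have hKres : K = Cfsg.pResidual 2 G := hK
  have hKn : K.Normal := by rw [hKres]; exact Cfsg.Agent.Lib.Helper4.pResidual_normal 2 G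
  have hLK : L ≤ K := by
    intro l hl
    have h1 : (⟨l, hl⟩ : ↥L) ∈ Cfsg.pResidual 2 ↥L := by rw [hL]; exact Subgroup.mem_top _
    have h2 : (Cfsg.pResidual 2 ↥L).map L.subtype ≤ K := by
      rw [hK]
      unfold Cfsg.pResidual
      rw [MonoidHom.map_closure, Subgroup.closure_le]
      rintro _ ⟨x, hx, rfl⟩
      apply Subgroup.subset_closure
      show Nat.Coprime (orderOf ((x : ↥L) : G)) 2
      rw [Subgroup.orderOf_coe]; exact hx
    exact h2 ⟨_, h1, rfl⟩
  have hTK : T ≤ K := hTL.trans hLK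
  have hprodS := exists_mul_of_inf_bot_card T D S hTS hDS hDT hTDc
  have hKD : K ⊔ D = ⊤ := by
    rw [eq_top_iff]
    intro u _
    obtain ⟨r, hr, hru⟩ := exists_mul_mem_pResidual 2 G S hSsyl u
    rw [← hKres] at hru
    obtain ⟨t, ht, d, hd, rfl⟩ := hprodS r hr
    have h1 : u = t * (d * ((t * d)⁻¹ * u) * d⁻¹) * d := by group
    rw [h1]
    exact Subgroup.mul_mem _ (Subgroup.mul_mem _ (Subgroup.mem_sup_left (hTK ht))
      (Subgroup.mem_sup_left (hKn.conj_mem _ hru d))) (Subgroup.mem_sup_right hd)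
  have hTP : T ≤ K ⊓ S := le_inf hTK hTS
  have hPprod : ∀ s ∈ K ⊓ S, ∃ t ∈ T, ∃ d ∈ D, s = t * d :=
    fun s hs => hprodS s (Subgroup.mem_inf.mp hs).2
  have hPcard := card_eq_mul_card_inf T D (K ⊓ S) hTP hDT hPprod
  have hPD : (K ⊓ S) ⊓ D = K ⊓ D := by
    rw [inf_assoc, inf_eq_right.mpr hDS]
  rw [hPD] at hPcard
  have hrel : T.relIndex K = Nat.card (K ⊓ D : Subgroup G) * (K ⊓ S).relIndex K := by
    have h1 := Subgroup.relIndex_mul_relIndex T (K ⊓ S) K hTP inf_le_left
    have h2 := card_mul_relIndex' T (K ⊓ S) hTP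
    rw [hPcard] at h2
    have h3 : T.relIndex (K ⊓ S) = Nat.card (K ⊓ D : Subgroup G) :=
      Nat.eq_of_mul_eq_mul_left Nat.card_pos h2
    rw [← h1, h3]
  have hmodd : Odd ((K ⊓ S).relIndex K) := by
    rw [← Nat.not_even_iff_odd, even_iff_two_dvd]
    intro h
    apply hSsyl
    have h1 : (K ⊓ S).relIndex K = S.relIndex K := by
      rw [inf_comm]; exact Subgroup.inf_relIndex_right S K
    rw [h1] at h
    exact h.trans (relIndex_normal_dvd_index S K)
  have hdih : ∀ x ∈ D, x ∉ C → orderOf x = 2 := fun x hxD hxC =>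
    orderOf_eq_two_of_not_mem_cyclic D C n hn e hCD hC hCi x hxD hxC
  have hQ : K ⊓ D = ⊥ := by
    by_contra hQne
    by_cases hQC : K ⊓ D ≤ C
    · have hcyc : IsCyclic ↥(K ⊓ D : Subgroup G) := Subgroup.isCyclic_of_le hQC
      obtain ⟨g, hg⟩ := IsCyclic.exists_generator (α := ↥(K ⊓ D : Subgroup G))
      have hog : orderOf (g : G) = Nat.card (K ⊓ D : Subgroup G) := by
        rw [Subgroup.orderOf_coe]; exact orderOf_eq_card_of_forall_mem_zpowers hg
      obtain ⟨w, hw⟩ : ∃ w : G, w = (g : G) := ⟨_, rfl⟩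
      rw [← hw] at hog
      have hwK : w ∈ K := by rw [hw]; exact (Subgroup.mem_inf.mp g.2).1
      have hwC : w ∈ C := by rw [hw]; exact hQC g.2
      have hQ2 : IsPGroup 2 ↥(K ⊓ D : Subgroup G) := hS2.to_le (inf_le_right.trans hDS)
      obtain ⟨b, hb⟩ := IsPGroup.iff_card.mp hQ2
      have hb0 : b ≠ 0 := by
        rintro rfl
        rw [pow_zero] at hb
        exact hQne (Subgroup.card_eq_one.mp hb)
      obtain ⟨a, rfl⟩ : ∃ a, b = a + 1 := ⟨b - 1, by omega⟩
      rw [hb] at hog
      obtain ⟨c, hc⟩ : ∃ c : G, c = w ^ (2 ^ a) := ⟨_, rfl⟩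
      have hc2 : orderOf c = 2 := by
        apply orderOf_eq_prime
        · rw [hc, ← pow_mul, ← pow_succ, ← hog]; exact pow_orderOf_eq_one w
        · intro h1
          rw [hc] at h1
          have h4 := orderOf_dvd_of_pow_eq_one h1
          rw [hog] at h4
          have h2' := Nat.le_of_dvd (by positivity) h4
          have h3 : 2 ^ a < 2 ^ (a + 1) := Nat.pow_lt_pow_right (by norm_num) (by omega)
          omega
      have hcC : c ∈ C := by rw [hc]; exact C.pow_mem hwC _
      have hnot := not_mem_closure_of_uniform (G := ↥K) (T.subgroupOf K) ⟨w, hwK⟩ a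
        ((K ⊓ S).relIndex K)
        (by
          apply Subtype.ext
          show w ^ (2 ^ (a + 1)) = 1
          rw [← hog]; exact pow_orderOf_eq_one w)
        (by
          intro k hk
          rw [Subgroup.mem_subgroupOf] at hk
          apply h2 c hcC hc2 ((k : G)⁻¹)
          rw [inv_inv]
          have h5 : ((k⁻¹ * (⟨w, hwK⟩ : ↥K) ^ (2 ^ a) * k : ↥K) : G) = (k : G)⁻¹ * c * (k : G) := by
            rw [hc]; rfl
          rw [← h5]; exact hk)
        (by
          show T.relIndex K = _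
          rw [hrel, hb])
        hmodd
      apply hnot
      rw [closure_coprime_subtype_eq_top' 2 K hK]
      exact Subgroup.mem_top _
    · obtain ⟨x, hxQ, hxC⟩ := SetLike.not_le_iff_exists.mp hQC
      have hxK := (Subgroup.mem_inf.mp hxQ).1
      have hxD := (Subgroup.mem_inf.mp hxQ).2
      have hx2 := hdih x hxD hxC
      obtain ⟨S₀, hS₀⟩ : ∃ S₀ : Subgroup G, S₀ = T ⊔ C := ⟨_, rfl⟩
      have hxS₀ : x ∉ S₀ := by
        intro h
        apply h1 x hxD hxC hx2 1
        rw [← hS₀]; simpa using h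
      have hTS₀ : T ≤ S₀ := by rw [hS₀]; exact le_sup_left
      have hCS₀ : C ≤ S₀ := by rw [hS₀]; exact le_sup_right
      have hS₀S : S₀ ≤ S := by rw [hS₀]; exact sup_le hTS (hCD.trans hDS)
      have hS₀card := card_eq_mul_card_inf T D S₀ hTS₀ hDT (fun s hs => hprodS s (hS₀S hs))
      have e3 := card_mul_relIndex' C D hCD
      rw [hCi] at e3
      have hS₀D : S₀ ⊓ D = C := by
        symm
        apply Subgroup.eq_of_le_of_card_ge (le_inf hCS₀ hCD)
        have h4 : Nat.card (S₀ ⊓ D : Subgroup G) ∣ Nat.card D := Subgroup.card_dvd_of_le inf_le_right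
        have h5 : Nat.card C ∣ Nat.card (S₀ ⊓ D : Subgroup G) :=
          Subgroup.card_dvd_of_le (le_inf hCS₀ hCD)
        have h6 : Nat.card (S₀ ⊓ D : Subgroup G) ≠ Nat.card D := by
          intro h
          have h7 : S₀ ⊓ D = D := Subgroup.eq_of_le_of_card_ge inf_le_right h.ge
          apply hxS₀
          have h8 : x ∈ S₀ ⊓ D := by rw [h7]; exact hxD
          exact (Subgroup.mem_inf.mp h8).1
        obtain ⟨j, hj⟩ := h5
        rw [hj, ← e3] at h4 h6
        have hCpos : 0 < Nat.card C := Nat.card_pos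
        have hj2 : j ∣ 2 := (Nat.mul_dvd_mul_iff_left hCpos).mp h4
        have hj' : j = 1 ∨ j = 2 := by
          have := Nat.le_of_dvd (by norm_num) hj2
          interval_cases j
          · simp at hj2
          · left; rfl
          · right; rfl
        rcases hj' with rfl | rfl
        · rw [hj, mul_one]
        · exact absurd rfl h6
      rw [hS₀D] at hS₀card
      have hidx : S₀.index = 2 ^ (0 + 1) * S.index := by
        have e1 := Subgroup.card_mul_index S₀
        have e2 := Subgroup.card_mul_index S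
        rw [hS₀card] at e1
        rw [← hTDc, ← e3] at e2
        have hpos : 0 < Nat.card T * Nat.card C := Nat.mul_pos Nat.card_pos Nat.card_pos
        apply Nat.eq_of_mul_eq_mul_left hpos
        rw [e1, ← e2]; ring
      have hSodd : Odd S.index := by
        rw [← Nat.not_even_iff_odd, even_iff_two_dvd]; exact hSsyl
      have hnot := not_mem_closure_of_uniform S₀ x 0 S.index
        (by rw [zero_add, pow_one, ← hx2]; exact pow_orderOf_eq_one x)
        (by
          intro k hk
          rw [pow_zero, pow_one] at hk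
          apply h1 x hxD hxC hx2 k⁻¹
          rw [inv_inv, ← hS₀]; exact hk)
        hidx hSodd
      rw [← hK] at hnot
      exact hnot hxK
  refine ⟨K, hKn, hKD, ?_⟩
  have hTodd : ¬ 2 ∣ T.relIndex K := by
    rw [hrel, hQ, Subgroup.card_bot, one_mul, ← even_iff_two_dvd, Nat.not_even_iff_odd]
    exact hmodd
  have hLodd : ¬ 2 ∣ L.relIndex K := by
    intro h
    apply hTodd
    rw [← Subgroup.relIndex_mul_relIndex T L K hTL hLK]
    exact Dvd.dvd.mul_left h _
  intro T' hT'L hT'2 hT'syl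
  refine ⟨hT'L.trans hLK, ?_⟩
  rw [← Subgroup.relIndex_mul_relIndex T' L K hT'L hLK]
  intro h
  rcases (Nat.Prime.dvd_mul Nat.prime_two).mp h with h | h
  · exact hT'syl h
  · exact hLodd h

end Cfsg.Agent.S1924
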