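import Cfsg.Statements.S1939
import Mathlib

set_option autoImplicit false
open Cfsg

namespace Cfsg.Agent.S1939

/-- Let S be a Sylow p-subgroup of the finite group G and a an element of S that is the only G-conjugate of a lying in S. Then every power of a has the same property: for every n, the only G-conjugate of a^n lying in S is a^n. -/
theorem result {G : Type*} [Group G] [Finite G] {p : ℕ} [Fact p.Prime] (S : Sylow p G) (a : G)
    (haS : a ∈ (S : Subgroup G)) (hwc : ∀ g : G, g * a * g⁻¹ ∈ (S : Subgroup G) → g * a * g⁻¹ = a) (n : ℕ) :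
    ∀ g : G, g * a ^ n * g⁻¹ ∈ (S : Subgroup G) → g * a ^ n * g⁻¹ = a ^ n := by
  intro g hg
  have hcen : ∀ s ∈ (S : Subgroup G), s * a = a * s := by
    intro s hs
    have h1 := hwc s (mul_mem (mul_mem hs haS) (inv_mem hs))
    calc s * a = s * a * s⁻¹ * s := by group
      _ = a * s := by rw [h1]
  set c := g * a ^ n * g⁻¹ with hc
  set a' := g * a * g⁻¹ with ha'
  have hc' : a' ^ n = c := by rw [ha', hc, conj_pow]
  -- a and a' lie in the centralizer of c
  have haC : a ∈ Subgroup.centralizer ({c} : Set G) := by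
    rw [Subgroup.mem_centralizer_singleton_iff]
    exact (hcen c hg).symm
  have ha'C : a' ∈ Subgroup.centralizer ({c} : Set G) := by
    rw [Subgroup.mem_centralizer_singleton_iff, ← hc', ← pow_succ, ← pow_succ']
  -- the p-subgroups generated by a and a' inside the centralizer
  have hpa : IsPGroup p (Subgroup.zpowers (⟨a, haC⟩ : Subgroup.centralizer ({c} : Set G))) := by
    rw [IsPGroup.iff_orderOf]
    rintro ⟨x, hx⟩
    obtain ⟨k, rfl⟩ := hx
    obtain ⟨j, hj⟩ := (IsPGroup.iff_orderOf.mp S.isPGroup') ⟨a, haS⟩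
    have h2 : orderOf (⟨a, haC⟩ : Subgroup.centralizer ({c} : Set G)) = p ^ j := by
      rw [← hj, ← Subgroup.orderOf_coe, ← Subgroup.orderOf_coe]
    have h3 : orderOf ((⟨a, haC⟩ : Subgroup.centralizer ({c} : Set G)) ^ k) ∣ p ^ j := by
      rw [← h2]; exact orderOf_dvd_of_pow_eq_one (by rw [← zpow_natCast, ← zpow_mul, mul_comm, zpow_mul, zpow_natCast, pow_orderOf_eq_one, one_zpow])
    obtain ⟨i, -, hi⟩ := (Nat.dvd_prime_pow (Fact.out : p.Prime)).mp h3
    refine ⟨i, ?_⟩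
    rw [← hi, ← Subgroup.orderOf_coe]
  have hpa' : IsPGroup p (Subgroup.zpowers (⟨a', ha'C⟩ : Subgroup.centralizer ({c} : Set G))) := by
    rw [IsPGroup.iff_orderOf]
    rintro ⟨x, hx⟩
    obtain ⟨k, rfl⟩ := hx
    obtain ⟨j, hj⟩ := (IsPGroup.iff_orderOf.mp S.isPGroup') ⟨a, haS⟩
    have h2 : orderOf (⟨a', ha'C⟩ : Subgroup.centralizer ({c} : Set G)) = p ^ j := by
      rw [← hj, ← Subgroup.orderOf_coe, ← Subgroup.orderOf_coe]
      show orderOf (g * a * g⁻¹) = orderOf a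
      have := orderOf_injective (MulAut.conj g).toMonoidHom (MulAut.conj g).injective a
      simpa using this
    have h3 : orderOf ((⟨a', ha'C⟩ : Subgroup.centralizer ({c} : Set G)) ^ k) ∣ p ^ j := by
      rw [← h2]; exact orderOf_dvd_of_pow_eq_one (by rw [← zpow_natCast, ← zpow_mul, mul_comm, zpow_mul, zpow_natCast, pow_orderOf_eq_one, one_zpow])
    obtain ⟨i, -, hi⟩ := (Nat.dvd_prime_pow (Fact.out : p.Prime)).mp h3
    refine ⟨i, ?_⟩
    rw [← hi, ← Subgroup.orderOf_coe]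
  obtain ⟨P₁, hP₁⟩ := hpa.exists_le_sylow
  obtain ⟨P₂, hP₂⟩ := hpa'.exists_le_sylow
  obtain ⟨h, hh⟩ := MulAction.exists_smul_eq (Subgroup.centralizer ({c} : Set G)) P₂ P₁
  -- h * a' * h⁻¹ ∈ P₁
  have h1 : h * ⟨a', ha'C⟩ * h⁻¹ ∈ (P₁ : Subgroup (Subgroup.centralizer ({c} : Set G))) := by
    rw [← hh, Sylow.smul_def, Sylow.pointwise_smul_def]
    rw [Subgroup.mem_pointwise_smul_iff_inv_smul_mem]
    have : (MulAut.conj h)⁻¹ • (h * ⟨a', ha'C⟩ * h⁻¹) = (⟨a', ha'C⟩ : Subgroup.centralizer ({c} : Set G)) := by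
      rw [← map_inv]; simp [MulAut.smul_def, mul_assoc]
    rw [this]
    exact hP₂ (Subgroup.mem_zpowers _)
  have h0 : (⟨a, haC⟩ : Subgroup.centralizer ({c} : Set G)) ∈ (P₁ : Subgroup (Subgroup.centralizer ({c} : Set G))) :=
    hP₁ (Subgroup.mem_zpowers _)
  -- push P₁ into G and into a Sylow of G
  have hPG : IsPGroup p ((P₁ : Subgroup (Subgroup.centralizer ({c} : Set G))).map (Subgroup.centralizer ({c} : Set G)).subtype) :=
    P₁.isPGroup'.map _
  obtain ⟨Q, hQ⟩ := hPG.exists_le_sylow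
  obtain ⟨k, hk⟩ := MulAction.exists_smul_eq G S Q
  have memQ : ∀ x : G, x ∈ (Q : Subgroup G) → k⁻¹ * x * k ∈ (S : Subgroup G) := by
    intro x hx
    rw [← hk, Sylow.smul_def, Sylow.pointwise_smul_def, Subgroup.mem_pointwise_smul_iff_inv_smul_mem] at hx
    have : (MulAut.conj k)⁻¹ • x = k⁻¹ * x * k := by
      rw [← map_inv]; simp [MulAut.smul_def]
    rwa [this] at hx
  have e1 : k⁻¹ * a * k = a := by
    have := hwc k⁻¹ (by simpa using memQ a (hQ ⟨⟨a, haC⟩, h0, rfl⟩))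
    simpa using this
  have e2 : k⁻¹ * ((h : G) * a' * (h : G)⁻¹) * k = a := by
    have hm : k⁻¹ * ((h : G) * a' * (h : G)⁻¹) * k ∈ (S : Subgroup G) :=
      memQ _ (hQ ⟨h * ⟨a', ha'C⟩ * h⁻¹, h1, rfl⟩)
    have e : k⁻¹ * ((h : G) * a' * (h : G)⁻¹) * k = (k⁻¹ * h * g) * a * (k⁻¹ * h * g)⁻¹ := by
      rw [ha']; group
    rw [e] at hm ⊢
    exact hwc _ hm
  have e3 : (h : G) * a' * (h : G)⁻¹ = a := by
    have : k⁻¹ * ((h : G) * a' * (h : G)⁻¹) * k = k⁻¹ * a * k := by rw [e1, e2]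
    simpa using this
  have hhc : (h : G) * c * (h : G)⁻¹ = c := by
    have := h.2
    rw [Subgroup.mem_centralizer_singleton_iff] at this
    rw [this]; group
  calc c = (h : G) * c * (h : G)⁻¹ := hhc.symm
    _ = (h : G) * a' ^ n * (h : G)⁻¹ := by rw [hc']
    _ = ((h : G) * a' * (h : G)⁻¹) ^ n := conj_pow.symm
    _ = a ^ n := by rw [e3]

end Cfsg.Agent.S1939
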