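import Cfsg.Statements.S1940
import Mathlib

set_option autoImplicit false
open Cfsg

namespace Cfsg.Agent.S1940

/-- Let the finite group L act by automorphisms on the finite abelian group M, and let N be an L-invariant subgroup of M such that M/N is a p-group on which L acts trivially (every l • m lies in the coset mN). If every element of M is a product of an element of N and an element fixed by a Sylow p-subgroup T of L, then every element of M is a product of an element of N and an element fixed by all of L. -/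
theorem result {L : Type*} [Group L] [Finite L] {M : Type*} [CommGroup M] [Finite M] [MulDistribMulAction L M]
    {p : ℕ} [Fact p.Prime] (N : Subgroup M) (hN : ∀ (l : L) (m : M), m ∈ N → l • m ∈ N)
    (hquot : IsPGroup p (M ⧸ N)) (htriv : ∀ (l : L) (m : M), (l • m) * m⁻¹ ∈ N) (T : Sylow p L)
    (hT : ∀ m : M, ∃ n ∈ N, ∃ c : M, (∀ t ∈ (T : Subgroup L), t • c = c) ∧ m = n * c) :
    ∀ m : M, ∃ n ∈ N, ∃ c : M, (∀ l : L, l • c = c) ∧ m = n * c := by
  classical
  intro m
  obtain ⟨n, hn, c, hc, rfl⟩ := hT m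
  letI : Fintype (L ⧸ (T : Subgroup L)) := Fintype.ofFinite _
  set c' : M := ∏ q : L ⧸ (T : Subgroup L), (Quotient.out q) • c with hc'
  have hcoset : ∀ l : L, (Quotient.out (QuotientGroup.mk l : L ⧸ (T : Subgroup L))) • c = l • c := by
    intro l
    have h1 : (l⁻¹ * Quotient.out (QuotientGroup.mk l : L ⧸ (T : Subgroup L))) ∈ (T : Subgroup L) := by
      obtain ⟨t, ht⟩ := QuotientGroup.mk_out_eq_mul (T : Subgroup L) l
      rw [ht]; simp
    have h2 := hc _ h1
    rw [mul_smul, inv_smul_eq_iff] at h2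
    exact h2
  have hfix : ∀ l : L, l • c' = c' := by
    intro l
    rw [hc', Finset.smul_prod']
    have h3 : ∀ q : L ⧸ (T : Subgroup L), l • (Quotient.out q • c) = Quotient.out (l • q) • c := by
      intro q
      rw [← mul_smul]
      have h4 : (l • q) = QuotientGroup.mk (l * Quotient.out q) := by
        conv_lhs => rw [← QuotientGroup.out_eq' q]
        rfl
      rw [h4, hcoset]
    simp_rw [h3]
    exact Fintype.prod_equiv (MulAction.toPerm l) _ _ (fun q => rfl)
  set k := Fintype.card (L ⧸ (T : Subgroup L)) with hk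
  have hN1 : c' * (c ^ k)⁻¹ ∈ N := by
    have h5 : c' * (c ^ k)⁻¹ = ∏ q : L ⧸ (T : Subgroup L), ((Quotient.out q) • c) * c⁻¹ := by
      rw [Finset.prod_mul_distrib, Finset.prod_const, Finset.card_univ, inv_pow]
    rw [h5]
    exact Subgroup.prod_mem N (fun q _ => htriv _ _)
  have hkp : ¬ p ∣ k := by
    have := T.not_dvd_index
    rw [Subgroup.index, Nat.card_eq_fintype_card] at this
    exact this
  obtain ⟨a, ha⟩ := IsPGroup.iff_card.mp hquot
  have hcop : Nat.Coprime k (p ^ a) := by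
    apply Nat.Coprime.pow_right
    exact (Nat.Coprime.symm ((Nat.Prime.coprime_iff_not_dvd Fact.out).mpr hkp))
  have hN2 : c ^ (p ^ a) ∈ N := by
    rw [← QuotientGroup.eq_one_iff, QuotientGroup.mk_pow, ← ha]
    exact pow_card_eq_one'
  have hbez : (k : ℤ) * Int.gcdA k (p ^ a) + ((p ^ a : ℕ) : ℤ) * Int.gcdB k (p ^ a) = 1 := by
    have := Int.gcd_eq_gcd_ab (k : ℤ) ((p ^ a : ℕ) : ℤ)
    rw [Int.gcd_natCast_natCast, hcop] at this
    simpa using this.symm
  set x := Int.gcdA k (p ^ a)
  set y := Int.gcdB k (p ^ a)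
  have hceq : c = ((c ^ (p ^ a)) ^ y * ((c ^ k) * c'⁻¹) ^ x) * c' ^ x := by
    have h6 : c = c ^ ((k : ℤ) * x + ((p ^ a : ℕ) : ℤ) * y) := by rw [hbez, zpow_one]
    conv_lhs => rw [h6]
    rw [zpow_add, zpow_mul, zpow_mul, zpow_natCast, zpow_natCast, mul_zpow, inv_zpow]
    rw [mul_comm ((c ^ k) ^ x) ((c ^ (p ^ a)) ^ y), mul_assoc, mul_assoc]
    congr 1
    rw [inv_mul_cancel, mul_one]
  refine ⟨n * ((c ^ (p ^ a)) ^ y * ((c ^ k) * c'⁻¹) ^ x), ?_, c' ^ x, ?_, ?_⟩
  · refine mul_mem hn (mul_mem (zpow_mem hN2 _) (zpow_mem ?_ _))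
    have : c ^ k * c'⁻¹ = (c' * (c ^ k)⁻¹)⁻¹ := by rw [mul_inv_rev, inv_inv, mul_comm]
    rw [this]; exact inv_mem hN1
  · intro l
    rw [smul_zpow', hfix]
  · rw [mul_assoc]
    congr 1

end Cfsg.Agent.S1940
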