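import Cfsg.Statements.S1941
import Mathlib
import Cfsg.Agent.Lib.Helper3.CocycleAvg
import Cfsg.Agent.Lib.Helper2.FStar
import Cfsg.Agent.Lib.Helper2.Nilp
import Cfsg.Agent.Lib.Helper2.Fit
import Cfsg.Agent.Lib.Helper3.PPrimeCore
import Cfsg.Agent.Lib.Lead.PNilp3

set_option autoImplicit false
open Cfsg

namespace Cfsg.Agent.S1941

/-- Let G be a finite group with no nontrivial normal subgroup of order prime to p, T a Sylow p-subgroup of G and E(G) the layer of G (the subgroup generated by its components). An automorphism of G of p-power order that fixes T and E(G) elementwise is inner. -/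
theorem result {G : Type*} [Group G] [Finite G] {p : ℕ} [Fact p.Prime] (hcore : Cfsg.pPrimeCore p G = ⊥)
    (T : Sylow p G) (α : MulAut G) (hα : ∃ j : ℕ, orderOf α = p ^ j) (hfixT : ∀ x ∈ (T : Subgroup G), α x = x)
    (hfixE : ∀ x ∈ Cfsg.layer G, α x = x) : ∃ g : G, ∀ x : G, α x = g * x * g⁻¹ := by
  classical
  have hFn : (Cfsg.fittingSubgroup G).Normal := Cfsg.Agent.Lib.Helper2.fitting_normal G
  have hFnil : Group.IsNilpotent (Cfsg.fittingSubgroup G) :=
    Cfsg.Agent.Lib.Helper2.fitting_isNilpotent G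
  have hFp : IsPGroup p (Cfsg.fittingSubgroup G) := by
    have hcard : Nat.card (Cfsg.fittingSubgroup G) =
        p ^ (Nat.card (Cfsg.fittingSubgroup G)).primeFactorsList.length := by
      apply Nat.eq_prime_pow_of_unique_prime_dvd Nat.card_pos.ne'
      intro q hq hqd
      by_contra hqp
      haveI : Fact q.Prime := ⟨hq⟩
      obtain Q : Sylow q (Cfsg.fittingSubgroup G) := default
      have hQn : (Q : Subgroup (Cfsg.fittingSubgroup G)).Normal :=
        Sylow.normal_of_normalizerCondition Group.normalizerCondition_of_isNilpotent Q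
      have hQc : (Q : Subgroup (Cfsg.fittingSubgroup G)).Characteristic :=
        Q.characteristic_of_normal hQn
      have hQG : ((Q : Subgroup (Cfsg.fittingSubgroup G)).map
          (Cfsg.fittingSubgroup G).subtype).Normal :=
        ConjAct.normal_of_characteristic_of_normal
      have hcop : (Nat.card ((Q : Subgroup (Cfsg.fittingSubgroup G)).map
          (Cfsg.fittingSubgroup G).subtype)).Coprime p := by
        rw [Subgroup.card_map_of_injective (Subgroup.subtype_injective _)]
        obtain ⟨k, hk⟩ := IsPGroup.iff_card.mp Q.2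
        rw [hk]
        exact Nat.Coprime.pow_left k ((Nat.coprime_primes hq Fact.out).mpr hqp)
      have hle := Cfsg.Agent.Lib.Helper3.le_pPrimeCore hQG hcop
      rw [hcore, le_bot_iff] at hle
      have hQb : (Q : Subgroup (Cfsg.fittingSubgroup G)) = ⊥ := by
        rw [eq_bot_iff]; intro x hx
        have hx' : (x : G) ∈ (Q : Subgroup (Cfsg.fittingSubgroup G)).map
            (Cfsg.fittingSubgroup G).subtype := ⟨x, hx, rfl⟩
        rw [hle] at hx'
        exact Subtype.ext (Subgroup.mem_bot.mp hx')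
      exact Q.ne_bot_of_dvd_card hqd hQb
    exact IsPGroup.of_card hcard
  have hFT : Cfsg.fittingSubgroup G ≤ (T : Subgroup G) :=
    Cfsg.Agent.Lib.Helper2.normal_pgroup_le_sylow _ hFp T
  obtain ⟨Fs, hFs⟩ : ∃ Fs : Subgroup G, Fs = Cfsg.generalizedFittingSubgroup G := ⟨_, rfl⟩
  have hFsn : Fs.Normal := by rw [hFs]; exact Cfsg.Agent.Lib.Helper2.genFitting_normal G
  have hfixFs : ∀ x ∈ Fs, α x = x := by
    have hle : Fs ≤ MonoidHom.eqLocus α.toMonoidHom (MonoidHom.id G) := by
      rw [hFs]
      apply sup_le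
      · intro x hx; exact hfixE x hx
      · intro x hx; exact hfixT x (hFT hx)
    intro x hx; exact hle hx
  obtain ⟨Z, hZ⟩ : ∃ Z : Subgroup G, Z = Subgroup.centralizer (Fs : Set G) := ⟨_, rfl⟩
  have hZle : Z ≤ Fs := by
    rw [hZ, hFs]; exact Cfsg.Agent.Lib.Helper2.centralizer_genFitting_le G
  have hZn : Z.Normal := by rw [hZ]; infer_instance
  have hZcomm : ∀ a ∈ Z, ∀ b ∈ Z, a * b = b * a := by
    intro a ha b hb
    rw [hZ, Subgroup.mem_centralizer_iff] at ha
    exact (ha b (hZle hb)).symm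
  have hZnil : Group.IsNilpotent ↥Z :=
    Cfsg.Agent.Lib.Lead.isNilpotent_of_comm (fun a b => Subtype.ext (hZcomm a a.2 b b.2))
  have hZF : Z ≤ Cfsg.fittingSubgroup G := le_sSup ⟨hZn, hZnil⟩
  have hZp : IsPGroup p ↥Z := hFp.to_le hZF
  have hcop : (Nat.card Z).Coprime (T : Subgroup G).index := by
    obtain ⟨k, hk⟩ := IsPGroup.iff_card.mp hZp
    rw [hk]
    apply Nat.Coprime.pow_left
    rw [Nat.Prime.coprime_iff_not_dvd Fact.out]
    exact T.not_dvd_index
  have hZmem : ∀ x : G, α x * x⁻¹ ∈ Z := by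
    intro x
    rw [hZ, Subgroup.mem_centralizer_iff]
    intro h hh
    have hh' : x⁻¹ * h * x ∈ Fs := by
      have := hFsn.conj_mem h hh x⁻¹
      rwa [inv_inv] at this
    have key : (α x)⁻¹ * h * α x = x⁻¹ * h * x := by
      have h1 := hfixFs _ hh'
      rw [map_mul, map_mul, map_inv, hfixFs h hh] at h1
      exact h1
    calc h * (α x * x⁻¹) = α x * ((α x)⁻¹ * h * α x) * x⁻¹ := by group
      _ = α x * (x⁻¹ * h * x) * x⁻¹ := by rw [key]
      _ = α x * x⁻¹ * h := by group
  exact Cfsg.Agent.Lib.Helper3.inner_of_cocycle Z (T : Subgroup G) hZcomm hcop α hfixT hZmem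

end Cfsg.Agent.S1941
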