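import Mathlib
import Cfsg.Statements.S1948
import Cfsg.Agent.Lib.Helper2.PComp
import Cfsg.Agent.Lib.Helper2.Fit
import Cfsg.Agent.Lib.Helper2.PConstr
import Cfsg.Agent.Lib.Helper6.PSolvCore
import Cfsg.Agent.Lib.Helper7.CyclicSylow2
import Cfsg.Agent.S4218

set_option autoImplicit false
open Cfsg

namespace Cfsg.Agent.S1948

/-- Let S be a Sylow p-subgroup of the finite group G. Then G = N_G(S)·O_{p'}(G) if and only if G is p-constrained and N_G(S) controls fusion in S, in the sense that whenever a subgroup Q of S has a conjugate g Q g⁻¹ inside S, the element g is a product n c with n normalizing S and c centralizing Q. -/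
theorem result {G : Type*} [Group G] [Finite G] {p : ℕ} [Fact p.Prime] (S : Sylow p G) :
    Subgroup.normalizer ((S : Subgroup G) : Set G) ⊔ Cfsg.pPrimeCore p G = ⊤ ↔
      (Cfsg.IsPConstrained p G ∧
        ∀ Q : Subgroup G, Q ≤ (S : Subgroup G) → ∀ g : G, Q.map (MulAut.conj g).toMonoidHom ≤ (S : Subgroup G) →
          ∃ n ∈ Subgroup.normalizer ((S : Subgroup G) : Set G), ∃ c ∈ Subgroup.centralizer (Q : Set G), g = n * c) := by
  classical
  have hp : p.Prime := Fact.out
  have hOn : (Cfsg.pPrimeCore p G).Normal := by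
    haveI := Cfsg.Agent.Lib.Helper2.pPrimeCore_characteristic' p G
    exact Subgroup.normal_of_characteristic _
  have hOcop : (Nat.card ↥(Cfsg.pPrimeCore p G)).Coprime p :=
    Cfsg.Agent.Lib.Helper2.pPrimeCore_card_coprime p G
  have hcopP : ∀ Q : Subgroup G, IsPGroup p ↥Q → Q ⊓ Cfsg.pPrimeCore p G = ⊥ := by
    intro Q hQ
    rw [← disjoint_iff]
    apply Subgroup.disjoint_of_coprime_natCard
    obtain ⟨k, hk⟩ := IsPGroup.iff_card.mp hQ
    rw [hk]
    exact Nat.Coprime.pow_left k hOcop.symm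
  have hSO : (S : Subgroup G) ⊓ Cfsg.pPrimeCore p G = ⊥ := hcopP _ S.2
  have hdec : ∀ g : G, g ∈ Subgroup.normalizer ((S : Subgroup G) : Set G) ⊔ Cfsg.pPrimeCore p G →
      ∃ n ∈ Subgroup.normalizer ((S : Subgroup G) : Set G), ∃ u ∈ Cfsg.pPrimeCore p G,
        n * u = g := by
    intro g hg
    have hg' : g ∈ ((Subgroup.normalizer ((S : Subgroup G) : Set G) ⊔ Cfsg.pPrimeCore p G :
        Subgroup G) : Set G) := hg
    rw [Subgroup.mul_normal] at hg'
    exact Set.mem_mul.mp hg'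
  have hsurj : Function.Surjective (QuotientGroup.mk' (Cfsg.pPrimeCore p G)) :=
    QuotientGroup.mk'_surjective _
  constructor
  · intro hN
    have hall : ∀ g : G, ∃ n ∈ Subgroup.normalizer ((S : Subgroup G) : Set G),
        ∃ u ∈ Cfsg.pPrimeCore p G, n * u = g :=
      fun g => hdec g (by rw [hN]; exact Subgroup.mem_top g)
    constructor
    · intro P' c hc
      have hbot : Cfsg.pPrimeCore p (G ⧸ Cfsg.pPrimeCore p G) = ⊥ :=
        Cfsg.Agent.Lib.Helper2.pPrimeCore_quotient_eq_bot p G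
      have hSbar_n : ((S : Subgroup G).map (QuotientGroup.mk' (Cfsg.pPrimeCore p G))).Normal := by
        constructor
        intro y hy gb
        obtain ⟨s, hs, rfl⟩ := hy
        obtain ⟨g, rfl⟩ := hsurj gb
        obtain ⟨n, hn, u, hu, rfl⟩ := hall g
        have hu1 : QuotientGroup.mk' (Cfsg.pPrimeCore p G) u = 1 :=
          (QuotientGroup.eq_one_iff u).mpr hu
        refine ⟨n * s * n⁻¹, (Subgroup.mem_normalizer_iff.mp hn s).mp hs, ?_⟩
        simp only [map_mul, map_inv, hu1, mul_one]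
      have hSbar_p : IsPGroup p ↥((S : Subgroup G).map (QuotientGroup.mk' (Cfsg.pPrimeCore p G))) :=
        S.2.map _
      have hps : Cfsg.IsPSolvable p (G ⧸ Cfsg.pPrimeCore p G) := by
        have := hSbar_n
        refine Cfsg.Agent.Lib.Helper7.isPSolvable_of_three p ⊥
          ((S : Subgroup G).map (QuotientGroup.mk' (Cfsg.pPrimeCore p G))) bot_le ?_ ?_ ?_
        · rw [Subgroup.card_bot]; exact Nat.coprime_one_left p
        · obtain ⟨m, hm⟩ := IsPGroup.iff_card.mp hSbar_p
          exact ⟨m, by rw [Subgroup.relIndex_bot_left]; exact hm⟩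
        · have h1 : ((S : Subgroup G).map (QuotientGroup.mk' (Cfsg.pPrimeCore p G))).index ∣
              (S : Subgroup G).index := Subgroup.index_map_dvd _ hsurj
          have h2 : ¬ p ∣ (S : Subgroup G).index := S.not_dvd_index
          have h3 : ¬ p ∣ ((S : Subgroup G).map (QuotientGroup.mk' (Cfsg.pPrimeCore p G))).index :=
            fun h => h2 (h.trans h1)
          exact ((Nat.Prime.coprime_iff_not_dvd hp).mpr h3).symm
      have hcent := Cfsg.Agent.S4218.hh123 hps hbot
      have hPimg := Cfsg.Agent.Lib.Helper2.sylow_pPrimePCore_map p P'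
      show QuotientGroup.mk' (Cfsg.pPrimeCore p G) c ∈ Cfsg.pCore p (G ⧸ Cfsg.pPrimeCore p G)
      apply hcent
      rw [Subgroup.mem_centralizer_iff]
      intro y hy
      rw [← hPimg] at hy
      obtain ⟨x, hx, rfl⟩ := hy
      rw [Subgroup.mem_centralizer_iff] at hc
      rw [← map_mul, ← map_mul, hc x hx]
    · intro Q hQS g hg
      obtain ⟨n, hn, u, hu, rfl⟩ := hall g
      refine ⟨n, hn, u, ?_, rfl⟩
      rw [Subgroup.mem_centralizer_iff]
      intro x hx
      have hxS : x ∈ (S : Subgroup G) := hQS hx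
      have h1 : (n * u) * x * (n * u)⁻¹ ∈ (S : Subgroup G) := by
        have h0 := hg (Subgroup.mem_map_of_mem (MulAut.conj (n * u)).toMonoidHom hx)
        exact h0
      have h2 : u * x * u⁻¹ ∈ (S : Subgroup G) := by
        refine (Subgroup.mem_normalizer_iff.mp hn (u * x * u⁻¹)).mpr ?_
        have h : n * (u * x * u⁻¹) * n⁻¹ = (n * u) * x * (n * u)⁻¹ := by group
        rw [h]; exact h1
      have h3 : u * x * u⁻¹ * x⁻¹ ∈ (S : Subgroup G) :=
        Subgroup.mul_mem _ h2 (Subgroup.inv_mem _ hxS)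
      have h4 : u * x * u⁻¹ * x⁻¹ ∈ Cfsg.pPrimeCore p G := by
        have h : u * x * u⁻¹ * x⁻¹ = u * (x * u⁻¹ * x⁻¹) := by group
        rw [h]
        exact Subgroup.mul_mem _ hu (hOn.conj_mem _ (Subgroup.inv_mem _ hu) x)
      have h5 : u * x * u⁻¹ * x⁻¹ ∈ (S : Subgroup G) ⊓ Cfsg.pPrimeCore p G :=
        Subgroup.mem_inf.mpr ⟨h3, h4⟩
      rw [hSO, Subgroup.mem_bot] at h5
      calc x * u = (u * x * u⁻¹ * x⁻¹)⁻¹ * (u * x) := by group
        _ = u * x := by rw [h5, inv_one, one_mul]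
  · rintro ⟨hcon, hfus⟩
    have hKn : (Cfsg.pPrimePCore p G).Normal := by
      haveI := Cfsg.Agent.Lib.Helper6.pPrimePCore_characteristic p G
      exact Subgroup.normal_of_characteristic _
    have hRn : (Cfsg.pCore p (G ⧸ Cfsg.pPrimeCore p G)).Normal := by
      haveI := Cfsg.Agent.Lib.Helper2.pCore_characteristic' p (G ⧸ Cfsg.pPrimeCore p G)
      exact Subgroup.normal_of_characteristic _
    have hRp : IsPGroup p ↥(Cfsg.pCore p (G ⧸ Cfsg.pPrimeCore p G)) :=
      Cfsg.Agent.Lib.Helper2.pCore_isPGroup' p _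
    have hRle : Cfsg.pCore p (G ⧸ Cfsg.pPrimeCore p G) ≤
        (S : Subgroup G).map (QuotientGroup.mk' (Cfsg.pPrimeCore p G)) := by
      have h := hRp.le_sylow_of_normal (S.mapSurjective hsurj)
      exact h
    have hmemK : ∀ x : G, x ∈ Cfsg.pPrimePCore p G ↔
        QuotientGroup.mk' (Cfsg.pPrimeCore p G) x ∈ Cfsg.pCore p (G ⧸ Cfsg.pPrimeCore p G) :=
      fun x => Iff.rfl
    -- every element of K is congruent mod O to an element of S ∩ K
    have hlift : ∀ x ∈ Cfsg.pPrimePCore p G, ∃ t ∈ (S : Subgroup G), t ∈ Cfsg.pPrimePCore p G ∧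
        t⁻¹ * x ∈ Cfsg.pPrimeCore p G := by
      intro x hx
      obtain ⟨s, hs, hsx⟩ := hRle ((hmemK x).mp hx)
      refine ⟨s, hs, ?_, ?_⟩
      · rw [hmemK, hsx]; exact (hmemK x).mp hx
      · rw [← QuotientGroup.eq_one_iff]
        show QuotientGroup.mk' (Cfsg.pPrimeCore p G) (s⁻¹ * x) = 1
        rw [map_mul, map_inv, hsx, inv_mul_cancel]
    have hTp : IsPGroup p ↥(((S : Subgroup G) ⊓ Cfsg.pPrimePCore p G).subgroupOf
        (Cfsg.pPrimePCore p G)) :=
      (S.2.to_le inf_le_left).comap_subtype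
    obtain ⟨P₂, hP₂⟩ := hTp.exists_le_sylow
    have hQp : IsPGroup p ↥((P₂ : Subgroup ↥(Cfsg.pPrimePCore p G)).map
        (Cfsg.pPrimePCore p G).subtype) := P₂.2.map _
    have hQO := hcopP _ hQp
    have hQS : (P₂ : Subgroup ↥(Cfsg.pPrimePCore p G)).map (Cfsg.pPrimePCore p G).subtype ≤
        (S : Subgroup G) := by
      rintro x ⟨k, hk, rfl⟩
      obtain ⟨t, htS, htK, htx⟩ := hlift (k : G) k.2
      have htQ : t ∈ (P₂ : Subgroup ↥(Cfsg.pPrimePCore p G)).map
          (Cfsg.pPrimePCore p G).subtype := by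
        refine ⟨⟨t, htK⟩, hP₂ ?_, rfl⟩
        show t ∈ (S : Subgroup G) ⊓ Cfsg.pPrimePCore p G
        exact Subgroup.mem_inf.mpr ⟨htS, htK⟩
      have hkQ : (k : G) ∈ (P₂ : Subgroup ↥(Cfsg.pPrimePCore p G)).map
          (Cfsg.pPrimePCore p G).subtype := ⟨k, hk, rfl⟩
      have h1 : t⁻¹ * (k : G) ∈ (P₂ : Subgroup ↥(Cfsg.pPrimePCore p G)).map
          (Cfsg.pPrimePCore p G).subtype ⊓ Cfsg.pPrimeCore p G :=
        Subgroup.mem_inf.mpr ⟨Subgroup.mul_mem _ (Subgroup.inv_mem _ htQ) hkQ, htx⟩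
      rw [hQO, Subgroup.mem_bot] at h1
      have h2 : (k : G) = t := by
        calc (k : G) = t * (t⁻¹ * (k : G)) := by group
          _ = t := by rw [h1, mul_one]
      show (k : G) ∈ (S : Subgroup G)
      rw [h2]; exact htS
    have hFr := Sylow.normalizer_sup_eq_top P₂
    have hK_le : Cfsg.pPrimePCore p G ≤
        Subgroup.normalizer ((S : Subgroup G) : Set G) ⊔ Cfsg.pPrimeCore p G := by
      intro x hx
      obtain ⟨t, htS, htK, htx⟩ := hlift x hx
      have h : x = t * (t⁻¹ * x) := by group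
      rw [h]
      exact Subgroup.mul_mem_sup (Subgroup.le_normalizer htS) htx
    have hN_le : Subgroup.normalizer (((P₂ : Subgroup ↥(Cfsg.pPrimePCore p G)).map
        (Cfsg.pPrimePCore p G).subtype : Subgroup G) : Set G) ≤
        Subgroup.normalizer ((S : Subgroup G) : Set G) ⊔ Cfsg.pPrimeCore p G := by
      intro m hm
      have hmap : ((P₂ : Subgroup ↥(Cfsg.pPrimePCore p G)).map
          (Cfsg.pPrimePCore p G).subtype).map (MulAut.conj m).toMonoidHom ≤ (S : Subgroup G) := by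
        rintro y ⟨q, hq, rfl⟩
        apply hQS
        have h := (Subgroup.mem_normalizer_iff.mp hm q).mp hq
        exact h
      obtain ⟨n, hn, c, hc, rfl⟩ := hfus _ hQS m hmap
      exact Subgroup.mul_mem _ (Subgroup.mem_sup_left hn) (hK_le (hcon P₂ hc))
    rw [eq_top_iff, ← hFr]
    exact sup_le hN_le hK_le

end Cfsg.Agent.S1948
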