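import Cfsg.Statements.S1954
import Mathlib
import Cfsg.Agent.Lib.Helper3.StrongSeries

set_option autoImplicit false
open Cfsg

namespace Cfsg.Agent.S1954

open Cfsg.Agent.Lib.Helper3 in
theorem mem_normalizer_of_map_conj_le {G : Type*} [Group G] [Finite G] (H : Subgroup G) (b : G)
    (h : H.map (MulAut.conj b).toMonoidHom ≤ H) : b ∈ Subgroup.normalizer (H : Set G) :=
  mem_normalizer_of_map_conj_eq' H b (Subgroup.eq_of_le_of_card_ge h (by rw [card_map_conj]))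

open Cfsg.Agent.Lib.Helper3 in
theorem mem_normalizer_sSup {G : Type*} [Group G] [Finite G] (𝒮 : Set (Subgroup G)) (x : G)
    (hx : ∀ U ∈ 𝒮, x ∈ Subgroup.normalizer ((U : Subgroup G) : Set G)) :
    x ∈ Subgroup.normalizer ((sSup 𝒮 : Subgroup G) : Set G) := by
  apply mem_normalizer_of_map_conj_le
  rw [Subgroup.map_le_iff_le_comap]
  apply sSup_le
  intro U hU
  rw [← Subgroup.map_le_iff_le_comap, map_conj_eq_of_mem_normalizer U x (hx U hU)]
  exact le_sSup hU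

open Cfsg.Agent.Lib.Helper3 in
theorem ctrl_finset {G : Type*} [Group G] [Finite G] (K Q : Subgroup G) (𝒮 : Finset (Subgroup G)) :
    (∀ U ∈ 𝒮, U ≤ Q ∧ ∀ A : Subgroup G, A ≤ Q → ∀ n ∈ K, A.map (MulAut.conj n).toMonoidHom ≤ Q →
      ∃ h ∈ K ⊓ Subgroup.normalizer (U : Set G), ∃ c ∈ K ⊓ Subgroup.centralizer (A : Set G), n = h * c) →
    ∀ A : Subgroup G, A ≤ Q → ∀ n ∈ K, A.map (MulAut.conj n).toMonoidHom ≤ Q →
      ∃ h ∈ K, (∀ U ∈ 𝒮, h ∈ Subgroup.normalizer ((U : Subgroup G) : Set G)) ∧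
        ∃ c ∈ K ⊓ Subgroup.centralizer (A : Set G), n = h * c := by
  classical
  induction 𝒮 using Finset.induction_on with
  | empty =>
    intro _ A hA n hn hAn
    exact ⟨n, hn, fun U hU => absurd hU (Finset.notMem_empty U), 1, one_mem _, (mul_one n).symm⟩
  | insert U 𝒮 hU ih =>
    intro hall A hA n hn hAn
    have hall' : ∀ U' ∈ 𝒮, U' ≤ Q ∧ ∀ A : Subgroup G, A ≤ Q → ∀ n ∈ K,
        A.map (MulAut.conj n).toMonoidHom ≤ Q →
        ∃ h ∈ K ⊓ Subgroup.normalizer (U' : Set G), ∃ c ∈ K ⊓ Subgroup.centralizer (A : Set G),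
          n = h * c := fun U' hU' => hall U' (Finset.mem_insert_of_mem hU')
    obtain ⟨h₁, hh₁K, hh₁, c₁, hc₁, hn1⟩ := ih hall' A hA n hn hAn
    have hc₁K : c₁ ∈ K := (Subgroup.mem_inf.mp hc₁).1
    have hc₁A : c₁ ∈ Subgroup.centralizer (A : Set G) := (Subgroup.mem_inf.mp hc₁).2
    set B : Subgroup G := A ⊔ sSup (↑𝒮 : Set (Subgroup G)) with hB
    have hSQ : sSup (↑𝒮 : Set (Subgroup G)) ≤ Q := sSup_le (fun U' hU' => (hall' U' hU').1)
    have hBQ : B ≤ Q := sup_le hA hSQ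
    have hh₁S : h₁ ∈ Subgroup.normalizer ((sSup (↑𝒮 : Set (Subgroup G)) : Subgroup G) : Set G) :=
      mem_normalizer_sSup _ h₁ (fun U' hU' => hh₁ U' hU')
    have hAh₁ : A.map (MulAut.conj h₁).toMonoidHom ≤ Q := by
      rintro _ ⟨a, ha, rfl⟩
      have h1 : a * c₁ = c₁ * a := (Subgroup.mem_centralizer_iff.mp hc₁A) a ha
      have h2 : (MulAut.conj h₁).toMonoidHom a = n * a * n⁻¹ := by
        show h₁ * a * h₁⁻¹ = n * a * n⁻¹
        rw [hn1]
        calc h₁ * a * h₁⁻¹ = h₁ * (a * c₁) * c₁⁻¹ * h₁⁻¹ := by group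
          _ = h₁ * (c₁ * a) * c₁⁻¹ * h₁⁻¹ := by rw [h1]
          _ = h₁ * c₁ * a * (h₁ * c₁)⁻¹ := by group
      rw [h2]
      exact hAn (conj_mem_map_conj' A n a ha)
    have hBh₁ : B.map (MulAut.conj h₁).toMonoidHom ≤ Q := by
      rw [hB, Subgroup.map_sup, map_conj_eq_of_mem_normalizer _ h₁ hh₁S]
      exact sup_le hAh₁ hSQ
    obtain ⟨h₂, hh₂, c₂, hc₂, hh12⟩ := (hall U (Finset.mem_insert_self U 𝒮)).2 B hBQ h₁ hh₁K hBh₁
    have hc₂K : c₂ ∈ K := (Subgroup.mem_inf.mp hc₂).1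
    have hc₂B : c₂ ∈ Subgroup.centralizer (B : Set G) := (Subgroup.mem_inf.mp hc₂).2
    have hh₂eq : h₂ = h₁ * c₂⁻¹ := by rw [hh12]; group
    refine ⟨h₂, (Subgroup.mem_inf.mp hh₂).1, ?_, c₂ * c₁, ?_, ?_⟩
    · intro U' hU'
      rcases Finset.mem_insert.mp hU' with rfl | hU'
      · exact (Subgroup.mem_inf.mp hh₂).2
      · rw [hh₂eq]
        refine mul_mem (hh₁ U' hU') (inv_mem ?_)
        have hU'B : U' ≤ B := le_trans (le_sSup hU') le_sup_right
        exact Subgroup.centralizer_le_normalizer _ (Subgroup.centralizer_le (fun y hy => hU'B hy) hc₂B)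
    · refine Subgroup.mem_inf.mpr ⟨mul_mem hc₂K hc₁K, mul_mem ?_ hc₁A⟩
      exact Subgroup.centralizer_le (fun y hy => (le_sup_left : A ≤ B) hy) hc₂B
    · rw [hn1, hh12]; group

open Cfsg.Agent.Lib.Helper3

/-- Let N be a normal subgroup of the finite group G, P a Sylow p-subgroup of G, and V a subgroup of P ∩ N normal in P ∩ N such that N_N(V) controls strong fusion in P ∩ N with respect to N (whenever a subgroup A of P ∩ N has n A n⁻¹ ≤ P ∩ N for some n in N, then n = h c with h in N_N(V) and c in C_N(A)). Let W be the subgroup generated by the conjugates of V under N_G(P ∩ N). Then N_G(W) controls strong fusion in P with respect to G. -/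
theorem result {G : Type*} [Group G] [Finite G] {p : ℕ} [Fact p.Prime] (N : Subgroup G) [N.Normal] (P : Sylow p G) (V : Subgroup G)
    (hV : V ≤ (P : Subgroup G) ⊓ N) (hVn : ∀ x ∈ (P : Subgroup G) ⊓ N, V.map (MulAut.conj x).toMonoidHom = V)
    (hctrl : ∀ A : Subgroup G, A ≤ (P : Subgroup G) ⊓ N → ∀ n ∈ N, A.map (MulAut.conj n).toMonoidHom ≤ (P : Subgroup G) ⊓ N →
      ∃ h ∈ N ⊓ Subgroup.normalizer (V : Set G), ∃ c ∈ N ⊓ Subgroup.centralizer (A : Set G), n = h * c)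
    (W : Subgroup G) (hW : W = Subgroup.closure (⋃ x ∈ Subgroup.normalizer (((P : Subgroup G) ⊓ N : Subgroup G) : Set G),
      ((V.map (MulAut.conj x).toMonoidHom : Subgroup G) : Set G))) :
    ∀ A : Subgroup G, A ≤ (P : Subgroup G) → ∀ g : G, A.map (MulAut.conj g).toMonoidHom ≤ (P : Subgroup G) →
        ∃ h ∈ Subgroup.normalizer (W : Set G), ∃ c ∈ Subgroup.centralizer (A : Set G), g = h * c := by
  classical
  subst hW
  have hp : p.Prime := Fact.out
  set Q : Subgroup G := (P : Subgroup G) ⊓ N with hQ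
  set NQ : Subgroup G := Subgroup.normalizer (Q : Set G) with hNQ
  set W : Subgroup G := Subgroup.closure (⋃ x ∈ NQ,
      ((V.map (MulAut.conj x).toMonoidHom : Subgroup G) : Set G)) with hW
  have hQP : Q ≤ P := inf_le_left
  have hQN : Q ≤ N := inf_le_right
  have hQp : IsPGroup p ↥Q := P.isPGroup'.to_le hQP
  have hQidx : ¬ p ∣ Q.relIndex N := by
    rw [hQ, Subgroup.inf_relIndex_right]
    exact fun h => P.not_dvd_index (dvd_trans h (relIndex_normal_dvd_index (P : Subgroup G) N))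
  -- conjugates of Q by NQ
  have hQconj : ∀ x ∈ NQ, Q.map (MulAut.conj x).toMonoidHom = Q :=
    fun x hx => map_conj_eq_of_mem_normalizer Q x hx
  -- Frattini
  have hFrat : ∀ g : G, ∃ m ∈ NQ, ∃ n ∈ N, g = m * n := by
    intro g
    have hXp : IsPGroup p ↥(Q.map (MulAut.conj g⁻¹).toMonoidHom) := hQp.map _
    have hXN : Q.map (MulAut.conj g⁻¹).toMonoidHom ≤ N := by
      rintro _ ⟨q, hq, rfl⟩
      exact Subgroup.Normal.conj_mem inferInstance q (hQN hq) g⁻¹
    obtain ⟨n, hn, hnX⟩ := exists_conj_mem_of_relIndex Q N _ hQp hQidx hXp hXN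
    have hmem : n * g⁻¹ ∈ NQ := by
      apply mem_normalizer_of_map_conj_le
      rintro _ ⟨q, hq, rfl⟩
      have := hnX _ (conj_mem_map_conj' Q g⁻¹ q hq)
      have h2 : (MulAut.conj (n * g⁻¹)).toMonoidHom q = n * (g⁻¹ * q * g⁻¹⁻¹) * n⁻¹ := by
        show (n * g⁻¹) * q * (n * g⁻¹)⁻¹ = _
        group
      rw [h2]; exact this
    refine ⟨(n * g⁻¹)⁻¹, inv_mem hmem, n, hn, ?_⟩
    group
  -- the conjugates of V
  have hVQ : ∀ x ∈ NQ, V.map (MulAut.conj x).toMonoidHom ≤ Q := by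
    intro x hx
    rw [← hQconj x hx]
    exact Subgroup.map_mono hV
  have hctrlx : ∀ x ∈ NQ, ∀ A : Subgroup G, A ≤ Q → ∀ n ∈ N, A.map (MulAut.conj n).toMonoidHom ≤ Q →
      ∃ h ∈ N ⊓ Subgroup.normalizer ((V.map (MulAut.conj x).toMonoidHom : Subgroup G) : Set G),
        ∃ c ∈ N ⊓ Subgroup.centralizer (A : Set G), n = h * c := by
    intro x hx A hA n hn hAn
    have hx' : x⁻¹ ∈ NQ := inv_mem hx
    have hA' : A.map (MulAut.conj x⁻¹).toMonoidHom ≤ Q := by
      rw [← hQconj x⁻¹ hx']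
      exact Subgroup.map_mono hA
    have hn' : x⁻¹ * n * x ∈ N := by
      have := Subgroup.Normal.conj_mem (inferInstance : N.Normal) n hn x⁻¹
      rwa [inv_inv] at this
    have hAn' : (A.map (MulAut.conj x⁻¹).toMonoidHom).map (MulAut.conj (x⁻¹ * n * x)).toMonoidHom ≤ Q := by
      rw [map_conj_map_conj]
      have h1 : x⁻¹ * n * x * x⁻¹ = x⁻¹ * n := by group
      rw [h1, ← map_conj_map_conj, ← hQconj x⁻¹ hx']
      exact Subgroup.map_mono hAn
    obtain ⟨h', hh', c', hc', hnhc⟩ := hctrl _ hA' _ hn' hAn'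
    refine ⟨x * h' * x⁻¹, Subgroup.mem_inf.mpr ⟨?_, ?_⟩, x * c' * x⁻¹, Subgroup.mem_inf.mpr ⟨?_, ?_⟩, ?_⟩
    · exact Subgroup.Normal.conj_mem inferInstance h' (Subgroup.mem_inf.mp hh').1 x
    · exact conj_mem_normalizer_map_conj V x h' (Subgroup.mem_inf.mp hh').2
    · exact Subgroup.Normal.conj_mem inferInstance c' (Subgroup.mem_inf.mp hc').1 x
    · rw [Subgroup.mem_centralizer_iff]
      intro a ha
      have hc2 : c' ∈ Subgroup.centralizer ((A.map (MulAut.conj x⁻¹).toMonoidHom : Subgroup G) : Set G) :=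
        (Subgroup.mem_inf.mp hc').2
      have h3 := (Subgroup.mem_centralizer_iff.mp hc2) _ (conj_mem_map_conj' A x⁻¹ a ha)
      calc a * (x * c' * x⁻¹) = x * ((x⁻¹ * a * x⁻¹⁻¹) * c') * x⁻¹ := by group
        _ = x * (c' * (x⁻¹ * a * x⁻¹⁻¹)) * x⁻¹ := by rw [h3]
        _ = x * c' * x⁻¹ * a := by group
    · have h4 : n = x * (x⁻¹ * n * x) * x⁻¹ := by group
      rw [h4, hnhc]; group
  -- finite family of conjugates
  set 𝒮 : Finset (Subgroup G) :=
    (Set.toFinite {U : Subgroup G | ∃ x ∈ NQ, U = V.map (MulAut.conj x).toMonoidHom}).toFinset with h𝒮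
  have hmem𝒮 : ∀ U : Subgroup G, U ∈ 𝒮 ↔ ∃ x ∈ NQ, U = V.map (MulAut.conj x).toMonoidHom := by
    intro U
    rw [h𝒮, Set.Finite.mem_toFinset]
    rfl
  have hall := ctrl_finset N Q 𝒮 (by
    intro U hU
    obtain ⟨x, hx, rfl⟩ := (hmem𝒮 U).mp hU
    exact ⟨hVQ x hx, hctrlx x hx⟩)
  have hVW : ∀ x ∈ NQ, V.map (MulAut.conj x).toMonoidHom ≤ W := by
    intro x hx y hy
    apply Subgroup.subset_closure
    rw [Set.mem_iUnion₂]
    exact ⟨x, hx, hy⟩
  have hWQ : W ≤ Q := by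
    rw [hW, Subgroup.closure_le]
    intro y hy
    rw [Set.mem_iUnion₂] at hy
    obtain ⟨x, hx, hyx⟩ := hy
    exact hVQ x hx hyx
  have hnormW : ∀ h : G, (∀ x ∈ NQ, h ∈ Subgroup.normalizer
      ((V.map (MulAut.conj x).toMonoidHom : Subgroup G) : Set G)) →
      h ∈ Subgroup.normalizer (W : Set G) := by
    intro h hh
    apply mem_normalizer_of_map_conj_le
    rw [hW, MonoidHom.map_closure, Subgroup.closure_le]
    rintro _ ⟨y, hy, rfl⟩
    rw [Set.mem_iUnion₂] at hy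
    obtain ⟨x, hx, hyx⟩ := hy
    apply Subgroup.subset_closure
    rw [Set.mem_iUnion₂]
    exact ⟨x, hx, (Subgroup.mem_normalizer_iff.mp (hh x hx) y).mp hyx⟩
  have hNQW : NQ ≤ Subgroup.normalizer (W : Set G) := by
    intro m hm
    apply mem_normalizer_of_map_conj_le
    rw [hW, MonoidHom.map_closure, Subgroup.closure_le]
    rintro _ ⟨y, hy, rfl⟩
    rw [Set.mem_iUnion₂] at hy
    obtain ⟨x, hx, hyx⟩ := hy
    apply Subgroup.subset_closure
    rw [Set.mem_iUnion₂]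
    refine ⟨m * x, mul_mem hm hx, ?_⟩
    rw [← map_conj_map_conj]
    exact conj_mem_map_conj' _ m y hyx
  have hPNQ : (P : Subgroup G) ≤ NQ := by
    intro g hg
    apply mem_normalizer_of_map_conj_le
    rintro _ ⟨q, hq, rfl⟩
    refine Subgroup.mem_inf.mpr ⟨?_, ?_⟩
    · exact mul_mem (mul_mem hg (hQP hq)) (inv_mem hg)
    · exact Subgroup.Normal.conj_mem inferInstance q (hQN hq) g
  have hctrlW : ∀ A : Subgroup G, A ≤ Q → ∀ n ∈ N, A.map (MulAut.conj n).toMonoidHom ≤ Q →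
      ∃ h ∈ Subgroup.normalizer (W : Set G), ∃ c ∈ Subgroup.centralizer (A : Set G), n = h * c := by
    intro A hA n hn hAn
    obtain ⟨h, -, hh, c, hc, hnhc⟩ := hall A hA n hn hAn
    refine ⟨h, hnormW h (fun x hx => hh _ ((hmem𝒮 _).mpr ⟨x, hx, rfl⟩)), c, (Subgroup.mem_inf.mp hc).2, hnhc⟩
  -- the lower central series of W
  have hWp : IsPGroup p ↥W := hQp.to_le hWQ
  have hnil : Group.IsNilpotent ↥W := hWp.isNilpotent
  obtain ⟨k, hk⟩ := (Subgroup.isNilpotent_iff_lowerCentralSeries W).mp hnil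
  have hWs_le : ∀ i, W.lowerCentralSeries i ≤ W := fun i =>
    Subgroup.lowerCentralSeries_antitone W (Nat.zero_le i)
  have hWs_inv : ∀ h ∈ Subgroup.normalizer (W : Set G), ∀ i, ∀ w ∈ W.lowerCentralSeries i,
      h * w * h⁻¹ ∈ W.lowerCentralSeries i := by
    intro h hh i w hw
    have h1 : (W.lowerCentralSeries i).map (MulAut.conj h).toMonoidHom = W.lowerCentralSeries i := by
      rw [Subgroup.map_lowerCentralSeries, map_conj_eq_of_mem_normalizer W h hh]
    rw [← h1]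
    exact conj_mem_map_conj' _ h w hw
  refine normalizer_controls_of_series P W (fun i => W.lowerCentralSeries i) k rfl (hWQ.trans hQP) hk
    (hPNQ.trans hNQW) ?_ ?_
  · intro i w hw a ha
    show w * a * w⁻¹ * a⁻¹ ∈ W.lowerCentralSeries (i + 1)
    rw [Subgroup.lowerCentralSeries_succ, Subgroup.commutator_comm]
    exact Subgroup.commutator_mem_commutator hw ha
  · intro i w hw g hg
    show g * w * g⁻¹ ∈ W.lowerCentralSeries i
    have hwW : w ∈ W := hWs_le i hw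
    have hwQ : w ∈ Q := hWQ hwW
    obtain ⟨m, hm, n, hn, rfl⟩ := hFrat g
    have hgQ : m * n * w * (m * n)⁻¹ ∈ Q :=
      Subgroup.mem_inf.mpr ⟨hg, Subgroup.Normal.conj_mem inferInstance w (hQN hwQ) (m * n)⟩
    have hnQ : n * w * n⁻¹ ∈ Q := by
      have h1 := (Subgroup.mem_normalizer_iff.mp (inv_mem hm) _).mp hgQ
      have h2 : m⁻¹ * (m * n * w * (m * n)⁻¹) * m⁻¹⁻¹ = n * w * n⁻¹ := by group
      rwa [h2] at h1
    have hA : Subgroup.zpowers w ≤ Q := (Subgroup.zpowers_le).mpr hwQ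
    have hAn : (Subgroup.zpowers w).map (MulAut.conj n).toMonoidHom ≤ Q := by
      rw [MonoidHom.map_zpowers, Subgroup.zpowers_le]
      exact hnQ
    obtain ⟨h, hh, c, hc, rfl⟩ := hctrlW _ hA n hn hAn
    have hcw : w * c = c * w := (Subgroup.mem_centralizer_iff.mp hc) w (Subgroup.mem_zpowers w)
    have h3 : m * (h * c) * w * (m * (h * c))⁻¹ = m * (h * w * h⁻¹) * m⁻¹ := by
      calc m * (h * c) * w * (m * (h * c))⁻¹ = m * h * (c * w) * c⁻¹ * h⁻¹ * m⁻¹ := by group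
        _ = m * h * (w * c) * c⁻¹ * h⁻¹ * m⁻¹ := by rw [hcw]
        _ = m * (h * w * h⁻¹) * m⁻¹ := by group
    rw [h3]
    exact hWs_inv m (hNQW hm) i _ (hWs_inv h hh i w hw)

end Cfsg.Agent.S1954
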