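import Cfsg.Statements.S2001
import Mathlib
import Cfsg.Agent.Lib.Helper3.WV
import Cfsg.Agent.Lib.Helper3.Frat

set_option autoImplicit false
open Cfsg

namespace Cfsg.Agent.S2001

open Cfsg.Agent.Lib.Helper3
open scoped commutatorElement

/-- Let p be a prime dividing the order of the finite group G, P a Sylow p-subgroup, W a conjugacy functor for p on G with Z(H) ≤ W(H) for every nontrivial p-subgroup H, and V a central functor: a conjugacy functor with V(H) ≤ Z(H), and V(H) ≤ V(K) whenever Z(H) ≤ Z(K), for nontrivial p-subgroups H, K. Say that W with V controls transfer in a subgroup L when some Sylow p-subgroup Q of L satisfies Q ∩ L' = (Q ∩ (N_L(W(Q)))')·(Q ∩ (C_L(V(Q)))') as a product of two subgroups. If W with V controls transfer in N_G(H) for every subgroup H with Z(P) ≤ H ≤ P, then W with V controls transfer in G. -/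
theorem result {G : Type*} [Group G] [Finite G] {p : ℕ} [Fact p.Prime] (hdiv : p ∣ Nat.card G) (P : Sylow p G) (W V : Subgroup G → Subgroup G) (hW : Cfsg.IsConjugacyFunctor p W) (hV : Cfsg.IsConjugacyFunctor p V) (hWZ : ∀ H : Subgroup G, IsPGroup p ↥H → H ⊓ Subgroup.centralizer ((H : Subgroup G) : Set G) ≤ W H) (hVZ : ∀ H : Subgroup G, IsPGroup p ↥H → V H ≤ H ⊓ Subgroup.centralizer ((H : Subgroup G) : Set G)) (hVmono : ∀ H K : Subgroup G, IsPGroup p ↥H → IsPGroup p ↥K → H ≠ ⊥ → K ≠ ⊥ → H ⊓ Subgroup.centralizer ((H : Subgroup G) : Set G) ≤ K ⊓ Subgroup.centralizer ((K : Subgroup G) : Set G) → V H ≤ V K) (hloc : ∀ H : Subgroup G, (P : Subgroup G) ⊓ Subgroup.centralizer (((P : Subgroup G) : Subgroup G) : Set G) ≤ H → H ≤ (P : Subgroup G) → ∃ Q : Subgroup G, Q ≤ Subgroup.normalizer ((H : Subgroup G) : Set G) ∧ IsPGroup p ↥Q ∧ ¬ p ∣ (Q).relIndex (Subgroup.normalizer ((H : Subgroup G) : Set G)) ∧ ∀ x : G, x ∈ Q ⊓ ⁅Subgroup.normalizer ((H : Subgroup G) : Set G), Subgroup.normalizer ((H : Subgroup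 G) : Set G)⁆ ↔ ∃ a ∈ Q ⊓ ⁅Subgroup.normalizer ((H : Subgroup G) : Set G) ⊓ Subgroup.normalizer ((W Q : Subgroup G) : Set G), Subgroup.normalizer ((H : Subgroup G) : Set G) ⊓ Subgroup.normalizer ((W Q : Subgroup G) : Set G)⁆, ∃ b ∈ Q ⊓ ⁅Subgroup.normalizer ((H : Subgroup G) : Set G) ⊓ Subgroup.centralizer ((V Q : Subgroup G) : Set G), Subgroup.normalizer ((H : Subgroup G) : Set G) ⊓ Subgroup.centralizer ((V Q : Subgroup G) : Set G)⁆, x = a * b) : ∃ Q : Subgroup G, IsPGroup p ↥Q ∧ ¬ p ∣ Q.index ∧ ∀ x : G, x ∈ Q ⊓ commutator G ↔ ∃ a ∈ Q ⊓ ⁅Subgroup.normalizer ((W Q : Subgroup G) : Set G), Subgroup.normalizer ((W Q : Subgroup G) : Set G)⁆, ∃ b ∈ Q ⊓ ⁅Subgroup.centralizer ((V Q : Subgroup G) : Set G), Subgroup.centralizer ((V Q : Subgroup G) : Set G)⁆, x = a * b := by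
  classical
  have hPp : IsPGroup p ↥(P : Subgroup G) := P.isPGroup'
  have hPne : (P : Subgroup G) ≠ ⊥ := P.ne_bot_of_dvd_card hdiv
  obtain ⟨A, hA⟩ : ∃ A : Subgroup G, A = (P : Subgroup G) ⊓
      ⁅Subgroup.normalizer ((W (P : Subgroup G) : Subgroup G) : Set G),
        Subgroup.normalizer ((W (P : Subgroup G) : Subgroup G) : Set G)⁆ := ⟨_, rfl⟩
  obtain ⟨B, hB⟩ : ∃ B : Subgroup G, B = (P : Subgroup G) ⊓
      ⁅Subgroup.centralizer ((V (P : Subgroup G) : Subgroup G) : Set G),
        Subgroup.centralizer ((V (P : Subgroup G) : Subgroup G) : Set G)⁆ := ⟨_, rfl⟩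
  have hPCV : (P : Subgroup G) ≤ Subgroup.centralizer ((V (P : Subgroup G) : Subgroup G) : Set G) := by
    intro u hu
    rw [Subgroup.mem_centralizer_iff]
    intro v hv
    have := (hVZ (P : Subgroup G) hPp hv).2
    exact ((Subgroup.mem_centralizer_iff.mp this) u hu).symm
  have hmain : (P : Subgroup G) ⊓ ⁅(⊤ : Subgroup G), ⊤⁆ ≤ A ⊔ B := by
    apply wv_focal P W (A ⊔ B) hW hWZ
    · rw [hA]; exact le_sup_left
    · intro T hTP hZT hfn
      obtain ⟨Q, hQN, hQp, hQidx, hQ⟩ := hloc T hZT hTP
      obtain ⟨R, hR⟩ : ∃ R : Subgroup G, R = (P : Subgroup G) ⊓ Subgroup.normalizer (T : Set G) := ⟨_, rfl⟩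
      rw [← hR]
      have hRP : R ≤ (P : Subgroup G) := by rw [hR]; exact inf_le_left
      have hTR : T ≤ R := by rw [hR]; exact le_inf hTP Subgroup.le_normalizer
      have hRN : R ≤ Subgroup.normalizer (T : Set G) := by rw [hR]; exact inf_le_right
      have hRp : IsPGroup p ↥R := hPp.to_le hRP
      have hRidx : ¬ p ∣ R.relIndex (Subgroup.normalizer (T : Set G)) := by rw [hR]; exact hfn
      have hRne : R ≠ ⊥ := by
        intro hRbot
        have hTbot : T = ⊥ := by
          apply le_antisymm _ bot_le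
          rw [← hRbot]; exact hTR
        apply hPne
        rw [hTbot, Subgroup.normalizer_eq_top, inf_top_eq] at hR
        rw [← hR]; exact hRbot
      have hZPR : (P : Subgroup G) ⊓ Subgroup.centralizer ((P : Subgroup G) : Set G) ≤
          R ⊓ Subgroup.centralizer ((R : Subgroup G) : Set G) :=
        le_inf (hZT.trans hTR) (inf_le_right.trans (Subgroup.centralizer_le hRP))
      have hVPR : V (P : Subgroup G) ≤ V R := hVmono _ _ hPp hRp hPne hRne hZPR
      obtain ⟨l, hlN, hl⟩ := exists_map_conj_eq_of_relIndex (Subgroup.normalizer (T : Set G)) Q R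
        hQN hQp hQidx hRN hRp hRidx
      intro x hx
      have hy : l⁻¹ * x * l ∈ Q ⊓ ⁅Subgroup.normalizer (T : Set G), Subgroup.normalizer (T : Set G)⁆ := by
        refine Subgroup.mem_inf.mpr ⟨?_, ?_⟩
        · rw [← mem_map_conj_iff, hl]; exact hx.1
        · have := conj_mem_map_conj' ⁅Subgroup.normalizer (T : Set G), Subgroup.normalizer (T : Set G)⁆
            l⁻¹ x hx.2
          rw [Subgroup.map_commutator, map_conj_eq_of_mem_normalizer (Subgroup.normalizer (T : Set G))
            l⁻¹ (Subgroup.le_normalizer (inv_mem hlN)), inv_inv] at this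
          exact this
      obtain ⟨a, ha, b, hb, hab⟩ := (hQ _).mp hy
      have hxab : x = (l * a * l⁻¹) * (l * b * l⁻¹) := by
        have : x = l * (l⁻¹ * x * l) * l⁻¹ := by group
        rw [this, hab]; group
      rw [hxab]
      have hWR : W R = (W Q).map (MulAut.conj l).toMonoidHom := by rw [← hl]; exact (hW Q hQp).2.2 l
      have hVR : V R = (V Q).map (MulAut.conj l).toMonoidHom := by rw [← hl]; exact (hV Q hQp).2.2 l
      have ha' : l * a * l⁻¹ ∈ R ⊓ ⁅Subgroup.normalizer ((W R : Subgroup G) : Set G),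
          Subgroup.normalizer ((W R : Subgroup G) : Set G)⁆ := by
        refine Subgroup.mem_inf.mpr ⟨?_, ?_⟩
        · rw [← hl]; exact conj_mem_map_conj' Q l a ha.1
        · have h5 : a ∈ ⁅Subgroup.normalizer ((W Q : Subgroup G) : Set G),
              Subgroup.normalizer ((W Q : Subgroup G) : Set G)⁆ :=
            Subgroup.commutator_mono inf_le_right inf_le_right ha.2
          have := conj_mem_map_conj' _ l a h5
          rw [Subgroup.map_commutator, ← normalizer_map_conj, ← hWR] at this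
          exact this
      have hb' : l * b * l⁻¹ ∈ B := by
        rw [hB]
        refine Subgroup.mem_inf.mpr ⟨?_, ?_⟩
        · have : l * b * l⁻¹ ∈ R := by rw [← hl]; exact conj_mem_map_conj' Q l b hb.1
          exact hRP this
        · have h5 : b ∈ ⁅Subgroup.centralizer ((V Q : Subgroup G) : Set G),
              Subgroup.centralizer ((V Q : Subgroup G) : Set G)⁆ :=
            Subgroup.commutator_mono inf_le_right inf_le_right hb.2
          have h6 := conj_mem_map_conj' _ l b h5
          rw [Subgroup.map_commutator] at h6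
          have h7 : (Subgroup.centralizer ((V Q : Subgroup G) : Set G)).map (MulAut.conj l).toMonoidHom ≤
              Subgroup.centralizer ((V (P : Subgroup G) : Subgroup G) : Set G) := by
            rintro _ ⟨c, hc, rfl⟩
            rw [Subgroup.mem_centralizer_iff]
            intro v hv
            have hv' : v ∈ V R := hVPR hv
            rw [hVR, mem_map_conj_iff] at hv'
            have := (Subgroup.mem_centralizer_iff.mp hc) _ hv'
            show v * (l * c * l⁻¹) = (l * c * l⁻¹) * v
            calc v * (l * c * l⁻¹) = l * ((l⁻¹ * v * l) * c) * l⁻¹ := by group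
              _ = l * (c * (l⁻¹ * v * l)) * l⁻¹ := by rw [this]
              _ = (l * c * l⁻¹) * v := by group
          exact Subgroup.commutator_mono h7 h7 h6
      exact mul_mem (Subgroup.mem_sup_left ha') (Subgroup.mem_sup_right (Subgroup.mem_sup_right hb'))
  refine ⟨P, hPp, P.not_dvd_index, fun x => ⟨fun hx => ?_, ?_⟩⟩
  · have hx' : x ∈ A ⊔ B := hmain (by rw [← commutator_def]; exact hx)
    have hAB : A ≤ Subgroup.normalizer (B : Set G) := by
      intro u hu
      have huP : u ∈ (P : Subgroup G) := by rw [hA] at hu; exact hu.1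
      apply mem_normalizer_of_map_conj_le
      rintro _ ⟨b, hb, rfl⟩
      rw [hB] at hb ⊢
      refine Subgroup.mem_inf.mpr ⟨mul_mem (mul_mem huP hb.1) (inv_mem huP), ?_⟩
      have := conj_mem_map_conj' _ u b hb.2
      rw [Subgroup.map_commutator, map_conj_eq_of_mem_normalizer _ u
        (Subgroup.le_normalizer (hPCV huP))] at this
      exact this
    obtain ⟨a, ha, b, hb, hxab⟩ := exists_mul_of_mem_sup_of_le_normalizer A B hAB hx'
    exact ⟨a, by rw [← hA]; exact ha, b, by rw [← hB]; exact hb, hxab⟩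
  · rintro ⟨a, ha, b, hb, rfl⟩
    refine Subgroup.mem_inf.mpr ⟨mul_mem ha.1 hb.1, ?_⟩
    rw [commutator_def]
    exact mul_mem (Subgroup.commutator_mono le_top le_top ha.2)
      (Subgroup.commutator_mono le_top le_top hb.2)

end Cfsg.Agent.S2001
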