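import Cfsg.Statements.S2002
import Mathlib
import Cfsg.Agent.Lib.Helper3.WVFusion

set_option autoImplicit false
open Cfsg

namespace Cfsg.Agent.S2002

open Cfsg.Agent.Lib.Helper3

/-- Let p be a prime dividing the order of the finite group G, P a Sylow p-subgroup, W a conjugacy functor for p on G with Z(H) ≤ W(H) for every nontrivial p-subgroup H, and V a central functor (a conjugacy functor with V(H) ≤ Z(H), and V(H) ≤ V(K) whenever Z(H) ≤ Z(K)). Say that W with V controls strong fusion in a subgroup L when some Sylow p-subgroup Q of L has the property: whenever X ⊆ Q and a ∈ L with a⁻¹Xa ⊆ Q, then a = c b with c ∈ C_L(X) and b = b₁ ⋯ bₙ a product of elements each in N_L(W(Q)) or in C_L(V(Q)) such that every partial conjugate (b₁ ⋯ bₖ)⁻¹ X (b₁ ⋯ bₖ) lies in Q. If W with V controls strong fusion in N_G(H) for every subgroup H with Z(P) ≤ H ≤ P, then W with V controls strong fusion in G. -/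
theorem result {G : Type*} [Group G] [Finite G] {p : ℕ} [Fact p.Prime] (hdiv : p ∣ Nat.card G) (P : Sylow p G) (W V : Subgroup G → Subgroup G) (hW : Cfsg.IsConjugacyFunctor p W) (hV : Cfsg.IsConjugacyFunctor p V) (hWZ : ∀ H : Subgroup G, IsPGroup p ↥H → H ⊓ Subgroup.centralizer ((H : Subgroup G) : Set G) ≤ W H) (hVZ : ∀ H : Subgroup G, IsPGroup p ↥H → V H ≤ H ⊓ Subgroup.centralizer ((H : Subgroup G) : Set G)) (hVmono : ∀ H K : Subgroup G, IsPGroup p ↥H → IsPGroup p ↥K → H ≠ ⊥ → K ≠ ⊥ → H ⊓ Subgroup.centralizer ((H : Subgroup G) : Set G) ≤ K ⊓ Subgroup.centralizer ((K : Subgroup G) : Set G) → V H ≤ V K) (hloc : ∀ H : Subgroup G, (P : Subgroup G) ⊓ Subgroup.centralizer (((P : Subgroup G) : Subgroup G) : Set G) ≤ H → H ≤ (P : Subgroup G) → ∃ Q : Subgroup G, Q ≤ Subgroup.normalizer ((H : Subgroup G) : Set G) ∧ IsPGroup p ↥Q ∧ ¬ p ∣ (Q).relIndex (Subgroup.normalizer ((H : Subgroup G) : Set G)) ∧ ∀ (X : Set G) (a : G), X ⊆ Q → a ∈ Subgroup.normalizer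 ((H : Subgroup G) : Set G) → (fun x => a⁻¹ * x * a) '' X ⊆ Q → ∃ c ∈ Subgroup.normalizer ((H : Subgroup G) : Set G) ⊓ Subgroup.centralizer X, ∃ (n : ℕ) (b : Fin n → G), (∀ i, b i ∈ Subgroup.normalizer ((H : Subgroup G) : Set G) ⊓ Subgroup.normalizer ((W Q : Subgroup G) : Set G) ∨ b i ∈ Subgroup.normalizer ((H : Subgroup G) : Set G) ⊓ Subgroup.centralizer ((V Q : Subgroup G) : Set G)) ∧ a = c * (List.ofFn b).prod ∧ ∀ k : ℕ, k ≤ n → (fun x => (((List.ofFn b).take k).prod)⁻¹ * x * ((List.ofFn b).take k).prod) '' ((fun x => c⁻¹ * x * c) '' X) ⊆ Q) : ∃ Q : Subgroup G, IsPGroup p ↥Q ∧ ¬ p ∣ Q.index ∧ ∀ (X : Set G) (a : G), X ⊆ Q → (fun x => a⁻¹ * x * a) '' X ⊆ Q → ∃ c ∈ Subgroup.centralizer X, ∃ (n : ℕ) (b : Fin n → G), (∀ i, b i ∈ ⊤ ⊓ Subgroup.normalizer ((W Q : Subgroup G) : Set G) ∨ b i ∈ ⊤ ⊓ Subgroup.centralizer ((V Q : Subgroup G) : Set G)) ∧ a = c * (List.ofFn b).prod ∧ ∀ k : ℕ, k ≤ n → (fun x => (((List.ofFn b).take k).prod)⁻¹ * x * ((List.ofFn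 b).take k).prod) '' ((fun x => c⁻¹ * x * c) '' X) ⊆ Q := by
  classical
  have hPp : IsPGroup p ↥(P : Subgroup G) := P.isPGroup'
  have hPne : (P : Subgroup G) ≠ ⊥ := P.ne_bot_of_dvd_card hdiv
  have hZne := sylow_center_ne_bot P hPne
  obtain ⟨E, hEdef⟩ : ∃ E : Subgroup G → Set G, E = fun R =>
      ((Subgroup.centralizer ((V R : Subgroup G) : Set G) : Subgroup G) : Set G) := ⟨_, rfl⟩
  have hEmem : ∀ (R : Subgroup G) (x : G), x ∈ E R ↔
      x ∈ Subgroup.centralizer ((V R : Subgroup G) : Set G) := by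
    intro R x; rw [hEdef]; rfl
  have hEinv : ∀ x ∈ E (P : Subgroup G), x⁻¹ ∈ E (P : Subgroup G) := by
    intro x hx
    rw [hEmem] at hx ⊢
    exact inv_mem hx
  have hE : ∀ R : Subgroup G, R ≤ (P : Subgroup G) →
      (P : Subgroup G) ⊓ Subgroup.centralizer ((P : Subgroup G) : Set G) ≤ R →
      E R ⊆ E (P : Subgroup G) := by
    intro R hRP hZR x hx
    rw [hEmem] at hx ⊢
    have hRne : R ≠ ⊥ := by
      intro h; apply hZne; rw [h] at hZR; exact le_bot_iff.mp hZR
    have hVPR : V (P : Subgroup G) ≤ V R := hVmono _ _ hPp (hPp.to_le hRP) hPne hRne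
      (le_inf hZR (inf_le_right.trans (Subgroup.centralizer_le hRP)))
    exact Subgroup.centralizer_le hVPR hx
  have hlc : ∀ T : Subgroup G, T ≤ (P : Subgroup G) →
      (P : Subgroup G) ⊓ Subgroup.centralizer ((P : Subgroup G) : Set G) ≤ T →
      ¬ p ∣ ((P : Subgroup G) ⊓ Subgroup.normalizer (T : Set G)).relIndex
        (Subgroup.normalizer (T : Set G)) →
      ∀ x ∈ Subgroup.normalizer (T : Set G), ∀ B : Set G,
        B ⊆ (((P : Subgroup G) ⊓ Subgroup.normalizer (T : Set G) : Subgroup G) : Set G) →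
        rcj x B ⊆ (((P : Subgroup G) ⊓ Subgroup.normalizer (T : Set G) : Subgroup G) : Set G) →
        Good (wvStep W E ((P : Subgroup G) ⊓ Subgroup.normalizer (T : Set G)))
          (((P : Subgroup G) ⊓ Subgroup.normalizer (T : Set G) : Subgroup G) : Set G) B x := by
    intro T hTP hZT hfn x hx B hB hBx
    obtain ⟨Q, hQN, hQp, hQidx, hQ⟩ := hloc T hZT hTP
    obtain ⟨R, hR⟩ : ∃ R : Subgroup G, R = (P : Subgroup G) ⊓ Subgroup.normalizer (T : Set G) := ⟨_, rfl⟩
    rw [← hR] at hB hBx ⊢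
    have hRP : R ≤ (P : Subgroup G) := by rw [hR]; exact inf_le_left
    have hRN : R ≤ Subgroup.normalizer (T : Set G) := by rw [hR]; exact inf_le_right
    have hRp : IsPGroup p ↥R := hPp.to_le hRP
    have hRidx : ¬ p ∣ R.relIndex (Subgroup.normalizer (T : Set G)) := by rw [hR]; exact hfn
    obtain ⟨l, hlN, hl⟩ := exists_map_conj_eq_of_relIndex (Subgroup.normalizer (T : Set G)) Q R
      hQN hQp hQidx hRN hRp hRidx
    have hRl : rcj l (R : Set G) = (Q : Set G) := by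
      rw [rcj_subgroup, ← hl, map_conj_map_conj, inv_mul_cancel, map_conj_one_eq]
    have hX : rcj l B ⊆ (Q : Set G) := by rw [← hRl]; exact rcj_mono hB l
    have haN : l⁻¹ * x * l ∈ Subgroup.normalizer (T : Set G) :=
      mul_mem (mul_mem (inv_mem hlN) hx) hlN
    have hXa : rcj (l⁻¹ * x * l) (rcj l B) ⊆ (Q : Set G) := by
      rw [← rcj_mul]
      have : l * (l⁻¹ * x * l) = x * l := by group
      rw [this, rcj_mul, ← hRl]
      exact rcj_mono hBx l
    obtain ⟨c, hc, n, b, hb, hacb, hsteps⟩ := hQ (rcj l B) (l⁻¹ * x * l) hX haN hXa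
    have hcC : c ∈ Subgroup.centralizer (rcj l B) := (Subgroup.mem_inf.mp hc).2
    have hcX : rcj c (rcj l B) = rcj l B := rcj_eq_self_of_mem_centralizer _ c hcC
    have hGQ : Good (wvStep W E Q) (Q : Set G) (rcj l B) (l⁻¹ * x * l) := by
      refine ⟨(List.ofFn b).prod, RChain.of_list (List.ofFn b) _ ?_ ?_, ?_⟩
      · intro y hy
        rw [List.mem_ofFn] at hy
        obtain ⟨i, rfl⟩ := hy
        rcases hb i with h | h
        · exact Or.inl (Subgroup.mem_inf.mp h).2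
        · exact Or.inr ((hEmem _ _).mpr (Subgroup.mem_inf.mp h).2)
      · intro k hk
        rw [List.length_ofFn] at hk
        have h' : rcj ((List.ofFn b).take k).prod (rcj c (rcj l B)) ⊆ (Q : Set G) := hsteps k hk
        rwa [hcX] at h'
      · intro a ha
        have hca : c⁻¹ * a * c = a := by
          have := (Subgroup.mem_centralizer_iff.mp hcC) a ha
          rw [mul_assoc, this]; group
        rw [hacb]
        calc (List.ofFn b).prod⁻¹ * a * (List.ofFn b).prod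
            = (List.ofFn b).prod⁻¹ * (c⁻¹ * a * c) * (List.ofFn b).prod := by rw [hca]
          _ = (c * (List.ofFn b).prod)⁻¹ * a * (c * (List.ofFn b).prod) := by group
    have hG := hGQ.conj l⁻¹
    rw [rcj_inv_rcj, inv_inv] at hG
    have hQl : rcj l⁻¹ (Q : Set G) = (R : Set G) := by rw [rcj_subgroup, inv_inv, hl]
    have hxl : l * (l⁻¹ * x * l) * l⁻¹ = x := by group
    rw [hQl, hxl] at hG
    refine hG.mono_left ?_
    rintro _ ⟨y, hy, rfl⟩
    have hWR : W R = (W Q).map (MulAut.conj l).toMonoidHom := by rw [← hl]; exact (hW Q hQp).2.2 l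
    have hVR : V R = (V Q).map (MulAut.conj l).toMonoidHom := by rw [← hl]; exact (hV Q hQp).2.2 l
    rcases hy with hy | hy
    · left
      show l⁻¹⁻¹ * y * l⁻¹ ∈ Subgroup.normalizer ((W R : Subgroup G) : Set G)
      rw [inv_inv, hWR]
      exact conj_mem_normalizer_map_conj (W Q) l y hy
    · right
      rw [hEmem] at hy ⊢
      show l⁻¹⁻¹ * y * l⁻¹ ∈ Subgroup.centralizer ((V R : Subgroup G) : Set G)
      rw [inv_inv, hVR, Subgroup.mem_centralizer_iff]
      intro v hv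
      rw [SetLike.mem_coe, mem_map_conj_iff] at hv
      have := (Subgroup.mem_centralizer_iff.mp hy) _ hv
      calc v * (l * y * l⁻¹) = l * ((l⁻¹ * v * l) * y) * l⁻¹ := by group
        _ = l * (y * (l⁻¹ * v * l)) * l⁻¹ := by rw [this]
        _ = (l * y * l⁻¹) * v := by group
  have hmain := wvf_main P W E hW hWZ hEinv hE hlc
  refine ⟨P, hPp, P.not_dvd_index, ?_⟩
  intro X a hX hXa
  obtain ⟨g', hg', hag⟩ := hmain X a hX hXa
  obtain ⟨L, hL, hprod, hstep⟩ := hg'.exists_list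
  have hcC : a * g'⁻¹ ∈ Subgroup.centralizer X := by
    rw [Subgroup.mem_centralizer_iff]
    intro x hx
    have := hag x hx
    calc x * (a * g'⁻¹) = a * (a⁻¹ * x * a) * g'⁻¹ := by group
      _ = a * (g'⁻¹ * x * g') * g'⁻¹ := by rw [this]
      _ = a * g'⁻¹ * x := by group
  refine ⟨a * g'⁻¹, hcC, L.length, L.get, ?_, ?_, ?_⟩
  · intro i
    rcases hL _ (List.get_mem L i) with h | h
    · exact Or.inl (Subgroup.mem_inf.mpr ⟨Subgroup.mem_top _, h⟩)
    · exact Or.inr (Subgroup.mem_inf.mpr ⟨Subgroup.mem_top _, (hEmem _ _).mp h⟩)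
  · rw [List.ofFn_get, hprod]; group
  · intro k hk
    rw [List.ofFn_get]
    have h1 : rcj (a * g'⁻¹) X = X := rcj_eq_self_of_mem_centralizer X _ hcC
    show rcj (L.take k).prod (rcj (a * g'⁻¹) X) ⊆ ((P : Subgroup G) : Set G)
    rw [h1]
    exact hstep k hk

end Cfsg.Agent.S2002
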