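import Cfsg.Statements.S2015
import Mathlib
import Cfsg.Agent.Lib.Helper3.KInfLocal

set_option autoImplicit false
universe u
open Cfsg

namespace Cfsg.Agent.S2015

open Cfsg.Agent.Lib.Helper3

/-- For p ≥ 5, every finite p-group P has a characteristic subgroup K containing Z(P), depending only on P, whose normalizer controls transfer wherever P is a Sylow subgroup: for every finite group G and every embedding ι of P onto a Sylow p-subgroup of G, the intersection of ι(P) with the derived subgroup of G equals its intersection with the derived subgroup of N_G(ι(K)). -/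
theorem result (p : ℕ) [Fact p.Prime] (hp : 5 ≤ p) (P : Type u) [Group P] [Finite P] (hP : IsPGroup p P) : ∃ K : Subgroup P, K.Characteristic ∧ Subgroup.center P ≤ K ∧ ∀ (G : Type u) [Group G] [Finite G] (ι : P →* G), Function.Injective ι → (∃ T : Sylow p G, (T : Subgroup G) = ι.range) → ι.range ⊓ commutator G = ι.range ⊓ (commutator ↥(Subgroup.normalizer ((K.map ι : Subgroup G) : Set G))).map (Subgroup.normalizer ((K.map ι : Subgroup G) : Set G)).subtype := by
  refine ⟨kInfLower P, ?_, ?_, ?_⟩
  · rw [Subgroup.characteristic_iff_map_eq]
    intro φ
    exact map_kInfLower_equiv φ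
  · exact (abelian_normal_le_kSeqEven (Subgroup.center P) inferInstance 0).trans
      (le_iSup (fun n => kSeqEven P n) 0)
  · intro G _ _ ι hι hT
    obtain ⟨T, hT⟩ := hT
    have h1 := goodIn_top_of_kInf hp kInfLower (isCharPFunctor_kInfLower p)
      (fun _ _ _ _ h => Or.inl h) G
    have h2 := h1 ι.range le_top (hT ▸ T.isPGroup')
      (by rw [Subgroup.relIndex_top_right, ← hT]; exact T.not_dvd_index)
    have h3 : (kInfLower P).map ι = inducedFunctor kInfLower ι.range := by
      unfold inducedFunctor
      rw [← map_kInfLower_equiv (MonoidHom.ofInjective hι), Subgroup.map_map]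
      rfl
    rw [h3, Subgroup.map_subtype_commutator]
    apply le_antisymm
    · unfold focIn at h2
      simp only [iSup_singleton, top_inf_eq] at h2
      rw [commutator_def]
      exact le_inf inf_le_left (h2.trans inf_le_right)
    · apply inf_le_inf_left
      rw [commutator_def]
      exact Subgroup.commutator_mono le_top le_top

end Cfsg.Agent.S2015
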