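import Cfsg.Statements.S2162
import Mathlib
-- import your own Cfsg.Agent.* helpers here

set_option autoImplicit false
open Cfsg

namespace Cfsg.Agent.S2162


open Module

theorem lemJ {F V : Type*} [Field F] [AddCommGroup V] [Module F V] [FiniteDimensional F V]
    (N : V →ₗ[F] V) (hN : N ∘ₗ N = 0) (ℓ : ℕ) (hℓpos : 0 < ℓ)
    (hℓ : finrank F (LinearMap.range N) = ℓ) :
    ∃ ba : Basis (Fin ℓ ⊕ (Fin (finrank F V - 2*ℓ) ⊕ Fin ℓ)) F V,
      (∀ i, N (ba (Sum.inl i)) = ba (Sum.inr (Sum.inr i))) ∧ (∀ t, N (ba (Sum.inr t)) = 0) := by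
  classical
  have hWK : LinearMap.range N ≤ LinearMap.ker N := by
    rintro _ ⟨x, rfl⟩
    rw [LinearMap.mem_ker]
    have := congrArg (fun f => f x) hN
    simpa using this
  let bw : Basis (Fin ℓ) F (LinearMap.range N) := Module.finBasisOfFinrankEq F _ hℓ
  have hex : ∀ i, ∃ v, N v = (bw i : V) := fun i => (bw i).2
  choose v hv using hex
  let Wk : Submodule F (LinearMap.ker N) := (LinearMap.range N).comap (LinearMap.ker N).subtype
  obtain ⟨U, hU⟩ := Submodule.exists_isCompl Wk
  have hWk : finrank F Wk = ℓ := by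
    rw [← hℓ]
    exact (Submodule.comapSubtypeEquivOfLe hWK).finrank_eq
  have hrk := LinearMap.finrank_range_add_finrank_ker N
  have hmono : finrank F (LinearMap.range N) ≤ finrank F (LinearMap.ker N) := Submodule.finrank_mono hWK
  have hUdim : finrank F U = finrank F V - 2*ℓ := by
    have := Submodule.finrank_add_eq_of_isCompl hU
    omega
  let bu : Basis (Fin (finrank F V - 2*ℓ)) F U := Module.finBasisOfFinrankEq F U hUdim
  have hliw : LinearIndependent F (fun i => (bw i : V)) :=
    bw.linearIndependent.map' (LinearMap.range N).subtype (Submodule.ker_subtype _)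
  have hliu : LinearIndependent F (fun j => ((bu j : LinearMap.ker N) : V)) :=
    (bu.linearIndependent.map' U.subtype (Submodule.ker_subtype _)).map'
      (LinearMap.ker N).subtype (Submodule.ker_subtype _)
  have hliv : LinearIndependent F v := by
    apply LinearIndependent.of_comp N
    have : (⇑N ∘ v) = (fun i => (bw i : V)) := by
      funext i
      exact hv i
    rw [this]
    exact hliw
  have hinner : LinearIndependent F
      (Sum.elim (fun j => ((bu j : LinearMap.ker N) : V)) (fun i => (bw i : V))) := by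
    apply LinearIndependent.sum_type hliu hliw
    rw [Submodule.disjoint_def]
    intro x hx1 hx2
    have h1 : Submodule.span F (Set.range (fun j => ((bu j : LinearMap.ker N) : V))) ≤
        U.map (LinearMap.ker N).subtype := by
      rw [Submodule.span_le]
      rintro _ ⟨j, rfl⟩
      exact ⟨(bu j : LinearMap.ker N), (bu j).2, rfl⟩
    have h2 : Submodule.span F (Set.range (fun i => (bw i : V))) ≤ LinearMap.range N := by
      rw [Submodule.span_le]
      rintro _ ⟨i, rfl⟩
      exact (bw i).2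
    obtain ⟨k, hkU, rfl⟩ := h1 hx1
    have hkW : k ∈ Wk := h2 hx2
    have : k ∈ (Wk ⊓ U : Submodule F (LinearMap.ker N)) := ⟨hkW, hkU⟩
    rw [hU.inf_eq_bot, Submodule.mem_bot] at this
    rw [this]
    simp
  have hli : LinearIndependent F
      (Sum.elim v (Sum.elim (fun j => ((bu j : LinearMap.ker N) : V)) (fun i => (bw i : V)))) := by
    apply LinearIndependent.sum_type hliv hinner
    rw [Submodule.disjoint_def]
    intro x hx1 hx2
    have h2 : Submodule.span F (Set.range
        (Sum.elim (fun j => ((bu j : LinearMap.ker N) : V)) (fun i => (bw i : V)))) ≤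
        LinearMap.ker N := by
      rw [Submodule.span_le]
      rintro _ ⟨s, rfl⟩
      rcases s with j | i
      · exact (bu j : LinearMap.ker N).2
      · exact hWK (bw i).2
    have hxK : N x = 0 := h2 hx2
    rw [Submodule.mem_span_range_iff_exists_fun] at hx1
    obtain ⟨c, rfl⟩ := hx1
    rw [map_sum] at hxK
    simp only [map_smul, hv] at hxK
    have hc := (Fintype.linearIndependent_iff.mp hliw) c hxK
    simp [hc]
  haveI : Nonempty (Fin ℓ ⊕ (Fin (finrank F V - 2*ℓ) ⊕ Fin ℓ)) := ⟨Sum.inl ⟨0, hℓpos⟩⟩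
  have hcard : Fintype.card (Fin ℓ ⊕ (Fin (finrank F V - 2*ℓ) ⊕ Fin ℓ)) = finrank F V := by
    simp only [Fintype.card_sum, Fintype.card_fin]
    omega
  refine ⟨basisOfLinearIndependentOfCardEqFinrank hli hcard, ?_, ?_⟩
  · intro i
    rw [coe_basisOfLinearIndependentOfCardEqFinrank]
    simp only [Sum.elim_inl, Sum.elim_inr]
    exact hv i
  · intro t
    rw [coe_basisOfLinearIndependentOfCardEqFinrank]
    rcases t with j | i
    · simp only [Sum.elim_inl, Sum.elim_inr]
      exact (bu j : LinearMap.ker N).2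
    · simp only [Sum.elim_inr]
      exact hWK (bw i).2

theorem lemC {F V : Type*} [Field F] [Fintype F] [CharP F 2] [AddCommGroup V] [Module F V]
    {ℓ m : ℕ} (hℓ : 0 < ℓ)
    (Na Nb : V →ₗ[F] V) (ba bb : Basis (Fin ℓ ⊕ (Fin m ⊕ Fin ℓ)) F V)
    (ha1 : ∀ i, Na (ba (Sum.inl i)) = ba (Sum.inr (Sum.inr i)))
    (ha2 : ∀ t, Na (ba (Sum.inr t)) = 0)
    (hb1 : ∀ i, Nb (bb (Sum.inl i)) = bb (Sum.inr (Sum.inr i)))
    (hb2 : ∀ t, Nb (bb (Sum.inr t)) = 0) :
    ∃ g : V →ₗ[F] V, LinearMap.det g = 1 ∧ g ∘ₗ Na = Nb ∘ₗ g := by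
  classical
  let i₀ : Fin ℓ := ⟨0, hℓ⟩
  have hd : IsUnit (ba.det bb) := ba.isUnit_det bb
  obtain ⟨lam, hlam⟩ := FiniteField.isSquare_of_char_two (ringChar.eq F 2) (ba.det bb)
  have hlam0 : lam ≠ 0 := by
    rintro rfl
    rw [mul_zero] at hlam
    exact hd.ne_zero hlam
  let μ : Fˣ := Units.mk0 lam hlam0
  let w : Fin ℓ ⊕ (Fin m ⊕ Fin ℓ) → Fˣ :=
    Sum.elim (fun i => if i = i₀ then μ else 1)
      (Sum.elim (fun _ => 1) (fun i => if i = i₀ then μ else 1))
  have hwprod : ∏ s, w s = μ * μ := by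
    rw [Fintype.prod_sum_type, Fintype.prod_sum_type]
    simp only [w, Sum.elim_inl, Sum.elim_inr]
    rw [Finset.prod_ite_eq' Finset.univ i₀ (fun _ => μ)]
    simp
  have hg1 : ∀ s, (ba.unitsSMul w).equiv bb (Equiv.refl _) ((ba.unitsSMul w) s) = bb s := by
    intro s
    rw [Basis.equiv_apply]
    rfl
  refine ⟨((ba.unitsSMul w).equiv bb (Equiv.refl _)).toLinearMap, ?_, ?_⟩
  · have h1 : (ba.unitsSMul w).det bb = 1 := by
      rw [Basis.det_unitsSMul, hwprod]
      simp only [AlternatingMap.smul_apply, smul_eq_mul]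
      rw [hlam]
      simp only [mul_inv_rev, Units.val_mul, Units.val_inv_eq_inv_val, μ, Units.val_mk0]
      field_simp
    have h2 : (bb : _ → V) =
        ⇑(((ba.unitsSMul w).equiv bb (Equiv.refl _)).toLinearMap) ∘ ⇑(ba.unitsSMul w) := by
      funext s
      simp only [Function.comp_apply, LinearEquiv.coe_coe]
      rw [hg1]
    rw [h2, Basis.det_comp, Basis.det_self, mul_one] at h1
    exact h1
  · apply (ba.unitsSMul w).ext
    intro s
    simp only [LinearMap.comp_apply, LinearEquiv.coe_coe]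
    rw [hg1]
    rcases s with i | t
    · rw [hb1, Basis.unitsSMul_apply, Units.smul_def, map_smul, ha1, ← Units.smul_def]
      have : w (Sum.inl i) • ba (Sum.inr (Sum.inr i)) = (ba.unitsSMul w) (Sum.inr (Sum.inr i)) := by
        rw [Basis.unitsSMul_apply]
        simp only [w, Sum.elim_inl, Sum.elim_inr]
      rw [this, hg1]
    · rw [hb2, Basis.unitsSMul_apply, Units.smul_def, map_smul, ha2, smul_zero, map_zero]

theorem sqzero {F : Type*} [Field F] [CharP F 2] {n : ℕ} (a : Matrix.SpecialLinearGroup (Fin n) F)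
    (ha : orderOf a = 2) :
    ((a : Matrix (Fin n) (Fin n) F) - 1) * ((a : Matrix (Fin n) (Fin n) F) - 1) = 0 := by
  have h1 : a ^ 2 = 1 := by rw [← ha]; exact pow_orderOf_eq_one a
  have h2 : (a : Matrix (Fin n) (Fin n) F) * (a : Matrix (Fin n) (Fin n) F) = 1 := by
    have := congrArg (fun x : Matrix.SpecialLinearGroup (Fin n) F => (x : Matrix (Fin n) (Fin n) F)) h1
    simpa [pow_two] using this
  have h3 : ((a : Matrix (Fin n) (Fin n) F) - 1) * ((a : Matrix (Fin n) (Fin n) F) - 1)
      = (a : Matrix (Fin n) (Fin n) F) * (a : Matrix (Fin n) (Fin n) F)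
        - (a : Matrix (Fin n) (Fin n) F) - (a : Matrix (Fin n) (Fin n) F) + 1 := by
    noncomm_ring
  rw [h3, h2]
  have h4 : (1 : Matrix (Fin n) (Fin n) F) - (a : Matrix (Fin n) (Fin n) F)
      - (a : Matrix (Fin n) (Fin n) F) + 1 = (2 : F) • (1 - (a : Matrix (Fin n) (Fin n) F)) := by
    rw [two_smul]; abel
  rw [h4, CharTwo.two_eq_zero, zero_smul]

theorem rkpos {F : Type*} [Field F] {n : ℕ} (a : Matrix.SpecialLinearGroup (Fin n) F)
    (ha : orderOf a = 2) : 0 < ((a : Matrix (Fin n) (Fin n) F) - 1).rank := by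
  rw [Nat.pos_iff_ne_zero]
  intro h0
  have h1 : finrank F (LinearMap.range ((a : Matrix (Fin n) (Fin n) F) - 1).mulVecLin) = 0 := h0
  rw [Submodule.finrank_eq_zero, LinearMap.range_eq_bot] at h1
  have h2 : (a : Matrix (Fin n) (Fin n) F) - 1 = 0 := by
    have : Matrix.toLin' ((a : Matrix (Fin n) (Fin n) F) - 1) = 0 := by
      rw [Matrix.toLin'_apply']; exact h1
    exact (Matrix.toLin' (R := F)).map_eq_zero_iff.mp this
  have h3 : a = 1 := by
    apply Subtype.ext
    simpa [sub_eq_zero] using h2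
  rw [h3, orderOf_one] at ha
  omega

/-- Conjugacy of involutions in the special linear group over a finite field of characteristic two, in dimension at least 3: two elements of order 2 of SL_n(F) are conjugate in SL_n(F) exactly when the matrices a − 1 and b − 1 have the same rank (the rank of a − 1 is the dimension of the commutator space [V, a]). -/
theorem result {F : Type*} [Field F] [Fintype F] [CharP F 2] {n : ℕ} (hn : 3 ≤ n) (a b : Matrix.SpecialLinearGroup (Fin n) F) (ha : orderOf a = 2) (hb : orderOf b = 2) :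
    IsConj a b ↔ ((a : Matrix (Fin n) (Fin n) F) - 1).rank = ((b : Matrix (Fin n) (Fin n) F) - 1).rank := by
  classical
  constructor
  · intro h
    rw [isConj_iff] at h
    obtain ⟨c, hc⟩ := h
    have h1 : c * a = b * c := by rw [← hc]; group
    have h2 : (c : Matrix (Fin n) (Fin n) F) * ((a : Matrix (Fin n) (Fin n) F) - 1)
        = ((b : Matrix (Fin n) (Fin n) F) - 1) * (c : Matrix (Fin n) (Fin n) F) := by
      have := congrArg (fun x : Matrix.SpecialLinearGroup (Fin n) F => (x : Matrix (Fin n) (Fin n) F)) h1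
      simp only [Matrix.SpecialLinearGroup.coe_mul] at this
      rw [mul_sub, sub_mul, this, mul_one, one_mul]
    have hu : IsUnit (c : Matrix (Fin n) (Fin n) F).det := by rw [c.2]; exact isUnit_one
    rw [← Matrix.rank_mul_eq_right_of_isUnit_det _ _ hu, h2, Matrix.rank_mul_eq_left_of_isUnit_det _ _ hu]
  · intro h
    have hposa := rkpos a ha
    have hJa := lemJ (Matrix.toLin' ((a : Matrix (Fin n) (Fin n) F) - 1))
      (by rw [← Matrix.toLin'_mul, sqzero a ha, map_zero])
      ((a : Matrix (Fin n) (Fin n) F) - 1).rank hposa (by rw [Matrix.toLin'_apply']; rfl)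
    have hJb := lemJ (Matrix.toLin' ((b : Matrix (Fin n) (Fin n) F) - 1))
      (by rw [← Matrix.toLin'_mul, sqzero b hb, map_zero])
      ((a : Matrix (Fin n) (Fin n) F) - 1).rank hposa (by rw [Matrix.toLin'_apply', h]; rfl)
    obtain ⟨ba, ha1, ha2⟩ := hJa
    obtain ⟨bb, hb1, hb2⟩ := hJb
    obtain ⟨g, hdet, hg⟩ := lemC hposa _ _ ba bb ha1 ha2 hb1 hb2
    have hM := congrArg LinearMap.toMatrix' hg
    rw [LinearMap.toMatrix'_comp, LinearMap.toMatrix'_comp, LinearMap.toMatrix'_toLin',
      LinearMap.toMatrix'_toLin'] at hM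
    have hM2 : LinearMap.toMatrix' g * (a : Matrix (Fin n) (Fin n) F)
        = (b : Matrix (Fin n) (Fin n) F) * LinearMap.toMatrix' g := by
      rw [mul_sub, sub_mul, mul_one, one_mul] at hM
      exact sub_left_injective hM
    have hMdet : (LinearMap.toMatrix' g).det = 1 := by rw [LinearMap.det_toMatrix', hdet]
    rw [isConj_iff]
    obtain ⟨c, hc⟩ : ∃ c : Matrix.SpecialLinearGroup (Fin n) F,
        (c : Matrix (Fin n) (Fin n) F) = LinearMap.toMatrix' g := ⟨⟨LinearMap.toMatrix' g, hMdet⟩, rfl⟩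
    refine ⟨c, ?_⟩
    have hca : c * a = b * c := by
      apply Subtype.ext
      rw [Matrix.SpecialLinearGroup.coe_mul, Matrix.SpecialLinearGroup.coe_mul, hc]
      exact hM2
    rw [hca]
    group

end Cfsg.Agent.S2162
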