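import Cfsg.Statements.S2163
import Mathlib
-- import your own Cfsg.Agent.* helpers here

set_option autoImplicit false
open Cfsg

namespace Cfsg.Agent.S2163



/-- Over a finite field of characteristic two and for n ≥ 3: for every ℓ with 1 ≤ ℓ and 2ℓ ≤ n, the matrix j_ℓ that is the identity plus the entries 1 in positions (n − ℓ + i, i) for i < ℓ (an identity block of size ℓ in the lower left corner) lies in SL_n(F), has order 2, and j_ℓ − 1 has rank ℓ. Together with the conjugacy criterion by rank, these matrices represent the conjugacy classes of involutions of SL_n(F). -/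
theorem result {F : Type*} [Field F] [Fintype F] [CharP F 2] {n : ℕ} (hn : 3 ≤ n) (ℓ : ℕ) (h1 : 1 ≤ ℓ) (h2 : 2 * ℓ ≤ n) :
    ∃ a : Matrix.SpecialLinearGroup (Fin n) F, (a : Matrix (Fin n) (Fin n) F) = 1 + Matrix.of (fun i j : Fin n => if j.val < ℓ ∧ i.val = j.val + (n - ℓ) then (1 : F) else 0) ∧ orderOf a = 2 ∧ ((a : Matrix (Fin n) (Fin n) F) - 1).rank = ℓ := by
  classical
  set N : Matrix (Fin n) (Fin n) F :=
    Matrix.of (fun i j : Fin n => if j.val < ℓ ∧ i.val = j.val + (n - ℓ) then (1 : F) else 0)
    with hN
  let A : Matrix (Fin n) (Fin ℓ) F :=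
    Matrix.of (fun i k => if i.val = k.val + (n - ℓ) then (1 : F) else 0)
  let B : Matrix (Fin ℓ) (Fin n) F :=
    Matrix.of (fun k j => if j.val = k.val then (1 : F) else 0)
  have hAB : A * B = N := by
    ext i j
    rw [Matrix.mul_apply]
    by_cases hj : j.val < ℓ
    · rw [Finset.sum_eq_single (⟨j.val, hj⟩ : Fin ℓ)]
      · simp [A, B, hN, hj]
      · intro k _ hk
        have hne : j.val ≠ k.val := fun h => hk (Fin.ext h.symm)
        simp [B, hne]
      · intro h
        exact absurd (Finset.mem_univ _) h
    · rw [Finset.sum_eq_zero]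
      · simp [hN, hj]
      · intro k _
        have hne : j.val ≠ k.val := by
          have := k.2
          omega
        simp [B, hne]
  have hBA : B * A = 0 := by
    ext k k'
    rw [Matrix.mul_apply, Finset.sum_eq_zero]
    · rfl
    · intro i _
      by_cases hi : i.val = k.val
      · have hne : i.val ≠ k'.val + (n - ℓ) := by
          have := k.2
          omega
        simp [A, hne]
      · simp [B, hi]
  have hAtA : A.transpose * A = 1 := by
    ext k k'
    have hlt : k'.val + (n - ℓ) < n := by
      have := k'.2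
      omega
    rw [Matrix.mul_apply, Finset.sum_eq_single (⟨k'.val + (n - ℓ), hlt⟩ : Fin n)]
    · by_cases hkk : k = k'
      · subst hkk
        simp [A]
      · have hne : k'.val ≠ k.val := fun h => hkk (Fin.ext h.symm)
        simp [A, Matrix.one_apply, hkk, hne]
    · intro i _ hi
      have hne : i.val ≠ k'.val + (n - ℓ) := fun h => hi (Fin.ext h)
      simp [A, hne]
    · intro h
      exact absurd (Finset.mem_univ _) h
  have hBBt : B * B.transpose = 1 := by
    ext k k'
    have hlt : k'.val < n := by
      have := k'.2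
      omega
    rw [Matrix.mul_apply, Finset.sum_eq_single (⟨k'.val, hlt⟩ : Fin n)]
    · by_cases hkk : k = k'
      · subst hkk
        simp [B]
      · have hne : k'.val ≠ k.val := fun h => hkk (Fin.ext h.symm)
        simp [B, Matrix.one_apply, hkk, hne]
    · intro i _ hi
      have hne : i.val ≠ k'.val := fun h => hi (Fin.ext h)
      simp [B, hne]
    · intro h
      exact absurd (Finset.mem_univ _) h
  have hdet : (1 + N).det = 1 := by
    rw [← hAB, Matrix.det_one_add_mul_comm, hBA, add_zero, Matrix.det_one]
  have hNN : N * N = 0 := by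
    rw [← hAB]
    have h1 : A * B * (A * B) = A * (B * A) * B := by simp only [Matrix.mul_assoc]
    rw [h1, hBA, Matrix.mul_zero, Matrix.zero_mul]
  have hN2 : N + N = 0 := by
    ext i j
    simp [CharTwo.add_self_eq_zero]
  have hNne : N ≠ 0 := by
    intro h
    have hlt : n - ℓ < n := by omega
    have hlt0 : 0 < n := by omega
    have h1 : N ⟨n - ℓ, hlt⟩ ⟨0, hlt0⟩ = 1 := by
      simp [hN]
      omega
    rw [h] at h1
    simp at h1
  refine ⟨⟨1 + N, hdet⟩, rfl, ?_, ?_⟩
  · haveI : Fact (Nat.Prime 2) := ⟨Nat.prime_two⟩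
    apply orderOf_eq_prime
    · apply Subtype.ext
      show (1 + N) ^ 2 = 1
      rw [pow_two]
      have h1 : (1 + N) * (1 + N) = 1 + (N + N) + N * N := by
        rw [Matrix.add_mul, Matrix.mul_add, Matrix.mul_add, Matrix.one_mul, Matrix.one_mul,
          Matrix.mul_one]
        abel
      rw [h1, hN2, hNN, add_zero, add_zero]
    · intro h
      have h1 : (1 + N : Matrix (Fin n) (Fin n) F) = 1 := congrArg Subtype.val h
      exact hNne (by simpa using h1)
  · show ((1 + N) - 1 : Matrix (Fin n) (Fin n) F).rank = ℓ
    rw [add_sub_cancel_left]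
    apply le_antisymm
    · rw [← hAB]
      exact (Matrix.rank_mul_le_left A B).trans (Matrix.rank_le_width A)
    · have h1 : (1 : Matrix (Fin ℓ) (Fin ℓ) F) = A.transpose * N * B.transpose := by
        rw [← hAB]
        have h2 : A.transpose * (A * B) * B.transpose = (A.transpose * A) * (B * B.transpose) := by
          simp only [Matrix.mul_assoc]
        rw [h2, hAtA, hBBt, Matrix.mul_one]
      have h3 : (1 : Matrix (Fin ℓ) (Fin ℓ) F).rank = ℓ := by
        rw [Matrix.rank_one, Fintype.card_fin]
      rw [← h3, h1]
      exact (Matrix.rank_mul_le_left _ _).trans (Matrix.rank_mul_le_right _ _)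

end Cfsg.Agent.S2163
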