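import Cfsg.Statements.S2165
import Mathlib
-- import your own Cfsg.Agent.* helpers here

set_option autoImplicit false
open Cfsg

namespace Cfsg.Agent.S2165



/-- In SU_n(q), q even, n ≥ 3 (matrices of determinant 1 over the field with q² elements preserving Σ u_i v_i^q): for every ℓ with 1 ≤ ℓ and 2ℓ ≤ n, the permutation matrix of the involution of {0, …, n−1} exchanging i and n − ℓ + i for each i < ℓ lies in SU_n(q), has order 2, and differs from the identity by a matrix of rank ℓ. So every rank between 1 and n/2 occurs for involutions of SU_n(q). -/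
theorem result {F : Type*} [Field F] [Fintype F] [CharP F 2] {n q : ℕ} (hF : Fintype.card F = q ^ 2) (hn : 3 ≤ n) (ℓ : ℕ) (h1 : 1 ≤ ℓ) (h2 : 2 * ℓ ≤ n) :
    ∃ a : ↥(Cfsg.SU n F q), (((a : Matrix.SpecialLinearGroup (Fin n) F) : Matrix (Fin n) (Fin n) F) = Matrix.of (fun i j : Fin n => if (j.val < ℓ ∧ i.val = j.val + (n - ℓ)) ∨ (i.val < ℓ ∧ j.val = i.val + (n - ℓ)) ∨ (i = j ∧ ℓ ≤ i.val ∧ i.val < n - ℓ) then (1 : F) else 0)) ∧ orderOf a = 2 ∧ ((((a : Matrix.SpecialLinearGroup (Fin n) F) : Matrix (Fin n) (Fin n) F)) - 1).rank = ℓ := by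
  classical
  haveI : Fact (Nat.Prime 2) := ⟨Nat.prime_two⟩
  set M : Matrix (Fin n) (Fin n) F :=
    Matrix.of (fun i j : Fin n => if (j.val < ℓ ∧ i.val = j.val + (n - ℓ)) ∨
      (i.val < ℓ ∧ j.val = i.val + (n - ℓ)) ∨ (i = j ∧ ℓ ≤ i.val ∧ i.val < n - ℓ)
      then (1 : F) else 0) with hM
  let A : Matrix (Fin n) (Fin ℓ) F :=
    Matrix.of (fun i k => if i.val = k.val + (n - ℓ) then (1 : F) else 0)
  let B : Matrix (Fin ℓ) (Fin n) F :=
    Matrix.of (fun k j => if j.val = k.val then (1 : F) else 0)
  have hone : (1 : F) + 1 = 0 := CharTwo.add_self_eq_zero 1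
  have hBA : B * A = 0 := by
    ext k k'
    rw [Matrix.mul_apply, Finset.sum_eq_zero]
    · rfl
    · intro i _
      by_cases hi : i.val = k.val
      · have hne : i.val ≠ k'.val + (n - ℓ) := by
          have := k.2
          omega
        simp [A, hne]
      · simp [B, hi]
  have hAtA : A.transpose * A = 1 := by
    ext k k'
    have hlt : k'.val + (n - ℓ) < n := by
      have := k'.2
      omega
    rw [Matrix.mul_apply, Finset.sum_eq_single (⟨k'.val + (n - ℓ), hlt⟩ : Fin n)]
    · by_cases hkk : k = k'
      · subst hkk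
        simp [A]
      · have hne : k'.val ≠ k.val := fun h => hkk (Fin.ext h.symm)
        simp [A, hkk, hne]
    · intro i _ hi
      have hne : i.val ≠ k'.val + (n - ℓ) := fun h => hi (Fin.ext h)
      simp [A, hne]
    · intro h
      exact absurd (Finset.mem_univ _) h
  have hBBt : B * B.transpose = 1 := by
    ext k k'
    have hlt : k'.val < n := by
      have := k'.2
      omega
    rw [Matrix.mul_apply, Finset.sum_eq_single (⟨k'.val, hlt⟩ : Fin n)]
    · by_cases hkk : k = k'
      · subst hkk
        simp [B]
      · have hne : k'.val ≠ k.val := fun h => hkk (Fin.ext h.symm)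
        simp [B, hkk, hne]
    · intro i _ hi
      have hne : i.val ≠ k'.val := fun h => hi (Fin.ext h)
      simp [B, hne]
    · intro h
      exact absurd (Finset.mem_univ _) h
  have hAtBt : A.transpose * B.transpose = 0 := by
    rw [← Matrix.transpose_mul, hBA, Matrix.transpose_zero]
  set C : Matrix (Fin n) (Fin ℓ) F := B.transpose + A with hC
  have hCt : C.transpose = B + A.transpose := by
    rw [hC, Matrix.transpose_add, Matrix.transpose_transpose]
  have h2ℓ : (1 : Matrix (Fin ℓ) (Fin ℓ) F) + 1 = 0 := by
    ext i j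
    rw [Matrix.add_apply, CharTwo.add_self_eq_zero]
    rfl
  have h2n : (1 : Matrix (Fin n) (Fin n) F) + 1 = 0 := by
    ext i j
    rw [Matrix.add_apply, CharTwo.add_self_eq_zero]
    rfl
  have hCtC : C.transpose * C = 0 := by
    rw [hCt, hC, Matrix.add_mul, Matrix.mul_add, Matrix.mul_add, hBBt, hBA, hAtBt, hAtA,
      add_zero, zero_add, h2ℓ]
  have hMC : M + 1 = C * C.transpose := by
    ext i j
    rw [Matrix.add_apply, Matrix.mul_apply, Matrix.one_apply]
    rcases lt_or_ge i.val ℓ with hi | hi
    · rw [Finset.sum_eq_single (⟨i.val, hi⟩ : Fin ℓ)]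
      · simp only [hC, hM, A, B, Matrix.of_apply, Matrix.transpose_apply, Matrix.add_apply,
          Fin.ext_iff]
        split_ifs <;> first | omega | simp
      · intro k _ hk
        have hne : i.val ≠ k.val := fun h => hk (Fin.ext h.symm)
        have hne2 : i.val ≠ k.val + (n - ℓ) := by omega
        simp [hC, A, B, hne, hne2]
      · intro h
        exact absurd (Finset.mem_univ _) h
    · rcases le_or_gt (n - ℓ) i.val with hi2 | hi2
      · have hlt : i.val - (n - ℓ) < ℓ := by
          have := i.2
          omega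
        rw [Finset.sum_eq_single (⟨i.val - (n - ℓ), hlt⟩ : Fin ℓ)]
        · simp only [hC, hM, A, B, Matrix.of_apply, Matrix.transpose_apply, Matrix.add_apply,
            Fin.ext_iff]
          split_ifs <;> first | omega | simp
        · intro k _ hk
          have hne : i.val ≠ k.val := by
            have := k.2
            omega
          have hne2 : i.val ≠ k.val + (n - ℓ) := fun h => hk (Fin.ext (by
            show k.val = i.val - (n - ℓ)
            omega))
          simp [hC, A, B, hne, hne2]
        · intro h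
          exact absurd (Finset.mem_univ _) h
      · rw [Finset.sum_eq_zero]
        · simp only [hM, Matrix.of_apply, Fin.ext_iff]
          split_ifs <;> first | omega | simp | exact hone
        · intro k _
          have hne : i.val ≠ k.val := by
            have := k.2
            omega
          have hne2 : i.val ≠ k.val + (n - ℓ) := by omega
          simp [hC, A, B, hne, hne2]
  have hM1 : M = 1 + C * C.transpose := by
    rw [← hMC]
    have : (1 : Matrix (Fin n) (Fin n) F) + (M + 1) = M + (1 + 1) := by abel
    rw [this, h2n, add_zero]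
  have hdet : M.det = 1 := by
    rw [hM1, Matrix.det_one_add_mul_comm, hCtC, add_zero, Matrix.det_one]
  have hsymm : M.transpose = M := by
    rw [hM1, Matrix.transpose_add, Matrix.transpose_one, Matrix.transpose_mul,
      Matrix.transpose_transpose]
  have hMM : M * M = 1 := by
    have h1 : (1 + C * C.transpose) * (1 + C * C.transpose) =
        1 + (C * C.transpose + C * C.transpose) + C * (C.transpose * C) * C.transpose := by
      rw [Matrix.add_mul, Matrix.mul_add, Matrix.mul_add, Matrix.one_mul, Matrix.one_mul,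
        Matrix.mul_one]
      simp only [Matrix.mul_assoc]
      abel
    have h2 : C * C.transpose + C * C.transpose = 0 := by
      ext i j
      rw [Matrix.add_apply, CharTwo.add_self_eq_zero]
      rfl
    rw [hM1, h1, h2, hCtC, Matrix.mul_zero, Matrix.zero_mul, add_zero, add_zero]
  -- q is a power of two
  obtain ⟨m, -, hm⟩ := FiniteField.card F 2
  have hq : ∃ k : ℕ, q = 2 ^ k := by
    have h1 : q ∣ 2 ^ (m : ℕ) := by
      rw [← hm, hF]
      exact Dvd.intro_left (q ^ 1) (by ring)
    obtain ⟨k, _, hk⟩ := (Nat.dvd_prime_pow Nat.prime_two).mp h1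
    exact ⟨k, hk⟩
  obtain ⟨k, hk⟩ := hq
  have hq0 : q ≠ 0 := by
    rw [hk]
    positivity
  have hpres : ∀ u v : Fin n → F, Cfsg.hermForm n F q (M.mulVec u) (M.mulVec v) =
      Cfsg.hermForm n F q u v := by
    intro u v
    have h1 : ∀ i, (M.mulVec v i) ^ q = M.mulVec (fun j => v j ^ q) i := by
      intro i
      show (∑ j, M i j * v j) ^ q = ∑ j, M i j * v j ^ q
      rw [hk, sum_pow_char_pow]
      apply Finset.sum_congr rfl
      intro j _
      rw [mul_pow]
      congr 1
      simp only [hM, Matrix.of_apply]
      split_ifs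
      · rw [one_pow]
      · rw [zero_pow (by positivity)]
    show ∑ i, M.mulVec u i * (M.mulVec v i) ^ q = ∑ i, u i * v i ^ q
    have h2 : ∑ i, M.mulVec u i * (M.mulVec v i) ^ q =
        dotProduct (M.mulVec u) (M.mulVec (fun j => v j ^ q)) := by
      apply Finset.sum_congr rfl
      intro i _
      rw [h1]
    rw [h2, Matrix.dotProduct_mulVec]
    have h3 : M.mulVec u = Matrix.vecMul u M := by
      conv_lhs => rw [← hsymm]
      exact Matrix.mulVec_transpose M u
    rw [h3, Matrix.vecMul_vecMul, hMM, Matrix.vecMul_one]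
    rfl
  let a0 : Matrix.SpecialLinearGroup (Fin n) F := ⟨M, hdet⟩
  have ha0 : a0 ∈ Cfsg.SU n F q := by
    intro u v
    exact hpres u v
  have hMne : M ≠ 1 := by
    intro h
    have h0 : 0 < n := by omega
    have h1 : M ⟨0, h0⟩ ⟨0, h0⟩ = 0 := by
      simp only [hM, Matrix.of_apply]
      rw [if_neg]
      omega
    rw [h] at h1
    simp at h1
  refine ⟨⟨a0, ha0⟩, rfl, ?_, ?_⟩
  · apply orderOf_eq_prime
    · apply Subtype.ext
      apply Subtype.ext
      show M ^ 2 = 1
      rw [pow_two, hMM]
    · intro h
      have h1 : a0 = 1 := congrArg Subtype.val h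
      have h2 : M = 1 := congrArg Subtype.val h1
      exact hMne h2
  · show (M - 1 : Matrix (Fin n) (Fin n) F).rank = ℓ
    have hM2 : M - 1 = C * C.transpose := by
      rw [hM1, add_sub_cancel_left]
    rw [hM2]
    apply le_antisymm
    · exact (Matrix.rank_mul_le_left C C.transpose).trans (Matrix.rank_le_width C)
    · have h1 : (1 : Matrix (Fin ℓ) (Fin ℓ) F) = B * (C * C.transpose) * A := by
        have h2 : B * (C * C.transpose) * A = (B * C) * (C.transpose * A) := by
          simp only [Matrix.mul_assoc]
        have h3 : B * C = 1 := by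
          rw [hC, Matrix.mul_add, hBBt, hBA, add_zero]
        have h4 : C.transpose * A = 1 := by
          rw [hCt, Matrix.add_mul, hBA, hAtA, zero_add]
        rw [h2, h3, h4, Matrix.mul_one]
      have h3 : (1 : Matrix (Fin ℓ) (Fin ℓ) F).rank = ℓ := by
        rw [Matrix.rank_one, Fintype.card_fin]
      calc ℓ = (1 : Matrix (Fin ℓ) (Fin ℓ) F).rank := h3.symm
        _ = (B * (C * C.transpose) * A).rank := congrArg Matrix.rank h1
        _ ≤ (B * (C * C.transpose)).rank := Matrix.rank_mul_le_left _ _
        _ ≤ (C * C.transpose).rank := Matrix.rank_mul_le_right _ _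

end Cfsg.Agent.S2165
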