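import Cfsg.Statements.S2167
import Mathlib
import Cfsg.Agent.Lib.Helper4.AltEven
import Cfsg.Agent.Lib.Helper4.SpOrder
import Cfsg.Agent.Lib.Helper4.SpQuadCharTwo

set_option autoImplicit false
open Cfsg

namespace Cfsg.Agent.S2167

open Matrix Cfsg.Agent.Lib.Helper4 in

/-- For an involution t of the symplectic group Sp_{2m}(F), m ≥ 2, F a finite field of characteristic two (matrices A with A J Aᵀ = J acting on column vectors, alternating form f(u, v) = u ⬝ (J v)): the set V(t) of vectors v with f(v, t v) = 0 has either q^{2m} or q^{2m−1} elements, q the order of F (it is a subspace of codimension at most 1), and if it is the whole space then t − 1 has even rank. -/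
theorem result {F : Type*} [Field F] [Fintype F] [CharP F 2] {m : ℕ} (hm : 2 ≤ m) (a : ↥(Matrix.symplecticGroup (Fin m) F)) (ha : orderOf a = 2) :
    (Nat.card {v : Fin m ⊕ Fin m → F // Cfsg.sympForm m F v (Matrix.mulVec ((a : ↥(Matrix.symplecticGroup (Fin m) F)) : Matrix (Fin m ⊕ Fin m) (Fin m ⊕ Fin m) F) v) = 0} = Fintype.card F ^ (2 * m) ∨ Nat.card {v : Fin m ⊕ Fin m → F // Cfsg.sympForm m F v (Matrix.mulVec ((a : ↥(Matrix.symplecticGroup (Fin m) F)) : Matrix (Fin m ⊕ Fin m) (Fin m ⊕ Fin m) F) v) = 0} * Fintype.card F = Fintype.card F ^ (2 * m)) ∧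
    ((∀ v : Fin m ⊕ Fin m → F, Cfsg.sympForm m F v (Matrix.mulVec ((a : ↥(Matrix.symplecticGroup (Fin m) F)) : Matrix (Fin m ⊕ Fin m) (Fin m ⊕ Fin m) F) v) = 0) → Even (((a : ↥(Matrix.symplecticGroup (Fin m) F)) : Matrix (Fin m ⊕ Fin m) (Fin m ⊕ Fin m) F) - 1).rank) := by
  classical
  obtain ⟨A, hAdef⟩ : ∃ A : Matrix (Fin m ⊕ Fin m) (Fin m ⊕ Fin m) F, A = (a : Matrix _ _ F) := ⟨_, rfl⟩
  rw [← hAdef]
  have hA : A ∈ Matrix.symplecticGroup (Fin m) F := by rw [hAdef]; exact a.2
  have hA2 : A * A = 1 := by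
    have h1 : a ^ 2 = 1 := by rw [← ha]; exact pow_orderOf_eq_one a
    have h2 := congrArg (fun x : ↥(Matrix.symplecticGroup (Fin m) F) => (x : Matrix (Fin m ⊕ Fin m) (Fin m ⊕ Fin m) F)) h1
    simp only [pow_two] at h2
    rw [hAdef]
    exact h2
  have h2 : (2 : F) = 0 := by exact_mod_cast CharP.cast_eq_zero F 2
  have hneg : ∀ x : F, -x = x := by
    intro x
    have : x + x = 0 := by rw [← two_mul, h2, zero_mul]
    exact neg_eq_of_add_eq_zero_right this
  have hadj : ∀ u v : Fin m ⊕ Fin m → F, Cfsg.sympForm m F u (A *ᵥ v) = Cfsg.sympForm m F (A *ᵥ u) v := by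
    intro u v
    have h := sympForm_mulVec A hA u (A *ᵥ v)
    rw [Matrix.mulVec_mulVec, hA2, Matrix.one_mulVec] at h
    exact h.symm
  have hsw : ∀ u v : Fin m ⊕ Fin m → F, Cfsg.sympForm m F u v = Cfsg.sympForm m F v u := by
    intro u v
    rw [← stdSymp_apply, ← stdSymp_apply, alt_swap (stdSymp m F) stdSymp_alt u v, hneg]
  have hadd : ∀ u v : Fin m ⊕ Fin m → F, Cfsg.sympForm m F (u + v) (A *ᵥ (u + v)) = Cfsg.sympForm m F u (A *ᵥ u) + Cfsg.sympForm m F v (A *ᵥ v) := by
    intro u v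
    have e1 : Cfsg.sympForm m F v (A *ᵥ u) = Cfsg.sympForm m F u (A *ᵥ v) := by
      rw [hadj v u, hsw]
    rw [Matrix.mulVec_add]
    simp only [← stdSymp_apply, map_add, LinearMap.add_apply]
    simp only [stdSymp_apply]
    rw [e1]
    have : Cfsg.sympForm m F u (A *ᵥ v) + Cfsg.sympForm m F u (A *ᵥ v) = 0 := by rw [← two_mul, h2, zero_mul]
    linear_combination this
  have hsmul : ∀ (c : F) (v : Fin m ⊕ Fin m → F), Cfsg.sympForm m F (c • v) (A *ᵥ (c • v)) = c ^ 2 * Cfsg.sympForm m F v (A *ᵥ v) := by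
    intro c v
    rw [Matrix.mulVec_smul]
    simp only [← stdSymp_apply, map_smul, LinearMap.smul_apply, smul_eq_mul]
    ring
  obtain ⟨φ, hφ⟩ : ∃ φ : (Fin m ⊕ Fin m → F) →+ F, ∀ v, φ v = Cfsg.sympForm m F v (A *ᵥ v) :=
    ⟨{ toFun := fun v => Cfsg.sympForm m F v (A *ᵥ v)
       map_zero' := by rw [← stdSymp_apply]; simp
       map_add' := hadd }, fun v => rfl⟩
  have hcardV : Nat.card (Fin m ⊕ Fin m → F) = Fintype.card F ^ (2 * m) := by
    rw [Nat.card_eq_fintype_card, Fintype.card_fun, Fintype.card_sum, Fintype.card_fin]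
    congr 1; omega
  refine ⟨?_, ?_⟩
  · by_cases hz : ∀ v, Cfsg.sympForm m F v (A *ᵥ v) = 0
    · left
      rw [← hcardV]
      exact Nat.card_congr (Equiv.subtypeUnivEquiv hz)
    · right
      push Not at hz
      obtain ⟨v0, hv0⟩ := hz
      have hsurj : Function.Surjective φ := by
        intro x
        obtain ⟨c, hc⟩ : ∃ c : F, c ^ 2 = x / Cfsg.sympForm m F v0 (A *ᵥ v0) := by
          have hinj : Function.Injective (fun c : F => c ^ 2) := by
            intro c d hcd
            have hcd' : c ^ 2 = d ^ 2 := hcd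
            have h0 : (c - d) ^ 2 = 0 := by linear_combination hcd' - (c*d - d^2) * h2
            exact sub_eq_zero.1 ((pow_eq_zero_iff (by norm_num : (2:ℕ) ≠ 0)).1 h0)
          exact Finite.injective_iff_surjective.1 hinj _
        refine ⟨c • v0, ?_⟩
        rw [hφ, hsmul, hc, div_mul_cancel₀ _ hv0]
      have h1 := AddSubgroup.card_eq_card_quotient_mul_card_addSubgroup φ.ker
      have h2 : Nat.card ((Fin m ⊕ Fin m → F) ⧸ φ.ker) = Fintype.card F := by
        rw [← Nat.card_eq_fintype_card]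
        exact Nat.card_congr (QuotientAddGroup.quotientKerEquivOfSurjective φ hsurj).toEquiv
      have h3 : Nat.card {v : Fin m ⊕ Fin m → F // Cfsg.sympForm m F v (A *ᵥ v) = 0} = Nat.card φ.ker := by
        apply Nat.card_congr
        exact Equiv.subtypeEquivRight (fun v => by rw [AddMonoidHom.mem_ker, hφ])
      rw [h3, ← hcardV, h1, h2, mul_comm]
  · intro hz
    obtain ⟨N, hN⟩ : ∃ N : (Fin m ⊕ Fin m → F) →ₗ[F] (Fin m ⊕ Fin m → F), N = Matrix.mulVecLin (A - 1) := ⟨_, rfl⟩
    have hNv : ∀ v, N v = A *ᵥ v - v := by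
      intro v
      rw [hN, Matrix.mulVecLin_apply, Matrix.sub_mulVec, Matrix.one_mulVec]
    obtain ⟨B', hB'⟩ : ∃ B' : LinearMap.BilinForm F (Fin m ⊕ Fin m → F), B' = (stdSymp m F).compl₂ N := ⟨_, rfl⟩
    have hB'app : ∀ u v, B' u v = Cfsg.sympForm m F u (A *ᵥ v) - Cfsg.sympForm m F u v := by
      intro u v
      rw [hB', LinearMap.compl₂_apply, hNv, map_sub, stdSymp_apply, stdSymp_apply]
    have hB'alt : ∀ u, B' u u = 0 := by
      intro u
      rw [hB'app, hz, sympForm_self, sub_zero]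
    obtain ⟨C, hC⟩ := Submodule.exists_isCompl (LinearMap.ker N)
    have hdim : Module.finrank F C = (A - 1).rank := by
      have h1 := Submodule.finrank_add_eq_of_isCompl hC
      have h2 := LinearMap.finrank_range_add_finrank_ker N
      have h3 : (A - 1).rank = Module.finrank F (LinearMap.range N) := by rw [hN]; rfl
      omega
    rw [← hdim]
    refine alt_even F _ C (B'.restrict C) rfl (fun x => hB'alt (x : _)) ?_
    apply alt_nondeg_of_left (B'.restrict C) (fun x => hB'alt (x : Fin m ⊕ Fin m → F))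
    intro x hx
    have hx' : ∀ w : Fin m ⊕ Fin m → F, B' (x : Fin m ⊕ Fin m → F) w = 0 := by
      intro w
      obtain ⟨k, hk, c, hc, rfl⟩ : ∃ k ∈ LinearMap.ker N, ∃ c ∈ C, k + c = w := by
        have : w ∈ LinearMap.ker N ⊔ C := by rw [hC.sup_eq_top]; trivial
        exact Submodule.mem_sup.1 this
      have hk0 : B' (x : _) k = 0 := by
        rw [hB', LinearMap.compl₂_apply, LinearMap.mem_ker.1 hk, map_zero]
      rw [map_add, hk0, zero_add]
      exact hx ⟨c, hc⟩
    have hNx : N (x : Fin m ⊕ Fin m → F) = 0 := by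
      apply (stdSymp_nondeg m).1
      intro w
      have := hx' w
      rw [hB'app] at this
      rw [hNv, map_sub, LinearMap.sub_apply, stdSymp_apply, stdSymp_apply, ← hadj]
      exact this
    have hmem : (x : Fin m ⊕ Fin m → F) ∈ LinearMap.ker N ⊓ C := ⟨LinearMap.mem_ker.2 hNx, x.2⟩
    rw [hC.inf_eq_bot] at hmem
    exact Subtype.ext ((Submodule.mem_bot F).1 hmem)

end Cfsg.Agent.S2167
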