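import Cfsg.Statements.S2231
import Mathlib
import Cfsg.Agent.Lib.Helper4.SL2Torus

set_option autoImplicit false
open Cfsg

namespace Cfsg.Agent.S2231

open Cfsg.Agent.Lib.Helper4

/-- The projection `SL₂ → PSL₂`. -/
def pr {F : Type*} [Field F] : Matrix.SpecialLinearGroup (Fin 2) F →*
    Matrix.ProjectiveSpecialLinearGroup (Fin 2) F :=
  QuotientGroup.mk' (Subgroup.center (Matrix.SpecialLinearGroup (Fin 2) F))

/-- In `PSL₂` over a finite field of odd characteristic `p`, an element of order divisible by
`p` has order `p`. -/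
theorem psl2_order_eq_char {p : ℕ} [Fact p.Prime] (hp : p ≠ 2) {K : Type*} [Field K] [Fintype K]
    [CharP K p] (g : Matrix.ProjectiveSpecialLinearGroup (Fin 2) K) (hg : p ∣ orderOf g) :
    orderOf g = p := by
  classical
  have hpp := (Fact.out : p.Prime)
  have hz0c := sl2PM_false_mem_center (F := K)
  have hπ1 : ∀ y : Matrix.SpecialLinearGroup (Fin 2) K,
      y ∈ Subgroup.center (Matrix.SpecialLinearGroup (Fin 2) K) → pr y = 1 := by
    intro y hy
    exact (QuotientGroup.eq_one_iff y).2 hy
  have hpq : p ∣ Fintype.card K := by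
    rw [← CharP.cast_eq_zero_iff K p]
    exact Nat.cast_card_eq_zero K
  have hp1 : ¬ p ∣ 1 := by
    intro h
    have := Nat.le_of_dvd one_pos h
    have := hpp.two_le
    omega
  obtain ⟨x, rfl⟩ := QuotientGroup.mk_surjective g
  change p ∣ orderOf (pr x) at hg
  show orderOf (pr x) = p
  have hunip : ∀ y : Matrix.SpecialLinearGroup (Fin 2) K,
      Matrix.trace (y : Matrix (Fin 2) (Fin 2) K) = 2 → y ≠ 1 → (pr y) ^ p = 1 := by
    intro y hty hy1
    have ho := (sl2_orderOf_eq_char_iff p y).2 ⟨hty, hy1⟩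
    rw [← map_pow, ← ho, pow_orderOf_eq_one, map_one]
  by_cases hxc : x ∈ Subgroup.center (Matrix.SpecialLinearGroup (Fin 2) K)
  · exfalso
    rw [hπ1 x hxc, orderOf_one] at hg
    exact hp1 hg
  · by_cases ht : (Matrix.trace (x : Matrix (Fin 2) (Fin 2) K)) ^ 2 = 4
    · have hpow : (pr x) ^ p = 1 := by
        have ht' : Matrix.trace (x : Matrix (Fin 2) (Fin 2) K) = 2 ∨
            Matrix.trace (x : Matrix (Fin 2) (Fin 2) K) = -2 := by
          have : (Matrix.trace (x : Matrix (Fin 2) (Fin 2) K) - 2) *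
              (Matrix.trace (x : Matrix (Fin 2) (Fin 2) K) + 2) = 0 := by
            linear_combination ht
          rcases mul_eq_zero.1 this with h | h
          · left
            exact sub_eq_zero.1 h
          · right
            exact eq_neg_of_add_eq_zero_left h
        rcases ht' with h | h
        · exact hunip x h (fun h1 => hxc (h1 ▸ Subgroup.one_mem _))
        · have h5 := hunip (sl2PM false (0 : K) * x) (by rw [sl2_trace_neg, h, neg_neg]) (by
            intro h1
            apply hxc
            have hx : x = (sl2PM false (0 : K))⁻¹ := eq_inv_of_mul_eq_one_right h1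
            rw [hx]
            exact inv_mem hz0c)
          rw [map_mul, hπ1 _ hz0c, one_mul] at h5
          exact h5
      exact Nat.dvd_antisymm (orderOf_dvd_of_pow_eq_one hpow) hg
    · exfalso
      by_cases hr : ∃ a : K, a ^ 2 - Matrix.trace (x : Matrix (Fin 2) (Fin 2) K) * a + 1 = 0
      · obtain ⟨a, ha⟩ := hr
        have h1 : x ^ (Fintype.card K - 1) = 1 := by
          rw [← sl2_card_centralizer_of_split x ht a ha]
          exact sl2_pow_card_centralizer x
        have h2 : (pr x) ^ (Fintype.card K - 1) = 1 := by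
          rw [← map_pow, h1, map_one]
        have h3 := dvd_trans hg (orderOf_dvd_of_pow_eq_one h2)
        have hq : 0 < Fintype.card K := Fintype.card_pos
        apply hp1
        have h4 : Fintype.card K = (Fintype.card K - 1) + 1 := by omega
        rw [h4] at hpq
        exact (Nat.dvd_add_right h3).1 hpq
      · push Not at hr
        have h1 : x ^ (Fintype.card K + 1) = 1 := by
          rw [← sl2_card_centralizer_of_no_root x hr]
          exact sl2_pow_card_centralizer x
        have h2 : (pr x) ^ (Fintype.card K + 1) = 1 := by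
          rw [← map_pow, h1, map_one]
        have h3 := dvd_trans hg (orderOf_dvd_of_pow_eq_one h2)
        apply hp1
        exact (Nat.dvd_add_right hpq).1 h3

/-- `Qd(p)` has an element of order `2p`. -/
theorem exists_order_two_p {p : ℕ} [Fact p.Prime] (hp : p ≠ 2) :
    ∃ m : ↥(Cfsg.qd p), orderOf m = 2 * p := by
  have hpp := (Fact.out : p.Prime)
  have h2 : (2 : ZMod p) ≠ 0 := by
    intro h
    have h' : ((2 : ℕ) : ZMod p) = 0 := by exact_mod_cast h
    rw [ZMod.natCast_eq_zero_iff] at h'
    exact hp ((Nat.prime_dvd_prime_iff_eq hpp Nat.prime_two).1 h')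
  obtain ⟨Mz, hMz⟩ : ∃ Mz : Matrix.SpecialLinearGroup (Fin 3) (ZMod p),
      (Mz : Matrix (Fin 3) (Fin 3) (ZMod p)) = !![-1, 0, 0; 0, -1, 0; 0, 0, 1] :=
    ⟨⟨!![-1, 0, 0; 0, -1, 0; 0, 0, 1], by rw [Matrix.det_fin_three]; simp⟩, rfl⟩
  have hU : ∀ n : ℕ, ∃ Mu : Matrix.SpecialLinearGroup (Fin 3) (ZMod p),
      (Mu : Matrix (Fin 3) (Fin 3) (ZMod p)) = !![1, (n : ZMod p), 0; 0, 1, 0; 0, 0, 1] := fun n =>
    ⟨⟨!![1, (n : ZMod p), 0; 0, 1, 0; 0, 0, 1], by rw [Matrix.det_fin_three]; simp⟩, rfl⟩
  choose U hUv using hU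
  have hUadd : ∀ n : ℕ, U 1 ^ n = U n := by
    intro n
    induction n with
    | zero =>
      rw [pow_zero]
      apply Subtype.ext
      rw [hUv, Matrix.SpecialLinearGroup.coe_one]
      ext i j
      fin_cases i <;> fin_cases j <;> simp
    | succ n ih =>
      rw [pow_succ, ih]
      apply Subtype.ext
      rw [Matrix.SpecialLinearGroup.coe_mul, hUv, hUv, hUv]
      ext i j
      fin_cases i <;> fin_cases j <;> simp [Matrix.mul_apply, Fin.sum_univ_three] <;> ring
  have hzmem : Mz ∈ Cfsg.qd p := by
    apply Subgroup.subset_closure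
    simp [hMz]
  have humem : U 1 ∈ Cfsg.qd p := by
    apply Subgroup.subset_closure
    simp [hUv]
  have hoz : orderOf Mz = 2 := by
    apply orderOf_eq_prime
    · apply Subtype.ext
      rw [sq, Matrix.SpecialLinearGroup.coe_mul, hMz, Matrix.SpecialLinearGroup.coe_one]
      ext i j
      fin_cases i <;> fin_cases j <;> simp [Matrix.mul_apply, Fin.sum_univ_three]
    · intro h
      have h1 := congrArg (fun M : Matrix.SpecialLinearGroup (Fin 3) (ZMod p) =>
        (M : Matrix (Fin 3) (Fin 3) (ZMod p)) 0 0) h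
      simp [hMz] at h1
      apply h2
      linear_combination -h1
  have hou : orderOf (U 1) = p := by
    apply orderOf_eq_prime
    · rw [hUadd]
      apply Subtype.ext
      rw [hUv, Matrix.SpecialLinearGroup.coe_one]
      ext i j
      fin_cases i <;> fin_cases j <;> simp
    · intro h
      have h1 := congrArg (fun M : Matrix.SpecialLinearGroup (Fin 3) (ZMod p) =>
        (M : Matrix (Fin 3) (Fin 3) (ZMod p)) 0 1) h
      simp [hUv] at h1
  have hcomm : Commute Mz (U 1) := by
    apply Subtype.ext
    rw [Matrix.SpecialLinearGroup.coe_mul, Matrix.SpecialLinearGroup.coe_mul, hMz, hUv]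
    ext i j
    fin_cases i <;> fin_cases j <;> simp [Matrix.mul_apply, Fin.sum_univ_three]
  have hord : orderOf (Mz * U 1) = 2 * p := by
    rw [hcomm.orderOf_mul_eq_mul_orderOf_of_coprime (by
      rw [hoz, hou]
      exact (Nat.coprime_primes Nat.prime_two hpp).2 (Ne.symm hp)), hoz, hou]
  refine ⟨⟨Mz * U 1, mul_mem hzmem humem⟩, ?_⟩
  rw [← hord, ← Subgroup.orderOf_coe]


/-- Let p be an odd prime and K a finite field of characteristic p. Then Qd(p) (the natural semidirect product of an elementary abelian group of order p² by SL₂(p)) is not involved in the projective special linear group PSL₂(K). -/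
theorem result {p : ℕ} [Fact p.Prime] (hp : p ≠ 2) {K : Type*} [Field K] [Fintype K] [CharP K p] : ¬ Cfsg.Involves ↥(Cfsg.qd p) (Matrix.ProjectiveSpecialLinearGroup (Fin 2) K) := by
  classical
  have hpp := (Fact.out : p.Prime)
  rintro ⟨K0, R, hN, ⟨e⟩⟩
  obtain ⟨m, hm⟩ := exists_order_two_p (p := p) hp
  have h1 : orderOf (e.symm m) = 2 * p := by
    rw [MulEquiv.orderOf_eq, hm]
  obtain ⟨y, hy⟩ := QuotientGroup.mk_surjective (e.symm m)
  have h2 : 2 * p ∣ orderOf y := by
    rw [← h1, ← hy]
    apply orderOf_dvd_of_pow_eq_one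
    rw [← QuotientGroup.mk_pow, pow_orderOf_eq_one]
    rfl
  rw [← Subgroup.orderOf_coe] at h2
  have h3 := psl2_order_eq_char (K := K) hp (y : Matrix.ProjectiveSpecialLinearGroup (Fin 2) K)
    (dvd_trans (dvd_mul_left p 2) h2)
  rw [h3] at h2
  have := Nat.le_of_dvd hpp.pos h2
  have := hpp.pos
  omega

end Cfsg.Agent.S2231
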