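import Cfsg.Statements.S2268
import Mathlib

set_option autoImplicit false
open Cfsg

namespace Cfsg.Agent.S2268

/-- Let G be a finite group with an abelian Sylow p-subgroup P and let Q ≤ P. Then N_G(Q) = (N_G(Q) ∩ N_G(P))·C_G(Q), so that N_G(Q)/C_G(Q) is a homomorphic image of the subgroup (N_G(Q) ∩ N_G(P))/C_G(P) of N_G(P)/C_G(P); in particular the order of N_G(Q)/C_G(Q) divides the order of N_G(P)/C_G(P). -/
theorem result {G : Type*} [Group G] [Finite G] {p : ℕ} [Fact p.Prime]
    (P : Sylow p G) (hP : IsMulCommutative (P : Subgroup G)) (Q : Subgroup G) (hQ : Q ≤ (P : Subgroup G)) :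
    Subgroup.normalizer (Q : Set G) =
      (Subgroup.normalizer (Q : Set G) ⊓ Subgroup.normalizer ((P : Subgroup G) : Set G)) ⊔ Subgroup.centralizer (Q : Set G) ∧
    ((Subgroup.centralizer (Q : Set G)).subgroupOf (Subgroup.normalizer (Q : Set G))).index ∣ ((Subgroup.centralizer ((P : Subgroup G) : Set G)).subgroupOf (Subgroup.normalizer ((P : Subgroup G) : Set G))).index := by
  have hPC : (P : Subgroup G) ≤ Subgroup.centralizer (Q : Set G) := by
    intro x hx
    rw [Subgroup.mem_centralizer_iff]
    intro q hq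
    have := hP.is_comm.comm (⟨q, hQ hq⟩ : (P : Subgroup G)) ⟨x, hx⟩
    exact congrArg Subtype.val this
  have hCN : Subgroup.centralizer (Q : Set G) ≤ Subgroup.normalizer (Q : Set G) :=
    Subgroup.centralizer_le_normalizer _
  have hCPQ : Subgroup.centralizer ((P : Subgroup G) : Set G) ≤ Subgroup.centralizer (Q : Set G) :=
    Subgroup.centralizer_le hQ
  have hCPN : Subgroup.centralizer ((P : Subgroup G) : Set G) ≤
      Subgroup.normalizer ((P : Subgroup G) : Set G) := Subgroup.centralizer_le_normalizer _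
  have h1 : Subgroup.normalizer (Q : Set G) =
      (Subgroup.normalizer (Q : Set G) ⊓ Subgroup.normalizer ((P : Subgroup G) : Set G)) ⊔
        Subgroup.centralizer (Q : Set G) := by
    apply le_antisymm
    · intro x hx
      -- x • P ≤ C(Q)
      have h2 : ((x • P : Sylow p G) : Subgroup G) ≤ Subgroup.centralizer (Q : Set G) := by
        rintro - ⟨z, hz, rfl⟩
        rw [Subgroup.mem_centralizer_iff]
        intro q hq
        have hq' : x⁻¹ * q * x ∈ Q := by
          have := (Subgroup.mem_normalizer_iff.mp (Subgroup.inv_mem _ hx) q).mp hq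
          simpa using this
        have hc := (Subgroup.mem_centralizer_iff.mp (hPC hz)) _ hq'
        show q * (x * z * x⁻¹) = (x * z * x⁻¹) * q
        calc q * (x * z * x⁻¹) = x * ((x⁻¹ * q * x) * z) * x⁻¹ := by group
          _ = x * (z * (x⁻¹ * q * x)) * x⁻¹ := by rw [hc]
          _ = (x * z * x⁻¹) * q := by group
      obtain ⟨c, hc⟩ := MulAction.exists_smul_eq (Subgroup.centralizer (Q : Set G))
        ((x • P).subtype h2) (P.subtype hPC)
      simp_rw [Sylow.smul_subtype, Subgroup.smul_def, smul_smul] at hc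
      have hcx : (c : G) * x ∈ Subgroup.normalizer ((P : Subgroup G) : Set G) :=
        Sylow.smul_eq_iff_mem_normalizer.mp (Sylow.subtype_injective hc)
      have hcx2 : (c : G) * x ∈ Subgroup.normalizer (Q : Set G) :=
        Subgroup.mul_mem _ (hCN c.2) hx
      have hx' : x = (c : G)⁻¹ * ((c : G) * x) := by group
      rw [hx']
      have hcinv : (c : G)⁻¹ ∈ Subgroup.centralizer (Q : Set G) := Subgroup.inv_mem _ c.2
      -- element of C(Q) times element of A; rewrite as product in the join
      have hA : (c : G) * x ∈ (Subgroup.normalizer (Q : Set G) ⊓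
          Subgroup.normalizer ((P : Subgroup G) : Set G)) := ⟨hcx2, hcx⟩
      exact Subgroup.mul_mem _ (Subgroup.mem_sup_right hcinv) (Subgroup.mem_sup_left hA)
    · exact sup_le inf_le_left hCN
  refine ⟨h1, ?_⟩
  show (Subgroup.centralizer (Q : Set G)).relIndex (Subgroup.normalizer (Q : Set G)) ∣
    (Subgroup.centralizer ((P : Subgroup G) : Set G)).relIndex
      (Subgroup.normalizer ((P : Subgroup G) : Set G))
  set A := Subgroup.normalizer (Q : Set G) ⊓ Subgroup.normalizer ((P : Subgroup G) : Set G) with hAdef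
  set NQ := Subgroup.normalizer (Q : Set G) with hNQ
  set CQ := Subgroup.centralizer (Q : Set G) with hCQ
  have hANQ : A ≤ NQ := inf_le_left
  -- index of C(Q) in N(Q) equals relIndex in A
  have h3 : CQ.relIndex NQ = CQ.relIndex A := by
    have hn : (CQ.subgroupOf NQ).Normal := Subgroup.normal_subgroupOf_centralizer_normalizer _
    have h4 : (CQ.subgroupOf NQ).relIndex (A.subgroupOf NQ ⊔ CQ.subgroupOf NQ) =
        (CQ.subgroupOf NQ).relIndex (A.subgroupOf NQ) := Subgroup.relIndex_sup_right _ _
    have h5 : A.subgroupOf NQ ⊔ CQ.subgroupOf NQ = ⊤ := by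
      rw [← Subgroup.subgroupOf_sup hANQ hCN, ← h1, Subgroup.subgroupOf_self]
    rw [h5, Subgroup.relIndex_top_right] at h4
    have h6 : (CQ.subgroupOf NQ).relIndex (A.subgroupOf NQ) = CQ.relIndex A := by
      rw [Subgroup.subgroupOf, Subgroup.relIndex_comap, Subgroup.map_subgroupOf_eq_of_le hANQ]
    rw [← h6, ← h4]
    rfl
  rw [h3]
  have h7 : CQ.relIndex A ∣ (Subgroup.centralizer ((P : Subgroup G) : Set G)).relIndex A :=
    Subgroup.relIndex_dvd_of_le_left A hCPQ
  have hCPA : Subgroup.centralizer ((P : Subgroup G) : Set G) ≤ A :=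
    le_inf (hCPQ.trans hCN) hCPN
  have h8 := Subgroup.relIndex_mul_relIndex (Subgroup.centralizer ((P : Subgroup G) : Set G)) A
    (Subgroup.normalizer ((P : Subgroup G) : Set G)) hCPA inf_le_right
  exact h7.trans (Dvd.intro _ h8)

end Cfsg.Agent.S2268
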