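import Cfsg.Statements.S2269
import Mathlib
import Cfsg.Agent.Lib.Helper4.Automizer
import Cfsg.Agent.Lib.Helper4.CycleType2

set_option autoImplicit false
open Cfsg

namespace Cfsg.Agent.S2269

theorem exists_dihedral_alt (n : ℕ) (hn : 6 ≤ n) : ∃ a b : alternatingGroup (Fin n),
    a ^ 4 = 1 ∧ b * b = 1 ∧ b * a * b⁻¹ = a⁻¹ ∧ a * b ≠ b * a := by
  classical
  obtain ⟨e⟩ : Nonempty (Fin 6 ≃ {i : Fin n // i ∈ Set.range (Fin.castLE hn)}) :=
    ⟨Equiv.ofInjective (Fin.castLE hn) (Fin.castLE_injective hn)⟩
  obtain ⟨φ, hφdef⟩ : ∃ φ : Equiv.Perm (Fin 6) →* Equiv.Perm (Fin n),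
    φ = Equiv.Perm.extendDomainHom e := ⟨_, rfl⟩
  have hφ : Function.Injective φ := hφdef ▸ Equiv.Perm.extendDomainHom_injective e
  have hsign : ∀ σ, Equiv.Perm.sign (φ σ) = Equiv.Perm.sign σ := fun σ => by
    rw [hφdef]
    exact Equiv.Perm.sign_extendDomain σ e
  obtain ⟨a₀, ha₀⟩ : ∃ a₀ : Equiv.Perm (Fin 6), a₀ = Equiv.swap 0 1 * Equiv.swap 1 2 *
    Equiv.swap 2 3 * Equiv.swap 4 5 := ⟨_, rfl⟩
  obtain ⟨b₀, hb₀⟩ : ∃ b₀ : Equiv.Perm (Fin 6), b₀ = Equiv.swap 0 2 * Equiv.swap 4 5 := ⟨_, rfl⟩
  have h1 : a₀ ^ 4 = 1 := by rw [ha₀]; decide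
  have h2 : b₀ * b₀ = 1 := by rw [hb₀]; decide
  have h3 : b₀ * a₀ * b₀⁻¹ = a₀⁻¹ := by rw [ha₀, hb₀]; decide
  have h4 : a₀ * b₀ ≠ b₀ * a₀ := by rw [ha₀, hb₀]; decide
  have h5 : Equiv.Perm.sign a₀ = 1 := by rw [ha₀]; decide
  have h6 : Equiv.Perm.sign b₀ = 1 := by rw [hb₀]; decide
  refine ⟨⟨φ a₀, Equiv.Perm.mem_alternatingGroup.2 ((hsign a₀).trans h5)⟩,
    ⟨φ b₀, Equiv.Perm.mem_alternatingGroup.2 ((hsign b₀).trans h6)⟩, ?_, ?_, ?_, ?_⟩
  · apply Subtype.ext
    show φ a₀ ^ 4 = 1
    rw [← map_pow, h1, map_one]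
  · apply Subtype.ext
    show φ b₀ * φ b₀ = 1
    rw [← map_mul, h2, map_one]
  · apply Subtype.ext
    show φ b₀ * φ a₀ * (φ b₀)⁻¹ = (φ a₀)⁻¹
    rw [← map_inv, ← map_mul, ← map_mul, h3, map_inv]
  · intro h
    apply h4
    apply hφ
    rw [map_mul, map_mul]
    exact congrArg Subtype.val h

theorem card_alt5 : Nat.card (alternatingGroup (Fin 5)) = 60 := by
  have := two_mul_nat_card_alternatingGroup (α := Fin 5)
  rw [Nat.card_eq_fintype_card (α := Equiv.Perm (Fin 5)), Fintype.card_perm,
    Fintype.card_fin] at this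
  have h5 : (5 : ℕ).factorial = 120 := by decide
  omega

theorem odd_case (n : ℕ) (hn : 5 ≤ n) {p : ℕ} [Fact p.Prime] (hp2 : p ≠ 2)
    (P : Sylow p (alternatingGroup (Fin n)))
    (hP : IsMulCommutative (P : Subgroup (alternatingGroup (Fin n)))) :
    2 ∣ ((Subgroup.centralizer ((P : Subgroup (alternatingGroup (Fin n))) : Set (alternatingGroup (Fin n)))).subgroupOf (Subgroup.normalizer ((P : Subgroup (alternatingGroup (Fin n))) : Set (alternatingGroup (Fin n))))).index ∨ IsCyclic (P : Subgroup (alternatingGroup (Fin n))) := by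
  have hpp : p.Prime := Fact.out
  rcases P.isPGroup'.card_eq_or_dvd with h1 | hdvd
  · right
    have : Subsingleton ↥(P : Subgroup (alternatingGroup (Fin n))) :=
      (Nat.card_eq_one_iff_unique.1 h1).1
    exact isCyclic_of_subsingleton
  · obtain ⟨x, hx⟩ := exists_prime_orderOf_dvd_card' p hdvd
    obtain ⟨σ, hσ⟩ : ∃ σ : Equiv.Perm (Fin n),
      σ = ((x : alternatingGroup (Fin n)) : Equiv.Perm (Fin n)) := ⟨_, rfl⟩
    have hσord : orderOf σ = p := by
      rw [hσ, Subgroup.orderOf_coe, Subgroup.orderOf_coe, hx]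
    have hxinv : (x : alternatingGroup (Fin n))⁻¹ ≠ (x : alternatingGroup (Fin n)) := by
      intro h
      have h2 : (x : alternatingGroup (Fin n)) ^ 2 = 1 := by
        rw [pow_two]
        nth_rewrite 1 [← h]
        exact inv_mul_cancel _
      have h3 : orderOf (x : alternatingGroup (Fin n)) ∣ 2 := orderOf_dvd_of_pow_eq_one h2
      rw [Subgroup.orderOf_coe, hx] at h3
      exact hp2 ((Nat.prime_dvd_prime_iff_eq hpp Nat.prime_two).1 h3)
    by_cases hc : Subgroup.centralizer {σ} ≤ alternatingGroup (Fin n)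
    · right
      obtain ⟨-, hcard, hcount⟩ := Equiv.Perm.centralizer_le_alternating_iff.1 hc
      obtain ⟨j, hj⟩ := Equiv.Perm.cycleType_prime_order (σ := σ) (by rw [hσord]; exact hpp)
      rw [hσord] at hj
      have hj0 : j = 0 := by
        have := hcount p
        rw [hj, Multiset.count_replicate_self] at this
        omega
      subst hj0
      have hsum : σ.cycleType.sum = p := by rw [hj]; simp
      rw [hsum] at hcard
      simp only [Fintype.card_fin] at hcard
      have hpn : p ≤ n := by
        have := Equiv.Perm.sum_cycleType_le σ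
        rw [hsum] at this
        simpa using this
      have hcardP : Nat.card ↥(P : Subgroup (alternatingGroup (Fin n))) = p := by
        rw [P.card_eq_multiplicity]
        have hfac : (Nat.card (alternatingGroup (Fin n))).factorization p = 1 := by
          have : Nontrivial (Fin n) := Fin.nontrivial_iff_two_le.2 (by omega)
          have h2 : 2 * Nat.card (alternatingGroup (Fin n)) = n.factorial := by
            rw [two_mul_nat_card_alternatingGroup, Nat.card_eq_fintype_card, Fintype.card_perm,
              Fintype.card_fin]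
          have hN0 : Nat.card (alternatingGroup (Fin n)) ≠ 0 := Nat.card_pos.ne'
          have h3 : (n.factorial).factorization p =
              (Nat.card (alternatingGroup (Fin n))).factorization p := by
            rw [← h2, Nat.factorization_mul two_ne_zero hN0, Finsupp.add_apply,
              Nat.prime_two.factorization, Finsupp.single_eq_of_ne hp2, zero_add]
          rw [← h3]
          have hp3 : 3 ≤ p := by
            have := hpp.two_le
            omega
          have hlog : Nat.log p n < 2 := by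
            apply Nat.log_lt_of_lt_pow (by omega)
            nlinarith
          rw [Nat.factorization_factorial hpp hlog]
          have hsum1 : ∑ i ∈ Finset.Ico 1 2, n / p ^ i = n / p := by simp
          rw [hsum1]
          exact Nat.div_eq_of_lt_le (by omega) (by omega)
        rw [hfac, pow_one]
      exact isCyclic_of_prime_card hcardP
    · left
      obtain ⟨c, hcC, hcA⟩ := SetLike.not_le_iff_exists.1 hc
      have hcs : Equiv.Perm.sign c = -1 := by
        rcases Int.units_eq_one_or (Equiv.Perm.sign c) with h | h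
        · exact absurd (Equiv.Perm.mem_alternatingGroup.2 h) hcA
        · exact h
      have hcσ : c * σ = σ * c := by
        rw [Subgroup.mem_centralizer_iff] at hcC
        exact (hcC σ rfl).symm
      have hconj : IsConj σ σ⁻¹ :=
        Equiv.Perm.isConj_iff_cycleType_eq.2 (Equiv.Perm.cycleType_inv σ).symm
      obtain ⟨g₀, hg₀⟩ := isConj_iff.1 hconj
      obtain ⟨g, hgA, hg⟩ : ∃ g ∈ alternatingGroup (Fin n), g * σ * g⁻¹ = σ⁻¹ := by
        rcases Int.units_eq_one_or (Equiv.Perm.sign g₀) with h | h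
        · exact ⟨g₀, Equiv.Perm.mem_alternatingGroup.2 h, hg₀⟩
        · refine ⟨g₀ * c, Equiv.Perm.mem_alternatingGroup.2 (by rw [map_mul, h, hcs]; rfl), ?_⟩
          rw [mul_inv_rev, ← hg₀]
          calc g₀ * c * σ * (c⁻¹ * g₀⁻¹) = g₀ * (c * σ) * c⁻¹ * g₀⁻¹ := by group
            _ = g₀ * (σ * c) * c⁻¹ * g₀⁻¹ := by rw [hcσ]
            _ = g₀ * σ * g₀⁻¹ := by group
      exact Cfsg.Agent.Lib.Helper4.even_index_of_inverted P hP (x : alternatingGroup (Fin n))
        ⟨g, hgA⟩ x.2 hxinv (by
          apply Subtype.ext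
          show g * ((x : alternatingGroup (Fin n)) : Equiv.Perm (Fin n)) * g⁻¹ =
            (((x : alternatingGroup (Fin n)) : Equiv.Perm (Fin n)))⁻¹
          rw [← hσ]
          exact hg)

theorem part2 (P : Sylow 2 (alternatingGroup (Fin 5)))
    (hP : IsMulCommutative (P : Subgroup (alternatingGroup (Fin 5)))) :
    ((Subgroup.centralizer ((P : Subgroup (alternatingGroup (Fin 5))) : Set (alternatingGroup (Fin 5)))).subgroupOf (Subgroup.normalizer ((P : Subgroup (alternatingGroup (Fin 5))) : Set (alternatingGroup (Fin 5))))).index = 3 ∧ IsKleinFour (P : Subgroup (alternatingGroup (Fin 5))) := by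
  have hcardG := card_alt5
  have hcardP : Nat.card ↥(P : Subgroup (alternatingGroup (Fin 5))) = 4 := by
    rw [P.card_eq_multiplicity, hcardG,
      Cfsg.Agent.Lib.Helper4.factorization_eq_count 60 [2, 2, 3, 5] (by norm_num)
        (by simp only [List.forall_mem_cons, List.not_mem_nil, IsEmpty.forall_iff, implies_true, and_true]; norm_num) 2]
    decide
  refine ⟨?_, ⟨hcardP, ?_⟩⟩
  · obtain ⟨N, hN⟩ : ∃ N, N = Subgroup.normalizer ((P : Subgroup (alternatingGroup (Fin 5))) : Set (alternatingGroup (Fin 5))) := ⟨_, rfl⟩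
    obtain ⟨C, hC⟩ : ∃ C, C = Subgroup.centralizer ((P : Subgroup (alternatingGroup (Fin 5))) : Set (alternatingGroup (Fin 5))) := ⟨_, rfl⟩
    rw [← hN, ← hC]
    have hPN : (P : Subgroup (alternatingGroup (Fin 5))) ≤ N := hN ▸ Subgroup.le_normalizer
    have hPC : (P : Subgroup (alternatingGroup (Fin 5))) ≤ C := hC ▸ Subgroup.le_centralizer _
    have hidx : (P : Subgroup (alternatingGroup (Fin 5))).index = 15 := by
      have := (P : Subgroup (alternatingGroup (Fin 5))).card_mul_index
      rw [hcardP, hcardG] at this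
      omega
    have h15 : (C.subgroupOf N).index ∣ 15 := by
      have h1 : C.relIndex N ∣ (P : Subgroup (alternatingGroup (Fin 5))).relIndex N :=
        Subgroup.relIndex_dvd_of_le_left N hPC
      have h2 : (P : Subgroup (alternatingGroup (Fin 5))).relIndex N ∣ 15 :=
        hidx ▸ Subgroup.relIndex_dvd_index_of_le hPN
      exact h1.trans h2
    have h24 : (C.subgroupOf N).index ∣ 24 := by
      have hnorm : ((P : Subgroup (alternatingGroup (Fin 5))).subgroupOf N).Normal := by
        rw [hN]; infer_instance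
      obtain ⟨ψ, hψ⟩ : ∃ ψ : ↥N →* Equiv.Perm ↥((P : Subgroup (alternatingGroup (Fin 5))).subgroupOf N),
        ψ = (MulAut.toPerm _).comp MulAut.conjNormal := ⟨_, rfl⟩
      have hker : ψ.ker ≤ C.subgroupOf N := by
        intro m hm
        rw [MonoidHom.mem_ker] at hm
        rw [Subgroup.mem_subgroupOf, hC, Subgroup.mem_centralizer_iff]
        intro x hx
        have hx' : (⟨x, hPN hx⟩ : ↥N) ∈ (P : Subgroup (alternatingGroup (Fin 5))).subgroupOf N :=
          Subgroup.mem_subgroupOf.2 hx
        have h1 : ψ m ⟨⟨x, hPN hx⟩, hx'⟩ = ⟨⟨x, hPN hx⟩, hx'⟩ := by rw [hm]; rfl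
        have h2 : ((ψ m ⟨⟨x, hPN hx⟩, hx'⟩ : ↥((P : Subgroup (alternatingGroup (Fin 5))).subgroupOf N)) : ↥N) = m * ⟨x, hPN hx⟩ * m⁻¹ := by
          rw [hψ]
          exact MulAut.conjNormal_apply m _
        rw [h1] at h2
        have h3 : x = (m : alternatingGroup (Fin 5)) * x * (m : alternatingGroup (Fin 5))⁻¹ :=
          congrArg Subtype.val h2
        calc x * (m : alternatingGroup (Fin 5)) = ((m : alternatingGroup (Fin 5)) * x * (m : alternatingGroup (Fin 5))⁻¹) * m := by rw [← h3]
          _ = m * x := by group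
      have h1 : ψ.ker.index ∣ 24 := by
        rw [Subgroup.index_ker]
        have := Subgroup.card_subgroup_dvd_card ψ.range
        rw [Nat.card_perm, Nat.card_congr (Subgroup.subgroupOfEquivOfLe hPN).toEquiv, hcardP] at this
        exact this
      exact (Subgroup.index_dvd_of_le hker).trans h1
    have hne1 : (C.subgroupOf N).index ≠ 1 := by
      intro h1
      rw [Subgroup.index_eq_one, Subgroup.subgroupOf_eq_top] at h1
      have hNC : Subgroup.normalizer ((P : Subgroup (alternatingGroup (Fin 5))) : Set (alternatingGroup (Fin 5))) ≤ Subgroup.centralizer ((P : Subgroup (alternatingGroup (Fin 5))) : Set (alternatingGroup (Fin 5))) := by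
        rw [← hN, ← hC]; exact h1
      have hcompl := MonoidHom.ker_transferSylow_isComplement' P hNC
      have hcard := hcompl.card_mul_card
      rw [hcardP, hcardG] at hcard
      have hsimple : IsSimpleGroup (alternatingGroup (Fin 5)) :=
        alternatingGroup.isSimpleGroup (by simp)
      rcases (MonoidHom.normal_ker (MonoidHom.transferSylow P hNC)).eq_bot_or_eq_top with hb | ht
      · rw [hb, Subgroup.card_bot] at hcard
        omega
      · rw [ht, Subgroup.card_top, hcardG] at hcard
        omega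
    have h3 : (C.subgroupOf N).index ∣ 3 := Nat.dvd_gcd h15 h24
    rcases (Nat.dvd_prime Nat.prime_three).1 h3 with h | h
    · exact absurd h hne1
    · exact h
  · have hsq : ∀ g : ↥(P : Subgroup (alternatingGroup (Fin 5))), g ^ 2 = 1 := by
      intro g
      have h1 : orderOf g ∣ 4 := hcardP ▸ orderOf_dvd_natCard g
      have h2 := Cfsg.Agent.Lib.Helper4.orderOf_mem_of_chkOrd 5 [1, 2, 3, 5] (by decide +kernel)
        (g : alternatingGroup (Fin 5))
      rw [Subgroup.orderOf_coe] at h2
      have h3 : orderOf g ∣ 2 := by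
        simp only [List.mem_cons, List.not_mem_nil, or_false] at h2
        rcases h2 with h | h | h | h
        · rw [h]; exact one_dvd _
        · rw [h]
        · rw [h] at h1; exact absurd h1 (by decide)
        · rw [h] at h1; exact absurd h1 (by decide)
      exact orderOf_dvd_iff_pow_eq_one.1 h3
    have hdvd : Monoid.exponent ↥(P : Subgroup (alternatingGroup (Fin 5))) ∣ 2 :=
      Monoid.exponent_dvd_of_forall_pow_eq_one hsq
    rcases (Nat.dvd_prime Nat.prime_two).1 hdvd with h | h
    · exfalso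
      rw [Monoid.exp_eq_one_iff] at h
      have := Nat.card_eq_one_iff_unique.2 ⟨h, ⟨1⟩⟩
      omega
    · exact h


/-- Let n ≥ 5 and let P be an abelian Sylow p-subgroup of the alternating group A_n. Then N(P)/C(P) (taken in A_n) has even order, or P is cyclic, except when n = 5 and p = 2, where P is a four-group and N(P)/C(P) has order 3. -/
theorem result (n : ℕ) (hn : 5 ≤ n) {p : ℕ} [Fact p.Prime]
    (P : Sylow p (alternatingGroup (Fin n))) (hP : IsMulCommutative (P : Subgroup (alternatingGroup (Fin n)))) :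
    (¬ (n = 5 ∧ p = 2) → 2 ∣ ((Subgroup.centralizer ((P : Subgroup (alternatingGroup (Fin n))) : Set (alternatingGroup (Fin n)))).subgroupOf (Subgroup.normalizer ((P : Subgroup (alternatingGroup (Fin n))) : Set (alternatingGroup (Fin n))))).index ∨ IsCyclic (P : Subgroup (alternatingGroup (Fin n)))) ∧
    ((n = 5 ∧ p = 2) → ((Subgroup.centralizer ((P : Subgroup (alternatingGroup (Fin n))) : Set (alternatingGroup (Fin n)))).subgroupOf (Subgroup.normalizer ((P : Subgroup (alternatingGroup (Fin n))) : Set (alternatingGroup (Fin n))))).index = 3 ∧ IsKleinFour (P : Subgroup (alternatingGroup (Fin n)))) := by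
  constructor
  · intro hne
    by_cases hp2 : p = 2
    · subst hp2
      exfalso
      have hn6 : 6 ≤ n := by
        by_contra h
        exact hne ⟨by omega, rfl⟩
      obtain ⟨a, b, ha, hb, hab, hne'⟩ := exists_dihedral_alt n hn6
      exact Cfsg.Agent.Lib.Helper4.sylow_two_not_comm_of_dihedral P a b ha hb hab hne' hP
    · exact odd_case n hn hp2 P hP
  · rintro ⟨rfl, rfl⟩
    exact part2 P hP

end Cfsg.Agent.S2269
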