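import Cfsg.Statements.S2270
import Mathlib
import Cfsg.Agent.Lib.Helper4.Normalizer

set_option autoImplicit false
open Cfsg

namespace Cfsg.Agent.S2270

/-- Let n ≥ 3, p an odd prime, and P an abelian Sylow p-subgroup of the symmetric group S_n (with p dividing n!, so that P ≠ 1). Then N(P)/C(P) has even order. -/
theorem result (n : ℕ) (hn : 3 ≤ n) {p : ℕ} [Fact p.Prime] (hp : p ≠ 2) (hpn : p ≤ n)
    (P : Sylow p (Equiv.Perm (Fin n))) (hP : IsMulCommutative (P : Subgroup (Equiv.Perm (Fin n)))) :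
    2 ∣ ((Subgroup.centralizer ((P : Subgroup (Equiv.Perm (Fin n))) : Set (Equiv.Perm (Fin n)))).subgroupOf (Subgroup.normalizer ((P : Subgroup (Equiv.Perm (Fin n))) : Set (Equiv.Perm (Fin n))))).index := by
  have hpp : p.Prime := Fact.out
  obtain ⟨N, hN⟩ : ∃ N, N = Subgroup.normalizer ((P : Subgroup (Equiv.Perm (Fin n))) : Set (Equiv.Perm (Fin n))) := ⟨_, rfl⟩
  obtain ⟨C, hC⟩ : ∃ C, C = Subgroup.centralizer ((P : Subgroup (Equiv.Perm (Fin n))) : Set (Equiv.Perm (Fin n))) := ⟨_, rfl⟩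
  rw [← hN, ← hC]
  have hCN : C ≤ N := by
    rw [hC, hN]
    exact Subgroup.centralizer_le_normalizer _
  have hnorm : (C.subgroupOf N).Normal := by
    rw [Subgroup.normal_subgroupOf_iff_le_normalizer hCN, hC, hN]
    exact Cfsg.Agent.Lib.Helper4.le_normalizer_centralizer le_rfl
  have hdvd : p ∣ Nat.card (Equiv.Perm (Fin n)) := by
    rw [Nat.card_eq_fintype_card, Fintype.card_perm, Fintype.card_fin]
    exact Nat.dvd_factorial hpp.pos hpn
  have hPbot := P.ne_bot_of_dvd_card hdvd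
  obtain ⟨⟨x, hxP⟩, hx1'⟩ := (Subgroup.ne_bot_iff_exists_ne_one).1 hPbot
  have hx1 : x ≠ 1 := fun h => hx1' (Subtype.ext h)
  have hxinv : x⁻¹ ≠ x := by
    intro h
    have h2 : x ^ 2 = 1 := by
      rw [pow_two]
      nth_rewrite 1 [← h]
      exact inv_mul_cancel x
    obtain ⟨k, hk⟩ := P.isPGroup' ⟨x, hxP⟩
    have hk' : x ^ p ^ k = 1 := by
      have := congrArg Subtype.val hk
      simpa using this
    have hcop : Nat.Coprime (p ^ k) 2 :=
      Nat.Coprime.pow_left k ((Nat.coprime_primes hpp Nat.prime_two).2 hp)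
    have : x ^ Nat.gcd (p ^ k) 2 = 1 := pow_gcd_eq_one.2 ⟨hk', h2⟩
    rw [hcop.gcd_eq_one, pow_one] at this
    exact hx1 this
  have hconj : IsConj x x⁻¹ :=
    Equiv.Perm.isConj_iff_cycleType_eq.2 (Equiv.Perm.cycleType_inv x).symm
  obtain ⟨g, hg⟩ := isConj_iff.1 hconj
  obtain ⟨m, hm, hmx⟩ := P.conj_eq_normalizer_conj_of_mem x g⁻¹ hxP
    (by rw [inv_inv, hg]; exact inv_mem hxP)
  rw [inv_inv, hg] at hmx
  have hmN : m ∈ N := hN ▸ hm
  have hkC : (⟨m, hmN⟩ : ↥N) ^ (C.subgroupOf N).index ∈ C.subgroupOf N :=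
    Subgroup.pow_index_mem _ _
  rw [Subgroup.mem_subgroupOf] at hkC
  have hkC' : m ^ (C.subgroupOf N).index ∈ C := by simpa using hkC
  have hkC2 := hC.le hkC'
  rw [Subgroup.mem_centralizer_iff] at hkC2
  have hcomm : Commute (m ^ (C.subgroupOf N).index) x := (hkC2 x hxP).symm
  have h2 : Commute (m ^ 2) x := by
    show m ^ 2 * x = x * m ^ 2
    have e1 : m⁻¹ * x⁻¹ * m = x := by
      have := congrArg (fun y => y⁻¹) hmx
      simp only [inv_inv, mul_inv_rev] at this
      rw [← mul_assoc] at this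
      exact this.symm
    have e2 : x * m = m * x⁻¹ := by rw [hmx]; group
    have e3 : x⁻¹ * m = m * x := by
      calc x⁻¹ * m = m * (m⁻¹ * x⁻¹ * m) := by group
        _ = m * x := by rw [e1]
    rw [pow_two, mul_assoc, ← mul_assoc x, e2, mul_assoc, e3]
  rcases Nat.even_or_odd (C.subgroupOf N).index with hev | hodd
  · exact even_iff_two_dvd.1 hev
  · exfalso
    obtain ⟨j, hj⟩ := hodd
    rw [hj, pow_succ, pow_mul] at hcomm
    have h3 : Commute ((m ^ 2) ^ j) x := h2.pow_left j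
    have h4 : Commute m x := by
      have := (h3.inv_left).mul_left hcomm
      rwa [inv_mul_cancel_left] at this
    apply hxinv
    rw [hmx, mul_assoc, ← h4.eq, inv_mul_cancel_left]

end Cfsg.Agent.S2270
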