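import Cfsg.Statements.S2301
import Mathlib
import Cfsg.Agent.Lib.Helper4.SL2Unip

set_option autoImplicit false
open Cfsg

namespace Cfsg.Agent.S2301

open Cfsg.Agent.Lib.Helper4


/-- Over a finite field with q elements of odd characteristic p, the elements of order p of SL₂ (the non-identity unipotent elements) fall into exactly two conjugacy classes, each of size (q² − 1)/2; two upper unitriangular matrices with non-zero off-diagonal entries b and b′ are conjugate exactly when bb′ is a square. -/
theorem result {F : Type*} [Field F] [Fintype F] (p : ℕ) [Fact p.Prime] [CharP F p] (hp : p ≠ 2) :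
    Nat.card {C : ConjClasses (Matrix.SpecialLinearGroup (Fin 2) F) // ∃ g : Matrix.SpecialLinearGroup (Fin 2) F, orderOf g = p ∧ ConjClasses.mk g = C} = 2 ∧
    (∀ g : Matrix.SpecialLinearGroup (Fin 2) F, orderOf g = p → Nat.card (ConjClasses.mk g).carrier = (Fintype.card F ^ 2 - 1) / 2) ∧
    ∀ g h : Matrix.SpecialLinearGroup (Fin 2) F, (g : Matrix (Fin 2) (Fin 2) F) 0 0 = 1 → (g : Matrix (Fin 2) (Fin 2) F) 1 1 = 1 → (g : Matrix (Fin 2) (Fin 2) F) 1 0 = 0 → (g : Matrix (Fin 2) (Fin 2) F) 0 1 ≠ 0 →
      (h : Matrix (Fin 2) (Fin 2) F) 0 0 = 1 → (h : Matrix (Fin 2) (Fin 2) F) 1 1 = 1 → (h : Matrix (Fin 2) (Fin 2) F) 1 0 = 0 → (h : Matrix (Fin 2) (Fin 2) F) 0 1 ≠ 0 →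
      (IsConj g h ↔ IsSquare ((g : Matrix (Fin 2) (Fin 2) F) 0 1 * (h : Matrix (Fin 2) (Fin 2) F) 0 1)) := by
  classical
  have hpp := (Fact.out : p.Prime)
  have h2 : (2 : F) ≠ 0 := by
    intro h
    have h' : ((2 : ℕ) : F) = 0 := by exact_mod_cast h
    rw [CharP.cast_eq_zero_iff F p] at h'
    exact hp ((Nat.prime_dvd_prime_iff_eq hpp Nat.prime_two).1 h')
  have hchar : ringChar F ≠ 2 := by
    rw [ringChar.eq F p]
    exact hp
  have h4 : (2 : F) ^ 2 = 4 := by norm_num
  have hq : 0 < Fintype.card F := Fintype.card_pos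
  -- elements of order p are conjugate to companion matrices of trace two
  have key1 : ∀ g : Matrix.SpecialLinearGroup (Fin 2) F, orderOf g = p →
      ∃ u : Fˣ, IsConj g (sl2Comp 2 u) := by
    intro g hg
    obtain ⟨htr, hg1⟩ := (sl2_orderOf_eq_char_iff p g).1 hg
    have hns : ¬ ((g : Matrix (Fin 2) (Fin 2) F) 0 1 = 0 ∧
        (g : Matrix (Fin 2) (Fin 2) F) 1 0 = 0 ∧
        (g : Matrix (Fin 2) (Fin 2) F) 0 0 = (g : Matrix (Fin 2) (Fin 2) F) 1 1) := by
      rintro ⟨h01, h10, h00⟩
      rw [Matrix.trace_fin_two, ← h00] at htr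
      have ha : (g : Matrix (Fin 2) (Fin 2) F) 0 0 = 1 := by
        apply mul_left_cancel₀ h2
        linear_combination htr
      apply hg1
      apply Subtype.ext
      rw [Matrix.SpecialLinearGroup.coe_one]
      ext i j
      fin_cases i <;> fin_cases j
      · simpa using ha
      · simpa using h01
      · simpa using h10
      · simpa using (h00.symm.trans ha)
    obtain ⟨u, hu⟩ := sl2_isConj_comp g hns
    rw [htr] at hu
    exact ⟨u, hu⟩
  have key2 : ∀ u : Fˣ, orderOf (sl2Comp (2 : F) u) = p := by
    intro u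
    rw [sl2_orderOf_eq_char_iff p]
    constructor
    · rw [sl2Comp_val, Matrix.trace_fin_two]
      simp
    · intro h
      have h1 := congrArg (fun M : Matrix.SpecialLinearGroup (Fin 2) F =>
        (M : Matrix (Fin 2) (Fin 2) F) 1 0) h
      simp [sl2Comp_val] at h1
  have hmul : ∀ a b : F, ¬ IsSquare a → ¬ IsSquare b → IsSquare (a * b) := by
    intro a b ha hb
    have ha0 : a ≠ 0 := by
      rintro rfl
      exact ha ⟨0, by simp⟩
    have hb0 : b ≠ 0 := by
      rintro rfl
      exact hb ⟨0, by simp⟩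
    rw [← quadraticChar_one_iff_isSquare (mul_ne_zero ha0 hb0), map_mul,
      quadraticChar_neg_one_iff_not_isSquare.2 ha, quadraticChar_neg_one_iff_not_isSquare.2 hb]
    norm_num
  refine ⟨?_, ?_, ?_⟩
  · obtain ⟨ν, hν⟩ := FiniteField.exists_nonsquare hchar
    have hν0 : ν ≠ 0 := by
      rintro rfl
      exact hν ⟨0, by simp⟩
    have hf : Function.Bijective (fun s : Bool =>
        (⟨ConjClasses.mk (sl2Comp (2 : F) (if s then 1 else Units.mk0 ν hν0)),
          ⟨_, key2 _, rfl⟩⟩ : {C : ConjClasses (Matrix.SpecialLinearGroup (Fin 2) F) //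
            ∃ g : Matrix.SpecialLinearGroup (Fin 2) F, orderOf g = p ∧ ConjClasses.mk g = C})) := by
      constructor
      · intro s s' hss
        have h1 := congrArg Subtype.val hss
        simp only at h1
        rw [ConjClasses.mk_eq_mk_iff_isConj, sl2Comp_conj_iff_of_sq_eq_four h2 2 h4] at h1
        cases s <;> cases s'
        · rfl
        · exfalso
          apply hν
          simpa using h1
        · exfalso
          apply hν
          simpa using h1
        · rfl
      · rintro ⟨C, g, hg, rfl⟩
        obtain ⟨u, hu⟩ := key1 g hg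
        by_cases hsq : IsSquare (u : F)
        · refine ⟨true, ?_⟩
          apply Subtype.ext
          simp only
          rw [ConjClasses.mk_eq_mk_iff_isConj]
          refine IsConj.trans ?_ hu.symm
          rw [sl2Comp_conj_iff_of_sq_eq_four h2 2 h4]
          simpa using hsq
        · refine ⟨false, ?_⟩
          apply Subtype.ext
          simp only
          rw [ConjClasses.mk_eq_mk_iff_isConj]
          refine IsConj.trans ?_ hu.symm
          rw [sl2Comp_conj_iff_of_sq_eq_four h2 2 h4]
          simpa using hmul ν u hν hsq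
    rw [← Nat.card_congr (Equiv.ofBijective _ hf), Nat.card_eq_fintype_card, Fintype.card_bool]
  · intro g hg
    obtain ⟨u, hu⟩ := key1 g hg
    have h1 := sl2Unip_conj_comp (-u)
    rw [neg_neg] at h1
    have h3 : ConjClasses.mk g = ConjClasses.mk (sl2Unip (((-u : Fˣ) : F))) := by
      rw [ConjClasses.mk_eq_mk_iff_isConj]
      exact hu.trans h1.symm
    rw [h3]
    have h5 := card_carrier_mul_card_centralizer (sl2Unip (((-u : Fˣ) : F)))
    rw [card_centralizer_sl2Unip h2 _ (Units.ne_zero _), card_sl2] at h5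
    have h6 : Fintype.card F * (Nat.card (ConjClasses.mk (sl2Unip (((-u : Fˣ) : F)))).carrier * 2) =
        Fintype.card F * (Fintype.card F ^ 2 - 1) := by
      rw [← h5]
      ring
    have h7 := Nat.eq_of_mul_eq_mul_left hq h6
    omega
  · intro g h g00 g11 g10 g01 h00 h11 h10 h01
    have hg : g = sl2Unip ((g : Matrix (Fin 2) (Fin 2) F) 0 1) := by
      apply Subtype.ext
      rw [sl2Unip_val]
      ext i j
      fin_cases i <;> fin_cases j
      · simpa using g00
      · simp
      · simpa using g10
      · simpa using g11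
    have hh : h = sl2Unip ((h : Matrix (Fin 2) (Fin 2) F) 0 1) := by
      apply Subtype.ext
      rw [sl2Unip_val]
      ext i j
      fin_cases i <;> fin_cases j
      · simpa using h00
      · simp
      · simpa using h10
      · simpa using h11
    have e1 := sl2Unip_conj_comp (Units.mk0 _ g01)
    have e2 := sl2Unip_conj_comp (Units.mk0 _ h01)
    rw [Units.val_mk0] at e1 e2
    have e3 := sl2Comp_conj_iff_of_sq_eq_four h2 2 h4 (-(Units.mk0 _ g01)) (-(Units.mk0 _ h01))
    have e4 : (((-(Units.mk0 _ g01) : Fˣ) : F)) * (((-(Units.mk0 _ h01) : Fˣ) : F)) =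
        (g : Matrix (Fin 2) (Fin 2) F) 0 1 * (h : Matrix (Fin 2) (Fin 2) F) 0 1 := by
      simp
    rw [e4] at e3
    rw [← e3]
    constructor
    · intro hc
      rw [hg, hh] at hc
      exact (e1.symm.trans hc).trans e2
    · intro hc
      rw [hg, hh]
      exact (e1.trans hc).trans e2.symm

end Cfsg.Agent.S2301
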