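import Cfsg.Statements.S2352
import Mathlib
-- import your own Cfsg.Agent.* helpers here

set_option autoImplicit false
open Cfsg

namespace Cfsg.Agent.S2352


theorem exists_perm_extending {α : Type*} [Finite α] (R : α → α → Prop)
    (hfun : ∀ x y y', R x y → R x y' → y = y') (hinj : ∀ x x' y, R x y → R x' y → x = x') :
    ∃ σ : Equiv.Perm α, ∀ x y, R x y → σ x = y := by
  classical
  have hg : ∀ x : {x // ∃ y, R x y}, ∃ y : {y // ∃ x, R x y}, R x.1 y.1 := fun x => by
    obtain ⟨y, hy⟩ := x.2
    exact ⟨⟨y, x.1, hy⟩, hy⟩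
  choose g hg using hg
  have hginj : Function.Injective g := by
    intro x x' h
    apply Subtype.ext
    have h1 := hg x
    have h2 := hg x'
    rw [h] at h1
    exact hinj _ _ _ h1 h2
  have hgsurj : Function.Surjective g := by
    intro y
    obtain ⟨x, hx⟩ := y.2
    exact ⟨⟨x, y.1, hx⟩, Subtype.ext (hfun _ _ _ (hg _) hx)⟩
  refine ⟨(Equiv.ofBijective g ⟨hginj, hgsurj⟩).extendSubtype, fun x y hxy => ?_⟩
  rw [Equiv.extendSubtype_apply_of_mem _ x ⟨y, hxy⟩]
  exact hfun _ _ _ (hg _) hxy

/-- doubling a permutation, padded by fixed points -/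
def dbl (m r : ℕ) : Equiv.Perm (Fin m) →* Equiv.Perm ((Fin m ⊕ Fin m) ⊕ Fin r) where
  toFun τ := Equiv.Perm.sumCongr (Equiv.Perm.sumCongr τ τ) 1
  map_one' := by
    apply Equiv.ext
    intro x
    rcases x with (x | x) | x <;> rfl
  map_mul' := by
    intro a b
    apply Equiv.ext
    intro x
    rcases x with (x | x) | x <;> rfl

theorem dbl_sign (m r : ℕ) (τ : Equiv.Perm (Fin m)) : Equiv.Perm.sign (dbl m r τ) = 1 := by
  show Equiv.Perm.sign (Equiv.Perm.sumCongr (Equiv.Perm.sumCongr τ τ) 1) = 1
  rw [Equiv.Perm.sign_sumCongr, Equiv.Perm.sign_sumCongr, Equiv.Perm.sign_one, mul_one,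
    Int.units_mul_self]

theorem dbl_injective (m r : ℕ) : Function.Injective (dbl m r) := by
  intro a b h
  apply Equiv.ext
  intro x
  have h1 : (Sum.inl (Sum.inl (a x)) : (Fin m ⊕ Fin m) ⊕ Fin r) = Sum.inl (Sum.inl (b x)) :=
    Equiv.congr_fun h (Sum.inl (Sum.inl x))
  exact Sum.inl.inj (Sum.inl.inj h1)

/-- an embedding of a symmetric group into a larger alternating group -/
def altEmb (m r n : ℕ) (e : (Fin m ⊕ Fin m) ⊕ Fin r ≃ Fin n) :
    Equiv.Perm (Fin m) →* alternatingGroup (Fin n) :=
  ((e.permCongrHom.toMonoidHom).comp (dbl m r)).codRestrict (alternatingGroup (Fin n)) (fun τ => by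
    rw [Equiv.Perm.mem_alternatingGroup]
    show Equiv.Perm.sign (e.permCongr (dbl m r τ)) = 1
    rw [Equiv.Perm.sign_permCongr, dbl_sign])

theorem altEmb_injective (m r n : ℕ) (e : (Fin m ⊕ Fin m) ⊕ Fin r ≃ Fin n) :
    Function.Injective (altEmb m r n e) := by
  intro a b h
  have h1 : e.permCongrHom (dbl m r a) = e.permCongrHom (dbl m r b) := congrArg Subtype.val h
  exact dbl_injective m r (e.permCongrHom.injective h1)

/-- A non-trivial law holds in only finitely many alternating groups: for every non-trivial element w of the free group on countably many generators there is N such that for all n ≥ N some substitution of elements of the alternating group of degree n into w is not the identity. -/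
theorem result (w : FreeGroup ℕ) (hw : w ≠ 1) :
    ∃ N : ℕ, ∀ n : ℕ, N ≤ n → ∃ f : ℕ → alternatingGroup (Fin n), FreeGroup.lift f w ≠ 1 := by
  classical
  set L := w.toWord with hL
  have hLne : L ≠ [] := fun h => hw (FreeGroup.toWord_eq_nil_iff.mp h)
  have hk : 0 < L.length := List.length_pos_of_ne_nil hLne
  have hred : FreeGroup.IsReduced L := FreeGroup.IsReduced.of_reduce_eq (FreeGroup.reduce_toWord w)
  have hred' : ∀ (i : ℕ) (h : i + 1 < L.length), (L[i]).1 = (L[i+1]).1 → (L[i]).2 = (L[i+1]).2 := by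
    intro i h
    exact (List.isChain_iff_getElem.mp hred) i h
  let R : ℕ → Fin (L.length + 1) → Fin (L.length + 1) → Prop := fun a x y =>
    ∃ (i : ℕ) (hi : i < L.length), (L[i] = (a, true) ∧ x.val = i + 1 ∧ y.val = i) ∨
      (L[i] = (a, false) ∧ x.val = i ∧ y.val = i + 1)
  have hfun : ∀ a x y y', R a x y → R a x y' → y = y' := by
    rintro a x y y' ⟨i, hi, h | h⟩ ⟨j, hj, h' | h'⟩
    · apply Fin.ext; omega
    · exfalso
      obtain ⟨h1, h2, h3⟩ := h
      obtain ⟨h1', h2', h3'⟩ := h'
      have hji : j = i + 1 := by omega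
      subst hji
      have h5 := hred' i hj
      rw [h1, h1'] at h5
      simp at h5
    · exfalso
      obtain ⟨h1, h2, h3⟩ := h
      obtain ⟨h1', h2', h3'⟩ := h'
      have hij : i = j + 1 := by omega
      subst hij
      have h5 := hred' j hi
      rw [h1, h1'] at h5
      simp at h5
    · apply Fin.ext; omega
  have hinj : ∀ a x x' y, R a x y → R a x' y → x = x' := by
    rintro a x x' y ⟨i, hi, h | h⟩ ⟨j, hj, h' | h'⟩
    · apply Fin.ext; omega
    · exfalso
      obtain ⟨h1, h2, h3⟩ := h
      obtain ⟨h1', h2', h3'⟩ := h'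
      have hij : i = j + 1 := by omega
      subst hij
      have h5 := hred' j hi
      rw [h1, h1'] at h5
      simp at h5
    · exfalso
      obtain ⟨h1, h2, h3⟩ := h
      obtain ⟨h1', h2', h3'⟩ := h'
      have hji : j = i + 1 := by omega
      subst hji
      have h5 := hred' i hj
      rw [h1, h1'] at h5
      simp at h5
    · apply Fin.ext; omega
  have hex : ∀ a, ∃ σ : Equiv.Perm (Fin (L.length + 1)), ∀ x y, R a x y → σ x = y :=
    fun a => exists_perm_extending (R a) (hfun a) (hinj a)
  choose σ hσ using hex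
  have key : ∀ d : ℕ, d ≤ L.length →
      (((L.drop (L.length - d)).map (fun x => cond x.2 (σ x.1) (σ x.1)⁻¹)).prod
        (Fin.last L.length)).val = L.length - d := by
    intro d
    induction d with
    | zero =>
      intro _
      rw [Nat.sub_zero, List.drop_length, List.map_nil, List.prod_nil]
      rfl
    | succ d ih =>
      intro hd
      have hi : L.length - (d + 1) < L.length := by omega
      have e1 : L.length - (d + 1) + 1 = L.length - d := by omega
      rw [List.drop_eq_getElem_cons hi, List.map_cons, List.prod_cons, Equiv.Perm.mul_apply, e1]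
      have hq := ih (by omega)
      generalize ((L.drop (L.length - d)).map (fun x => cond x.2 (σ x.1) (σ x.1)⁻¹)).prod
        (Fin.last L.length) = q at hq ⊢
      rcases hLi : L[L.length - (d + 1)] with ⟨a, b⟩
      cases b
      · have h5 : σ a ⟨L.length - (d + 1), by omega⟩ = q :=
          hσ a _ _ ⟨L.length - (d + 1), hi, Or.inr ⟨hLi, rfl, by omega⟩⟩
        have h6 : (σ a)⁻¹ q = ⟨L.length - (d + 1), by omega⟩ :=
          Equiv.Perm.inv_eq_iff_eq.mpr h5.symm
        show ((σ a)⁻¹ q).val = _
        rw [h6]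
      · have h5 : σ a q = ⟨L.length - (d + 1), by omega⟩ :=
          hσ a _ _ ⟨L.length - (d + 1), hi, Or.inl ⟨hLi, by omega, rfl⟩⟩
        show (σ a q).val = _
        rw [h5]
  have hval : (FreeGroup.lift σ w (Fin.last L.length)).val = 0 := by
    have h1 : FreeGroup.lift σ w = (L.map (fun x => cond x.2 (σ x.1) (σ x.1)⁻¹)).prod := by
      have h0 : FreeGroup.lift σ (FreeGroup.mk L) =
          (L.map (fun x => cond x.2 (σ x.1) (σ x.1)⁻¹)).prod := FreeGroup.lift_mk
      have hmk : FreeGroup.mk L = w := FreeGroup.mk_toWord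
      rw [hmk] at h0
      exact h0
    have h2 := key L.length le_rfl
    rw [Nat.sub_self, List.drop_zero] at h2
    rw [h1]
    exact h2
  have hne1 : FreeGroup.lift σ w ≠ 1 := by
    intro h
    rw [h] at hval
    have h5 : ((1 : Equiv.Perm (Fin (L.length + 1))) (Fin.last L.length)).val = L.length := rfl
    omega
  refine ⟨2 * (L.length + 1), fun n hn => ?_⟩
  have hcard : Fintype.card ((Fin (L.length + 1) ⊕ Fin (L.length + 1)) ⊕
      Fin (n - 2 * (L.length + 1))) = Fintype.card (Fin n) := by
    simp only [Fintype.card_sum, Fintype.card_fin]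
    omega
  let ψ := altEmb (L.length + 1) (n - 2 * (L.length + 1)) n (Fintype.equivOfCardEq hcard)
  refine ⟨fun a => ψ (σ a), ?_⟩
  have h7 : ψ (FreeGroup.lift σ w) = FreeGroup.lift (fun a => ψ (σ a)) w :=
    FreeGroup.lift_unique (ψ.comp (FreeGroup.lift σ)) (fun x => by
      rw [MonoidHom.comp_apply, FreeGroup.lift_apply_of])
  rw [← h7]
  intro h
  apply hne1
  apply altEmb_injective (L.length + 1) (n - 2 * (L.length + 1)) n (Fintype.equivOfCardEq hcard)
  rw [map_one]
  exact h

end Cfsg.Agent.S2352
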