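import Cfsg.Statements.S2353
import Mathlib
-- import your own Cfsg.Agent.* helpers here

set_option autoImplicit false
open Cfsg

namespace Cfsg.Agent.S2353


open Polynomial

/-- generator matrices over the polynomial ring -/
noncomputable def genM (F : Type*) [Field F] (i : ℕ) : Matrix.SpecialLinearGroup (Fin 2) F[X] :=
  ⟨!![1 + X ^ (i + 1) * X ^ (i + 1), X ^ (i + 1); X ^ (i + 1), 1], by
    rw [Matrix.det_fin_two_of]; ring⟩

noncomputable def letterM (F : Type*) [Field F] (x : ℕ × Bool) :
    Matrix.SpecialLinearGroup (Fin 2) F[X] :=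
  cond x.2 (genM F x.1) (genM F x.1)⁻¹

noncomputable def actM {F : Type*} [Field F] (x : ℕ × Bool) (c : F[X] × F[X]) : F[X] × F[X] :=
  if x.2 then (c.1 + X ^ (x.1 + 1) * (X ^ (x.1 + 1) * c.1 + c.2), X ^ (x.1 + 1) * c.1 + c.2)
  else (c.1 - X ^ (x.1 + 1) * c.2, -X ^ (x.1 + 1) * (c.1 - X ^ (x.1 + 1) * c.2) + c.2)

def colM {F : Type*} [Field F] (M : Matrix.SpecialLinearGroup (Fin 2) F[X]) : F[X] × F[X] :=
  (M.1 0 0, M.1 1 0)

theorem genM_coe (F : Type*) [Field F] (i : ℕ) :
    (genM F i).1 = !![1 + X ^ (i + 1) * X ^ (i + 1), X ^ (i + 1); X ^ (i + 1), 1] := rfl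

theorem genM_inv_coe (F : Type*) [Field F] (i : ℕ) :
    ((genM F i)⁻¹).1 = !![1, -X ^ (i + 1); -X ^ (i + 1), 1 + X ^ (i + 1) * X ^ (i + 1)] := by
  rw [Matrix.SpecialLinearGroup.coe_inv, genM_coe, Matrix.adjugate_fin_two_of]

theorem colM_mul {F : Type*} [Field F] (x : ℕ × Bool)
    (M : Matrix.SpecialLinearGroup (Fin 2) F[X]) :
    colM (letterM F x * M) = actM x (colM M) := by
  obtain ⟨i, e⟩ := x
  cases e
  · have e0 : letterM F (i, false) = (genM F i)⁻¹ := rfl
    rw [e0]
    apply Prod.ext
    · simp only [colM, actM, Matrix.SpecialLinearGroup.coe_mul, genM_inv_coe,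
        Matrix.mul_apply, Fin.sum_univ_two, Bool.false_eq_true, if_false]
      simp
      ring
    · simp only [colM, actM, Matrix.SpecialLinearGroup.coe_mul, genM_inv_coe,
        Matrix.mul_apply, Fin.sum_univ_two, Bool.false_eq_true, if_false]
      simp
      ring
  · have e0 : letterM F (i, true) = genM F i := rfl
    rw [e0]
    apply Prod.ext
    · simp only [colM, actM, Matrix.SpecialLinearGroup.coe_mul, genM_coe,
        Matrix.mul_apply, Fin.sum_univ_two, if_true]
      simp
      ring
    · simp only [colM, actM, Matrix.SpecialLinearGroup.coe_mul, genM_coe,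
        Matrix.mul_apply, Fin.sum_univ_two, if_true]
      simp

def QM {F : Type*} [Field F] (x : ℕ × Bool) (c : F[X] × F[X]) : Prop :=
  (x.2 = true → ∃ a b : F[X], degree a < degree b ∧ c = (a + X ^ (x.1 + 1) * b, b)) ∧
  (x.2 = false → ∃ a b : F[X], degree b < degree a ∧ c = (a, -X ^ (x.1 + 1) * a + b))

theorem key1 {F : Type*} [Field F] (a b f : F[X]) (hf : 0 < degree f) (h : degree a < degree b) :
    degree b < degree (a + f * b) := by
  have hb : b ≠ 0 := by
    rintro rfl
    rw [degree_zero] at h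
    exact not_lt_bot h
  have hf0 : f ≠ 0 := by
    rintro rfl
    rw [degree_zero] at hf
    exact not_lt_bot hf
  have hfn : 0 < natDegree f := natDegree_pos_iff_degree_pos.mpr hf
  have h1 : degree b < degree (f * b) := by
    rw [degree_mul, degree_eq_natDegree hb, degree_eq_natDegree hf0]
    exact_mod_cast (by omega : b.natDegree < f.natDegree + b.natDegree)
  have h2 : degree a < degree (f * b) := h.trans h1
  rw [degree_add_eq_right_of_degree_lt h2]
  exact h1

theorem dX {F : Type*} [Field F] (i : ℕ) : 0 < degree (X ^ (i + 1) : F[X]) := by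
  rw [degree_X_pow]
  exact_mod_cast Nat.succ_pos i

theorem dnX {F : Type*} [Field F] (i : ℕ) : 0 < degree (-X ^ (i + 1) : F[X]) := by
  rw [degree_neg]
  exact dX i

theorem dsub {F : Type*} [Field F] (i j : ℕ) (h : i ≠ j) :
    0 < degree (X ^ (j + 1) - X ^ (i + 1) : F[X]) := by
  rcases lt_or_gt_of_ne h with h1 | h1
  · rw [degree_sub_eq_left_of_degree_lt]
    · exact dX j
    · rw [degree_X_pow, degree_X_pow]
      exact_mod_cast (by omega : i + 1 < j + 1)
  · rw [degree_sub_eq_right_of_degree_lt]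
    · exact dX i
    · rw [degree_X_pow, degree_X_pow]
      exact_mod_cast (by omega : j + 1 < i + 1)

theorem QM_step {F : Type*} [Field F] (x y : ℕ × Bool) (h : x.1 = y.1 → x.2 = y.2)
    (c : F[X] × F[X]) (hQ : QM y c) : QM x (actM x c) := by
  obtain ⟨j, e'⟩ := x
  obtain ⟨i, e⟩ := y
  cases e' <;> cases e
  · -- false, false
    obtain ⟨a, b, hab, rfl⟩ := hQ.2 rfl
    refine ⟨fun h0 => by simp at h0, fun _ => ?_⟩
    have h' : degree a < degree (-X ^ (i + 1) * a + b) := by
      rw [add_comm]
      exact key1 b a _ (dnX i) hab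
    refine ⟨a - X ^ (j + 1) * (-X ^ (i + 1) * a + b), -X ^ (i + 1) * a + b, ?_, ?_⟩
    · have h2 := key1 a (-X ^ (i + 1) * a + b) _ (dnX j) h'
      have e1 : a + -X ^ (j + 1) * (-X ^ (i + 1) * a + b) =
          a - X ^ (j + 1) * (-X ^ (i + 1) * a + b) := by ring
      rw [e1] at h2
      exact h2
    · simp [actM]
  · -- x false, y true
    have hij : j ≠ i := fun h0 => by
      have := h h0
      simp at this
    obtain ⟨a, b, hab, rfl⟩ := hQ.1 rfl
    refine ⟨fun h0 => by simp at h0, fun _ => ?_⟩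
    refine ⟨a + X ^ (i + 1) * b - X ^ (j + 1) * b, b, ?_, ?_⟩
    · have h2 := key1 a b _ (dsub j i hij) hab
      have e1 : a + (X ^ (i + 1) - X ^ (j + 1)) * b = a + X ^ (i + 1) * b - X ^ (j + 1) * b := by
        ring
      rw [e1] at h2
      exact h2
    · simp [actM]
  · -- x true, y false
    have hij : j ≠ i := fun h0 => by
      have := h h0
      simp at this
    obtain ⟨a, b, hab, rfl⟩ := hQ.2 rfl
    refine ⟨fun _ => ?_, fun h0 => by simp at h0⟩
    refine ⟨a, X ^ (j + 1) * a + (-X ^ (i + 1) * a + b), ?_, ?_⟩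
    · have h2 := key1 b a _ (dsub i j hij.symm) hab
      have e1 : b + (X ^ (j + 1) - X ^ (i + 1)) * a = X ^ (j + 1) * a + (-X ^ (i + 1) * a + b) := by
        ring
      rw [e1] at h2
      exact h2
    · simp [actM]
  · -- true, true
    obtain ⟨a, b, hab, rfl⟩ := hQ.1 rfl
    refine ⟨fun _ => ?_, fun h0 => by simp at h0⟩
    have h' : degree b < degree (a + X ^ (i + 1) * b) := key1 a b _ (dX i) hab
    refine ⟨a + X ^ (i + 1) * b, X ^ (j + 1) * (a + X ^ (i + 1) * b) + b, ?_, ?_⟩
    · have h2 := key1 b (a + X ^ (i + 1) * b) _ (dX j) h'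
      have e1 : b + X ^ (j + 1) * (a + X ^ (i + 1) * b) =
          X ^ (j + 1) * (a + X ^ (i + 1) * b) + b := by ring
      rw [e1] at h2
      exact h2
    · simp [actM]

theorem QM_base {F : Type*} [Field F] (x : ℕ × Bool) : QM x (actM x ((1 : F[X]), (0 : F[X]))) := by
  obtain ⟨j, e⟩ := x
  cases e
  · refine ⟨fun h0 => by simp at h0, fun _ => ⟨1, 0, ?_, ?_⟩⟩
    · rw [degree_zero, degree_one]
      exact WithBot.bot_lt_coe 0
    · simp [actM]
  · refine ⟨fun _ => ⟨1, X ^ (j + 1), ?_, ?_⟩, fun h0 => by simp at h0⟩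
    · rw [degree_one]
      exact dX j
    · simp [actM]

theorem QM_final {F : Type*} [Field F] (x : ℕ × Bool) (c : F[X] × F[X]) (hQ : QM x c) :
    c.2 ≠ 0 := by
  obtain ⟨j, e⟩ := x
  cases e
  · obtain ⟨a, b, hab, rfl⟩ := hQ.2 rfl
    have h2 := key1 b a _ (dnX j) hab
    intro h0
    have e1 : b + -X ^ (j + 1) * a = 0 := by
      rw [add_comm]
      exact h0
    rw [e1, degree_zero] at h2
    exact not_lt_bot h2
  · obtain ⟨a, b, hab, rfl⟩ := hQ.1 rfl
    intro h0
    have e1 : b = 0 := h0
    rw [e1, degree_zero] at hab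
    exact not_lt_bot hab

theorem QM_main {F : Type*} [Field F] (L : List (ℕ × Bool)) (hL : FreeGroup.IsReduced L)
    (hne : L ≠ []) : QM (L.head hne) (colM ((L.map (letterM F)).prod)) := by
  induction L with
  | nil => exact absurd rfl hne
  | cons x L ih =>
    cases L with
    | nil =>
      rw [List.map_cons, List.map_nil, List.prod_cons, List.prod_nil, colM_mul]
      have e1 : colM (1 : Matrix.SpecialLinearGroup (Fin 2) F[X]) = ((1 : F[X]), (0 : F[X])) := by
        simp [colM]
      rw [e1]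
      exact QM_base x
    | cons y L' =>
      rw [FreeGroup.isReduced_cons_cons] at hL
      have h1 := ih hL.2 (List.cons_ne_nil _ _)
      rw [List.map_cons, List.prod_cons, colM_mul]
      exact QM_step x y hL.1 _ h1

def bnd (L : List (ℕ × Bool)) : ℕ := (L.map (fun x => 2 * (x.1 + 1))).sum

theorem letter_bound {F : Type*} [Field F] (x : ℕ × Bool) (a k : Fin 2) :
    natDegree ((letterM F x).1 a k) ≤ 2 * (x.1 + 1) := by
  obtain ⟨i, e⟩ := x
  have h1 : natDegree (1 + X ^ (i + 1) * X ^ (i + 1) : F[X]) ≤ 2 * (i + 1) := by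
    refine natDegree_add_le_of_degree_le (by simp) ?_
    rw [← pow_add, natDegree_X_pow]
    omega
  have h2 : natDegree (X ^ (i + 1) : F[X]) ≤ 2 * (i + 1) := by
    rw [natDegree_X_pow]
    omega
  have h3 : natDegree (-X ^ (i + 1) : F[X]) ≤ 2 * (i + 1) := by
    rw [natDegree_neg]
    exact h2
  have h4 : natDegree (1 : F[X]) ≤ 2 * (i + 1) := by simp
  cases e
  · have e0 : letterM F (i, false) = (genM F i)⁻¹ := rfl
    rw [e0, genM_inv_coe]
    fin_cases a <;> fin_cases k <;> simp <;> assumption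
  · have e0 : letterM F (i, true) = genM F i := rfl
    rw [e0, genM_coe]
    fin_cases a <;> fin_cases k <;> simp <;> assumption

theorem deg_bound {F : Type*} [Field F] (L : List (ℕ × Bool)) :
    ∀ a b : Fin 2, natDegree (((L.map (letterM F)).prod).1 a b) ≤ bnd L := by
  induction L with
  | nil =>
    intro a b
    rw [List.map_nil, List.prod_nil]
    show natDegree ((1 : Matrix (Fin 2) (Fin 2) F[X]) a b) ≤ _
    rw [Matrix.one_apply]
    split_ifs <;> simp
  | cons x L ih =>
    intro a b
    rw [List.map_cons, List.prod_cons, Matrix.SpecialLinearGroup.coe_mul, Matrix.mul_apply,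
      Fin.sum_univ_two]
    have e1 : bnd (x :: L) = 2 * (x.1 + 1) + bnd L := by
      simp [bnd]
    rw [e1]
    exact natDegree_add_le_of_degree_le
      (natDegree_mul_le_of_le (letter_bound x a 0) (ih 0 b))
      (natDegree_mul_le_of_le (letter_bound x a 1) (ih 1 b))

/-- A non-trivial law holds in PSL_2 over only finitely many finite fields: for every non-trivial element w of the free group on countably many generators there is N such that over every finite field with at least N elements some substitution of elements of PSL_2 into w is not the identity. -/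
theorem result (w : FreeGroup ℕ) (hw : w ≠ 1) :
    ∃ N : ℕ, ∀ (F : Type*) [Field F] [Fintype F], N ≤ Fintype.card F →
      ∃ f : ℕ → Matrix.ProjectiveSpecialLinearGroup (Fin 2) F, FreeGroup.lift f w ≠ 1 := by
  classical
  set L := w.toWord with hL
  have hLne : L ≠ [] := fun h => hw (FreeGroup.toWord_eq_nil_iff.mp h)
  have hred : FreeGroup.IsReduced L := FreeGroup.IsReduced.of_reduce_eq (FreeGroup.reduce_toWord w)
  refine ⟨bnd L + 1, fun F _ _ hN => ?_⟩
  have hmk : FreeGroup.lift (genM F) w = (L.map (letterM F)).prod := by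
    have h0 : FreeGroup.lift (genM F) (FreeGroup.mk L) =
        (L.map (fun x => cond x.2 (genM F x.1) (genM F x.1)⁻¹)).prod := FreeGroup.lift_mk
    have hmk : FreeGroup.mk L = w := FreeGroup.mk_toWord
    rw [hmk] at h0
    exact h0
  have hP : ((L.map (letterM F)).prod).1 1 0 ≠ 0 := QM_final _ _ (QM_main L hred hLne)
  have hdeg : natDegree (((L.map (letterM F)).prod).1 1 0) ≤ bnd L := deg_bound L 1 0
  obtain ⟨t, ht⟩ : ∃ t : F, (((L.map (letterM F)).prod).1 1 0).eval t ≠ 0 := by
    by_contra hcon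
    push_neg at hcon
    exact hP (Polynomial.eq_zero_of_natDegree_lt_card_of_eval_eq_zero _ (f := id)
      Function.injective_id hcon (by omega))
  let φ : Matrix.SpecialLinearGroup (Fin 2) (Polynomial F) →*
      Matrix.ProjectiveSpecialLinearGroup (Fin 2) F :=
    (QuotientGroup.mk' (Subgroup.center _)).comp
      (Matrix.SpecialLinearGroup.map (Polynomial.evalRingHom t))
  refine ⟨fun i => φ (genM F i), ?_⟩
  have h7 : φ (FreeGroup.lift (genM F) w) = FreeGroup.lift (fun i => φ (genM F i)) w :=
    FreeGroup.lift_unique (φ.comp (FreeGroup.lift (genM F))) (fun x => by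
      rw [MonoidHom.comp_apply, FreeGroup.lift_apply_of])
  rw [← h7, hmk]
  intro h
  have h8 : Matrix.SpecialLinearGroup.map (Polynomial.evalRingHom t) ((L.map (letterM F)).prod) ∈
      Subgroup.center (Matrix.SpecialLinearGroup (Fin 2) F) := (QuotientGroup.eq_one_iff _).mp h
  rw [Matrix.SpecialLinearGroup.mem_center_iff] at h8
  obtain ⟨r, hr, hr2⟩ := h8
  have h9 : (Matrix.SpecialLinearGroup.map (Polynomial.evalRingHom t)
      ((L.map (letterM F)).prod)).1 1 0 = (((L.map (letterM F)).prod).1 1 0).eval t := rfl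
  rw [← hr2] at h9
  apply ht
  rw [← h9]
  simp

end Cfsg.Agent.S2353
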