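import Cfsg.Statements.S2450
import Mathlib
import Cfsg.Agent.Lib.Helper4.SL2Torus

set_option autoImplicit false
open Cfsg

namespace Cfsg.Agent.S2450

open Cfsg.Agent.Lib.Helper4

/-- The projection `SL₂ → PSL₂`. -/
def pr {F : Type*} [Field F] : Matrix.SpecialLinearGroup (Fin 2) F →*
    Matrix.ProjectiveSpecialLinearGroup (Fin 2) F :=
  QuotientGroup.mk' (Subgroup.center (Matrix.SpecialLinearGroup (Fin 2) F))


/-- The Arad–Herzog conjecture for PSL(2,q): let F be a finite field with q ≥ 4 elements. For any two non-identity elements a, b of PSL(2,F), the set of products of a conjugate of a with a conjugate of b is not a single conjugacy class. -/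
theorem result {F : Type*} [Field F] [Fintype F] (h4 : 4 ≤ Fintype.card F)
    (a b : Matrix.ProjectiveSpecialLinearGroup (Fin 2) F) (ha : a ≠ 1) (hb : b ≠ 1) (c : Matrix.ProjectiveSpecialLinearGroup (Fin 2) F) :
    {g : Matrix.ProjectiveSpecialLinearGroup (Fin 2) F | ∃ u v : Matrix.ProjectiveSpecialLinearGroup (Fin 2) F, g = (u * a * u⁻¹) * (v * b * v⁻¹)} ≠ {g | IsConj c g} := by
  classical
  intro heq
  have hz0c := sl2PM_false_mem_center (F := F)
  have hZ := sl2_mem_center_iff (F := F)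
  have hπ1 : ∀ y : Matrix.SpecialLinearGroup (Fin 2) F,
      y ∈ Subgroup.center (Matrix.SpecialLinearGroup (Fin 2) F) → pr y = 1 := by
    intro y hy
    exact (QuotientGroup.eq_one_iff y).2 hy
  have hscal : ∀ y : Matrix.SpecialLinearGroup (Fin 2) F,
      y ∉ Subgroup.center (Matrix.SpecialLinearGroup (Fin 2) F) →
      ¬ ((y : Matrix (Fin 2) (Fin 2) F) 0 1 = 0 ∧ (y : Matrix (Fin 2) (Fin 2) F) 1 0 = 0 ∧
        (y : Matrix (Fin 2) (Fin 2) F) 0 0 = (y : Matrix (Fin 2) (Fin 2) F) 1 1) := by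
    rintro y hy ⟨h01, h10, h00⟩
    obtain ⟨s, hs⟩ := sl2_scalar_eq_pm y h01 h10 h00
    apply hy
    cases s
    · rw [hs]
      exact hz0c
    · rw [hs, sl2PM_true_zero]
      exact Subgroup.one_mem _
  -- conjugacy in PSL₂ preserves the square of the trace
  have htrsq : ∀ g1 g2 : Matrix.SpecialLinearGroup (Fin 2) F, IsConj (pr g1) (pr g2) →
      (Matrix.trace (g1 : Matrix (Fin 2) (Fin 2) F)) ^ 2 =
        (Matrix.trace (g2 : Matrix (Fin 2) (Fin 2) F)) ^ 2 := by
    intro g1 g2 h
    obtain ⟨w, hw⟩ := isConj_iff.1 h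
    obtain ⟨w, rfl⟩ := QuotientGroup.mk_surjective w
    have h1 : pr (w * g1 * w⁻¹) = pr g2 := by
      rw [← hw, map_mul, map_mul, map_inv]
      rfl
    have h2 : (w * g1 * w⁻¹)⁻¹ * g2 ∈ Subgroup.center (Matrix.SpecialLinearGroup (Fin 2) F) :=
      QuotientGroup.eq.1 h1
    have h3 : Matrix.trace ((w * g1 * w⁻¹ : Matrix.SpecialLinearGroup (Fin 2) F) :
        Matrix (Fin 2) (Fin 2) F) = Matrix.trace (g1 : Matrix (Fin 2) (Fin 2) F) :=
      (sl2_conj_trace (isConj_iff.2 ⟨w, rfl⟩)).symm
    rcases (hZ _).1 h2 with h | h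
    · have : g2 = w * g1 * w⁻¹ := by
        rw [← mul_one (w * g1 * w⁻¹), ← h]
        group
      rw [this, h3]
    · have : g2 = (w * g1 * w⁻¹) * sl2PM false (0 : F) := by
        rw [← h]
        group
      rw [this, Subgroup.mem_center_iff.1 hz0c (w * g1 * w⁻¹), sl2_trace_neg, h3]
      ring
  obtain ⟨at', rfl⟩ := QuotientGroup.mk_surjective a
  obtain ⟨bt, rfl⟩ := QuotientGroup.mk_surjective b
  change pr at' ≠ 1 at ha
  change pr bt ≠ 1 at hb
  have hac : at' ∉ Subgroup.center (Matrix.SpecialLinearGroup (Fin 2) F) := fun h => ha (hπ1 _ h)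
  have hbc : bt ∉ Subgroup.center (Matrix.SpecialLinearGroup (Fin 2) F) := fun h => hb (hπ1 _ h)
  obtain ⟨u, hu⟩ := sl2_isConj_comp at' (hscal at' hac)
  obtain ⟨v, hv⟩ := sl2_isConj_comp bt (hscal bt hbc)
  obtain ⟨ca, hca⟩ := isConj_iff.1 hu
  obtain ⟨cb, hcb⟩ := isConj_iff.1 hv
  obtain ⟨t, ht⟩ : ∃ t, t = Matrix.trace (at' : Matrix (Fin 2) (Fin 2) F) := ⟨_, rfl⟩
  obtain ⟨s, hs⟩ : ∃ s, s = Matrix.trace (bt : Matrix (Fin 2) (Fin 2) F) := ⟨_, rfl⟩
  rw [← ht] at hca
  rw [← hs] at hcb
  have hu0 : (u : F) ≠ 0 := u.ne_zero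
  have hv0 : (v : F) ≠ 0 := v.ne_zero
  have hinv : ∀ y : F, (sl2Unip y)⁻¹ = sl2Unip (-y) := by
    intro y
    symm
    apply eq_inv_of_mul_eq_one_right
    apply Subtype.ext
    rw [Matrix.SpecialLinearGroup.coe_mul, sl2Unip_val, sl2Unip_val,
      Matrix.SpecialLinearGroup.coe_one]
    ext i j
    fin_cases i <;> fin_cases j <;> simp [Matrix.mul_apply, Fin.sum_univ_two]
  -- the trace polynomial
  have htr : ∀ y : F, Matrix.trace ((sl2Comp t u * (sl2Unip y * sl2Comp s v * (sl2Unip y)⁻¹) :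
      Matrix.SpecialLinearGroup (Fin 2) F) : Matrix (Fin 2) (Fin 2) F) =
      -(u * v : F) * y ^ 2 + (u * s - t * v) * y + (t * s - v / u - u / v) := by
    intro y
    rw [hinv, Matrix.SpecialLinearGroup.coe_mul, Matrix.SpecialLinearGroup.coe_mul,
      Matrix.SpecialLinearGroup.coe_mul, sl2Comp_val, sl2Comp_val, sl2Unip_val, sl2Unip_val,
      Matrix.trace_fin_two]
    simp [Matrix.mul_apply, Fin.sum_univ_two]
    field_simp
    ring
  -- all these products lie in the product set
  have hmem : ∀ y : F, IsConj c (pr (sl2Comp t u * (sl2Unip y * sl2Comp s v * (sl2Unip y)⁻¹))) := by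
    intro y
    have h1 : pr (sl2Comp t u * (sl2Unip y * sl2Comp s v * (sl2Unip y)⁻¹)) ∈
        {g : Matrix.ProjectiveSpecialLinearGroup (Fin 2) F | ∃ u v :
          Matrix.ProjectiveSpecialLinearGroup (Fin 2) F,
          g = (u * pr at' * u⁻¹) * (v * pr bt * v⁻¹)} := by
      refine ⟨pr ca, pr (sl2Unip y * cb), ?_⟩
      rw [← hca, ← hcb]
      simp only [map_mul, map_inv]
      group
    have h2 : pr (sl2Comp t u * (sl2Unip y * sl2Comp s v * (sl2Unip y)⁻¹)) ∈
        {g : Matrix.ProjectiveSpecialLinearGroup (Fin 2) F | IsConj c g} := by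
      rw [← heq]
      exact h1
    exact h2
  have hsq : ∀ y : F,
      (-(u * v : F) * y ^ 2 + (u * s - t * v) * y + (t * s - v / u - u / v)) ^ 2 =
      (-(u * v : F) * (0 : F) ^ 2 + (u * s - t * v) * 0 + (t * s - v / u - u / v)) ^ 2 := by
    intro y
    rw [← htr y, ← htr 0]
    exact htrsq _ _ ((hmem y).symm.trans (hmem 0))
  -- polynomial contradiction
  obtain ⟨A, hA⟩ : ∃ A : F, A = -(u * v : F) := ⟨_, rfl⟩
  obtain ⟨B, hB⟩ : ∃ B : F, B = (u * s - t * v : F) := ⟨_, rfl⟩
  obtain ⟨K, hK⟩ : ∃ K : F, K = (t * s - v / u - u / v : F) := ⟨_, rfl⟩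
  rw [← hA, ← hB, ← hK] at hsq
  have hA0 : A ≠ 0 := by
    rw [hA]
    exact neg_ne_zero.2 (mul_ne_zero hu0 hv0)
  have hsq' : ∀ y : F, (A * y ^ 2 + B * y + (K - K)) * (A * y ^ 2 + B * y + (K + K)) = 0 := by
    intro y
    have := hsq y
    linear_combination this
  by_cases h2 : (2 : F) = 0
  · have hq : ∀ y : F, (Polynomial.C A * Polynomial.X ^ 2 + Polynomial.C B * Polynomial.X +
        Polynomial.C (K - K) : Polynomial F).eval y = 0 := by
      intro y
      simp only [Polynomial.eval_add, Polynomial.eval_mul, Polynomial.eval_C, Polynomial.eval_pow,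
        Polynomial.eval_X]
      have h1 := hsq' y
      have h3 : (A * y ^ 2 + B * y + (K - K)) ^ 2 = 0 := by
        linear_combination h1 - (A * y ^ 2 + B * y + (K - K)) * K * h2
      exact (pow_eq_zero_iff two_ne_zero).1 h3
    have h0 := Polynomial.eq_zero_of_natDegree_lt_card_of_eval_eq_zero _ (f := id)
      Function.injective_id hq (by
        rw [Polynomial.natDegree_quadratic hA0]
        omega)
    have h1 := Polynomial.natDegree_quadratic (b := B) (c := K - K) hA0
    rw [h0] at h1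
    simp at h1
  · have hq5 : 5 ≤ Fintype.card F := by
      by_contra hlt
      have hq4 : Fintype.card F = 4 := by omega
      have hchar : ringChar F = 2 := FiniteField.even_card_iff_char_two.2 (by rw [hq4])
      have : CharP F 2 := ringChar.of_eq hchar
      exact h2 (CharP.ofNat_eq_zero F 2)
    have hq : ∀ y : F, ((Polynomial.C A * Polynomial.X ^ 2 + Polynomial.C B * Polynomial.X +
        Polynomial.C (K - K)) * (Polynomial.C A * Polynomial.X ^ 2 + Polynomial.C B * Polynomial.X +
        Polynomial.C (K + K)) : Polynomial F).eval y = 0 := by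
      intro y
      simp only [Polynomial.eval_add, Polynomial.eval_mul, Polynomial.eval_C, Polynomial.eval_pow,
        Polynomial.eval_X]
      exact hsq' y
    have hd1 := Polynomial.natDegree_quadratic (b := B) (c := K - K) hA0
    have hd2 := Polynomial.natDegree_quadratic (b := B) (c := K + K) hA0
    have hn1 : (Polynomial.C A * Polynomial.X ^ 2 + Polynomial.C B * Polynomial.X +
        Polynomial.C (K - K) : Polynomial F) ≠ 0 := by
      intro h
      rw [h] at hd1
      simp at hd1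
    have hn2 : (Polynomial.C A * Polynomial.X ^ 2 + Polynomial.C B * Polynomial.X +
        Polynomial.C (K + K) : Polynomial F) ≠ 0 := by
      intro h
      rw [h] at hd2
      simp at hd2
    have h0 := Polynomial.eq_zero_of_natDegree_lt_card_of_eval_eq_zero _ (f := id)
      Function.injective_id hq (by
        rw [Polynomial.natDegree_mul hn1 hn2, hd1, hd2]
        omega)
    rcases mul_eq_zero.1 h0 with h | h
    · exact hn1 h
    · exact hn2 h

end Cfsg.Agent.S2450
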