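import Cfsg.Statements.S2455
import Mathlib
import Cfsg.Agent.Lib.Helper4.SL2Torus

set_option autoImplicit false
open Cfsg

namespace Cfsg.Agent.S2455

open Cfsg.Agent.Lib.Helper4

/-- The projection `SL₂ → PSL₂`. -/
def pr {F : Type*} [Field F] : Matrix.SpecialLinearGroup (Fin 2) F →*
    Matrix.ProjectiveSpecialLinearGroup (Fin 2) F :=
  QuotientGroup.mk' (Subgroup.center (Matrix.SpecialLinearGroup (Fin 2) F))


/-- A strong covering result in the direction of Thompson's conjecture (non-identity elements) for PSL(2,q), q odd: let F be a finite field of odd characteristic p with at least 5 elements and let x ∈ PSL(2,F) have order greater than 2 and not divisible by p (so x is not unipotent). Then every non-identity element of PSL(2,F) is a product of two conjugates of x. -/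
theorem result {F : Type*} [Field F] [Fintype F] (p : ℕ) [Fact p.Prime] [CharP F p] (hp : p ≠ 2) (h5 : 5 ≤ Fintype.card F)
    (x : Matrix.ProjectiveSpecialLinearGroup (Fin 2) F) (hx2 : 2 < orderOf x) (hxp : ¬ p ∣ orderOf x) : ∀ g : Matrix.ProjectiveSpecialLinearGroup (Fin 2) F, g ≠ 1 → ∃ u v : Matrix.ProjectiveSpecialLinearGroup (Fin 2) F, g = (u * x * u⁻¹) * (v * x * v⁻¹) := by
  classical
  have hpp := (Fact.out : p.Prime)
  have hchar : ringChar F ≠ 2 := by
    rw [ringChar.eq F p]
    exact hp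
  have hq1 : Fintype.card F % 2 = 1 := FiniteField.odd_card_of_char_ne_two hchar
  have h2 : (2 : F) ≠ 0 := Ring.two_ne_zero hchar
  have h4 : (4 : F) ≠ 0 := by
    have : (4 : F) = 2 * 2 := by norm_num
    rw [this]
    exact mul_ne_zero h2 h2
  have hz0c := sl2PM_false_mem_center (F := F)
  have hZ := sl2_mem_center_iff (F := F)
  have hπ1 : ∀ y : Matrix.SpecialLinearGroup (Fin 2) F,
      y ∈ Subgroup.center (Matrix.SpecialLinearGroup (Fin 2) F) → pr y = 1 := by
    intro y hy
    exact (QuotientGroup.eq_one_iff y).2 hy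
  have hπc : ∀ y : Matrix.SpecialLinearGroup (Fin 2) F, pr y = 1 →
      y ∈ Subgroup.center (Matrix.SpecialLinearGroup (Fin 2) F) := by
    intro y hy
    exact (QuotientGroup.eq_one_iff y).1 hy
  have hscal : ∀ y : Matrix.SpecialLinearGroup (Fin 2) F,
      y ∉ Subgroup.center (Matrix.SpecialLinearGroup (Fin 2) F) →
      ¬ ((y : Matrix (Fin 2) (Fin 2) F) 0 1 = 0 ∧ (y : Matrix (Fin 2) (Fin 2) F) 1 0 = 0 ∧
        (y : Matrix (Fin 2) (Fin 2) F) 0 0 = (y : Matrix (Fin 2) (Fin 2) F) 1 1) := by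
    rintro y hy ⟨h01, h10, h00⟩
    obtain ⟨s, hs⟩ := sl2_scalar_eq_pm y h01 h10 h00
    apply hy
    cases s
    · rw [hs]
      exact hz0c
    · rw [hs, sl2PM_true_zero]
      exact Subgroup.one_mem _
  obtain ⟨xt, rfl⟩ := QuotientGroup.mk_surjective x
  change 2 < orderOf (pr xt) at hx2
  change ¬ p ∣ orderOf (pr xt) at hxp
  have hxc : xt ∉ Subgroup.center (Matrix.SpecialLinearGroup (Fin 2) F) := by
    intro h
    rw [hπ1 xt h, orderOf_one] at hx2
    omega
  obtain ⟨t, ht⟩ : ∃ t, t = Matrix.trace (xt : Matrix (Fin 2) (Fin 2) F) := ⟨_, rfl⟩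
  have hunip : ∀ y : Matrix.SpecialLinearGroup (Fin 2) F,
      Matrix.trace (y : Matrix (Fin 2) (Fin 2) F) = 2 → y ≠ 1 → (pr y) ^ p = 1 := by
    intro y hty hy1
    have ho := (sl2_orderOf_eq_char_iff p y).2 ⟨hty, hy1⟩
    rw [← map_pow, ← ho, pow_orderOf_eq_one, map_one]
  have ht4 : t ^ 2 ≠ 4 := by
    intro h
    have hpow : (pr xt) ^ p = 1 := by
      have ht' : t = 2 ∨ t = -2 := by
        have : (t - 2) * (t + 2) = 0 := by linear_combination h
        rcases mul_eq_zero.1 this with h' | h'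
        · left
          exact sub_eq_zero.1 h'
        · right
          exact eq_neg_of_add_eq_zero_left h'
      rcases ht' with h' | h'
      · exact hunip xt (by rw [← ht, h']) (fun h1 => hxc (h1 ▸ Subgroup.one_mem _))
      · have h5 := hunip (sl2PM false (0 : F) * xt) (by rw [sl2_trace_neg, ← ht, h', neg_neg]) (by
          intro h1
          apply hxc
          have hx : xt = (sl2PM false (0 : F))⁻¹ := eq_inv_of_mul_eq_one_right h1
          rw [hx]
          exact inv_mem hz0c)
        rw [map_mul, hπ1 _ hz0c, one_mul] at h5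
        exact h5
    have hdvd := orderOf_dvd_of_pow_eq_one hpow
    rcases (Nat.dvd_prime hpp).1 hdvd with h1 | h1
    · omega
    · exact hxp (by rw [h1])
  have ht0 : t ≠ 0 := by
    intro h
    have hsq : xt * xt = sl2PM false (0 : F) := by
      have hd := sl2_det xt
      have htr : (xt : Matrix (Fin 2) (Fin 2) F) 0 0 + (xt : Matrix (Fin 2) (Fin 2) F) 1 1 = 0 := by
        rw [← Matrix.trace_fin_two, ← ht, h]
      apply Subtype.ext
      rw [Matrix.SpecialLinearGroup.coe_mul, sl2PM_val]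
      ext i j
      fin_cases i <;> fin_cases j <;> simp [Matrix.mul_apply, Fin.sum_univ_two]
      · linear_combination (xt : Matrix (Fin 2) (Fin 2) F) 0 0 * htr - hd
      · linear_combination (xt : Matrix (Fin 2) (Fin 2) F) 0 1 * htr
      · linear_combination (xt : Matrix (Fin 2) (Fin 2) F) 1 0 * htr
      · linear_combination (xt : Matrix (Fin 2) (Fin 2) F) 1 1 * htr - hd
    have hpow : (pr xt) ^ 2 = 1 := by
      rw [← map_pow, sq, hsq]
      exact hπ1 _ hz0c
    have hdvd := orderOf_dvd_of_pow_eq_one hpow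
    have := Nat.le_of_dvd (by norm_num) hdvd
    omega
  have hall := sl2Comp_conj_of_sq_ne_four hq1 h2 t ht4
  -- conjugates of `pr xt`
  have hconjx : ∀ y : Matrix.SpecialLinearGroup (Fin 2) F,
      (Matrix.trace (y : Matrix (Fin 2) (Fin 2) F) = t ∨
        Matrix.trace (y : Matrix (Fin 2) (Fin 2) F) = -t) →
      ∃ c : Matrix.SpecialLinearGroup (Fin 2) F, pr y = pr c * pr xt * (pr c)⁻¹ := by
    intro y hy
    rcases hy with hy | hy
    · obtain ⟨c, hc⟩ := isConj_iff.1 (sl2_isConj_of_trace_eq t ht4 hall xt y ht.symm hy)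
      refine ⟨c, ?_⟩
      rw [← hc, map_mul, map_mul, map_inv]
    · obtain ⟨c, hc⟩ := isConj_iff.1 (sl2_isConj_of_trace_eq t ht4 hall xt
        (sl2PM false (0 : F) * y) ht.symm (by rw [sl2_trace_neg, hy, neg_neg]))
      refine ⟨c, ?_⟩
      have h1 : pr y = pr (sl2PM false (0 : F) * y) := by
        rw [map_mul, hπ1 _ hz0c, one_mul]
      rw [h1, ← hc, map_mul, map_mul, map_inv]
  -- the key factorisation
  have hfac : ∀ (τ : F) (u : Fˣ), τ ≠ -2 → ∃ y1 y2 : Matrix.SpecialLinearGroup (Fin 2) F,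
      y1 * y2 = sl2Comp τ u ∧ Matrix.trace (y1 : Matrix (Fin 2) (Fin 2) F) = t ∧
      (Matrix.trace (y2 : Matrix (Fin 2) (Fin 2) F) = t ∨
        Matrix.trace (y2 : Matrix (Fin 2) (Fin 2) F) = -t) := by
    intro τ u hτ
    have hu : (u : F) ≠ 0 := u.ne_zero
    have hgen : ∀ α β γ : F, α * (t - α) - β * γ = 1 →
        ∃ y1 y2 : Matrix.SpecialLinearGroup (Fin 2) F,
          y1 * y2 = sl2Comp τ u ∧ Matrix.trace (y1 : Matrix (Fin 2) (Fin 2) F) = t ∧
          Matrix.trace (y2 : Matrix (Fin 2) (Fin 2) F) = -(β * u) + γ / u + α * τ := by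
      intro α β γ hdet
      obtain ⟨y1, hy1⟩ : ∃ y : Matrix.SpecialLinearGroup (Fin 2) F,
          (y : Matrix (Fin 2) (Fin 2) F) = !![α, β; γ, t - α] :=
        ⟨⟨!![α, β; γ, t - α], by rw [Matrix.det_fin_two]; simp; linear_combination hdet⟩, rfl⟩
      obtain ⟨y2, hy2⟩ : ∃ y : Matrix.SpecialLinearGroup (Fin 2) F,
          (y : Matrix (Fin 2) (Fin 2) F) =
            !![-(β * u), -(t - α) / u - β * τ; α * u, γ / u + α * τ] :=
        ⟨⟨!![-(β * u), -(t - α) / u - β * τ; α * u, γ / u + α * τ], by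
          rw [Matrix.det_fin_two]; simp; field_simp; linear_combination hdet⟩, rfl⟩
      refine ⟨y1, y2, ?_, ?_, ?_⟩
      · apply Subtype.ext
        rw [Matrix.SpecialLinearGroup.coe_mul, hy1, hy2, sl2Comp_val]
        ext i j
        fin_cases i <;> fin_cases j <;> simp [Matrix.mul_apply, Fin.sum_univ_two]
        · ring
        · field_simp
          linear_combination -hdet
        · linear_combination (u : F) * hdet
        · field_simp
          linear_combination (τ * u) * hdet
      · rw [hy1, Matrix.trace_fin_two]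
        simp
      · rw [hy2, Matrix.trace_fin_two]
        simp
        ring
    by_cases hτ2 : τ = 2
    · -- explicit solution
      obtain ⟨y1, y2, h1, h2', h3⟩ := hgen (1 / (2 * t)) (1 / (2 * t * u))
        (-(u * (t + 1 / (2 * t)))) (by field_simp; ring)
      refine ⟨y1, y2, h1, h2', Or.inr ?_⟩
      rw [h3, hτ2]
      field_simp
      ring
    · have hτ4 : (4 : F) - τ ^ 2 ≠ 0 := by
        intro h
        have : (τ - 2) * (τ + 2) = 0 := by linear_combination -h
        rcases mul_eq_zero.1 this with h' | h'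
        · exact hτ2 (sub_eq_zero.1 h')
        · exact hτ (eq_neg_of_add_eq_zero_left h')
      obtain ⟨A, α, hAα⟩ := FiniteField.exists_root_sum_quadratic
        (f := (Polynomial.X ^ 2 : Polynomial F))
        (g := (Polynomial.C (4 - τ ^ 2) * Polynomial.X ^ 2 +
          Polynomial.C (2 * τ * t - 4 * t) * Polynomial.X + Polynomial.C (4 - t ^ 2) : Polynomial F))
        (Polynomial.degree_X_pow 2) (Polynomial.degree_quadratic hτ4) hq1
      simp only [Polynomial.eval_add, Polynomial.eval_pow, Polynomial.eval_X, Polynomial.eval_C,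
        Polynomial.eval_mul] at hAα
      obtain ⟨y1, y2, h1, h2', h3⟩ := hgen α ((A - t + τ * α) / (2 * u))
        (u * (A + t - τ * α) / 2) (by field_simp; linear_combination -hAα)
      refine ⟨y1, y2, h1, h2', Or.inl ?_⟩
      rw [h3]
      field_simp
      ring
  intro g hg
  obtain ⟨gt, rfl⟩ := QuotientGroup.mk_surjective g
  change pr gt ≠ 1 at hg
  have hgc : gt ∉ Subgroup.center (Matrix.SpecialLinearGroup (Fin 2) F) := fun h => hg (hπ1 gt h)
  -- reduce to trace ≠ -2
  obtain ⟨g', hg'c, hg'π, hg'τ⟩ : ∃ g' : Matrix.SpecialLinearGroup (Fin 2) F,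
      g' ∉ Subgroup.center (Matrix.SpecialLinearGroup (Fin 2) F) ∧ pr g' = pr gt ∧
      Matrix.trace (g' : Matrix (Fin 2) (Fin 2) F) ≠ -2 := by
    by_cases hτ : Matrix.trace (gt : Matrix (Fin 2) (Fin 2) F) = -2
    · refine ⟨sl2PM false (0 : F) * gt, ?_, ?_, ?_⟩
      · intro h
        apply hgc
        have : gt = (sl2PM false (0 : F))⁻¹ * (sl2PM false (0 : F) * gt) := by group
        rw [this]
        exact mul_mem (inv_mem hz0c) h
      · rw [map_mul, hπ1 _ hz0c, one_mul]
      · rw [sl2_trace_neg, hτ, neg_neg]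
        intro h
        apply h4
        linear_combination h
    · exact ⟨gt, hgc, rfl, hτ⟩
  obtain ⟨u, hu⟩ := sl2_isConj_comp g' (hscal g' hg'c)
  obtain ⟨c, hc⟩ := isConj_iff.1 hu
  obtain ⟨y1, y2, hy, hy1, hy2⟩ := hfac _ u hg'τ
  obtain ⟨c1, hc1⟩ := hconjx y1 (Or.inl hy1)
  obtain ⟨c2, hc2⟩ := hconjx y2 hy2
  refine ⟨pr (c⁻¹ * c1), pr (c⁻¹ * c2), ?_⟩
  show pr gt = pr (c⁻¹ * c1) * pr xt * (pr (c⁻¹ * c1))⁻¹ *
    (pr (c⁻¹ * c2) * pr xt * (pr (c⁻¹ * c2))⁻¹)
  have h5 : g' = c⁻¹ * (y1 * y2) * c := by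
    rw [hy, ← hc]
    group
  rw [← hg'π, h5]
  simp only [map_mul, map_inv, hc1, hc2]
  group

end Cfsg.Agent.S2455
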