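import Cfsg.Statements.S2456
import Mathlib
import Cfsg.Agent.Lib.Helper4.SL2Torus
import Cfsg.Agent.S2302

set_option autoImplicit false
open Cfsg

namespace Cfsg.Agent.S2456

open Cfsg.Agent.Lib.Helper4

/-- The projection `SL₂ → PSL₂`. -/
def pr {F : Type*} [Field F] : Matrix.SpecialLinearGroup (Fin 2) F →*
    Matrix.ProjectiveSpecialLinearGroup (Fin 2) F :=
  QuotientGroup.mk' (Subgroup.center (Matrix.SpecialLinearGroup (Fin 2) F))


/-- A strong covering result in the direction of Thompson's conjecture (non-identity elements) for PSL(2,q), q even: let F be a finite field of characteristic 2 with q ≥ 4 elements and let x ∈ PSL(2,F) have order greater than 2 and not dividing q + 1. Then every non-identity element of PSL(2,F) is a product of two conjugates of x. -/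
theorem result {F : Type*} [Field F] [Fintype F] [CharP F 2] (h4 : 4 ≤ Fintype.card F)
    (x : Matrix.ProjectiveSpecialLinearGroup (Fin 2) F) (hx2 : 2 < orderOf x) (hxq : ¬ orderOf x ∣ Fintype.card F + 1) : ∀ g : Matrix.ProjectiveSpecialLinearGroup (Fin 2) F, g ≠ 1 → ∃ u v : Matrix.ProjectiveSpecialLinearGroup (Fin 2) F, g = (u * x * u⁻¹) * (v * x * v⁻¹) := by
  classical
  have h20 : (2 : F) = 0 := CharP.ofNat_eq_zero F 2
  have h40 : (4 : F) = 0 := by
    have : (4 : F) = 2 * 2 := by norm_num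
    rw [this, h20, mul_zero]
  have hZ := sl2_mem_center_iff (F := F)
  have hz1 : sl2PM false (0 : F) = 1 := by
    rw [← sl2PM_true_zero]
    apply Subtype.ext
    rw [sl2PM_val, sl2PM_val]
    have hneg : (-1 : F) = 1 := by linear_combination -h20
    ext i j
    fin_cases i <;> fin_cases j <;> simp [hneg]
  have hcenter : Subgroup.center (Matrix.SpecialLinearGroup (Fin 2) F) = ⊥ := by
    rw [eq_bot_iff]
    intro z hz
    rw [Subgroup.mem_bot]
    rcases (hZ z).1 hz with h | h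
    · exact h
    · rw [h, hz1]
  have hinj : Function.Injective (pr (F := F)) := by
    rw [← MonoidHom.ker_eq_bot_iff]
    unfold pr
    rw [QuotientGroup.ker_mk', hcenter]
  -- scalar elements are trivial
  have hscal : ∀ y : Matrix.SpecialLinearGroup (Fin 2) F, y ≠ 1 →
      ¬ ((y : Matrix (Fin 2) (Fin 2) F) 0 1 = 0 ∧ (y : Matrix (Fin 2) (Fin 2) F) 1 0 = 0 ∧
        (y : Matrix (Fin 2) (Fin 2) F) 0 0 = (y : Matrix (Fin 2) (Fin 2) F) 1 1) := by
    rintro y hy ⟨h01, h10, h00⟩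
    obtain ⟨s, hs⟩ := sl2_scalar_eq_pm y h01 h10 h00
    apply hy
    cases s
    · rw [hs, hz1]
    · rw [hs, sl2PM_true_zero]
  -- conjugacy of non-scalar elements of equal trace
  have hconj : ∀ y y' : Matrix.SpecialLinearGroup (Fin 2) F, y ≠ 1 → y' ≠ 1 →
      Matrix.trace (y : Matrix (Fin 2) (Fin 2) F) = Matrix.trace (y' : Matrix (Fin 2) (Fin 2) F) →
      IsConj y y' := by
    intro y y' hy hy' htr
    by_cases ht : Matrix.trace (y : Matrix (Fin 2) (Fin 2) F) = 0
    · have ho : ∀ z : Matrix.SpecialLinearGroup (Fin 2) F, z ≠ 1 →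
          Matrix.trace (z : Matrix (Fin 2) (Fin 2) F) = 0 → orderOf z = 2 := by
        intro z hz hzt
        have h11 : (z : Matrix (Fin 2) (Fin 2) F) 1 1 = (z : Matrix (Fin 2) (Fin 2) F) 0 0 := by
          rw [Matrix.trace_fin_two] at hzt
          linear_combination hzt - (z : Matrix (Fin 2) (Fin 2) F) 0 0 * h20
        apply Cfsg.Agent.S2302.ord2_of_entries z h11
        rintro ⟨h01, h10⟩
        exact hscal z hz ⟨h01, h10, h11.symm⟩
      exact (Cfsg.Agent.S2302.result y y' (ho y hy ht) (ho y' hy' (htr ▸ ht))).1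
    · refine sl2_isConj_of_trace_eq _ ?_ (sl2Comp_conj_of_char_two _) y y' rfl htr.symm
      rw [h40]
      exact pow_ne_zero 2 ht
  obtain ⟨xt, rfl⟩ := QuotientGroup.mk_surjective x
  have hord : orderOf (pr xt) = orderOf xt := orderOf_injective pr hinj xt
  have hx2' : 2 < orderOf xt := by
    rw [← hord]
    exact hx2
  have hxq' : ¬ orderOf xt ∣ Fintype.card F + 1 := by
    rw [← hord]
    exact hxq
  have hx1 : xt ≠ 1 := by
    rintro rfl
    rw [orderOf_one] at hx2'
    omega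
  have ht0 : Matrix.trace (xt : Matrix (Fin 2) (Fin 2) F) ≠ 0 := by
    intro ht
    have h11 : (xt : Matrix (Fin 2) (Fin 2) F) 1 1 = (xt : Matrix (Fin 2) (Fin 2) F) 0 0 := by
      rw [Matrix.trace_fin_two] at ht
      linear_combination ht - (xt : Matrix (Fin 2) (Fin 2) F) 0 0 * h20
    have ho := Cfsg.Agent.S2302.ord2_of_entries xt h11 (by
      rintro ⟨h01, h10⟩
      exact hscal xt hx1 ⟨h01, h10, h11.symm⟩)
    omega
  have ht4 : (Matrix.trace (xt : Matrix (Fin 2) (Fin 2) F)) ^ 2 ≠ 4 := by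
    rw [h40]
    exact pow_ne_zero 2 ht0
  obtain ⟨a, ha⟩ : ∃ a : F, a ^ 2 - Matrix.trace (xt : Matrix (Fin 2) (Fin 2) F) * a + 1 = 0 := by
    by_contra hr
    push Not at hr
    apply hxq'
    apply orderOf_dvd_of_pow_eq_one
    rw [← sl2_card_centralizer_of_no_root xt hr]
    exact sl2_pow_card_centralizer xt
  obtain ⟨t, ht⟩ : ∃ t, t = Matrix.trace (xt : Matrix (Fin 2) (Fin 2) F) := ⟨_, rfl⟩
  rw [← ht] at ha ht0 ht4
  have ha0 : a ≠ 0 := by
    rintro rfl
    simp at ha
  have hainv : a - a⁻¹ ≠ 0 := by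
    intro h
    apply ht0
    have h1 : a * a = 1 := by
      field_simp at h
      linear_combination h
    have h2 : a = 1 := by
      have : (a - 1) ^ 2 = 0 := by linear_combination h1 - a * h20 + h20
      exact sub_eq_zero.1 ((pow_eq_zero_iff two_ne_zero).1 this)
    rw [h2] at ha
    linear_combination -ha + h20
  have hta : t = a + a⁻¹ := by
    field_simp
    linear_combination -ha
  intro g hg
  obtain ⟨gt, rfl⟩ := QuotientGroup.mk_surjective g
  have hg1 : gt ≠ 1 := by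
    rintro rfl
    exact hg rfl
  obtain ⟨τ, hτ⟩ : ∃ τ, τ = Matrix.trace (gt : Matrix (Fin 2) (Fin 2) F) := ⟨_, rfl⟩
  obtain ⟨α, hα⟩ : ∃ α : F, α * (a - a⁻¹) = τ - a⁻¹ * t :=
    ⟨(τ - a⁻¹ * t) / (a - a⁻¹), div_mul_cancel₀ _ hainv⟩
  obtain ⟨y, hy⟩ : ∃ y : Matrix.SpecialLinearGroup (Fin 2) F,
      (y : Matrix (Fin 2) (Fin 2) F) = !![α, 1; α * (t - α) - 1, t - α] :=
    ⟨⟨!![α, 1; α * (t - α) - 1, t - α], by rw [Matrix.det_fin_two]; simp⟩, rfl⟩
  have hytr : Matrix.trace (y : Matrix (Fin 2) (Fin 2) F) = t := by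
    rw [hy, Matrix.trace_fin_two]
    simp
  have hDtr : Matrix.trace ((sl2Diag (Units.mk0 a ha0) : Matrix.SpecialLinearGroup (Fin 2) F) :
      Matrix (Fin 2) (Fin 2) F) = t := by
    rw [sl2Diag_val, Matrix.trace_fin_two, hta]
    simp
  have hP : ((sl2Diag (Units.mk0 a ha0) * y : Matrix.SpecialLinearGroup (Fin 2) F) :
      Matrix (Fin 2) (Fin 2) F) =
      !![a * α, a; a⁻¹ * (α * (t - α) - 1), a⁻¹ * (t - α)] := by
    rw [Matrix.SpecialLinearGroup.coe_mul, sl2Diag_val, hy]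
    ext i j
    fin_cases i <;> fin_cases j <;> simp [Matrix.mul_apply, Fin.sum_univ_two]
  have hPtr : Matrix.trace ((sl2Diag (Units.mk0 a ha0) * y : Matrix.SpecialLinearGroup (Fin 2) F) :
      Matrix (Fin 2) (Fin 2) F) = Matrix.trace (gt : Matrix (Fin 2) (Fin 2) F) := by
    rw [hP, Matrix.trace_fin_two, ← hτ]
    show a * α + a⁻¹ * (t - α) = τ
    linear_combination hα
  have hP1 : sl2Diag (Units.mk0 a ha0) * y ≠ 1 := by
    intro h
    have h1 := congrArg (fun M : Matrix.SpecialLinearGroup (Fin 2) F =>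
      (M : Matrix (Fin 2) (Fin 2) F) 0 1) h
    simp only [hP] at h1
    simp at h1
    exact ha0 h1
  have hall := sl2Comp_conj_of_char_two (F := F) t
  obtain ⟨w, hw⟩ := isConj_iff.1 (hconj _ gt hP1 hg1 hPtr)
  obtain ⟨c1, hc1⟩ := isConj_iff.1 (sl2_isConj_of_trace_eq t ht4 hall xt _ ht.symm hDtr)
  obtain ⟨c2, hc2⟩ := isConj_iff.1 (sl2_isConj_of_trace_eq t ht4 hall xt y ht.symm hytr)
  refine ⟨pr (w * c1), pr (w * c2), ?_⟩
  show pr gt = pr (w * c1) * pr xt * (pr (w * c1))⁻¹ * (pr (w * c2) * pr xt * (pr (w * c2))⁻¹)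
  rw [← map_inv, ← map_inv, ← map_mul, ← map_mul, ← map_mul, ← map_mul, ← map_mul]
  congr 1
  rw [← hw, ← hc1, ← hc2]
  group

end Cfsg.Agent.S2456
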