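import Cfsg.Statements.S2466
import Mathlib
import Cfsg.Agent.Lib.Helper4.CycleType

set_option autoImplicit false
open Cfsg

namespace Cfsg.Agent.S2466

/-- Adjacency of odd primes in the prime graph of the alternating groups: let r ≠ s be odd primes at most n. The alternating group of degree n has an element of order r·s if and only if r + s ≤ n. -/
theorem result (n r s : ℕ) (hr : r.Prime) (hs : s.Prime) (hr2 : r ≠ 2) (hs2 : s ≠ 2) (hrs : r ≠ s) (hrn : r ≤ n) (hsn : s ≤ n) :
    (r * s ∈ Set.range (orderOf : alternatingGroup (Fin n) → ℕ)) ↔ r + s ≤ n := by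
  constructor
  · rintro ⟨g, hg⟩
    have hord : orderOf (g : Equiv.Perm (Fin n)) = r * s := by
      rw [Subgroup.orderOf_coe]; exact hg
    rw [← Equiv.Perm.lcm_cycleType] at hord
    obtain ⟨a, ha, hra⟩ := Cfsg.Agent.Lib.Helper4.prime_dvd_multiset_lcm hr
      (hord ▸ Dvd.intro _ rfl)
    obtain ⟨b, hb, hsb⟩ := Cfsg.Agent.Lib.Helper4.prime_dvd_multiset_lcm hs
      (hord ▸ Dvd.intro_left _ rfl)
    have hsum : (g : Equiv.Perm (Fin n)).cycleType.sum ≤ n := by
      have := Equiv.Perm.sum_cycleType_le (g : Equiv.Perm (Fin n))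
      simpa using this
    have ha2 := Equiv.Perm.two_le_of_mem_cycleType ha
    have hb2 := Equiv.Perm.two_le_of_mem_cycleType hb
    have hra' := Nat.le_of_dvd (by omega) hra
    have hsb' := Nat.le_of_dvd (by omega) hsb
    by_cases hab : b = a
    · subst hab
      have hcop : Nat.Coprime r s := (Nat.coprime_primes hr hs).2 hrs
      have h1 : r * s ∣ b := hcop.mul_dvd_of_dvd_of_dvd hra hsb
      have h2 := Nat.le_of_dvd (by omega) h1
      have h3 := Cfsg.Agent.Lib.Helper4.multiset_le_sum ha
      have hr2' := hr.two_le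
      have hs2' := hs.two_le
      nlinarith
    · have := Cfsg.Agent.Lib.Helper4.multiset_add_le_sum ha hb hab
      omega
  · intro h
    obtain ⟨σ, hσ⟩ := (Equiv.Perm.exists_with_cycleType_iff (α := Fin n)
      (m := {r, s})).2 ⟨by simpa using h, by
        intro a ha
        simp only [Multiset.insert_eq_cons, Multiset.mem_cons, Multiset.mem_singleton] at ha
        rcases ha with rfl | rfl
        · exact hr.two_le
        · exact hs.two_le⟩
    have hsign : Equiv.Perm.sign σ = 1 := by
      rw [Equiv.Perm.sign_of_cycleType', hσ]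
      have hro : Odd r := hr.odd_of_ne_two hr2
      have hso : Odd s := hs.odd_of_ne_two hs2
      simp [hro.neg_one_pow, hso.neg_one_pow]
    refine ⟨⟨σ, Equiv.Perm.mem_alternatingGroup.2 hsign⟩, ?_⟩
    rw [← Subgroup.orderOf_coe]
    show orderOf σ = r * s
    rw [← Equiv.Perm.lcm_cycleType, hσ]
    have hcop : Nat.Coprime r s := (Nat.coprime_primes hr hs).2 hrs
    simp [Multiset.insert_eq_cons, lcm_eq_nat_lcm, hcop.lcm_eq_mul]

end Cfsg.Agent.S2466
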