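import Cfsg.Statements.S2467
import Mathlib
import Cfsg.Agent.Lib.Helper4.CycleType

set_option autoImplicit false
open Cfsg

namespace Cfsg.Agent.S2467

/-- Adjacency of 2 and an odd prime in the prime graph of the alternating groups: let r be an odd prime at most n, with n ≥ 4. The alternating group of degree n has an element of order 2r if and only if r + 4 ≤ n. -/
theorem result (n r : ℕ) (hn : 4 ≤ n) (hr : r.Prime) (hr2 : r ≠ 2) (hrn : r ≤ n) :
    (2 * r ∈ Set.range (orderOf : alternatingGroup (Fin n) → ℕ)) ↔ r + 4 ≤ n := by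
  constructor
  · rintro ⟨g, hg⟩
    have hord : orderOf (g : Equiv.Perm (Fin n)) = 2 * r := by
      rw [Subgroup.orderOf_coe]; exact hg
    rw [← Equiv.Perm.lcm_cycleType] at hord
    obtain ⟨a, ha, hra⟩ := Cfsg.Agent.Lib.Helper4.prime_dvd_multiset_lcm hr
      (hord ▸ Dvd.intro_left _ rfl)
    obtain ⟨b, hb, h2b⟩ := Cfsg.Agent.Lib.Helper4.prime_dvd_multiset_lcm Nat.prime_two
      (hord ▸ Dvd.intro _ rfl)
    have hsum : (g : Equiv.Perm (Fin n)).cycleType.sum ≤ n := by
      have := Equiv.Perm.sum_cycleType_le (g : Equiv.Perm (Fin n))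
      simpa using this
    have hsign : Equiv.Perm.sign (g : Equiv.Perm (Fin n)) = 1 :=
      Equiv.Perm.mem_alternatingGroup.1 g.2
    have heven := Cfsg.Agent.Lib.Helper4.even_card_even_cycles _ hsign
    obtain ⟨m, hm⟩ : ∃ m, m = (g : Equiv.Perm (Fin n)).cycleType := ⟨_, rfl⟩
    rw [← hm] at ha hb hsum heven
    have hm2 : ∀ c ∈ m, 2 ≤ c := fun c hc => Equiv.Perm.two_le_of_mem_cycleType (hm ▸ hc)
    have hbE : b ∈ m.filter (fun n => Even n) :=
      Multiset.mem_filter.2 ⟨hb, (even_iff_two_dvd).2 h2b⟩
    have hcard2 : 2 ≤ Multiset.card (m.filter (fun n => Even n)) := by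
      have h0 : Multiset.card (m.filter (fun n => Even n)) ≠ 0 := by
        intro h0
        rw [Multiset.card_eq_zero] at h0
        rw [h0] at hbE
        simp at hbE
      obtain ⟨k, hk⟩ := heven
      omega
    have hsplit : m.sum = (m.filter (fun n => Even n)).sum + (m.filter (fun n => ¬ Even n)).sum := by
      conv_lhs => rw [← Multiset.filter_add_not (fun n => Even n) m]
      rw [Multiset.sum_add]
    have hE2 : ∀ c ∈ m.filter (fun n => Even n), 2 ≤ c := fun c hc => hm2 c (Multiset.mem_of_mem_filter hc)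
    have hr3 : 3 ≤ r := by
      have := hr.two_le
      omega
    have hra' := Nat.le_of_dvd (by have := hm2 a ha; omega) hra
    by_cases hae : Even a
    · have haE : a ∈ m.filter (fun n => Even n) := Multiset.mem_filter.2 ⟨ha, hae⟩
      have h2r : 2 * r ∣ a := by
        have hcop : Nat.Coprime 2 r := (Nat.coprime_primes Nat.prime_two hr).2 (Ne.symm hr2)
        exact hcop.mul_dvd_of_dvd_of_dvd (even_iff_two_dvd.1 hae) hra
      have h2r' := Nat.le_of_dvd (by have := hm2 a ha; omega) h2r
      have h1 : (m.filter (fun n => Even n)).sum = a + ((m.filter (fun n => Even n)).erase a).sum := by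
        conv_lhs => rw [← Multiset.cons_erase haE]
        rw [Multiset.sum_cons]
      have h2 : 1 ≤ Multiset.card ((m.filter (fun n => Even n)).erase a) := by
        rw [Multiset.card_erase_of_mem haE]
        exact Nat.le_pred_of_lt hcard2
      have h3 := Cfsg.Agent.Lib.Helper4.multiset_card_mul_le_sum (m := (m.filter (fun n => Even n)).erase a) (c := 2)
        (fun c hc => hE2 c (Multiset.mem_of_mem_erase hc))
      have h4 : 2 ≤ ((m.filter (fun n => Even n)).erase a).sum := by
        calc 2 = 2 * 1 := rfl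
          _ ≤ 2 * Multiset.card ((m.filter (fun n => Even n)).erase a) := Nat.mul_le_mul_left 2 h2
          _ ≤ _ := h3
      rw [hsplit, h1] at hsum
      omega
    · have haO : a ∈ m.filter (fun n => ¬ Even n) := Multiset.mem_filter.2 ⟨ha, hae⟩
      have h1 := Cfsg.Agent.Lib.Helper4.multiset_le_sum haO
      have h3 := Cfsg.Agent.Lib.Helper4.multiset_card_mul_le_sum (m := m.filter (fun n => Even n)) (c := 2) hE2
      omega
  · intro h
    obtain ⟨σ, hσ⟩ := (Equiv.Perm.exists_with_cycleType_iff (α := Fin n)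
      (m := {r, 2, 2})).2 ⟨by simp; omega, by
        intro a ha
        simp only [Multiset.insert_eq_cons, Multiset.mem_cons, Multiset.mem_singleton] at ha
        rcases ha with rfl | rfl | rfl
        · exact hr.two_le
        · exact le_refl _
        · exact le_refl _⟩
    have hsign : Equiv.Perm.sign σ = 1 := by
      rw [Equiv.Perm.sign_of_cycleType', hσ]
      have hro : Odd r := hr.odd_of_ne_two hr2
      simp [hro.neg_one_pow]
    refine ⟨⟨σ, Equiv.Perm.mem_alternatingGroup.2 hsign⟩, ?_⟩
    rw [← Subgroup.orderOf_coe]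
    show orderOf σ = 2 * r
    rw [← Equiv.Perm.lcm_cycleType, hσ]
    have hcop : Nat.Coprime r 2 := (Nat.coprime_primes hr Nat.prime_two).2 hr2
    simp [Multiset.insert_eq_cons, lcm_eq_nat_lcm, hcop.lcm_eq_mul, mul_comm]

end Cfsg.Agent.S2467
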