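import Cfsg.Statements.S2471
import Mathlib
import Cfsg.Agent.Lib.Helper4.Unipotent

set_option autoImplicit false
open Cfsg

namespace Cfsg.Agent.S2471

open Matrix

theorem ch2 {F : Type*} [Field F] (M : Matrix (Fin 2) (Fin 2) F) (hdet : M.det = 1) :
    M * M = M.trace • M - 1 := by
  rw [Matrix.det_fin_two] at hdet
  ext i j
  fin_cases i <;> fin_cases j <;>
    simp [Matrix.mul_apply, Fin.sum_univ_two, Matrix.trace] <;>
    first | ring1 | linear_combination (-1 : F) * hdet

theorem trace_sq {F : Type*} [Field F] (M : Matrix (Fin 2) (Fin 2) F) (hdet : M.det = 1) :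
    (M * M).trace = M.trace ^ 2 - 2 := by
  rw [ch2 M hdet, Matrix.trace_sub, Matrix.trace_smul, Matrix.trace_one]
  simp only [Fintype.card_fin, smul_eq_mul]
  push_cast
  ring

theorem unip_trace {F : Type*} [Field F] (W : Matrix (Fin 2) (Fin 2) F) (hdet : W.det = 1)
    (h : (W - 1) ^ 2 = 0) : W.trace = 2 := by
  have h1 : (W - 1) ^ 2 = (W.trace - 2) • W := by
    rw [Matrix.det_fin_two] at hdet
    ext i j
    fin_cases i <;> fin_cases j <;>
      simp [pow_two, Matrix.mul_apply, Fin.sum_univ_two, Matrix.trace] <;>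
      first | ring1 | linear_combination (-1 : F) * hdet
  rw [h] at h1
  by_contra hne
  have hne' : W.trace - 2 ≠ 0 := sub_ne_zero.mpr hne
  have hW : W = 0 := by
    have := h1.symm
    rcases smul_eq_zero.mp this with h2 | h2
    · exact absurd h2 hne'
    · exact h2
  rw [hW] at hdet
  simp at hdet

theorem in_center {F : Type*} [Field F] (A : Matrix.SpecialLinearGroup (Fin 2) F) (r : F)
    (hr : r ^ 2 = 1) (h : (A : Matrix (Fin 2) (Fin 2) F) = r • (1 : Matrix (Fin 2) (Fin 2) F)) :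
    A ∈ Subgroup.center (Matrix.SpecialLinearGroup (Fin 2) F) := by
  rw [Matrix.SpecialLinearGroup.mem_center_iff]
  refine ⟨r, by simpa using hr, ?_⟩
  rw [h]
  ext i j
  simp [Matrix.one_apply, Matrix.diagonal_apply]


/-- In PSL(2,q) with q odd, the characteristic p is isolated from 2 in the prime graph: for F a finite field of odd characteristic p with at least 5 elements, PSL(2,F) has no element of order 2p. -/
theorem result {F : Type*} [Field F] [Fintype F] (p : ℕ) [Fact p.Prime] [CharP F p] (hp : p ≠ 2) (h5 : 5 ≤ Fintype.card F) (g : Matrix.ProjectiveSpecialLinearGroup (Fin 2) F) :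
    orderOf g ≠ 2 * p := by
  have hpp := (Fact.out : p.Prime)
  intro hord
  obtain ⟨A, rfl⟩ := QuotientGroup.mk_surjective g
  have h2p : (QuotientGroup.mk A : Matrix.ProjectiveSpecialLinearGroup (Fin 2) F) ^ (2 * p) = 1 := by
    rw [← hord]; exact pow_orderOf_eq_one _
  have hc : A ^ (2 * p) ∈ Subgroup.center (Matrix.SpecialLinearGroup (Fin 2) F) := by
    rw [← QuotientGroup.mk_pow, QuotientGroup.eq_one_iff] at h2p
    exact h2p
  obtain ⟨r, hr, hrA⟩ := Matrix.SpecialLinearGroup.mem_center_iff.mp hc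
  have hr2 : r ^ 2 = 1 := by simpa using hr
  have hdet : (A : Matrix (Fin 2) (Fin 2) F).det = 1 := A.det_coe
  -- M ^ (4p) = 1
  have hM4p : ((A : Matrix (Fin 2) (Fin 2) F) ^ 4) ^ p = 1 := by
    have h1 : (A : Matrix (Fin 2) (Fin 2) F) ^ (2 * p) = Matrix.scalar (Fin 2) r := by
      rw [hrA, Matrix.SpecialLinearGroup.coe_pow]
    have h2 : ((A : Matrix (Fin 2) (Fin 2) F) ^ 4) ^ p = ((A : Matrix (Fin 2) (Fin 2) F) ^ (2 * p)) ^ 2 := by
      rw [← pow_mul, ← pow_mul]; congr 1; ring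
    rw [h2, h1, ← map_pow, hr2, map_one]
  have hW : ((A : Matrix (Fin 2) (Fin 2) F) ^ 4 - 1) ^ 2 = 0 := by
    have h4 := Lib.Helper4.unipotent_pow_char_pow p ((A : Matrix (Fin 2) (Fin 2) F) ^ 4) 1
    rw [pow_one, hM4p] at h4
    have hN : ((A : Matrix (Fin 2) (Fin 2) F) ^ 4 - 1) ^ p = 0 := left_eq_add.mp h4
    have := Lib.Helper4.nilpotent_matrix_pow_card _
      (⟨p, hN⟩ : IsNilpotent ((A : Matrix (Fin 2) (Fin 2) F) ^ 4 - 1))
    simpa using this
  have hdet4 : ((A : Matrix (Fin 2) (Fin 2) F) ^ 4).det = 1 := by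
    rw [Matrix.det_pow, hdet, one_pow]
  have htr4 := unip_trace _ hdet4 hW
  have hdet2 : ((A : Matrix (Fin 2) (Fin 2) F) * (A : Matrix (Fin 2) (Fin 2) F)).det = 1 := by
    rw [Matrix.det_mul, hdet, one_mul]
  have htr : ((A : Matrix (Fin 2) (Fin 2) F) ^ 4).trace =
      ((A : Matrix (Fin 2) (Fin 2) F).trace ^ 2 - 2) ^ 2 - 2 := by
    have : (A : Matrix (Fin 2) (Fin 2) F) ^ 4 =
        ((A : Matrix (Fin 2) (Fin 2) F) * (A : Matrix (Fin 2) (Fin 2) F)) *
          ((A : Matrix (Fin 2) (Fin 2) F) * (A : Matrix (Fin 2) (Fin 2) F)) := by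
      noncomm_ring
    rw [this, trace_sq _ hdet2, trace_sq _ hdet]
  rw [htr] at htr4
  set t := (A : Matrix (Fin 2) (Fin 2) F).trace with ht
  have h2ne : (2 : F) ≠ 0 := by
    intro h2
    have : ((2 : ℕ) : F) = 0 := by exact_mod_cast h2
    rw [CharP.cast_eq_zero_iff F p] at this
    have := (Nat.prime_dvd_prime_iff_eq hpp Nat.prime_two).mp this
    exact hp this
  have hcases : t = 0 ∨ t = 2 ∨ t = -2 := by
    have h1 : t ^ 2 * (t - 2) * (t + 2) = 0 := by linear_combination htr4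
    rcases mul_eq_zero.mp h1 with h1 | h1
    · rcases mul_eq_zero.mp h1 with h1 | h1
      · exact Or.inl (pow_eq_zero_iff (by norm_num) |>.mp h1)
      · exact Or.inr (Or.inl (sub_eq_zero.mp h1))
    · exact Or.inr (Or.inr (eq_neg_of_add_eq_zero_left h1))
  have hCH := ch2 _ hdet
  rw [← ht] at hCH
  have hodd : Odd p := hpp.odd_of_ne_two hp
  rcases hcases with h0 | h2 | hm2
  · -- t = 0 : A ^ 2 is central
    have hA2 : A ^ 2 ∈ Subgroup.center (Matrix.SpecialLinearGroup (Fin 2) F) := by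
      apply in_center _ (-1) (by ring)
      rw [Matrix.SpecialLinearGroup.coe_pow, pow_two, hCH, h0]
      simp
    have : (QuotientGroup.mk A : Matrix.ProjectiveSpecialLinearGroup (Fin 2) F) ^ 2 = 1 := by
      rw [← QuotientGroup.mk_pow, QuotientGroup.eq_one_iff]
      exact hA2
    have hdvd := orderOf_dvd_of_pow_eq_one this
    rw [hord] at hdvd
    have : 2 * p ≤ 2 := Nat.le_of_dvd (by norm_num) hdvd
    have := hpp.two_le
    omega
  · -- t = 2 : A ^ p = 1
    have hN2 : ((A : Matrix (Fin 2) (Fin 2) F) - 1) ^ 2 = 0 := by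
      have : ((A : Matrix (Fin 2) (Fin 2) F) - 1) ^ 2 =
          (A : Matrix (Fin 2) (Fin 2) F) * (A : Matrix (Fin 2) (Fin 2) F) -
            2 • (A : Matrix (Fin 2) (Fin 2) F) + 1 := by
        rw [pow_two]; noncomm_ring
      rw [this, hCH, h2]
      rw [show (2 : F) • (A : Matrix (Fin 2) (Fin 2) F) = 2 • (A : Matrix (Fin 2) (Fin 2) F) by
        rw [two_smul, two_smul]]
      abel
    have hNp : ((A : Matrix (Fin 2) (Fin 2) F) - 1) ^ p = 0 := by
      obtain ⟨c, hc⟩ := Nat.exists_eq_add_of_le hpp.two_le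
      rw [hc, pow_add, hN2, zero_mul]
    have h4 := Lib.Helper4.unipotent_pow_char_pow p (A : Matrix (Fin 2) (Fin 2) F) 1
    rw [pow_one, hNp, add_zero] at h4
    have hAp : A ^ p = 1 := by
      apply Subtype.ext
      rw [Matrix.SpecialLinearGroup.coe_pow, h4]
      rfl
    have : (QuotientGroup.mk A : Matrix.ProjectiveSpecialLinearGroup (Fin 2) F) ^ p = 1 := by
      rw [← QuotientGroup.mk_pow, hAp]
      rfl
    have hdvd := orderOf_dvd_of_pow_eq_one this
    rw [hord] at hdvd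
    have : 2 * p ≤ p := Nat.le_of_dvd hpp.pos hdvd
    have := hpp.pos
    omega
  · -- t = -2 : A ^ p = -1
    have hN2 : (-(A : Matrix (Fin 2) (Fin 2) F) - 1) ^ 2 = 0 := by
      have : (-(A : Matrix (Fin 2) (Fin 2) F) - 1) ^ 2 =
          (A : Matrix (Fin 2) (Fin 2) F) * (A : Matrix (Fin 2) (Fin 2) F) +
            2 • (A : Matrix (Fin 2) (Fin 2) F) + 1 := by
        rw [pow_two]; noncomm_ring
      rw [this, hCH, hm2]
      rw [show (-2 : F) • (A : Matrix (Fin 2) (Fin 2) F) = -(2 • (A : Matrix (Fin 2) (Fin 2) F)) by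
        rw [neg_smul, two_smul, two_smul]]
      abel
    have hNp : (-(A : Matrix (Fin 2) (Fin 2) F) - 1) ^ p = 0 := by
      obtain ⟨c, hc⟩ := Nat.exists_eq_add_of_le hpp.two_le
      rw [hc, pow_add, hN2, zero_mul]
    have h4 := Lib.Helper4.unipotent_pow_char_pow p (-(A : Matrix (Fin 2) (Fin 2) F)) 1
    rw [pow_one, hNp, add_zero, hodd.neg_pow] at h4
    have hAp : A ^ p ∈ Subgroup.center (Matrix.SpecialLinearGroup (Fin 2) F) := by
      apply in_center _ (-1) (by ring)
      rw [Matrix.SpecialLinearGroup.coe_pow]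
      rw [neg_smul, one_smul, ← h4, neg_neg]
    have : (QuotientGroup.mk A : Matrix.ProjectiveSpecialLinearGroup (Fin 2) F) ^ p = 1 := by
      rw [← QuotientGroup.mk_pow, QuotientGroup.eq_one_iff]
      exact hAp
    have hdvd := orderOf_dvd_of_pow_eq_one this
    rw [hord] at hdvd
    have : 2 * p ≤ p := Nat.le_of_dvd hpp.pos hdvd
    have := hpp.pos
    omega

end Cfsg.Agent.S2471
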