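import Cfsg.Statements.S2475
import Mathlib
import Cfsg.Agent.Lib.Helper4.SL2Torus

set_option autoImplicit false
open Cfsg

namespace Cfsg.Agent.S2475

open Cfsg.Agent.Lib.Helper4

/-- The projection `SL₂ → PSL₂`. -/
def pr {F : Type*} [Field F] : Matrix.SpecialLinearGroup (Fin 2) F →*
    Matrix.ProjectiveSpecialLinearGroup (Fin 2) F :=
  QuotientGroup.mk' (Subgroup.center (Matrix.SpecialLinearGroup (Fin 2) F))


/-- The set of element orders of PSL(2,q): let F be a finite field of characteristic p with q ≥ 4 elements and d = gcd(2, q − 1). The orders of elements of PSL(2,F) are exactly the divisors of p, of (q − 1)/d and of (q + 1)/d. -/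
theorem result {F : Type*} [Field F] [Fintype F] (p : ℕ) [Fact p.Prime] [CharP F p] (h4 : 4 ≤ Fintype.card F) :
    Set.range (orderOf : Matrix.ProjectiveSpecialLinearGroup (Fin 2) F → ℕ) =
      {m : ℕ | m ∣ p ∨ m ∣ (Fintype.card F - 1) / Nat.gcd 2 (Fintype.card F - 1) ∨ m ∣ (Fintype.card F + 1) / Nat.gcd 2 (Fintype.card F - 1)} := by
  classical
  have hpp := (Fact.out : p.Prime)
  have hz0c := sl2PM_false_mem_center (F := F)
  have hZ := sl2_mem_center_iff (F := F)
  have hπ1 : ∀ x : Matrix.SpecialLinearGroup (Fin 2) F,
      x ∈ Subgroup.center (Matrix.SpecialLinearGroup (Fin 2) F) → pr x = 1 := by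
    intro x hx
    exact (QuotientGroup.eq_one_iff x).2 hx
  have hπc : ∀ x : Matrix.SpecialLinearGroup (Fin 2) F, pr x = 1 →
      x ∈ Subgroup.center (Matrix.SpecialLinearGroup (Fin 2) F) := by
    intro x hx
    exact (QuotientGroup.eq_one_iff x).1 hx
  have hq2 : 2 ≤ Fintype.card F := by omega
  -- the two transfer facts
  have hP : (∀ (x : Matrix.SpecialLinearGroup (Fin 2) F) (N : ℕ),
        (N = Fintype.card F - 1 ∨ N = Fintype.card F + 1) → x ^ N = 1 →
        (pr x) ^ (N / Nat.gcd 2 (Fintype.card F - 1)) = 1) ∧
      (∀ (x : Matrix.SpecialLinearGroup (Fin 2) F) (N : ℕ),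
        (N = Fintype.card F - 1 ∨ N = Fintype.card F + 1) → orderOf x = N →
        orderOf (pr x) = N / Nat.gcd 2 (Fintype.card F - 1)) := by
    rcases Nat.even_or_odd (Fintype.card F) with he | ho
    · -- characteristic two
      have hc2 : CharP F 2 :=
        ringChar.of_eq (FiniteField.even_card_iff_char_two.2 (Nat.even_iff.1 he))
      have h20 : (2 : F) = 0 := CharP.ofNat_eq_zero F 2
      have hD : Nat.gcd 2 (Fintype.card F - 1) = 1 := by
        have : ¬ 2 ∣ Fintype.card F - 1 := by
          have := Nat.even_iff.1 he
          omega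
        exact (Nat.Prime.coprime_iff_not_dvd Nat.prime_two).2 this
      have hz1 : sl2PM false (0 : F) = 1 := by
        rw [← sl2PM_true_zero]
        apply Subtype.ext
        rw [sl2PM_val, sl2PM_val]
        have hneg : (-1 : F) = 1 := by linear_combination -h20
        ext i j
        fin_cases i <;> fin_cases j <;> simp [hneg]
      have hcenter : Subgroup.center (Matrix.SpecialLinearGroup (Fin 2) F) = ⊥ := by
        rw [eq_bot_iff]
        intro z hz
        rw [Subgroup.mem_bot]
        rcases (hZ z).1 hz with h | h
        · exact h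
        · rw [h, hz1]
      have hinj : Function.Injective (pr (F := F)) := by
        rw [← MonoidHom.ker_eq_bot_iff]
        unfold pr
        rw [QuotientGroup.ker_mk', hcenter]
      rw [hD]
      constructor
      · intro x N _ hx
        rw [Nat.div_one, ← map_pow, hx, map_one]
      · intro x N _ hx
        rw [Nat.div_one, orderOf_injective pr hinj, hx]
    · have hq1 := Nat.odd_iff.1 ho
      have hchar : ringChar F ≠ 2 := by
        intro h
        have := FiniteField.even_card_of_char_two h
        omega
      have h2 : (2 : F) ≠ 0 := Ring.two_ne_zero hchar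
      have hD : Nat.gcd 2 (Fintype.card F - 1) = 2 :=
        Nat.gcd_eq_left (by omega)
      have hz0sq : sl2PM false (0 : F) * sl2PM false (0 : F) = 1 := by
        apply Subtype.ext
        rw [Matrix.SpecialLinearGroup.coe_mul, sl2PM_val, Matrix.SpecialLinearGroup.coe_one]
        ext i j
        fin_cases i <;> fin_cases j <;> simp [Matrix.mul_apply, Fin.sum_univ_two]
      rw [hD]
      have h1 : ∀ (x : Matrix.SpecialLinearGroup (Fin 2) F) (N : ℕ),
          (N = Fintype.card F - 1 ∨ N = Fintype.card F + 1) → x ^ N = 1 →
          (pr x) ^ (N / 2) = 1 := by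
        intro x N hN hx
        have hNe : N / 2 + N / 2 = N := by
          rcases hN with h | h <;> omega
        have hy : x ^ (N / 2) * x ^ (N / 2) = 1 := by
          rw [← pow_add, hNe, hx]
        rw [← map_pow]
        apply hπ1
        rcases sl2_sq_eq_one_odd h2 _ hy with h | h
        · rw [h]
          exact Subgroup.one_mem _
        · rw [h]
          exact hz0c
      refine ⟨h1, ?_⟩
      intro x N hN hx
      have hNe : N / 2 + N / 2 = N := by
        rcases hN with h | h <;> omega
      apply Nat.dvd_antisymm
      · apply orderOf_dvd_of_pow_eq_one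
        apply h1 x N hN
        rw [← hx]
        exact pow_orderOf_eq_one x
      · have h3 : (pr x) ^ orderOf (pr x) = 1 := pow_orderOf_eq_one _
        rw [← map_pow] at h3
        have h4 := hπc _ h3
        have h5 : x ^ (orderOf (pr x) * 2) = 1 := by
          rw [pow_mul, sq]
          rcases (hZ _).1 h4 with h | h
          · rw [h, one_mul]
          · rw [h, hz0sq]
        have h6 := orderOf_dvd_of_pow_eq_one h5
        rw [hx] at h6
        obtain ⟨c, hc⟩ := h6
        refine ⟨c, ?_⟩
        have : N = N / 2 * 2 := by omega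
        rw [this] at hc
        have h7 : N / 2 * 2 * c = N / 2 * c * 2 := by ring
        rw [h7] at hc
        exact Nat.eq_of_mul_eq_mul_right (by norm_num) hc
  obtain ⟨hP1, hP2⟩ := hP
  have hunip : ∀ x : Matrix.SpecialLinearGroup (Fin 2) F,
      Matrix.trace (x : Matrix (Fin 2) (Fin 2) F) = 2 → x ≠ 1 → (pr x) ^ p = 1 := by
    intro x ht hx1
    have ho := (sl2_orderOf_eq_char_iff p x).2 ⟨ht, hx1⟩
    rw [← map_pow, ← ho, pow_orderOf_eq_one, map_one]
  ext m
  simp only [Set.mem_range, Set.mem_ofPred_eq]
  constructor
  · rintro ⟨g, rfl⟩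
    obtain ⟨x, rfl⟩ := QuotientGroup.mk_surjective g
    show orderOf (pr x) ∣ p ∨ _
    by_cases hxc : x ∈ Subgroup.center (Matrix.SpecialLinearGroup (Fin 2) F)
    · left
      rw [hπ1 x hxc, orderOf_one]
      exact one_dvd _
    · by_cases ht : (Matrix.trace (x : Matrix (Fin 2) (Fin 2) F)) ^ 2 = 4
      · left
        apply orderOf_dvd_of_pow_eq_one
        have ht' : Matrix.trace (x : Matrix (Fin 2) (Fin 2) F) = 2 ∨
            Matrix.trace (x : Matrix (Fin 2) (Fin 2) F) = -2 := by
          have : (Matrix.trace (x : Matrix (Fin 2) (Fin 2) F) - 2) *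
              (Matrix.trace (x : Matrix (Fin 2) (Fin 2) F) + 2) = 0 := by
            linear_combination ht
          rcases mul_eq_zero.1 this with h | h
          · left
            exact sub_eq_zero.1 h
          · right
            exact eq_neg_of_add_eq_zero_left h
        rcases ht' with h | h
        · exact hunip x h (fun h1 => hxc (h1 ▸ Subgroup.one_mem _))
        · have h5 := hunip (sl2PM false (0 : F) * x) (by rw [sl2_trace_neg, h, neg_neg]) (by
            intro h1
            apply hxc
            have hx : x = (sl2PM false (0 : F))⁻¹ := eq_inv_of_mul_eq_one_right h1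
            rw [hx]
            exact inv_mem hz0c)
          rw [map_mul, hπ1 _ hz0c, one_mul] at h5
          exact h5
      · by_cases hr : ∃ a : F, a ^ 2 - Matrix.trace (x : Matrix (Fin 2) (Fin 2) F) * a + 1 = 0
        · obtain ⟨a, ha⟩ := hr
          right; left
          apply orderOf_dvd_of_pow_eq_one
          apply hP1 x _ (Or.inl rfl)
          rw [← sl2_card_centralizer_of_split x ht a ha]
          exact sl2_pow_card_centralizer x
        · push Not at hr
          right; right
          apply orderOf_dvd_of_pow_eq_one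
          apply hP1 x _ (Or.inr rfl)
          rw [← sl2_card_centralizer_of_no_root x hr]
          exact sl2_pow_card_centralizer x
  · have hdiv : ∀ (y : Matrix.ProjectiveSpecialLinearGroup (Fin 2) F) (K : ℕ), orderOf y = K →
        K ≠ 0 → m ∣ K → ∃ g : Matrix.ProjectiveSpecialLinearGroup (Fin 2) F, orderOf g = m := by
      intro y K hy hK hm
      refine ⟨y ^ (K / m), ?_⟩
      have hm0 : m ≠ 0 := by
        rintro rfl
        exact hK (zero_dvd_iff.1 hm)
      have hKm : K / m ≠ 0 := by
        intro h
        rw [Nat.div_eq_zero_iff] at h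
        rcases h with h | h
        · exact hm0 h
        · exact absurd (Nat.le_of_dvd (Nat.pos_of_ne_zero hK) hm) (by omega)
      rw [orderOf_pow_of_dvd hKm (by rw [hy]; exact Nat.div_dvd_of_dvd hm), hy,
        Nat.div_div_self hm hK]
    have hDle : Nat.gcd 2 (Fintype.card F - 1) ≤ 2 := Nat.le_of_dvd (by norm_num) (Nat.gcd_dvd_left _ _)
    have hDpos : 0 < Nat.gcd 2 (Fintype.card F - 1) := Nat.gcd_pos_of_pos_left _ (by norm_num)
    rintro (hm | hm | hm)
    · rcases (Nat.dvd_prime hpp).1 hm with rfl | rfl
      · exact ⟨1, orderOf_one⟩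
      · have htr : Matrix.trace ((sl2Unip (1 : F) : Matrix.SpecialLinearGroup (Fin 2) F) :
            Matrix (Fin 2) (Fin 2) F) = 2 := by
          rw [sl2Unip_val, Matrix.trace_fin_two]
          simp
          norm_num
        have hnc : sl2Unip (1 : F) ∉ Subgroup.center (Matrix.SpecialLinearGroup (Fin 2) F) := by
          intro hc
          rcases (hZ _).1 hc with h | h
          · have h1 := congrArg (fun M : Matrix.SpecialLinearGroup (Fin 2) F =>
              (M : Matrix (Fin 2) (Fin 2) F) 0 1) h
            simp [sl2Unip_val] at h1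
          · have h1 := congrArg (fun M : Matrix.SpecialLinearGroup (Fin 2) F =>
              (M : Matrix (Fin 2) (Fin 2) F) 0 1) h
            simp [sl2Unip_val, sl2PM_val] at h1
        refine ⟨pr (sl2Unip (1 : F)), ?_⟩
        apply orderOf_eq_prime
        · exact hunip _ htr (fun h1 => hnc (h1 ▸ Subgroup.one_mem _))
        · intro h1
          exact hnc (hπc _ h1)
    · obtain ⟨x, hx⟩ := exists_orderOf_eq_card_sub_one (F := F)
      have h1 := hP2 x _ (Or.inl rfl) hx
      refine hdiv _ _ h1 ?_ hm
      intro h0
      rw [Nat.div_eq_zero_iff] at h0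
      omega
    · obtain ⟨x, hx⟩ := exists_orderOf_eq_card_add_one (F := F) h4
      have h1 := hP2 x _ (Or.inr rfl) hx
      refine hdiv _ _ h1 ?_ hm
      intro h0
      rw [Nat.div_eq_zero_iff] at h0
      omega

end Cfsg.Agent.S2475
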