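import Cfsg.Statements.S2503
import Mathlib
import Cfsg.Agent.Lib.Helper4.SL2Even

set_option autoImplicit false
open Cfsg

namespace Cfsg.Agent.S2503

open Cfsg.Agent.Lib.Helper4 in


/-- Let F be a finite field with q = 2^t ≥ 4 elements and L = PSL(2,F). Then L has a cyclic subgroup A of order q + 1 and an elementary abelian 2-subgroup B of order q such that L = ABA: every element of L is a product a·b·a' with a, a' ∈ A and b ∈ B. -/
theorem result {F : Type*} [Field F] [Fintype F]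
    (h2 : 2 ∣ Fintype.card F) (h4 : 4 ≤ Fintype.card F) :
    ∃ A B : Subgroup (Matrix.ProjectiveSpecialLinearGroup (Fin 2) F),
      IsCyclic A ∧ Nat.card A = Fintype.card F + 1 ∧ IsMulCommutative B ∧ (∀ b ∈ B, b * b = 1) ∧
        Nat.card B = Fintype.card F ∧
        ∀ g : Matrix.ProjectiveSpecialLinearGroup (Fin 2) F, ∃ a ∈ A, ∃ b ∈ B, ∃ c ∈ A, g = a * b * c := by
  classical
  have hchar : ringChar F = 2 :=
    FiniteField.even_card_iff_char_two.2 (Nat.mod_eq_zero_of_dvd h2)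
  have : CharP F 2 := ringChar.of_eq hchar
  have h20 : (2 : F) = 0 := CharTwo.two_eq_zero
  obtain ⟨t, -, hnr⟩ := exists_trace_no_root (F := F) h4
  have hcenter : Subgroup.center (Matrix.SpecialLinearGroup (Fin 2) F) = ⊥ := by
    rw [Subgroup.eq_bot_iff_forall]
    intro z hz
    rcases (sl2_mem_center_iff z).1 hz with h | h
    · exact h
    · rw [h]
      apply Subtype.ext
      rw [sl2PM_val, Matrix.SpecialLinearGroup.coe_one]
      ext i j
      fin_cases i <;> fin_cases j <;> simp [CharTwo.neg_eq]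
  obtain ⟨π, hπ⟩ : ∃ π : Matrix.SpecialLinearGroup (Fin 2) F →*
      Matrix.ProjectiveSpecialLinearGroup (Fin 2) F,
      π = QuotientGroup.mk' (Subgroup.center (Matrix.SpecialLinearGroup (Fin 2) F)) := ⟨_, rfl⟩
  have hπinj : Function.Injective π := by
    rw [← MonoidHom.ker_eq_bot_iff, hπ, QuotientGroup.ker_mk', hcenter]
  have hπsurj : Function.Surjective π := by
    rw [hπ]
    exact QuotientGroup.mk'_surjective _
  have htr : Matrix.trace ((sl2Comp t 1 : Matrix.SpecialLinearGroup (Fin 2) F) :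
      Matrix (Fin 2) (Fin 2) F) = t := by
    rw [sl2Comp_val, Matrix.trace_fin_two]
    simp
  have hcyc := isCyclic_centralizer_sl2Comp_of_no_root t hnr
  have hcardA := sl2_card_centralizer_of_no_root (sl2Comp t 1) (by rw [htr]; exact hnr)
  refine ⟨(Subgroup.centralizer ({sl2Comp t 1} : Set (Matrix.SpecialLinearGroup (Fin 2) F))).map π,
    (sl2UnipSubgroup (F := F)).map π, ?_, ?_, ?_, ?_, ?_, ?_⟩
  · exact isCyclic_of_surjective (π.subgroupMap _) (π.subgroupMap_surjective _)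
  · rw [Subgroup.card_map_of_injective hπinj, hcardA]
  · refine ⟨⟨?_⟩⟩
    rintro ⟨_, ⟨_, ⟨b, rfl⟩, rfl⟩⟩ ⟨_, ⟨_, ⟨c, rfl⟩, rfl⟩⟩
    apply Subtype.ext
    show π (sl2Unip b) * π (sl2Unip c) = π (sl2Unip c) * π (sl2Unip b)
    rw [← map_mul, ← map_mul, sl2Unip_mul, sl2Unip_mul, add_comm]
  · rintro _ ⟨_, ⟨b, rfl⟩, rfl⟩
    rw [← map_mul, sl2Unip_mul, CharTwo.add_self_eq_zero, sl2Unip_zero, map_one]
  · rw [Subgroup.card_map_of_injective hπinj, card_sl2UnipSubgroup]
  · intro g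
    obtain ⟨g0, rfl⟩ := hπsurj g
    obtain ⟨a, c, b, ha, hc, hg⟩ := sl2_even_ABA t hnr g0
    refine ⟨π a, Subgroup.mem_map_of_mem _ ((sl2_mem_centralizer_singleton _ a).2 ha),
      π (sl2Unip b), Subgroup.mem_map_of_mem _ ⟨b, rfl⟩,
      π c, Subgroup.mem_map_of_mem _ ((sl2_mem_centralizer_singleton _ c).2 hc), ?_⟩
    rw [hg, map_mul, map_mul]

end Cfsg.Agent.S2503
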