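import Cfsg.Statements.S2507
import Mathlib
import Cfsg.Agent.Lib.Helper4.SL2Trace
import Cfsg.Agent.S2302

set_option autoImplicit false
open Cfsg

namespace Cfsg.Agent.S2507

open Cfsg.Agent.Lib.Helper4


/-- Let F be a finite field with q = 2^f ≥ 4 elements. The conjugacy class sizes of PSL(2,F) are exactly 1, q(q − 1), q² − 1 and q(q + 1). -/
theorem result {F : Type*} [Field F] [Fintype F]
    (h2 : 2 ∣ Fintype.card F) (h4 : 4 ≤ Fintype.card F) :
    Set.range (fun g : (Matrix.ProjectiveSpecialLinearGroup (Fin 2) F) => (Subgroup.centralizer ({g} : Set (Matrix.ProjectiveSpecialLinearGroup (Fin 2) F))).index) =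
      {1, Fintype.card F * (Fintype.card F - 1), Fintype.card F ^ 2 - 1, Fintype.card F * (Fintype.card F + 1)} := by
  classical
  have : CharP F 2 :=
    ringChar.of_eq (FiniteField.even_card_iff_char_two.2 (Nat.mod_eq_zero_of_dvd h2))
  have h20 : (2 : F) = 0 := CharP.ofNat_eq_zero F 2
  have h40 : (4 : F) = 0 := by
    have : (4 : F) = 2 * 2 := by norm_num
    rw [this, h20, mul_zero]
  have hq : 1 ≤ Fintype.card F := by omega
  obtain ⟨k, hk⟩ : ∃ k, Fintype.card F = k + 1 := ⟨Fintype.card F - 1, by omega⟩
  have harith : Fintype.card F * (Fintype.card F - 1) + 2 * Fintype.card F =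
      Fintype.card F * (Fintype.card F + 1) := by
    rw [hk]
    simp
    ring
  have hcenter : Subgroup.center (Matrix.SpecialLinearGroup (Fin 2) F) = ⊥ := by
    rw [eq_bot_iff]
    intro A hA
    rw [Matrix.SpecialLinearGroup.mem_center_iff] at hA
    obtain ⟨r, hr, hA⟩ := hA
    rw [Subgroup.mem_bot]
    simp only [Fintype.card_fin] at hr
    have hr1 : r = 1 := by
      have : (r - 1) ^ 2 = 0 := by linear_combination hr - r * h20 + h20
      exact sub_eq_zero.1 ((pow_eq_zero_iff two_ne_zero).1 this)
    apply Subtype.ext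
    rw [← hA, hr1]
    simp
  have hπ : Function.Bijective (QuotientGroup.mk' (Subgroup.center
      (Matrix.SpecialLinearGroup (Fin 2) F))) := by
    constructor
    · rw [← MonoidHom.ker_eq_bot_iff, QuotientGroup.ker_mk', hcenter]
    · exact QuotientGroup.mk'_surjective _
  have hidx : ∀ x : Matrix.SpecialLinearGroup (Fin 2) F,
      (Subgroup.centralizer ({QuotientGroup.mk' (Subgroup.center
        (Matrix.SpecialLinearGroup (Fin 2) F)) x} :
          Set (Matrix.ProjectiveSpecialLinearGroup (Fin 2) F))).index =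
        Nat.card (ConjClasses.mk x).carrier := by
    intro x
    rw [index_centralizer_map_of_bijective _ hπ, index_centralizer_eq_card_carrier]
  have hone : Nat.card (ConjClasses.mk (1 : Matrix.SpecialLinearGroup (Fin 2) F)).carrier = 1 := by
    rw [← index_centralizer_eq_card_carrier]
    have : Subgroup.centralizer ({1} : Set (Matrix.SpecialLinearGroup (Fin 2) F)) = ⊤ := by
      rw [Subgroup.centralizer_eq_top_iff_subset]
      intro z hz
      rw [Set.mem_singleton_iff] at hz
      rw [hz]
      exact Subgroup.one_mem _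
    rw [this, Subgroup.index_top]
  have htr0 : ∀ x : Matrix.SpecialLinearGroup (Fin 2) F,
      Matrix.trace (x : Matrix (Fin 2) (Fin 2) F) = 0 →
      ¬ ((x : Matrix (Fin 2) (Fin 2) F) 0 1 = 0 ∧ (x : Matrix (Fin 2) (Fin 2) F) 1 0 = 0) →
      Nat.card (ConjClasses.mk x).carrier = Fintype.card F ^ 2 - 1 := by
    intro x hx hns
    have h11 : (x : Matrix (Fin 2) (Fin 2) F) 1 1 = (x : Matrix (Fin 2) (Fin 2) F) 0 0 := by
      rw [Matrix.trace_fin_two] at hx
      linear_combination hx - (x : Matrix (Fin 2) (Fin 2) F) 0 0 * h20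
    have ho := Cfsg.Agent.S2302.ord2_of_entries x h11 hns
    exact (Cfsg.Agent.S2302.result x x ho ho).2
  have htrne : ∀ x : Matrix.SpecialLinearGroup (Fin 2) F,
      Matrix.trace (x : Matrix (Fin 2) (Fin 2) F) ≠ 0 →
      Nat.card (ConjClasses.mk x).carrier = Fintype.card F * (Fintype.card F - 1) +
        Nat.card {a : F // a ^ 2 - Matrix.trace (x : Matrix (Fin 2) (Fin 2) F) * a + 1 = 0} *
          Fintype.card F := by
    intro x hx
    apply sl2_card_carrier_of_trace _ _ (sl2Comp_conj_of_char_two _) x rfl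
    rw [h40]
    exact pow_ne_zero 2 hx
  have hroot2 : ∀ t a : F, t ≠ 0 → a ^ 2 - t * a + 1 = 0 →
      Nat.card {a : F // a ^ 2 - t * a + 1 = 0} = 2 := by
    intro t a ht ha
    apply card_roots_eq_two t a ha
    rw [h20, zero_mul]
    exact ht
  ext n
  simp only [Set.mem_range, Set.mem_insert_iff, Set.mem_singleton_iff]
  constructor
  · rintro ⟨g, rfl⟩
    obtain ⟨x, rfl⟩ := hπ.2 g
    rw [hidx]
    by_cases hs : ((x : Matrix (Fin 2) (Fin 2) F) 0 1 = 0 ∧
        (x : Matrix (Fin 2) (Fin 2) F) 1 0 = 0 ∧
        (x : Matrix (Fin 2) (Fin 2) F) 0 0 = (x : Matrix (Fin 2) (Fin 2) F) 1 1)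
    · left
      obtain ⟨h01, h10, h00⟩ := hs
      have hdet := sl2_det x
      rw [h01, h10, ← h00] at hdet
      have ha : (x : Matrix (Fin 2) (Fin 2) F) 0 0 = 1 := by
        have : ((x : Matrix (Fin 2) (Fin 2) F) 0 0 - 1) ^ 2 = 0 := by
          linear_combination hdet - (x : Matrix (Fin 2) (Fin 2) F) 0 0 * h20 + h20
        exact sub_eq_zero.1 ((pow_eq_zero_iff two_ne_zero).1 this)
      have hx1 : x = 1 := by
        apply Subtype.ext
        rw [Matrix.SpecialLinearGroup.coe_one]
        ext i j
        fin_cases i <;> fin_cases j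
        · simpa using ha
        · simpa using h01
        · simpa using h10
        · simpa using (h00.symm.trans ha)
      rw [hx1]
      exact hone
    · by_cases ht : Matrix.trace (x : Matrix (Fin 2) (Fin 2) F) = 0
      · right; right; left
        apply htr0 x ht
        rintro ⟨h01, h10⟩
        apply hs
        refine ⟨h01, h10, ?_⟩
        rw [Matrix.trace_fin_two] at ht
        linear_combination ht - (x : Matrix (Fin 2) (Fin 2) F) 1 1 * h20
      · rw [htrne x ht]
        by_cases hr : ∃ a : F, a ^ 2 - Matrix.trace (x : Matrix (Fin 2) (Fin 2) F) * a + 1 = 0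
        · obtain ⟨a, ha⟩ := hr
          right; right; right
          rw [hroot2 _ a ht ha]
          exact harith
        · push Not at hr
          right; left
          rw [card_roots_eq_zero _ hr]
          simp
  · rintro (rfl | rfl | rfl | rfl)
    · refine ⟨QuotientGroup.mk' _ 1, ?_⟩
      rw [hidx]
      exact hone
    · obtain ⟨t, ht0, ht⟩ := exists_trace_no_root h4
      refine ⟨QuotientGroup.mk' _ (sl2Comp t 1), ?_⟩
      rw [hidx]
      have htr : Matrix.trace ((sl2Comp t 1 : Matrix.SpecialLinearGroup (Fin 2) F) :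
          Matrix (Fin 2) (Fin 2) F) = t := by
        rw [sl2Comp_val, Matrix.trace_fin_two]
        simp
      rw [htrne _ (by rw [htr]; exact ht0), htr, card_roots_eq_zero _ ht]
      simp
    · refine ⟨QuotientGroup.mk' _ (sl2Comp 0 1), ?_⟩
      rw [hidx]
      apply htr0
      · rw [sl2Comp_val, Matrix.trace_fin_two]
        simp
      · rw [sl2Comp_val]
        simp
    · obtain ⟨a, -, ha⟩ := Finset.exists_mem_notMem_of_card_lt_card
        (s := ({0, 1} : Finset F)) (t := Finset.univ)
        (lt_of_le_of_lt Finset.card_le_two (by rw [Finset.card_univ]; omega))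
      simp only [Finset.mem_insert, Finset.mem_singleton, not_or] at ha
      obtain ⟨ha0, ha1⟩ := ha
      have ht0 : a + a⁻¹ ≠ 0 := by
        intro h
        apply ha1
        have h1 : a * a + 1 = 0 := by
          field_simp at h
          linear_combination h
        have : (a - 1) ^ 2 = 0 := by linear_combination h1 - a * h20
        exact sub_eq_zero.1 ((pow_eq_zero_iff two_ne_zero).1 this)
      refine ⟨QuotientGroup.mk' _ (sl2Comp (a + a⁻¹) 1), ?_⟩
      rw [hidx]
      have htr : Matrix.trace ((sl2Comp (a + a⁻¹) 1 : Matrix.SpecialLinearGroup (Fin 2) F) :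
          Matrix (Fin 2) (Fin 2) F) = a + a⁻¹ := by
        rw [sl2Comp_val, Matrix.trace_fin_two]
        simp
      rw [htrne _ (by rw [htr]; exact ht0), htr, hroot2 _ a ht0 (by field_simp; ring)]
      exact harith

end Cfsg.Agent.S2507
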