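import Cfsg.Statements.S2508
import Mathlib
import Cfsg.Agent.Lib.Helper4.SL2Center
import Cfsg.Agent.S2301

set_option autoImplicit false
open Cfsg

namespace Cfsg.Agent.S2508

open Cfsg.Agent.Lib.Helper4

/-- The index of the centraliser of the image of `x` in `PSL₂`. -/
noncomputable def idx {F : Type*} [Field F] (x : Matrix.SpecialLinearGroup (Fin 2) F) : ℕ :=
  (Subgroup.centralizer ({(QuotientGroup.mk x : Matrix.ProjectiveSpecialLinearGroup (Fin 2) F)} :
    Set (Matrix.ProjectiveSpecialLinearGroup (Fin 2) F))).index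


/-- Let F be a finite field with q elements, q odd and q ≥ 7. If q ≡ 1 (mod 4) the conjugacy class sizes of PSL(2,F) are exactly 1, (q² − 1)/2, q(q + 1)/2, q(q − 1) and q(q + 1); if q ≡ 3 (mod 4) they are exactly 1, (q² − 1)/2, q(q − 1)/2, q(q + 1) and q(q − 1). -/
theorem result {F : Type*} [Field F] [Fintype F]
    (hodd : ¬ 2 ∣ Fintype.card F) (h7 : 7 ≤ Fintype.card F) :
    (Fintype.card F % 4 = 1 →
      Set.range (fun g : (Matrix.ProjectiveSpecialLinearGroup (Fin 2) F) => (Subgroup.centralizer ({g} : Set (Matrix.ProjectiveSpecialLinearGroup (Fin 2) F))).index) =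
        {1, (Fintype.card F ^ 2 - 1) / 2, Fintype.card F * (Fintype.card F + 1) / 2,
          Fintype.card F * (Fintype.card F - 1), Fintype.card F * (Fintype.card F + 1)}) ∧
    (Fintype.card F % 4 = 3 →
      Set.range (fun g : (Matrix.ProjectiveSpecialLinearGroup (Fin 2) F) => (Subgroup.centralizer ({g} : Set (Matrix.ProjectiveSpecialLinearGroup (Fin 2) F))).index) =
        {1, (Fintype.card F ^ 2 - 1) / 2, Fintype.card F * (Fintype.card F - 1) / 2,
          Fintype.card F * (Fintype.card F + 1), Fintype.card F * (Fintype.card F - 1)}) := by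
  classical
  have hq1 : Fintype.card F % 2 = 1 := by omega
  have hchar : ringChar F ≠ 2 := by
    intro h
    have := FiniteField.even_card_of_char_two h
    omega
  have h2 : (2 : F) ≠ 0 := Ring.two_ne_zero hchar
  have h4 : (4 : F) ≠ 0 := by
    have : (4 : F) = 2 * 2 := by norm_num
    rw [this]
    exact mul_ne_zero h2 h2
  have hcp : CharP F (ringChar F) := ringChar.charP F
  have hfp : Fact (ringChar F).Prime := ⟨CharP.char_is_prime F (ringChar F)⟩
  have hZ := sl2_mem_center_iff (F := F)
  have hz0 := sl2PM_false_ne_one h2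
  have hall : ∀ t : F, t ^ 2 ≠ 4 → ∀ u u' : Fˣ, IsConj (sl2Comp t u) (sl2Comp t u') :=
    fun t ht => sl2Comp_conj_of_sq_ne_four hq1 h2 t ht
  obtain ⟨k, hk⟩ : ∃ k, Fintype.card F = k + 1 := ⟨Fintype.card F - 1, by omega⟩
  have harith : Fintype.card F * (Fintype.card F - 1) + 2 * Fintype.card F =
      Fintype.card F * (Fintype.card F + 1) := by
    rw [hk]
    simp
    ring
  have h04 : (0 : F) ^ 2 ≠ 4 := by
    intro h
    apply h4
    rw [← h]
    ring
  have hI : ∀ x : Matrix.SpecialLinearGroup (Fin 2) F,
      x ∈ Subgroup.center (Matrix.SpecialLinearGroup (Fin 2) F) → idx x = 1 := by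
    intro x hx
    unfold idx
    rw [(QuotientGroup.eq_one_iff x).2 hx]
    have : Subgroup.centralizer ({1} : Set (Matrix.ProjectiveSpecialLinearGroup (Fin 2) F)) = ⊤ := by
      rw [Subgroup.centralizer_eq_top_iff_subset]
      intro z hz
      rw [Set.mem_singleton_iff] at hz
      rw [hz]
      exact Subgroup.one_mem _
    rw [this, Subgroup.index_top]
  have hII : ∀ x : Matrix.SpecialLinearGroup (Fin 2) F,
      Matrix.trace (x : Matrix (Fin 2) (Fin 2) F) ≠ 0 →
      idx x = Nat.card (ConjClasses.mk x).carrier := by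
    intro x hx
    apply (two_mul_index_centralizer_mk _ hZ hz0 x).2
    intro hc
    have h1 := sl2_conj_trace hc
    rw [sl2_trace_neg] at h1
    apply hx
    apply mul_left_cancel₀ h2
    linear_combination h1
  have hIII : ∀ x : Matrix.SpecialLinearGroup (Fin 2) F,
      Matrix.trace (x : Matrix (Fin 2) (Fin 2) F) = 0 →
      2 * idx x = Fintype.card F * (Fintype.card F - 1) +
        Nat.card {a : F // a ^ 2 - 0 * a + 1 = 0} * Fintype.card F := by
    intro x hx
    have h1 := (two_mul_index_centralizer_mk _ hZ hz0 x).1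
      (sl2_isConj_of_trace_eq 0 h04 (hall 0 h04) x _ hx (by rw [sl2_trace_neg, hx, neg_zero]))
    unfold idx
    rw [h1]
    exact sl2_card_carrier_of_trace 0 h04 (hall 0 h04) x hx
  have hIV : ∀ x : Matrix.SpecialLinearGroup (Fin 2) F,
      x ∉ Subgroup.center (Matrix.SpecialLinearGroup (Fin 2) F) →
      (Matrix.trace (x : Matrix (Fin 2) (Fin 2) F)) ^ 2 = 4 →
      Nat.card (ConjClasses.mk x).carrier = (Fintype.card F ^ 2 - 1) / 2 := by
    intro x hxc ht
    have ht' : Matrix.trace (x : Matrix (Fin 2) (Fin 2) F) = 2 ∨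
        Matrix.trace (x : Matrix (Fin 2) (Fin 2) F) = -2 := by
      have : (Matrix.trace (x : Matrix (Fin 2) (Fin 2) F) - 2) *
          (Matrix.trace (x : Matrix (Fin 2) (Fin 2) F) + 2) = 0 := by
        linear_combination ht
      rcases mul_eq_zero.1 this with h | h
      · left
        exact sub_eq_zero.1 h
      · right
        exact eq_neg_of_add_eq_zero_left h
    rcases ht' with h | h
    · have ho : orderOf x = ringChar F :=
        (sl2_orderOf_eq_char_iff _ x).2 ⟨h, fun h1 => hxc (h1 ▸ Subgroup.one_mem _)⟩
      exact (Cfsg.Agent.S2301.result (ringChar F) hchar).2.1 x ho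
    · have ho : orderOf (sl2PM false (0 : F) * x) = ringChar F := by
        refine (sl2_orderOf_eq_char_iff _ _).2 ⟨by rw [sl2_trace_neg, h, neg_neg], fun h1 => hxc ?_⟩
        have hx : x = (sl2PM false (0 : F))⁻¹ := eq_inv_of_mul_eq_one_right h1
        rw [hx]
        exact inv_mem sl2PM_false_mem_center
      have h5 := (Cfsg.Agent.S2301.result (ringChar F) hchar).2.1 _ ho
      rw [← h5, ← index_centralizer_eq_card_carrier, ← index_centralizer_eq_card_carrier,
        centralizer_central_mul _ x sl2PM_false_mem_center]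
  have hV : ∀ x : Matrix.SpecialLinearGroup (Fin 2) F,
      (Matrix.trace (x : Matrix (Fin 2) (Fin 2) F)) ^ 2 ≠ 4 →
      Nat.card (ConjClasses.mk x).carrier = Fintype.card F * (Fintype.card F - 1) +
        Nat.card {a : F // a ^ 2 - Matrix.trace (x : Matrix (Fin 2) (Fin 2) F) * a + 1 = 0} *
          Fintype.card F :=
    fun x ht => sl2_card_carrier_of_trace _ ht (hall _ ht) x rfl
  have hr0_1 : Fintype.card F % 4 = 1 → Nat.card {a : F // a ^ 2 - 0 * a + 1 = 0} = 2 := by
    intro h
    have hsq : IsSquare (-1 : F) := FiniteField.isSquare_neg_one_iff.2 (by omega)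
    obtain ⟨a, ha⟩ := hsq
    apply card_roots_eq_two 0 a (by linear_combination -ha)
    intro h0
    have ha0 : a = 0 := by
      apply mul_left_cancel₀ h2
      linear_combination -h0
    rw [ha0] at ha
    simp at ha
  have hr0_3 : Fintype.card F % 4 = 3 → Nat.card {a : F // a ^ 2 - 0 * a + 1 = 0} = 0 := by
    intro h
    apply card_roots_eq_zero
    intro a ha
    have hsq : IsSquare (-1 : F) := ⟨a, by linear_combination -ha⟩
    exact (FiniteField.isSquare_neg_one_iff.1 hsq) h
  have trComp : ∀ (t : F) (u : Fˣ), Matrix.trace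
      ((sl2Comp t u : Matrix.SpecialLinearGroup (Fin 2) F) : Matrix (Fin 2) (Fin 2) F) = t := by
    intro t u
    rw [sl2Comp_val, Matrix.trace_fin_two]
    simp
  have hclass : ∀ x : Matrix.SpecialLinearGroup (Fin 2) F,
      idx x = 1 ∨ idx x = (Fintype.card F ^ 2 - 1) / 2 ∨
      2 * idx x = Fintype.card F * (Fintype.card F - 1) +
        Nat.card {a : F // a ^ 2 - 0 * a + 1 = 0} * Fintype.card F ∨
      idx x = Fintype.card F * (Fintype.card F - 1) ∨
      idx x = Fintype.card F * (Fintype.card F + 1) := by
    intro x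
    by_cases hxc : x ∈ Subgroup.center (Matrix.SpecialLinearGroup (Fin 2) F)
    · left
      exact hI x hxc
    · by_cases ht : (Matrix.trace (x : Matrix (Fin 2) (Fin 2) F)) ^ 2 = 4
      · right; left
        rw [hII x (by
          intro h0
          rw [h0] at ht
          exact h04 ht)]
        exact hIV x hxc ht
      · by_cases ht0 : Matrix.trace (x : Matrix (Fin 2) (Fin 2) F) = 0
        · right; right; left
          exact hIII x ht0
        · rw [hII x ht0, hV x ht]
          by_cases hr : ∃ a : F, a ^ 2 - Matrix.trace (x : Matrix (Fin 2) (Fin 2) F) * a + 1 = 0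
          · obtain ⟨a, ha⟩ := hr
            right; right; right; right
            rw [card_roots_eq_two _ a ha (by
              intro h
              apply ht
              rw [h] at ha ⊢
              linear_combination (-4 : F) * ha)]
            exact harith
          · push Not at hr
            right; right; right; left
            rw [card_roots_eq_zero _ hr]
            simp
  have hex1 : ∃ x : Matrix.SpecialLinearGroup (Fin 2) F, idx x = 1 :=
    ⟨1, hI 1 (Subgroup.one_mem _)⟩
  have hex2 : ∃ x : Matrix.SpecialLinearGroup (Fin 2) F,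
      idx x = (Fintype.card F ^ 2 - 1) / 2 := by
    have htr : Matrix.trace ((sl2Unip (1 : F) : Matrix.SpecialLinearGroup (Fin 2) F) :
        Matrix (Fin 2) (Fin 2) F) = 2 := by
      rw [sl2Unip_val, Matrix.trace_fin_two]
      simp
      norm_num
    refine ⟨sl2Unip 1, ?_⟩
    rw [hII _ (by rw [htr]; exact h2)]
    apply hIV
    · intro hc
      rcases (hZ _).1 hc with h | h
      · have h1 := congrArg (fun M : Matrix.SpecialLinearGroup (Fin 2) F =>
          (M : Matrix (Fin 2) (Fin 2) F) 0 1) h
        simp [sl2Unip_val] at h1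
      · have h1 := congrArg (fun M : Matrix.SpecialLinearGroup (Fin 2) F =>
          (M : Matrix (Fin 2) (Fin 2) F) 0 1) h
        simp [sl2Unip_val, sl2PM_val] at h1
    · rw [htr]
      norm_num
  have hex3 : ∃ x : Matrix.SpecialLinearGroup (Fin 2) F,
      2 * idx x = Fintype.card F * (Fintype.card F - 1) +
        Nat.card {a : F // a ^ 2 - 0 * a + 1 = 0} * Fintype.card F :=
    ⟨sl2Comp 0 1, hIII _ (trComp 0 1)⟩
  have hex4 : ∃ x : Matrix.SpecialLinearGroup (Fin 2) F,
      idx x = Fintype.card F * (Fintype.card F - 1) := by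
    obtain ⟨t, ht0, hnr⟩ := exists_trace_no_root (F := F) (by omega)
    have ht : t ^ 2 ≠ 4 := by
      intro ht
      obtain ⟨s, hs⟩ : ∃ s : F, 2 * s = t := ⟨t / 2, by field_simp⟩
      apply hnr s
      apply mul_left_cancel₀ h4
      rw [← hs] at ht ⊢
      linear_combination -ht
    refine ⟨sl2Comp t 1, ?_⟩
    rw [hII _ (by rw [trComp]; exact ht0), hV _ (by rw [trComp]; exact ht), trComp,
      card_roots_eq_zero _ hnr]
    simp
  have hex5 : ∃ x : Matrix.SpecialLinearGroup (Fin 2) F,
      idx x = Fintype.card F * (Fintype.card F + 1) := by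
    obtain ⟨a, ha0, ha4⟩ : ∃ a : F, a ≠ 0 ∧ a ^ 4 ≠ 1 := by
      obtain ⟨g, hg⟩ := IsCyclic.exists_generator (α := Fˣ)
      have ho : orderOf g = Fintype.card F - 1 := by
        rw [orderOf_eq_card_of_forall_mem_zpowers hg, Nat.card_eq_fintype_card, Fintype.card_units]
      refine ⟨(g : F), g.ne_zero, ?_⟩
      intro h
      have h' : g ^ 4 = 1 := by
        apply Units.ext
        simpa using h
      have h6 := orderOf_dvd_of_pow_eq_one h'
      rw [ho] at h6
      have := Nat.le_of_dvd (by norm_num) h6
      omega
    have ht0 : a + a⁻¹ ≠ 0 := by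
      intro h
      apply ha4
      have h1 : a * a = -1 := by
        field_simp at h
        linear_combination h
      have : a ^ 4 = (a * a) * (a * a) := by ring
      rw [this, h1]
      ring
    have ha1 : a * a ≠ 1 := by
      intro h1
      apply ha4
      have : a ^ 4 = (a * a) * (a * a) := by ring
      rw [this, h1]
      ring
    have hroot : a ^ 2 - (a + a⁻¹) * a + 1 = 0 := by
      field_simp
      ring
    have hne : a + a⁻¹ ≠ 2 * a := by
      intro h
      apply ha1
      field_simp at h
      linear_combination -h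
    have ht : (a + a⁻¹) ^ 2 ≠ 4 := by
      intro ht
      apply ha1
      have h1 : (a * a - 1) ^ 2 = 0 := by
        field_simp at ht
        linear_combination ht
      have := (pow_eq_zero_iff two_ne_zero).1 h1
      exact sub_eq_zero.1 this
    refine ⟨sl2Comp (a + a⁻¹) 1, ?_⟩
    rw [hII _ (by rw [trComp]; exact ht0), hV _ (by rw [trComp]; exact ht), trComp,
      card_roots_eq_two _ a hroot hne]
    exact harith
  constructor
  · intro hmod
    ext n
    simp only [Set.mem_range, Set.mem_insert_iff, Set.mem_singleton_iff]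
    constructor
    · rintro ⟨g, rfl⟩
      obtain ⟨x, rfl⟩ := QuotientGroup.mk_surjective g
      rcases hclass x with h | h | h | h | h
      · left; exact h
      · right; left; exact h
      · right; right; left
        rw [hr0_1 hmod, harith] at h
        have h' : (Subgroup.centralizer ({(QuotientGroup.mk x :
            Matrix.ProjectiveSpecialLinearGroup (Fin 2) F)} :
            Set (Matrix.ProjectiveSpecialLinearGroup (Fin 2) F))).index = idx x := rfl
        rw [h']
        omega
      · right; right; right; left; exact h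
      · right; right; right; right; exact h
    · rintro (rfl | rfl | rfl | rfl | rfl)
      · obtain ⟨x, hx⟩ := hex1
        exact ⟨_, hx⟩
      · obtain ⟨x, hx⟩ := hex2
        exact ⟨_, hx⟩
      · obtain ⟨x, hx⟩ := hex3
        refine ⟨QuotientGroup.mk x, ?_⟩
        rw [hr0_1 hmod, harith] at hx
        show idx x = _
        omega
      · obtain ⟨x, hx⟩ := hex4
        exact ⟨_, hx⟩
      · obtain ⟨x, hx⟩ := hex5
        exact ⟨_, hx⟩
  · intro hmod
    ext n
    simp only [Set.mem_range, Set.mem_insert_iff, Set.mem_singleton_iff]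
    constructor
    · rintro ⟨g, rfl⟩
      obtain ⟨x, rfl⟩ := QuotientGroup.mk_surjective g
      rcases hclass x with h | h | h | h | h
      · left; exact h
      · right; left; exact h
      · right; right; left
        rw [hr0_3 hmod] at h
        have h' : (Subgroup.centralizer ({(QuotientGroup.mk x :
            Matrix.ProjectiveSpecialLinearGroup (Fin 2) F)} :
            Set (Matrix.ProjectiveSpecialLinearGroup (Fin 2) F))).index = idx x := rfl
        rw [h']
        omega
      · right; right; right; right; exact h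
      · right; right; right; left; exact h
    · rintro (rfl | rfl | rfl | rfl | rfl)
      · obtain ⟨x, hx⟩ := hex1
        exact ⟨_, hx⟩
      · obtain ⟨x, hx⟩ := hex2
        exact ⟨_, hx⟩
      · obtain ⟨x, hx⟩ := hex3
        refine ⟨QuotientGroup.mk x, ?_⟩
        rw [hr0_3 hmod] at hx
        show idx x = _
        omega
      · obtain ⟨x, hx⟩ := hex5
        exact ⟨_, hx⟩
      · obtain ⟨x, hx⟩ := hex4
        exact ⟨_, hx⟩

end Cfsg.Agent.S2508
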