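import Cfsg.Statements.S2514
import Mathlib

set_option autoImplicit false
open Cfsg

namespace Cfsg.Agent.S2514

/-- the set of element orders that are maximal under divisibility -/
def mu (X : Type*) [Group X] : Set ℕ :=
  {n : ℕ | n ∈ Set.range (orderOf : X → ℕ) ∧ ∀ m ∈ Set.range (orderOf : X → ℕ), n ∣ m → m = n}

theorem pi_order_dvd {ι : Type*} [Finite ι] {X : Type*} [Group X] (x : ι → X) (n : ℕ) :
    orderOf x ∣ n ↔ ∀ t, orderOf (x t) ∣ n := by
  rw [orderOf_dvd_iff_pow_eq_one]
  constructor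
  · intro h t
    rw [orderOf_dvd_iff_pow_eq_one]
    have := congrFun h t
    simpa using this
  · intro h
    funext t
    have := orderOf_dvd_iff_pow_eq_one.mp (h t)
    simpa using this

theorem prod_order_dvd {X Y : Type*} [Group X] [Group Y] (a : X) (b : Y) (n : ℕ) :
    orderOf (a, b) ∣ n ↔ orderOf a ∣ n ∧ orderOf b ∣ n := by
  rw [Prod.orderOf_mk]
  exact Nat.lcm_dvd_iff

theorem eq_of_dvd_iff {a b : ℕ} (h : ∀ n, a ∣ n ↔ b ∣ n) : a = b :=
  Nat.dvd_antisymm ((h b).mpr (dvd_refl b)) ((h a).mp (dvd_refl a))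

theorem exists_order_of_dvd {X : Type*} [Group X] [Finite X] (g : X) (d : ℕ) (hd : d ∣ orderOf g) :
    ∃ g' : X, orderOf g' = d := by
  have hpos : 0 < orderOf g := orderOf_pos g
  obtain ⟨c, hc⟩ := hd
  have hc0 : c ≠ 0 := by
    intro h0
    rw [h0, mul_zero] at hc
    omega
  refine ⟨g ^ c, ?_⟩
  rw [orderOf_pow_of_dvd hc0 (Dvd.intro_left d hc.symm), hc]
  exact Nat.mul_div_cancel d (Nat.pos_of_ne_zero hc0)

theorem exists_mu_of_order {X : Type*} [Group X] [Finite X] (n : ℕ)
    (hn : n ∈ Set.range (orderOf : X → ℕ)) : ∃ m ∈ mu X, n ∣ m := by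
  let S : Set ℕ := {m | m ∈ Set.range (orderOf : X → ℕ) ∧ n ∣ m}
  have hfin : S.Finite := (Set.finite_range _).subset (fun m hm => hm.1)
  have hne : S.Nonempty := ⟨n, hn, dvd_refl n⟩
  have hmem : sSup S ∈ S := Nat.sSup_mem hne hfin.bddAbove
  refine ⟨sSup S, ⟨hmem.1, ?_⟩, hmem.2⟩
  intro m' hm' hdvd
  have hm'S : m' ∈ S := ⟨hm', hmem.2.trans hdvd⟩
  have hle : m' ≤ sSup S := le_csSup hfin.bddAbove hm'S
  have hpos : 0 < m' := by
    obtain ⟨x, rfl⟩ := hm'
    exact orderOf_pos x
  exact le_antisymm hle (Nat.le_of_dvd hpos hdvd)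

theorem mu_finite (X : Type*) [Group X] [Finite X] : (mu X).Finite :=
  (Set.finite_range (orderOf : X → ℕ)).subset (fun _ hm => hm.1)


/-- For a finite group X write μ(X) for the set of element orders of X that are maximal under divisibility. Let G and H be finite groups and k ≥ 1 such that μ(H) ⊆ μ(G) and μ(G) has fewer than k elements outside μ(H). Then the direct product of k copies of G has the same set of element orders as the direct product of k − 1 copies of G with H. -/
theorem result {G H : Type*} [Group G] [Finite G] [Group H] [Finite H] (k : ℕ) (hk : 1 ≤ k)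
    (hsub : {n : ℕ | n ∈ Set.range (orderOf : H → ℕ) ∧ ∀ m ∈ Set.range (orderOf : H → ℕ), n ∣ m → m = n} ⊆ {n : ℕ | n ∈ Set.range (orderOf : G → ℕ) ∧ ∀ m ∈ Set.range (orderOf : G → ℕ), n ∣ m → m = n})
    (hfew : ({n : ℕ | n ∈ Set.range (orderOf : G → ℕ) ∧ ∀ m ∈ Set.range (orderOf : G → ℕ), n ∣ m → m = n} \ {n : ℕ | n ∈ Set.range (orderOf : H → ℕ) ∧ ∀ m ∈ Set.range (orderOf : H → ℕ), n ∣ m → m = n}).ncard < k) :
    Set.range (orderOf : (Fin k → G) → ℕ) = Set.range (orderOf : (Fin (k - 1) → G) × H → ℕ) := by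
  change mu H ⊆ mu G at hsub
  change (mu G \ mu H).ncard < k at hfew
  obtain ⟨j, rfl⟩ : ∃ j, k = j + 1 := ⟨k - 1, by omega⟩
  show Set.range (orderOf : (Fin (j + 1) → G) → ℕ) = Set.range (orderOf : (Fin j → G) × H → ℕ)
  ext n
  constructor
  · rintro ⟨f, rfl⟩
    have hex : ∀ i : Fin (j + 1), ∃ m ∈ mu G, orderOf (f i) ∣ m :=
      fun i => exists_mu_of_order _ ⟨f i, rfl⟩
    choose m hm hdiv using hex
    have hpig : (∃ i, m i ∈ mu H) ∨ (∃ i i', i ≠ i' ∧ m i = m i') := by
      by_contra hcon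
      push Not at hcon
      obtain ⟨h1, h2⟩ := hcon
      have hinj : Function.Injective m := by
        intro a b hab
        by_contra hne
        exact h2 a b hne hab
      have hsubset : Set.range m ⊆ mu G \ mu H := by
        rintro _ ⟨i, rfl⟩
        exact ⟨hm i, h1 i⟩
      have hfin : (mu G \ mu H).Finite := (mu_finite G).subset Set.sdiff_subset
      have hcard := Set.ncard_le_ncard hsubset hfin
      have hr : (Set.range m).ncard = j + 1 := by
        rw [← Set.image_univ, Set.ncard_image_of_injective _ hinj, Set.ncard_univ, Nat.card_fin]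
      omega
    rcases hpig with ⟨i, hi⟩ | ⟨i, i', hne, heq⟩
    · obtain ⟨h₀, hh₀⟩ := hi.1
      obtain ⟨h, hh⟩ := exists_order_of_dvd h₀ (orderOf (f i)) (by rw [hh₀]; exact hdiv i)
      refine ⟨(fun t => f (i.succAbove t), h), ?_⟩
      apply eq_of_dvd_iff
      intro n
      rw [prod_order_dvd, pi_order_dvd, pi_order_dvd, hh]
      constructor
      · rintro ⟨ha, hb⟩ t
        by_cases hti : t = i
        · rw [hti]; exact hb
        · obtain ⟨t', rfl⟩ := Fin.exists_succAbove_eq hti
          exact ha t'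
      · intro ha
        exact ⟨fun t => ha _, ha i⟩
    · obtain ⟨g, hg⟩ := (hm i).1
      have hl : Nat.lcm (orderOf (f i)) (orderOf (f i')) ∣ orderOf g := by
        rw [hg]
        exact Nat.lcm_dvd (hdiv i) (heq ▸ hdiv i')
      obtain ⟨g₀, hg₀⟩ := exists_order_of_dvd g _ hl
      refine ⟨(fun t => (Function.update f i g₀) (i'.succAbove t), 1), ?_⟩
      apply eq_of_dvd_iff
      intro n
      rw [prod_order_dvd, pi_order_dvd, pi_order_dvd, orderOf_one]
      constructor
      · rintro ⟨ha, -⟩ t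
        obtain ⟨s, hs⟩ := Fin.exists_succAbove_eq hne
        have hlcm : Nat.lcm (orderOf (f i)) (orderOf (f i')) ∣ n := by
          have := ha s
          rw [hs, Function.update_self, hg₀] at this
          exact this
        by_cases hti : t = i
        · rw [hti]; exact (Nat.dvd_lcm_left _ _).trans hlcm
        · by_cases hti' : t = i'
          · rw [hti']; exact (Nat.dvd_lcm_right _ _).trans hlcm
          · obtain ⟨t', rfl⟩ := Fin.exists_succAbove_eq hti'
            have := ha t'
            rwa [Function.update_of_ne hti] at this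
      · intro ha
        refine ⟨fun t => ?_, one_dvd n⟩
        by_cases hti : i'.succAbove t = i
        · rw [hti, Function.update_self, hg₀]
          exact Nat.lcm_dvd (ha i) (ha i')
        · rw [Function.update_of_ne hti]
          exact ha _
  · rintro ⟨⟨f', h⟩, rfl⟩
    obtain ⟨m, hm, hdvd⟩ := exists_mu_of_order (orderOf h) ⟨h, rfl⟩
    obtain ⟨g₁, hg₁⟩ := (hsub hm).1
    obtain ⟨g, hg⟩ := exists_order_of_dvd g₁ (orderOf h) (by rw [hg₁]; exact hdvd)
    refine ⟨Fin.cons g f', ?_⟩
    apply eq_of_dvd_iff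
    intro n
    rw [prod_order_dvd, pi_order_dvd, pi_order_dvd, Fin.forall_fin_succ]
    simp only [Fin.cons_zero, Fin.cons_succ, hg]
    exact and_comm

end Cfsg.Agent.S2514
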