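import Cfsg.Statements.S2516
import Mathlib

set_option autoImplicit false
open Cfsg

namespace Cfsg.Agent.S2516

theorem pow_eq {F : Type*} [Field F] {V : Type*} [AddCommGroup V] [Module F V] {G : Type*}
    [Group G] (ρ : Representation F G V) (g : G) (v : V) (m : ℕ) :
    ((⟨Multiplicative.ofAdd v, g⟩ : Multiplicative V ⋊[(MulAutMultiplicative V).symm.toMonoidHom.comp
        ((DistribMulAction.toAddAut ((V →ₗ[F] V)ˣ) V).comp ρ.asGroupHom)] G) ^ m) =
      ⟨Multiplicative.ofAdd (∑ i ∈ Finset.range m, ((ρ g) ^ i) v), g ^ m⟩ := by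
  induction m with
  | zero =>
    rw [pow_zero, pow_zero, Finset.range_zero, Finset.sum_empty]
    rfl
  | succ m ih =>
    rw [pow_succ, ih]
    refine SemidirectProduct.ext ?_ ?_
    · rw [SemidirectProduct.mul_left]
      show Multiplicative.ofAdd _ * Multiplicative.ofAdd ((ρ (g ^ m)) v) = _
      rw [← ofAdd_add, Finset.sum_range_succ, map_pow]
    · rw [SemidirectProduct.mul_right, pow_succ]


/-- Let F be a field of characteristic p > 0, V a non-zero finite-dimensional F-vector space, G a finite group and ρ a representation of G on V; form the semidirect product V ⋊ G. For g ∈ G of order k, the coset Vg contains an element of order pk if and only if the minimal polynomial of ρ(g) does not divide 1 + X + ⋯ + X^(k−1). -/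
theorem result {F : Type*} [Field F] (p : ℕ) [Fact p.Prime] [CharP F p] {V : Type*} [AddCommGroup V] [Module F V] [FiniteDimensional F V] [Nontrivial V]
    {G : Type*} [Group G] [Finite G] (ρ : Representation F G V) (g : G) :
    (∃ x : Multiplicative V ⋊[(MulAutMultiplicative V).symm.toMonoidHom.comp
        ((DistribMulAction.toAddAut ((V →ₗ[F] V)ˣ) V).comp ρ.asGroupHom)] G,
        x.right = g ∧ orderOf x = p * orderOf g) ↔
      ¬ (minpoly F (ρ g) ∣ ∑ i ∈ Finset.range (orderOf g), (Polynomial.X : Polynomial F) ^ i) := by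
  have hk : 0 < orderOf g := orderOf_pos g
  have hpp : p.Prime := Fact.out
  have hS : ∑ i ∈ Finset.range (orderOf g), (ρ g) ^ i = Polynomial.aeval (ρ g)
      (∑ i ∈ Finset.range (orderOf g), (Polynomial.X : Polynomial F) ^ i) := by
    simp [map_sum]
  rw [minpoly.dvd_iff, ← hS]
  constructor
  · rintro ⟨x, hxg, hord⟩ h0
    have hx : x = ⟨Multiplicative.ofAdd (Multiplicative.toAdd x.left), g⟩ :=
      SemidirectProduct.ext rfl hxg
    have hpow : x ^ orderOf g = 1 := by
      rw [hx, pow_eq, pow_orderOf_eq_one]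
      have h1 : ∑ i ∈ Finset.range (orderOf g), ((ρ g) ^ i) (Multiplicative.toAdd x.left) = 0 := by
        rw [← LinearMap.sum_apply, h0]
        rfl
      rw [h1]
      rfl
    have hdvd := orderOf_dvd_of_pow_eq_one hpow
    rw [hord] at hdvd
    have h2 := Nat.le_of_dvd hk hdvd
    have h3 := hpp.two_le
    nlinarith
  · intro hne
    obtain ⟨v, hv⟩ : ∃ v, (∑ i ∈ Finset.range (orderOf g), (ρ g) ^ i) v ≠ 0 := by
      by_contra hcon
      push Not at hcon
      exact hne (LinearMap.ext hcon)
    obtain ⟨x, hxdef⟩ : ∃ x : Multiplicative V ⋊[(MulAutMultiplicative V).symm.toMonoidHom.comp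
        ((DistribMulAction.toAddAut ((V →ₗ[F] V)ˣ) V).comp ρ.asGroupHom)] G,
        x = ⟨Multiplicative.ofAdd v, g⟩ := ⟨_, rfl⟩
    refine ⟨x, by rw [hxdef], ?_⟩
    have hxk : x ^ orderOf g = SemidirectProduct.inl (Multiplicative.ofAdd
        ((∑ i ∈ Finset.range (orderOf g), (ρ g) ^ i) v)) := by
      rw [hxdef, pow_eq, pow_orderOf_eq_one, LinearMap.sum_apply]
      rfl
    have hy1 : x ^ orderOf g ≠ 1 := by
      rw [hxk]
      intro h
      have h1 := congrArg SemidirectProduct.left h
      exact hv h1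
    have hyp : (x ^ orderOf g) ^ p = 1 := by
      rw [hxk, ← map_pow, ← ofAdd_nsmul]
      have h1 : p • ((∑ i ∈ Finset.range (orderOf g), (ρ g) ^ i) v) = 0 := by
        rw [← Nat.cast_smul_eq_nsmul F, CharP.cast_eq_zero F p, zero_smul]
      rw [h1]
      rfl
    have hordy : orderOf (x ^ orderOf g) = p := orderOf_eq_prime hyp hy1
    have hkdvd : orderOf g ∣ orderOf x := by
      have := orderOf_map_dvd (SemidirectProduct.rightHom (φ := (MulAutMultiplicative V).symm.toMonoidHom.comp
        ((DistribMulAction.toAddAut ((V →ₗ[F] V)ˣ) V).comp ρ.asGroupHom))) x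
      rw [hxdef] at this ⊢
      exact this
    rw [orderOf_pow' x hk.ne', Nat.gcd_eq_right hkdvd] at hordy
    have := Nat.div_mul_cancel hkdvd
    rw [hordy] at this
    exact this.symm

end Cfsg.Agent.S2516
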