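import Cfsg.Statements.S2762
import Mathlib
import Cfsg.Agent.Lib.Helper4.PCore
-- import your own Cfsg.Agent.* helpers here

set_option autoImplicit false
open Cfsg

namespace Cfsg.Agent.S2762

open Matrix

variable {F : Type*} [Field F]

/-- The underlying matrix of an element of `Qd(F)`. -/
def mat (x : ↥(Cfsg.qdOver F)) : Matrix (Fin 3) (Fin 3) F :=
  ((x : Matrix.SpecialLinearGroup (Fin 3) F) : Matrix (Fin 3) (Fin 3) F)

theorem mat_mul (x y : ↥(Cfsg.qdOver F)) : mat (x * y) = mat x * mat y := rfl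

theorem mat_one : mat (1 : ↥(Cfsg.qdOver F)) = 1 := rfl

theorem mat_inj : Function.Injective (mat : ↥(Cfsg.qdOver F) → _) :=
  fun _ _ h => Subtype.ext (Subtype.ext h)

theorem mat_mul_apply (x y : ↥(Cfsg.qdOver F)) (i j : Fin 3) :
    mat (x * y) i j = mat x i 0 * mat y 0 j + mat x i 1 * mat y 1 j + mat x i 2 * mat y 2 j := by
  rw [mat_mul, Matrix.mul_apply, Fin.sum_univ_three]

theorem mem_qd_iff (M : Matrix.SpecialLinearGroup (Fin 3) F) : M ∈ Cfsg.qdOver F ↔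
    (M : Matrix (Fin 3) (Fin 3) F) 2 0 = 0 ∧ (M : Matrix (Fin 3) (Fin 3) F) 2 1 = 0 ∧
      (M : Matrix (Fin 3) (Fin 3) F) 2 2 = 1 := by
  constructor
  · intro h
    unfold Cfsg.qdOver at h
    induction h using Subgroup.closure_induction with
    | mem x hx => exact hx
    | one => exact ⟨by simp, by simp, by simp⟩
    | mul x y _ _ hx hy =>
      obtain ⟨h0, h1, h2⟩ := hx
      obtain ⟨k0, k1, k2⟩ := hy
      refine ⟨?_, ?_, ?_⟩
      · simp [Matrix.mul_apply, Fin.sum_univ_three, h0, h1, h2, k0]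
      · simp [Matrix.mul_apply, Fin.sum_univ_three, h0, h1, h2, k1]
      · simp [Matrix.mul_apply, Fin.sum_univ_three, h0, h1, h2, k2]
    | inv x _ hx =>
      obtain ⟨h0, h1, h2⟩ := hx
      have hdet : (x : Matrix (Fin 3) (Fin 3) F).det = 1 := x.2
      rw [Matrix.det_fin_three, h0, h1, h2] at hdet
      refine ⟨?_, ?_, ?_⟩
      · rw [Matrix.SpecialLinearGroup.coe_inv, Matrix.adjugate_fin_three]
        simp [h0, h1]
      · rw [Matrix.SpecialLinearGroup.coe_inv, Matrix.adjugate_fin_three]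
        simp [h0, h1]
      · rw [Matrix.SpecialLinearGroup.coe_inv, Matrix.adjugate_fin_three]
        simp
        linear_combination hdet
  · intro h
    exact Subgroup.subset_closure h

theorem mat_row (x : ↥(Cfsg.qdOver F)) : mat x 2 0 = 0 ∧ mat x 2 1 = 0 ∧ mat x 2 2 = 1 :=
  (mem_qd_iff _).1 x.2

theorem mat_det2 (x : ↥(Cfsg.qdOver F)) : mat x 0 0 * mat x 1 1 - mat x 0 1 * mat x 1 0 = 1 := by
  obtain ⟨r0, r1, r2⟩ := mat_row x
  have hdet : (mat x).det = 1 := x.1.2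
  rw [Matrix.det_fin_three, r0, r1, r2] at hdet
  linear_combination hdet

/-- The linear part. -/
def rho : ↥(Cfsg.qdOver F) →* Matrix.SpecialLinearGroup (Fin 2) F where
  toFun M := ⟨!![mat M 0 0, mat M 0 1; mat M 1 0, mat M 1 1], by
    rw [Matrix.det_fin_two_of]; exact mat_det2 M⟩
  map_one' := by
    apply Subtype.ext
    show (!![mat (1 : ↥(Cfsg.qdOver F)) 0 0, mat (1 : ↥(Cfsg.qdOver F)) 0 1;
      mat (1 : ↥(Cfsg.qdOver F)) 1 0, mat (1 : ↥(Cfsg.qdOver F)) 1 1] : Matrix (Fin 2) (Fin 2) F) = 1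
    rw [mat_one, Matrix.one_fin_two]
    simp
  map_mul' M N := by
    apply Subtype.ext
    obtain ⟨r0, r1, r2⟩ := mat_row N
    show (!![mat (M * N) 0 0, mat (M * N) 0 1; mat (M * N) 1 0, mat (M * N) 1 1] :
        Matrix (Fin 2) (Fin 2) F)
      = !![mat M 0 0, mat M 0 1; mat M 1 0, mat M 1 1] * !![mat N 0 0, mat N 0 1; mat N 1 0, mat N 1 1]
    rw [Matrix.mul_fin_two, mat_mul_apply, mat_mul_apply, mat_mul_apply, mat_mul_apply, r0, r1]
    simp

theorem rho_val (M : ↥(Cfsg.qdOver F)) :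
    (rho M).1 = !![mat M 0 0, mat M 0 1; mat M 1 0, mat M 1 1] := rfl

theorem rho_eq_one_iff (M : ↥(Cfsg.qdOver F)) :
    rho M = 1 ↔ mat M 0 0 = 1 ∧ mat M 0 1 = 0 ∧ mat M 1 0 = 0 ∧ mat M 1 1 = 1 := by
  constructor
  · intro h
    have e : ∀ i j, (rho M).1 i j = (1 : Matrix (Fin 2) (Fin 2) F) i j := fun i j => by rw [h]; rfl
    have e00 := e 0 0
    have e01 := e 0 1
    have e10 := e 1 0
    have e11 := e 1 1
    rw [rho_val] at e00 e01 e10 e11
    refine ⟨by simpa using e00, by simpa using e01, by simpa using e10, by simpa using e11⟩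
  · rintro ⟨h1, h2, h3, h4⟩
    apply Subtype.ext
    rw [rho_val, h1, h2, h3, h4]
    exact Matrix.one_fin_two.symm

/-- The block-diagonal matrix. -/
def sigMat (A : Matrix (Fin 2) (Fin 2) F) : Matrix (Fin 3) (Fin 3) F :=
  !![A 0 0, A 0 1, 0; A 1 0, A 1 1, 0; 0, 0, 1]

theorem sigMat_mul (A B : Matrix (Fin 2) (Fin 2) F) : sigMat (A * B) = sigMat A * sigMat B := by
  ext i j
  fin_cases i <;> fin_cases j <;>
    simp [sigMat, Matrix.mul_apply, Fin.sum_univ_three, Fin.sum_univ_two]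

theorem sigMat_one : sigMat (1 : Matrix (Fin 2) (Fin 2) F) = 1 := by
  ext i j
  fin_cases i <;> fin_cases j <;> simp [sigMat]

theorem sigMat_det (A : Matrix (Fin 2) (Fin 2) F) : (sigMat A).det = A.det := by
  rw [Matrix.det_fin_three, Matrix.det_fin_two]
  simp [sigMat]

/-- The block-diagonal embedding. -/
def sigma : Matrix.SpecialLinearGroup (Fin 2) F →* ↥(Cfsg.qdOver F) where
  toFun A := ⟨(⟨sigMat A.1, by rw [sigMat_det]; exact A.2⟩ : Matrix.SpecialLinearGroup (Fin 3) F),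
    (mem_qd_iff _).2 ⟨by simp [sigMat], by simp [sigMat], by simp [sigMat]⟩⟩
  map_one' := by
    apply mat_inj
    exact sigMat_one
  map_mul' A B := by
    apply mat_inj
    exact sigMat_mul A.1 B.1

theorem sigma_mat (A : Matrix.SpecialLinearGroup (Fin 2) F) :
    mat (sigma A) = sigMat A.1 := rfl

theorem sigma_entries (A : Matrix.SpecialLinearGroup (Fin 2) F) :
    mat (sigma A) 0 0 = A.1 0 0 ∧ mat (sigma A) 0 1 = A.1 0 1 ∧ mat (sigma A) 0 2 = 0 ∧
    mat (sigma A) 1 0 = A.1 1 0 ∧ mat (sigma A) 1 1 = A.1 1 1 ∧ mat (sigma A) 1 2 = 0 := by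
  rw [sigma_mat]
  refine ⟨?_, ?_, ?_, ?_, ?_, ?_⟩ <;> simp [sigMat]

theorem rho_sigma (A : Matrix.SpecialLinearGroup (Fin 2) F) : rho (sigma A) = A := by
  obtain ⟨h00, h01, h02, h10, h11, h12⟩ := sigma_entries A
  apply Subtype.ext
  rw [rho_val, h00, h01, h10, h11]
  exact (Matrix.eta_fin_two A.1).symm

theorem sigma_rho (M : ↥(Cfsg.qdOver F)) (h02 : mat M 0 2 = 0) (h12 : mat M 1 2 = 0) :
    sigma (rho M) = M := by
  obtain ⟨r0, r1, r2⟩ := mat_row M
  apply mat_inj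
  rw [sigma_mat, rho_val]
  ext i j
  fin_cases i <;> fin_cases j <;> simp [sigMat, h02, h12, r0, r1, r2]

theorem pow_entries (M : ↥(Cfsg.qdOver F)) (hM : rho M = 1) (k : ℕ) :
    rho (M ^ k) = 1 ∧ mat (M ^ k) 0 2 = k * mat M 0 2 ∧ mat (M ^ k) 1 2 = k * mat M 1 2 := by
  induction k with
  | zero =>
    refine ⟨by simp, ?_, ?_⟩
    · rw [pow_zero, mat_one]; simp
    · rw [pow_zero, mat_one]; simp
  | succ k ih =>
    obtain ⟨ih1, ih2, ih3⟩ := ih
    obtain ⟨a00, a01, a10, a11⟩ := (rho_eq_one_iff _).1 ih1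
    obtain ⟨r0, r1, r2⟩ := mat_row M
    refine ⟨by rw [map_pow, hM, one_pow], ?_, ?_⟩
    · rw [pow_succ, mat_mul_apply, a00, a01, ih2, r2]; push_cast; ring
    · rw [pow_succ, mat_mul_apply, a10, a11, ih3, r2]; push_cast; ring

theorem ker_pow_p {p : ℕ} [CharP F p] (M : ↥(Cfsg.qdOver F)) (hM : rho M = 1) : M ^ p = 1 := by
  obtain ⟨h1, h2, h3⟩ := pow_entries M hM p
  obtain ⟨a00, a01, a10, a11⟩ := (rho_eq_one_iff _).1 h1
  obtain ⟨r0, r1, r2⟩ := mat_row (M ^ p)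
  rw [CharP.cast_eq_zero F p, zero_mul] at h2 h3
  apply mat_inj
  rw [mat_one]
  ext i j
  fin_cases i <;> fin_cases j <;> simp [a00, a01, a10, a11, r0, r1, r2, h2, h3]

theorem trace_two {p : ℕ} [Fact p.Prime] [CharP F p] (A : Matrix.SpecialLinearGroup (Fin 2) F)
    (k : ℕ) (hA : A ^ p ^ k = 1) : A.1 0 0 + A.1 1 1 = 2 := by
  have h1 : (A.1 - 1) ^ p ^ k = 0 := by
    have hc : Commute A.1 (1 : Matrix (Fin 2) (Fin 2) F) := Commute.one_right _
    rw [sub_pow_char_pow_of_commute p k hc, one_pow]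
    have : (A ^ p ^ k).1 = (1 : Matrix.SpecialLinearGroup (Fin 2) F).1 := by rw [hA]
    rw [Matrix.SpecialLinearGroup.coe_pow] at this
    rw [this]
    simp
  have h2 : IsNilpotent (A.1 - 1) := ⟨p ^ k, h1⟩
  have h3 := Matrix.isNilpotent_trace_of_isNilpotent h2
  have h4 : (A.1 - 1).trace = 0 := h3.eq_zero
  rw [Matrix.trace_sub, Matrix.trace_one, Matrix.trace_fin_two] at h4
  simp at h4
  linear_combination h4

theorem sl2_key (a b c d : F) (hdet : a * d - b * c = 1)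
    (htr : (a * d - b * b) + (-(c * c) + d * a) = 2) : b = c := by
  have h : (b - c) ^ 2 = 0 := by
    linear_combination (-1 : F) * htr + 2 * hdet
  exact sub_eq_zero.mp ((pow_eq_zero_iff (by norm_num)).mp h)

theorem w_conj' (a b c d : F) :
    (!![a, b; c, d] * (!![0, -1; 1, 0] * !![a, b; c, d] * !![0, 1; -1, 0]) :
        Matrix (Fin 2) (Fin 2) F)
      = !![a * d - b * b, -(a * c) + b * a; c * d - d * b, -(c * c) + d * a] := by
  rw [Matrix.mul_fin_two, Matrix.mul_fin_two, Matrix.mul_fin_two]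
  ext i j
  fin_cases i <;> fin_cases j <;> simp <;> ring

theorem u_conj' (a b c d t : F) :
    (!![1, t; 0, 1] * !![a, b; c, d] * !![1, -t; 0, 1] : Matrix (Fin 2) (Fin 2) F)
      = !![a + t * c, -(t * a) - t * t * c + b + t * d; c, -(t * c) + d] := by
  rw [Matrix.mul_fin_two, Matrix.mul_fin_two]
  ext i j
  fin_cases i <;> fin_cases j <;> simp <;> ring

/-- Weyl element of `SL₂`. -/
def wS : Matrix.SpecialLinearGroup (Fin 2) F := ⟨!![0, -1; 1, 0], by simp [Matrix.det_fin_two]⟩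

/-- Its inverse. -/
def wS' : Matrix.SpecialLinearGroup (Fin 2) F := ⟨!![0, 1; -1, 0], by simp [Matrix.det_fin_two]⟩

theorem wS_inv : (wS : Matrix.SpecialLinearGroup (Fin 2) F)⁻¹ = wS' := by
  apply inv_eq_of_mul_eq_one_right
  apply Subtype.ext
  show (!![0, -1; 1, 0] * !![0, 1; -1, 0] : Matrix (Fin 2) (Fin 2) F) = 1
  rw [Matrix.mul_fin_two, Matrix.one_fin_two]
  simp

/-- Unipotent elements of `SL₂`. -/
def uS (t : F) : Matrix.SpecialLinearGroup (Fin 2) F := ⟨!![1, t; 0, 1], by simp [Matrix.det_fin_two]⟩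

theorem uS_inv (t : F) : (uS t)⁻¹ = uS (-t) := by
  apply inv_eq_of_mul_eq_one_right
  apply Subtype.ext
  show (!![1, t; 0, 1] * !![1, -t; 0, 1] : Matrix (Fin 2) (Fin 2) F) = 1
  rw [Matrix.mul_fin_two, Matrix.one_fin_two]
  simp

theorem pcore_le_ker {p : ℕ} [Fact p.Prime] [CharP F p] (M : ↥(Cfsg.qdOver F))
    (hM : M ∈ Cfsg.pCore p ↥(Cfsg.qdOver F)) : rho M = 1 := by
  have hn : (Cfsg.pCore p ↥(Cfsg.qdOver F)).Normal := Cfsg.Agent.Lib.Helper4.pCore_normal p _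
  have hp : IsPGroup p (Cfsg.pCore p ↥(Cfsg.qdOver F)) := Cfsg.Agent.Lib.Helper4.pCore_isPGroup p _
  have tr : ∀ X ∈ Cfsg.pCore p ↥(Cfsg.qdOver F), (rho X).1 0 0 + (rho X).1 1 1 = 2 := by
    intro X hX
    obtain ⟨k, hk⟩ := hp ⟨X, hX⟩
    have hk' : X ^ p ^ k = 1 := congrArg Subtype.val hk
    exact trace_two (rho X) k (by rw [← map_pow, hk', map_one])
  have sym : ∀ X ∈ Cfsg.pCore p ↥(Cfsg.qdOver F), (rho X).1 0 1 = (rho X).1 1 0 := by
    intro X hX
    have hY : X * (sigma wS * X * (sigma wS)⁻¹) ∈ Cfsg.pCore p ↥(Cfsg.qdOver F) :=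
      mul_mem hX (hn.conj_mem X hX _)
    have h1 := tr _ hY
    have h2 : rho (X * (sigma wS * X * (sigma wS)⁻¹)) = rho X * (wS * rho X * wS') := by
      rw [map_mul, map_mul, map_mul, map_inv, rho_sigma, wS_inv]
    rw [h2] at h1
    have hdet := (rho X).2
    rw [Matrix.det_fin_two] at hdet
    have heta := Matrix.eta_fin_two (rho X).1
    have h3 : (rho X * (wS * rho X * wS')).1 = (rho X).1 * ((!![0, -1; 1, 0] :
        Matrix (Fin 2) (Fin 2) F) * (rho X).1 * (!![0, 1; -1, 0] : Matrix (Fin 2) (Fin 2) F)) := rfl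
    rw [h3, heta, w_conj'] at h1
    exact sl2_key _ _ _ _ hdet h1
  have conj_u : ∀ t : F, -(t * (rho M).1 0 0) - t * t * (rho M).1 1 0 + (rho M).1 0 1
      + t * (rho M).1 1 1 = (rho M).1 1 0 := by
    intro t
    have hY : sigma (uS t) * M * (sigma (uS t))⁻¹ ∈ Cfsg.pCore p ↥(Cfsg.qdOver F) :=
      hn.conj_mem M hM _
    have h1 := sym _ hY
    have h2 : rho (sigma (uS t) * M * (sigma (uS t))⁻¹) = uS t * rho M * uS (-t) := by
      rw [map_mul, map_mul, map_inv, rho_sigma, uS_inv]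
    rw [h2] at h1
    have heta := Matrix.eta_fin_two (rho M).1
    have h4 : (uS t * rho M * uS (-t)).1 = (!![1, t; 0, 1] : Matrix (Fin 2) (Fin 2) F)
        * (rho M).1 * (!![1, -t; 0, 1] : Matrix (Fin 2) (Fin 2) F) := rfl
    rw [h4, heta, u_conj'] at h1
    exact h1
  have T := tr M hM
  have E0 := sym M hM
  have E1 := conj_u 1
  have E2 := conj_u (-1)
  have D := (rho M).2
  rw [Matrix.det_fin_two] at D
  obtain ⟨a, ha⟩ : ∃ a : F, a = (rho M).1 0 0 := ⟨_, rfl⟩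
  obtain ⟨b, hb⟩ : ∃ b : F, b = (rho M).1 0 1 := ⟨_, rfl⟩
  obtain ⟨c, hc⟩ : ∃ c : F, c = (rho M).1 1 0 := ⟨_, rfl⟩
  obtain ⟨d, hd⟩ : ∃ d : F, d = (rho M).1 1 1 := ⟨_, rfl⟩
  rw [← ha, ← hb, ← hc, ← hd] at D
  rw [← ha, ← hd] at T
  rw [← hb, ← hc] at E0
  rw [← ha, ← hb, ← hc, ← hd] at E1 E2
  have hc0 : c = 0 := by
    by_cases h2 : (2 : F) = 0
    · linear_combination (-1 : F) * E1 + E0 + T + (1 - a) * h2
    · have h2c : (2 : F) * c = 0 := by
        linear_combination (-1 : F) * E1 - E2 + 2 * E0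
      rcases mul_eq_zero.mp h2c with h | h
      · exact absurd h h2
      · exact h
  have hb0 : b = 0 := by rw [E0, hc0]
  have ha1 : a = 1 := by
    have h : (a - 1) ^ 2 = 0 := by
      linear_combination (-1 : F) * D + a * T - b * hc0
    exact sub_eq_zero.mp ((pow_eq_zero_iff (by norm_num)).mp h)
  have hd1 : d = 1 := by linear_combination T - ha1
  apply Subtype.ext
  rw [Matrix.eta_fin_two (rho M).1, ← ha, ← hb, ← hc, ← hd, ha1, hb0, hc0, hd1]
  exact Matrix.one_fin_two.symm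

/-- Translations. -/
def tau (f : Fin 2 → F) : ↥(Cfsg.qdOver F) :=
  ⟨(⟨!![1, 0, f 0; 0, 1, f 1; 0, 0, 1], by simp [Matrix.det_fin_three]⟩ :
      Matrix.SpecialLinearGroup (Fin 3) F), by
    refine (mem_qd_iff _).2 ⟨?_, ?_, ?_⟩ <;> simp⟩

theorem tau_mat (f : Fin 2 → F) : mat (tau f) = !![1, 0, f 0; 0, 1, f 1; 0, 0, 1] := rfl

theorem tau_entries (f : Fin 2 → F) :
    mat (tau f) 0 0 = 1 ∧ mat (tau f) 0 1 = 0 ∧ mat (tau f) 0 2 = f 0 ∧
    mat (tau f) 1 0 = 0 ∧ mat (tau f) 1 1 = 1 ∧ mat (tau f) 1 2 = f 1 := by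
  rw [tau_mat]
  refine ⟨?_, ?_, ?_, ?_, ?_, ?_⟩ <;> simp

theorem add_entries (v w : ↥(Cfsg.qdOver F)) (hv : rho v = 1) :
    mat (v * w) 0 2 = mat v 0 2 + mat w 0 2 ∧ mat (v * w) 1 2 = mat v 1 2 + mat w 1 2 := by
  obtain ⟨a00, a01, a10, a11⟩ := (rho_eq_one_iff _).1 hv
  obtain ⟨r0, r1, r2⟩ := mat_row w
  rw [mat_mul_apply, mat_mul_apply, a00, a01, a10, a11, r2]
  constructor <;> ring

theorem cent_entries (l : ↥(Cfsg.qdOver F)) (f : Fin 2 → F) (l02 : mat l 0 2 = 0)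
    (l12 : mat l 1 2 = 0) (h : tau f * l = l * tau f) :
    f 0 = mat l 0 0 * f 0 + mat l 0 1 * f 1 ∧ f 1 = mat l 1 0 * f 0 + mat l 1 1 * f 1 := by
  obtain ⟨t00, t01, t02, t10, t11, t12⟩ := tau_entries f
  obtain ⟨s0, s1, s2⟩ := mat_row (tau f)
  obtain ⟨r0, r1, r2⟩ := mat_row l
  have e1 := congrFun (congrFun (congrArg mat h) 0) 2
  have e2 := congrFun (congrFun (congrArg mat h) 1) 2
  rw [mat_mul_apply, mat_mul_apply, t00, t01, t02, t12, s2, l02, l12, r2] at e1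
  rw [mat_mul_apply, mat_mul_apply, t10, t11, t02, t12, s2, l02, l12, r2] at e2
  constructor
  · linear_combination e1
  · linear_combination e2

theorem conj_entries (l v : ↥(Cfsg.qdOver F)) (l02 : mat l 0 2 = 0) (l12 : mat l 1 2 = 0) :
    mat (l * v * l⁻¹) 0 2 = mat l 0 0 * mat v 0 2 + mat l 0 1 * mat v 1 2 ∧
    mat (l * v * l⁻¹) 1 2 = mat l 1 0 * mat v 0 2 + mat l 1 1 * mat v 1 2 := by
  obtain ⟨r0, r1, r2⟩ := mat_row l
  obtain ⟨s0, s1, s2⟩ := mat_row v
  have h : (l * v * l⁻¹) * l = l * v := by group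
  have e1 : mat (l * v * l⁻¹ * l) 0 2 = mat (l * v) 0 2 := by rw [h]
  have e2 : mat (l * v * l⁻¹ * l) 1 2 = mat (l * v) 1 2 := by rw [h]
  rw [mat_mul_apply (l * v * l⁻¹) l, mat_mul_apply l v, l02, l12, r2] at e1 e2
  constructor
  · linear_combination e1
  · linear_combination e2

/-- Structure of Qd over a finite field F of characteristic p (the affine subgroup of SL₃(F)): its largest normal p-subgroup is the group of translations (matrices with upper-left block the identity), the block-diagonal matrices form a complement isomorphic to SL₂(F), and the translation subgroup is a natural SL₂(F)-module for that complement. -/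
theorem result {F : Type*} [Field F] [Fintype F] {p : ℕ} [Fact p.Prime] [CharP F p] : (∀ M : ↥(Cfsg.qdOver F), M ∈ Cfsg.pCore p ↥(Cfsg.qdOver F) ↔ ((M : Matrix.SpecialLinearGroup (Fin 3) F) : Matrix (Fin 3) (Fin 3) F) 0 0 = 1 ∧ ((M : Matrix.SpecialLinearGroup (Fin 3) F) : Matrix (Fin 3) (Fin 3) F) 0 1 = 0 ∧ ((M : Matrix.SpecialLinearGroup (Fin 3) F) : Matrix (Fin 3) (Fin 3) F) 1 0 = 0 ∧ ((M : Matrix.SpecialLinearGroup (Fin 3) F) : Matrix (Fin 3) (Fin 3) F) 1 1 = 1) ∧ ∃ K : Subgroup ↥(Cfsg.qdOver F), (∀ M : ↥(Cfsg.qdOver F), M ∈ K ↔ ((M : Matrix.SpecialLinearGroup (Fin 3) F) : Matrix (Fin 3) (Fin 3) F) 0 2 = 0 ∧ ((M : Matrix.SpecialLinearGroup (Fin 3) F) : Matrix (Fin 3) (Fin 3) F) 1 2 = 0) ∧ K ⊓ Cfsg.pCore p ↥(Cfsg.qdOver F) = ⊥ ∧ K ⊔ Cfsg.pCore p ↥(Cfsg.qdOver F) = ⊤ ∧ Nonempty (↥K ≃* Matrix.SpecialLinearGroup (Fin 2) F) ∧ Cfsg.IsNaturalSL2Module F (Cfsg.pCore p ↥(Cfsg.qdOver F)) K := by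
  classical
  have hmem : ∀ M : ↥(Cfsg.qdOver F), M ∈ Cfsg.pCore p ↥(Cfsg.qdOver F) ↔ rho M = 1 := by
    intro M
    constructor
    · exact pcore_le_ker M
    · intro h
      have hle : (rho : ↥(Cfsg.qdOver F) →* _).ker ≤ Cfsg.pCore p ↥(Cfsg.qdOver F) := by
        apply Cfsg.Agent.Lib.Helper4.le_pCore (MonoidHom.normal_ker _)
        intro g
        refine ⟨1, ?_⟩
        apply Subtype.ext
        rw [pow_one]
        exact ker_pow_p (p := p) g.1 (MonoidHom.mem_ker.1 g.2)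
      exact hle (MonoidHom.mem_ker.2 h)
  have hn : (Cfsg.pCore p ↥(Cfsg.qdOver F)).Normal := Cfsg.Agent.Lib.Helper4.pCore_normal p _
  refine ⟨fun M => (hmem M).trans (rho_eq_one_iff M), ?_⟩
  have hK : ∀ M : ↥(Cfsg.qdOver F),
      M ∈ (sigma : Matrix.SpecialLinearGroup (Fin 2) F →* ↥(Cfsg.qdOver F)).range ↔
        mat M 0 2 = 0 ∧ mat M 1 2 = 0 := by
    intro M
    constructor
    · rintro ⟨A, rfl⟩
      obtain ⟨h00, h01, h02, h10, h11, h12⟩ := sigma_entries A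
      exact ⟨h02, h12⟩
    · rintro ⟨h02, h12⟩
      exact ⟨rho M, sigma_rho M h02 h12⟩
  have hτ : ∀ f : Fin 2 → F, tau f ∈ Cfsg.pCore p ↥(Cfsg.qdOver F) := by
    intro f
    obtain ⟨t00, t01, t02, t10, t11, t12⟩ := tau_entries f
    exact (hmem _).2 ((rho_eq_one_iff _).2 ⟨t00, t01, t10, t11⟩)
  refine ⟨(sigma : Matrix.SpecialLinearGroup (Fin 2) F →* ↥(Cfsg.qdOver F)).range, hK, ?_, ?_, ?_, ?_⟩
  · rw [eq_bot_iff]
    rintro M ⟨hMK, hMV⟩
    rw [Subgroup.mem_bot]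
    obtain ⟨h02, h12⟩ := (hK M).1 hMK
    have h1 : rho M = 1 := (hmem M).1 hMV
    rw [← sigma_rho M h02 h12, h1, map_one]
  · rw [eq_top_iff]
    intro M _
    have e : M = sigma (rho M) * ((sigma (rho M))⁻¹ * M) := by group
    rw [e]
    apply Subgroup.mul_mem_sup (MonoidHom.mem_range.2 ⟨rho M, rfl⟩)
    rw [hmem, map_mul, map_inv, rho_sigma, inv_mul_cancel]
  · have hinj : Function.Injective
        (sigma : Matrix.SpecialLinearGroup (Fin 2) F →* ↥(Cfsg.qdOver F)) :=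
      Function.LeftInverse.injective rho_sigma
    exact ⟨(MonoidHom.ofInjective hinj).symm⟩
  · refine ⟨?_, ?_⟩
    · rw [Subgroup.normalizer_eq_top_iff.mpr hn]
      exact le_top
    · let e₀ : ↥(Cfsg.pCore p ↥(Cfsg.qdOver F)) ≃ (Fin 2 → F) :=
        { toFun := fun v => ![mat v.1 0 2, mat v.1 1 2]
          invFun := fun f => ⟨tau f, hτ f⟩
          left_inv := fun v => by
            apply Subtype.ext
            apply mat_inj
            obtain ⟨a00, a01, a10, a11⟩ := (rho_eq_one_iff _).1 ((hmem v.1).1 v.2)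
            obtain ⟨r0, r1, r2⟩ := mat_row v.1
            show mat (tau ![mat v.1 0 2, mat v.1 1 2]) = mat v.1
            rw [tau_mat]
            ext i j
            fin_cases i <;> fin_cases j <;> simp [a00, a01, a10, a11, r0, r1, r2]
          right_inv := fun f => by
            obtain ⟨t00, t01, t02, t10, t11, t12⟩ := tau_entries f
            show ![mat (tau f) 0 2, mat (tau f) 1 2] = f
            rw [t02, t12]
            ext i
            fin_cases i <;> simp }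
      let ψ : Additive ↥(Cfsg.pCore p ↥(Cfsg.qdOver F)) ≃+ (Fin 2 → F) :=
        AddEquiv.mk' (Additive.toMul.trans e₀) (by
          intro x y
          obtain ⟨c1, c2⟩ := add_entries (Additive.toMul x).1 (Additive.toMul y).1
            ((hmem _).1 (Additive.toMul x).2)
          show (![mat ((Additive.toMul x).1 * (Additive.toMul y).1) 0 2,
              mat ((Additive.toMul x).1 * (Additive.toMul y).1) 1 2] : Fin 2 → F)
            = ![mat (Additive.toMul x).1 0 2, mat (Additive.toMul x).1 1 2]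
              + ![mat (Additive.toMul y).1 0 2, mat (Additive.toMul y).1 1 2]
          rw [c1, c2]
          ext i
          fin_cases i <;> simp)
      have hψ : ∀ v : ↥(Cfsg.pCore p ↥(Cfsg.qdOver F)),
          ψ (Additive.ofMul v) = ![mat v.1 0 2, mat v.1 1 2] := fun v => rfl
      refine ⟨rho.comp (Subgroup.subtype _), ψ, ?_, ?_, ?_⟩
      · intro A
        exact ⟨⟨sigma A, ⟨A, rfl⟩⟩, rho_sigma A⟩
      · ext l
        rw [MonoidHom.mem_ker, Subgroup.mem_subgroupOf, Subgroup.mem_centralizer_iff]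
        obtain ⟨l02, l12⟩ := (hK l.1).1 l.2
        constructor
        · intro h1
          have h1' : rho l.1 = 1 := h1
          have hl1 : l.1 = 1 := by rw [← sigma_rho l.1 l02 l12, h1', map_one]
          intro h _
          show h * l.1 = l.1 * h
          rw [hl1]; group
        · intro hcen
          have c1 : tau ![1, 0] * l.1 = l.1 * tau ![1, 0] := hcen (tau ![1, 0]) (hτ _)
          have c2 : tau ![0, 1] * l.1 = l.1 * tau ![0, 1] := hcen (tau ![0, 1]) (hτ _)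
          obtain ⟨q1, q2⟩ := cent_entries l.1 ![1, 0] l02 l12 c1
          obtain ⟨q3, q4⟩ := cent_entries l.1 ![0, 1] l02 l12 c2
          have q1' : (1 : F) = mat l.1 0 0 * 1 + mat l.1 0 1 * 0 := q1
          have q2' : (0 : F) = mat l.1 1 0 * 1 + mat l.1 1 1 * 0 := q2
          have q3' : (0 : F) = mat l.1 0 0 * 0 + mat l.1 0 1 * 1 := q3
          have q4' : (1 : F) = mat l.1 1 0 * 0 + mat l.1 1 1 * 1 := q4
          show rho l.1 = 1
          rw [rho_eq_one_iff]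
          refine ⟨?_, ?_, ?_, ?_⟩
          · linear_combination (-1 : F) * q1'
          · linear_combination (-1 : F) * q3'
          · linear_combination (-1 : F) * q2'
          · linear_combination (-1 : F) * q4'
      · intro l v
        have hw : (l : ↥(Cfsg.qdOver F)) * v * (l : ↥(Cfsg.qdOver F))⁻¹
            ∈ Cfsg.pCore p ↥(Cfsg.qdOver F) := hn.conj_mem v.1 v.2 l.1
        refine ⟨⟨_, hw⟩, rfl, ?_⟩
        rw [hψ, hψ]
        obtain ⟨l02, l12⟩ := (hK l.1).1 l.2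
        obtain ⟨c1, c2⟩ := conj_entries l.1 v.1 l02 l12
        show (![mat (l.1 * v.1 * l.1⁻¹) 0 2, mat (l.1 * v.1 * l.1⁻¹) 1 2] : Fin 2 → F)
          = (!![mat l.1 0 0, mat l.1 0 1; mat l.1 1 0, mat l.1 1 1] :
              Matrix (Fin 2) (Fin 2) F).mulVec ![mat v.1 0 2, mat v.1 1 2]
        rw [c1, c2]
        ext i
        fin_cases i <;> simp [Matrix.mulVec, dotProduct, Fin.sum_univ_two]

end Cfsg.Agent.S2762
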