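import Cfsg.Statements.S2896
import Mathlib
import Cfsg.Agent.Lib.Helper5.ParaChar5

set_option autoImplicit false
open Cfsg

namespace Cfsg.Agent.S2896

/-- Let p be a prime dividing the order of the finite group G, S a Sylow p-subgroup of G and X a subgroup of S. (i) If some nontrivial element z of the centre of X has F*(C_G(z)) = O_p(C_G(z)), then F*(N_G(X)) = O_p(N_G(X)). (ii) G has parabolic characteristic p if and only if F*(C_G(z)) = O_p(C_G(z)) for every nontrivial z ∈ Ω₁(Z(S)). (iii) If F*(C_G(z)) = O_p(C_G(z)) for every element z of S of order p, then G has local characteristic p. -/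
theorem result {G : Type*} [Group G] [Finite G] {p : ℕ} [Fact p.Prime] (hdiv : p ∣ Nat.card G) (S : Sylow p G) (X : Subgroup G) (hX : X ≤ (S : Subgroup G)) : (∀ z : G, z ≠ 1 → z ∈ X → (∀ x ∈ X, x * z = z * x) → Cfsg.generalizedFittingSubgroup ↥(Subgroup.centralizer ({z} : Set G)) = Cfsg.pCore p ↥(Subgroup.centralizer ({z} : Set G)) → Cfsg.generalizedFittingSubgroup ↥(Subgroup.normalizer (X : Set G)) = Cfsg.pCore p ↥(Subgroup.normalizer (X : Set G))) ∧ (Cfsg.IsOfParabolicCharacteristic p G ↔ ∀ z : G, z ≠ 1 → z ∈ Cfsg.omegaOne p ((S : Subgroup G) ⊓ Subgroup.centralizer ((S : Subgroup G) : Set G)) → Cfsg.generalizedFittingSubgroup ↥(Subgroup.centralizer ({z} : Set G)) = Cfsg.pCore p ↥(Subgroup.centralizer ({z} : Set G))) ∧ ((∀ z : G, z ∈ (S : Subgroup G) → orderOf z = p → Cfsg.generalizedFittingSubgroup ↥(Subgroup.centralizer ({z} : Set G)) = Cfsg.pCore p ↥(Subgroup.centralizer ({z} : Set G))) → Cfsg.IsOfLocalCharacteristic p G) := by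
  have hom : Cfsg.omegaOne p ((S : Subgroup G) ⊓ Subgroup.centralizer ((S : Subgroup G) : Set G)) ≤
      (S : Subgroup G) ⊓ Subgroup.centralizer ((S : Subgroup G) : Set G) := by
    unfold Cfsg.omegaOne
    rw [Subgroup.closure_le]
    rintro x ⟨hx, -⟩
    exact hx
  refine ⟨?_, ⟨?_, ?_⟩, ?_⟩
  · intro z _ hzX hzc hC
    exact Cfsg.Agent.Lib.Helper2.genFitting_normalizer_aux p X _ _ z (S.isPGroup'.to_le hX) hzX
      rfl rfl hC hzc
  · intro hG z hz1 hz
    have h1 := hom hz
    exact Cfsg.Agent.Lib.Helper5.genFitting_centralizer_of_parabolicChar5 hG S z hz1 h1.1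
      (Subgroup.mem_centralizer_iff.mp h1.2)
  · intro h
    apply Cfsg.Agent.Lib.Helper5.parabolicChar_of_central5 S
    intro z hz1 hzS hzc hzp
    apply h z hz1
    unfold Cfsg.omegaOne
    exact Subgroup.subset_closure ⟨⟨hzS, Subgroup.mem_centralizer_iff.mpr hzc⟩, hzp⟩
  · intro h
    exact Cfsg.Agent.Lib.Helper5.localChar_of_order_p5 hdiv S h

end Cfsg.Agent.S2896
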