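import Cfsg.Statements.S2898
import Mathlib
import Cfsg.Agent.Lib.Helper5.ParaChar6

set_option autoImplicit false
open Cfsg

namespace Cfsg.Agent.S2898

/-- Let G be a finite group of even order with parabolic characteristic 2. If the centre of G ⧸ O(G) is trivial, then O(G) = 1. -/
theorem result {G : Type*} [Group G] [Finite G] (h2 : 2 ∣ Nat.card G) (hG : Cfsg.IsOfParabolicCharacteristic 2 G) [hN : (Cfsg.oddCore G).Normal] (hZ : Subgroup.center (G ⧸ Cfsg.oddCore G) = ⊥) : Cfsg.oddCore G = ⊥ := by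
  exact Cfsg.Agent.Lib.Helper5.oddCore_eq_bot_of_parabolicChar5 h2 hG hZ

end Cfsg.Agent.S2898
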