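import Cfsg.Statements.S2908
import Mathlib
import Cfsg.Agent.Lib.Helper5.NilpComm
import Cfsg.Agent.Lib.Lead.CoprimeAction2

set_option autoImplicit false
open Cfsg

namespace Cfsg.Agent.S2908

/-- Let P be a p-subgroup of a finite group, normalized by a p-subgroup A and by a subgroup B of order prime to p that commutes elementwise with A. If [P, B] ≤ [P, A], then B centralizes P. -/
theorem result {G : Type*} [Group G] [Finite G] {p : ℕ} [Fact p.Prime] (P A B : Subgroup G) (hP : IsPGroup p ↥P) (hA : IsPGroup p ↥A) (hB : ¬ p ∣ Nat.card ↥B) (hnA : A ≤ Subgroup.normalizer (P : Set G)) (hnB : B ≤ Subgroup.normalizer (P : Set G)) (hAB : ⁅A, B⁆ = ⊥) (hcomm : ⁅P, B⁆ ≤ ⁅P, A⁆) : ⁅P, B⁆ = ⊥ := by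
  have hpp : p.Prime := Fact.out
  obtain ⟨X, hX⟩ : ∃ X : Subgroup G, X = P ⊔ A := ⟨_, rfl⟩
  have hXp : IsPGroup p X := by
    rw [hX, sup_comm]
    exact IsPGroup.to_sup_of_normal_right' hA hP hnA
  have hPX : P ≤ X := by rw [hX]; exact le_sup_left
  have hAX : A ≤ X := by rw [hX]; exact le_sup_right
  have hAcB : A ≤ Subgroup.centralizer (B : Set G) :=
    Subgroup.commutator_eq_bot_iff_le_centralizer.mp hAB
  have hcopP : (Nat.card B).Coprime (Nat.card P) := by
    obtain ⟨k, hk⟩ := IsPGroup.iff_card.mp hP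
    rw [hk]
    exact Nat.Coprime.pow_right k ((Nat.Prime.coprime_iff_not_dvd hpp).mpr hB).symm
  have hsolvP : Group.IsSolvable B ∨ Group.IsSolvable P := by
    right
    haveI := hP.isNilpotent
    infer_instance
  have h1 : X ≤ (X ⊓ Subgroup.centralizer (B : Set G)) ⊔ ⁅X, X⁆ := by
    have h2 : P ⊔ A ≤ (X ⊓ Subgroup.centralizer (B : Set G)) ⊔ ⁅X, X⁆ := by
      apply sup_le
      · intro x hx
        obtain ⟨y, hy, c, hc, rfl⟩ :=
          Cfsg.Agent.Lib.Lead.coprime_commutator_decomp B P hnB hcopP hsolvP x hx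
        apply Subgroup.mul_mem
        · exact (le_sup_right : ⁅X, X⁆ ≤ (X ⊓ Subgroup.centralizer (B : Set G)) ⊔ ⁅X, X⁆)
            (Subgroup.commutator_mono hPX hAX (hcomm hy))
        · exact (le_sup_left : X ⊓ Subgroup.centralizer (B : Set G) ≤
            (X ⊓ Subgroup.centralizer (B : Set G)) ⊔ ⁅X, X⁆) ⟨hPX hc.1, hc.2⟩
      · intro a ha
        exact (le_sup_left : X ⊓ Subgroup.centralizer (B : Set G) ≤
            (X ⊓ Subgroup.centralizer (B : Set G)) ⊔ ⁅X, X⁆) ⟨hAX ha, hAcB ha⟩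
    intro x hx
    apply h2
    rw [← hX]
    exact hx
  have h3 : X ≤ X ⊓ Subgroup.centralizer (B : Set G) :=
    Cfsg.Agent.Lib.Helper5.le_of_le_sup_commutator X _ hXp inf_le_left h1
  rw [Subgroup.commutator_eq_bot_iff_le_centralizer]
  exact fun x hx => (h3 (hPX hx)).2

end Cfsg.Agent.S2908
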