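import Cfsg.Statements.S2909
import Mathlib
import Cfsg.Agent.Lib.Helper2.GenCoprime3
import Cfsg.Agent.Lib.Helper5.CoprimeAB

set_option autoImplicit false
open Cfsg

namespace Cfsg.Agent.S2909

/-- Let p be a prime, E a normal p-subgroup of the finite group G, and U a non-cyclic elementary abelian p-subgroup of G such that either C_E(U) = C_E(u) for every nontrivial u ∈ U, or [E, U] = [E, ⟨u⟩] for every nontrivial u ∈ U. If R is a subgroup of order prime to p normalized by U, then [R, U] centralizes E. -/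
theorem result {G : Type*} [Group G] [Finite G] {p : ℕ} [Fact p.Prime] (E : Subgroup G) [E.Normal] (hE : IsPGroup p ↥E) (U : Subgroup G) (hU : Cfsg.IsElementaryAbelian p U) (hnc : ¬ IsCyclic ↥U) (hcond : (∀ u ∈ U, u ≠ 1 → E ⊓ Subgroup.centralizer (U : Set G) = E ⊓ Subgroup.centralizer ({u} : Set G)) ∨ (∀ u ∈ U, u ≠ 1 → ⁅E, U⁆ = ⁅E, Subgroup.zpowers u⁆)) (R : Subgroup G) (hR : ¬ p ∣ Nat.card ↥R) (hRU : U ≤ Subgroup.normalizer (R : Set G)) : ⁅R, U⁆ ≤ Subgroup.centralizer (E : Set G) := by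
  have hp : p.Prime := Fact.out
  have hEn : E.Normal := inferInstance
  have hAc : ∀ a ∈ U, ∀ b ∈ U, a * b = b * a := by
    intro a ha b hb
    exact congrArg Subtype.val (hU.1.is_comm.comm ⟨a, ha⟩ ⟨b, hb⟩)
  have hCn : (Subgroup.centralizer (E : Set G)).Normal := inferInstance
  have hNtop : Subgroup.normalizer (E : Set G) = ⊤ := Subgroup.normalizer_eq_top E
  obtain ⟨W, hW⟩ : ∃ W : Subgroup G, ∀ g, g ∈ W ↔
      ∀ u ∈ U, g * u * g⁻¹ * u⁻¹ ∈ Subgroup.centralizer (E : Set G) := by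
    refine ⟨{ carrier := {g | ∀ u ∈ U, g * u * g⁻¹ * u⁻¹ ∈ Subgroup.centralizer (E : Set G)}
              mul_mem' := ?_
              one_mem' := ?_
              inv_mem' := ?_ }, fun g => Iff.rfl⟩
    · intro a b ha hb u hu
      have : a * b * u * (a * b)⁻¹ * u⁻¹ = a * (b * u * b⁻¹ * u⁻¹) * a⁻¹ * (a * u * a⁻¹ * u⁻¹) := by
        group
      rw [this]
      exact Subgroup.mul_mem _ (hCn.conj_mem _ (hb u hu) a) (ha u hu)
    · intro u _
      have : (1 : G) * u * 1⁻¹ * u⁻¹ = 1 := by group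
      rw [this]; exact Subgroup.one_mem _
    · intro a ha u hu
      have : a⁻¹ * u * a⁻¹⁻¹ * u⁻¹ = a⁻¹ * (a * u * a⁻¹ * u⁻¹)⁻¹ * a⁻¹⁻¹ := by group
      rw [this]
      exact hCn.conj_mem _ (Subgroup.inv_mem _ (ha u hu)) a⁻¹
  have hRW : R ≤ W := by
    apply Cfsg.Agent.Lib.Helper2.gen_coprime_relIndex p U R W hAc hU.2 hR hRU
    intro B hBU hidx r hr
    rw [hW]
    intro u hu
    have hBne : B ≠ ⊥ := by
      intro h
      rw [h, Subgroup.relIndex_bot_left] at hidx
      apply hnc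
      rcases (Nat.dvd_prime hp).mp hidx with h1 | h1
      · have : Subsingleton ↥U := by
          rw [← Finite.card_le_one_iff_subsingleton, h1]
        exact isCyclic_of_subsingleton
      · exact isCyclic_of_prime_card h1
    obtain ⟨b₀', hb₀'⟩ := (Subgroup.ne_bot_iff_exists_ne_one).mp hBne
    obtain ⟨b₀, hb₀B, hb₀1⟩ : ∃ b₀ ∈ B, b₀ ≠ 1 :=
      ⟨b₀'.1, b₀'.2, fun h => hb₀' (Subtype.ext h)⟩
    have hBp : IsPGroup p ↥B := by
      intro b
      refine ⟨1, ?_⟩
      apply Subtype.ext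
      show (b : G) ^ p ^ 1 = 1
      rw [pow_one]
      exact hU.2 b.1 (hBU b.2)
    have hrB : ∀ b ∈ B, r * b = b * r := by
      intro b hb
      exact (Subgroup.mem_centralizer_iff.mp hr.2 b hb).symm
    have hrinvB : ∀ b ∈ B, r⁻¹ * b = b * r⁻¹ := by
      intro b hb
      have := hrB b hb
      calc r⁻¹ * b = r⁻¹ * (b * r) * r⁻¹ := by group
        _ = r⁻¹ * (r * b) * r⁻¹ := by rw [this]
        _ = b * r⁻¹ := by group
    obtain ⟨y, hydef⟩ : ∃ y, y = r * u * r⁻¹ * u⁻¹ := ⟨_, rfl⟩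
    rw [← hydef]
    have hyR : y ∈ R := by
      have h1 : u * r⁻¹ * u⁻¹ ∈ R :=
        (Subgroup.mem_normalizer_iff.mp (hRU hu) r⁻¹).mp (R.inv_mem hr.1)
      have : y = r * (u * r⁻¹ * u⁻¹) := by rw [hydef]; group
      rw [this]; exact R.mul_mem hr.1 h1
    have hyB : ∀ b ∈ B, y * b = b * y := by
      intro b hb
      have h1 := hrB b hb
      have h2 := hrinvB b hb
      have h3 : u * b = b * u := hAc u hu b (hBU hb)
      have h4 : u⁻¹ * b = b * u⁻¹ := by
        calc u⁻¹ * b = u⁻¹ * (b * u) * u⁻¹ := by group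
          _ = u⁻¹ * (u * b) * u⁻¹ := by rw [h3]
          _ = b * u⁻¹ := by group
      rw [hydef]
      calc r * u * r⁻¹ * u⁻¹ * b = r * u * r⁻¹ * (u⁻¹ * b) := by group
        _ = r * u * (r⁻¹ * b) * u⁻¹ := by rw [h4]; group
        _ = r * (u * b) * r⁻¹ * u⁻¹ := by rw [h2]; group
        _ = (r * b) * u * r⁻¹ * u⁻¹ := by rw [h3]; group
        _ = b * (r * u * r⁻¹ * u⁻¹) := by rw [h1]; group
    have hy : (orderOf y).Coprime p := by
      have h1 : orderOf y ∣ Nat.card ↥R := Subgroup.orderOf_dvd_natCard R hyR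
      exact Nat.Coprime.coprime_dvd_left h1 ((hp.coprime_iff_not_dvd.mpr hR).symm)
    have hyE : y ∈ Subgroup.normalizer (E : Set G) := by rw [hNtop]; exact Subgroup.mem_top y
    have hBE : B ≤ Subgroup.normalizer (E : Set G) := by rw [hNtop]; exact le_top
    have hgoal : ∀ e ∈ E, y * e * y⁻¹ = e := by
      rcases hcond with ha | hb
      · apply Cfsg.Agent.Lib.Helper5.thompson_AB5 E B hE hBp hBE y hyE hyB hy
        intro e he heB
        have hEU := ha b₀ (hBU hb₀B) hb₀1
        have hmemU : ∀ x ∈ E, (∀ b ∈ B, b * x = x * b) → ∀ v ∈ U, v * x = x * v := by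
          intro x hx hxB v hv
          have h1 : x ∈ E ⊓ Subgroup.centralizer ({b₀} : Set G) := by
            refine ⟨hx, ?_⟩
            show x ∈ Subgroup.centralizer ({b₀} : Set G)
            rw [Subgroup.mem_centralizer_iff]
            intro h hh
            rw [Set.mem_singleton_iff] at hh
            rw [hh]; exact hxB b₀ hb₀B
          rw [← hEU] at h1
          exact Subgroup.mem_centralizer_iff.mp h1.2 v hv
        have h1 : u * e = e * u := hmemU e he heB u hu
        have h2 : r⁻¹ * e * r ∈ E := by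
          have := hEn.conj_mem e he r⁻¹
          simpa using this
        have h3 : ∀ b ∈ B, b * (r⁻¹ * e * r) = (r⁻¹ * e * r) * b := by
          intro b hb
          have hb1 := hrB b hb
          have hb2 := hrinvB b hb
          calc b * (r⁻¹ * e * r) = (b * r⁻¹) * e * r := by group
            _ = r⁻¹ * (b * e) * r := by rw [← hb2]; group
            _ = r⁻¹ * e * (b * r) := by rw [heB b hb]; group
            _ = r⁻¹ * e * r * b := by rw [← hb1]; group
        have h4 : u * (r⁻¹ * e * r) = (r⁻¹ * e * r) * u := hmemU _ h2 h3 u hu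
        have h5 : u⁻¹ * e * u = e := by
          calc u⁻¹ * e * u = u⁻¹ * (e * u) := by group
            _ = u⁻¹ * (u * e) := by rw [h1]
            _ = e := by group
        rw [hydef]
        calc r * u * r⁻¹ * u⁻¹ * e * (r * u * r⁻¹ * u⁻¹)⁻¹
            = r * u * r⁻¹ * (u⁻¹ * e * u) * r * u⁻¹ * r⁻¹ := by group
          _ = r * (u * (r⁻¹ * e * r)) * u⁻¹ * r⁻¹ := by rw [h5]; group
          _ = r * ((r⁻¹ * e * r) * u) * u⁻¹ * r⁻¹ := by rw [h4]
          _ = e := by group
      · apply Cfsg.Agent.Lib.Helper5.dual_AB5 E B hE hBp hBE y hyE hyB hy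
        intro e he
        have hEB : ⁅E, B⁆ = ⁅E, U⁆ := by
          apply le_antisymm (Subgroup.commutator_mono le_rfl hBU)
          rw [hb b₀ (hBU hb₀B) hb₀1]
          apply Subgroup.commutator_mono le_rfl
          rw [Subgroup.zpowers_le]; exact hb₀B
        have hrN : r ∈ Subgroup.normalizer ((⁅E, B⁆ : Subgroup G) : Set G) := by
          have h1 : Subgroup.centralizer (B : Set G) ≤
              Subgroup.normalizer ((⁅E, B⁆ : Subgroup G) : Set G) :=
            Cfsg.Agent.Lib.Helper4.le_normalizer_commutator (by rw [hNtop]; exact le_top)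
              (Subgroup.centralizer_le_normalizer _)
          exact h1 hr.2
        have huN : u ∈ Subgroup.normalizer ((⁅E, U⁆ : Subgroup G) : Set G) := by
          have h1 : U ≤ Subgroup.normalizer ((⁅E, U⁆ : Subgroup G) : Set G) :=
            Cfsg.Agent.Lib.Helper4.le_normalizer_commutator (by rw [hNtop]; exact le_top)
              Subgroup.le_normalizer
          exact h1 hu
        rw [hEB] at hrN ⊢
        have hcomm1 : ∀ v ∈ U, ∀ x ∈ E, v * x * v⁻¹ * x⁻¹ ∈ ⁅E, U⁆ := by
          intro v hv x hx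
          have h1 : v * x * v⁻¹ * x⁻¹ ∈ ⁅U, E⁆ := Subgroup.commutator_mem_commutator hv hx
          rw [Subgroup.commutator_comm] at h1
          exact h1
        have hc1 : u⁻¹ * e * u * e⁻¹ ∈ ⁅E, U⁆ := by
          have := hcomm1 u⁻¹ (U.inv_mem hu) e he
          simpa using this
        have hf : r⁻¹ * e * r ∈ E := by
          have := hEn.conj_mem e he r⁻¹
          simpa using this
        have hc2 : r⁻¹ * (u⁻¹ * e * u * e⁻¹) * r ∈ ⁅E, U⁆ := by
          have := (Subgroup.mem_normalizer_iff.mp (Subgroup.inv_mem _ hrN) _).mp hc1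
          simpa using this
        have hc3 : u * (r⁻¹ * (u⁻¹ * e * u * e⁻¹) * r) * u⁻¹ ∈ ⁅E, U⁆ :=
          (Subgroup.mem_normalizer_iff.mp huN _).mp hc2
        have hc4 : u * (r⁻¹ * e * r) * u⁻¹ * (r⁻¹ * e * r)⁻¹ ∈ ⁅E, U⁆ := hcomm1 u hu _ hf
        have hc5 := (Subgroup.mem_normalizer_iff.mp hrN _).mp (Subgroup.mul_mem _ hc3 hc4)
        have e1 : y * e * y⁻¹ * e⁻¹ = r * (u * (r⁻¹ * (u⁻¹ * e * u * e⁻¹) * r) * u⁻¹ *
            (u * (r⁻¹ * e * r) * u⁻¹ * (r⁻¹ * e * r)⁻¹)) * r⁻¹ := by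
          rw [hydef]; group
        rw [e1]; exact hc5
    rw [Subgroup.mem_centralizer_iff]
    intro e he
    have := hgoal e he
    calc e * y = (y * e * y⁻¹) * y := by rw [this]
      _ = y * e := by group
  rw [Subgroup.commutator_le]
  intro r hr u hu
  exact (hW r).mp (hRW hr) u hu

end Cfsg.Agent.S2909
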