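import Cfsg.Statements.S2925
import Mathlib
import Cfsg.Agent.Lib.Helper2.Layer
import Cfsg.Agent.Lib.Helper5.ParaChar5
import Cfsg.Agent.Lib.Helper3.PRes

set_option autoImplicit false
open Cfsg

namespace Cfsg.Agent.S2925

/-- Let K be a component of the finite group X and T a Sylow 2-subgroup of X. If some abelian normal subgroup Y of T does not normalize K, then K ⧸ Z(K) has abelian Sylow 2-subgroups. -/
theorem result {X : Type*} [Group X] [Finite X] (K : Subgroup X) (hK : Cfsg.IsComponent K) (T : Sylow 2 X) (Y : Subgroup X) (hYT : Y ≤ (T : Subgroup X)) (hYn : (Y.subgroupOf (T : Subgroup X)).Normal) (hYab : IsMulCommutative ↥Y) (hnot : ¬ Y ≤ Subgroup.normalizer (K : Set X)) (P : Sylow 2 (↥K ⧸ Subgroup.center ↥K)) : IsMulCommutative ↥(P : Subgroup (↥K ⧸ Subgroup.center ↥K)) := by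
  haveI : Fact (Nat.Prime 2) := ⟨Nat.prime_two⟩
  -- an element of `Y` moving `K`
  obtain ⟨y, hyY, hyK⟩ := SetLike.not_le_iff_exists.mp hnot
  have hKy : K.map (MulAut.conj y).toMonoidHom ≠ K := fun h =>
    hyK (Cfsg.Agent.Lib.Helper3.mem_normalizer_of_map_conj_eq' K y h)
  have hK' := Cfsg.Agent.Lib.Helper2.isComponent_conj K hK y
  have hcomm : ∀ a ∈ K, ∀ b ∈ K.map (MulAut.conj y).toMonoidHom, a * b = b * a := by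
    intro a ha b hb
    have h1 := Cfsg.Agent.Lib.Helper2.components_commute K _ hK hK' (Ne.symm hKy)
    exact (Subgroup.mem_centralizer_iff.mp (h1 ha) b hb).symm
  have hconjmem : ∀ a ∈ K, y * a * y⁻¹ ∈ K.map (MulAut.conj y).toMonoidHom :=
    fun a ha => ⟨a, ha, by simp [MulAut.conj_apply]⟩
  obtain ⟨SK, hSK⟩ := Cfsg.Agent.Lib.Helper5.sylow_inf_subnormal5 T K hK.1
  -- commutators of elements of `T ∩ K` are central in `K`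
  have key : ∀ s₁ s₂ : ↥K, (s₁ : X) ∈ (T : Subgroup X) → (s₂ : X) ∈ (T : Subgroup X) →
      s₁⁻¹ * s₂⁻¹ * s₁ * s₂ ∈ Subgroup.center ↥K := by
    intro s₁ s₂ h₁ h₂
    have hv : ∀ s : X, s ∈ (T : Subgroup X) → s * (y * s⁻¹ * y⁻¹) ∈ Y := by
      intro s hs
      have h3 := hYn.conj_mem ⟨y, hYT hyY⟩ (Subgroup.mem_subgroupOf.mpr hyY) ⟨s, hs⟩
      rw [Subgroup.mem_subgroupOf] at h3
      have h4 : s * y * s⁻¹ ∈ Y := by simpa using h3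
      have h5 := Y.mul_mem h4 (Y.inv_mem hyY)
      have e : s * (y * s⁻¹ * y⁻¹) = s * y * s⁻¹ * y⁻¹ := by group
      rw [e]; exact h5
    have hc := hYab.is_comm.comm ⟨_, hv s₁ h₁⟩ ⟨_, hv s₂ h₂⟩
    have hc' : (s₁ : X) * (y * (s₁ : X)⁻¹ * y⁻¹) * ((s₂ : X) * (y * (s₂ : X)⁻¹ * y⁻¹))
        = (s₂ : X) * (y * (s₂ : X)⁻¹ * y⁻¹) * ((s₁ : X) * (y * (s₁ : X)⁻¹ * y⁻¹)) :=
      congrArg Subtype.val hc
    have e1 := hcomm (s₂ : X) s₂.2 (y * (s₁ : X)⁻¹ * y⁻¹) (hconjmem _ (K.inv_mem s₁.2))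
    have e2 := hcomm (s₁ : X) s₁.2 (y * (s₂ : X)⁻¹ * y⁻¹) (hconjmem _ (K.inv_mem s₂.2))
    have h7 : (s₁ : X) * (s₂ : X) * (y * ((s₁ : X)⁻¹ * (s₂ : X)⁻¹) * y⁻¹)
        = (s₂ : X) * (s₁ : X) * (y * ((s₂ : X)⁻¹ * (s₁ : X)⁻¹) * y⁻¹) := by
      calc (s₁ : X) * (s₂ : X) * (y * ((s₁ : X)⁻¹ * (s₂ : X)⁻¹) * y⁻¹)
          = (s₁ : X) * ((s₂ : X) * (y * (s₁ : X)⁻¹ * y⁻¹)) * (y * (s₂ : X)⁻¹ * y⁻¹) := by group
        _ = (s₁ : X) * ((y * (s₁ : X)⁻¹ * y⁻¹) * (s₂ : X)) * (y * (s₂ : X)⁻¹ * y⁻¹) := by rw [e1]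
        _ = (s₁ : X) * (y * (s₁ : X)⁻¹ * y⁻¹) * ((s₂ : X) * (y * (s₂ : X)⁻¹ * y⁻¹)) := by group
        _ = (s₂ : X) * (y * (s₂ : X)⁻¹ * y⁻¹) * ((s₁ : X) * (y * (s₁ : X)⁻¹ * y⁻¹)) := hc'
        _ = (s₂ : X) * ((y * (s₂ : X)⁻¹ * y⁻¹) * (s₁ : X)) * (y * (s₁ : X)⁻¹ * y⁻¹) := by group
        _ = (s₂ : X) * ((s₁ : X) * (y * (s₂ : X)⁻¹ * y⁻¹)) * (y * (s₁ : X)⁻¹ * y⁻¹) := by rw [e2]
        _ = (s₂ : X) * (s₁ : X) * (y * ((s₂ : X)⁻¹ * (s₁ : X)⁻¹) * y⁻¹) := by group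
    have h8 : (s₁ : X)⁻¹ * (s₂ : X)⁻¹ * (s₁ : X) * (s₂ : X)
        = y * ((s₂ : X)⁻¹ * (s₁ : X)⁻¹ * (s₂ : X) * (s₁ : X)) * y⁻¹ := by
      calc (s₁ : X)⁻¹ * (s₂ : X)⁻¹ * (s₁ : X) * (s₂ : X)
          = (s₁ : X)⁻¹ * (s₂ : X)⁻¹ * ((s₁ : X) * (s₂ : X) * (y * ((s₁ : X)⁻¹ * (s₂ : X)⁻¹) * y⁻¹))
            * (y * ((s₁ : X)⁻¹ * (s₂ : X)⁻¹) * y⁻¹)⁻¹ := by group
        _ = (s₁ : X)⁻¹ * (s₂ : X)⁻¹ * ((s₂ : X) * (s₁ : X) * (y * ((s₂ : X)⁻¹ * (s₁ : X)⁻¹) * y⁻¹))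
            * (y * ((s₁ : X)⁻¹ * (s₂ : X)⁻¹) * y⁻¹)⁻¹ := by rw [h7]
        _ = y * ((s₂ : X)⁻¹ * (s₁ : X)⁻¹ * (s₂ : X) * (s₁ : X)) * y⁻¹ := by group
    have h9 : (s₁ : X)⁻¹ * (s₂ : X)⁻¹ * (s₁ : X) * (s₂ : X) ∈ K.map (MulAut.conj y).toMonoidHom := by
      rw [h8]
      exact hconjmem _ (K.mul_mem (K.mul_mem (K.mul_mem (K.inv_mem s₂.2) (K.inv_mem s₁.2)) s₂.2) s₁.2)
    rw [Subgroup.mem_center_iff]
    intro k
    apply Subtype.ext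
    have := hcomm (k : X) k.2 _ h9
    simpa using this
  -- the image of `SK` is a commutative Sylow subgroup of the quotient
  let S' : Sylow 2 (↥K ⧸ Subgroup.center ↥K) :=
    SK.mapSurjective (QuotientGroup.mk'_surjective (Subgroup.center ↥K))
  have hS'c : ∀ a ∈ (S' : Subgroup (↥K ⧸ Subgroup.center ↥K)),
      ∀ b ∈ (S' : Subgroup (↥K ⧸ Subgroup.center ↥K)), a * b = b * a := by
    intro a ha b hb
    rw [Sylow.coe_mapSurjective] at ha hb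
    obtain ⟨s₁, hs₁, rfl⟩ := ha
    obtain ⟨s₂, hs₂, rfl⟩ := hb
    rw [SetLike.mem_coe, hSK, Subgroup.mem_subgroupOf] at hs₁ hs₂
    have h1 := key s₁ s₂ hs₁ hs₂
    rw [← map_mul, ← map_mul]
    symm
    apply QuotientGroup.eq.mpr
    have e : (s₂ * s₁)⁻¹ * (s₁ * s₂) = s₁⁻¹ * s₂⁻¹ * s₁ * s₂ := by group
    rw [e]; exact h1
  obtain ⟨g, hg⟩ := MulAction.exists_smul_eq (↥K ⧸ Subgroup.center ↥K) S' P
  have hmem : ∀ a ∈ (P : Subgroup (↥K ⧸ Subgroup.center ↥K)),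
      g⁻¹ * a * g ∈ (S' : Subgroup (↥K ⧸ Subgroup.center ↥K)) := by
    intro a ha
    rw [← hg, Sylow.coe_subgroup_smul, Subgroup.mem_pointwise_smul_iff_inv_smul_mem] at ha
    simpa [MulAut.smul_def, MulAut.conj_inv_apply] using ha
  refine ⟨⟨?_⟩⟩
  rintro ⟨a, ha⟩ ⟨b, hb⟩
  apply Subtype.ext
  have h1 := hS'c _ (hmem a ha) _ (hmem b hb)
  change a * b = b * a
  calc a * b = g * ((g⁻¹ * a * g) * (g⁻¹ * b * g)) * g⁻¹ := by group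
    _ = g * ((g⁻¹ * b * g) * (g⁻¹ * a * g)) * g⁻¹ := by rw [h1]
    _ = b * a := by group

end Cfsg.Agent.S2925
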