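import Cfsg.Statements.S2940
import Mathlib
import Cfsg.Agent.Lib.Helper5.ClassicalSE

set_option autoImplicit false
open Cfsg

namespace Cfsg.Agent.S2940

/-- Let S be a Sylow p-subgroup of the finite group G and G₁, G₂ subgroups containing S with G = G₁G₂. Then for every g ∈ G there is a Sylow p-subgroup U of G with S ∩ S^g ≤ U ≤ G₁ ∩ G₂^g (conjugates taken as X^g = g⁻¹Xg). -/
theorem result {G : Type*} [Group G] [Finite G] {p : ℕ} [Fact p.Prime] (S : Sylow p G) (G₁ G₂ : Subgroup G) (h1 : (S : Subgroup G) ≤ G₁) (h2 : (S : Subgroup G) ≤ G₂) (hfact : ∀ g : G, ∃ g₁ ∈ G₁, ∃ g₂ ∈ G₂, g = g₁ * g₂) (g : G) : ∃ U : Sylow p G, (S : Subgroup G) ⊓ Cfsg.subgroupConjRight g (S : Subgroup G) ≤ (U : Subgroup G) ∧ (U : Subgroup G) ≤ G₁ ⊓ Cfsg.subgroupConjRight g G₂ := by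
  have hmem : ∀ (X : Subgroup G) (x : G), x ∈ Cfsg.subgroupConjRight g X ↔ g * x * g⁻¹ ∈ X := by
    intro X x
    unfold Cfsg.subgroupConjRight
    constructor
    · rintro ⟨h, hh, rfl⟩
      have e : g * ((MulAut.conj g⁻¹).toMonoidHom h) * g⁻¹ = h := by
        show g * (g⁻¹ * h * g⁻¹⁻¹) * g⁻¹ = h
        group
      rw [e]; exact hh
    · intro h
      refine ⟨g * x * g⁻¹, h, ?_⟩
      show g⁻¹ * (g * x * g⁻¹) * g⁻¹⁻¹ = x
      group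
  obtain ⟨a₁, ha₁, a₂, ha₂, hg⟩ := hfact g⁻¹
  have hg' : g = a₂⁻¹ * a₁⁻¹ := by
    have : g = (g⁻¹)⁻¹ := by group
    rw [this, hg]; group
  obtain ⟨D, hD⟩ : ∃ D : Subgroup G, D = G₁ ⊓ Cfsg.subgroupConjRight g G₂ := ⟨_, rfl⟩
  rw [← hD]
  have hTD : ((a₁ • S : Sylow p G) : Subgroup G) ≤ D := by
    intro x hx
    rw [Cfsg.Agent.Lib.Helper5.mem_smul_sylow_iff5] at hx
    rw [hD]
    constructor
    · have e : x = a₁ * (a₁⁻¹ * x * a₁) * a₁⁻¹ := by group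
      rw [e]
      exact G₁.mul_mem (G₁.mul_mem ha₁ (h1 hx)) (G₁.inv_mem ha₁)
    · show x ∈ Cfsg.subgroupConjRight g G₂
      rw [hmem, hg']
      have e : a₂⁻¹ * a₁⁻¹ * x * (a₂⁻¹ * a₁⁻¹)⁻¹ = a₂⁻¹ * (a₁⁻¹ * x * a₁) * a₂ := by group
      rw [e]
      exact G₂.mul_mem (G₂.mul_mem (G₂.inv_mem ha₂) (h2 hx)) ha₂
  have hQD : (S : Subgroup G) ⊓ Cfsg.subgroupConjRight g (S : Subgroup G) ≤ D := by
    rw [hD]
    apply inf_le_inf h1
    intro x hx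
    rw [hmem] at hx ⊢
    exact h2 hx
  have hQp : IsPGroup p ↥((S : Subgroup G) ⊓ Cfsg.subgroupConjRight g (S : Subgroup G)) :=
    S.2.to_le inf_le_left
  obtain ⟨P, hQP, hPD, hPp, hmax⟩ := Cfsg.Agent.Lib.Helper5.exists_max_pSubgroup D _ hQD hQp
  obtain ⟨n, hnD, hn⟩ := Cfsg.Agent.Lib.Helper5.exists_conj_mem_of_max_pSubgroup D P
    ((a₁ • S : Sylow p G) : Subgroup G) hPD hPp hmax hTD (a₁ • S : Sylow p G).2
  have hU : ((n⁻¹ • (a₁ • S) : Sylow p G) : Subgroup G) ≤ P := by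
    intro x hx
    rw [Cfsg.Agent.Lib.Helper5.mem_smul_sylow_iff5, inv_inv] at hx
    have h3 := hn _ hx
    have e : n⁻¹ * (n * x * n⁻¹) * n = x := by group
    rw [e] at h3
    exact h3
  have hPU : P = ((n⁻¹ • (a₁ • S) : Sylow p G) : Subgroup G) :=
    (n⁻¹ • (a₁ • S) : Sylow p G).3 hPp hU
  refine ⟨n⁻¹ • (a₁ • S), ?_, ?_⟩
  · rw [← hPU]; exact hQP
  · rw [← hPU]; exact hPD

end Cfsg.Agent.S2940
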