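import Cfsg.Statements.S2958
import Mathlib

set_option autoImplicit false
open Cfsg

namespace Cfsg.Agent.S2958

/-- Let X, A, B be subgroups of a group G such that G is generated by the conjugates of X and every conjugate of X is contained in A or in B. Then A = G or B = G. -/
theorem result {G : Type*} [Group G] (X A B : Subgroup G) (hgen : (⨆ g : G, X.map (MulAut.conj g).toMonoidHom) = ⊤) (hcover : ∀ g : G, X.map (MulAut.conj g).toMonoidHom ≤ A ∨ X.map (MulAut.conj g).toMonoidHom ≤ B) : A = ⊤ ∨ B = ⊤ := by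
  classical
  by_cases hB : B = ⊤
  · exact Or.inr hB
  left
  set c : G → Subgroup G := fun g => X.map (MulAut.conj g).toMonoidHom with hc
  have hmap : ∀ b g : G, (c g).map (MulAut.conj b).toMonoidHom = c (b * g) := by
    intro b g
    simp only [hc, Subgroup.map_map]
    congr 1
    ext x
    simp [mul_assoc]
  have hmem : ∀ (b g y : G), y ∈ c g → b * y * b⁻¹ ∈ c (b * g) := by
    intro b g y hy
    rw [← hmap]
    exact ⟨y, hy, by simp⟩
  let S : Set G := {g | ¬ c g ≤ B}
  set A₁ : Subgroup G := ⨆ g ∈ S, c g with hA₁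
  have hA1le : A₁ ≤ A := by
    apply iSup₂_le
    intro g hg
    rcases hcover g with h | h
    · exact h
    · exact absurd h hg
  have hS : ∀ b ∈ B, ∀ g ∈ S, b * g ∈ S := by
    intro b hb g hg hle
    apply hg
    intro y hy
    have h1 : b * y * b⁻¹ ∈ B := hle (hmem b g y hy)
    have h2 : b⁻¹ * (b * y * b⁻¹) * b ∈ B := B.mul_mem (B.mul_mem (B.inv_mem hb) h1) hb
    have h3 : b⁻¹ * (b * y * b⁻¹) * b = y := by group
    rw [h3] at h2
    exact h2
  have hstab : ∀ b ∈ B, A₁.map (MulAut.conj b).toMonoidHom ≤ A₁ := by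
    intro b hb
    rw [hA₁, Subgroup.map_iSup]
    apply iSup_le
    intro g
    rw [Subgroup.map_iSup]
    apply iSup_le
    intro hg
    rw [hmap]
    exact le_biSup c (hS b hb g hg)
  have hBN : B ≤ Subgroup.normalizer (A₁ : Set G) := by
    intro b hb
    rw [Subgroup.mem_normalizer_iff]
    intro h
    constructor
    · intro hh
      apply hstab b hb
      exact ⟨h, hh, by simp⟩
    · intro hh
      have := hstab b⁻¹ (B.inv_mem hb) ⟨b * h * b⁻¹, hh, rfl⟩
      have h3 : (MulAut.conj b⁻¹).toMonoidHom (b * h * b⁻¹) = h := by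
        simp only [MulEquiv.toMonoidHom_eq_coe, MonoidHom.coe_coe, MulAut.conj_apply]
        group
      rw [h3] at this
      exact this
  have hN : Subgroup.normalizer (A₁ : Set G) = ⊤ := by
    rw [eq_top_iff, ← hgen]
    apply iSup_le
    intro g
    by_cases hg : c g ≤ B
    · exact hg.trans hBN
    · exact (le_biSup c (show g ∈ S from hg)).trans Subgroup.le_normalizer
  have hnorm : A₁.Normal := Subgroup.normalizer_eq_top_iff.mp hN
  have hex : ∃ g₀, g₀ ∈ S := by
    by_contra hne
    push Not at hne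
    apply hB
    rw [eq_top_iff, ← hgen]
    apply iSup_le
    intro g
    have := hne g
    simp only [S, Set.mem_ofPred_eq, not_not] at this
    exact this
  obtain ⟨g₀, hg₀⟩ := hex
  have h0 : c g₀ ≤ A₁ := le_biSup c hg₀
  rw [eq_top_iff, ← hgen]
  apply iSup_le
  intro g
  refine le_trans ?_ hA1le
  have hg : c g = c (g * g₀⁻¹ * g₀) := by simp
  show c g ≤ A₁
  rw [hg, ← hmap]
  rintro y ⟨y', hy', rfl⟩
  exact hnorm.conj_mem y' (h0 hy') (g * g₀⁻¹)

end Cfsg.Agent.S2958
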