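import Cfsg.Statements.S2960
import Mathlib
import Cfsg.Agent.Lib.Helper5.CharP

set_option autoImplicit false
open Cfsg

namespace Cfsg.Agent.S2960

/-- Let G be a finite group of characteristic p (C_G(O_p(G)) ≤ O_p(G)), p prime, T a Sylow p-subgroup of G and Q a normal subgroup of T with C_T(Q) ≤ Q. Then C_G(Q) ≤ Q. -/
theorem result {G : Type*} [Group G] [Finite G] {p : ℕ} [Fact p.Prime] (hG : Subgroup.centralizer (Cfsg.pCore p G : Set G) ≤ Cfsg.pCore p G) (T : Sylow p G) (Q : Subgroup G) (hQT : Q ≤ (T : Subgroup G)) (hQn : (T : Subgroup G) ≤ Subgroup.normalizer (Q : Set G)) (hC : (T : Subgroup G) ⊓ Subgroup.centralizer (Q : Set G) ≤ Q) : Subgroup.centralizer (Q : Set G) ≤ Q := by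
  have hRn := Cfsg.Agent.Lib.Helper5.pCore_normal5 p G
  have hRp := Cfsg.Agent.Lib.Helper5.pCore_isPGroup5 p G
  have hRT : Cfsg.pCore p G ≤ (T : Subgroup G) := Cfsg.Agent.Lib.Helper5.pCore_le_sylow5 T
  -- Step 1: `C_G(Q)` is a `p`-group
  have hDp : IsPGroup p (Subgroup.centralizer (Q : Set G)) := by
    apply Cfsg.Agent.Lib.Helper5.isPGroup_of_no_pprime_elements
    intro c hc k hk hck
    have hcQ : Q ≤ Subgroup.centralizer ({c} : Set G) := by
      intro q hq
      rw [Subgroup.mem_centralizer_iff]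
      intro y hy
      rw [Set.mem_singleton_iff] at hy
      rw [hy]
      exact (Subgroup.mem_centralizer_iff.mp hc q hq).symm
    obtain ⟨Q', hQQ', hQ'max⟩ := Finite.exists_le_maximal
      (p := fun Q' : Subgroup G => Q ≤ Q' ∧ Q' ≤ (T : Subgroup G) ∧
        Q' ≤ Subgroup.centralizer ({c} : Set G)) ⟨le_rfl, hQT, hcQ⟩
    obtain ⟨hQ'1, hQ'2, hQ'3⟩ := hQ'max.prop
    have hcomm : ∀ y ∈ Q', Commute c y := by
      intro y hy
      exact Subgroup.mem_centralizer_iff.mp (hQ'3 hy) c rfl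
    have hRQ' : Cfsg.pCore p G ≤ Q' := by
      by_contra hnot
      have hlt : Q' < Q' ⊔ Cfsg.pCore p G := by
        refine lt_of_le_of_ne le_sup_left ?_
        intro h
        apply hnot
        rw [h]
        exact le_sup_right
      have hsupT : Q' ⊔ Cfsg.pCore p G ≤ (T : Subgroup G) := sup_le hQ'2 hRT
      obtain ⟨x, hx, hxN, hxQ'⟩ := Cfsg.Agent.Lib.Helper5.exists_mem_normalizer_not_mem5 Q' _
        (T.2.to_le hsupT) hlt
      have hx' : x ∈ ((Q' ⊔ Cfsg.pCore p G : Subgroup G) : Set G) := hx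
      rw [Subgroup.mul_normal] at hx'
      obtain ⟨q, hq, r, hr, hqr⟩ := Set.mem_mul.mp hx'
      have hq' : q ∈ Q' := hq
      have hr' : r ∈ Cfsg.pCore p G := hr
      have hrN : r ∈ Subgroup.normalizer (Q' : Set G) := by
        have h1 : r = q⁻¹ * x := by rw [← hqr]; group
        rw [h1]
        exact Subgroup.mul_mem _ (Subgroup.inv_mem _ (Subgroup.le_normalizer hq')) hxN
      have hrQ' : r ∉ Q' := by
        intro h
        apply hxQ'
        rw [← hqr]
        exact Q'.mul_mem hq' h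
      -- w = [c, r]
      have hw1 : c * r * c⁻¹ * r⁻¹ ∈ Cfsg.pCore p G :=
        (Cfsg.pCore p G).mul_mem (hRn.conj_mem r hr' c) ((Cfsg.pCore p G).inv_mem hr')
      have hw2 : c * r * c⁻¹ * r⁻¹ ∈ Subgroup.centralizer (Q' : Set G) := by
        rw [Subgroup.mem_centralizer_iff]
        intro y hy
        have hs : r⁻¹ * y * r * y⁻¹ ∈ Q' := by
          have h1 : r⁻¹ * y * r⁻¹⁻¹ ∈ Q' :=
            (Subgroup.mem_normalizer_iff.mp (Subgroup.inv_mem _ hrN) y).mp hy
          rw [inv_inv] at h1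
          exact Q'.mul_mem h1 (Q'.inv_mem hy)
        have hcy : c * y = y * c := (hcomm y hy).eq
        have hcyi : c⁻¹ * y = y * c⁻¹ := ((hcomm y hy).inv_left).eq
        have hcs : c * (r⁻¹ * y * r * y⁻¹) = (r⁻¹ * y * r * y⁻¹) * c := (hcomm _ hs).eq
        have hcsi : c⁻¹ * (r⁻¹ * y * r * y⁻¹) = (r⁻¹ * y * r * y⁻¹) * c⁻¹ :=
          ((hcomm _ hs).inv_left).eq
        have e1 : y * r = r * (r⁻¹ * y * r * y⁻¹) * y := by group
        calc y * (c * r * c⁻¹ * r⁻¹) = (y * c) * r * c⁻¹ * r⁻¹ := by group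
          _ = (c * y) * r * c⁻¹ * r⁻¹ := by rw [hcy]
          _ = c * (y * r) * c⁻¹ * r⁻¹ := by group
          _ = c * (r * (r⁻¹ * y * r * y⁻¹) * y) * c⁻¹ * r⁻¹ := by rw [← e1]
          _ = c * r * ((r⁻¹ * y * r * y⁻¹) * (y * c⁻¹)) * r⁻¹ := by group
          _ = c * r * ((r⁻¹ * y * r * y⁻¹) * (c⁻¹ * y)) * r⁻¹ := by rw [hcyi]
          _ = c * r * (((r⁻¹ * y * r * y⁻¹) * c⁻¹) * y) * r⁻¹ := by group
          _ = c * r * ((c⁻¹ * (r⁻¹ * y * r * y⁻¹)) * y) * r⁻¹ := by rw [hcsi]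
          _ = c * r * c⁻¹ * r⁻¹ * y := by group
      have hw3 : c * r * c⁻¹ * r⁻¹ ∈ Q' := by
        apply hQ'1
        apply hC
        refine ⟨hRT hw1, ?_⟩
        exact Subgroup.centralizer_le hQ'1 hw2
      obtain ⟨a, ha⟩ := hRp ⟨_, hw1⟩
      have ha' : (c * r * c⁻¹ * r⁻¹) ^ (p ^ a) = 1 := by
        have := congrArg Subtype.val ha
        simpa using this
      have hcr : Commute c r := Cfsg.Agent.Lib.Helper5.commute_of_stabilizes (p := p) c r
        (c * r * c⁻¹ * r⁻¹) k a hk hck ha' (hcomm _ hw3) (by group)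
      have hnew : Q' ⊔ Subgroup.zpowers r ≤ Q' := by
        apply hQ'max.le_of_ge _ le_sup_left
        refine ⟨hQ'1.trans le_sup_left, sup_le hQ'2 ?_, sup_le hQ'3 ?_⟩
        · rw [Subgroup.zpowers_le]; exact hRT hr'
        · rw [Subgroup.zpowers_le, Subgroup.mem_centralizer_iff]
          intro y hy
          rw [Set.mem_singleton_iff] at hy
          rw [hy]
          exact hcr.eq
      exact hrQ' (hnew ((le_sup_right : Subgroup.zpowers r ≤ Q' ⊔ Subgroup.zpowers r)
        (Subgroup.mem_zpowers r)))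
    have hcR : c ∈ Subgroup.centralizer (Cfsg.pCore p G : Set G) := by
      rw [Subgroup.mem_centralizer_iff]
      intro r hr
      exact (hcomm r (hRQ' hr)).eq.symm
    obtain ⟨a, ha⟩ := hRp ⟨_, hG hcR⟩
    have ha' : c ^ (p ^ a) = 1 := by
      have := congrArg Subtype.val ha
      simpa using this
    have h3 : orderOf c ∣ k := orderOf_dvd_of_pow_eq_one hck
    have h4 : orderOf c ∣ p ^ a := orderOf_dvd_of_pow_eq_one ha'
    have h5 : orderOf c = 1 := Nat.eq_one_of_dvd_coprimes (Nat.Coprime.pow_right a hk) h3 h4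
    exact orderOf_eq_one_iff.mp h5
  -- Step 2: `T` normalizes `C_G(Q)`
  have hTD : (T : Subgroup G) ≤ Subgroup.normalizer (Subgroup.centralizer (Q : Set G) : Set G) := by
    intro t ht
    apply Cfsg.Agent.Lib.Helper5.mem_normalizer_of_conj_mem5
    intro d hd
    rw [Subgroup.mem_centralizer_iff]
    intro q hq
    have h1 : t⁻¹ * q * t ∈ Q := by
      have := (Subgroup.mem_normalizer_iff.mp (Subgroup.inv_mem _ (hQn ht)) q).mp hq
      rwa [inv_inv] at this
    have h2 := Subgroup.mem_centralizer_iff.mp hd _ h1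
    calc q * (t * d * t⁻¹) = t * ((t⁻¹ * q * t) * d) * t⁻¹ := by group
      _ = t * (d * (t⁻¹ * q * t)) * t⁻¹ := by rw [h2]
      _ = t * d * t⁻¹ * q := by group
  have hsup : IsPGroup p (Subgroup.centralizer (Q : Set G) ⊔ (T : Subgroup G) : Subgroup G) :=
    IsPGroup.to_sup_of_normal_left' hDp T.2 hTD
  have hDT : Subgroup.centralizer (Q : Set G) ≤ (T : Subgroup G) := by
    have h1 := T.3 hsup le_sup_right
    rw [← h1]
    exact le_sup_left
  intro d hd
  exact hC ⟨hDT hd, hd⟩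

end Cfsg.Agent.S2960
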