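import Cfsg.Statements.S3003
import Mathlib
import Cfsg.Agent.Lib.Helper2.GenCoprime3
import Cfsg.Agent.Lib.Helper5.ExtClosed2

set_option autoImplicit false
open Cfsg

namespace Cfsg.Agent.S3003

/-- Let G be a finite group, p a prime and Q a large p-subgroup of G: C_G(Q) ≤ Q and N_G(U) ≤ N_G(Q) for every nontrivial subgroup U of C_G(Q). Let Q ≤ G₁ ≤ G, let R be a subgroup of order prime to p normalized by G₁, and let U ≤ G₁ be a p-subgroup. If U contains a nontrivial element which is G₁-conjugate to an element of Z(Q), then C_R(U) = 1. In particular, if U is elementary abelian of order at least p² and every maximal subgroup of U contains a nontrivial element G₁-conjugate into Z(Q), then R = 1. -/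
theorem result {G : Type*} [Group G] [Finite G] {p : ℕ} [Fact p.Prime] (Q : Subgroup G) (hQp : IsPGroup p ↥Q) (hlarge : Cfsg.IsLarge Q) (G₁ : Subgroup G) (hQG : Q ≤ G₁) (R : Subgroup G) (hR : (Nat.card ↥R).Coprime p) (hGR : G₁ ≤ Subgroup.normalizer (R : Set G)) (U : Subgroup G) (hUG : U ≤ G₁) (hUp : IsPGroup p ↥U) : ((∃ x ∈ U, x ≠ 1 ∧ ∃ g ∈ G₁, g * x * g⁻¹ ∈ Q ⊓ Subgroup.centralizer (Q : Set G)) → R ⊓ Subgroup.centralizer (U : Set G) = ⊥) ∧ (Cfsg.IsElementaryAbelian p U → p ^ 2 ≤ Nat.card ↥U → (∀ U₀ : Subgroup G, U₀ ≤ U → IsCoatom (U₀.subgroupOf U) → ∃ x ∈ U₀, x ≠ 1 ∧ ∃ g ∈ G₁, g * x * g⁻¹ ∈ Q ⊓ Subgroup.centralizer (Q : Set G)) → R = ⊥) := by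
  have hp : p.Prime := Fact.out
  have hRQ : ∀ y, y ∈ R → y ∈ Q → y = 1 := by
    intro y hyR hyQ
    obtain ⟨k, hk⟩ := hQp ⟨y, hyQ⟩
    have h1 : y ^ (p ^ k) = 1 := by
      have := congrArg Subtype.val hk
      simpa using this
    have h2 : orderOf y ∣ p ^ k := orderOf_dvd_of_pow_eq_one h1
    have h3 : orderOf y ∣ Nat.card ↥R := Subgroup.orderOf_dvd_natCard R hyR
    have h4 : orderOf y = 1 := Nat.eq_one_of_dvd_coprimes (Nat.Coprime.pow_right k hR) h3 h2
    exact orderOf_eq_one_iff.mp h4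
  have key : ∀ x : G, x ≠ 1 → ∀ g ∈ G₁, g * x * g⁻¹ ∈ Q ⊓ Subgroup.centralizer (Q : Set G) →
      ∀ r ∈ R, r * x = x * r → r = 1 := by
    intro x hx1 g hg hz r hr hrx
    obtain ⟨z, hzdef⟩ : ∃ z, z = g * x * g⁻¹ := ⟨_, rfl⟩
    rw [← hzdef] at hz
    obtain ⟨r', hr'def⟩ : ∃ r', r' = g * r * g⁻¹ := ⟨_, rfl⟩
    have hz1 : z ≠ 1 := by
      intro h
      apply hx1
      have : x = g⁻¹ * z * g := by rw [hzdef]; group
      rw [this, h]; group
    have hr'R : r' ∈ R := by
      rw [hr'def]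
      exact (Subgroup.mem_normalizer_iff.mp (hGR hg) r).mp hr
    have hcomm : r' * z = z * r' := by
      rw [hr'def, hzdef]
      have e1 : g * r * g⁻¹ * (g * x * g⁻¹) = g * (r * x) * g⁻¹ := by group
      have e2 : g * x * g⁻¹ * (g * r * g⁻¹) = g * (x * r) * g⁻¹ := by group
      rw [e1, e2, hrx]
    have hzle : Subgroup.zpowers z ≤ Subgroup.centralizer (Q : Set G) := by
      rw [Subgroup.zpowers_le]; exact hz.2
    have hzne : Subgroup.zpowers z ≠ ⊥ := by
      intro h
      apply hz1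
      have : z ∈ Subgroup.zpowers z := Subgroup.mem_zpowers z
      rw [h, Subgroup.mem_bot] at this
      exact this
    have hN := hlarge.2 (Subgroup.zpowers z) hzle hzne
    have hr'N : r' ∈ Subgroup.normalizer ((Subgroup.zpowers z : Subgroup G) : Set G) := by
      rw [Subgroup.mem_normalizer_iff]
      intro h
      have hc : ∀ w ∈ Subgroup.zpowers z, r' * w * r'⁻¹ = w := by
        intro w hw
        obtain ⟨k, rfl⟩ := Subgroup.mem_zpowers_iff.mp hw
        have : Commute r' (z ^ k) := (show Commute r' z from hcomm).zpow_right k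
        rw [this.eq]; group
      constructor
      · intro hh
        rw [hc h hh]; exact hh
      · intro hh
        have := hc _ hh
        have e : h = r'⁻¹ * (r' * h * r'⁻¹) * r' := by group
        have hc' : r'⁻¹ * (r' * h * r'⁻¹) * r' = r' * h * r'⁻¹ := by
          have h5 := hc _ hh
          calc r'⁻¹ * (r' * h * r'⁻¹) * r' = r'⁻¹ * (r' * (r' * h * r'⁻¹) * r'⁻¹) * r' := by rw [h5]
            _ = r' * h * r'⁻¹ := by group
        rw [e, hc']; exact hh
    have hr'NQ : r' ∈ Subgroup.normalizer (Q : Set G) := hN hr'N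
    have hr'C : r' ∈ Subgroup.centralizer (Q : Set G) := by
      rw [Subgroup.mem_centralizer_iff]
      intro q hq
      have h1 : r' * q * r'⁻¹ * q⁻¹ ∈ Q :=
        Q.mul_mem ((Subgroup.mem_normalizer_iff.mp hr'NQ q).mp hq) (Q.inv_mem hq)
      have h2 : q * r'⁻¹ * q⁻¹ ∈ R :=
        (Subgroup.mem_normalizer_iff.mp (hGR (hQG hq)) r'⁻¹).mp (R.inv_mem hr'R)
      have h3 : r' * q * r'⁻¹ * q⁻¹ ∈ R := by
        have e : r' * q * r'⁻¹ * q⁻¹ = r' * (q * r'⁻¹ * q⁻¹) := by group
        rw [e]; exact R.mul_mem hr'R h2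
      have h4 := hRQ _ h3 h1
      have e : q * r' = (r' * q * r'⁻¹ * q⁻¹)⁻¹ * (r' * q) := by group
      rw [e, h4]; group
    have hr'1 : r' = 1 := hRQ r' hr'R (hlarge.1 hr'C)
    have : r = g⁻¹ * r' * g := by rw [hr'def]; group
    rw [this, hr'1]; group
  refine ⟨?_, ?_⟩
  · rintro ⟨x, hxU, hx1, g, hg, hz⟩
    rw [eq_bot_iff]
    intro r hr
    rw [Subgroup.mem_bot]
    exact key x hx1 g hg hz r hr.1 ((Subgroup.mem_centralizer_iff.mp hr.2 x hxU).symm)
  · intro hU hcard hall
    have hAc : ∀ a ∈ U, ∀ b ∈ U, a * b = b * a := by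
      intro a ha b hb
      have h := hU.1.is_comm.comm ⟨a, ha⟩ ⟨b, hb⟩
      exact congrArg Subtype.val h
    have hX : ¬ p ∣ Nat.card ↥R := by
      intro h
      have := Nat.Coprime.eq_one_of_dvd hR.symm h
      exact hp.one_lt.ne' this
    rw [eq_bot_iff]
    apply Cfsg.Agent.Lib.Helper2.gen_coprime_relIndex p U R ⊥ hAc hU.2 hX (hUG.trans hGR)
    intro B hBU hidx
    intro r hr
    rw [Subgroup.mem_bot]
    rcases (Nat.dvd_prime hp).mp hidx with h1 | h1
    · -- B = U
      have hUB : U ≤ B := Subgroup.relIndex_eq_one.mp h1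
      have hnt : Nontrivial ↥U := by
        rw [← Finite.one_lt_card_iff_nontrivial]
        calc 1 < p ^ 2 := Nat.one_lt_pow (by norm_num) hp.one_lt
          _ ≤ _ := hcard
      obtain ⟨C, hC, -⟩ := (eq_top_or_exists_le_coatom (⊥ : Subgroup ↥U)).resolve_left bot_ne_top
      have hC' : IsCoatom ((C.map U.subtype).subgroupOf U) := by
        have : (C.map U.subtype).subgroupOf U = C := by
          ext y
          rw [Subgroup.mem_subgroupOf]
          constructor
          · rintro ⟨w, hw, hwy⟩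
            have : w = y := Subtype.ext hwy
            rw [← this]; exact hw
          · intro hy
            exact ⟨y, hy, rfl⟩
        rw [this]; exact hC
      obtain ⟨x, hx, hx1, g, hg, hz⟩ := hall (C.map U.subtype) (Subgroup.map_subtype_le C) hC'
      have hxB : x ∈ B := hUB (Subgroup.map_subtype_le C hx)
      exact key x hx1 g hg hz r hr.1 ((Subgroup.mem_centralizer_iff.mp hr.2 x hxB).symm)
    · have hco : IsCoatom (B.subgroupOf U) :=
        Cfsg.Agent.Lib.Helper5.isCoatom_subgroupOf_of_prime_relIndex B U (h1 ▸ hp)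
      obtain ⟨x, hx, hx1, g, hg, hz⟩ := hall B hBU hco
      exact key x hx1 g hg hz r hr.1 ((Subgroup.mem_centralizer_iff.mp hr.2 x hx).symm)

end Cfsg.Agent.S3003
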