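import Cfsg.Statements.S3012
import Mathlib

set_option autoImplicit false
open Cfsg

namespace Cfsg.Agent.S3012

/-- Let G be a finite group, V a nontrivial elementary abelian 2-subgroup of G satisfying the Sidki pair condition (every odd-order element inverted by an element of V commutes with a nontrivial element of V), and K a normal subgroup of G with V ∩ K = 1. Then the image of V in G/K satisfies the Sidki pair condition in G/K. -/
theorem result {G : Type*} [Group G] [Finite G] (V K : Subgroup G) [K.Normal] (hV : Cfsg.IsElementaryAbelian 2 V) (hV1 : V ≠ ⊥) (hS : Cfsg.IsSidkiPair V) (hVK : V ⊓ K = ⊥) : Cfsg.IsSidkiPair (V.map (QuotientGroup.mk' K)) := by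
  intro hbar vbar hvbar hodd hinv
  obtain ⟨v, hv, rfl⟩ := hvbar
  obtain ⟨h, rfl⟩ := QuotientGroup.mk'_surjective K hbar
  have hne : ∀ w ∈ V, w ≠ 1 → (QuotientGroup.mk' K w) ≠ 1 := by
    intro w hw hw1 h1
    have h2 : w ∈ K := (QuotientGroup.eq_one_iff w).mp h1
    have h3 : w ∈ V ⊓ K := ⟨hw, h2⟩
    rw [hVK, Subgroup.mem_bot] at h3
    exact hw1 h3
  have hv2 : v ^ 2 = 1 := hV.2 v hv
  have hvinv : v⁻¹ = v := by
    rw [inv_eq_iff_eq_inv, eq_inv_iff_mul_eq_one, ← pow_two]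
    exact hv2
  obtain ⟨t, ht⟩ : ∃ t, t = v * (h * v * h⁻¹) := ⟨_, rfl⟩
  have hvt : v * t * v⁻¹ = t⁻¹ := by
    rw [ht, hvinv]
    have e1 : (v * (h * v * h⁻¹))⁻¹ = h * v⁻¹ * h⁻¹ * v⁻¹ := by group
    rw [e1, hvinv]
    have hvv : v * v = 1 := by rw [← pow_two]; exact hv2
    have e2 : v * (v * (h * v * h⁻¹)) * v = (v * v) * (h * v * h⁻¹ * v) := by
      simp only [mul_assoc]
    rw [e2, hvv, one_mul]
  -- image of `t`
  obtain ⟨a, ha⟩ : ∃ a, a = QuotientGroup.mk' K v := ⟨_, rfl⟩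
  obtain ⟨b, hb⟩ : ∃ b, b = QuotientGroup.mk' K h := ⟨_, rfl⟩
  rw [← ha, ← hb] at hinv
  rw [← hb] at hodd
  have ha2 : a ^ 2 = 1 := by rw [ha, ← map_pow, hv2, map_one]
  have htbar : QuotientGroup.mk' K t = (b ^ 2)⁻¹ := by
    rw [ht, map_mul, map_mul, map_mul, map_inv, ← ha, ← hb]
    have e1 : b * a = a * b⁻¹ := by
      have e2 : a * b = b⁻¹ * a := by
        rw [← hinv]; group
      have e3 : b * a = b * (a * b) * b⁻¹ := by group
      rw [e3, e2]; group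
    have haa : a * a = 1 := by rw [← pow_two]; exact ha2
    have e4 : a * (b * a * b⁻¹) = (a * a) * (b ^ 2)⁻¹ := by
      rw [e1, pow_two, mul_inv_rev]
      simp only [mul_assoc]
    rw [e4, haa, one_mul]
  obtain ⟨e, m, hm, hem⟩ := Nat.exists_eq_pow_mul_and_not_dvd (orderOf_pos t).ne' 2 (by norm_num)
  have hodd' : Odd (orderOf (t ^ 2 ^ e)) := by
    have h1 : (t ^ 2 ^ e) ^ m = 1 := by rw [← pow_mul, ← hem, pow_orderOf_eq_one]
    have h2 : orderOf (t ^ 2 ^ e) ∣ m := orderOf_dvd_of_pow_eq_one h1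
    have h3 : Odd m := by
      rw [← Nat.not_even_iff_odd, even_iff_two_dvd]; exact hm
    exact Odd.of_dvd_nat h3 h2
  have hinv' : v * t ^ 2 ^ e * v⁻¹ = (t ^ 2 ^ e)⁻¹ := by
    rw [← conj_pow, hvt, inv_pow]
  obtain ⟨w, hwV, hw1, hwc⟩ := hS (t ^ 2 ^ e) v hv hodd' hinv'
  refine ⟨QuotientGroup.mk' K w, ⟨w, hwV, rfl⟩, hne w hwV hw1, ?_⟩
  have hc1 : Commute (QuotientGroup.mk' K w) (QuotientGroup.mk' K (t ^ 2 ^ e)) := by
    show QuotientGroup.mk' K w * QuotientGroup.mk' K (t ^ 2 ^ e) =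
      QuotientGroup.mk' K (t ^ 2 ^ e) * QuotientGroup.mk' K w
    rw [← map_mul, ← map_mul, hwc]
  rw [map_pow, htbar] at hc1
  have hc2 : Commute (QuotientGroup.mk' K w) (b ^ (2 * 2 ^ e)) := by
    have h1 := hc1.inv_right
    have e5 : (((b ^ 2)⁻¹) ^ 2 ^ e)⁻¹ = b ^ (2 * 2 ^ e) := by
      rw [inv_pow, inv_inv, ← pow_mul]
    rw [e5] at h1
    exact h1
  have hcop : Nat.Coprime (2 * 2 ^ e) (orderOf b) := by
    have h1 : Nat.Coprime 2 (orderOf b) := (Nat.coprime_two_left).mpr hodd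
    have h2 : Nat.Coprime (2 ^ (e + 1)) (orderOf b) := Nat.Coprime.pow_left _ h1
    rw [pow_succ, mul_comm] at h2
    exact h2
  obtain ⟨j, hj⟩ := exists_pow_eq_self_of_coprime hcop
  have hc3 : Commute (QuotientGroup.mk' K w) b := by
    have h1 := hc2.pow_right j
    rw [hj] at h1
    exact h1
  rw [hb] at hc3
  exact hc3

end Cfsg.Agent.S3012
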