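import Cfsg.Statements.S3013
import Mathlib

set_option autoImplicit false
open Cfsg

namespace Cfsg.Agent.S3013

/-- Let G be a finite group and V a nontrivial elementary abelian 2-subgroup of G satisfying the Sidki pair condition. Let v ∈ V and let x be an element of odd order inverted by v, and put C = C_G(v) ∩ C_G(x), the centralizer of the dihedral subgroup generated by v and x. Then C ∩ V is nontrivial and satisfies the Sidki pair condition inside C: every odd-order element of C inverted by an element of C ∩ V commutes with a nontrivial element of C ∩ V. -/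
theorem result {G : Type*} [Group G] [Finite G] (V : Subgroup G) (hV : Cfsg.IsElementaryAbelian 2 V) (hV1 : V ≠ ⊥) (hS : Cfsg.IsSidkiPair V) (v x : G) (hv : v ∈ V) (hx : Odd (orderOf x)) (hinv : v * x * v⁻¹ = x⁻¹) (C : Subgroup G) (hC : C = Subgroup.centralizer ({v} : Set G) ⊓ Subgroup.centralizer ({x} : Set G)) : C ⊓ V ≠ ⊥ ∧ Cfsg.IsSidkiPair ((C ⊓ V).subgroupOf C) := by
  have hVc : ∀ a ∈ V, ∀ b ∈ V, a * b = b * a := by
    intro a ha b hb
    haveI := hV.1
    have h1 : (⟨a, ha⟩ : V) * ⟨b, hb⟩ = ⟨b, hb⟩ * ⟨a, ha⟩ := mul_comm' _ _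
    exact congrArg Subtype.val h1
  have hmemC : ∀ w : G, w ∈ C ↔ (v * w = w * v ∧ x * w = w * x) := by
    intro w
    rw [hC]
    constructor
    · rintro ⟨h1, h2⟩
      exact ⟨Subgroup.mem_centralizer_iff.mp h1 v rfl, Subgroup.mem_centralizer_iff.mp h2 x rfl⟩
    · rintro ⟨h1, h2⟩
      constructor
      · show w ∈ Subgroup.centralizer {v}
        rw [Subgroup.mem_centralizer_iff]
        intro y hy
        rw [Set.mem_singleton_iff.mp hy]; exact h1
      · show w ∈ Subgroup.centralizer {x}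
        rw [Subgroup.mem_centralizer_iff]
        intro y hy
        rw [Set.mem_singleton_iff.mp hy]; exact h2
  constructor
  · obtain ⟨w, hwV, hw1, hwx⟩ := hS x v hv hx hinv
    intro hbot
    have h1 : w ∈ C ⊓ V := ⟨(hmemC w).mpr ⟨hVc v hv w hwV, hwx.symm⟩, hwV⟩
    rw [hbot, Subgroup.mem_bot] at h1
    exact hw1 h1
  · intro h u hu hodd hinv'
    have huCV : (u : G) ∈ C ⊓ V := hu
    have huV : (u : G) ∈ V := huCV.2
    obtain ⟨hu1, hu2⟩ := (hmemC (u : G)).mp u.2
    obtain ⟨hh1, hh2⟩ := (hmemC (h : G)).mp h.2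
    have hodd' : Odd (orderOf (h : G)) := by rw [Subgroup.orderOf_coe]; exact hodd
    have hinvG : (u : G) * (h : G) * (u : G)⁻¹ = (h : G)⁻¹ := congrArg Subtype.val hinv'
    -- `y = h * x`
    have hcomm : Commute (h : G) x := hh2.symm
    have hyodd : Odd (orderOf ((h : G) * x)) := by
      have h1 : ((h : G) * x) ^ (orderOf (h : G) * orderOf x) = 1 := by
        rw [hcomm.mul_pow, pow_mul, pow_orderOf_eq_one, one_pow, mul_comm (orderOf (h : G)),
          pow_mul, pow_orderOf_eq_one, one_pow, one_mul]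
      exact Odd.of_dvd_nat (hodd'.mul hx) (orderOf_dvd_of_pow_eq_one h1)
    have hyinv : ((u : G) * v) * ((h : G) * x) * ((u : G) * v)⁻¹ = ((h : G) * x)⁻¹ := by
      have e1 : ((u : G) * v) * ((h : G) * x) * ((u : G) * v)⁻¹ =
          (u : G) * ((v * (h : G) * v⁻¹) * (v * x * v⁻¹)) * (u : G)⁻¹ := by group
      have e2 : v * (h : G) * v⁻¹ = (h : G) := by rw [hh1, mul_inv_cancel_right]
      rw [e1, e2, hinv]
      have e3 : (u : G) * ((h : G) * x⁻¹) * (u : G)⁻¹ =
          ((u : G) * (h : G) * (u : G)⁻¹) * ((u : G) * x * (u : G)⁻¹)⁻¹ := by group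
      have e4 : (u : G) * x * (u : G)⁻¹ = x := by rw [← hu2, mul_inv_cancel_right]
      rw [e3, hinvG, e4, mul_inv_rev]
      have hc' : Commute (h : G)⁻¹ x⁻¹ := (hcomm.inv_left).inv_right
      exact hc'.eq
    obtain ⟨w, hwV, hw1, hwy⟩ := hS ((h : G) * x) ((u : G) * v) (V.mul_mem huV hv) hyodd hyinv
    have hwv : Commute w v := hVc w hwV v hv
    have hc1 : Commute w ((h : G) * x) := hwy
    have hc2 : Commute w ((h : G) * x⁻¹) := by
      have h1 : Commute w (v * ((h : G) * x) * v⁻¹) := (hwv.mul_right hc1).mul_right hwv.inv_right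
      have e1 : v * ((h : G) * x) * v⁻¹ = (v * (h : G) * v⁻¹) * (v * x * v⁻¹) := by group
      have e2 : v * (h : G) * v⁻¹ = (h : G) := by rw [hh1, mul_inv_cancel_right]
      rw [e1, e2, hinv] at h1
      exact h1
    have hc3 : Commute w ((h : G) ^ 2) := by
      have h1 := hc1.mul_right hc2
      have e1 : (h : G) * x * ((h : G) * x⁻¹) = (h : G) ^ 2 := by
        have e0 : x * (h : G) = (h : G) * x := hh2
        calc (h : G) * x * ((h : G) * x⁻¹) = (h : G) * (x * (h : G)) * x⁻¹ := by group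
          _ = (h : G) * ((h : G) * x) * x⁻¹ := by rw [e0]
          _ = (h : G) ^ 2 := by rw [pow_two, mul_assoc, mul_assoc, mul_inv_cancel, mul_one]
      rw [e1] at h1
      exact h1
    have hc4 : Commute w (x ^ 2) := by
      have h1 := hc2.inv_right.mul_right hc1
      have e1 : ((h : G) * x⁻¹)⁻¹ * ((h : G) * x) = x ^ 2 := by
        rw [pow_two, mul_inv_rev, inv_inv, mul_assoc, inv_mul_cancel_left]
      rw [e1] at h1
      exact h1
    have hwh : Commute w (h : G) := by
      obtain ⟨j, hj⟩ := exists_pow_eq_self_of_coprime ((Nat.coprime_two_left).mpr hodd')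
      have h1 := hc3.pow_right j
      rw [hj] at h1
      exact h1
    have hwx : Commute w x := by
      obtain ⟨j, hj⟩ := exists_pow_eq_self_of_coprime ((Nat.coprime_two_left).mpr hx)
      have h1 := hc4.pow_right j
      rw [hj] at h1
      exact h1
    have hwC : w ∈ C := (hmemC w).mpr ⟨hwv.symm.eq, hwx.symm.eq⟩
    refine ⟨⟨w, hwC⟩, ?_, ?_, ?_⟩
    · show w ∈ C ⊓ V
      exact ⟨hwC, hwV⟩
    · intro h1
      exact hw1 (congrArg Subtype.val h1)
    · apply Subtype.ext
      exact hwh.eq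

end Cfsg.Agent.S3013
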