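import Cfsg.Statements.S3021
import Mathlib
import Cfsg.Agent.Lib.Helper5.PGroupBasics

set_option autoImplicit false
open Cfsg

namespace Cfsg.Agent.S3021

/-- Let G be a finite group, p a prime and H a p-subgroup of G that is extremely closed (for every g, the subgroup generated by H and g H g⁻¹ meets N_G(H) exactly in H). Then every p-subgroup Q of G containing H has N_G(Q) ≤ N_G(H); in particular every Sylow p-subgroup P of G containing H normalizes H, and H is strongly closed in P with respect to G. -/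
theorem result {G : Type*} [Group G] [Finite G] {p : ℕ} [Fact p.Prime] (H : Subgroup G) (hHp : IsPGroup p H) (hcl : Cfsg.IsExtremelyClosed H) : (∀ Q : Subgroup G, IsPGroup p Q → H ≤ Q → Subgroup.normalizer (Q : Set G) ≤ Subgroup.normalizer (H : Set G)) ∧ ∀ P : Sylow p G, H ≤ (P : Subgroup G) → (P : Subgroup G) ≤ Subgroup.normalizer (H : Set G) ∧ Cfsg.IsStronglyClosed H (P : Subgroup G) := by
  have key : ∀ Q : Subgroup G, IsPGroup p Q → H ≤ Q →
      Subgroup.normalizer (Q : Set G) ≤ Subgroup.normalizer (H : Set G) := by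
    intro Q hQ hHQ n hn
    have hmap : H.map (MulAut.conj n).toMonoidHom ≤ Q := by
      rintro _ ⟨h, hh, rfl⟩
      exact (Subgroup.mem_normalizer_iff.mp hn h).mp (hHQ hh)
    have hTQ : H ⊔ H.map (MulAut.conj n).toMonoidHom ≤ Q := sup_le hHQ hmap
    have hTp : IsPGroup p (H ⊔ H.map (MulAut.conj n).toMonoidHom : Subgroup G) := hQ.to_le hTQ
    have hTH : H ⊔ H.map (MulAut.conj n).toMonoidHom = H := by
      by_contra hne
      have hlt : H < H ⊔ H.map (MulAut.conj n).toMonoidHom :=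
        lt_of_le_of_ne le_sup_left (Ne.symm hne)
      obtain ⟨x, hxT, hxN, hxH⟩ :=
        Cfsg.Agent.Lib.Helper5.exists_mem_normalizer_not_mem5 H _ hTp hlt
      have h1 : x ∈ (H ⊔ H.map (MulAut.conj n).toMonoidHom) ⊓ Subgroup.normalizer (H : Set G) :=
        ⟨hxT, hxN⟩
      rw [hcl n] at h1
      exact hxH h1
    apply Cfsg.Agent.Lib.Helper5.mem_normalizer_of_conj_mem5
    intro a ha
    have h2 : n * a * n⁻¹ ∈ H.map (MulAut.conj n).toMonoidHom := ⟨a, ha, rfl⟩
    have h3 : n * a * n⁻¹ ∈ H ⊔ H.map (MulAut.conj n).toMonoidHom := (show H.map (MulAut.conj n).toMonoidHom ≤ H ⊔ H.map (MulAut.conj n).toMonoidHom from le_sup_right) h2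
    rw [hTH] at h3
    exact h3
  refine ⟨key, ?_⟩
  intro P hHP
  have hPN : (P : Subgroup G) ≤ Subgroup.normalizer (H : Set G) :=
    (Subgroup.le_normalizer).trans (key P P.2 hHP)
  refine ⟨hPN, hHP, ?_⟩
  intro x hx g hg
  have h2 : g * x * g⁻¹ ∈ H.map (MulAut.conj g).toMonoidHom := ⟨x, hx, rfl⟩
  have h3 : g * x * g⁻¹ ∈ (H ⊔ H.map (MulAut.conj g).toMonoidHom) ⊓ Subgroup.normalizer (H : Set G) :=
    ⟨(show H.map (MulAut.conj g).toMonoidHom ≤ H ⊔ H.map (MulAut.conj g).toMonoidHom from le_sup_right) h2, hPN hg⟩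
  rw [hcl g] at h3
  exact h3

end Cfsg.Agent.S3021
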