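import Cfsg.Statements.S3020
import Mathlib
import Cfsg.Agent.Lib.Helper5.PGroupBasics
import Cfsg.Agent.Lib.Helper5.PPrimeCore5
import Cfsg.Agent.S3021

set_option autoImplicit false
open Cfsg

namespace Cfsg.Agent.S3020

/-- Let G be a finite group, p a prime and H an abelian p-subgroup of G that is extremely closed (for every g, the subgroup generated by H and g H g⁻¹ meets N_G(H) exactly in H). Then for every g ∈ G, the subgroup T generated by H and g H g⁻¹ is the product of H with O_{p'}(T), and H meets O_{p'}(T) trivially; that is, O_{p'}(T) is a normal p-complement of H in T. -/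
theorem result {G : Type*} [Group G] [Finite G] {p : ℕ} [Fact p.Prime] (H : Subgroup G) (hHp : IsPGroup p H) (hHab : IsMulCommutative H) (hcl : Cfsg.IsExtremelyClosed H) (g : G) (T : Subgroup G) (hT : T = H ⊔ H.map (MulAut.conj g).toMonoidHom) : H ⊔ (Cfsg.pPrimeCore p ↥T).map T.subtype = T ∧ H ⊓ (Cfsg.pPrimeCore p ↥T).map T.subtype = ⊥ := by
  have hp : p.Prime := Fact.out
  have hHT : H ≤ T := by rw [hT]; exact le_sup_left
  have hTN : T ⊓ Subgroup.normalizer (H : Set G) = H := by rw [hT]; exact hcl g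
  have key := (Cfsg.Agent.S3021.result H hHp hcl).1
  obtain ⟨P, hP⟩ := (hHp.comap_subtype : IsPGroup p (H.subgroupOf T)).exists_le_sylow
  have hPG : (P : Subgroup T).map T.subtype = H := by
    apply le_antisymm
    · have h1 : IsPGroup p ((P : Subgroup T).map T.subtype) := P.2.map _
      have h2 : H ≤ (P : Subgroup T).map T.subtype := by
        intro h hh
        exact ⟨⟨h, hHT hh⟩, hP (Subgroup.mem_subgroupOf.mpr hh), rfl⟩
      have h3 := key _ h1 h2
      have h4 : (P : Subgroup T).map T.subtype ≤ T := Subgroup.map_subtype_le _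
      have h5 : (P : Subgroup T).map T.subtype ≤ T ⊓ Subgroup.normalizer (H : Set G) :=
        le_inf h4 (Subgroup.le_normalizer.trans h3)
      rw [hTN] at h5
      exact h5
    · intro h hh
      exact ⟨⟨h, hHT hh⟩, hP (Subgroup.mem_subgroupOf.mpr hh), rfl⟩
  have hPmem : ∀ x : T, x ∈ (P : Subgroup T) ↔ (x : G) ∈ H := by
    intro x
    constructor
    · intro hx
      rw [← hPG]
      exact ⟨x, hx, rfl⟩
    · intro hx
      exact hP (Subgroup.mem_subgroupOf.mpr hx)
  have hNC : Subgroup.normalizer ((P : Subgroup T) : Set T) ≤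
      Subgroup.centralizer ((P : Subgroup T) : Set T) := by
    intro n hn
    have h1 : (n : G) ∈ Subgroup.normalizer (H : Set G) := by
      apply Cfsg.Agent.Lib.Helper5.mem_normalizer_of_conj_mem5
      intro a ha
      have h2 : (⟨a, hHT ha⟩ : T) ∈ (P : Subgroup T) := (hPmem _).mpr ha
      have h3 := (Subgroup.mem_normalizer_iff.mp hn _).mp h2
      exact (hPmem _).mp h3
    have h2 : (n : G) ∈ T ⊓ Subgroup.normalizer (H : Set G) := ⟨n.2, h1⟩
    rw [hTN] at h2
    rw [Subgroup.mem_centralizer_iff]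
    intro y hy
    have hy' : (y : G) ∈ H := (hPmem y).mp hy
    have h3 : (⟨(y : G), hy'⟩ : H) * ⟨(n : G), h2⟩ = ⟨(n : G), h2⟩ * ⟨(y : G), hy'⟩ :=
      mul_comm' _ _
    apply Subtype.ext
    have h4 := congrArg Subtype.val h3
    exact h4
  have hcompl := MonoidHom.ker_transferSylow_isComplement' P hNC
  have hKcop : (Nat.card (MonoidHom.transferSylow P hNC).ker).Coprime p :=
    ((Nat.Prime.coprime_iff_not_dvd hp).mpr (MonoidHom.not_dvd_card_ker_transferSylow P hNC)).symm
  have hKle : (MonoidHom.transferSylow P hNC).ker ≤ Cfsg.pPrimeCore p ↥T :=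
    Cfsg.Agent.Lib.Helper5.le_pPrimeCore5 inferInstance hKcop
  have hsup : (P : Subgroup T) ⊔ Cfsg.pPrimeCore p ↥T = ⊤ := by
    rw [← top_le_iff, ← hcompl.sup_eq_top, sup_comm]
    exact sup_le_sup_left hKle _
  have hinf : (P : Subgroup T) ⊓ Cfsg.pPrimeCore p ↥T = ⊥ :=
    Cfsg.Agent.Lib.Helper5.inf_eq_bot_of_pGroup_of_coprime _ _ P.2
      (Cfsg.Agent.Lib.Helper5.pPrimeCore_coprime5 p ↥T)
  constructor
  · rw [← hPG, ← Subgroup.map_sup, hsup, ← MonoidHom.range_eq_map, Subgroup.range_subtype]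
  · rw [← hPG, ← Subgroup.map_inf _ _ _ T.subtype_injective, hinf, Subgroup.map_bot]

end Cfsg.Agent.S3020
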