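import Cfsg.Statements.S3062
import Mathlib
import Cfsg.Agent.Lib.Helper5.ThompsonRepl

set_option autoImplicit false
open Cfsg
open Cfsg.Agent.Lib.Helper5

namespace Cfsg.Agent.S3062

/-- Let S be a finite p-group, J(S) the subgroup generated by the abelian subgroups of S of largest order and Z(J(S)) its centre. Then Z(S) ≤ D*(S) ≤ Z(J(S)), and every maximal normal abelian subgroup of S contains D*(S). -/
theorem result {S : Type*} [Group S] [Finite S] {p : ℕ} [Fact p.Prime]
    (hS : IsPGroup p S) :
    Subgroup.center S ≤ Cfsg.dStar S ∧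
    Cfsg.dStar S ≤ Cfsg.thompsonSubgroupA S ⊓ Subgroup.centralizer (Cfsg.thompsonSubgroupA S : Set S) ∧
    ∀ A : Subgroup S, A.Normal → IsMulCommutative A →
      (∀ B : Subgroup S, B.Normal → IsMulCommutative B → A ≤ B → B = A) → Cfsg.dStar S ≤ A := by
  refine ⟨?_, ?_, ?_⟩
  · apply le_sSup
    refine ⟨inferInstance, ?_⟩
    intro x _ a ha
    exact (Subgroup.mem_center_iff.mp ha x).symm
  · apply sSup_le
    intro A hA
    have hcen := dStarFamily_centralizes_maxAbelian hS A hA
    obtain ⟨B₀, hB₀⟩ := exists_maxAbelian (S := S)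
    apply le_inf
    · have hAB : A ≤ B₀ := by
        rw [← maxAbelian_centralizer B₀ hB₀]
        intro a ha
        rw [Subgroup.mem_centralizer_iff]
        intro b hb
        exact (hcen B₀ hB₀ b hb a ha).symm
      exact hAB.trans (le_sSup hB₀)
    · intro a ha
      have hle : Cfsg.thompsonSubgroupA S ≤ Subgroup.centralizer ({a} : Set S) := by
        apply sSup_le
        intro B hB b hb
        rw [Subgroup.mem_centralizer_iff]
        intro y hy
        rw [Set.mem_singleton_iff] at hy
        subst hy
        exact hcen B hB b hb y ha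
      show a ∈ Subgroup.centralizer (Cfsg.thompsonSubgroupA S : Set S)
      rw [Subgroup.mem_centralizer_iff]
      intro j hj
      exact (Subgroup.mem_centralizer_iff.mp (hle hj) a rfl).symm
  · intro A hAn hAc hAmax
    apply dStar_le_of_max_normal_abelian hS A hAn (fun x hx y hy => setLike_mul_comm hx hy)
    intro B hBn hBa hAB
    exact hAmax B hBn (IsMulCommutative.of_setLike_mul_comm hBa) hAB

end Cfsg.Agent.S3062
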