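import Cfsg.Statements.S3075
import Mathlib

set_option autoImplicit false
open Cfsg

namespace Cfsg.Agent.S3075

/-- Let p be an odd prime and N a finite group with a normal elementary abelian subgroup A of order p² that is its own centralizer in N, such that N/A is isomorphic to SL₂(p) (over any field F with p elements). Then N splits over A: some subgroup U of N satisfies A ∩ U = 1 and AU = N. -/
theorem result {N : Type*} [Group N] [Finite N] {p : ℕ} [Fact p.Prime] (hp : p ≠ 2)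
    (A : Subgroup N) [A.Normal] (hAcomm : IsMulCommutative A) (hAcard : Nat.card A = p ^ 2) (hAexp : Monoid.exponent ↥A = p)
    (hAself : Subgroup.centralizer (A : Set N) = A)
    {F : Type*} [Field F] [Fintype F] (hF : Fintype.card F = p) (e : N ⧸ A ≃* Matrix.SpecialLinearGroup (Fin 2) F) :
    ∃ U : Subgroup N, A ⊓ U = ⊥ ∧ A ⊔ U = ⊤ := by
  classical
  have hpp : p.Prime := Fact.out
  have hodd : Odd p := hpp.odd_of_ne_two hp
  obtain ⟨k, hk⟩ := hodd
  -- the hom to SL2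
  obtain ⟨f, hf⟩ : ∃ f : N →* Matrix.SpecialLinearGroup (Fin 2) F,
      f = e.toMonoidHom.comp (QuotientGroup.mk' A) := ⟨_, rfl⟩
  have hfsurj : Function.Surjective f := by
    rw [hf]
    exact e.surjective.comp (QuotientGroup.mk'_surjective A)
  have hfker : ∀ n : N, f n = 1 ↔ n ∈ A := by
    intro n
    rw [hf]
    show e (QuotientGroup.mk' A n) = 1 ↔ _
    rw [MulEquiv.map_eq_one_iff, QuotientGroup.mk'_apply, QuotientGroup.eq_one_iff]
  -- 2 ≠ 0 in F
  have h2F : (2 : F) ≠ 0 := by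
    have hchar : ringChar F = p := by
      have h1 : ((Fintype.card F : ℕ) : F) = 0 := FiniteField.cast_card_eq_zero F
      rw [hF] at h1
      have h2 : ringChar F ∣ p := ringChar.dvd h1
      rcases (Nat.dvd_prime hpp).mp h2 with h3 | h3
      · exact absurd h3 (CharP.ringChar_ne_one)
      · exact h3
    apply Ring.two_ne_zero
    rw [hchar]; exact hp
  -- the central element
  obtain ⟨c, hc⟩ : ∃ c : Matrix.SpecialLinearGroup (Fin 2) F,
      (c : Matrix (Fin 2) (Fin 2) F) = !![-1, 0; 0, -1] :=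
    ⟨⟨!![-1, 0; 0, -1], by simp [Matrix.det_fin_two]⟩, rfl⟩
  have hc1 : c ≠ 1 := by
    intro h
    have h1 : (c : Matrix (Fin 2) (Fin 2) F) 0 0 = (1 : Matrix (Fin 2) (Fin 2) F) 0 0 := by
      rw [h]; rfl
    rw [hc] at h1
    simp at h1
    apply h2F
    have : (2 : F) = 1 - (-1) := by ring
    rw [this, h1]; ring
  have hc2 : c * c = 1 := by
    apply Subtype.ext
    show (c : Matrix (Fin 2) (Fin 2) F) * (c : Matrix (Fin 2) (Fin 2) F) = 1
    rw [hc]
    ext i j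
    fin_cases i <;> fin_cases j <;> simp [Matrix.mul_apply, Fin.sum_univ_two]
  have hcc : ∀ g : Matrix.SpecialLinearGroup (Fin 2) F, g * c = c * g := by
    intro g
    apply Subtype.ext
    show (g : Matrix (Fin 2) (Fin 2) F) * (c : Matrix (Fin 2) (Fin 2) F)
      = (c : Matrix (Fin 2) (Fin 2) F) * (g : Matrix (Fin 2) (Fin 2) F)
    rw [hc]
    ext i j
    fin_cases i <;> fin_cases j <;> simp [Matrix.mul_apply, Fin.sum_univ_two]
  have hcp : c ^ p = c := by
    rw [hk, pow_succ, pow_mul, pow_two, hc2, one_pow, one_mul]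
  -- exponent
  have hAp : ∀ a ∈ A, a ^ p = 1 := by
    intro a ha
    have h1 : (⟨a, ha⟩ : ↥A) ^ p = 1 := by
      rw [← hAexp]; exact Monoid.pow_exponent_eq_one _
    exact congrArg Subtype.val h1
  have hAc : ∀ a ∈ A, ∀ b ∈ A, a * b = b * a := by
    intro a ha b hb
    exact congrArg Subtype.val (hAcomm.is_comm.comm ⟨a, ha⟩ ⟨b, hb⟩)
  -- the involution t
  obtain ⟨t₀, ht₀⟩ := hfsurj c
  obtain ⟨t, htdef⟩ : ∃ t, t = t₀ ^ p := ⟨_, rfl⟩
  have hft : f t = c := by rw [htdef, map_pow, ht₀, hcp]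
  have ht2 : t * t = 1 := by
    have h1 : t₀ * t₀ ∈ A := by
      rw [← hfker, map_mul, ht₀, hc2]
    have h2 := hAp _ h1
    rw [htdef, ← (Commute.refl t₀).mul_pow p]
    exact h2
  have htinv : t⁻¹ = t := inv_eq_of_mul_eq_one_left ht2
  have htA : t ∉ A := by
    intro h
    rw [← hfker, hft] at h
    exact hc1 h
  -- t is central modulo A
  have hcomA : ∀ n : N, n * t * n⁻¹ * t⁻¹ ∈ A := by
    intro n
    rw [← hfker]
    simp only [map_mul, map_inv, hft]
    rw [hcc (f n)]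
    group
  have hAn : A.Normal := inferInstance
  -- key claim
  have hkey : ∀ a ∈ A, t * a * t⁻¹ = a → a = 1 := by
    intro a₁ ha₁ hta₁
    by_contra ha₁1
    have hconjt : ∀ n : N, ∀ a ∈ A, t * (n * a * n⁻¹) * t⁻¹ = n * (t * a * t⁻¹) * n⁻¹ := by
      intro n a ha
      have h1 := hcomA n⁻¹
      obtain ⟨a', ha'def⟩ : ∃ a', a' = n⁻¹ * t * n * t⁻¹ := ⟨_, rfl⟩
      have ha' : a' ∈ A := by rw [ha'def]; simpa using h1
      have hta : t * a * t⁻¹ ∈ A := hAn.conj_mem a ha t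
      have e1 : t * (n * a * n⁻¹) * t⁻¹ = n * (a' * (t * a * t⁻¹) * a'⁻¹) * n⁻¹ := by
        rw [ha'def]; group
      rw [e1]
      have : a' * (t * a * t⁻¹) * a'⁻¹ = t * a * t⁻¹ := by
        rw [hAc a' ha' _ hta]; group
      rw [this]
    have hcyc : ∀ C : Subgroup N, IsCyclic ↥C → ∀ n₁ n₂ : N, (∀ c ∈ C, n₁ * c * n₁⁻¹ ∈ C) →
        (∀ c ∈ C, n₂ * c * n₂⁻¹ ∈ C) →
        ∀ c ∈ C, (n₁ * n₂) * c * (n₁ * n₂)⁻¹ = (n₂ * n₁) * c * (n₂ * n₁)⁻¹ := by
      intro C hC n₁ n₂ h1 h2 c hcC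
      obtain ⟨g, hg⟩ := IsCyclic.exists_generator (α := ↥C)
      obtain ⟨k₁, hk₁⟩ := Subgroup.mem_zpowers_iff.mp (hg ⟨n₁ * (g : N) * n₁⁻¹, h1 _ g.2⟩)
      obtain ⟨k₂, hk₂⟩ := Subgroup.mem_zpowers_iff.mp (hg ⟨n₂ * (g : N) * n₂⁻¹, h2 _ g.2⟩)
      obtain ⟨m, hm⟩ := Subgroup.mem_zpowers_iff.mp (hg ⟨c, hcC⟩)
      have hk₁' : (g : N) ^ k₁ = n₁ * (g : N) * n₁⁻¹ := by
        have := congrArg Subtype.val hk₁
        simpa using this
      have hk₂' : (g : N) ^ k₂ = n₂ * (g : N) * n₂⁻¹ := by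
        have := congrArg Subtype.val hk₂
        simpa using this
      have hm' : (g : N) ^ m = c := by
        have := congrArg Subtype.val hm
        simpa using this
      have e1 : (n₁ * n₂) * (g : N) * (n₁ * n₂)⁻¹ = (g : N) ^ (k₁ * k₂) := by
        have : (n₁ * n₂) * (g : N) * (n₁ * n₂)⁻¹ = n₁ * (n₂ * (g : N) * n₂⁻¹) * n₁⁻¹ := by group
        rw [this, ← hk₂', ← conj_zpow, ← hk₁', ← zpow_mul]
      have e2 : (n₂ * n₁) * (g : N) * (n₂ * n₁)⁻¹ = (g : N) ^ (k₂ * k₁) := by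
        have : (n₂ * n₁) * (g : N) * (n₂ * n₁)⁻¹ = n₂ * (n₁ * (g : N) * n₁⁻¹) * n₂⁻¹ := by group
        rw [this, ← hk₁', ← conj_zpow, ← hk₂', ← zpow_mul]
      rw [← hm', ← conj_zpow, ← conj_zpow, e1, e2, mul_comm k₁ k₂]
    have hcycA : ∀ C : Subgroup N, C ≤ A → C ≠ A → IsCyclic ↥C := by
      intro C hCA hne
      have hdvd : Nat.card ↥C ∣ p ^ 2 := hAcard ▸ Subgroup.card_dvd_of_le hCA
      obtain ⟨m, hm, hCm⟩ := (Nat.dvd_prime_pow hpp).mp hdvd
      have hm2 : m ≠ 2 := by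
        intro h
        apply hne
        apply Subgroup.eq_of_le_of_card_ge hCA
        rw [hCm, h, hAcard]
      interval_cases m
      · have : Subsingleton ↥C := by
          rw [← Finite.card_le_one_iff_subsingleton, hCm]; simp
        exact isCyclic_of_subsingleton
      · rw [pow_one] at hCm
        exact isCyclic_of_prime_card hCm
      · exact absurd rfl hm2
    -- A₊ and A₋
    obtain ⟨Ap, hAp'⟩ : ∃ Ap : Subgroup N, ∀ a, a ∈ Ap ↔ a ∈ A ∧ t * a * t⁻¹ = a := by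
      refine ⟨{ carrier := {a | a ∈ A ∧ t * a * t⁻¹ = a}
                mul_mem' := ?_
                one_mem' := ?_
                inv_mem' := ?_ }, fun a => Iff.rfl⟩
      · rintro a b ⟨ha, ha'⟩ ⟨hb, hb'⟩
        refine ⟨A.mul_mem ha hb, ?_⟩
        have : t * (a * b) * t⁻¹ = (t * a * t⁻¹) * (t * b * t⁻¹) := by group
        rw [this, ha', hb']
      · exact ⟨A.one_mem, by group⟩
      · rintro a ⟨ha, ha'⟩
        refine ⟨A.inv_mem ha, ?_⟩
        have : t * a⁻¹ * t⁻¹ = (t * a * t⁻¹)⁻¹ := by group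
        rw [this, ha']
    obtain ⟨Am, hAm'⟩ : ∃ Am : Subgroup N, ∀ a, a ∈ Am ↔ a ∈ A ∧ t * a * t⁻¹ = a⁻¹ := by
      refine ⟨{ carrier := {a | a ∈ A ∧ t * a * t⁻¹ = a⁻¹}
                mul_mem' := ?_
                one_mem' := ?_
                inv_mem' := ?_ }, fun a => Iff.rfl⟩
      · rintro a b ⟨ha, ha'⟩ ⟨hb, hb'⟩
        refine ⟨A.mul_mem ha hb, ?_⟩
        have : t * (a * b) * t⁻¹ = (t * a * t⁻¹) * (t * b * t⁻¹) := by group
        rw [this, ha', hb', mul_inv_rev]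
        exact hAc _ (A.inv_mem ha) _ (A.inv_mem hb)
      · exact ⟨A.one_mem, by group⟩
      · rintro a ⟨ha, ha'⟩
        refine ⟨A.inv_mem ha, ?_⟩
        have : t * a⁻¹ * t⁻¹ = (t * a * t⁻¹)⁻¹ := by group
        rw [this, ha']
    have hApA : Ap ≤ A := fun a ha => ((hAp' a).mp ha).1
    have hAmA : Am ≤ A := fun a ha => ((hAm' a).mp ha).1
    have hApne : Ap ≠ A := by
      intro h
      apply htA
      rw [← hAself, Subgroup.mem_centralizer_iff]
      intro a ha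
      have h1 : a ∈ Ap := by rw [h]; exact ha
      have h2 := ((hAp' a).mp h1).2
      calc a * t = (t * a * t⁻¹) * t := by rw [h2]
        _ = t * a := by group
    have hAmne : Am ≠ A := by
      intro h
      apply ha₁1
      have h1 : a₁ ∈ Am := by rw [h]; exact ha₁
      have h2 := ((hAm' a₁).mp h1).2
      rw [hta₁] at h2
      have h3 : a₁ * a₁ = 1 := by
        nth_rewrite 2 [h2]
        exact mul_inv_cancel a₁
      have h4 := hAp a₁ ha₁
      rw [hk, pow_succ, pow_mul, pow_two, h3, one_pow, one_mul] at h4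
      exact h4
    have hApn : ∀ n : N, ∀ c ∈ Ap, n * c * n⁻¹ ∈ Ap := by
      intro n c hcAp
      rw [hAp'] at hcAp ⊢
      refine ⟨hAn.conj_mem c hcAp.1 n, ?_⟩
      rw [hconjt n c hcAp.1, hcAp.2]
    have hAmn : ∀ n : N, ∀ c ∈ Am, n * c * n⁻¹ ∈ Am := by
      intro n c hcAm
      rw [hAm'] at hcAm ⊢
      refine ⟨hAn.conj_mem c hcAm.1 n, ?_⟩
      rw [hconjt n c hcAm.1, hcAm.2]
      group
    have hcomm : ∀ n₁ n₂ : N, (n₂ * n₁)⁻¹ * (n₁ * n₂) ∈ A := by
      intro n₁ n₂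
      obtain ⟨d, hd⟩ : ∃ d, d = (n₂ * n₁)⁻¹ * (n₁ * n₂) := ⟨_, rfl⟩
      rw [← hd]
      have hdC : ∀ C : Subgroup N, IsCyclic ↥C → (∀ n : N, ∀ c ∈ C, n * c * n⁻¹ ∈ C) →
          ∀ c ∈ C, Commute d c := by
        intro C hC hCn c hcC
        have h1 := hcyc C hC n₁ n₂ (hCn n₁) (hCn n₂) c hcC
        show d * c = c * d
        have h2 : d * c * d⁻¹ = c := by
          rw [hd]
          have : (n₂ * n₁)⁻¹ * (n₁ * n₂) * c * ((n₂ * n₁)⁻¹ * (n₁ * n₂))⁻¹
              = (n₂ * n₁)⁻¹ * ((n₁ * n₂) * c * (n₁ * n₂)⁻¹) * (n₂ * n₁) := by group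
          rw [this, h1]; group
        calc d * c = (d * c * d⁻¹) * d := by group
          _ = c * d := by rw [h2]
      rw [← hAself, Subgroup.mem_centralizer_iff]
      intro a ha
      have hta : t * a * t⁻¹ ∈ A := hAn.conj_mem a ha t
      have hu : a * (t * a * t⁻¹) ∈ Ap := by
        rw [hAp']
        refine ⟨A.mul_mem ha hta, ?_⟩
        have : t * (a * (t * a * t⁻¹)) * t⁻¹ = (t * a * t⁻¹) * ((t * t) * a * (t * t)⁻¹) := by group
        rw [this, ht2, one_mul, inv_one, mul_one]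
        exact hAc _ hta _ ha
      have hv : a * (t * a⁻¹ * t⁻¹) ∈ Am := by
        have hta' : t * a⁻¹ * t⁻¹ ∈ A := hAn.conj_mem a⁻¹ (A.inv_mem ha) t
        rw [hAm']
        refine ⟨A.mul_mem ha hta', ?_⟩
        have : t * (a * (t * a⁻¹ * t⁻¹)) * t⁻¹ = (t * a * t⁻¹) * ((t * t) * a⁻¹ * (t * t)⁻¹) := by
          group
        rw [this, ht2, one_mul, inv_one, mul_one, mul_inv_rev]
        have : (t * a⁻¹ * t⁻¹)⁻¹ = t * a * t⁻¹ := by group
        rw [this]
      have h1 := hdC Ap (hcycA Ap hApA hApne) hApn _ hu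
      have h2 := hdC Am (hcycA Am hAmA hAmne) hAmn _ hv
      have h3 : a * (t * a * t⁻¹) * (a * (t * a⁻¹ * t⁻¹)) = a * a := by
        have hta' : t * a⁻¹ * t⁻¹ ∈ A := hAn.conj_mem a⁻¹ (A.inv_mem ha) t
        calc a * (t * a * t⁻¹) * (a * (t * a⁻¹ * t⁻¹))
            = a * ((t * a * t⁻¹) * a) * (t * a⁻¹ * t⁻¹) := by group
          _ = a * (a * (t * a * t⁻¹)) * (t * a⁻¹ * t⁻¹) := by rw [hAc _ hta _ ha]
          _ = a * a := by group
      have h4 : Commute d (a * a) := h3 ▸ h1.mul_right h2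
      have h5 : (a * a) ^ (k + 1) = a := by
        have := hAp a ha
        rw [← pow_two, ← pow_mul]
        have e : 2 * (k + 1) = p + 1 := by omega
        rw [e, pow_succ, this, one_mul]
      have h6 : Commute d a := h5 ▸ h4.pow_right (k + 1)
      exact h6.eq.symm
    -- contradiction with SL2 noncommutative
    obtain ⟨u, hu⟩ : ∃ u : Matrix.SpecialLinearGroup (Fin 2) F,
        (u : Matrix (Fin 2) (Fin 2) F) = !![1, 1; 0, 1] :=
      ⟨⟨!![1, 1; 0, 1], by simp [Matrix.det_fin_two]⟩, rfl⟩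
    obtain ⟨l, hl⟩ : ∃ l : Matrix.SpecialLinearGroup (Fin 2) F,
        (l : Matrix (Fin 2) (Fin 2) F) = !![1, 0; 1, 1] :=
      ⟨⟨!![1, 0; 1, 1], by simp [Matrix.det_fin_two]⟩, rfl⟩
    obtain ⟨n₁, hn₁⟩ := hfsurj u
    obtain ⟨n₂, hn₂⟩ := hfsurj l
    have h1 := (hfker _).mpr (hcomm n₁ n₂)
    simp only [map_mul, map_inv, hn₁, hn₂] at h1
    have h2 : u * l = l * u := by
      have : u * l = (l * u) * ((l * u)⁻¹ * (u * l)) := by group
      rw [this, h1, mul_one]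
    have h3 : ((u * l : Matrix.SpecialLinearGroup (Fin 2) F) : Matrix (Fin 2) (Fin 2) F) 0 0
        = ((l * u : Matrix.SpecialLinearGroup (Fin 2) F) : Matrix (Fin 2) (Fin 2) F) 0 0 := by
      rw [h2]
    rw [Matrix.SpecialLinearGroup.coe_mul, Matrix.SpecialLinearGroup.coe_mul, hu, hl] at h3
    simp [Matrix.mul_apply, Fin.sum_univ_two] at h3
  -- the complement
  refine ⟨Subgroup.centralizer ({t} : Set N), ?_, ?_⟩
  · rw [eq_bot_iff]
    intro a ha
    rw [Subgroup.mem_bot]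
    apply hkey a ha.1
    have := Subgroup.mem_centralizer_singleton_iff.mp ha.2
    calc t * a * t⁻¹ = (a * t) * t⁻¹ := by rw [this]
      _ = a := by group
  · rw [eq_top_iff]
    intro n _
    have hinj : Function.Injective (fun a : ↥A => (⟨(a : N) * (t * (a : N)⁻¹ * t⁻¹),
        A.mul_mem a.2 (hAn.conj_mem _ (A.inv_mem a.2) t)⟩ : ↥A)) := by
      intro a b hab
      have h1 : (a : N) * (t * (a : N)⁻¹ * t⁻¹) = (b : N) * (t * (b : N)⁻¹ * t⁻¹) :=
        congrArg Subtype.val hab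
      have h2 : t * ((b : N)⁻¹ * (a : N)) * t⁻¹ = (b : N)⁻¹ * (a : N) := by
        have e : t * ((b : N)⁻¹ * (a : N)) * t⁻¹
            = (t * (b : N)⁻¹ * t⁻¹) * ((a : N) * (t * (a : N)⁻¹ * t⁻¹))⁻¹ * (a : N) := by group
        rw [e, h1]; group
      have h3 := hkey _ (A.mul_mem (A.inv_mem b.2) a.2) h2
      apply Subtype.ext
      have : (a : N) = (b : N) * ((b : N)⁻¹ * (a : N)) := by group
      rw [this, h3, mul_one]
    have hsurj := Finite.injective_iff_surjective.mp hinj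
    obtain ⟨a', ha'⟩ := hsurj ⟨n * t * n⁻¹ * t⁻¹, hcomA n⟩
    have ha'' : (a' : N) * (t * (a' : N)⁻¹ * t⁻¹) = n * t * n⁻¹ * t⁻¹ := congrArg Subtype.val ha'
    have hU : (a' : N)⁻¹ * n ∈ Subgroup.centralizer ({t} : Set N) := by
      rw [Subgroup.mem_centralizer_singleton_iff]
      symm
      have e1 : (a' : N) * t * (a' : N)⁻¹ = n * t * n⁻¹ := by
        have : (a' : N) * t * (a' : N)⁻¹ = ((a' : N) * (t * (a' : N)⁻¹ * t⁻¹)) * t := by group
        rw [this, ha'']; group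
      calc t * ((a' : N)⁻¹ * n) = (a' : N)⁻¹ * ((a' : N) * t * (a' : N)⁻¹) * n := by group
        _ = (a' : N)⁻¹ * (n * t * n⁻¹) * n := by rw [e1]
        _ = (a' : N)⁻¹ * n * t := by group
    have : n = (a' : N) * ((a' : N)⁻¹ * n) := by group
    rw [this]
    exact Subgroup.mul_mem _ (Subgroup.mem_sup_left a'.2) (Subgroup.mem_sup_right hU)

end Cfsg.Agent.S3075
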