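import Cfsg.Statements.S3078
import Mathlib
import Cfsg.Agent.Lib.Helper3.GlauRepl

set_option autoImplicit false
open Cfsg

namespace Cfsg.Agent.S3078

open Cfsg.Agent.Lib.Helper3

/-- A replacement Theorem for abelian subgroups of p-groups, p odd. Let G be a finite p-group with p odd, A an abelian subgroup of G, and B a subgroup of nilpotency class at most 2 with [B, B] ≤ A, such that A normalizes B but B does not normalize A. Then there is an abelian subgroup A* of G of the same order as A with A ∩ B strictly contained in A* ∩ B, A* contained in N_G(A) and in the normal closure of A, the exponent of A* dividing the exponent of A, and with the subgroup generated by the elements of order dividing p in A of order at most that of the corresponding subgroup of A* (the rank of A is at most the rank of A*). -/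
theorem result {G : Type*} [Group G] [Finite G] {p : ℕ} [Fact p.Prime] (hp : p ≠ 2) (hG : IsPGroup p G) (A B : Subgroup G) (hA : IsMulCommutative A) (hB2 : ⁅⁅B, B⁆, B⁆ = ⊥) (hBA : ⁅B, B⁆ ≤ A) (hAB : A ≤ Subgroup.normalizer (B : Set G)) (hBnA : ¬ B ≤ Subgroup.normalizer (A : Set G)) : ∃ Astar : Subgroup G, IsMulCommutative Astar ∧ Nat.card Astar = Nat.card A ∧ A ⊓ B < Astar ⊓ B ∧ Astar ≤ Subgroup.normalizer (A : Set G) ∧ Astar ≤ Subgroup.normalClosure (A : Set G) ∧ Monoid.exponent Astar ∣ Monoid.exponent A ∧ Nat.card (Cfsg.omegaOne p A) ≤ Nat.card (Cfsg.omegaOne p Astar) := by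
  classical
  obtain ⟨S', hS'⟩ : ∃ S' : Subgroup G, S' = A ⊔ B := ⟨_, rfl⟩
  have hAS : A ≤ S' := hS' ▸ le_sup_left
  have hBS : B ≤ S' := hS' ▸ le_sup_right
  have hSN : S' ≤ Subgroup.normalizer (B : Set G) := hS' ▸ sup_le hAB Subgroup.le_normalizer
  have hBn : (B.subgroupOf S').Normal := Subgroup.normal_subgroupOf_of_le_normalizer hSN
  obtain ⟨A', hA'⟩ : ∃ A' : Subgroup ↥S', A' = A.subgroupOf S' := ⟨_, rfl⟩
  obtain ⟨B', hB'⟩ : ∃ B' : Subgroup ↥S', B' = B.subgroupOf S' := ⟨_, rfl⟩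
  have hmemA : ∀ x : ↥S', x ∈ A' ↔ (x : G) ∈ A := fun x => by rw [hA', Subgroup.mem_subgroupOf]
  have hmemB : ∀ x : ↥S', x ∈ B' ↔ (x : G) ∈ B := fun x => by rw [hB', Subgroup.mem_subgroupOf]
  have : B'.Normal := hB' ▸ hBn
  have hSp : IsPGroup p ↥S' := hG.to_subgroup S'
  have hAc : ∀ x ∈ A, ∀ y ∈ A, x * y = y * x := (isMulCommutative_iff_forall A).mp hA
  have hA'c : ∀ x ∈ A', ∀ y ∈ A', x * y = y * x := by
    intro x hx y hy
    rw [hmemA] at hx hy
    exact Subtype.ext (hAc x.1 hx y.1 hy)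
  have hBA' : ⁅B', B'⁆ ≤ A' := by
    rw [Subgroup.commutator_le]
    intro g₁ hg₁ g₂ hg₂
    rw [hmemB] at hg₁ hg₂
    rw [hmemA]
    exact hBA (Subgroup.commutator_mem_commutator hg₁ hg₂)
  have hnormA : ∀ x : ↥S', x ∈ Subgroup.normalizer (A' : Set ↥S') ↔
      (x : G) ∈ Subgroup.normalizer (A : Set G) := by
    intro x
    rw [hA', ← Subgroup.subgroupOf_normalizer_eq hAS, Subgroup.mem_subgroupOf]
  have hnot : ¬ B' ≤ Subgroup.normalizer (A' : Set ↥S') := by
    intro hle
    apply hBnA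
    intro x hx
    have h1 := hle ((hmemB ⟨x, hBS hx⟩).mpr hx)
    rw [hnormA] at h1
    exact h1
  obtain ⟨b, hb, hbN, hbA⟩ := exists_mem_normalizer_normalizer hSp B' A' hnot
  have hH : GlauHyp A' B' b := ⟨hA'c, inferInstance, hBA', hb, hbN⟩
  have hm := hH.hm_of_odd hSp hp
  obtain ⟨T, hT⟩ : ∃ T, T = gStar A' b := ⟨_, rfl⟩
  have hAmap : A'.map S'.subtype = A := hA' ▸ Subgroup.map_subgroupOf_eq_of_le hAS
  have hodd : Odd p := (Nat.Prime.eq_two_or_odd' Fact.out).resolve_left hp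
  refine ⟨T.map S'.subtype, ?_, ?_, ?_, ?_, ?_, ?_, ?_⟩
  · exact (isMulCommutative_iff_forall _).mpr ((isMulCommutative_map_subtype_iff S' T).mpr
      ((isMulCommutative_iff_forall T).mpr (hT ▸ hH.gStar_comm hm)))
  · rw [Subgroup.card_map_of_injective S'.subtype_injective, hT, hH.card_gStar hm, hA']
    exact Nat.card_congr (Subgroup.subgroupOfEquivOfLe hAS).toEquiv
  · have hlt := hH.inf_lt_gStar_inf hbA
    rw [← hT] at hlt
    rw [SetLike.lt_iff_le_and_exists] at hlt ⊢
    obtain ⟨hle, x, hx, hxn⟩ := hlt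
    constructor
    · intro g hg
      have hgS : g ∈ S' := hAS hg.1
      have h1 : (⟨g, hgS⟩ : ↥S') ∈ A' ⊓ B' :=
        Subgroup.mem_inf.mpr ⟨(hmemA _).mpr hg.1, (hmemB _).mpr hg.2⟩
      have h2 := hle h1
      exact Subgroup.mem_inf.mpr ⟨⟨⟨g, hgS⟩, h2.1, rfl⟩, hg.2⟩
    · refine ⟨x.1, Subgroup.mem_inf.mpr ⟨⟨x, hx.1, rfl⟩, (hmemB x).mp hx.2⟩, ?_⟩
      intro hcon
      apply hxn
      exact Subgroup.mem_inf.mpr ⟨(hmemA x).mpr hcon.1, (hmemB x).mpr hcon.2⟩
  · rintro _ ⟨x, hx, rfl⟩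
    have h1 := hH.gStar_le_normalizer (hT ▸ hx)
    rw [hnormA] at h1
    exact h1
  · rintro _ ⟨x, hx, rfl⟩
    have h1 : x ∈ gH A' b := gStar_le_gH A' b (hT ▸ hx)
    have hle : gH A' b ≤ (Subgroup.normalClosure (A : Set G)).subgroupOf S' := by
      rw [gH, Subgroup.closure_le]
      rintro y (hy | hy)
      · rw [SetLike.mem_coe, Subgroup.mem_subgroupOf]
        exact Subgroup.le_normalClosure ((hmemA y).mp hy)
      · rw [SetLike.mem_coe, Subgroup.mem_subgroupOf]
        have hy' : (b : G) * y * (b : G)⁻¹ ∈ A := (hmemA (b * y * b⁻¹)).mp hy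
        have h2 := (Subgroup.normalClosure_normal (s := (A : Set G))).conj_mem _
          (Subgroup.le_normalClosure hy') (b : G)⁻¹
        have e : (b : G)⁻¹ * ((b : G) * y * (b : G)⁻¹) * (b : G)⁻¹⁻¹ = y := by group
        rw [e] at h2; exact h2
    exact hle h1
  · apply Monoid.exponent_dvd_of_forall_pow_eq_one
    rintro ⟨_, ⟨x, hx, rfl⟩⟩
    apply Subtype.ext
    show (S'.subtype x) ^ Monoid.exponent ↥A = 1
    have hoddE : Odd (Monoid.exponent ↥A) := by
      have h1 : Monoid.exponent ↥A ∣ Nat.card ↥A := Group.exponent_dvd_nat_card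
      obtain ⟨k, hk⟩ := (IsPGroup.iff_card.mp (hG.to_subgroup A))
      rw [hk] at h1
      obtain ⟨j, _, hj⟩ := (Nat.dvd_prime_pow Fact.out).mp h1
      rw [hj]
      exact Odd.pow hodd
    have h2 := hH.pow_eq_one_of_mem_gStar hm _ hoddE (fun a ha => by
      rw [hmemA] at ha
      have := Monoid.pow_exponent_eq_one (⟨a.1, ha⟩ : ↥A)
      have h3 : (a : G) ^ Monoid.exponent ↥A = 1 := congrArg Subtype.val this
      exact Subtype.ext h3) x (hT ▸ hx)
    rw [← map_pow, h2, map_one]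
  · have h1 := hH.card_omegaOne_le hm p hodd
    rw [omegaOne_map_of_injective p S'.subtype S'.subtype_injective,
      Subgroup.card_map_of_injective S'.subtype_injective, hT]
    rw [← hAmap, omegaOne_map_of_injective p S'.subtype S'.subtype_injective,
      Subgroup.card_map_of_injective S'.subtype_injective]
    exact h1

end Cfsg.Agent.S3078
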