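import Cfsg.Statements.S3087
import Mathlib

set_option autoImplicit false
open Cfsg

namespace Cfsg.Agent.S3087

/-- Let p be a prime, G a finite group acting linearly on a finite vector space V over the field with p elements, W a G-invariant subspace, and A a subgroup of G with |A|·|C_V(A)| ≥ |B|·|C_V(B)| for every subgroup B of A. Then |A|·|C_W(A)| ≥ |B|·|C_W(B)| for every subgroup B of A that contains C_A(W); that is, the image of A in the group induced on W satisfies the same maximality condition. -/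
theorem result {G V : Type*} [Group G] [Finite G] [AddCommGroup V] [Finite V] (p : ℕ) [Fact p.Prime] [Module (ZMod p) V]
    (ρ : Representation (ZMod p) G V) (W : Submodule (ZMod p) V) (hW : ∀ g : G, ∀ w ∈ W, ρ g w ∈ W)
    (A : Subgroup G)
    (hP : ∀ B : Subgroup G, B ≤ A →
      Nat.card ↥B * Nat.card {v : V // ∀ b ∈ B, ρ b v = v} ≤ Nat.card ↥A * Nat.card {v : V // ∀ a ∈ A, ρ a v = v})
    (B : Subgroup G) (hBA : B ≤ A) (hCB : ∀ a ∈ A, (∀ w ∈ W, ρ a w = w) → a ∈ B) :
    Nat.card ↥B * Nat.card {w : W // ∀ b ∈ B, ρ b w = w} ≤ Nat.card ↥A * Nat.card {w : W // ∀ a ∈ A, ρ a w = w} := by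
  classical
  have hp : p.Prime := Fact.out
  -- fixed-point submodule
  obtain ⟨Fx, hFx⟩ : ∃ Fx : Subgroup G → Submodule (ZMod p) V,
      ∀ X v, v ∈ Fx X ↔ ∀ b ∈ X, ρ b v = v := by
    refine ⟨fun X => { carrier := {v | ∀ b ∈ X, ρ b v = v}
                       add_mem' := ?_
                       zero_mem' := ?_
                       smul_mem' := ?_ }, ?_⟩
    · intro a b ha hb c hc
      rw [map_add, ha c hc, hb c hc]
    · intro c _
      exact map_zero _
    · intro r v hv c hc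
      rw [map_smul, hv c hc]
    · intro X v
      exact Iff.rfl
  have hcardV : ∀ X : Subgroup G, Nat.card {v : V // ∀ b ∈ X, ρ b v = v}
      = p ^ Module.finrank (ZMod p) ↥(Fx X) := by
    intro X
    have h0 : Nat.card ↥(Fx X) = p ^ Module.finrank (ZMod p) ↥(Fx X) := by
      have := Module.natCard_eq_pow_finrank (K := ZMod p) (V := ↥(Fx X))
      rw [Nat.card_zmod] at this
      exact this
    rw [← h0]
    apply Nat.card_congr
    exact Equiv.subtypeEquivRight (fun v => (hFx X v).symm)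
  have hcardW : ∀ X : Subgroup G, Nat.card {w : W // ∀ b ∈ X, ρ b w = w}
      = p ^ Module.finrank (ZMod p) ↥(Fx X ⊓ W) := by
    intro X
    have h0 : Nat.card ↥(Fx X ⊓ W) = p ^ Module.finrank (ZMod p) ↥(Fx X ⊓ W) := by
      have := Module.natCard_eq_pow_finrank (K := ZMod p) (V := ↥(Fx X ⊓ W))
      rw [Nat.card_zmod] at this
      exact this
    rw [← h0]
    apply Nat.card_congr
    refine ⟨fun w => ⟨w.1.1, ⟨(hFx X _).mpr w.2, w.1.2⟩⟩,
      fun v => ⟨⟨v.1, v.2.2⟩, (hFx X _).mp v.2.1⟩, ?_, ?_⟩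
    · intro w; rfl
    · intro v; rfl
  have hdim : ∀ X : Subgroup G, Module.finrank (ZMod p) ↥(Fx X ⊔ W)
      + Module.finrank (ZMod p) ↥(Fx X ⊓ W)
      = Module.finrank (ZMod p) ↥(Fx X) + Module.finrank (ZMod p) ↥W := fun X =>
    Submodule.finrank_sup_add_finrank_inf_eq _ _
  have hmono : Module.finrank (ZMod p) ↥(Fx A ⊔ W) ≤ Module.finrank (ZMod p) ↥(Fx B ⊔ W) := by
    apply Submodule.finrank_mono
    apply sup_le_sup_right
    intro v hv
    rw [hFx] at hv ⊢
    intro b hb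
    exact hv b (hBA hb)
  have h1 := hP B hBA
  rw [hcardV, hcardV] at h1
  rw [hcardW, hcardW]
  have hpos : 0 < p ^ Module.finrank (ZMod p) ↥(Fx B ⊔ W) := pow_pos hp.pos _
  apply Nat.le_of_mul_le_mul_right _ hpos
  calc Nat.card ↥B * p ^ Module.finrank (ZMod p) ↥(Fx B ⊓ W) * p ^ Module.finrank (ZMod p) ↥(Fx B ⊔ W)
      = Nat.card ↥B * p ^ (Module.finrank (ZMod p) ↥(Fx B ⊔ W) + Module.finrank (ZMod p) ↥(Fx B ⊓ W)) := by
        rw [pow_add]; ring
    _ = Nat.card ↥B * p ^ Module.finrank (ZMod p) ↥(Fx B) * p ^ Module.finrank (ZMod p) ↥W := by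
        rw [hdim B, pow_add]; ring
    _ ≤ Nat.card ↥A * p ^ Module.finrank (ZMod p) ↥(Fx A) * p ^ Module.finrank (ZMod p) ↥W :=
        Nat.mul_le_mul_right _ h1
    _ = Nat.card ↥A * p ^ (Module.finrank (ZMod p) ↥(Fx A ⊔ W) + Module.finrank (ZMod p) ↥(Fx A ⊓ W)) := by
        rw [hdim A, pow_add]; ring
    _ = Nat.card ↥A * p ^ Module.finrank (ZMod p) ↥(Fx A ⊓ W) * p ^ Module.finrank (ZMod p) ↥(Fx A ⊔ W) := by
        rw [pow_add]; ring
    _ ≤ Nat.card ↥A * p ^ Module.finrank (ZMod p) ↥(Fx A ⊓ W) * p ^ Module.finrank (ZMod p) ↥(Fx B ⊔ W) :=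
        Nat.mul_le_mul_left _ (Nat.pow_le_pow_right hp.pos hmono)

end Cfsg.Agent.S3087
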