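import Cfsg.Statements.S3180
import Mathlib

set_option autoImplicit false
open Cfsg

namespace Cfsg.Agent.S3180

open scoped Pointwise

theorem mem_normalizer_of_map_conj_eq {J : Type*} [Group J] (P₁ : Subgroup J) (n : J)
    (h : P₁.map (MulAut.conj n).toMonoidHom = P₁) : n ∈ Subgroup.normalizer (P₁ : Set J) := by
  rw [Subgroup.mem_normalizer_iff]
  intro a
  constructor
  · intro ha
    rw [← h]
    exact ⟨a, ha, rfl⟩
  · intro ha
    rw [← h] at ha
    obtain ⟨b, hb, hb2⟩ := ha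
    have : b = a := by
      have h3 : n * b * n⁻¹ = n * a * n⁻¹ := hb2
      exact mul_left_cancel (mul_right_cancel h3)
    rw [← this]; exact hb

/-- Let P be a Sylow p-subgroup of a finite group J and P₁ a subgroup of P that is weakly closed in P with respect to J. If J acts on a set and two points, each fixed by every element of P₁, lie in one J-orbit, then they lie in one orbit of the normalizer of P₁ in J. -/
theorem result {J : Type*} [Group J] [Finite J]
    {p : ℕ} [Fact p.Prime] (P : Sylow p J) (P₁ : Subgroup J) (hW : Cfsg.IsWeaklyClosed P₁ (P : Subgroup J))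
    {Ω : Type*} [MulAction J Ω] (x y : Ω) (hx : ∀ g ∈ P₁, g • x = x) (hy : ∀ g ∈ P₁, g • y = y)
    (hc : ∃ g : J, g • x = y) :
    ∃ g ∈ Subgroup.normalizer (P₁ : Set J), g • x = y := by
  obtain ⟨g, hg⟩ := hc
  obtain ⟨hle, hwc⟩ := hW
  have h1 : P₁ ≤ MulAction.stabilizer J y := fun a ha => hy a ha
  have h2 : P₁.map (MulAut.conj g).toMonoidHom ≤ MulAction.stabilizer J y := by
    rintro _ ⟨a, ha, rfl⟩
    show (g * a * g⁻¹) • y = y
    rw [← hg, mul_smul, mul_smul, inv_smul_smul, hx a ha]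
  have hp1 : IsPGroup p P₁ := P.2.to_le hle
  have hpA : IsPGroup p (P₁.subgroupOf (MulAction.stabilizer J y)) := hp1.comap_subtype
  obtain ⟨Q, hQ⟩ := hpA.exists_le_sylow
  have hpB : IsPGroup p ((P₁.map (MulAut.conj g).toMonoidHom).subgroupOf
      (MulAction.stabilizer J y)) := (hp1.map _).comap_subtype
  obtain ⟨R, hR⟩ := hpB.exists_le_sylow
  obtain ⟨h, hh⟩ := MulAction.exists_smul_eq (MulAction.stabilizer J y) R Q
  have hQp : IsPGroup p ((Q : Subgroup (MulAction.stabilizer J y)).map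
      (MulAction.stabilizer J y).subtype) := Q.2.map _
  obtain ⟨P', hP'⟩ := hQp.exists_le_sylow
  obtain ⟨k, hk⟩ := MulAction.exists_smul_eq J P P'
  have key : ∀ b : J, ∀ hb : b ∈ MulAction.stabilizer J y,
      (⟨b, hb⟩ : MulAction.stabilizer J y) ∈ (Q : Subgroup (MulAction.stabilizer J y)) →
      k⁻¹ * b * k ∈ (P : Subgroup J) := by
    intro b hb hbQ
    have h3 : b ∈ (P' : Subgroup J) := hP' ⟨⟨b, hb⟩, hbQ, rfl⟩
    rw [← hk, Sylow.smul_def, Sylow.pointwise_smul_def,
      Subgroup.mem_pointwise_smul_iff_inv_smul_mem] at h3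
    simpa [MulAut.smul_def] using h3
  have claim1 : P₁.map (MulAut.conj k⁻¹).toMonoidHom ≤ (P : Subgroup J) := by
    rintro _ ⟨a, ha, rfl⟩
    have := key a (h1 ha) (hQ ha)
    simpa using this
  have claim2 : P₁.map (MulAut.conj (k⁻¹ * h * g)).toMonoidHom ≤ (P : Subgroup J) := by
    rintro _ ⟨a, ha, rfl⟩
    have hm : g * a * g⁻¹ ∈ P₁.map (MulAut.conj g).toMonoidHom := ⟨a, ha, rfl⟩
    have hmR : (⟨g * a * g⁻¹, h2 hm⟩ : MulAction.stabilizer J y) ∈
        (R : Subgroup (MulAction.stabilizer J y)) := hR hm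
    have hmQ : h * ⟨g * a * g⁻¹, h2 hm⟩ * h⁻¹ ∈ (Q : Subgroup (MulAction.stabilizer J y)) := by
      rw [← hh, Sylow.smul_def, Sylow.pointwise_smul_def,
        Subgroup.mem_pointwise_smul_iff_inv_smul_mem]
      simpa [MulAut.smul_def, mul_assoc] using hmR
    have := key _ (h * ⟨g * a * g⁻¹, h2 hm⟩ * h⁻¹).2 hmQ
    simpa [mul_assoc] using this
  have n1 := mem_normalizer_of_map_conj_eq P₁ _ (hwc _ claim1)
  have n2 := mem_normalizer_of_map_conj_eq P₁ _ (hwc _ claim2)
  have n3 : k ∈ Subgroup.normalizer (P₁ : Set J) := by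
    have := Subgroup.inv_mem _ n1
    rwa [inv_inv] at this
  refine ⟨(h : J) * g, ?_, ?_⟩
  · have := Subgroup.mul_mem _ n3 n2
    have h5 : k * (k⁻¹ * ↑h * g) = (h : J) * g := by group
    rwa [h5] at this
  · rw [mul_smul, hg]
    exact h.2

end Cfsg.Agent.S3180
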