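import Cfsg.Statements.S3195
import Mathlib
import Cfsg.Agent.Lib.Helper5.KleinSidki
import Cfsg.Agent.Lib.Helper5.DStarOf
import Cfsg.Agent.S0200

set_option autoImplicit false
open Cfsg

namespace Cfsg.Agent.S3195

/-- Let A be a Klein four-subgroup of a finite group G. If every G-conjugate of every involution of A commutes with some involution of A (its centralizer meets A nontrivially), then A meets the largest normal 2-subgroup O₂(G) nontrivially. -/
theorem result {G : Type*} [Group G] [Finite G]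
    (A : Subgroup G) (hA : IsKleinFour ↥A)
    (h : ∀ a ∈ A, a ≠ 1 → ∀ g : G, A ⊓ Subgroup.centralizer ({g * a * g⁻¹} : Set G) ≠ ⊥) :
    A ⊓ Cfsg.pCore 2 G ≠ ⊥ := by
  intro hcon
  apply Cfsg.Agent.Lib.Helper5.klein_false_of_inverting A hA
  · intro a ha ha1 g
    obtain ⟨⟨x, hx⟩, hx1⟩ := (Subgroup.ne_bot_iff_exists_ne_one).mp (h a ha ha1 g)
    refine ⟨x, hx.1, fun e => hx1 (Subtype.ext e), ?_⟩
    exact (Subgroup.mem_centralizer_iff.mp hx.2 (g * a * g⁻¹) rfl).symm
  · intro v hv hv1
    have hord : orderOf v = 2 := by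
      have hsq : v ^ 2 = 1 := by
        have h1 := IsKleinFour.mul_self (⟨v, hv⟩ : A)
        rw [pow_two]; exact congrArg Subtype.val h1
      exact orderOf_eq_prime hsq hv1
    apply Cfsg.Agent.S0200.result v hord
    intro N hN hN2 hvN
    have h1 : v ∈ A ⊓ Cfsg.pCore 2 G := ⟨hv, Cfsg.Agent.Lib.Helper5.le_pCore5 hN hN2 hvN⟩
    rw [hcon, Subgroup.mem_bot] at h1
    exact hv1 h1

end Cfsg.Agent.S3195
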