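import Cfsg.Statements.S3208
import Mathlib

set_option autoImplicit false
open Cfsg

namespace Cfsg.Agent.S3208

/-- Conjugation by an element of the normalizer, as an automorphism of the subgroup. -/
def conjEquivOfMemNormalizer {G : Type*} [Group G] (T : Subgroup G) (x : G)
    (hx : x ∈ Subgroup.normalizer (T : Set G)) : ↥T ≃* ↥T where
  toFun t := ⟨x * t * x⁻¹, (Subgroup.mem_normalizer_iff.mp hx t).mp t.2⟩
  invFun t := ⟨x⁻¹ * t * x, by
    have := (Subgroup.mem_normalizer_iff.mp hx (x⁻¹ * t * x))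
    rw [this]
    simp [mul_assoc]⟩
  left_inv t := by ext; simp [mul_assoc]
  right_inv t := by ext; simp [mul_assoc]
  map_mul' a b := by ext; simp [mul_assoc]

/-- Let j be an involution of a finite group G, H a subgroup of G, and T a Sylow 2-subgroup of H ∩ C_G(j) containing j such that ⟨j⟩ is a characteristic subgroup of T. Then T is a Sylow 2-subgroup of H. -/
theorem result {G : Type*} [Group G] [Finite G]
    (j : G) (hj : orderOf j = 2) (H T : Subgroup G) (hT : T ≤ H ⊓ Subgroup.centralizer ({j} : Set G)) (h2 : IsPGroup 2 ↥T)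
    (hSyl : ¬ 2 ∣ T.relIndex (H ⊓ Subgroup.centralizer ({j} : Set G))) (hjT : j ∈ T)
    (hchar : ((Subgroup.zpowers j).subgroupOf T).Characteristic) :
    ¬ 2 ∣ T.relIndex H := by
  intro hdvd
  have hTH : T ≤ H := fun t ht => (hT ht).1
  have hj2 : j ^ 2 = 1 := by rw [← hj]; exact pow_orderOf_eq_one j
  have hj1 : j ≠ 1 := by
    intro h
    rw [h, orderOf_one] at hj
    omega
  -- the normalizer of T in H centralizes j
  have hN : Subgroup.normalizer (T : Set G) ⊓ H ≤ H ⊓ Subgroup.centralizer ({j} : Set G) := by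
    intro x hx
    refine ⟨hx.2, ?_⟩
    have h1 := hchar.fixed (conjEquivOfMemNormalizer T x hx.1)
    have h2 : (⟨j, hjT⟩ : ↥T) ∈ (Subgroup.zpowers j).subgroupOf T := by
      rw [Subgroup.mem_subgroupOf]
      exact Subgroup.mem_zpowers j
    rw [← h1] at h2
    have h3 : x * j * x⁻¹ ∈ Subgroup.zpowers j := h2
    obtain ⟨k, hk⟩ := Subgroup.mem_zpowers_iff.mp h3
    have h4 : x * j * x⁻¹ = j := by
      rcases Int.even_or_odd k with ⟨m, hm⟩ | ⟨m, hm⟩
      · exfalso
        have h5 : j ^ k = 1 := by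
          rw [hm, ← two_mul, zpow_mul, zpow_ofNat, hj2, one_zpow]
        rw [h5] at hk
        apply hj1
        have h6 : j = x⁻¹ * (x * j * x⁻¹) * x := by group
        rw [h6, ← hk]
        group
      · have h5 : j ^ k = j := by
          rw [hm, zpow_add, zpow_mul, zpow_ofNat, hj2, one_zpow, one_mul, zpow_one]
        rw [← hk, h5]
    show x ∈ Subgroup.centralizer ({j} : Set G)
    rw [Subgroup.mem_centralizer_iff]
    intro y hy
    rw [Set.mem_singleton_iff] at hy
    subst hy
    calc y * x = (x * y * x⁻¹) * x := by rw [h4]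
      _ = x * y := by group
  -- counting
  have hTN : T ≤ Subgroup.normalizer (T : Set G) ⊓ H := le_inf Subgroup.le_normalizer hTH
  have hpT : IsPGroup 2 (T.subgroupOf H) := h2.comap_subtype
  have : Fact (Nat.Prime 2) := ⟨Nat.prime_two⟩
  obtain ⟨n, hn⟩ := IsPGroup.iff_card.mp hpT
  have hmod := Sylow.card_quotient_normalizer_modEq_card_quotient hn
  have h7 : (T.subgroupOf H).relIndex (Subgroup.normalizer ((T.subgroupOf H : Subgroup H) : Set H))
      ≡ (T.subgroupOf H).index [MOD 2] := hmod
  have h8 : Subgroup.normalizer ((T.subgroupOf H : Subgroup H) : Set H)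
      = (Subgroup.normalizer (T : Set G) ⊓ H).subgroupOf H := by
    rw [← Subgroup.subgroupOf_normalizer_eq hTH, Subgroup.inf_subgroupOf_right]
  rw [h8, Subgroup.relIndex_subgroupOf inf_le_right] at h7
  have h9 : 2 ∣ T.relIndex (Subgroup.normalizer (T : Set G) ⊓ H) := by
    have h10 : (T.subgroupOf H).index ≡ 0 [MOD 2] := (Nat.modEq_zero_iff_dvd).mpr hdvd
    exact (Nat.modEq_zero_iff_dvd).mp (h7.trans h10)
  apply hSyl
  rw [← Subgroup.relIndex_mul_relIndex T _ _ hTN hN]
  exact h9.mul_right _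

end Cfsg.Agent.S3208
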