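import Cfsg.Statements.S3247
import Mathlib
import Cfsg.Agent.Lib.Helper3.PConstrHom

set_option autoImplicit false
open Cfsg

namespace Cfsg.Agent.S3247

open Cfsg.Agent.Lib.Helper3

/-- Let G be a finite group and p a prime; here a p-local subgroup means the normalizer of a nontrivial p-subgroup, other than G itself. If every p-local subgroup of G that is maximal among p-local subgroups is p-constrained, or if the centralizer of every element of order p of G is p-constrained, then every p-local subgroup of G is p-constrained. -/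
theorem result {G : Type*} [Group G] [Finite G] (p : ℕ) [hp : Fact p.Prime]
    (h : (∀ M : Subgroup G, (∃ T : Subgroup G, IsPGroup p ↥T ∧ T ≠ ⊥ ∧ M = Subgroup.normalizer (T : Set G)) → M ≠ ⊤ →
        (∀ M' : Subgroup G, (∃ T' : Subgroup G, IsPGroup p ↥T' ∧ T' ≠ ⊥ ∧ M' = Subgroup.normalizer (T' : Set G)) → M' ≠ ⊤ → M ≤ M' → M = M') →
        Cfsg.IsPConstrained p ↥M) ∨
      (∀ x : G, orderOf x = p → Cfsg.IsPConstrained p ↥(Subgroup.centralizer ({x} : Set G))))
    (T : Subgroup G) (hT : IsPGroup p ↥T) (hT1 : T ≠ ⊥) (hTG : Subgroup.normalizer (T : Set G) ≠ ⊤) :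
    Cfsg.IsPConstrained p ↥(Subgroup.normalizer (T : Set G)) := by
  rcases h with h | h
  · classical
    have : Nonempty {M : Subgroup G // (∃ T' : Subgroup G, IsPGroup p ↥T' ∧ T' ≠ ⊥ ∧
        M = Subgroup.normalizer (T' : Set G)) ∧ M ≠ ⊤ ∧ Subgroup.normalizer (T : Set G) ≤ M} :=
      ⟨⟨_, ⟨T, hT, hT1, rfl⟩, hTG, le_rfl⟩⟩
    obtain ⟨⟨M, ⟨T', hT'p, hT'1, hMT'⟩, hMtop, hNM⟩, hmax⟩ :=
      Finite.exists_max (α := {M : Subgroup G // (∃ T' : Subgroup G, IsPGroup p ↥T' ∧ T' ≠ ⊥ ∧
        M = Subgroup.normalizer (T' : Set G)) ∧ M ≠ ⊤ ∧ Subgroup.normalizer (T : Set G) ≤ M})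
        (fun M => Nat.card ↥M.1)
    have hMc : Cfsg.IsPConstrained p ↥M := by
      apply h M ⟨T', hT'p, hT'1, hMT'⟩ hMtop
      intro M' hM' hM'top hMM'
      have h1 := hmax ⟨M', hM', hM'top, hNM.trans hMM'⟩
      exact Subgroup.eq_of_le_of_card_ge hMM' h1
    have hTM : T ≤ M := Subgroup.le_normalizer.trans hNM
    refine isPConstrained_of_hom hMc (Subgroup.inclusion hNM) (Subgroup.inclusion_injective hNM)
      (T.subgroupOf M) hT.comap_subtype ?_ ?_ (Or.inl ?_)
    · intro c hc
      have hcN : (c : G) ∈ Subgroup.normalizer (T : Set G) := by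
        apply Subgroup.centralizer_le_normalizer
        rw [Subgroup.mem_centralizer_iff]
        intro t ht
        have := Subgroup.mem_centralizer_iff.mp hc ⟨t, hTM ht⟩ (Subgroup.mem_subgroupOf.mpr ht)
        exact congrArg Subtype.val this
      exact ⟨⟨(c : G), hcN⟩, rfl⟩
    · rintro _ ⟨n, rfl⟩
      rw [Subgroup.mem_normalizer_iff]
      intro x
      rw [Subgroup.mem_subgroupOf, Subgroup.mem_subgroupOf]
      exact Subgroup.mem_normalizer_iff.mp n.2 (x : G)
    · intro x hx
      exact ⟨⟨(x : G), Subgroup.le_normalizer (Subgroup.mem_subgroupOf.mp hx)⟩, rfl⟩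
  · have : Nontrivial ↥T := (Subgroup.nontrivial_iff_ne_bot T).mpr hT1
    have : Nontrivial ↥(Subgroup.center ↥T) := hT.center_nontrivial
    have hZp : IsPGroup p ↥(Subgroup.center ↥T) := hT.to_subgroup _
    have hdvd : p ∣ Nat.card ↥(Subgroup.center ↥T) := by
      rcases hZp.card_eq_or_dvd with h1 | h1
      · exfalso
        have := Finite.one_lt_card (α := ↥(Subgroup.center ↥T))
        omega
      · exact h1
    obtain ⟨z, hz⟩ := exists_prime_orderOf_dvd_card' p hdvd
    obtain ⟨x, hxdef⟩ : ∃ x : G, x = ((z : ↥T) : G) := ⟨_, rfl⟩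
    have hxo : orderOf x = p := by
      rw [hxdef, Subgroup.orderOf_coe, Subgroup.orderOf_coe]; exact hz
    have hxT : x ∈ T := by rw [hxdef]; exact SetLike.coe_mem _
    have hxc : ∀ t ∈ T, t * x = x * t := by
      intro t ht
      have := Subgroup.mem_center_iff.mp z.2 ⟨t, ht⟩
      rw [hxdef]; exact congrArg Subtype.val this
    have hx := h x hxo
    have hCT : Subgroup.centralizer (T : Set G) ≤ Subgroup.centralizer ({x} : Set G) :=
      Subgroup.centralizer_le (Set.singleton_subset_iff.mpr hxT)
    have hTx : T ≤ Subgroup.centralizer ({x} : Set G) := by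
      intro t ht
      rw [Subgroup.mem_centralizer_iff]
      intro y hy
      rw [Set.mem_singleton_iff] at hy
      rw [hy]
      exact (hxc t ht).symm
    have hC1 : Cfsg.IsPConstrained p ↥(Subgroup.centralizer (T : Set G)) := by
      refine isPConstrained_of_hom hx (Subgroup.inclusion hCT) (Subgroup.inclusion_injective hCT)
        (T.subgroupOf _) hT.comap_subtype ?_ ?_ (Or.inr ?_)
      · intro c hc
        have hcT : (c : G) ∈ Subgroup.centralizer (T : Set G) := by
          rw [Subgroup.mem_centralizer_iff]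
          intro t ht
          have := Subgroup.mem_centralizer_iff.mp hc ⟨t, hTx ht⟩ (Subgroup.mem_subgroupOf.mpr ht)
          exact congrArg Subtype.val this
        exact ⟨⟨(c : G), hcT⟩, rfl⟩
      · rintro _ ⟨c, rfl⟩
        apply Subgroup.centralizer_le_normalizer
        rw [Subgroup.mem_centralizer_iff]
        intro t ht
        exact Subtype.ext
          (Subgroup.mem_centralizer_iff.mp c.2 (t : G) (Subgroup.mem_subgroupOf.mp ht))
      · rintro _ ⟨c, rfl⟩
        rw [Subgroup.mem_centralizer_iff]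
        intro t ht
        exact Subtype.ext
          (Subgroup.mem_centralizer_iff.mp c.2 (t : G) (Subgroup.mem_subgroupOf.mp ht))
    have hTn : (T.subgroupOf (Subgroup.normalizer (T : Set G))).Normal :=
      Subgroup.normal_in_normalizer
    apply isPConstrained_of_centralizer_normal (T.subgroupOf (Subgroup.normalizer (T : Set G)))
      hT.comap_subtype
    obtain ⟨f, hfv⟩ : ∃ f : ↥(Subgroup.centralizer ((T.subgroupOf
        (Subgroup.normalizer (T : Set G)) : Subgroup ↥(Subgroup.normalizer (T : Set G))) :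
        Set ↥(Subgroup.normalizer (T : Set G)))) →* ↥(Subgroup.centralizer (T : Set G)),
        ∀ c, ((f c : ↥(Subgroup.centralizer (T : Set G))) : G) =
          ((c : ↥(Subgroup.normalizer (T : Set G))) : G) := by
      refine ⟨(((Subgroup.normalizer (T : Set G)).subtype.comp (Subgroup.subtype _)).codRestrict
        (Subgroup.centralizer (T : Set G)) ?_), fun c => rfl⟩
      intro c
      show ((c : ↥(Subgroup.normalizer (T : Set G))) : G) ∈ Subgroup.centralizer (T : Set G)
      rw [Subgroup.mem_centralizer_iff]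
      intro t ht
      have := Subgroup.mem_centralizer_iff.mp c.2 ⟨t, Subgroup.le_normalizer ht⟩
        (Subgroup.mem_subgroupOf.mpr ht)
      exact congrArg Subtype.val this
    have hfi : Function.Injective f := by
      intro a b hab
      apply Subtype.ext; apply Subtype.ext
      rw [← hfv a, ← hfv b, hab]
    have hfr : f.range = ⊤ := by
      rw [eq_top_iff]
      intro c _
      have hcN : (c : G) ∈ Subgroup.normalizer (T : Set G) :=
        Subgroup.centralizer_le_normalizer _ c.2
      refine ⟨⟨⟨(c : G), hcN⟩, ?_⟩, Subtype.ext (hfv _)⟩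
      rw [Subgroup.mem_centralizer_iff]
      intro t ht
      exact Subtype.ext
        (Subgroup.mem_centralizer_iff.mp c.2 (t : G) (Subgroup.mem_subgroupOf.mp ht))
    refine isPConstrained_of_hom hC1 f hfi ⊥ IsPGroup.of_bot ?_ ?_ (Or.inl bot_le)
    · rw [hfr]; exact le_top
    · rw [hfr, Subgroup.normalizer_eq_top (⊥ : Subgroup ↥(Subgroup.centralizer (T : Set G)))]

end Cfsg.Agent.S3247
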