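import Cfsg.Statements.S3276
import Mathlib
import Cfsg.Agent.Lib.Helper2.InvFix

set_option autoImplicit false
open Cfsg

namespace Cfsg.Agent.S3276

/-- Let x and y be commuting, non-conjugate involutions of a finite group G, and suppose that for every involution u commuting with x, each conjugate of y that commutes with u also commutes with y. Then the normal closure of y is a proper, normal, elementary abelian 2-subgroup of G; and if y is the only involution of that normal closure commuting with x, it has order at most 4. -/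
theorem result {G : Type*} [Group G] [Finite G] (x y : G) (hx : orderOf x = 2) (hy : orderOf y = 2)
    (hxy : Commute x y) (hnc : ¬ IsConj x y)
    (hstar : ∀ u : G, orderOf u = 2 → Commute u x → ∀ g : G, Commute (g * y * g⁻¹) u → Commute (g * y * g⁻¹) y) :
    Subgroup.normalClosure ({y} : Set G) ≠ ⊤ ∧ Cfsg.IsElementaryAbelian 2 (Subgroup.normalClosure ({y} : Set G)) ∧
      ((∀ u ∈ Subgroup.normalClosure ({y} : Set G), orderOf u = 2 → Commute u x → u = y) →
        Nat.card ↥(Subgroup.normalClosure ({y} : Set G)) ≤ 4) := by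
  have hy2 : y * y = 1 := Cfsg.Agent.Lib.Helper2.invol_mul_self hy
  have hx2 : x * x = 1 := Cfsg.Agent.Lib.Helper2.invol_mul_self hx
  have hxinv : x⁻¹ = x := Cfsg.Agent.Lib.Helper2.invol_inv hx
  -- step 1: every conjugate of y commutes with y
  have h1 : ∀ g : G, Commute (g * y * g⁻¹) y := by
    intro g
    obtain ⟨z, hz⟩ : ∃ z, z = g * y * g⁻¹ := ⟨_, rfl⟩
    rw [← hz]
    have hzo : orderOf z = 2 := by
      rw [hz]
      have := (MulAut.conj g).orderOf_eq y
      rw [MulAut.conj_apply] at this
      rw [this, hy]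
    have hpos : 0 < orderOf (x * z) := orderOf_pos _
    rcases Nat.even_or_odd (orderOf (x * z)) with he | ho
    · obtain ⟨u, hu, hux, huz⟩ :=
        Cfsg.Agent.Lib.Helper2.exists_invol_comm_of_even hx hzo he hpos
      have := hstar u hu hux g (by rw [← hz]; exact huz.symm)
      rw [← hz] at this
      exact this
    · exfalso
      obtain ⟨w, -, hw⟩ := Cfsg.Agent.Lib.Helper2.exists_invol_conj_of_odd hx hzo ho
      apply hnc
      rw [isConj_iff]
      refine ⟨g⁻¹ * w, ?_⟩
      have : g⁻¹ * w * x * (g⁻¹ * w)⁻¹ = g⁻¹ * (w * x * w⁻¹) * g := by group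
      rw [this, hw, hz]
      group
  -- step 2: conjugates commute pairwise
  have h2 : ∀ a ∈ Group.conjugatesOfSet ({y} : Set G), ∀ b ∈ Group.conjugatesOfSet ({y} : Set G),
      a * b = b * a := by
    intro a ha b hb
    rw [Group.mem_conjugatesOfSet_iff] at ha hb
    obtain ⟨y1, hy1, ha⟩ := ha
    obtain ⟨y2, hy2', hb⟩ := hb
    rw [Set.mem_singleton_iff] at hy1 hy2'
    rw [hy1] at ha
    rw [hy2'] at hb
    rw [isConj_iff] at ha hb
    obtain ⟨g, rfl⟩ := ha
    obtain ⟨h, rfl⟩ := hb
    have := h1 (h⁻¹ * g)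
    have e1 : g * y * g⁻¹ * (h * y * h⁻¹) = h * ((h⁻¹ * g) * y * (h⁻¹ * g)⁻¹ * y) * h⁻¹ := by
      group
    have e2 : h * y * h⁻¹ * (g * y * g⁻¹) = h * (y * ((h⁻¹ * g) * y * (h⁻¹ * g)⁻¹)) * h⁻¹ := by
      group
    rw [e1, e2, this.eq]
  obtain ⟨N, hN⟩ : ∃ N : Subgroup G, N = Subgroup.normalClosure ({y} : Set G) := ⟨_, rfl⟩
  have hNn : N.Normal := by rw [hN]; exact Subgroup.normalClosure_normal
  have hNdef : N = Subgroup.closure (Group.conjugatesOfSet ({y} : Set G)) := hN
  have hyN : y ∈ N := by
    rw [hN]; exact Subgroup.subset_normalClosure (Set.mem_singleton y)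
  have hNcomm : ∀ a ∈ N, ∀ b ∈ N, a * b = b * a := by
    have hS1 : Group.conjugatesOfSet ({y} : Set G) ⊆
        Subgroup.centralizer (Group.conjugatesOfSet ({y} : Set G)) := by
      intro a ha
      rw [SetLike.mem_coe, Subgroup.mem_centralizer_iff]
      intro b hb
      exact h2 b hb a ha
    have hS2 : N ≤ Subgroup.centralizer (Group.conjugatesOfSet ({y} : Set G)) := by
      rw [hNdef, Subgroup.closure_le]; exact hS1
    have hS3 : Group.conjugatesOfSet ({y} : Set G) ⊆ Subgroup.centralizer (N : Set G) := by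
      intro a ha
      rw [SetLike.mem_coe, Subgroup.mem_centralizer_iff]
      intro b hb
      have := hS2 hb
      rw [Subgroup.mem_centralizer_iff] at this
      exact (this a ha).symm
    have hS4 : N ≤ Subgroup.centralizer (N : Set G) := by
      rw [hNdef, Subgroup.closure_le, ← hNdef]; exact hS3
    intro a ha b hb
    have := hS4 hb
    rw [Subgroup.mem_centralizer_iff] at this
    exact this a ha
  have hNexp : ∀ a ∈ N, a ^ 2 = 1 := by
    intro a ha
    have key : ∀ a ∈ Subgroup.closure (Group.conjugatesOfSet ({y} : Set G)), a ^ 2 = 1 := by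
      intro a ha
      induction ha using Subgroup.closure_induction with
      | mem a ha =>
        rw [Group.mem_conjugatesOfSet_iff] at ha
        obtain ⟨y1, hy1, ha⟩ := ha
        rw [Set.mem_singleton_iff] at hy1
        rw [hy1] at ha
        rw [isConj_iff] at ha
        obtain ⟨g, rfl⟩ := ha
        rw [pow_two]
        have : g * y * g⁻¹ * (g * y * g⁻¹) = g * (y * y) * g⁻¹ := by group
        rw [this, hy2]; group
      | one => simp
      | mul a b ha hb iha ihb =>
        have hc : Commute a b := hNcomm a (hNdef ▸ ha) b (hNdef ▸ hb)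
        rw [hc.mul_pow, iha, ihb, one_mul]
      | inv a ha iha =>
        rw [inv_pow, iha, inv_one]
    exact key a (hNdef ▸ ha)
  refine ⟨?_, ?_, ?_⟩
  · intro htop
    rw [← hN] at htop
    have hcomm : ∀ a b : G, a * b = b * a := by
      intro a b
      exact hNcomm a (htop ▸ Subgroup.mem_top a) b (htop ▸ Subgroup.mem_top b)
    have hle : N ≤ Subgroup.zpowers y := by
      rw [hNdef, Subgroup.closure_le]
      intro a ha
      rw [Group.mem_conjugatesOfSet_iff] at ha
      obtain ⟨y1, hy1, ha⟩ := ha
      rw [Set.mem_singleton_iff] at hy1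
      rw [hy1] at ha
      rw [isConj_iff] at ha
      obtain ⟨g, rfl⟩ := ha
      have : g * y * g⁻¹ = y := by rw [hcomm g y]; group
      rw [this]
      exact Subgroup.mem_zpowers y
    have hxz : x ∈ Subgroup.zpowers y := hle (htop ▸ Subgroup.mem_top x)
    obtain ⟨k, hk⟩ := Subgroup.mem_zpowers_iff.mp hxz
    rw [← zpow_mod_orderOf, hy] at hk
    have hk2 : k % ((2 : ℕ) : ℤ) = 0 ∨ k % ((2 : ℕ) : ℤ) = 1 := by omega
    rcases hk2 with h | h
    · rw [h, zpow_zero] at hk
      have : orderOf x = 1 := by rw [← hk]; exact orderOf_one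
      omega
    · rw [h, zpow_one] at hk
      apply hnc
      rw [hk]
  · rw [← hN]
    refine ⟨?_, hNexp⟩
    exact IsMulCommutative.of_comm (fun a b => Subtype.ext (hNcomm a.1 a.2 b.1 b.2))
  · intro hu
    rw [← hN] at hu ⊢
    -- elements of N commuting with x lie in {1, y}
    have hfix : ∀ n ∈ N, n * x = x * n → n = 1 ∨ n = y := by
      intro n hn hc
      by_cases h1' : n = 1
      · exact Or.inl h1'
      · right
        have ho : orderOf n = 2 := orderOf_eq_prime (hNexp n hn) h1'
        exact hu n hn ho hc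
    obtain ⟨φ, hφ⟩ : ∃ φ : ↥N →* ↥N, ∀ n : ↥N, ((φ n : ↥N) : G) = (n : G) * (x * (n : G) * x⁻¹) := by
      refine ⟨{ toFun := fun n => ⟨(n : G) * (x * (n : G) * x⁻¹),
                  N.mul_mem n.2 (hNn.conj_mem n.1 n.2 x)⟩
                map_one' := ?_
                map_mul' := ?_ }, fun n => rfl⟩
      · apply Subtype.ext
        show (1 : G) * (x * 1 * x⁻¹) = 1
        group
      · intro a b
        apply Subtype.ext
        show (a : G) * (b : G) * (x * ((a : G) * (b : G)) * x⁻¹)
          = (a : G) * (x * (a : G) * x⁻¹) * ((b : G) * (x * (b : G) * x⁻¹))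
        have hc := hNcomm (b : G) b.2 (x * (a : G) * x⁻¹) (hNn.conj_mem a.1 a.2 x)
        calc (a : G) * (b : G) * (x * ((a : G) * (b : G)) * x⁻¹)
            = (a : G) * ((b : G) * (x * (a : G) * x⁻¹)) * (x * (b : G) * x⁻¹) := by group
          _ = (a : G) * ((x * (a : G) * x⁻¹) * (b : G)) * (x * (b : G) * x⁻¹) := by rw [hc]
          _ = _ := by group
    obtain ⟨D, hD⟩ : ∃ D : Subgroup ↥N, D = Subgroup.zpowers (⟨y, hyN⟩ : ↥N) := ⟨_, rfl⟩
    have hDcard : Nat.card ↥D = 2 := by
      rw [hD, Nat.card_zpowers]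
      have : orderOf (⟨y, hyN⟩ : ↥N) = orderOf y := by
        rw [← Subgroup.orderOf_coe]
      rw [this, hy]
    have hmemD : ∀ n : ↥N, (n : G) * x = x * (n : G) → n ∈ D := by
      intro n hc
      rcases hfix n.1 n.2 hc with h | h
      · have : n = 1 := Subtype.ext h
        rw [this]; exact D.one_mem
      · have : n = ⟨y, hyN⟩ := Subtype.ext h
        rw [this, hD]; exact Subgroup.mem_zpowers _
    have hker : φ.ker ≤ D := by
      intro n hn
      rw [MonoidHom.mem_ker] at hn
      have h3 : (n : G) * (x * (n : G) * x⁻¹) = 1 := by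
        rw [← hφ n, hn]; rfl
      apply hmemD
      have hn2 : (n : G) * (n : G) = 1 := by
        have := hNexp n.1 n.2
        rwa [pow_two] at this
      have h4 : x * (n : G) * x⁻¹ = (n : G) := by
        have : x * (n : G) * x⁻¹ = (n : G)⁻¹ := eq_inv_of_mul_eq_one_right h3
        rw [this]
        exact inv_eq_of_mul_eq_one_left hn2
      calc (n : G) * x = (x * (n : G) * x⁻¹) * x := by rw [h4]
        _ = x * (n : G) := by group
    have hrange : φ.range ≤ D := by
      rintro _ ⟨n, rfl⟩
      apply hmemD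
      rw [hφ n, hxinv]
      have hc := hNcomm (n : G) n.2 (x * (n : G) * x) (by
        have := hNn.conj_mem n.1 n.2 x
        rwa [hxinv] at this)
      calc (n : G) * (x * (n : G) * x) * x = (n : G) * x * (n : G) * (x * x) := by group
        _ = (n : G) * x * (n : G) := by rw [hx2, mul_one]
        _ = x * (x * (n : G) * x * (n : G)) := by
            rw [← mul_assoc, ← mul_assoc, ← mul_assoc, hx2, one_mul]
        _ = x * ((n : G) * (x * (n : G) * x)) := by rw [hc]
    have hcard : Nat.card ↥N = Nat.card ↥φ.range * Nat.card ↥φ.ker := by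
      rw [← Nat.card_congr (QuotientGroup.quotientKerEquivRange φ).toEquiv]
      exact Subgroup.card_eq_card_quotient_mul_card_subgroup φ.ker
    have hk : Nat.card ↥φ.ker ≤ 2 := hDcard ▸ Subgroup.card_le_of_le hker
    have hr : Nat.card ↥φ.range ≤ 2 := hDcard ▸ Subgroup.card_le_of_le hrange
    rw [hcard]
    calc Nat.card ↥φ.range * Nat.card ↥φ.ker ≤ 2 * 2 := Nat.mul_le_mul hr hk
      _ = 4 := by norm_num

end Cfsg.Agent.S3276
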