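import Cfsg.Statements.S3305
import Mathlib

set_option autoImplicit false
open Cfsg

namespace Cfsg.Agent.S3305

open scoped Pointwise

/-- If any two distinct Sylow 2-subgroups of the finite group G intersect in a cyclic group, then the same holds in every quotient group G/H, H a normal subgroup of G. -/
theorem result {G : Type*} [Group G] [Finite G]
    (hC : ∀ S T : Sylow 2 G, S ≠ T → IsCyclic ↥((S : Subgroup G) ⊓ (T : Subgroup G))) (H : Subgroup G) [H.Normal] :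
    ∀ S T : Sylow 2 (G ⧸ H), S ≠ T → IsCyclic ↥((S : Subgroup (G ⧸ H)) ⊓ (T : Subgroup (G ⧸ H))) := by
  intro S' T' hne
  set π := QuotientGroup.mk' H with hπ
  have hπs : Function.Surjective π := QuotientGroup.mk'_surjective H
  obtain ⟨S₀, hS₀⟩ := Sylow.mapSurjective_surjective hπs 2 S'
  obtain ⟨T₀, hT₀⟩ := Sylow.mapSurjective_surjective hπs 2 T'
  have hS₀' : (S₀ : Subgroup G).map π = (S' : Subgroup (G ⧸ H)) := by rw [← hS₀]; rfl
  have hT₀' : (T₀ : Subgroup G).map π = (T' : Subgroup (G ⧸ H)) := by rw [← hT₀]; rfl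
  set D' : Subgroup (G ⧸ H) := (S' : Subgroup (G ⧸ H)) ⊓ (T' : Subgroup (G ⧸ H)) with hD'
  set Q : Subgroup G := (S₀ : Subgroup G) ⊓ D'.comap π with hQ
  have hQmap : Q.map π = D' := by
    apply le_antisymm
    · rintro _ ⟨q, hq, rfl⟩
      exact hq.2
    · intro d hd
      have hdS : d ∈ (S₀ : Subgroup G).map π := by rw [hS₀']; exact hd.1
      obtain ⟨s, hs, rfl⟩ := hdS
      exact ⟨s, ⟨hs, hd⟩, rfl⟩
  set K : Subgroup G := (T' : Subgroup (G ⧸ H)).comap π with hK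
  have hT₀K : (T₀ : Subgroup G) ≤ K := by
    intro t ht
    show π t ∈ (T' : Subgroup (G ⧸ H))
    rw [← hT₀']
    exact Subgroup.mem_map_of_mem _ ht
  have hQK : Q ≤ K := fun q hq => (hq.2 : π q ∈ D').2
  have hQ2 : IsPGroup 2 Q := S₀.2.to_le inf_le_left
  have hQp : IsPGroup 2 (Q.subgroupOf K) := hQ2.comap_subtype
  obtain ⟨R, hR⟩ := hQp.exists_le_sylow
  obtain ⟨k, hk⟩ := MulAction.exists_smul_eq K (T₀.subtype hT₀K) R
  rw [Sylow.smul_subtype] at hk
  set T₁ : Sylow 2 G := k • T₀ with hT₁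
  have hQT₁ : Q ≤ (T₁ : Subgroup G) := by
    intro q hq
    have h1 : (⟨q, hQK hq⟩ : K) ∈ Q.subgroupOf K := by
      rw [Subgroup.mem_subgroupOf]; exact hq
    have h2 := hR h1
    rw [← hk, Sylow.coe_subtype, Subgroup.mem_subgroupOf] at h2
    exact h2
  have hT₁map : (T₁ : Subgroup G).map π ≤ (T' : Subgroup (G ⧸ H)) := by
    rintro _ ⟨x, hx, rfl⟩
    have hx' : x ∈ MulAut.conj (k : G) • (T₀ : Subgroup G) := hx
    rw [Subgroup.mem_smul_pointwise_iff_exists] at hx'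
    obtain ⟨t, ht, rfl⟩ := hx'
    have h1 : π t ∈ (T' : Subgroup (G ⧸ H)) := hT₀K ht
    have h2 : π (k : G) ∈ (T' : Subgroup (G ⧸ H)) := k.2
    have h3 : π (MulAut.conj (k : G) • t) = π (k : G) * π t * (π (k : G))⁻¹ := by
      simp [MulAut.smul_def]
    rw [h3]
    exact Subgroup.mul_mem _ (Subgroup.mul_mem _ h2 h1) (Subgroup.inv_mem _ h2)
  have hT₁eq : (T' : Subgroup (G ⧸ H)) = (T₁ : Subgroup G).map π :=
    (T₁.mapSurjective hπs).is_maximal' T'.isPGroup' hT₁map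
  have hne' : S₀ ≠ T₁ := by
    intro h
    apply hne
    apply Sylow.ext
    rw [← hS₀', hT₁eq, h]
  have hcyc := hC S₀ T₁ hne'
  have hQI : Q ≤ (S₀ : Subgroup G) ⊓ (T₁ : Subgroup G) := le_inf inf_le_left hQT₁
  have hQc : IsCyclic ↥Q := by
    have : IsCyclic ↥(Q.subgroupOf ((S₀ : Subgroup G) ⊓ (T₁ : Subgroup G))) := inferInstance
    exact isCyclic_of_surjective (Subgroup.subgroupOfEquivOfLe hQI)
      (Subgroup.subgroupOfEquivOfLe hQI).surjective
  have hmc : IsCyclic ↥(Q.map π) :=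
    isCyclic_of_surjective (π.subgroupMap Q) (π.subgroupMap_surjective Q)
  rw [hQmap] at hmc
  exact hmc

end Cfsg.Agent.S3305
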