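import Cfsg.Statements.S3349
import Mathlib
import Cfsg.Agent.Lib.Helper5.Basic

set_option autoImplicit false
open Cfsg

namespace Cfsg.Agent.S3349

open scoped commutatorElement

/-- Let Q be a finite extraspecial p-group and α an automorphism of Q fixing every element of some maximal abelian subgroup of Q. Then the order of α is a power of p. -/
theorem result {Q : Type*} [Group Q] [Finite Q]
    (p : ℕ) [Fact p.Prime] (hQ : Cfsg.IsExtraspecial p Q) (α : MulAut Q)
    (A : Subgroup Q) (hA : IsMulCommutative A) (hmax : ∀ B : Subgroup Q, A ≤ B → IsMulCommutative B → B = A)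
    (hfix : ∀ a ∈ A, α a = a) :
    ∃ k : ℕ, orderOf α = p ^ k := by
  obtain ⟨⟨hp, -, hcomm⟩, -⟩ := hQ
  have hAc : ∀ x ∈ A, ∀ y ∈ A, x * y = y * x := fun x hx y hy => setLike_mul_comm hx hy
  have hCA : Subgroup.centralizer (A : Set Q) ≤ A := by
    apply Cfsg.Agent.Lib.Helper5.centralizer_le_of_max_abelian A hAc
    intro B hAB hB
    exact hmax B hAB (IsMulCommutative.of_setLike_mul_comm hB)
  have hZA : Subgroup.center Q ≤ A := by
    intro z hz
    apply hCA
    rw [Subgroup.mem_centralizer_iff]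
    intro a _
    exact (Subgroup.mem_center_iff.mp hz a)
  -- A is normal
  have hAn : ∀ q : Q, ∀ a ∈ A, q * a * q⁻¹ ∈ A := by
    intro q a ha
    have h1 : ⁅q, a⁆ ∈ commutator Q := by
      rw [commutator_def]
      exact Subgroup.commutator_mem_commutator (Subgroup.mem_top q) (Subgroup.mem_top a)
    rw [hcomm] at h1
    have h2 : q * a * q⁻¹ = ⁅q, a⁆ * a := by
      rw [commutatorElement_def]; group
    rw [h2]
    exact A.mul_mem (hZA h1) ha
  -- q⁻¹ * α q ∈ A
  have hc : ∀ q : Q, q⁻¹ * α q ∈ A := by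
    intro q
    apply hCA
    rw [Subgroup.mem_centralizer_iff]
    intro a ha
    have h1 := hfix (q * a * q⁻¹) (hAn q a ha)
    rw [map_mul, map_mul, map_inv, hfix a ha] at h1
    -- h1 : α q * a * (α q)⁻¹ = q * a * q⁻¹
    calc a * (q⁻¹ * α q) = q⁻¹ * (q * a * q⁻¹) * α q := by group
      _ = q⁻¹ * (α q * a * (α q)⁻¹) * α q := by rw [h1]
      _ = q⁻¹ * α q * a := by group
  have hpow : ∀ (k : ℕ) (q : Q), (α ^ k) q = q * (q⁻¹ * α q) ^ k := by
    intro k
    induction k with
    | zero => intro q; simp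
    | succ k ih =>
      intro q
      rw [pow_succ', MulAut.mul_apply, ih q, map_mul, map_pow, hfix _ (hc q), pow_succ',
        ← mul_assoc, mul_inv_cancel_left]
  have hα : α ^ Nat.card Q = 1 := by
    ext q
    rw [hpow, pow_card_eq_one', mul_one]
    rfl
  have hdvd := orderOf_dvd_of_pow_eq_one hα
  obtain ⟨n, hn⟩ := IsPGroup.iff_card.mp hp
  rw [hn] at hdvd
  obtain ⟨k, -, hk⟩ := (Nat.dvd_prime_pow (Fact.out : p.Prime)).mp hdvd
  exact ⟨k, hk⟩

end Cfsg.Agent.S3349
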