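import Cfsg.Statements.S3495
import Mathlib
-- import your own Cfsg.Agent.* helpers here

set_option autoImplicit false
open Cfsg

namespace Cfsg.Agent.S3495



/-- Let a finite group G act faithfully and primitively on a finite set Ω with non-trivial point stabilizers, each acting primitively on every one of its orbits (an extremely primitive group), and suppose G has an elementary abelian normal p-subgroup N acting regularly on Ω (affine type). Then every non-trivial subgroup M of a point stabilizer G_α that is normal in G_α has the same orbits on Ω as G_α, and normalizes no subgroup of N other than 1 and N. -/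
theorem result {G : Type*} [Group G] [Finite G] {Ω : Type*} [Fintype Ω] [MulAction G Ω] [FaithfulSMul G Ω] (hprim : MulAction.IsPreprimitive G Ω) (hH : ∀ α : Ω, MulAction.stabilizer G α ≠ ⊥) (hep : ∀ (α : Ω) (ω : Ω), MulAction.IsPreprimitive (MulAction.stabilizer G α) (MulAction.orbit (MulAction.stabilizer G α) ω))
    (N : Subgroup G) [N.Normal] (hNc : IsMulCommutative N) (p : ℕ) (hp : p.Prime) (hNp : ∀ n ∈ N, n ^ p = 1)
    (hNtr : MulAction.IsPretransitive N Ω) (hNreg : ∀ ω : Ω, MulAction.stabilizer N ω = ⊥) (α : Ω) (M : Subgroup G) (hM : M ≠ ⊥) (hMle : M ≤ MulAction.stabilizer G α)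
    (hMn : MulAction.stabilizer G α ≤ Subgroup.normalizer (M : Set G)) :
    (∀ ω : Ω, MulAction.orbit M ω = MulAction.orbit (MulAction.stabilizer G α) ω) ∧
    (∀ L : Subgroup G, L ≤ N → M ≤ Subgroup.normalizer (L : Set G) → L = ⊥ ∨ L = N) := by
  classical
  set S := MulAction.stabilizer G α with hS
  have F1 : ∀ n ∈ N, ∀ ω : Ω, n • ω = ω → n = 1 := by
    intro n hn ω h
    have h1 : (⟨n, hn⟩ : N) ∈ MulAction.stabilizer N ω := h
    rw [hNreg ω, Subgroup.mem_bot] at h1
    exact congrArg Subtype.val h1
  have F2 : ∀ ω ω' : Ω, ∃ n ∈ N, n • ω = ω' := by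
    intro ω ω'
    obtain ⟨n, hn⟩ := MulAction.exists_smul_eq N ω ω'
    exact ⟨n, n.2, hn⟩
  have F3 : ∀ a ∈ N, ∀ b ∈ N, a * b = b * a := by
    intro a ha b hb
    have h1 := hNc.is_comm.comm ⟨a, ha⟩ ⟨b, hb⟩
    exact congrArg Subtype.val h1
  have Funiq : ∀ a ∈ N, ∀ b ∈ N, a • α = b • α → a = b := by
    intro a ha b hb h
    have h1 := F1 (b⁻¹ * a) (N.mul_mem (N.inv_mem hb) ha) α (by rw [mul_smul, h, inv_smul_smul])
    exact (inv_mul_eq_one.mp h1).symm
  have hnontriv : Nontrivial Ω := by
    by_contra hcon
    rw [not_nontrivial_iff_subsingleton] at hcon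
    apply hH α
    rw [eq_bot_iff]
    intro g _
    rw [Subgroup.mem_bot]
    apply FaithfulSMul.eq_of_smul_eq_smul (α := Ω)
    intro x
    exact Subsingleton.elim _ _
  haveI : MulAction.IsPretransitive G Ω := hprim.toIsPretransitive
  have hmax : IsCoatom S := (MulAction.isCoatom_stabilizer_iff_preprimitive G α).mpr hprim
  have K : ∀ L : Subgroup G, L ≤ N → S ≤ Subgroup.normalizer (L : Set G) → L = ⊥ ∨ L = N := by
    intro L hLN hSL
    have hLnorm : L.Normal := by
      rw [← Subgroup.normalizer_eq_top_iff, eq_top_iff]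
      intro g _
      obtain ⟨n, hn, hng⟩ := F2 α (g • α)
      have h1 : n⁻¹ * g ∈ S := by
        show (n⁻¹ * g) • α = α
        rw [mul_smul, ← hng, inv_smul_smul]
      have h2 : n ∈ Subgroup.normalizer (L : Set G) := by
        apply Subgroup.mem_normalizer_fintype
        intro l hl
        have h3 : n * l * n⁻¹ = l := by rw [F3 n hn l (hLN hl), mul_inv_cancel_right]
        rw [h3]
        exact hl
      have h4 : g = n * (n⁻¹ * g) := by group
      rw [h4]
      exact Subgroup.mul_mem _ h2 (hSL h1)
    rcases eq_or_lt_of_le (le_sup_left : S ≤ S ⊔ L) with h | h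
    · left
      rw [eq_bot_iff]
      intro l hl
      have hlS : l ∈ S := by rw [h]; exact (le_sup_right : L ≤ S ⊔ L) hl
      exact Subgroup.mem_bot.mpr (F1 l (hLN hl) α hlS)
    · right
      have htop := hmax.2 _ h
      apply le_antisymm hLN
      intro n hn
      have hmem : n ∈ S ⊔ L := by rw [htop]; exact Subgroup.mem_top n
      rw [Subgroup.mem_sup_of_normal_right] at hmem
      obtain ⟨s, hs, l, hl, hsl⟩ := hmem
      have hsN : s ∈ N := by
        have h5 : s = n * l⁻¹ := by rw [← hsl]; group
        rw [h5]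
        exact N.mul_mem hn (N.inv_mem (hLN hl))
      have hs1 : s = 1 := F1 s hsN α hs
      rw [← hsl, hs1, one_mul]
      exact hl
  -- centralizer of M in N is trivial
  have F4 : ∀ n ∈ N, (∀ m ∈ M, m * n = n * m) → n = 1 := by
    have hL := K (N ⊓ Subgroup.centralizer (M : Set G)) inf_le_left (by
      intro h hh
      apply Subgroup.mem_normalizer_fintype
      intro l hl
      have hlN : l ∈ N := hl.1
      have hlC : l ∈ Subgroup.centralizer (M : Set G) := hl.2
      refine ⟨?_, ?_⟩
      · exact (inferInstance : N.Normal).conj_mem l hlN h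
      · show h * l * h⁻¹ ∈ Subgroup.centralizer (M : Set G)
        rw [Subgroup.mem_centralizer_iff]
        intro m hm
        have hm' : h⁻¹ * m * h ∈ M := by
          have h5 := (Subgroup.mem_normalizer_iff.mp (hMn (S.inv_mem hh)) m).mp hm
          simpa using h5
        have h6 := (Subgroup.mem_centralizer_iff.mp hlC) _ hm'
        calc m * (h * l * h⁻¹) = h * ((h⁻¹ * m * h) * l) * h⁻¹ := by group
          _ = h * (l * (h⁻¹ * m * h)) * h⁻¹ := by rw [h6]
          _ = h * l * h⁻¹ * m := by group)
    rcases hL with hL | hL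
    · intro n hn hcomm
      have h5 : n ∈ N ⊓ Subgroup.centralizer (M : Set G) :=
        ⟨hn, Subgroup.mem_centralizer_iff.mpr hcomm⟩
      rw [hL] at h5
      exact Subgroup.mem_bot.mp h5
    · exfalso
      apply hM
      rw [eq_bot_iff]
      intro m hm
      rw [Subgroup.mem_bot]
      apply FaithfulSMul.eq_of_smul_eq_smul (α := Ω)
      intro ω
      obtain ⟨n, hn, hnω⟩ := F2 α ω
      have hnC : n ∈ Subgroup.centralizer (M : Set G) := by
        have h5 : n ∈ N ⊓ Subgroup.centralizer (M : Set G) := by rw [hL]; exact hn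
        exact h5.2
      have h6 := (Subgroup.mem_centralizer_iff.mp hnC) m hm
      have hmα : m • α = α := hMle hm
      rw [one_smul, ← hnω, ← mul_smul, h6, mul_smul, hmα]
  have F5 : ∀ ω : Ω, (∀ m ∈ M, m • ω = ω) → ω = α := by
    intro ω hω
    obtain ⟨n, hn, hnω⟩ := F2 α ω
    have hn1 : n = 1 := by
      apply F4 n hn
      intro m hm
      have hmα : m • α = α := hMle hm
      have h5 : m * n * m⁻¹ = n := by
        apply Funiq _ ((inferInstance : N.Normal).conj_mem n hn m) _ hn
        have hmα' : m⁻¹ • α = α := by rw [inv_smul_eq_iff, hmα]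
        rw [mul_smul, mul_smul, hmα', hnω, hω m hm]
      calc m * n = (m * n * m⁻¹) * m := by group
        _ = n * m := by rw [h5]
    rw [← hnω, hn1, one_smul]
  have part1 : ∀ ω : Ω, MulAction.orbit M ω = MulAction.orbit S ω := by
    intro ω
    apply Set.Subset.antisymm
    · rintro x ⟨m, rfl⟩
      exact ⟨⟨(m : G), hMle m.2⟩, rfl⟩
    · by_cases hωα : ω = α
      · rintro x ⟨s, rfl⟩
        have h5 : (s : G) • ω = ω := by rw [hωα]; exact s.2
        show (s : G) • ω ∈ MulAction.orbit M ω
        rw [h5]
        exact MulAction.mem_orbit_self _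
      · haveI : (M.subgroupOf S).Normal := Subgroup.normal_subgroupOf_of_le_normalizer hMn
        haveI := hep α ω
        have hω0 : ω ∈ MulAction.orbit S ω := MulAction.mem_orbit_self _
        have hblock : MulAction.IsBlock S
            (MulAction.orbit (M.subgroupOf S) (⟨ω, hω0⟩ : MulAction.orbit S ω)) :=
          MulAction.IsBlock.orbit_of_normal _
        have htriv := MulAction.IsPreprimitive.isTrivialBlock_of_isBlock hblock
        rcases htriv with hsub | huniv
        · exfalso
          apply hωα
          apply F5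
          intro m hm
          have hmem : ((⟨⟨m, hMle hm⟩, hm⟩ : M.subgroupOf S) • (⟨ω, hω0⟩ : MulAction.orbit S ω)) ∈
              MulAction.orbit (M.subgroupOf S) (⟨ω, hω0⟩ : MulAction.orbit S ω) :=
            MulAction.mem_orbit _ _
          have h5 := hsub hmem (MulAction.mem_orbit_self _)
          exact congrArg Subtype.val h5
        · intro x hx
          have hmem : (⟨x, hx⟩ : MulAction.orbit S ω) ∈
              MulAction.orbit (M.subgroupOf S) (⟨ω, hω0⟩ : MulAction.orbit S ω) := by
            rw [huniv]; exact Set.mem_univ _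
          obtain ⟨m, hm⟩ := hmem
          have h5 := congrArg Subtype.val hm
          exact ⟨⟨((m : S) : G), m.2⟩, h5⟩
  refine ⟨part1, ?_⟩
  intro L hLN hML
  apply K L hLN
  intro h hh
  apply Subgroup.mem_normalizer_fintype
  intro l hl
  have hmem : h • l • α ∈ MulAction.orbit M (l • α) := by
    rw [part1]
    exact ⟨⟨h, hh⟩, rfl⟩
  obtain ⟨m, hm⟩ := hmem
  have hmα : (m : G) • α = α := hMle m.2
  have hmα' : (m : G)⁻¹ • α = α := by rw [inv_smul_eq_iff, hmα]
  have hhα : h • α = α := hh
  have hhα' : h⁻¹ • α = α := by rw [inv_smul_eq_iff, hhα]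
  have hmL : (m : G) * l * (m : G)⁻¹ ∈ L :=
    (Subgroup.mem_normalizer_iff.mp (hML m.2) l).mp hl
  have heq : h * l * h⁻¹ = (m : G) * l * (m : G)⁻¹ := by
    apply Funiq _ ((inferInstance : N.Normal).conj_mem l (hLN hl) h) _
      ((inferInstance : N.Normal).conj_mem l (hLN hl) (m : G))
    rw [mul_smul, mul_smul, hhα', mul_smul, mul_smul, hmα']
    exact hm.symm
  show h * l * h⁻¹ ∈ L
  rw [heq]
  exact hmL

end Cfsg.Agent.S3495
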