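import Cfsg.Statements.S3498
import Mathlib
import Cfsg.Agent.Lib.Helper6.Basic
import Cfsg.Agent.Lib.Helper6.Maximal
import Cfsg.Agent.Lib.Helper6.Index
-- import your own Cfsg.Agent.* helpers here

set_option autoImplicit false
open Cfsg

namespace Cfsg.Agent.S3498

open Cfsg.Agent.Lib.Helper6


/-- A maximal subgroup of a finite almost simple group does not have prime order. Here G is almost simple in the sense that it has a non-abelian simple normal subgroup T with trivial centralizer. -/
theorem result {G : Type*} [Group G] [Finite G] (T : Subgroup G) [T.Normal] (hT : IsSimpleGroup T) (hTc : ¬ IsMulCommutative T)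
    (hC : Subgroup.centralizer (T : Set G) = ⊥) (H : Subgroup G) (hmax : IsCoatom H) : ¬ (Nat.card H).Prime := by
  intro hq
  set q := Nat.card H with hqdef
  have hqf : Fact q.Prime := ⟨hq⟩
  have hHpg : IsPGroup q H := IsPGroup.of_card (n := 1) (by rw [pow_one])
  -- T is not a p-group
  have hTnp : ∀ (r : ℕ) [Fact r.Prime], ¬ IsPGroup r T := by
    intro r _ hr
    apply hTc
    rw [isMulCommutative_iff]
    exact comm_of_simple_pgroup hr
  have hGnp : ∀ (r : ℕ) [Fact r.Prime], ¬ IsPGroup r G := by
    intro r _ hr
    exact hTnp r (hr.to_subgroup T)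
  -- H is a Sylow q-subgroup
  obtain ⟨Q, hQ⟩ := hHpg.exists_le_sylow
  have hQH : (Q : Subgroup G) = H := by
    by_contra hne
    have hlt : H < (Q : Subgroup G) := lt_of_le_of_ne hQ (fun h => hne h.symm)
    have htop := hmax.2 _ hlt
    apply hGnp q
    have h1 : IsPGroup q (Q : Subgroup G) := Q.isPGroup'
    rw [htop] at h1
    exact h1.of_equiv Subgroup.topEquiv
  have hH1 : H ≠ ⊥ := by
    intro h
    have h1 : Nat.card H = 1 := by rw [h]; exact Subgroup.card_bot
    rw [← hqdef] at h1
    exact hq.one_lt.ne' h1
  -- normalizer
  have hN : Subgroup.normalizer (H : Set G) = H ∨ Subgroup.normalizer (H : Set G) = ⊤ := by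
    rcases eq_or_lt_of_le (Subgroup.le_normalizer (H := H)) with h | h
    · exact Or.inl h.symm
    · exact Or.inr (hmax.2 _ h)
  rcases hN with hN | hN
  · -- self-normalizing: Burnside
    have hP : Subgroup.normalizer ((Q : Subgroup G) : Set G) ≤ Subgroup.centralizer ((Q : Subgroup G) : Set G) := by
      rw [hQH, hN]
      have hcyc : IsCyclic H := isCyclic_of_prime_card (p := q) rfl
      intro x hx
      rw [Subgroup.mem_centralizer_iff]
      intro y hy
      have hcomm := isMulCommutative_iff.mp hcyc.isMulCommutative (⟨x, hx⟩ : H) ⟨y, hy⟩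
      have := congrArg Subtype.val hcomm
      exact this.symm
    have hcompl := MonoidHom.ker_transferSylow_isComplement' Q hP
    set K := (MonoidHom.transferSylow Q hP).ker with hK
    have hKn : K.Normal := MonoidHom.normal_ker _
    have hcardKH : Nat.card K * Nat.card H = Nat.card G := by
      have := hcompl.card_mul_card
      rw [hQH] at this
      exact this
    have hqK : ¬ q ∣ Nat.card K := by
      intro hd
      have h1 := Q.not_dvd_index
      apply h1
      have h2 := Subgroup.card_mul_index H
      rw [← hcardKH, mul_comm (Nat.card K)] at h2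
      have h3 : H.index = Nat.card K := Nat.eq_of_mul_eq_mul_left hq.pos h2
      rw [hQH, h3]
      exact hd
    have hKT : ((K ⊓ T).subgroupOf T).Normal := by
      have : (K ⊓ T).Normal := Subgroup.normal_inf_normal K T
      infer_instance
    rcases hT.eq_bot_or_eq_top_of_normal _ hKT with h | h
    · -- K ∩ T = 1, so K centralizes T
      rw [Subgroup.subgroupOf_eq_bot, disjoint_iff, inf_assoc, inf_idem] at h
      have hdis : Disjoint K T := disjoint_iff.mpr h
      have hKC : K ≤ Subgroup.centralizer (T : Set G) := by
        intro k hk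
        rw [Subgroup.mem_centralizer_iff]
        intro t ht
        exact (Subgroup.commute_of_normal_of_disjoint K T hKn inferInstance hdis k t hk ht).eq.symm
      rw [hC] at hKC
      have hK1 : Nat.card K = 1 := by
        rw [le_bot_iff.mp hKC]
        exact Subgroup.card_bot
      rw [hK1, one_mul] at hcardKH
      exact hmax.1 ((Subgroup.card_eq_iff_eq_top H).mp hcardKH)
    · -- T ≤ K
      rw [Subgroup.subgroupOf_eq_top] at h
      have hTK : T ≤ K := h.trans inf_le_left
      have hqT : ¬ q ∣ Nat.card T := fun hd => hqK (hd.trans (Subgroup.card_dvd_of_le hTK))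
      have hTnt : Nontrivial T := hT.toNontrivial
      have hT1 : Nat.card T ≠ 1 := by
        intro h1
        have := (Nat.card_eq_one_iff_unique.mp h1).1
        exact not_subsingleton T this
      obtain ⟨p, hp, hpT⟩ := Nat.exists_prime_and_dvd hT1
      have hpf : Fact p.Prime := ⟨hp⟩
      have hpq : p ≠ q := by
        rintro rfl
        exact hqT hpT
      obtain ⟨P⟩ := (inferInstance : Nonempty (Sylow p T))
      set PG := (P : Subgroup T).map T.subtype with hPG
      have hfr : Subgroup.normalizer (PG : Set G) ⊔ T = ⊤ := Sylow.normalizer_sup_eq_top P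
      have hPGpg : IsPGroup p PG := P.isPGroup'.map T.subtype
      have hPGne : PG ≠ ⊥ := by
        intro hb
        have h1 : Nat.card PG = 1 := by rw [hb]; exact Subgroup.card_bot
        rw [hPG, Subgroup.card_map_of_injective T.subtype_injective] at h1
        have h2 := P.card_eq_multiplicity
        rw [h1] at h2
        have h3 : 0 < (Nat.card T).factorization p :=
          hp.factorization_pos_of_dvd Nat.card_pos.ne' hpT
        have h4 : 1 < p ^ (Nat.card T).factorization p := Nat.one_lt_pow h3.ne' hp.one_lt
        omega
      -- q divides |N(PG)|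
      have hqN : q ∣ Nat.card (Subgroup.normalizer (PG : Set G)) := by
        have h1 := card_mul_relIndex_of_le (le_sup_left : Subgroup.normalizer (PG : Set G) ≤
          Subgroup.normalizer (PG : Set G) ⊔ T)
        rw [hfr, Subgroup.card_top] at h1
        have h2 := relIndex_sup_normal_dvd (Subgroup.normalizer (PG : Set G)) T
        rw [hfr] at h2
        have h3 : q ∣ Nat.card G := by
          rw [← hcardKH]
          exact Dvd.intro_left _ rfl
        rw [← h1] at h3
        rcases (Nat.Prime.dvd_mul hq).mp h3 with h4 | h4
        · exact h4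
        · exact absurd (h4.trans h2) hqT
      obtain ⟨y', hy'⟩ := exists_prime_orderOf_dvd_card' q hqN
      set y := (y' : G) with hy
      have hyo : orderOf y = q := by rw [hy, Subgroup.orderOf_coe, hy']
      have hyN : y ∈ Subgroup.normalizer (PG : Set G) := y'.2
      -- zpowers y is a conjugate of H
      have hZpg : IsPGroup q (Subgroup.zpowers y) :=
        IsPGroup.of_card (n := 1) (by rw [Nat.card_zpowers, hyo, pow_one])
      obtain ⟨Q', hQ'⟩ := hZpg.exists_le_sylow
      obtain ⟨g, hg⟩ := MulAction.exists_smul_eq G Q Q'
      have hQ'eq : (Q' : Subgroup G) = H.map (MulAut.conj g).toMonoidHom := by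
        rw [← hg, ← hQH]
        rfl
      have hZeq : Subgroup.zpowers y = H.map (MulAut.conj g).toMonoidHom := by
        rw [← hQ'eq]
        apply Subgroup.eq_of_le_of_card_ge hQ'
        rw [hQ'eq, card_map_conj, Nat.card_zpowers, hyo]
      have hZmax : IsCoatom (Subgroup.zpowers y) := by
        rw [hZeq]
        exact isCoatom_map_conj H g hmax
      have hZle : Subgroup.zpowers y ≤ Subgroup.normalizer (PG : Set G) :=
        Subgroup.zpowers_le.mpr hyN
      have hdisj : Disjoint PG (Subgroup.zpowers y) :=
        IsPGroup.disjoint_of_ne p q hpq _ _ hPGpg hZpg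
      have hlt : Subgroup.zpowers y < PG ⊔ Subgroup.zpowers y := by
        apply lt_of_le_of_ne le_sup_right
        intro heq
        have h1 : PG ≤ Subgroup.zpowers y := by
          rw [heq]
          exact le_sup_left
        exact hPGne (le_bot_iff.mp (hdisj le_rfl h1))
      have htop := hZmax.2 _ hlt
      have hdvd := card_sup_dvd_mul PG (Subgroup.zpowers y) hZle
      rw [htop, Subgroup.card_top, Nat.card_zpowers, hyo] at hdvd
      obtain ⟨k, hk⟩ := hPGpg.exists_card_eq
      rw [hk] at hdvd
      have hTd : Nat.card T ∣ p ^ k * q := (Subgroup.card_subgroup_dvd_card T).trans hdvd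
      have hcop : Nat.Coprime (Nat.card T) q :=
        (Nat.Coprime.symm ((Nat.Prime.coprime_iff_not_dvd hq).mpr hqT))
      have hTd' : Nat.card T ∣ p ^ k := hcop.dvd_of_dvd_mul_right hTd
      exact hTnp p (IsPGroup.of_card_dvd_pow hTd')
  · -- H normal
    have hHn : H.Normal := Subgroup.normalizer_eq_top_iff.mp hN
    by_cases hdis : Disjoint H T
    · have hHC : H ≤ Subgroup.centralizer (T : Set G) := by
        intro k hk
        rw [Subgroup.mem_centralizer_iff]
        intro t ht
        exact (Subgroup.commute_of_normal_of_disjoint H T hHn inferInstance hdis k t hk ht).eq.symm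
      rw [hC] at hHC
      exact hH1 (le_bot_iff.mp hHC)
    · have hHT : H ≤ T := by
        have h1 : Nat.card (H ⊓ T : Subgroup G) ∣ q := Subgroup.card_dvd_of_le inf_le_left
        rcases (Nat.dvd_prime hq).mp h1 with h2 | h2
        · exfalso
          apply hdis
          rw [disjoint_iff]
          exact Subgroup.card_eq_one.mp h2
        · have h3 : H ⊓ T = H := Subgroup.eq_of_le_of_card_ge inf_le_left (by rw [h2])
          rw [← h3]
          exact inf_le_right
      have hHTn : (H.subgroupOf T).Normal := inferInstance
      rcases hT.eq_bot_or_eq_top_of_normal _ hHTn with h | h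
      · rw [Subgroup.subgroupOf_eq_bot] at h
        exact hdis h
      · rw [Subgroup.subgroupOf_eq_top] at h
        have hTH : T = H := le_antisymm h hHT
        apply hTc
        have hcyc : IsCyclic T := isCyclic_of_prime_card (p := q) (by rw [hTH])
        exact hcyc.isMulCommutative

end Cfsg.Agent.S3498
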