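import Cfsg.Statements.S3504
import Mathlib
-- import your own Cfsg.Agent.* helpers here

set_option autoImplicit false
open Cfsg

namespace Cfsg.Agent.S3504

theorem exists_fpf (n p : ℕ) (hp : p.Prime) (hpn : p ∣ n) (hn : 0 < n) :
    ∃ g : Equiv.Perm (Fin n), orderOf g = p ∧ ∀ i : Fin n, g i ≠ i := by
  have hnp : 0 < n / p := Nat.div_pos (Nat.le_of_dvd hn hpn) hp.pos
  obtain ⟨g, hg⟩ := (Equiv.Perm.exists_with_cycleType_iff (Fin n)
    (m := Multiset.replicate (n / p) p)).mpr ⟨by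
      rw [Multiset.sum_replicate, smul_eq_mul, Fintype.card_fin]
      exact Nat.div_mul_le_self n p, by
      intro a ha
      rw [Multiset.eq_of_mem_replicate ha]
      exact hp.two_le⟩
  refine ⟨g, ?_, ?_⟩
  · rw [← Equiv.Perm.lcm_cycleType, hg]
    apply Nat.dvd_antisymm
    · apply Multiset.lcm_dvd.mpr
      intro a ha
      rw [Multiset.eq_of_mem_replicate ha]
    · apply Multiset.dvd_lcm
      rw [Multiset.mem_replicate]
      exact ⟨hnp.ne', rfl⟩
  · have hs : g.support.card = n := by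
      rw [← Equiv.Perm.sum_cycleType, hg, Multiset.sum_replicate, smul_eq_mul,
        Nat.div_mul_cancel hpn]
    have hu : g.support = Finset.univ := Finset.eq_univ_of_card _ (by rw [hs, Fintype.card_fin])
    intro i
    have := Finset.mem_univ i
    rw [← hu, Equiv.Perm.mem_support] at this
    exact this

theorem cycleType_fpf (n : ℕ) (g : Equiv.Perm (Fin n)) (hg : (orderOf g).Prime)
    (hfpf : ∀ i, g i ≠ i) :
    g.cycleType = Multiset.replicate (n / orderOf g) (orderOf g) ∧ orderOf g ∣ n := by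
  obtain ⟨k, hk⟩ := Equiv.Perm.cycleType_prime_order hg
  have hs : g.support = Finset.univ := by
    ext i
    simp [hfpf i]
  have hsum : (k + 1) * orderOf g = n := by
    have := Equiv.Perm.sum_cycleType g
    rw [hk, hs, Multiset.sum_replicate, smul_eq_mul, Finset.card_univ, Fintype.card_fin] at this
    exact this
  refine ⟨?_, Dvd.intro_left _ hsum⟩
  rw [hk]
  congr 1
  exact (Nat.div_eq_of_eq_mul_left hg.pos hsum.symm).symm


/-- For n ≥ 5, the fixed-point-free permutations of prime order in the symmetric group of degree n form a single conjugacy class if and only if n is a prime power. -/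
theorem result (n : ℕ) (hn : 5 ≤ n) :
    Nat.card {c : ConjClasses (Equiv.Perm (Fin n)) // ∃ g : Equiv.Perm (Fin n), ConjClasses.mk g = c ∧ (orderOf g).Prime ∧ ∀ i : Fin n, g i ≠ i} = 1 ↔ IsPrimePow n := by
  constructor
  · intro h
    rw [Nat.card_eq_one_iff_unique] at h
    obtain ⟨hsub, hne⟩ := h
    by_contra hnp
    rw [isPrimePow_iff_card_primeFactors_eq_one] at hnp
    have hne' : n.primeFactors.Nonempty := Nat.nonempty_primeFactors.mpr (by omega)
    have h2 : 1 < n.primeFactors.card := by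
      have := Finset.card_pos.mpr hne'
      omega
    obtain ⟨p, hp, q, hq, hpq⟩ := Finset.one_lt_card.mp h2
    obtain ⟨g₁, ho₁, hf₁⟩ := exists_fpf n p (Nat.prime_of_mem_primeFactors hp)
      (Nat.dvd_of_mem_primeFactors hp) (by omega)
    obtain ⟨g₂, ho₂, hf₂⟩ := exists_fpf n q (Nat.prime_of_mem_primeFactors hq)
      (Nat.dvd_of_mem_primeFactors hq) (by omega)
    have h3 := hsub.elim
      ⟨ConjClasses.mk g₁, g₁, rfl, by rw [ho₁]; exact Nat.prime_of_mem_primeFactors hp, hf₁⟩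
      ⟨ConjClasses.mk g₂, g₂, rfl, by rw [ho₂]; exact Nat.prime_of_mem_primeFactors hq, hf₂⟩
    have h4 : ConjClasses.mk g₁ = ConjClasses.mk g₂ := congrArg Subtype.val h3
    rw [ConjClasses.mk_eq_mk_iff_isConj, Equiv.Perm.isConj_iff_cycleType_eq] at h4
    apply hpq
    rw [← ho₁, ← ho₂, ← Equiv.Perm.lcm_cycleType, ← Equiv.Perm.lcm_cycleType, h4]
  · rintro ⟨p, k, hp, hk, rfl⟩
    rw [Nat.card_eq_one_iff_unique]
    constructor
    · constructor
      rintro ⟨c₁, g₁, rfl, ho₁, hf₁⟩ ⟨c₂, g₂, rfl, ho₂, hf₂⟩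
      apply Subtype.ext
      rw [ConjClasses.mk_eq_mk_iff_isConj, Equiv.Perm.isConj_iff_cycleType_eq]
      obtain ⟨h1, hd1⟩ := cycleType_fpf _ g₁ ho₁ hf₁
      obtain ⟨h2, hd2⟩ := cycleType_fpf _ g₂ ho₂ hf₂
      have e1 : orderOf g₁ = p :=
        (Nat.prime_dvd_prime_iff_eq ho₁ hp.nat_prime).mp (ho₁.dvd_of_dvd_pow hd1)
      have e2 : orderOf g₂ = p :=
        (Nat.prime_dvd_prime_iff_eq ho₂ hp.nat_prime).mp (ho₂.dvd_of_dvd_pow hd2)
      rw [h1, h2, e1, e2]
    · obtain ⟨g, ho, hf⟩ := exists_fpf (p ^ k) p hp.nat_prime (dvd_pow_self p hk.ne')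
        (pow_pos hp.nat_prime.pos k)
      exact ⟨⟨ConjClasses.mk g, g, rfl, by rw [ho]; exact hp.nat_prime, hf⟩⟩

end Cfsg.Agent.S3504
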