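import Cfsg.Statements.S3508
import Mathlib
-- import your own Cfsg.Agent.* helpers here

set_option autoImplicit false
open Cfsg

namespace Cfsg.Agent.S3508


open scoped IsMulCommutative

theorem unip_lin {p : ℕ} [Fact p.Prime] {A : Type*} [AddCommGroup A] [Finite A] [Module (ZMod p) A]
    (m : ℕ) (hcard : Nat.card A = p ^ m) (f : Module.End (ZMod p) A) (r : ℕ)
    (hf : f ^ (p ^ r) = 1) (s : ℕ) (hs : m < p ^ s) :
    f ^ (p ^ s) = 1 ∧ ∑ i ∈ Finset.range (p ^ s), f ^ i = 0 := by
  have hp : p.Prime := Fact.out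
  have hfin : Module.finrank (ZMod p) A = m := by
    have h1 := Module.natCard_eq_pow_finrank (K := ZMod p) (V := A)
    rw [Nat.card_zmod, hcard] at h1
    exact (Nat.pow_right_injective hp.two_le h1).symm
  have hθ1 : ∀ t : ℕ, (f - 1) ^ (p ^ t) = f ^ (p ^ t) - 1 := by
    intro t
    have h1 : ((Polynomial.X : Polynomial (ZMod p)) - 1) ^ (p ^ t) = Polynomial.X ^ (p ^ t) - 1 := by
      rw [sub_pow_char_pow, one_pow]
    have h2 := congrArg (Polynomial.aeval f) h1
    simpa using h2
  have hnil : (f - 1) ^ (p ^ r) = 0 := by rw [hθ1, hf, sub_self]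
  have hθm : (f - 1) ^ m = 0 := by
    rcases le_or_gt m (p ^ r) with h | h
    · have h1 := Module.End.ker_pow_eq_ker_pow_finrank_of_le (f := f - 1) (m := p ^ r)
        (by rw [hfin]; exact h)
      rw [hnil, hfin, LinearMap.ker_zero] at h1
      exact LinearMap.ker_eq_top.mp h1.symm
    · exact pow_eq_zero_of_le h.le hnil
  constructor
  · have h1 : (f - 1) ^ (p ^ s) = 0 := pow_eq_zero_of_le hs.le hθm
    rw [hθ1] at h1
    exact sub_eq_zero.mp h1
  · have hk : 1 ≤ p ^ s := Nat.one_le_pow _ _ hp.pos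
    have h2 : (∑ i ∈ Finset.range (p ^ s), ((Polynomial.X : Polynomial (ZMod p)) + 1) ^ i) =
        Polynomial.X ^ (p ^ s - 1) := by
      have h3 := geom_sum_mul ((Polynomial.X : Polynomial (ZMod p)) + 1) (p ^ s)
      rw [add_sub_cancel_right, add_pow_char_pow, one_pow, add_sub_cancel_right] at h3
      have h4 : (Polynomial.X : Polynomial (ZMod p)) ^ (p ^ s) =
          Polynomial.X ^ (p ^ s - 1) * Polynomial.X := by
        rw [← pow_succ]
        congr 1
        omega
      rw [h4] at h3
      exact mul_right_cancel₀ Polynomial.X_ne_zero h3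
    have h5 := congrArg (Polynomial.aeval (f - 1)) h2
    simp only [map_sum, map_pow, map_add, Polynomial.aeval_X, map_one, sub_add_cancel] at h5
    rw [h5]
    exact pow_eq_zero_of_le (by omega) hθm

theorem unip_mul {M : Type*} [CommGroup M] [Finite M] (p m : ℕ) (hp : p.Prime)
    (hcard : Nat.card M = p ^ m) (hexp : ∀ x : M, x ^ p = 1) (u : M →* M) (r : ℕ)
    (hu : ∀ x, (u^[p ^ r]) x = x) (s : ℕ) (hs : m < p ^ s) :
    (∀ x, (u^[p ^ s]) x = x) ∧ ∀ x, ∏ i ∈ Finset.range (p ^ s), (u^[i]) x = 1 := by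
  haveI : Fact p.Prime := ⟨hp⟩
  letI : Module (ZMod p) (Additive M) := AddCommGroup.zmodModule (n := p) (fun x =>
    congrArg Additive.ofMul (hexp (Additive.toMul x)))
  let f : Module.End (ZMod p) (Additive M) := (MonoidHom.toAdditive u).toZModLinearMap p
  have hfpow : ∀ (i : ℕ) (x : M), (f ^ i) (Additive.ofMul x) = Additive.ofMul ((u^[i]) x) := by
    intro i
    induction i with
    | zero => intro x; rfl
    | succ i ih =>
      intro x
      rw [pow_succ, Module.End.mul_apply, Function.iterate_succ_apply]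
      exact ih (u x)
  have hf : f ^ (p ^ r) = 1 := by
    apply LinearMap.ext
    intro a
    have h1 := hfpow (p ^ r) (Additive.toMul a)
    rw [hu] at h1
    exact h1
  have hcard' : Nat.card (Additive M) = p ^ m := hcard
  obtain ⟨h1, h2⟩ := unip_lin m hcard' f r hf s hs
  constructor
  · intro x
    have h3 := hfpow (p ^ s) x
    rw [h1] at h3
    exact (Additive.ofMul.injective h3).symm
  · intro x
    have h3 : (∑ i ∈ Finset.range (p ^ s), f ^ i) (Additive.ofMul x) = 0 := by
      rw [h2]
      rfl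
    rw [LinearMap.sum_apply] at h3
    have h4 : ∑ i ∈ Finset.range (p ^ s), (f ^ i) (Additive.ofMul x) =
        Additive.ofMul (∏ i ∈ Finset.range (p ^ s), (u^[i]) x) := by
      rw [ofMul_prod]
      exact Finset.sum_congr rfl (fun i _ => hfpow i x)
    rw [h4] at h3
    exact Additive.ofMul.injective h3

theorem num_tail (p m : ℕ) (hp : 2 ≤ p) (h : p ^ (m - 1) ≤ m) : m ≤ 2 ∧ (2 < p → m ≤ 1) := by
  constructor
  · by_contra hcon
    push_neg at hcon
    obtain ⟨j, rfl⟩ : ∃ j, m = j + 3 := ⟨m - 3, by omega⟩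
    have h1 : 2 ^ (j + 3 - 1) ≤ p ^ (j + 3 - 1) := Nat.pow_le_pow_left hp _
    have h2 : j < 2 ^ j := Nat.lt_two_pow_self
    have h3 : 2 ^ (j + 3 - 1) = 4 * 2 ^ j := by
      have : j + 3 - 1 = j + 2 := by omega
      rw [this, pow_add]
      ring
    omega
  · intro hp3
    by_contra hcon
    push_neg at hcon
    obtain ⟨j, rfl⟩ : ∃ j, m = j + 2 := ⟨m - 2, by omega⟩
    have h1 : 3 ^ (j + 2 - 1) ≤ p ^ (j + 2 - 1) := Nat.pow_le_pow_left (by omega) _
    have h2 : j < 3 ^ j := Nat.lt_pow_self (by norm_num)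
    have h3 : 3 ^ (j + 2 - 1) = 3 * 3 ^ j := by
      have : j + 2 - 1 = j + 1 := by omega
      rw [this, pow_succ]
      ring
    omega

/-- Let a finite group G act faithfully on a set Ω with p ^ m points (p prime) and have an elementary abelian normal p-subgroup N acting regularly on Ω (so G is a group of affine transformations of an m-dimensional space over the field with p elements). If G contains an element of order p ^ r with r ≥ 1, then p ^ (r − 1) ≤ m. In particular an element of order p ^ m forces m ≤ 2, and m ≤ 1 when p is odd. -/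
theorem result {G : Type*} [Group G] [Finite G] {Ω : Type*} [Fintype Ω] [MulAction G Ω] [FaithfulSMul G Ω] (p m : ℕ) (hp : p.Prime) (hcard : Fintype.card Ω = p ^ m)
    (N : Subgroup G) [N.Normal] (hNc : IsMulCommutative N) (hNp : ∀ n ∈ N, n ^ p = 1)
    (hNtr : MulAction.IsPretransitive N Ω) (hNreg : ∀ ω : Ω, MulAction.stabilizer N ω = ⊥)
    (g : G) (r : ℕ) (hr : 1 ≤ r) (hg : orderOf g = p ^ r) :
    p ^ (r - 1) ≤ m ∧ (r = m → m ≤ 2 ∧ (2 < p → m ≤ 1)) := by
  classical
  haveI := hNc
  have hpos : 0 < Fintype.card Ω := by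
    rw [hcard]
    exact Nat.pow_pos hp.pos
  obtain ⟨α⟩ : Nonempty Ω := Fintype.card_pos_iff.mp hpos
  -- elements of N fixing α are trivial
  have F1 : ∀ n : N, n • α = α → n = 1 := by
    intro n hn
    have h1 : n ∈ MulAction.stabilizer N α := hn
    rw [hNreg α] at h1
    exact Subgroup.mem_bot.mp h1
  have hNcard : Nat.card N = p ^ m := by
    have hinj : Function.Injective (fun n : N => n • α) := by
      intro n n' h
      have h1 : (n'⁻¹ * n) • α = α := by
        rw [mul_smul]
        show n'⁻¹ • (n • α) = α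
        have h2 : n • α = n' • α := h
        rw [h2, inv_smul_smul]
      have h3 := F1 _ h1
      exact (inv_mul_eq_one.mp h3).symm
    have hsurj : Function.Surjective (fun n : N => n • α) := fun ω =>
      MulAction.exists_smul_eq N α ω
    rw [Nat.card_congr (Equiv.ofBijective _ ⟨hinj, hsurj⟩), Nat.card_eq_fintype_card, hcard]
  -- centralizing elements fixing α are trivial
  have F2 : ∀ x : G, x • α = α → (∀ n : N, x * (n : G) = (n : G) * x) → x = 1 := by
    intro x hx hcen
    apply FaithfulSMul.eq_of_smul_eq_smul (α := Ω)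
    intro ω
    obtain ⟨n, rfl⟩ := MulAction.exists_smul_eq N α ω
    show x • ((n : G) • α) = (1 : G) • ((n : G) • α)
    rw [← mul_smul, hcen n, mul_smul, hx, one_smul]
  obtain ⟨n₀, hn₀⟩ := MulAction.exists_smul_eq N α (g • α)
  have hn₀' : (n₀ : G) • α = g • α := hn₀
  set h : G := (n₀ : G)⁻¹ * g with hh_def
  have hh : h • α = α := by
    rw [hh_def, mul_smul, ← hn₀', inv_smul_smul]
  have hgh : g = (n₀ : G) * h := by
    rw [hh_def, mul_inv_cancel_left]
  have hhk : ∀ k : ℕ, h ^ k • α = α := by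
    intro k
    induction k with
    | zero => rw [pow_zero, one_smul]
    | succ k ih => rw [pow_succ, mul_smul, hh, ih]
  let u : N →* N := (MulAut.conjNormal h : MulAut N).toMonoidHom
  have hu1 : ∀ n : N, ((u n : N) : G) = h * n * h⁻¹ := fun n => MulAut.conjNormal_apply h n
  have uu : ∀ (i : ℕ) (n : N), (((u^[i]) n : N) : G) = h ^ i * n * (h ^ i)⁻¹ := by
    intro i
    induction i with
    | zero => intro n; simp
    | succ i ih =>
      intro n
      rw [Function.iterate_succ_apply', hu1, ih, pow_succ']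
      group
  have L2 : ∀ k : ℕ, g ^ k = ((∏ i ∈ Finset.range k, (u^[i]) n₀ : N) : G) * h ^ k := by
    intro k
    induction k with
    | zero => simp
    | succ k ih =>
      rw [pow_succ, ih, Finset.prod_range_succ, Subgroup.coe_mul, uu, hgh]
      group
  have hgr : g ^ (p ^ r) = 1 := by
    rw [← hg]
    exact pow_orderOf_eq_one g
  have hhr : h ^ (p ^ r) = 1 := by
    have h1 := L2 (p ^ r)
    rw [hgr] at h1
    have h2 : h ^ (p ^ r) = (((∏ i ∈ Finset.range (p ^ r), (u^[i]) n₀ : N)⁻¹ : N) : G) := by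
      rw [Subgroup.coe_inv]
      exact (inv_eq_of_mul_eq_one_right h1.symm).symm
    have h3 : ((∏ i ∈ Finset.range (p ^ r), (u^[i]) n₀ : N)⁻¹ : N) • α = α := by
      show (((∏ i ∈ Finset.range (p ^ r), (u^[i]) n₀ : N)⁻¹ : N) : G) • α = α
      rw [← h2]
      exact hhk _
    rw [h2, F1 _ h3]
    rfl
  have hur : ∀ n : N, (u^[p ^ r]) n = n := by
    intro n
    apply Subtype.ext
    rw [uu, hhr]
    group
  have hmain : p ^ (r - 1) ≤ m := by
    by_contra hcon
    push_neg at hcon
    obtain ⟨h1, h2⟩ := unip_mul p m hp hNcard (fun n => by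
      apply Subtype.ext
      rw [Subgroup.coe_pow, hNp n n.2]
      rfl) u r hur (r - 1) hcon
    have h3 := L2 (p ^ (r - 1))
    rw [h2 n₀] at h3
    have h4 : h ^ (p ^ (r - 1)) = 1 := by
      apply F2 _ (hhk _)
      intro n
      have h5 := uu (p ^ (r - 1)) n
      rw [h1 n] at h5
      have h6 : h ^ (p ^ (r - 1)) * (n : G) = (h ^ (p ^ (r - 1)) * n * (h ^ (p ^ (r - 1)))⁻¹) *
          h ^ (p ^ (r - 1)) := by group
      rw [← h5] at h6
      exact h6
    rw [h4] at h3
    have h7 : g ^ (p ^ (r - 1)) = 1 := by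
      rw [h3]
      simp
    have h8 := orderOf_dvd_of_pow_eq_one h7
    rw [hg] at h8
    have h9 := (Nat.pow_dvd_pow_iff_le_right hp.one_lt).mp h8
    omega
  refine ⟨hmain, fun hrm => ?_⟩
  subst hrm
  exact num_tail p r hp.two_le hmain

end Cfsg.Agent.S3508
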