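import Cfsg.Statements.S3511
import Mathlib

set_option autoImplicit false
open Cfsg

namespace Cfsg.Agent.S3511

/-- Let a finite group G act faithfully on a set Ω. If every element of G of square-free order has a regular cycle (an orbit of the cyclic group it generates with trivial stabilizer), then every element of G has a regular cycle. -/
theorem result {G : Type*} [Group G] [Finite G] {Ω : Type*} [MulAction G Ω] [FaithfulSMul G Ω]
    (h : ∀ g : G, Squarefree (orderOf g) → ∃ ω : Ω, MulAction.stabilizer (Subgroup.zpowers g) ω = ⊥) (g : G) :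
    ∃ ω : Ω, MulAction.stabilizer (Subgroup.zpowers g) ω = ⊥ := by
  set n := orderOf g with hn
  have hn0 : 0 < n := orderOf_pos g
  set m := ∏ p ∈ n.primeFactors, p with hm
  have hmn : m ∣ n := Nat.prod_primeFactors_dvd n
  have hmsq : Squarefree m := by
    rw [hm, ← Nat.radical_eq_prod_primeFactors]
    exact UniqueFactorizationMonoid.squarefree_radical
  obtain ⟨k, hk⟩ := hmn
  have hk0 : k ≠ 0 := by
    rintro rfl
    simp at hk
    omega
  have hm0 : m ≠ 0 := by
    rintro h0
    rw [h0] at hk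
    simp at hk
    omega
  -- the element of squarefree order
  have hord : orderOf (g ^ k) = m := by
    rw [orderOf_pow' g hk0, ← hn, hk, Nat.gcd_mul_left_left, Nat.mul_div_cancel _ (Nat.pos_of_ne_zero hk0)]
  obtain ⟨ω, hω⟩ := h (g ^ k) (by rw [hord]; exact hmsq)
  refine ⟨ω, ?_⟩
  -- key: an element of zpowers g killed by m lies in zpowers (g^k)
  have key : ∀ y : G, y ∈ Subgroup.zpowers g → y ^ m = 1 → y ∈ Subgroup.zpowers (g ^ k) := by
    intro y hy hym
    obtain ⟨j, rfl⟩ := Subgroup.mem_zpowers_iff.mp hy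
    have h1 : g ^ (j * (m : ℤ)) = 1 := by
      rw [zpow_mul, zpow_natCast]; exact hym
    have h2 : (n : ℤ) ∣ j * m := (orderOf_dvd_iff_zpow_eq_one).mpr h1
    rw [hk] at h2
    push_cast at h2
    have h3 : (k : ℤ) ∣ j := by
      have h4 : (k : ℤ) * m ∣ j * m := by rwa [mul_comm (k : ℤ) m]
      exact Int.dvd_of_mul_dvd_mul_right (by exact_mod_cast hm0) h4
    obtain ⟨l, rfl⟩ := h3
    rw [Subgroup.mem_zpowers_iff]
    exact ⟨l, by rw [← zpow_natCast, ← zpow_mul]⟩
  rw [Subgroup.eq_bot_iff_forall]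
  intro x hx
  by_contra hx1
  have hxG : (x : G) ≠ 1 := fun h => hx1 (Subtype.ext h)
  set d := orderOf (x : G) with hd
  have hd1 : d ≠ 1 := by
    rw [hd, Ne, orderOf_eq_one_iff]; exact hxG
  obtain ⟨p, hp, hpd⟩ := Nat.exists_prime_and_dvd hd1
  have hdn : d ∣ n := by
    obtain ⟨j, hj⟩ := Subgroup.mem_zpowers_iff.mp x.2
    rw [hd, ← hj]
    exact orderOf_dvd_of_pow_eq_one (by
      rw [← zpow_natCast, ← zpow_mul, mul_comm, zpow_mul, zpow_natCast, pow_orderOf_eq_one, one_zpow])
  have hpm : p ∣ m := by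
    rw [hm]
    exact Finset.dvd_prod_of_mem _ (Nat.mem_primeFactors.mpr ⟨hp, hpd.trans hdn, hn0.ne'⟩)
  obtain ⟨e, he⟩ := hpd
  -- y = x^e has order p
  have hy_ord : orderOf ((x : G) ^ e) = p := by
    have he0 : e ≠ 0 := by
      rintro rfl
      have : d = 0 := by rw [he]; simp
      have : 0 < d := orderOf_pos _
      omega
    rw [orderOf_pow' _ he0, ← hd, he, Nat.gcd_mul_left_left, Nat.mul_div_cancel _ (Nat.pos_of_ne_zero he0)]
  have hy_mem : (x : G) ^ e ∈ Subgroup.zpowers (g ^ k) := by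
    apply key
    · exact (Subgroup.zpowers g).pow_mem x.2 e
    · obtain ⟨c, hc⟩ := hpm
      rw [hc, pow_mul, ← hy_ord, pow_orderOf_eq_one, one_pow]
  -- the element of zpowers (g^k) stabilizes ω
  have hstab : (⟨(x : G) ^ e, hy_mem⟩ : Subgroup.zpowers (g ^ k)) ∈
      MulAction.stabilizer (Subgroup.zpowers (g ^ k)) ω := by
    rw [MulAction.mem_stabilizer_iff]
    have hxe : (x ^ e) • ω = ω := by
      have : x ^ e ∈ MulAction.stabilizer (Subgroup.zpowers g) ω := Subgroup.pow_mem _ hx e
      exact MulAction.mem_stabilizer_iff.mp this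
    exact hxe
  rw [hω, Subgroup.mem_bot] at hstab
  have : (x : G) ^ e = 1 := congrArg Subtype.val hstab
  rw [← orderOf_eq_one_iff, hy_ord] at this
  exact hp.one_lt.ne' this

end Cfsg.Agent.S3511
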