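import Cfsg.Statements.S3514
import Mathlib
import Cfsg.Agent.Lib.Helper6.SylowSub
-- import your own Cfsg.Agent.* helpers here

set_option autoImplicit false
open Cfsg

namespace Cfsg.Agent.S3514

open Cfsg.Agent.Lib.Helper6

theorem card_orbit_eq_relIndex {G α : Type*} [Group G] [MulAction G α] (H : Subgroup G) (v : α) :
    Nat.card {u : α | ∃ h ∈ H, h • v = u} = (MulAction.stabilizer G v).relIndex H := by
  have h1 : {u : α | ∃ h ∈ H, h • v = u} = MulAction.orbit H v := by
    ext u
    constructor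
    · rintro ⟨h, hh, rfl⟩
      exact ⟨⟨h, hh⟩, rfl⟩
    · rintro ⟨⟨h, hh⟩, rfl⟩
      exact ⟨h, hh, rfl⟩
  have h2 : MulAction.stabilizer H v = (MulAction.stabilizer G v).subgroupOf H := by
    ext x
    rw [Subgroup.mem_subgroupOf, MulAction.mem_stabilizer_iff, MulAction.mem_stabilizer_iff]
    rfl
  rw [h1, Nat.card_coe_set_eq, ← MulAction.index_stabilizer, h2]
  rfl

theorem relIndex_sup_of_normal {G : Type*} [Group G] [Finite G] (P N : Subgroup G) [N.Normal] :
    P.relIndex (P ⊔ N) = P.relIndex N := by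
  have h1 : Nat.card P * P.relIndex (P ⊔ N) = Nat.card (P ⊔ N : Subgroup G) :=
    card_mul_relIndex_of_le le_sup_left
  have h2 : Nat.card N * N.relIndex (P ⊔ N) = Nat.card (P ⊔ N : Subgroup G) :=
    card_mul_relIndex_of_le le_sup_right
  have h3 : N.relIndex (P ⊔ N) = N.relIndex P := Subgroup.relIndex_sup_right P N
  have h4 : Nat.card (N ⊓ P : Subgroup G) * N.relIndex P = Nat.card P := by
    have := card_mul_relIndex_of_le (inf_le_right : N ⊓ P ≤ P)
    rw [Subgroup.inf_relIndex_right] at this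
    exact this
  have h5 : Nat.card (N ⊓ P : Subgroup G) * P.relIndex N = Nat.card N := by
    have := card_mul_relIndex_of_le (inf_le_left : N ⊓ P ≤ N)
    rw [Subgroup.inf_relIndex_left] at this
    exact this
  have hpos : 0 < Nat.card (N ⊓ P : Subgroup G) * N.relIndex P := by
    rw [h4]
    exact Nat.card_pos
  rw [h3] at h2
  have h6 : (Nat.card (N ⊓ P : Subgroup G) * N.relIndex P) * P.relIndex (P ⊔ N) =
      (Nat.card (N ⊓ P : Subgroup G) * N.relIndex P) * P.relIndex N := by
    calc (Nat.card (N ⊓ P : Subgroup G) * N.relIndex P) * P.relIndex (P ⊔ N)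
        = Nat.card P * P.relIndex (P ⊔ N) := by rw [h4]
      _ = Nat.card N * N.relIndex P := by rw [h1, h2]
      _ = (Nat.card (N ⊓ P : Subgroup G) * P.relIndex N) * N.relIndex P := by rw [h5]
      _ = (Nat.card (N ⊓ P : Subgroup G) * N.relIndex P) * P.relIndex N := by ring
  exact Nat.eq_of_mul_eq_mul_left hpos h6

theorem relIndex_dvd_of_normal_in {G : Type*} [Group G] [Finite G] (S K H : Subgroup G)
    (hKH : K ≤ H) (hn : H ≤ Subgroup.normalizer (K : Set G)) :
    S.relIndex K ∣ S.relIndex H := by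
  have : (K.subgroupOf H).Normal := (Subgroup.normal_subgroupOf_iff_le_normalizer hKH).mpr hn
  rw [← Subgroup.relIndex_subgroupOf hKH]
  show (S.subgroupOf H).relIndex (K.subgroupOf H) ∣ (S.subgroupOf H).index
  rw [← relIndex_sup_of_normal]
  exact Subgroup.relIndex_dvd_index_of_le le_sup_left

theorem relIndex_sup_dvd_card {G : Type*} [Group G] [Finite G] (N H : Subgroup G)
    (hn : H ≤ Subgroup.normalizer (N : Set G)) :
    H.relIndex (N ⊔ H) ∣ Nat.card N := by
  have hNX : N ≤ N ⊔ H := le_sup_left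
  have hHX : H ≤ N ⊔ H := le_sup_right
  have : (N.subgroupOf (N ⊔ H)).Normal :=
    (Subgroup.normal_subgroupOf_iff_le_normalizer hNX).mpr (sup_le Subgroup.le_normalizer hn)
  have h1 := relIndex_sup_normal_dvd (H.subgroupOf (N ⊔ H)) (N.subgroupOf (N ⊔ H))
  rw [← Subgroup.subgroupOf_sup hHX hNX, Subgroup.relIndex_subgroupOf (sup_le hHX hNX),
    Nat.card_congr (Subgroup.subgroupOfEquivOfLe hNX).toEquiv, sup_comm] at h1
  exact h1


/-- Let p be a prime, V a finite vector space over the field with p elements, and H a group of linear transformations of V all of whose orbits on V have size coprime to p. (i) Every normal subgroup K of H has all its orbits on V of size coprime to p. (ii) If N is a group of linear transformations of V of order coprime to p that is normalized by H, then the group generated by N and H has all its orbits on V of size coprime to p. -/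
theorem result (p : ℕ) [Fact p.Prime] {V : Type*} [AddCommGroup V] [Module (ZMod p) V] [Finite V]
    (H : Subgroup (V ≃ₗ[ZMod p] V)) (hH : ∀ v : V, ¬ p ∣ Nat.card {u : V | ∃ h ∈ H, h v = u}) :
    (∀ K : Subgroup (V ≃ₗ[ZMod p] V), K ≤ H → H ≤ Subgroup.normalizer (K : Set (V ≃ₗ[ZMod p] V)) →
        ∀ v : V, ¬ p ∣ Nat.card {u : V | ∃ k ∈ K, k v = u}) ∧
    (∀ N : Subgroup (V ≃ₗ[ZMod p] V), ¬ p ∣ Nat.card N → H ≤ Subgroup.normalizer (N : Set (V ≃ₗ[ZMod p] V)) →
        ∀ v : V, ¬ p ∣ Nat.card {u : V | ∃ x ∈ N ⊔ H, x v = u}) := by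
  have hp : p.Prime := Fact.out
  have : Finite (V ≃ₗ[ZMod p] V) :=
    Finite.of_injective (fun e : V ≃ₗ[ZMod p] V => (e : V → V)) DFunLike.coe_injective
  have key : ∀ (L : Subgroup (V ≃ₗ[ZMod p] V)) (v : V),
      Nat.card {u : V | ∃ h ∈ L, h v = u} = (MulAction.stabilizer (V ≃ₗ[ZMod p] V) v).relIndex L :=
    fun L v => card_orbit_eq_relIndex L v
  constructor
  · intro K hKH hn v
    rw [key]
    have h1 := hH v
    rw [key] at h1
    intro hd
    exact h1 (hd.trans (relIndex_dvd_of_normal_in _ K H hKH hn))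
  · intro N hN hn v
    rw [key]
    have h1 := hH v
    rw [key] at h1
    set S := MulAction.stabilizer (V ≃ₗ[ZMod p] V) v with hS
    have hHX : H ≤ N ⊔ H := le_sup_right
    have e1 : (S ⊓ H).relIndex (S ⊓ (N ⊔ H)) * (S ⊓ (N ⊔ H)).relIndex (N ⊔ H) =
        (S ⊓ H).relIndex (N ⊔ H) :=
      Subgroup.relIndex_mul_relIndex _ _ _ (inf_le_inf_left S hHX) inf_le_right
    have e2 : (S ⊓ H).relIndex H * H.relIndex (N ⊔ H) = (S ⊓ H).relIndex (N ⊔ H) :=
      Subgroup.relIndex_mul_relIndex _ _ _ inf_le_right hHX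
    rw [Subgroup.inf_relIndex_right] at e1 e2
    have h2 : ¬ p ∣ H.relIndex (N ⊔ H) := fun hd => hN (hd.trans (relIndex_sup_dvd_card N H hn))
    intro hd
    have h3 : p ∣ S.relIndex H * H.relIndex (N ⊔ H) := by
      rw [e2, ← e1]
      exact Dvd.dvd.mul_left hd _
    rcases (Nat.Prime.dvd_mul hp).mp h3 with h | h
    · exact h1 h
    · exact h2 h

end Cfsg.Agent.S3514
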