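import Cfsg.Statements.S3515
import Mathlib
import Cfsg.Agent.Lib.Helper6.AffineClosure
-- import your own Cfsg.Agent.* helpers here

set_option autoImplicit false
open Cfsg

namespace Cfsg.Agent.S3515


theorem third_elt : ∀ a b c : Fin 2 → ZMod 2, a ≠ 0 → b ≠ 0 → a ≠ b → c ≠ 0 → c ≠ a → c ≠ b → c = a + b := by
  decide

theorem add_self_two (a : Fin 2 → ZMod 2) : a + a = 0 := by
  funext i
  exact CharTwo.add_self_eq_zero (a i)

theorem affine_f2sq (σ : Equiv.Perm (Fin 2 → ZMod 2)) :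
    ∃ (A : (Fin 2 → ZMod 2) ≃ₗ[ZMod 2] (Fin 2 → ZMod 2)) (b : Fin 2 → ZMod 2), ∀ x, σ x = A x + b := by
  haveI : Fact (Nat.Prime 2) := ⟨Nat.prime_two⟩
  apply Cfsg.Agent.Lib.Helper6.affine_of_additive 2 2 σ
  intro x y
  by_cases hx : x = 0
  · rw [hx, zero_add, sub_self, zero_add]
  by_cases hy : y = 0
  · rw [hy, add_zero, sub_self, add_zero]
  by_cases hxy : x = y
  · rw [hxy, add_self_two, add_self_two, sub_self]
  apply third_elt
  · rw [Ne, sub_eq_zero, σ.injective.eq_iff]; exact hx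
  · rw [Ne, sub_eq_zero, σ.injective.eq_iff]; exact hy
  · rw [Ne, sub_left_inj, σ.injective.eq_iff]; exact hxy
  · rw [Ne, sub_eq_zero, σ.injective.eq_iff]
    intro h
    apply hxy
    have h2 : x + y + y = 0 + y := by rw [h]
    rw [add_assoc, add_self_two, add_zero, zero_add] at h2
    exact h2
  · rw [Ne, sub_left_inj, σ.injective.eq_iff]
    intro h
    exact hy (by simpa using h)
  · rw [Ne, sub_left_inj, σ.injective.eq_iff]
    intro h
    exact hx (by simpa using h)

/-- Every primitive affine permutation group of degree p² is 3-closed. Let p be a prime and G a group of permutations of the plane V = F_p² consisting of affine maps x ↦ Ax + b, containing all translations, and acting primitively on V. Then any permutation σ of V that agrees on every triple of points with some element of G (σ preserves every G-orbit on ordered triples) already lies in G. -/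
theorem result (p : ℕ) [Fact p.Prime] (G : Subgroup (Equiv.Perm (Fin 2 → ZMod p)))
    (haff : (G : Set (Equiv.Perm (Fin 2 → ZMod p))) ⊆ {τ : Equiv.Perm (Fin 2 → ZMod p) | ∃ (A : (Fin 2 → ZMod p) ≃ₗ[ZMod p] (Fin 2 → ZMod p)) (b : Fin 2 → ZMod p), ∀ x, τ x = A x + b})
    (htrans : ∀ b : Fin 2 → ZMod p, ∃ g ∈ G, ∀ x, g x = x + b) (hprim : MulAction.IsPreprimitive G (Fin 2 → ZMod p))
    (σ : Equiv.Perm (Fin 2 → ZMod p)) (hσ : (∀ t : Fin 3 → (Fin 2 → ZMod p), ∃ g ∈ G, ∀ i, σ (t i) = g (t i))) : σ ∈ G := by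
  classical
  have haffσ : ∃ (A : (Fin 2 → ZMod p) ≃ₗ[ZMod p] (Fin 2 → ZMod p)) (b : Fin 2 → ZMod p), ∀ x, σ x = A x + b := by
    by_cases hp2 : p = 2
    · subst hp2
      exact affine_f2sq σ
    · apply Cfsg.Agent.Lib.Helper6.affine_of_three_closed p hp2 2 σ
      intro t
      obtain ⟨g, hg, hgt⟩ := hσ t
      obtain ⟨A, b, hAb⟩ := haff hg
      exact ⟨A, b, fun i => by rw [hgt i, hAb]⟩
  obtain ⟨A, b, hAb⟩ := haffσ
  obtain ⟨g, hg, hgt⟩ := hσ ![0, Pi.single 0 1, Pi.single 1 1]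
  obtain ⟨A', b', hAb'⟩ := haff hg
  have e0 : σ 0 = g 0 := hgt 0
  have e1 : σ (Pi.single 0 1) = g (Pi.single 0 1) := hgt 1
  have e2 : σ (Pi.single 1 1) = g (Pi.single 1 1) := hgt 2
  rw [hAb, hAb'] at e0 e1 e2
  rw [map_zero, map_zero, zero_add, zero_add] at e0
  rw [e0] at e1 e2
  have h1 := add_right_cancel e1
  have h2 := add_right_cancel e2
  have hx : ∀ x : Fin 2 → ZMod p, x = x 0 • (Pi.single 0 1 : Fin 2 → ZMod p) + x 1 • (Pi.single 1 1 : Fin 2 → ZMod p) := by
    intro x
    funext i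
    fin_cases i <;> simp
  have hσg : σ = g := by
    apply Equiv.ext
    intro x
    rw [hAb, hAb', e0, hx x, map_add, map_add, map_smul, map_smul, map_smul, map_smul, h1, h2]
  rw [hσg]
  exact hg

end Cfsg.Agent.S3515
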