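import Cfsg.Statements.S3516
import Mathlib
import Cfsg.Agent.Lib.Helper6.AffineClosure
-- import your own Cfsg.Agent.* helpers here

set_option autoImplicit false
open Cfsg

namespace Cfsg.Agent.S3516



/-- Let p be an odd prime, d ≥ 3, and G a group of affine permutations x ↦ Ax + b of V = F_p^d containing all translations and all maps x ↦ Ax with A of determinant 1. Then the 3-closure of G is the full affine group: a permutation σ of V agrees on every triple of points with some element of G if and only if σ is an affine map. -/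
theorem result (p : ℕ) [Fact p.Prime] (hp : p ≠ 2) (d : ℕ) (hd : 3 ≤ d) (G : Subgroup (Equiv.Perm (Fin d → ZMod p)))
    (haff : (G : Set (Equiv.Perm (Fin d → ZMod p))) ⊆ {τ : Equiv.Perm (Fin d → ZMod p) | ∃ (A : (Fin d → ZMod p) ≃ₗ[ZMod p] (Fin d → ZMod p)) (b : Fin d → ZMod p), ∀ x, τ x = A x + b})
    (htrans : ∀ b : Fin d → ZMod p, ∃ g ∈ G, ∀ x, g x = x + b)
    (hsl : ∀ A : (Fin d → ZMod p) ≃ₗ[ZMod p] (Fin d → ZMod p), LinearMap.det (A : (Fin d → ZMod p) →ₗ[ZMod p] (Fin d → ZMod p)) = 1 → ∃ g ∈ G, ∀ x, g x = A x)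
    (σ : Equiv.Perm (Fin d → ZMod p)) :
    (∀ t : Fin 3 → (Fin d → ZMod p), ∃ g ∈ G, ∀ i, σ (t i) = g (t i)) ↔ σ ∈ {τ : Equiv.Perm (Fin d → ZMod p) | ∃ (A : (Fin d → ZMod p) ≃ₗ[ZMod p] (Fin d → ZMod p)) (b : Fin d → ZMod p), ∀ x, τ x = A x + b} := by
  classical
  constructor
  · intro h
    apply Cfsg.Agent.Lib.Helper6.affine_of_three_closed p hp d σ
    intro t
    obtain ⟨g, hg, hgt⟩ := h t
    obtain ⟨A, b, hAb⟩ := haff hg
    exact ⟨A, b, fun i => by rw [hgt i, hAb]⟩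
  · rintro ⟨A, b, hAb⟩ t
    obtain ⟨B, hB1, hBu, hBv⟩ := Cfsg.Agent.Lib.Helper6.exists_sl_agree d hd A (t 1 - t 0) (t 2 - t 0)
    obtain ⟨g₁, hg₁, hg₁x⟩ := hsl B hB1
    obtain ⟨g₂, hg₂, hg₂x⟩ := htrans (σ (t 0) - B (t 0))
    refine ⟨g₂ * g₁, G.mul_mem hg₂ hg₁, ?_⟩
    have key : ∀ x, (g₂ * g₁) x = B x + (σ (t 0) - B (t 0)) := by
      intro x
      rw [Equiv.Perm.mul_apply, hg₂x, hg₁x]
    rw [map_sub, map_sub] at hBu hBv
    intro i
    rw [key]
    fin_cases i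
    · show σ (t 0) = B (t 0) + (σ (t 0) - B (t 0))
      abel
    · show σ (t 1) = B (t 1) + (σ (t 0) - B (t 0))
      have e : B (t 1) + (σ (t 0) - B (t 0)) = (B (t 1) - B (t 0)) + σ (t 0) := by abel
      rw [e, hBu, hAb, hAb]; abel
    · show σ (t 2) = B (t 2) + (σ (t 0) - B (t 0))
      have e : B (t 2) + (σ (t 0) - B (t 0)) = (B (t 2) - B (t 0)) + σ (t 0) := by abel
      rw [e, hBv, hAb, hAb]; abel

end Cfsg.Agent.S3516
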