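import Cfsg.Statements.S3517
import Mathlib
-- import your own Cfsg.Agent.* helpers here

set_option autoImplicit false
open Cfsg

namespace Cfsg.Agent.S3517


theorem exists_equiv_of_li {K V : Type*} [Field K] [AddCommGroup V] [Module K V] [FiniteDimensional K V]
    {ι : Type*} [Finite ι] (u u' : ι → V) (hu : LinearIndependent K u) (hu' : LinearIndependent K u') :
    ∃ g : V ≃ₗ[K] V, ∀ i, g (u i) = u' i := by
  obtain ⟨g, hg⟩ := Submodule.exists_linearEquiv_restrict_eq ((Module.Basis.span hu).equiv (Module.Basis.span hu') (Equiv.refl ι))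
  refine ⟨g, fun i => ?_⟩
  have h1 : ((Module.Basis.span hu i : Submodule.span K (Set.range u)) : V) = u i := by rw [Module.Basis.span_apply hu i]
  have h2 : ((Module.Basis.span hu' i : Submodule.span K (Set.range u')) : V) = u' i := by rw [Module.Basis.span_apply hu' i]
  have h3 := hg (Module.Basis.span hu i)
  rw [Module.Basis.equiv_apply, Equiv.refl_apply, h1, h2] at h3
  exact h3.symm

theorem li_single (d : ℕ) (x : Fin d → ZMod 2) (hx : x ≠ 0) :
    LinearIndependent (ZMod 2) (fun _ : Unit => x) := by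
  rw [linearIndependent_unique_iff]
  exact hx

theorem li_pair (d : ℕ) (x y : Fin d → ZMod 2) (hx : x ≠ 0) (hy : y ≠ 0) (hxy : x ≠ y) :
    LinearIndependent (ZMod 2) ![x, y] := by
  rw [LinearIndependent.pair_iff]
  intro s t h
  have key : ∀ s : ZMod 2, s = 0 ∨ s = 1 := by decide
  rcases key s with rfl | rfl <;> rcases key t with rfl | rfl
  · exact ⟨rfl, rfl⟩
  · rw [zero_smul, one_smul, zero_add] at h
    exact absurd h hy
  · rw [zero_smul, one_smul, add_zero] at h
    exact absurd h hx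
  · rw [one_smul, one_smul] at h
    exfalso
    apply hxy
    have h2 : x = -y := eq_neg_of_add_eq_zero_left h
    rw [h2]
    funext i
    simp

theorem pair_lemma (d : ℕ) (x y x' y' : Fin d → ZMod 2) (h1 : x = 0 ↔ x' = 0) (h2 : y = 0 ↔ y' = 0)
    (h3 : x = y ↔ x' = y') :
    ∃ A : (Fin d → ZMod 2) ≃ₗ[ZMod 2] (Fin d → ZMod 2), A x = x' ∧ A y = y' := by
  by_cases hx : x = 0
  · by_cases hy : y = 0
    · exact ⟨LinearEquiv.refl _ _, by rw [hx, h1.mp hx]; rfl, by rw [hy, h2.mp hy]; rfl⟩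
    · have hy' : y' ≠ 0 := fun h => hy (h2.mpr h)
      obtain ⟨g, hg⟩ := exists_equiv_of_li (fun _ : Unit => y) (fun _ : Unit => y') (li_single d y hy) (li_single d y' hy')
      exact ⟨g, by rw [hx, h1.mp hx, map_zero], hg ()⟩
  · have hx' : x' ≠ 0 := fun h => hx (h1.mpr h)
    by_cases hy : y = 0
    · obtain ⟨g, hg⟩ := exists_equiv_of_li (fun _ : Unit => x) (fun _ : Unit => x') (li_single d x hx) (li_single d x' hx')
      exact ⟨g, hg (), by rw [hy, h2.mp hy, map_zero]⟩
    · have hy' : y' ≠ 0 := fun h => hy (h2.mpr h)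
      by_cases hxy : x = y
      · obtain ⟨g, hg⟩ := exists_equiv_of_li (fun _ : Unit => x) (fun _ : Unit => x') (li_single d x hx) (li_single d x' hx')
        exact ⟨g, hg (), by rw [← hxy, ← h3.mp hxy]; exact hg ()⟩
      · have hxy' : x' ≠ y' := fun h => hxy (h3.mpr h)
        obtain ⟨g, hg⟩ := exists_equiv_of_li ![x, y] ![x', y'] (li_pair d x y hx hy hxy) (li_pair d x' y' hx' hy' hxy')
        exact ⟨g, hg 0, hg 1⟩

/-- For d ≥ 3, the 3-closure of the affine group AGL_d(2) acting on F_2^d is the full symmetric group: every permutation of F_2^d agrees on every ordered triple of points with some affine map (AGL_d(2) is 3-transitive). -/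
theorem result (d : ℕ) (hd : 3 ≤ d) (σ : Equiv.Perm (Fin d → ZMod 2)) (t : Fin 3 → (Fin d → ZMod 2)) :
    ∃ (A : (Fin d → ZMod 2) ≃ₗ[ZMod 2] (Fin d → ZMod 2)) (b : Fin d → ZMod 2), ∀ i, σ (t i) = A (t i) + b := by
  classical
  obtain ⟨A, hA1, hA2⟩ := pair_lemma d (t 1 - t 0) (t 2 - t 0) (σ (t 1) - σ (t 0)) (σ (t 2) - σ (t 0))
    (by rw [sub_eq_zero, sub_eq_zero, σ.injective.eq_iff])
    (by rw [sub_eq_zero, sub_eq_zero, σ.injective.eq_iff])
    (by rw [sub_left_inj, sub_left_inj, σ.injective.eq_iff])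
  refine ⟨A, σ (t 0) - A (t 0), ?_⟩
  rw [map_sub] at hA1 hA2
  intro i
  fin_cases i
  · show σ (t 0) = A (t 0) + (σ (t 0) - A (t 0))
    abel
  · show σ (t 1) = A (t 1) + (σ (t 0) - A (t 0))
    have : σ (t 1) = (A (t 1) - A (t 0)) + σ (t 0) := by rw [hA1]; abel
    rw [this]; abel
  · show σ (t 2) = A (t 2) + (σ (t 0) - A (t 0))
    have : σ (t 2) = (A (t 2) - A (t 0)) + σ (t 0) := by rw [hA2]; abel
    rw [this]; abel

end Cfsg.Agent.S3517
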