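import Cfsg.Statements.S3518
import Mathlib
-- import your own Cfsg.Agent.* helpers here

set_option autoImplicit false
open Cfsg

namespace Cfsg.Agent.S3518


theorem sum_pow_card_sub_one (p : ℕ) [Fact p.Prime] : ∑ y : ZMod p, y ^ (p - 1) = -1 := by
  have hp := (Fact.out : p.Prime)
  have h1 : ∀ y : ZMod p, y ^ (p - 1) = 1 - if y = 0 then 1 else 0 := by
    intro y
    split_ifs with h
    · rw [h, zero_pow (by have := hp.two_le; omega), sub_self]
    · rw [ZMod.pow_card_sub_one_eq_one h, sub_zero]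
  rw [Finset.sum_congr rfl (fun y _ => h1 y), Finset.sum_sub_distrib, Finset.sum_ite_eq']
  simp

theorem sum_pow_mul_pow (p : ℕ) [Fact p.Prime] (k a b : ℕ) (hk : k < p - 1) (ha : a ≤ k)
    (hb : b ≤ k) :
    ∑ y : ZMod p, y ^ a * y ^ (p - 1 - b) = if a = b then -1 else 0 := by
  have hp := (Fact.out : p.Prime)
  rcases lt_trichotomy a b with h | h | h
  · rw [if_neg h.ne]
    simp_rw [← pow_add]
    apply FiniteField.sum_pow_lt_card_sub_one
    rw [ZMod.card]; omega
  · subst h
    rw [if_pos rfl]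
    simp_rw [← pow_add]
    rw [show a + (p - 1 - a) = p - 1 by omega]
    exact sum_pow_card_sub_one p
  · rw [if_neg h.ne']
    have h1 : ∀ y : ZMod p, y ^ a * y ^ (p - 1 - b) = y ^ (a - b) := by
      intro y
      by_cases hy : y = 0
      · rw [hy, zero_pow (by omega), zero_mul, zero_pow (by omega)]
      · rw [← pow_add, show a + (p - 1 - b) = (a - b) + (p - 1) by omega, pow_add,
          ZMod.pow_card_sub_one_eq_one hy, mul_one]
    simp_rw [h1]
    apply FiniteField.sum_pow_lt_card_sub_one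
    rw [ZMod.card]; omega

theorem extract (p : ℕ) [Fact p.Prime] (k : ℕ) (hk : k < p - 1) (f : ZMod p → ZMod p)
    (hf : ∀ x y, (f x - f y) ^ k = (x - y) ^ k) (j : ℕ) (hj : j ≤ k) :
    ∃ d : ℕ → ZMod p, ∀ x, x ^ j = ∑ m ∈ Finset.range (k + 1), d m * (f x) ^ m := by
  have hp := (Fact.out : p.Prime)
  obtain ⟨c, hc⟩ : ∃ c : ℕ → ZMod p, c = fun m => (-1) ^ (k - m) * (k.choose m : ZMod p) :=
    ⟨_, rfl⟩
  have hexp : ∀ a b : ZMod p, (a - b) ^ k = ∑ m ∈ Finset.range (k + 1), c m * a ^ m * b ^ (k - m) := by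
    intro a b
    rw [sub_eq_add_neg, add_pow]
    apply Finset.sum_congr rfl
    intro m _
    rw [neg_pow b, hc]
    show a ^ m * ((-1) ^ (k - m) * b ^ (k - m)) * (k.choose m : ZMod p) =
      (-1) ^ (k - m) * (k.choose m : ZMod p) * a ^ m * b ^ (k - m)
    ring
  have hcj : c j ≠ 0 := by
    rw [hc]
    show (-1 : ZMod p) ^ (k - j) * (k.choose j : ZMod p) ≠ 0
    apply mul_ne_zero
    · exact pow_ne_zero _ (neg_ne_zero.mpr one_ne_zero)
    · rw [Ne, ZMod.natCast_eq_zero_iff]
      intro hdvd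
      have h1 : k.choose j ∣ k.factorial := Dvd.intro _ (by
        have := Nat.choose_mul_factorial_mul_factorial hj
        rw [mul_assoc] at this
        exact this)
      have h2 := (hp.dvd_factorial).mp (hdvd.trans h1)
      omega
  refine ⟨fun m => -(c j)⁻¹ * (c m * ∑ y : ZMod p, (f y) ^ (k - m) * y ^ (p - 1 - (k - j))), ?_⟩
  intro x
  have key : ∑ y : ZMod p, (f x - f y) ^ k * y ^ (p - 1 - (k - j)) =
      ∑ y : ZMod p, (x - y) ^ k * y ^ (p - 1 - (k - j)) :=
    Finset.sum_congr rfl (fun y _ => by rw [hf x y])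
  have h5 : ∀ m ∈ Finset.range (k + 1),
      ∑ y : ZMod p, c m * x ^ m * y ^ (k - m) * y ^ (p - 1 - (k - j)) =
        if m = j then -(c j * x ^ j) else 0 := by
    intro m hm
    have hm' : m ≤ k := by have := Finset.mem_range.mp hm; omega
    have h6 := sum_pow_mul_pow p k (k - m) (k - j) hk (by omega) (by omega)
    have h8 : ∑ y : ZMod p, c m * x ^ m * y ^ (k - m) * y ^ (p - 1 - (k - j)) =
        c m * x ^ m * ∑ y : ZMod p, y ^ (k - m) * y ^ (p - 1 - (k - j)) := by
      rw [Finset.mul_sum]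
      apply Finset.sum_congr rfl
      intro y _
      ring
    rw [h8, h6]
    by_cases hmj : m = j
    · subst hmj
      rw [if_pos rfl, if_pos rfl]
      ring
    · rw [if_neg (by omega), if_neg hmj, mul_zero]
  have hR : ∑ y : ZMod p, (x - y) ^ k * y ^ (p - 1 - (k - j)) = -(c j * x ^ j) := by
    calc ∑ y : ZMod p, (x - y) ^ k * y ^ (p - 1 - (k - j))
        = ∑ y : ZMod p, ∑ m ∈ Finset.range (k + 1),
            c m * x ^ m * y ^ (k - m) * y ^ (p - 1 - (k - j)) := by
          apply Finset.sum_congr rfl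
          intro y _
          rw [hexp, Finset.sum_mul]
      _ = ∑ m ∈ Finset.range (k + 1), ∑ y : ZMod p,
            c m * x ^ m * y ^ (k - m) * y ^ (p - 1 - (k - j)) := Finset.sum_comm
      _ = ∑ m ∈ Finset.range (k + 1), (if m = j then -(c j * x ^ j) else 0) :=
          Finset.sum_congr rfl h5
      _ = -(c j * x ^ j) := by
          rw [Finset.sum_ite_eq', if_pos (Finset.mem_range.mpr (by omega))]
  have hL : ∑ y : ZMod p, (f x - f y) ^ k * y ^ (p - 1 - (k - j)) =
      ∑ m ∈ Finset.range (k + 1),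
        c m * (∑ y : ZMod p, (f y) ^ (k - m) * y ^ (p - 1 - (k - j))) * (f x) ^ m := by
    calc ∑ y : ZMod p, (f x - f y) ^ k * y ^ (p - 1 - (k - j))
        = ∑ y : ZMod p, ∑ m ∈ Finset.range (k + 1),
            c m * (f x) ^ m * (f y) ^ (k - m) * y ^ (p - 1 - (k - j)) := by
          apply Finset.sum_congr rfl
          intro y _
          rw [hexp, Finset.sum_mul]
      _ = ∑ m ∈ Finset.range (k + 1), ∑ y : ZMod p,
            c m * (f x) ^ m * (f y) ^ (k - m) * y ^ (p - 1 - (k - j)) := Finset.sum_comm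
      _ = ∑ m ∈ Finset.range (k + 1),
            c m * (∑ y : ZMod p, (f y) ^ (k - m) * y ^ (p - 1 - (k - j))) * (f x) ^ m := by
          apply Finset.sum_congr rfl
          intro m _
          rw [mul_right_comm, Finset.mul_sum]
          apply Finset.sum_congr rfl
          intro y _
          ring
  rw [key, hR] at hL
  have h7 : ∑ m ∈ Finset.range (k + 1),
      -(c j)⁻¹ * (c m * ∑ y : ZMod p, (f y) ^ (k - m) * y ^ (p - 1 - (k - j))) * (f x) ^ m =
      -(c j)⁻¹ * ∑ m ∈ Finset.range (k + 1),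
        c m * (∑ y : ZMod p, (f y) ^ (k - m) * y ^ (p - 1 - (k - j))) * (f x) ^ m := by
    rw [Finset.mul_sum]
    apply Finset.sum_congr rfl
    intro m _
    ring
  rw [h7, ← hL]
  field_simp

theorem affine_of_diff_pow (p : ℕ) [Fact p.Prime] (k : ℕ) (hk1 : 1 ≤ k) (hk : 2 * k ≤ p - 1)
    (σ : Equiv.Perm (ZMod p)) (hf : ∀ x y, (σ x - σ y) ^ k = (x - y) ^ k) :
    ∃ α β : ZMod p, ∀ x, σ x = α * x + β := by
  have hp := (Fact.out : p.Prime)
  have hp2 := hp.two_le
  have hklt : k < p - 1 := by omega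
  have hinv : ∀ u v, (σ.symm u - σ.symm v) ^ k = (u - v) ^ k := by
    intro u v
    have h5 := hf (σ.symm u) (σ.symm v)
    rw [Equiv.apply_symm_apply, Equiv.apply_symm_apply] at h5
    exact h5.symm
  have hpoly : ∀ j ≤ k, ∃ Q : Polynomial (ZMod p), Q.natDegree ≤ k ∧ ∀ x, (σ x) ^ j = Q.eval x := by
    intro j hj
    obtain ⟨d, hd⟩ := extract p k hklt (fun u => σ.symm u) hinv j hj
    refine ⟨∑ m ∈ Finset.range (k + 1), Polynomial.C (d m) * Polynomial.X ^ m, ?_, ?_⟩
    · apply Polynomial.natDegree_sum_le_of_forall_le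
      intro m hm
      have hm' : m ≤ k := by have := Finset.mem_range.mp hm; omega
      exact (Polynomial.natDegree_C_mul_X_pow_le _ _).trans hm'
    · intro x
      have h5 := hd (σ x)
      simp only [Equiv.symm_apply_apply] at h5
      rw [h5, Polynomial.eval_finset_sum]
      apply Finset.sum_congr rfl
      intro m _
      simp
  obtain ⟨P, hPdeg, hP⟩ := hpoly 1 hk1
  have he : P.natDegree ≤ 1 := by
    by_contra hcon
    push_neg at hcon
    have h1 : P.natDegree * (k / P.natDegree) ≤ k := Nat.mul_div_le k P.natDegree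
    have h2 : k < P.natDegree * (k / P.natDegree + 1) := Nat.lt_mul_div_succ k (by omega)
    have h3 : k / P.natDegree ≤ k / 2 := Nat.div_le_div_left hcon (by norm_num)
    have hjk : k / P.natDegree + 1 ≤ k := by omega
    obtain ⟨Q, hQdeg, hQ⟩ := hpoly (k / P.natDegree + 1) hjk
    have hPj : (P ^ (k / P.natDegree + 1)).natDegree = P.natDegree * (k / P.natDegree + 1) := by
      rw [Polynomial.natDegree_pow, mul_comm]
    have hejlt : P.natDegree * (k / P.natDegree + 1) < p := by
      rw [Nat.mul_succ]; omega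
    have hdeg : (P ^ (k / P.natDegree + 1) - Q).natDegree = P.natDegree * (k / P.natDegree + 1) := by
      rw [Polynomial.natDegree_sub_eq_left_of_natDegree_lt (by rw [hPj]; omega), hPj]
    have hzero : P ^ (k / P.natDegree + 1) - Q = 0 := by
      apply Polynomial.eq_zero_of_natDegree_lt_card_of_eval_eq_zero (P ^ (k / P.natDegree + 1) - Q)
        (f := id) Function.injective_id
      · intro x
        simp only [id, Polynomial.eval_sub, Polynomial.eval_pow]
        rw [← hQ x, ← hP x, pow_one, sub_self]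
      · rw [hdeg, ZMod.card]; exact hejlt
    rw [hzero, Polynomial.natDegree_zero] at hdeg
    omega
  refine ⟨P.coeff 1, P.coeff 0, fun x => ?_⟩
  have h5 := hP x
  rw [pow_one] at h5
  have h6 := Polynomial.eq_X_add_C_of_natDegree_le_one he
  calc σ x = P.eval x := h5
    _ = (Polynomial.C (P.coeff 1) * Polynomial.X + Polynomial.C (P.coeff 0)).eval x := by rw [← h6]
    _ = P.coeff 1 * x + P.coeff 0 := by simp

/-- Closures of subgroups of the one-dimensional affine group. Let p be a prime and G a group of permutations of F_p lying in the affine group AGL₁(p) = {x ↦ ax + b, a ≠ 0} and containing all translations. (1) If G is a proper subgroup of AGL₁(p), then G is 2-closed: a permutation of F_p agreeing on every ordered pair of points with some element of G lies in G. (2) Every permutation of F_p agrees on every ordered pair with some element of AGL₁(p) (the 2-closure of AGL₁(p) is the symmetric group). (3) AGL₁(p) is 3-closed: a permutation agreeing on every ordered triple with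 some affine map is affine. -/
theorem result (p : ℕ) [Fact p.Prime] (G : Subgroup (Equiv.Perm (ZMod p))) (hG : G ≤ Cfsg.affineGroup (ZMod p))
    (htrans : ∀ b : ZMod p, ∃ g ∈ G, ∀ x, g x = x + b) :
    (G ≠ Cfsg.affineGroup (ZMod p) → ∀ σ : Equiv.Perm (ZMod p), (∀ t : Fin 2 → ZMod p, ∃ g ∈ G, ∀ i, σ (t i) = g (t i)) → σ ∈ G) ∧
    (∀ σ : Equiv.Perm (ZMod p), (∀ t : Fin 2 → ZMod p, ∃ g ∈ Cfsg.affineGroup (ZMod p), ∀ i, σ (t i) = g (t i))) ∧
    (∀ σ : Equiv.Perm (ZMod p), (∀ t : Fin 3 → ZMod p, ∃ g ∈ Cfsg.affineGroup (ZMod p), ∀ i, σ (t i) = g (t i)) → σ ∈ Cfsg.affineGroup (ZMod p)) := by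
  classical
  have hp := (Fact.out : p.Prime)
  refine ⟨?_, ?_, ?_⟩
  · intro hne σ hσ
    let A : Subgroup (ZMod p)ˣ :=
      { carrier := {a | ∃ g ∈ G, ∀ x, g x = (a : ZMod p) * x}
        one_mem' := ⟨1, G.one_mem, fun x => by simp⟩
        mul_mem' := by
          rintro a b ⟨g, hg, hga⟩ ⟨h, hh, hhb⟩
          exact ⟨g * h, G.mul_mem hg hh, fun x => by
            rw [Equiv.Perm.mul_apply, hhb, hga, Units.val_mul, mul_assoc]⟩
        inv_mem' := by
          rintro a ⟨g, hg, hga⟩
          refine ⟨g⁻¹, G.inv_mem hg, fun x => ?_⟩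
          apply g.injective
          show g (g.symm x) = g (((a⁻¹ : (ZMod p)ˣ) : ZMod p) * x)
          rw [Equiv.apply_symm_apply, hga, ← mul_assoc, Units.mul_inv, one_mul] }
    have hAmem : ∀ a : (ZMod p)ˣ, a ∈ A ↔ ∃ g ∈ G, ∀ x, g x = (a : ZMod p) * x := fun a => Iff.rfl
    have hk1 : 1 ≤ Nat.card A := Nat.card_pos
    have hkdvd : Nat.card A ∣ p - 1 := by
      have h1 := Subgroup.card_subgroup_dvd_card A
      rwa [Nat.card_eq_fintype_card (α := (ZMod p)ˣ), ZMod.card_units] at h1
    have hAne : A ≠ ⊤ := by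
      intro hA
      apply hne
      apply le_antisymm hG
      rintro τ ⟨a, b, hτ⟩
      obtain ⟨g, hg, hga⟩ := (hAmem a).mp (hA ▸ Subgroup.mem_top a)
      obtain ⟨t, ht, htb⟩ := htrans b
      have h5 : τ = t * g := by
        ext x
        rw [Equiv.Perm.mul_apply, htb, hga, hτ]
      rw [h5]
      exact G.mul_mem ht hg
    have hk2 : 2 * Nat.card A ≤ p - 1 := by
      obtain ⟨c, hc⟩ := hkdvd
      have hkne : Nat.card A ≠ p - 1 := by
        intro h
        apply hAne
        apply Subgroup.eq_top_of_card_eq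
        rw [h, Nat.card_eq_fintype_card, ZMod.card_units]
      have hp2 := hp.two_le
      have hc0 : c ≠ 0 := by
        rintro rfl
        rw [Nat.mul_zero] at hc
        omega
      have hc1 : c ≠ 1 := by
        rintro rfl
        rw [Nat.mul_one] at hc
        omega
      have hc2 : 2 ≤ c := by omega
      calc 2 * Nat.card A ≤ c * Nat.card A := Nat.mul_le_mul_right _ hc2
        _ = p - 1 := by rw [hc, mul_comm]
    have hpow : ∀ x y, (σ x - σ y) ^ Nat.card A = (x - y) ^ Nat.card A := by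
      intro x y
      by_cases hxy : x = y
      · rw [hxy, sub_self, sub_self]
      · obtain ⟨g, hg, hgt⟩ := hσ ![x, y]
        obtain ⟨a, b, hgab⟩ := hG hg
        have h0 : σ x = g x := by simpa using hgt 0
        have h1 : σ y = g y := by simpa using hgt 1
        have haA : a ∈ A := by
          obtain ⟨t, ht, htb⟩ := htrans (-b)
          exact ⟨t * g, G.mul_mem ht hg, fun z => by
            rw [Equiv.Perm.mul_apply, htb, hgab]; ring⟩
        have hak : (a : ZMod p) ^ Nat.card A = 1 := by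
          have h5 : (⟨a, haA⟩ : A) ^ Nat.card A = 1 := pow_card_eq_one'
          have h6 : a ^ Nat.card A = 1 := by
            have h7 := congrArg Subtype.val h5
            rwa [Subgroup.coe_pow, Subgroup.coe_one] at h7
          rw [← Units.val_pow_eq_pow_val, h6, Units.val_one]
        rw [h0, h1, hgab, hgab, show (a : ZMod p) * x + b - (↑a * y + b) = ↑a * (x - y) by ring,
          mul_pow, hak, one_mul]
    obtain ⟨α, β, hαβ⟩ := affine_of_diff_pow p (Nat.card A) hk1 hk2 σ hpow
    obtain ⟨g, hg, hgt⟩ := hσ ![0, 1]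
    obtain ⟨a, b, hgab⟩ := hG hg
    have h0 : σ 0 = g 0 := by simpa using hgt 0
    have h1 : σ 1 = g 1 := by simpa using hgt 1
    rw [hαβ, hgab] at h0 h1
    have hb : β = b := by simpa using h0
    have ha : α = a := by rw [hb] at h1; simpa using h1
    have h5 : σ = g := by
      ext x
      rw [hαβ, hgab, ha, hb]
    rw [h5]
    exact hg
  · intro σ t
    by_cases h01 : t 0 = t 1
    · refine ⟨Equiv.addRight (σ (t 0) - t 0), ⟨1, σ (t 0) - t 0, fun x => by simp⟩, fun i => ?_⟩
      have h5 : t i = t 0 := by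
        fin_cases i
        · rfl
        · exact h01.symm
      rw [h5]
      simp
    · have hne : σ (t 0) - σ (t 1) ≠ 0 := fun h => h01 (σ.injective (sub_eq_zero.mp h))
      have hne' : t 0 - t 1 ≠ 0 := sub_ne_zero.mpr h01
      have ha0 : (σ (t 0) - σ (t 1)) / (t 0 - t 1) ≠ 0 := div_ne_zero hne hne'
      have hmul : (σ (t 0) - σ (t 1)) / (t 0 - t 1) * (t 0 - t 1) = σ (t 0) - σ (t 1) := by
        field_simp
      refine ⟨(Equiv.mulLeft₀ _ ha0).trans
        (Equiv.addRight (σ (t 0) - (σ (t 0) - σ (t 1)) / (t 0 - t 1) * t 0)),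
        ⟨Units.mk0 _ ha0, σ (t 0) - (σ (t 0) - σ (t 1)) / (t 0 - t 1) * t 0, fun x => by simp⟩,
        fun i => ?_⟩
      fin_cases i
      · show σ (t 0) = (σ (t 0) - σ (t 1)) / (t 0 - t 1) * t 0 +
          (σ (t 0) - (σ (t 0) - σ (t 1)) / (t 0 - t 1) * t 0)
        ring
      · show σ (t 1) = (σ (t 0) - σ (t 1)) / (t 0 - t 1) * t 1 +
          (σ (t 0) - (σ (t 0) - σ (t 1)) / (t 0 - t 1) * t 0)
        linear_combination hmul
  · intro σ hσ
    have h10 : σ 1 - σ 0 ≠ 0 := fun h => one_ne_zero (σ.injective (sub_eq_zero.mp h))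
    refine ⟨Units.mk0 _ h10, σ 0, fun x => ?_⟩
    obtain ⟨g, ⟨a, b, hgab⟩, hgt⟩ := hσ ![0, 1, x]
    have h0 : σ 0 = g 0 := by simpa using hgt 0
    have h1 : σ 1 = g 1 := by simpa using hgt 1
    have h2 : σ x = g x := by simpa using hgt 2
    rw [hgab] at h0 h1 h2
    rw [Units.val_mk0, h2, h1, h0]
    ring

end Cfsg.Agent.S3518
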