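import Cfsg.Statements.S3524
import Mathlib

set_option autoImplicit false
open Cfsg

namespace Cfsg.Agent.S3524

/-- A permutation group with a base is closed at one level above the base size. Let G be a group of permutations of a set Ω and suppose some k points α₁, …, α_k are fixed simultaneously only by the identity of G (a base of size k). Then G is (k+1)-closed: a permutation of Ω that agrees on every (k+1)-tuple of points with some element of G belongs to G. -/
theorem result {Ω : Type*} (G : Subgroup (Equiv.Perm Ω)) (k : ℕ) (α : Fin k → Ω)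
    (hbase : ∀ g ∈ G, (∀ i, g (α i) = α i) → g = 1) (σ : Equiv.Perm Ω)
    (hσ : ∀ t : Fin (k + 1) → Ω, ∃ g ∈ G, ∀ i, σ (t i) = g (t i)) : σ ∈ G := by
  have key : ∀ x : Ω, ∃ g ∈ G, (∀ i, σ (α i) = g (α i)) ∧ σ x = g x := by
    intro x
    obtain ⟨g, hg, h⟩ := hσ (Fin.snoc α x)
    refine ⟨g, hg, fun i => ?_, ?_⟩
    · simpa using h i.castSucc
    · simpa using h (Fin.last k)
  have uniq : ∀ g₁ ∈ G, ∀ g₂ ∈ G, (∀ i, g₁ (α i) = g₂ (α i)) → g₁ = g₂ := by
    intro g₁ h₁ g₂ h₂ h
    have h1 : g₂⁻¹ * g₁ = 1 :=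
      hbase _ (G.mul_mem (G.inv_mem h₂) h₁) (fun i => by simp [h i])
    have : g₁ = g₂ * (g₂⁻¹ * g₁) := by group
    rw [this, h1, mul_one]
  by_cases hΩ : Nonempty Ω
  · obtain ⟨x₀⟩ := hΩ
    obtain ⟨g, hg, hgα, _⟩ := key x₀
    have hσg : σ = g := by
      ext x
      obtain ⟨g', hg', hgα', hx⟩ := key x
      have := uniq g hg g' hg' (fun i => by rw [← hgα i, ← hgα' i])
      rw [hx, this]
    rw [hσg]; exact hg
  · have : σ = 1 := by
      ext x
      exact (hΩ ⟨x⟩).elim
    rw [this]; exact G.one_mem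

end Cfsg.Agent.S3524
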