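import Cfsg.Statements.S3547
import Mathlib
import Cfsg.Agent.Lib.Helper6.Derangement
-- import your own Cfsg.Agent.* helpers here

set_option autoImplicit false
open Cfsg

namespace Cfsg.Agent.S3547

open MulAction Cfsg.Agent.Lib.Helper6

theorem card_fixedBy_prod {G Ω : Type*} [Group G] [MulAction G Ω] (g : G) :
    Nat.card (fixedBy (Ω × Ω) g) = Nat.card (fixedBy Ω g) * Nat.card (fixedBy Ω g) := by
  rw [← Nat.card_prod]
  apply Nat.card_congr
  exact
    { toFun := fun x => (⟨x.1.1, congrArg Prod.fst x.2⟩, ⟨x.1.2, congrArg Prod.snd x.2⟩)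
      invFun := fun y => ⟨(y.1.1, y.2.1), Prod.ext y.1.2 y.2.2⟩
      left_inv := fun x => rfl
      right_inv := fun y => rfl }


/-- Let G act faithfully and transitively on a finite set Ω, let D be the subgroup generated by the derangements, and let r_G and r_D be the numbers of orbits of G and of D on ordered pairs of points (the permutation ranks). Then r_D − 1 = (r_G − 1)·[G : D]. -/
theorem result {G Ω : Type*} [Group G] [Finite G] [MulAction G Ω] [FaithfulSMul G Ω] [Finite Ω]
    (htrans : MulAction.IsPretransitive G Ω) :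
    Nat.card (MulAction.orbitRel.Quotient ↥(Subgroup.closure {g : G | ∀ ω : Ω, g • ω ≠ ω}) (Ω × Ω)) - 1 =
      (Nat.card (MulAction.orbitRel.Quotient G (Ω × Ω)) - 1) * (Subgroup.closure {g : G | ∀ ω : Ω, g • ω ≠ ω}).index := by
  classical
  set D := Subgroup.closure {g : G | ∀ ω : Ω, g • ω ≠ ω} with hDdef
  have hD : ∀ g : G, (∀ ω : Ω, g • ω ≠ ω) → g ∈ D := fun g hg => Subgroup.subset_closure hg
  rcases isEmpty_or_nonempty Ω with hΩ | hΩ
  · have h1 : IsEmpty (orbitRel.Quotient D (Ω × Ω)) := by
      constructor
      intro q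
      induction q using Quotient.inductionOn' with
      | h x => exact hΩ.elim x.1
    have h2 : IsEmpty (orbitRel.Quotient G (Ω × Ω)) := by
      constructor
      intro q
      induction q using Quotient.inductionOn' with
      | h x => exact hΩ.elim x.1
    rw [Nat.card_of_isEmpty, Nat.card_of_isEmpty]
    simp
  · have : Fintype G := Fintype.ofFinite G
    set f : G → ℕ := fun g => Nat.card (fixedBy (Ω × Ω) g) with hf
    have hBG : ∑ g : G, f g = Nat.card (orbitRel.Quotient G (Ω × Ω)) * Nat.card G := by
      rw [hf, burnside_natCard G (Ω × Ω)]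
    have hBD : ∑ d : D, f (d : G) = Nat.card (orbitRel.Quotient D (Ω × Ω)) * Nat.card D := by
      rw [← burnside_natCard D (Ω × Ω)]
      rfl
    have hsplit : ∑ g : G, f g = ∑ g ∈ Finset.univ.filter (fun g : G => g ∈ D), f g +
        ∑ g ∈ Finset.univ.filter (fun g : G => g ∉ D), f g :=
      (Finset.sum_filter_add_sum_filter_not Finset.univ (fun g : G => g ∈ D) f).symm
    have hsub : ∑ g ∈ Finset.univ.filter (fun g : G => g ∈ D), f g = ∑ d : D, f (d : G) :=
      Finset.sum_subtype (Finset.univ.filter (fun g : G => g ∈ D)) (by simp) f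
    have hone : ∑ g ∈ Finset.univ.filter (fun g : G => g ∉ D), f g =
        (Finset.univ.filter (fun g : G => g ∉ D)).card := by
      rw [Finset.card_eq_sum_ones]
      apply Finset.sum_congr rfl
      intro g hg
      rw [Finset.mem_filter] at hg
      have h1 := der_card_fixedBy D hD g hg.2
      show Nat.card (fixedBy (Ω × Ω) g) = 1
      rw [card_fixedBy_prod, h1]
    have hcardnot : (Finset.univ.filter (fun g : G => g ∉ D)).card + Nat.card D = Nat.card G := by
      have h1 := Finset.card_filter_add_card_filter_not (s := (Finset.univ : Finset G))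
        (fun g : G => g ∈ D)
      have h2 : (Finset.univ.filter (fun g : G => g ∈ D)).card = Nat.card D := by
        rw [Nat.card_eq_fintype_card, Fintype.card_subtype]
      rw [h2, Finset.card_univ, ← Nat.card_eq_fintype_card] at h1
      omega
    have hidx : Nat.card D * D.index = Nat.card G := Subgroup.card_mul_index D
    have hDpos : 0 < Nat.card D := Nat.card_pos
    have hrpos : 0 < Nat.card (orbitRel.Quotient G (Ω × Ω)) := by
      obtain ⟨x⟩ := hΩ
      have : Nonempty (orbitRel.Quotient G (Ω × Ω)) := ⟨Quotient.mk'' (x, x)⟩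
      exact Nat.card_pos
    have hrDpos : 0 < Nat.card (orbitRel.Quotient D (Ω × Ω)) := by
      obtain ⟨x⟩ := hΩ
      have : Nonempty (orbitRel.Quotient D (Ω × Ω)) := ⟨Quotient.mk'' (x, x)⟩
      exact Nat.card_pos
    set r := Nat.card (orbitRel.Quotient G (Ω × Ω)) with hr
    set rD := Nat.card (orbitRel.Quotient D (Ω × Ω)) with hrD
    set m := D.index with hm
    set c := Nat.card D with hc
    rw [hsplit, hsub, hBD, hone] at hBG
    -- rD * c + (|G| - c) = r * |G|, |G| = c * m
    have key : c * (rD + m) = c * (r * m + 1) := by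
      have e1 : rD * c + (Finset.univ.filter (fun g : G => g ∉ D)).card + c = r * (c * m) + c := by
        rw [hidx, ← hBG]
      have e2 : rD * c + (Finset.univ.filter (fun g : G => g ∉ D)).card + c = rD * c + c * m := by
        rw [hidx]
        omega
      rw [e2] at e1
      calc c * (rD + m) = rD * c + c * m := by ring
        _ = r * (c * m) + c := e1
        _ = c * (r * m + 1) := by ring
    have key2 : rD + m = r * m + 1 := Nat.eq_of_mul_eq_mul_left hDpos key
    rw [Nat.sub_mul, one_mul]
    omega

end Cfsg.Agent.S3547
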