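import Cfsg.Statements.S3548
import Mathlib
import Cfsg.Agent.Lib.Helper6.Derangement
import Cfsg.Agent.Lib.Helper6.OrbitIndex
import Cfsg.Agent.Lib.Helper6.SylowSub
-- import your own Cfsg.Agent.* helpers here

set_option autoImplicit false
open Cfsg

namespace Cfsg.Agent.S3548

open MulAction Cfsg.Agent.Lib.Helper6


/-- Let G act faithfully and transitively on a finite set with n ≥ 2 points and let D be the subgroup generated by the derangements. Then the index of D in G divides n − 1, and if it equals n − 1 then n is a prime power. -/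
theorem result {G Ω : Type*} [Group G] [Finite G] [MulAction G Ω] [FaithfulSMul G Ω] [Finite Ω]
    (htrans : MulAction.IsPretransitive G Ω) (hΩ : 2 ≤ Nat.card Ω) :
    (Subgroup.closure {g : G | ∀ ω : Ω, g • ω ≠ ω}).index ∣ Nat.card Ω - 1 ∧
    ((Subgroup.closure {g : G | ∀ ω : Ω, g • ω ≠ ω}).index = Nat.card Ω - 1 → IsPrimePow (Nat.card Ω)) := by
  classical
  set D := Subgroup.closure {g : G | ∀ ω : Ω, g • ω ≠ ω} with hDdef
  have hD : ∀ g : G, (∀ ω : Ω, g • ω ≠ ω) → g ∈ D := fun g hg => Subgroup.subset_closure hg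
  have hΩne : Nonempty Ω := by
    have : 0 < Nat.card Ω := by omega
    exact (Nat.card_pos_iff.mp this).1
  obtain ⟨ω⟩ := hΩne
  -- D is normal
  have hDn : ∀ (g d : G), d ∈ D → g * d * g⁻¹ ∈ D := by
    intro g d hd
    induction hd using Subgroup.closure_induction with
    | mem x hx =>
      apply Subgroup.subset_closure
      intro α h
      apply hx (g⁻¹ • α)
      have h1 : x • (g⁻¹ • α) = g⁻¹ • ((g * x * g⁻¹) • α) := by
        rw [smul_smul, smul_smul]
        congr 1
        group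
      rw [h1, h]
    | one => simp
    | mul x y _ _ hx hy =>
      have e : g * (x * y) * g⁻¹ = (g * x * g⁻¹) * (g * y * g⁻¹) := by group
      rw [e]
      exact mul_mem hx hy
    | inv x _ hx =>
      have e : g * x⁻¹ * g⁻¹ = (g * x * g⁻¹)⁻¹ := by group
      rw [e]
      exact inv_mem hx
  have hDnormal : D.Normal := ⟨fun d hd g => hDn g d hd⟩
  have hDtrans : IsPretransitive D Ω := der_pretransitive D hD
  set H := stabilizer G ω with hH
  -- D ⊔ H = ⊤
  have hsup : H ⊔ D = ⊤ := by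
    rw [eq_top_iff]
    intro g _
    obtain ⟨d, hd⟩ := hDtrans.exists_smul_eq ω (g • ω)
    have h1 : (d : G)⁻¹ * g ∈ H := by
      rw [hH, mem_stabilizer_iff, mul_smul, ← hd]
      show (d : G)⁻¹ • ((d : G) • ω) = ω
      rw [inv_smul_smul]
    have e : g = (d : G) * ((d : G)⁻¹ * g) := by group
    rw [e]
    exact Subgroup.mul_mem _ (Subgroup.mem_sup_right d.2) (Subgroup.mem_sup_left h1)
  have hidx : D.relIndex H = D.index := by
    rw [← Subgroup.relIndex_sup_right H D, hsup, Subgroup.relIndex_top_right]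
  -- two-point stabilizers lie in D
  have htwo : ∀ α : Ω, α ≠ ω → stabilizer G α ⊓ H ≤ D := by
    intro α hα g hg
    obtain ⟨hg1, hg2⟩ := Subgroup.mem_inf.mp hg
    by_contra hnot
    have h1 := der_card_fixedBy D hD g hnot
    rw [Nat.card_eq_one_iff_unique] at h1
    have h2 := h1.1.elim (⟨α, hg1⟩ : fixedBy Ω g) ⟨ω, hg2⟩
    exact hα (congrArg Subtype.val h2)
  have horb : ∀ α : Ω, α ≠ ω → D.index ∣ Nat.card (orbit H α) := by
    intro α hα
    rw [card_orbit_subgroup_eq_relIndex, ← hidx, ← Subgroup.inf_relIndex_right (stabilizer G α) H]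
    exact Subgroup.relIndex_dvd_of_le_left H (htwo α hα)
  have hfixω : ∀ h : H, h • ω = ω := fun h => h.2
  have hpartA : D.index ∣ Nat.card Ω - 1 := dvd_card_sub_one_of_orbits D.index ω hfixω horb
  refine ⟨hpartA, ?_⟩
  intro hm
  -- H is transitive on the other points
  have hHtr : ∀ α β : Ω, α ≠ ω → β ≠ ω → ∃ h ∈ H, h • α = β := by
    intro α β hα hβ
    have hsub : orbit H α ⊆ {γ : Ω | γ ≠ ω} := by
      rintro _ ⟨h, rfl⟩ hh
      apply hα
      have h1 : (h : G) • α = ω := hh
      have h2 : (h : G)⁻¹ • ((h : G) • α) = (h : G)⁻¹ • ω := by rw [h1]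
      rw [inv_smul_smul] at h2
      rw [h2]
      have h3 : (h : G) • ω = ω := h.2
      rw [inv_smul_eq_iff, h3]
    have hc1 : ({γ : Ω | γ ≠ ω} : Set Ω).ncard = Nat.card Ω - 1 := by
      have h1 : ({γ : Ω | γ ≠ ω} : Set Ω) = ({ω} : Set Ω)ᶜ := by
        ext γ
        simp
      rw [h1, Set.ncard_compl, Set.ncard_singleton]
    have hc2 : Nat.card Ω - 1 ≤ (orbit H α).ncard := by
      rw [← hm, ← Nat.card_coe_set_eq]
      apply Nat.le_of_dvd _ (horb α hα)
      have : Nonempty (orbit H α) := ⟨⟨α, mem_orbit_self α⟩⟩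
      exact Nat.card_pos
    have heq := Set.eq_of_subset_of_ncard_le hsub (by rw [hc1]; exact hc2) (Set.toFinite _)
    have hβ' : β ∈ orbit H α := by
      rw [heq]
      exact hβ
    obtain ⟨h, hh⟩ := hβ'
    exact ⟨(h : G), h.2, hh⟩
  -- D ∩ H is trivial
  have hDH : D ⊓ H = ⊥ := by
    rw [Subgroup.eq_bot_iff_forall]
    intro k hk
    apply FaithfulSMul.eq_of_smul_eq_smul (α := Ω)
    intro α
    rw [one_smul]
    by_cases hα : α = ω
    · rw [hα]
      exact (Subgroup.mem_inf.mp hk).2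
    · have hle : stabilizer G α ⊓ H ≤ D ⊓ H := le_inf (htwo α hα) inf_le_right
      have hr1 : (stabilizer G α ⊓ H).relIndex H = Nat.card Ω - 1 := by
        rw [Subgroup.inf_relIndex_right, ← card_orbit_subgroup_eq_relIndex]
        have h1 := horb α hα
        rw [hm] at h1
        have hsub : orbit H α ⊆ {γ : Ω | γ ≠ ω} := by
          rintro _ ⟨h, rfl⟩ hh
          apply hα
          have h1 : (h : G) • α = ω := hh
          have h2 : (h : G)⁻¹ • ((h : G) • α) = (h : G)⁻¹ • ω := by rw [h1]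
          rw [inv_smul_smul] at h2
          rw [h2]
          have h3 : (h : G) • ω = ω := h.2
          rw [inv_smul_eq_iff, h3]
        have hc1 : ({γ : Ω | γ ≠ ω} : Set Ω).ncard = Nat.card Ω - 1 := by
          have h1 : ({γ : Ω | γ ≠ ω} : Set Ω) = ({ω} : Set Ω)ᶜ := by
            ext γ
            simp
          rw [h1, Set.ncard_compl, Set.ncard_singleton]
        have hle2 : Nat.card (orbit H α) ≤ Nat.card Ω - 1 := by
          rw [Nat.card_coe_set_eq, ← hc1]
          exact Set.ncard_le_ncard hsub (Set.toFinite _)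
        have hpos : 0 < Nat.card (orbit H α) := by
          have : Nonempty (orbit H α) := ⟨⟨α, mem_orbit_self α⟩⟩
          exact Nat.card_pos
        exact Nat.le_antisymm hle2 (Nat.le_of_dvd hpos h1)
      have hr2 : (D ⊓ H).relIndex H = Nat.card Ω - 1 := by
        rw [Subgroup.inf_relIndex_right, hidx, hm]
      have hc1 := card_mul_relIndex_of_le (inf_le_right : stabilizer G α ⊓ H ≤ H)
      have hc2 := card_mul_relIndex_of_le (inf_le_right : D ⊓ H ≤ H)
      rw [hr1] at hc1
      rw [hr2, ← hc1] at hc2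
      have hpos : 0 < Nat.card Ω - 1 := by omega
      have hcard : Nat.card (D ⊓ H : Subgroup G) = Nat.card (stabilizer G α ⊓ H : Subgroup G) :=
        Nat.eq_of_mul_eq_mul_right hpos hc2
      have heq := Subgroup.eq_of_le_of_card_ge hle hcard.le
      have hk' : k ∈ stabilizer G α ⊓ H := by rw [heq]; exact hk
      exact (Subgroup.mem_inf.mp hk').1
  -- nonidentity elements of D have the same order
  have hmove : ∀ d ∈ D, d ≠ 1 → d • ω ≠ ω := by
    intro d hd hd1 h
    apply hd1
    have : d ∈ D ⊓ H := Subgroup.mem_inf.mpr ⟨hd, h⟩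
    rw [hDH, Subgroup.mem_bot] at this
    exact this
  have hord : ∀ d₁ ∈ D, ∀ d₂ ∈ D, d₁ ≠ 1 → d₂ ≠ 1 → orderOf d₂ = orderOf d₁ := by
    intro d₁ hd₁ d₂ hd₂ h1 h2
    obtain ⟨h, hh, hhe⟩ := hHtr (d₁ • ω) (d₂ • ω) (hmove d₁ hd₁ h1) (hmove d₂ hd₂ h2)
    have h3 : d₂⁻¹ * (h * d₁ * h⁻¹) ∈ D ⊓ H := by
      refine Subgroup.mem_inf.mpr ⟨Subgroup.mul_mem _ (Subgroup.inv_mem _ hd₂) (hDn h d₁ hd₁), ?_⟩
      rw [hH, mem_stabilizer_iff, mul_smul, mul_smul, mul_smul]
      have h4 : h⁻¹ • ω = ω := by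
        rw [inv_smul_eq_iff]
        exact hh.symm
      rw [h4, hhe, inv_smul_smul]
    rw [hDH, Subgroup.mem_bot] at h3
    have h5 : d₂ = h * d₁ * h⁻¹ := by
      have := congrArg (fun z => d₂ * z) h3
      simpa using this.symm
    rw [h5]
    exact (MulAut.conj h).orderOf_eq d₁
  -- |D| = |Ω|
  have hcardD : Nat.card D = Nat.card Ω := by
    have h1 := card_orbit_subgroup_eq_relIndex D ω
    rw [← hH, ← Subgroup.inf_relIndex_right, inf_comm, hDH, Subgroup.relIndex_bot_left] at h1
    rw [← h1]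
    have h2 : orbit D ω = Set.univ := by
      ext γ
      simp only [Set.mem_univ, iff_true]
      obtain ⟨d, hd⟩ := hDtrans.exists_smul_eq ω γ
      exact ⟨d, hd⟩
    rw [h2]
    exact Nat.card_congr (Equiv.Set.univ Ω)
  obtain ⟨p, hp, hpd⟩ := Nat.exists_prime_and_dvd (show Nat.card Ω ≠ 1 by omega)
  have := Fact.mk hp
  rw [← hcardD] at hpd
  obtain ⟨x, hx⟩ := exists_prime_orderOf_dvd_card' p hpd
  have hx1 : (x : G) ≠ 1 := by
    intro h
    have : x = 1 := Subtype.ext h
    rw [this, orderOf_one] at hx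
    exact hp.one_lt.ne hx
  have hpg : IsPGroup p D := by
    intro d
    refine ⟨1, ?_⟩
    rw [pow_one]
    by_cases hd1 : d = 1
    · rw [hd1, one_pow]
    · have hd1' : (d : G) ≠ 1 := fun h => hd1 (Subtype.ext h)
      have := hord (x : G) x.2 (d : G) d.2 hx1 hd1'
      rw [Subgroup.orderOf_coe, Subgroup.orderOf_coe, hx] at this
      rw [← this]
      exact pow_orderOf_eq_one d
  obtain ⟨k, hk⟩ := hpg.exists_card_eq
  rw [hcardD] at hk
  rw [hk]
  refine ⟨p, k, hp.prime, ?_, rfl⟩
  rcases Nat.eq_zero_or_pos k with rfl | hkpos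
  · rw [pow_zero] at hk
    omega
  · exact hkpos

end Cfsg.Agent.S3548
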