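import Cfsg.Statements.S3573
import Mathlib
-- import your own Cfsg.Agent.* helpers here

set_option autoImplicit false
open Cfsg

namespace Cfsg.Agent.S3573

open Finset in
theorem exists_perm (n r : ℕ) (hr : r.Prime) (hrn : r ≤ n) :
    ∃ σ : Equiv.Perm (Fin n), orderOf σ = r ∧
      (Finset.univ.filter (fun x => σ x = x)).card = n % r := by
  classical
  have ha : n / r ≠ 0 := by
    have := Nat.div_pos hrn hr.pos
    omega
  obtain ⟨σ, hσ⟩ := (Equiv.Perm.exists_with_cycleType_iff (α := Fin n)
    (m := Multiset.replicate (n / r) r)).mpr ⟨by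
      rw [Multiset.sum_replicate, Fintype.card_fin, smul_eq_mul]
      exact Nat.div_mul_le_self n r, fun a ha' => by
      rw [Multiset.eq_of_mem_replicate ha']; exact hr.two_le⟩
  refine ⟨σ, ?_, ?_⟩
  · rw [← Equiv.Perm.lcm_cycleType, hσ]
    apply Nat.dvd_antisymm
    · rw [Multiset.lcm_dvd]
      intro b hb
      rw [Multiset.eq_of_mem_replicate hb]
    · exact Multiset.dvd_lcm (Multiset.mem_replicate.mpr ⟨ha, rfl⟩)
  · have hsupp : σ.support = Finset.univ.filter (fun x => ¬ σ x = x) := by
      ext x; simp [Equiv.Perm.mem_support]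
    have h1 := Finset.card_filter_add_card_filter_not (s := (Finset.univ : Finset (Fin n)))
      (fun x => σ x = x)
    rw [← hsupp, Finset.card_univ, Fintype.card_fin, ← Equiv.Perm.sum_cycleType, hσ,
      Multiset.sum_replicate, smul_eq_mul] at h1
    have h2 := Nat.div_add_mod n r
    have h3 : n / r * r = r * (n / r) := mul_comm _ _
    omega

theorem inv_mod (n r k : ℕ) (hr : r.Prime) (σ : Equiv.Perm (Fin n)) (hσ : orderOf σ = r)
    (s : Finset (Fin n)) (hs : s.image σ = s) (hk : s.card = k)
    (b : ℕ) (hb : (Finset.univ.filter (fun x => σ x = x)).card = b) (hbr : b < r) :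
    k % r ≤ b := by
  classical
  haveI : Fact r.Prime := ⟨hr⟩
  have hf : ∀ x, σ x ∈ s ↔ x ∈ s := by
    intro x
    constructor
    · intro h
      rw [← hs, Finset.mem_image] at h
      obtain ⟨y, hy, hyx⟩ := h
      rw [← σ.injective hyx]; exact hy
    · intro h
      rw [← hs]; exact Finset.mem_image_of_mem _ h
  have hpow : σ ^ r = 1 := by rw [← hσ]; exact pow_orderOf_eq_one σ
  obtain ⟨σ', hσ'⟩ : ∃ σ' : Equiv.Perm {x // x ∈ s}, σ' = σ.subtypePerm hf := ⟨_, rfl⟩
  have h' : σ' ^ r ^ 1 = 1 := by
    rw [pow_one, hσ', Equiv.Perm.subtypePerm_pow]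
    ext x
    simp [hpow]
  have hmod := Equiv.Perm.card_compl_support_modEq h'
  rw [Fintype.card_coe, hk] at hmod
  have hle : σ'.supportᶜ.card ≤ b := by
    rw [← hb]
    apply Finset.card_le_card_of_injOn (fun x : {x // x ∈ s} => (x : Fin n))
    · intro x hx
      have hx' : x ∉ σ'.support := by simpa using hx
      rw [Equiv.Perm.notMem_support, hσ'] at hx'
      have : (σ.subtypePerm hf x : Fin n) = x := congrArg Subtype.val hx'
      simp only [Finset.coe_filter, Finset.mem_univ, true_and, Set.mem_setOf_eq]
      exact this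
    · intro x _ y _ h
      exact Subtype.ext h
  have h4 : k % r = σ'.supportᶜ.card % r := hmod.symm
  rw [h4, Nat.mod_eq_of_lt (lt_of_le_of_lt hle hbr)]
  exact hle

theorem exists_inv (n r k : ℕ) (hr : r.Prime) (hkn : k ≤ n) (hmod : k % r ≤ n % r)
    (σ : Equiv.Perm (Fin n)) (hσ : orderOf σ = r) :
    ∃ s : Finset (Fin n), s.card = k ∧ s.image σ = s := by
  classical
  obtain ⟨m, hm⟩ := Equiv.Perm.cycleType_prime_order (σ := σ) (by rw [hσ]; exact hr)
  have hM : σ.support.card = (m + 1) * r := by
    rw [← Equiv.Perm.sum_cycleType, hm, Multiset.sum_replicate, smul_eq_mul, hσ]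
  have hsupp : σ.support = Finset.univ.filter (fun x => ¬ σ x = x) := by
    ext x; simp [Equiv.Perm.mem_support]
  have hFx := Finset.card_filter_add_card_filter_not (s := (Finset.univ : Finset (Fin n)))
    (fun x => σ x = x)
  rw [← hsupp, Finset.card_univ, Fintype.card_fin, hM] at hFx
  -- invariant unions of cycles
  have hU : ∀ j : ℕ, j * r ≤ (m + 1) * r → ∃ U : Finset (Fin n), U ⊆ σ.support ∧
      (∀ x ∈ U, σ x ∈ U) ∧ U.card = j * r := by
    intro j
    induction j with
    | zero => intro _; exact ⟨∅, Finset.empty_subset _, by simp, by simp⟩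
    | succ j ih =>
      intro hj
      have hj' : j * r ≤ (m + 1) * r := by
        have : (j + 1) * r = j * r + r := by ring
        omega
      obtain ⟨U, hUs, hUinv, hUc⟩ := ih hj'
      have hlt : U.card < σ.support.card := by
        rw [hUc, hM]
        have : (j + 1) * r = j * r + r := by ring
        have := hr.pos
        omega
      obtain ⟨x, hxs, hxU⟩ := Finset.exists_mem_notMem_of_card_lt_card hlt
      have hx : σ x ≠ x := Equiv.Perm.mem_support.mp hxs
      have hcyc := Equiv.Perm.isCycle_cycleOf σ hx
      have hCcard : (σ.cycleOf x).support.card = r := by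
        rw [← hcyc.orderOf]
        have hdvd := Equiv.Perm.orderOf_cycleOf_dvd_orderOf σ x
        rw [hσ] at hdvd
        rcases (Nat.dvd_prime hr).mp hdvd with h1 | h1
        · exfalso
          have := hcyc.two_le_card_support
          rw [← hcyc.orderOf, h1] at this
          omega
        · exact h1
      have hpowinv : ∀ i : ℕ, ∀ y ∈ U, (σ ^ i) y ∈ U := by
        intro i
        induction i with
        | zero => intro y hy; simpa using hy
        | succ i ih2 =>
          intro y hy
          rw [pow_succ', Equiv.Perm.mul_apply]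
          exact hUinv _ (ih2 y hy)
      have hdisj : Disjoint U (σ.cycleOf x).support := by
        rw [Finset.disjoint_left]
        intro y hyU hyC
        rw [Equiv.Perm.mem_support_cycleOf_iff' hx] at hyC
        obtain ⟨i, _, hi⟩ := hyC.symm.exists_pow_eq'
        apply hxU
        rw [← hi]
        exact hpowinv i y hyU
      refine ⟨U ∪ (σ.cycleOf x).support, ?_, ?_, ?_⟩
      · exact Finset.union_subset hUs (Equiv.Perm.support_cycleOf_le σ x)
      · intro y hy
        rcases Finset.mem_union.mp hy with h | h
        · exact Finset.mem_union_left _ (hUinv y h)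
        · apply Finset.mem_union_right
          rw [Equiv.Perm.mem_support_cycleOf_iff' hx] at h ⊢
          exact Equiv.Perm.sameCycle_apply_right.mpr h
      · rw [Finset.card_union_of_disjoint hdisj, hUc, hCcard]; ring
  -- choose the numbers
  have hrpos := hr.pos
  have hn := Nat.div_add_mod n r
  have hk := Nat.div_add_mod k r
  have hbr := Nat.mod_lt n hrpos
  have hdr := Nat.mod_lt k hrpos
  have hMn : (m + 1) * r ≤ n := by omega
  have hma : m + 1 ≤ n / r := by
    by_contra hcon
    have h1 : n / r + 1 ≤ m + 1 := by omega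
    have h2 := Nat.mul_le_mul_right r h1
    have h3 : (n / r + 1) * r = r * (n / r) + r := by ring
    omega
  have hMa : (m + 1) * r ≤ r * (n / r) := by
    have := Nat.mul_le_mul_right r hma
    have h3 : n / r * r = r * (n / r) := mul_comm _ _
    omega
  have hchoice : ∃ j e : ℕ, j * r ≤ (m + 1) * r ∧ j * r + e = k ∧ (m + 1) * r + e ≤ n := by
    by_cases hc : k / r ≤ m + 1
    · refine ⟨k / r, k % r, Nat.mul_le_mul_right r hc, ?_, ?_⟩
      · have h3 : k / r * r = r * (k / r) := mul_comm _ _
        omega
      · omega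
    · refine ⟨m + 1, k - (m + 1) * r, le_refl _, ?_, ?_⟩
      · have h1 : m + 1 ≤ k / r := by omega
        have h2 := Nat.mul_le_mul_right r h1
        have h3 : k / r * r = r * (k / r) := mul_comm _ _
        omega
      · have h1 : m + 1 ≤ k / r := by omega
        have h2 := Nat.mul_le_mul_right r h1
        have h3 : k / r * r = r * (k / r) := mul_comm _ _
        omega
  obtain ⟨j, e, hj, hje, hen⟩ := hchoice
  obtain ⟨U, hUs, hUinv, hUc⟩ := hU j hj
  have heF : e ≤ (Finset.univ.filter (fun x => σ x = x)).card := by omega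
  obtain ⟨F, hFs, hFc⟩ := Finset.exists_subset_card_eq heF
  have hdisj : Disjoint F U := by
    rw [Finset.disjoint_left]
    intro y hyF hyU
    have h1 : σ y = y := (Finset.mem_filter.mp (hFs hyF)).2
    exact (Equiv.Perm.mem_support.mp (hUs hyU)) h1
  refine ⟨F ∪ U, ?_, ?_⟩
  · rw [Finset.card_union_of_disjoint hdisj, hFc, hUc]; omega
  · apply Finset.eq_of_subset_of_card_le
    · rw [Finset.image_subset_iff]
      intro y hy
      rcases Finset.mem_union.mp hy with h | h
      · have h1 : σ y = y := (Finset.mem_filter.mp (hFs h)).2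
        rw [h1]; exact Finset.mem_union_left _ h
      · exact Finset.mem_union_right _ (hUinv y h)
    · rw [Finset.card_image_of_injective _ σ.injective]

theorem le_of_mod (n k r : ℕ) (hr : r.Prime) (hrd : r ∣ Nat.choose n k)
    (hmod : k % r ≤ n % r) : r ≤ k := by
  haveI : Fact r.Prime := ⟨hr⟩
  by_contra hlt
  push_neg at hlt
  have h1 := Choose.choose_modEq_choose_mod_mul_choose_div_nat (n := n) (k := k) (p := r)
  rw [Nat.mod_eq_of_lt hlt, Nat.div_eq_of_lt hlt, Nat.choose_zero_right, mul_one] at h1
  rw [Nat.mod_eq_of_lt hlt] at hmod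
  have h2 : r ∣ Nat.choose (n % r) k := by
    rw [Nat.dvd_iff_mod_eq_zero]
    have h3 : Nat.choose n k % r = Nat.choose (n % r) k % r := h1
    rw [← h3]
    exact Nat.mod_eq_zero_of_dvd hrd
  have h4 : Nat.choose (n % r) k ∣ (n % r).factorial :=
    Dvd.intro _ (by
      have := Nat.choose_mul_factorial_mul_factorial hmod
      rw [mul_assoc] at this
      exact this)
  have h5 : r ≤ n % r := (hr.dvd_factorial).mp (dvd_trans h2 h4)
  have := Nat.mod_lt n hr.pos
  omega

/-- Let 1 ≤ k with 2k < n and consider the symmetric group of degree n acting on the k-subsets of an n-set. Let r be a prime dividing the number C(n,k) of k-subsets. If r is odd, then every permutation of order r fixes some k-subset if and only if r ≤ k and the remainder of k modulo r is at most the remainder of n modulo r. If r = 2, then every involution fixes some k-subset if and only if k is even or n is odd. -/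
theorem result (n k : ℕ) (hk : 1 ≤ k) (hkn : 2 * k < n) (r : ℕ) (hr : r.Prime) (hrd : r ∣ Nat.choose n k) :
    (r ≠ 2 → ((∀ σ : Equiv.Perm (Fin n), orderOf σ = r → ∃ s : Finset (Fin n), s.card = k ∧ s.image σ = s) ↔
      (r ≤ k ∧ k % r ≤ n % r))) ∧
    (r = 2 → ((∀ σ : Equiv.Perm (Fin n), orderOf σ = 2 → ∃ s : Finset (Fin n), s.card = k ∧ s.image σ = s) ↔
      (Even k ∨ Odd n))) := by
  classical
  have hkn' : k ≤ n := by omega
  have hrn : r ≤ n := by
    have h4 : Nat.choose n k ∣ n.factorial :=
      Dvd.intro _ (by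
        have := Nat.choose_mul_factorial_mul_factorial hkn'
        rw [mul_assoc] at this
        exact this)
    exact (hr.dvd_factorial).mp (dvd_trans hrd h4)
  have key : (∀ σ : Equiv.Perm (Fin n), orderOf σ = r →
      ∃ s : Finset (Fin n), s.card = k ∧ s.image σ = s) ↔ k % r ≤ n % r := by
    constructor
    · intro h
      obtain ⟨σ, hσ, hfix⟩ := exists_perm n r hr hrn
      obtain ⟨s, hsk, hsi⟩ := h σ hσ
      exact inv_mod n r k hr σ hσ s hsi hsk (n % r) hfix (Nat.mod_lt n hr.pos)
    · intro h σ hσ
      exact exists_inv n r k hr hkn' h σ hσ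
  constructor
  · intro _
    rw [key]
    constructor
    · intro h
      exact ⟨le_of_mod n k r hr hrd h, h⟩
    · intro h
      exact h.2
  · intro h2
    subst h2
    rw [key, Nat.even_iff, Nat.odd_iff]
    omega

end Cfsg.Agent.S3573
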