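import Cfsg.Statements.S3619
import Mathlib
-- import your own Cfsg.Agent.* helpers here

set_option autoImplicit false
open Cfsg

namespace Cfsg.Agent.S3619

open scoped Pointwise in
theorem isPreprimitive_of_quasi {G Ω : Type*} [Group G] [Finite G] [MulAction G Ω] [Finite Ω]
    (hqp : ∀ N : Subgroup G, N.Normal → N ≠ ⊥ → MulAction.IsPretransitive ↥N Ω)
    (Γ : Set Ω) (hΓ1 : 1 < Γ.ncard)
    (hJ : MulAction.IsPretransitive ↥(fixingSubgroup G Γᶜ) ↥(SubMulAction.ofFixingSubgroup G Γᶜ))
    (hJp : MulAction.IsPreprimitive ↥(fixingSubgroup G Γᶜ)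
      ↥(SubMulAction.ofFixingSubgroup G Γᶜ)) :
    MulAction.IsPreprimitive G Ω := by
  classical
  obtain ⟨a₀, b₀, ha₀, hb₀, hab⟩ := (Set.one_lt_ncard_iff (Set.toFinite Γ)).mp hΓ1
  have hmemY : ∀ x : Ω, x ∈ SubMulAction.ofFixingSubgroup G Γᶜ ↔ x ∈ Γ := by
    intro x
    rw [SubMulAction.mem_ofFixingSubgroup_iff]
    simp
  obtain ⟨h₀, hh₀⟩ := hJ.exists_smul_eq ⟨a₀, (hmemY a₀).2 ha₀⟩ ⟨b₀, (hmemY b₀).2 hb₀⟩
  have hh₀' : (h₀ : G) • a₀ = b₀ := congrArg Subtype.val hh₀
  have hfix : ∀ (h : fixingSubgroup G Γᶜ) (z : Ω), z ∉ Γ → (h : G) • z = z := by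
    intro h z hz
    exact (mem_fixingSubgroup_iff G).mp h.2 z hz
  have hGtr : MulAction.IsPretransitive G Ω := by
    have htop : (⊤ : Subgroup G) ≠ ⊥ := by
      intro h
      have : (h₀ : G) ∈ (⊥ : Subgroup G) := h ▸ Subgroup.mem_top _
      rw [Subgroup.mem_bot] at this
      rw [this, one_smul] at hh₀'
      exact hab hh₀'
    have := hqp ⊤ inferInstance htop
    constructor
    intro x y
    obtain ⟨g, hg⟩ := this.exists_smul_eq x y
    exact ⟨g, hg⟩
  have key : ∀ B : Set Ω, MulAction.IsBlock G B → a₀ ∈ B → (∃ a' ∈ B, a' ≠ a₀) →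
      B = Set.univ := by
    intro B hB ha hex
    have hBH : MulAction.IsBlock (fixingSubgroup G Γᶜ) B := hB.subgroup
    have hBY : MulAction.IsBlock (fixingSubgroup G Γᶜ)
        ((SubMulAction.ofFixingSubgroup G Γᶜ).inclusion ⁻¹' B) :=
      MulAction.IsBlock.preimage _ hBH
    rcases hJp.isTrivialBlock_of_isBlock hBY with hsub | htop
    · exfalso
      obtain ⟨a', ha', hne⟩ := hex
      have ha'Γ : a' ∉ Γ := by
        intro h
        have := @hsub ⟨a', (hmemY a').2 h⟩ ha' ⟨a₀, (hmemY a₀).2 ha₀⟩ ha
        exact hne (congrArg Subtype.val this)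
      have h1 : (h₀ : G) • a' = a' := hfix h₀ a' ha'Γ
      have h2 : (h₀ : G) • B = B := by
        rcases hB.smul_eq_or_disjoint (h₀ : G) with h | h
        · exact h
        · exfalso
          exact Set.disjoint_left.mp h (by rw [← h1]; exact Set.smul_mem_smul_set ha') ha'
      have hb₀B : b₀ ∈ B := by
        rw [← h2, ← hh₀']; exact Set.smul_mem_smul_set ha
      have := @hsub ⟨b₀, (hmemY b₀).2 hb₀⟩ hb₀B ⟨a₀, (hmemY a₀).2 ha₀⟩ ha
      exact hab (congrArg Subtype.val this).symm
    · have hΓB : Γ ⊆ B := by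
        intro z hz
        have : (⟨z, (hmemY z).2 hz⟩ : SubMulAction.ofFixingSubgroup G Γᶜ) ∈
            ((SubMulAction.ofFixingSubgroup G Γᶜ).inclusion ⁻¹' B) := by
          rw [htop]; trivial
        exact this
      let N : Subgroup G := ⨅ g : G, MulAction.stabilizer G (g • B)
      have hNn : N.Normal := by
        constructor
        intro n hn x
        rw [Subgroup.mem_iInf] at hn ⊢
        intro g
        rw [MulAction.mem_stabilizer_iff]
        have := hn (x⁻¹ * g)
        rw [MulAction.mem_stabilizer_iff] at this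
        calc (x * n * x⁻¹) • g • B = x • (n • ((x⁻¹ * g) • B)) := by simp only [mul_smul]
          _ = x • ((x⁻¹ * g) • B) := by rw [this]
          _ = g • B := by rw [← mul_smul, mul_inv_cancel_left]
      have hHN : ∀ h : fixingSubgroup G Γᶜ, (h : G) ∈ N := by
        intro h
        rw [Subgroup.mem_iInf]
        intro g
        rw [MulAction.mem_stabilizer_iff]
        rcases hB.smul_eq_or_disjoint g with hg | hg
        · rw [hg]
          rcases hB.smul_eq_or_disjoint (h : G) with h' | h'
          · exact h'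
          · exfalso
            have h3 : (h : G) • a₀ ∈ Γ := by
              by_contra hn
              have := hfix h _ hn
              rw [smul_left_cancel_iff] at this
              exact hn (by rw [this]; exact ha₀)
            exact Set.disjoint_left.mp h' (Set.smul_mem_smul_set ha) (hΓB h3)
        · ext z
          constructor
          · rintro ⟨w, hw, rfl⟩
            have hwΓ : w ∉ Γ := fun hwΓ => Set.disjoint_left.mp hg hw (hΓB hwΓ)
            show (h : G) • w ∈ g • B
            rw [hfix h w hwΓ]; exact hw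
          · intro hz
            have hzΓ : z ∉ Γ := fun hzΓ => Set.disjoint_left.mp hg hz (hΓB hzΓ)
            exact ⟨z, hz, hfix h z hzΓ⟩
      have hNbot : N ≠ ⊥ := by
        intro h
        have := hHN h₀
        rw [h, Subgroup.mem_bot] at this
        rw [this, one_smul] at hh₀'
        exact hab hh₀'
      have hNtr := hqp N hNn hNbot
      ext ω
      simp only [Set.mem_univ, iff_true]
      obtain ⟨n, hn⟩ := hNtr.exists_smul_eq a₀ ω
      have hnB : (n : G) • B = B := by
        have := (Subgroup.mem_iInf.mp n.2) 1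
        rw [MulAction.mem_stabilizer_iff, one_smul] at this
        exact this
      have hn' : (n : G) • a₀ = ω := hn
      rw [← hnB, ← hn']
      exact Set.smul_mem_smul_set ha
  refine { toIsPretransitive := hGtr, isTrivialBlock_of_isBlock := ?_ }
  intro B hB
  by_contra htriv
  rw [MulAction.IsTrivialBlock, not_or] at htriv
  obtain ⟨hns, hnt⟩ := htriv
  rw [Set.not_subsingleton_iff] at hns
  obtain ⟨x, hx, y, hy, hxy⟩ := hns
  obtain ⟨g, hg⟩ := hGtr.exists_smul_eq x a₀
  have h1 := key (g • B) (hB.translate g) ⟨x, hx, hg⟩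
    ⟨g • y, Set.smul_mem_smul_set hy, fun h => hxy (by
      rw [← hg] at h; exact (smul_left_cancel g h).symm)⟩
  apply hnt
  ext ω
  simp only [Set.mem_univ, iff_true]
  have : g • ω ∈ g • B := by rw [h1]; trivial
  exact (Set.smul_mem_smul_set_iff).mp this

/-- Let G act faithfully on a finite set in such a way that every non-trivial normal subgroup of G is transitive (G is quasiprimitive). Let Γ be a subset with more than one point and not the whole set, such that the pointwise stabilizer of the complement of Γ acts transitively on Γ (a Jordan set). If that pointwise stabilizer acts primitively on Γ, then G is k-fold transitive where k is one more than the number of points outside Γ (the Jordan set is a trivial one). -/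
theorem result {G Ω : Type*} [Group G] [Finite G] [MulAction G Ω] [FaithfulSMul G Ω] [Finite Ω]
    (hqp : ∀ N : Subgroup G, N.Normal → N ≠ ⊥ → MulAction.IsPretransitive ↥N Ω)
    (Γ : Set Ω) (hΓ1 : 1 < Γ.ncard) (hΓ2 : Γ.ncard < Nat.card Ω)
    (hJ : MulAction.IsPretransitive ↥(fixingSubgroup G Γᶜ) ↥(SubMulAction.ofFixingSubgroup G Γᶜ))
    (hJp : MulAction.IsPreprimitive ↥(fixingSubgroup G Γᶜ) ↥(SubMulAction.ofFixingSubgroup G Γᶜ)) :
    MulAction.IsMultiplyPretransitive G Ω (Nat.card Ω - Γ.ncard + 1) := by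
  have hprim := isPreprimitive_of_quasi hqp Γ hΓ1 hJ hJp
  have hcard : (Γᶜ).ncard = (Nat.card Ω - Γ.ncard - 1) + 1 := by
    rw [Set.ncard_compl]
    omega
  have hlt : (Nat.card Ω - Γ.ncard - 1) + 2 < Nat.card Ω := by omega
  have h3 := hprim.isMultiplyPreprimitive hcard hlt hJp
  have h2 : Nat.card Ω - Γ.ncard - 1 + 2 = Nat.card Ω - Γ.ncard + 1 := by omega
  rw [h2] at h3
  exact MulAction.IsMultiplyPreprimitive.isMultiplyPretransitive G Ω _

end Cfsg.Agent.S3619
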