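import Cfsg.Statements.S3622
import Mathlib

set_option autoImplicit false
open Cfsg

namespace Cfsg.Agent.S3622

/-- Let G be a group of permutations of a finite set, m ≥ 2, and α a point. Say a permutation σ is k-approximated by a set S of permutations if for every k points there is a member of S agreeing with σ at those points. Suppose every permutation that is (m-1)-approximated by the stabilizer of α in G lies in that stabilizer (the stabilizer is (m-1)-closed). Then every permutation that is m-approximated by G lies in G (G is m-closed). -/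
theorem result {Ω : Type*} [Finite Ω] (G : Subgroup (Equiv.Perm Ω)) (m : ℕ) (hm : 2 ≤ m) (α : Ω)
    (hclosed : ∀ σ : Equiv.Perm Ω,
      (∀ t : Fin (m - 1) → Ω, ∃ g ∈ MulAction.stabilizer ↥G α, ∀ i, (g : Equiv.Perm Ω) (t i) = σ (t i)) →
      σ ∈ G ∧ σ α = α) :
    ∀ σ : Equiv.Perm Ω, (∀ t : Fin m → Ω, ∃ g ∈ G, ∀ i, g (t i) = σ (t i)) → σ ∈ G := by
  obtain ⟨n, rfl⟩ : ∃ n, m = n + 1 := ⟨m - 1, by omega⟩
  replace hclosed : ∀ σ : Equiv.Perm Ω,
      (∀ t : Fin n → Ω, ∃ g ∈ MulAction.stabilizer ↥G α, ∀ i, (g : Equiv.Perm Ω) (t i) = σ (t i)) →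
      σ ∈ G ∧ σ α = α := hclosed
  intro σ hσ
  obtain ⟨g, hg, hgα⟩ := hσ (fun _ => α)
  have hgα' : g α = σ α := hgα 0
  have hτ : g⁻¹ * σ ∈ G ∧ (g⁻¹ * σ) α = α := by
    apply hclosed
    intro t
    obtain ⟨g', hg', h'⟩ := hσ (Fin.cons α t)
    have h0 : g' α = σ α := by simpa using h' 0
    refine ⟨⟨g⁻¹ * g', G.mul_mem (G.inv_mem hg) hg'⟩, ?_, ?_⟩
    · rw [MulAction.mem_stabilizer_iff]
      change (g⁻¹ * g') α = α
      rw [Equiv.Perm.mul_apply, h0, ← hgα']
      simp
    · intro i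
      have hi : g' (t i) = σ (t i) := by simpa using h' i.succ
      change (g⁻¹ * g') (t i) = (g⁻¹ * σ) (t i)
      rw [Equiv.Perm.mul_apply, Equiv.Perm.mul_apply, hi]
  have : σ = g * (g⁻¹ * σ) := by group
  rw [this]
  exact G.mul_mem hg hτ.1

end Cfsg.Agent.S3622
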