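import Cfsg.Statements.S3633
import Mathlib
import Cfsg.Agent.Lib.Helper6.FrobAvg
import Cfsg.Agent.Lib.Helper5.ElemAbNormal
-- import your own Cfsg.Agent.* helpers here

set_option autoImplicit false
open Cfsg

namespace Cfsg.Agent.S3633

universe u


/-- A prime `m` dividing the order of `H` still divides the order of its image modulo a normal
subgroup of prime exponent `ℓ ≠ m`. -/
theorem dvd_card_map {G : Type*} [Group G] [Finite G] (V : Subgroup G) [V.Normal] (l : ℕ)
    (hl : l.Prime) (hexp : ∀ x ∈ V, x ^ l = 1) (m : ℕ) (hm : m.Prime) (hml : m ≠ l)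
    (H : Subgroup G) (hmH : m ∣ Nat.card H) :
    m ∣ Nat.card (H.map (QuotientGroup.mk' V)) := by
  haveI : Fact m.Prime := ⟨hm⟩
  obtain ⟨x, hx⟩ := exists_prime_orderOf_dvd_card' m hmH
  have hx0 : orderOf (x : G) = m := by rw [Subgroup.orderOf_coe]; exact hx
  have h1 : orderOf (QuotientGroup.mk' V (x : G)) ∣ m := by
    rw [← hx0]; exact orderOf_map_dvd _ _
  have h2 : orderOf (QuotientGroup.mk' V (x : G)) = m := by
    rcases (Nat.dvd_prime hm).mp h1 with h | h
    · exfalso
      rw [orderOf_eq_one_iff] at h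
      have hxV : (x : G) ∈ V := (QuotientGroup.eq_one_iff _).mp h
      have h3 := hexp _ hxV
      have h4 : m ∣ l := by rw [← hx0]; exact orderOf_dvd_of_pow_eq_one h3
      exact hml ((Nat.prime_dvd_prime_iff_eq hm hl).mp h4)
    · exact h
  have hmem : QuotientGroup.mk' V (x : G) ∈ H.map (QuotientGroup.mk' V) :=
    Subgroup.mem_map_of_mem _ x.2
  have h5 := orderOf_dvd_natCard (⟨_, hmem⟩ : H.map (QuotientGroup.mk' V))
  rw [Subgroup.orderOf_mk, h2] at h5
  exact h5

theorem dvd_card_quot {G : Type*} [Group G] [Finite G] (V : Subgroup G) [V.Normal] (l : ℕ)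
    (hl : l.Prime) (hexp : ∀ x ∈ V, x ^ l = 1) (m : ℕ) (hm : m.Prime) (hml : m ≠ l)
    (hmG : m ∣ Nat.card G) : m ∣ Nat.card (G ⧸ V) := by
  have h1 := dvd_card_map V l hl hexp m hm hml ⊤ (by rw [Subgroup.card_top]; exact hmG)
  rw [Subgroup.map_top_of_surjective _ (QuotientGroup.mk'_surjective V), Subgroup.card_top] at h1
  exact h1

theorem dvd_card_comap {G : Type*} [Group G] [Finite G] (V : Subgroup G) [V.Normal]
    (M' : Subgroup (G ⧸ V)) (m : ℕ) (hm : m ∣ Nat.card M') :
    m ∣ Nat.card (M'.comap (QuotientGroup.mk' V)) := by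
  have h1 : (M'.comap (QuotientGroup.mk' V)).map (QuotientGroup.mk' V) = M' :=
    Subgroup.map_comap_eq_self_of_surjective (QuotientGroup.mk'_surjective V) M'
  have h2 := Subgroup.card_dvd_of_surjective
    ((QuotientGroup.mk' V).subgroupMap (M'.comap (QuotientGroup.mk' V)))
    (MonoidHom.subgroupMap_surjective _ _)
  rw [h1] at h2
  exact hm.trans h2

theorem card_quot_lt {G : Type*} [Group G] [Finite G] (V : Subgroup G) [V.Normal] (hV : V ≠ ⊥) :
    Nat.card (G ⧸ V) < Nat.card G := by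
  have h1 := Subgroup.card_mul_index V
  have h2 : 1 < Nat.card V := by
    have h3 : Nat.card V ≠ 1 := fun h => hV (Subgroup.card_eq_one.mp h)
    have h5 : 0 < Nat.card V := Nat.card_pos
    omega
  have h4 : V.index ≠ 0 := Subgroup.index_ne_zero_of_finite
  have h6 : Nat.card (G ⧸ V) = V.index := rfl
  rw [h6]
  have h7 : 0 < V.index := Nat.pos_of_ne_zero h4
  nlinarith

theorem solvable_map {G : Type*} [Group G] (V : Subgroup G) [V.Normal] (K : Subgroup G)
    (hK : Group.IsSolvable K) : Group.IsSolvable (K.map (QuotientGroup.mk' V)) :=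
  Group.isSolvable_of_surjective (MonoidHom.subgroupMap_surjective (QuotientGroup.mk' V) K)

theorem exists_split : ∀ (n : ℕ) (G : Type u) [Group G] [Finite G] (K : Subgroup G) [K.Normal],
    Nat.card G = n → Group.IsSolvable K → ∀ (m l : ℕ), m.Prime → l.Prime → m ≠ l →
    m ∣ Nat.card G → l ∣ Nat.card G → (m ∣ Nat.card K ∨ l ∣ Nat.card K) →
    ∃ M : Subgroup G, M.Normal ∧
      ((m ∣ Nat.card M ∧ l ∣ M.index) ∨ (l ∣ Nat.card M ∧ m ∣ M.index)) := by
  intro n
  induction n using Nat.strong_induction_on with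
  | _ n ih =>
  intro G _ _ K _ hn hK m l hm hl hml hmG hlG hmlK
  have hKbot : K ≠ ⊥ := by
    rintro rfl
    rw [Subgroup.card_bot] at hmlK
    rcases hmlK with h | h
    · exact hm.one_lt.ne' (Nat.dvd_one.mp h)
    · exact hl.one_lt.ne' (Nat.dvd_one.mp h)
  obtain ⟨V, t, hVn, ht, hVK, hVbot, hVcomm, hVexp⟩ :=
    Cfsg.Agent.Lib.Helper5.exists_normal_exponent_prime_of_solvable K hKbot hK
  haveI := hVn
  haveI : Fact t.Prime := ⟨ht⟩
  have hVp : IsPGroup t V := by
    intro g
    exact ⟨1, by rw [pow_one]; exact Subtype.ext (hVexp g g.2)⟩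
  obtain ⟨k, hk⟩ := IsPGroup.iff_card.mp hVp
  have hk0 : k ≠ 0 := by
    rintro rfl
    rw [pow_zero] at hk
    exact hVbot (Subgroup.card_eq_one.mp hk)
  have hidx : ∀ s : ℕ, s.Prime → s ≠ t → s ∣ Nat.card G → s ∣ V.index := by
    intro s hs hst hsG
    rw [← Subgroup.card_mul_index V, hk] at hsG
    have hcop : Nat.Coprime s (t ^ k) := Nat.Coprime.pow_right _ ((Nat.coprime_primes hs ht).mpr hst)
    exact hcop.dvd_of_dvd_mul_left hsG
  by_cases htm : t = m
  · refine ⟨V, hVn, Or.inl ⟨?_, hidx l hl (fun h => hml (htm.symm ▸ h.symm)) hlG⟩⟩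
    rw [hk, htm]; exact dvd_pow_self m hk0
  by_cases htl : t = l
  · refine ⟨V, hVn, Or.inr ⟨?_, hidx m hm (fun h => hml (htl ▸ h)) hmG⟩⟩
    rw [hk, htl]; exact dvd_pow_self l hk0
  have hmt : m ≠ t := fun h => htm h.symm
  have hlt : l ≠ t := fun h => htl h.symm
  have hlt' : Nat.card (G ⧸ V) < n := hn ▸ card_quot_lt V hVbot
  haveI : (K.map (QuotientGroup.mk' V)).Normal :=
    Subgroup.Normal.map inferInstance _ (QuotientGroup.mk'_surjective V)
  obtain ⟨M', hM'n, hM'⟩ := ih _ hlt' (G ⧸ V) (K.map (QuotientGroup.mk' V)) rfl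
    (solvable_map V K hK) m l hm hl hml
    (dvd_card_quot V t ht hVexp m hm hmt hmG) (dvd_card_quot V t ht hVexp l hl hlt hlG)
    (by
      rcases hmlK with h | h
      · exact Or.inl (dvd_card_map V t ht hVexp m hm hmt K h)
      · exact Or.inr (dvd_card_map V t ht hVexp l hl hlt K h))
  refine ⟨M'.comap (QuotientGroup.mk' V), hM'n.comap _, ?_⟩
  rw [Subgroup.index_comap_of_surjective M' (QuotientGroup.mk'_surjective V)]
  rcases hM' with ⟨h1, h2⟩ | ⟨h1, h2⟩
  · exact Or.inl ⟨dvd_card_comap V M' m h1, h2⟩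
  · exact Or.inr ⟨dvd_card_comap V M' l h1, h2⟩

theorem lift_order {G : Type*} [Group G] [Finite G] (V : Subgroup G) [V.Normal] (d : ℕ)
    (h : ∃ y : G ⧸ V, orderOf y = d) : ∃ x : G, orderOf x = d := by
  obtain ⟨y, hy⟩ := h
  obtain ⟨x, rfl⟩ := QuotientGroup.mk'_surjective V y
  have h1 : d ∣ orderOf x := by rw [← hy]; exact orderOf_map_dvd _ _
  exact ⟨x ^ (orderOf x / d), orderOf_pow_orderOf_div (orderOf_pos x).ne' h1⟩

theorem three_solvable : ∀ (n : ℕ) (G : Type u) [Group G] [Finite G] (K : Subgroup G) [K.Normal],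
    Nat.card G = n → Group.IsSolvable K → ∀ (a b c : ℕ), a.Prime → b.Prime → c.Prime →
    a ≠ b → a ≠ c → b ≠ c → a ∣ Nat.card K → b ∣ Nat.card K → c ∣ Nat.card G →
    (∃ x : G, orderOf x = a * b) ∨ (∃ x : G, orderOf x = a * c) ∨ (∃ x : G, orderOf x = b * c) := by
  intro n
  induction n using Nat.strong_induction_on with
  | _ n ih =>
  intro G _ _ K _ hn hK a b c ha hb hc hab hac hbc haK hbK hcG
  have haG : a ∣ Nat.card G := haK.trans (Subgroup.card_subgroup_dvd_card K)
  have hbG : b ∣ Nat.card G := hbK.trans (Subgroup.card_subgroup_dvd_card K)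
  have hKbot : K ≠ ⊥ := by
    rintro rfl
    rw [Subgroup.card_bot] at haK
    exact ha.one_lt.ne' (Nat.dvd_one.mp haK)
  obtain ⟨V, t, hVn, ht, hVK, hVbot, hVcomm, hVexp⟩ :=
    Cfsg.Agent.Lib.Helper5.exists_normal_exponent_prime_of_solvable K hKbot hK
  haveI := hVn
  haveI : Fact t.Prime := ⟨ht⟩
  have hVp : IsPGroup t V := by
    intro g
    exact ⟨1, by rw [pow_one]; exact Subtype.ext (hVexp g g.2)⟩
  have hlt' : Nat.card (G ⧸ V) < n := hn ▸ card_quot_lt V hVbot
  haveI : (K.map (QuotientGroup.mk' V)).Normal :=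
    Subgroup.Normal.map inferInstance _ (QuotientGroup.mk'_surjective V)
  have hsolv := solvable_map V K hK
  -- the general step: V a nontrivial normal t-subgroup, with the two other primes m, l
  have step : ∀ m l : ℕ, m.Prime → l.Prime → m ≠ l → m ≠ t → l ≠ t → m ∣ Nat.card G →
      l ∣ Nat.card G → (m ∣ Nat.card K ∨ l ∣ Nat.card K) →
      (∃ x : G, orderOf x = t * m) ∨ (∃ x : G, orderOf x = t * l) ∨
        (∃ x : G, orderOf x = m * l) := by
    intro m l hm hl hml hmt hlt hmG hlG hmlK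
    obtain ⟨M', hM'n, hM'⟩ := exists_split _ (G ⧸ V) (K.map (QuotientGroup.mk' V)) rfl
      hsolv m l hm hl hml
      (dvd_card_quot V t ht hVexp m hm hmt hmG) (dvd_card_quot V t ht hVexp l hl hlt hlG)
      (by
        rcases hmlK with h | h
        · exact Or.inl (dvd_card_map V t ht hVexp m hm hmt K h)
        · exact Or.inr (dvd_card_map V t ht hVexp l hl hlt K h))
    haveI : (M'.comap (QuotientGroup.mk' V)).Normal := hM'n.comap _
    have hidx : (M'.comap (QuotientGroup.mk' V)).index = M'.index :=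
      Subgroup.index_comap_of_surjective M' (QuotientGroup.mk'_surjective V)
    rcases hM' with ⟨h1, h2⟩ | ⟨h1, h2⟩
    · exact Cfsg.Agent.Lib.Helper6.three_primes_normal V (M'.comap (QuotientGroup.mk' V))
        t m l ht hm hl (Ne.symm hmt) (Ne.symm hlt) hml hVp hVbot (dvd_card_comap V M' m h1)
        (hidx ▸ h2)
    · have := Cfsg.Agent.Lib.Helper6.three_primes_normal V (M'.comap (QuotientGroup.mk' V))
        t l m ht hl hm (Ne.symm hlt) (Ne.symm hmt) (Ne.symm hml) hVp hVbot
        (dvd_card_comap V M' l h1) (hidx ▸ h2)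
      rcases this with h | h | ⟨x, hx⟩
      · exact Or.inr (Or.inl h)
      · exact Or.inl h
      · exact Or.inr (Or.inr ⟨x, by rw [hx, mul_comm]⟩)
  by_cases hta : t = a
  · subst hta
    exact step b c hb hc hbc (Ne.symm hab) (Ne.symm hac) hbG hcG (Or.inl hbK)
  by_cases htb : t = b
  · subst htb
    rcases step a c ha hc hac hab (Ne.symm hbc) haG hcG (Or.inl haK) with ⟨x, hx⟩ | h | h
    · exact Or.inl ⟨x, by rw [hx, mul_comm]⟩
    · exact Or.inr (Or.inr h)
    · exact Or.inr (Or.inl h)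
  by_cases htc : t = c
  · subst htc
    rcases step a b ha hb hab hac hbc haG hbG (Or.inl haK) with ⟨x, hx⟩ | ⟨x, hx⟩ | h
    · exact Or.inr (Or.inl ⟨x, by rw [hx, mul_comm]⟩)
    · exact Or.inr (Or.inr ⟨x, by rw [hx, mul_comm]⟩)
    · exact Or.inl h
  have hat : a ≠ t := fun h => hta h.symm
  have hbt : b ≠ t := fun h => htb h.symm
  have hct : c ≠ t := fun h => htc h.symm
  have := ih _ hlt' (G ⧸ V) (K.map (QuotientGroup.mk' V)) rfl hsolv a b c ha hb hc hab hac hbc
    (dvd_card_map V t ht hVexp a ha hat K haK) (dvd_card_map V t ht hVexp b hb hbt K hbK)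
    (dvd_card_quot V t ht hVexp c hc hct hcG)
  rcases this with h | h | h
  · exact Or.inl (lift_order V _ h)
  · exact Or.inr (Or.inl (lift_order V _ h))
  · exact Or.inr (Or.inr (lift_order V _ h))

/-- Let G be a finite group and ρ a set of at least three prime divisors of the order of G that are pairwise non-adjacent in the prime graph (no element of order rs for distinct r, s ∈ ρ). Then at most one prime of ρ divides the order of any given solvable normal subgroup of G; in particular G is not solvable. -/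
theorem result {G : Type*} [Group G] [Finite G] (ρ : Finset ℕ) (hρ : 3 ≤ ρ.card) (hc : ((∀ r ∈ ρ, r.Prime ∧ r ∣ Nat.card G) ∧ (∀ r ∈ ρ, ∀ s ∈ ρ, r ≠ s → ¬ ∃ x : G, orderOf x = r * s)))
    (K : Subgroup G) [K.Normal] (hK : Group.IsSolvable ↥K) :
    (∀ r ∈ ρ, ∀ s ∈ ρ, r ∣ Nat.card ↥K → s ∣ Nat.card ↥K → r = s) ∧ ¬ Group.IsSolvable G := by
  classical
  obtain ⟨hc1, hc2⟩ := hc
  have main : ∀ (K : Subgroup G) [K.Normal], Group.IsSolvable ↥K →
      ∀ r ∈ ρ, ∀ s ∈ ρ, r ∣ Nat.card ↥K → s ∣ Nat.card ↥K → r = s := by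
    intro K _ hK r hr s hs hrK hsK
    by_contra hrs
    -- a third prime
    have hex : ∃ t ∈ ρ, t ≠ r ∧ t ≠ s := by
      by_contra hno
      push Not at hno
      have hsub : ρ ⊆ {r, s} := by
        intro t ht
        by_cases h : t = r
        · simp [h]
        · simp [hno t ht h]
      have := Finset.card_le_card hsub
      have h2 : ({r, s} : Finset ℕ).card ≤ 2 := Finset.card_le_two
      omega
    obtain ⟨t, ht, htr, hts⟩ := hex
    have := three_solvable _ G K rfl hK r s t (hc1 r hr).1 (hc1 s hs).1 (hc1 t ht).1 hrs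
      (Ne.symm htr) (Ne.symm hts) hrK hsK (hc1 t ht).2
    rcases this with h | h | h
    · exact hc2 r hr s hs hrs h
    · exact hc2 r hr t ht (Ne.symm htr) h
    · exact hc2 s hs t ht (Ne.symm hts) h
  refine ⟨main K hK, ?_⟩
  intro hG
  -- apply main to K = ⊤
  have hsolvtop : Group.IsSolvable (⊤ : Subgroup G) := inferInstance
  have h2 : 1 < ρ.card := by omega
  obtain ⟨r, hr, s, hs, hrs⟩ := Finset.one_lt_card.mp h2
  apply hrs
  apply main ⊤ hsolvtop r hr s hs
  · rw [Subgroup.card_top]; exact (hc1 r hr).2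
  · rw [Subgroup.card_top]; exact (hc1 s hs).2

end Cfsg.Agent.S3633
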