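import Cfsg.Statements.S3660
import Mathlib
import Cfsg.Agent.Lib.Helper6.SpecA6c
-- import your own Cfsg.Agent.* helpers here

set_option autoImplicit false
open Cfsg

namespace Cfsg.Agent.S3660


open Cfsg.Agent.Lib.Helper6.SpecA6

/-- The prime graph of a finite group has the prime divisors of its order as vertices, two distinct primes p, q being joined when the group has an element of order pq; two groups have the same prime graph when they have the same prime divisors and the same joined pairs. Let F be a finite field of characteristic 2 with at least 4 elements. Then there are finite groups of arbitrarily large order with the same prime graph as PSL(2,F); in particular PSL(2,F) is not determined by its prime graph. -/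
theorem result {F : Type*} [Field F] [Fintype F] [CharP F 2] (hF : 4 ≤ Fintype.card F) (N : ℕ) :
    ∃ (H : Type) (_ : Group H) (_ : Finite H), N < Nat.card H ∧
      ((∀ p : ℕ, p.Prime → (p ∣ Nat.card (Matrix.ProjectiveSpecialLinearGroup (Fin 2) F) ↔ p ∣ Nat.card H)) ∧
      (∀ p q : ℕ, p.Prime → q.Prime → p ≠ q → ((∃ g : (Matrix.ProjectiveSpecialLinearGroup (Fin 2) F), orderOf g = p * q) ↔ (∃ g : H, orderOf g = p * q)))) := by
  classical
  obtain ⟨k, -, hk⟩ := FiniteField.card F 2
  haveI : Fact (Nat.Prime 2) := ⟨Nat.prime_two⟩
  letI : Fintype (GaloisField 2 k) := Fintype.ofFinite _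
  have hc0 : Fintype.card (GaloisField 2 k) = 2 ^ (k : ℕ) := by
    rw [← Nat.card_eq_fintype_card]
    exact GaloisField.card 2 k k.ne_zero
  have e : GaloisField 2 k ≃+* F := FiniteField.ringEquivOfCardEq (by rw [hc0, hk])
  have h2 : (2 : GaloisField 2 k) = 0 := CharTwo.two_eq_zero
  have h2F : (2 : F) = 0 := CharTwo.two_eq_zero
  haveI : Finite (Matrix.SpecialLinearGroup (Fin 2) F) := Subtype.finite
  exact family h2 ((slEquiv e).trans (slToPsl h2F)) N

end Cfsg.Agent.S3660
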