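import Cfsg.Statements.S3678
import Mathlib
import Cfsg.Agent.Lib.Helper6.SpecA6d
-- import your own Cfsg.Agent.* helpers here

set_option autoImplicit false
open Cfsg

namespace Cfsg.Agent.S3678


open Cfsg.Agent.Lib.Helper6.SpecA6

/-- The prime graph of a finite group has the prime divisors of its order as vertices, two distinct primes p, q being joined when the group has an element of order pq; two groups have the same prime graph when they have the same prime divisors and the same joined pairs. Let F be the field with 7 elements. There are finite groups of arbitrarily large order with the same prime graph as PSL(2,F) (the graph on {2, 3, 7} with no edges, which is also the prime graph of PSL(2,8)). -/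
theorem result {F : Type*} [Field F] [Fintype F] (hF : Fintype.card F = 7) (N : ℕ) :
    ∃ (H : Type) (_ : Group H) (_ : Finite H), N < Nat.card H ∧
      ((∀ p : ℕ, p.Prime → (p ∣ Nat.card (Matrix.ProjectiveSpecialLinearGroup (Fin 2) F) ↔ p ∣ Nat.card H)) ∧
      (∀ p q : ℕ, p.Prime → q.Prime → p ≠ q → ((∃ g : (Matrix.ProjectiveSpecialLinearGroup (Fin 2) F), orderOf g = p * q) ↔ (∃ g : H, orderOf g = p * q)))) := by
  classical
  haveI : Fact (Nat.Prime 2) := ⟨Nat.prime_two⟩
  letI : Fintype (GaloisField 2 3) := Fintype.ofFinite _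
  have hc0 : Fintype.card (GaloisField 2 3) = 8 := by
    rw [← Nat.card_eq_fintype_card, GaloisField.card 2 3 (by norm_num)]
    norm_num
  have h2 : (2 : GaloisField 2 3) = 0 := CharTwo.two_eq_zero
  haveI : Finite (Matrix.SpecialLinearGroup (Fin 2) (GaloisField 2 3)) := Subtype.finite
  haveI : Finite (Matrix.SpecialLinearGroup (Fin 2) F) := Subtype.finite
  obtain ⟨H, iG, iF, hN, hprimes, hpq⟩ :=
    family h2 (MulEquiv.refl (Matrix.SpecialLinearGroup (Fin 2) (GaloisField 2 3))) N
  refine ⟨H, iG, iF, hN, ?_, ?_⟩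
  · intro p hp
    rw [← hprimes p hp]
    haveI : Fact p.Prime := ⟨hp⟩
    constructor
    · intro hd
      obtain ⟨g, hg⟩ := exists_prime_orderOf_dvd_card' p hd
      obtain ⟨m, hm, hgm⟩ := psl7 hF g
      exact sl8_has hc0 h2 p (prime_of g m hm hgm p hp hg)
    · intro hd
      obtain ⟨a, ha⟩ := exists_prime_orderOf_dvd_card' p hd
      have hm : ∃ m, (m = 2 ∨ m = 3 ∨ m = 7 ∨ m = 4 ∨ m = 9) ∧ a ^ m = 1 := by
        rcases sl8 hc0 h2 a with h | h | h
        · exact ⟨2, by simp, h⟩
        · exact ⟨7, by simp, h⟩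
        · exact ⟨9, by simp, h⟩
      obtain ⟨m, hm, ham⟩ := hm
      exact psl7_has hF p (prime_of a m hm ham p hp ha)
  · intro p q hp hq hne
    constructor
    · rintro ⟨g, hg⟩
      exfalso
      obtain ⟨m, hm, hgm⟩ := psl7 hF g
      exact no_pq g m hm hgm p q hp hq hne hg
    · rintro ⟨h, hh⟩
      exfalso
      obtain ⟨a, ha⟩ := (hpq p q hp hq hne).mpr ⟨h, hh⟩
      rcases sl8 hc0 h2 a with h | h | h
      · exact no_pq a 2 (by simp) h p q hp hq hne ha
      · exact no_pq a 7 (by simp) h p q hp hq hne ha
      · exact no_pq a 9 (by simp) h p q hp hq hne ha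

end Cfsg.Agent.S3678
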