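import Cfsg.Statements.S3680
import Mathlib
import Cfsg.Agent.S0721
import Cfsg.Agent.Lib.Helper1.MinNormal
-- import your own Cfsg.Agent.* helpers here

set_option autoImplicit false
open Cfsg

namespace Cfsg.Agent.S3680


theorem semireg_of_centralizes {G Ω : Type*} [Group G] [MulAction G Ω] [FaithfulSMul G Ω]
    (M : Subgroup G) (hM : MulAction.IsPretransitive M Ω) (c : G)
    (hc : ∀ m ∈ M, c * m = m * c) (ω : Ω) (hω : c • ω = ω) : c = 1 := by
  apply FaithfulSMul.eq_of_smul_eq_smul (α := Ω)
  intro x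
  obtain ⟨m, hm⟩ := MulAction.exists_smul_eq M ω x
  have hm' : (m : G) • ω = x := hm
  rw [one_smul, ← hm', ← mul_smul, hc m m.2, mul_smul, hω]

/-- two copies of a power -/
def prodPiEquiv (m : ℕ) (T : Type*) [Group T] : (Fin m → T) × (Fin m → T) ≃* (Fin (m + m) → T) :=
  { toEquiv := Fin.appendEquiv m m
    map_mul' := by
      rintro ⟨a, b⟩ ⟨c, d⟩
      funext i
      refine Fin.addCases (fun j => ?_) (fun j => ?_) i
      · show Fin.append (a * c) (b * d) (Fin.castAdd m j) =
          Fin.append a b (Fin.castAdd m j) * Fin.append c d (Fin.castAdd m j)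
        rw [Fin.append_left, Fin.append_left, Fin.append_left]
        rfl
      · show Fin.append (a * c) (b * d) (Fin.natAdd m j) =
          Fin.append a b (Fin.natAdd m j) * Fin.append c d (Fin.natAdd m j)
        rw [Fin.append_right, Fin.append_right, Fin.append_right]
        rfl }

theorem not_comm_of_equiv {G : Type*} [Group G] (M : Subgroup G) (T : Type) [Group T] (m : ℕ)
    (e : M ≃* (Fin m → T)) (hT : IsMulCommutative T) : ∀ a ∈ M, ∀ b ∈ M, a * b = b * a := by
  intro a ha b hb
  have h1 : e (⟨a, ha⟩ * ⟨b, hb⟩) = e (⟨b, hb⟩ * ⟨a, ha⟩) := by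
    rw [map_mul, map_mul]
    funext i
    exact hT.is_comm.comm _ _
  exact congrArg Subtype.val (e.injective h1)

/-- The socle of a finite primitive permutation group. Let a finite group G act faithfully and primitively on a set Ω, and let N be the subgroup generated by the minimal normal subgroups of G. Then either N is an elementary abelian p-group for some prime p and acts regularly on Ω (transitively with trivial point stabilizers), or N is isomorphic to a direct product of m ≥ 1 copies of a non-abelian simple group. -/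
theorem result {G Ω : Type*} [Group G] [Finite G] [MulAction G Ω] [FaithfulSMul G Ω] [Finite Ω]
    (hprim : MulAction.IsPreprimitive G Ω) (N : Subgroup G)
    (hN : N = sSup {V : Subgroup G | V.Normal ∧ V ≠ ⊥ ∧ ∀ M : Subgroup G, M.Normal → M ≤ V → M = ⊥ ∨ M = V}) :
    (∃ p : ℕ, p.Prime ∧ IsMulCommutative N ∧ (∀ x : N, x ^ p = 1) ∧
      MulAction.IsPretransitive N Ω ∧ ∀ ω : Ω, MulAction.stabilizer N ω = ⊥) ∨
    (∃ (T : Type) (_ : Group T) (m : ℕ), 1 ≤ m ∧ IsSimpleGroup T ∧ ¬ IsMulCommutative T ∧ Nonempty (N ≃* (Fin m → T))) := by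
  classical
  by_cases hGtriv : ∀ g : G, g = 1
  · left
    have hNbot : ∀ x : N, x = 1 := fun x => Subtype.ext (hGtriv x)
    refine ⟨2, Nat.prime_two, ⟨⟨fun a b => by rw [hNbot a, hNbot b]⟩⟩,
      fun x => by rw [hNbot x, one_pow], ?_, ?_⟩
    · haveI := hprim.toIsPretransitive
      constructor
      intro x y
      obtain ⟨g, hg⟩ := MulAction.exists_smul_eq G x y
      refine ⟨1, ?_⟩
      rw [one_smul, ← hg, hGtriv g, one_smul]
    · intro ω
      rw [eq_bot_iff]
      intro x _
      rw [Subgroup.mem_bot]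
      exact hNbot x
  push_neg at hGtriv
  obtain ⟨g₀, hg₀⟩ := hGtriv
  have hΩne : Nonempty Ω := by
    by_contra hcon
    rw [not_nonempty_iff] at hcon
    apply hg₀
    apply FaithfulSMul.eq_of_smul_eq_smul (α := Ω)
    intro x
    exact hcon.elim x
  obtain ⟨ω₀⟩ := hΩne
  have htrans : ∀ V : Subgroup G, V.Normal → V ≠ ⊥ → MulAction.IsPretransitive V Ω := by
    intro V hV hV0
    haveI := hV
    apply MulAction.IsQuasiPreprimitive.isPretransitive_of_normal (G := G)
    intro hfix
    apply hV0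
    rw [eq_bot_iff]
    intro v hv
    rw [Subgroup.mem_bot]
    apply FaithfulSMul.eq_of_smul_eq_smul (α := Ω)
    intro x
    have hx : x ∈ MulAction.fixedPoints V Ω := by rw [hfix]; exact Set.mem_univ x
    rw [one_smul]
    exact hx ⟨v, hv⟩
  have hdisj : ∀ V : Subgroup G, (V.Normal ∧ V ≠ ⊥ ∧ ∀ M : Subgroup G, M.Normal → M ≤ V → M = ⊥ ∨ M = V) →
      ∀ V' : Subgroup G, (V'.Normal ∧ V' ≠ ⊥ ∧ ∀ M : Subgroup G, M.Normal → M ≤ V' → M = ⊥ ∨ M = V') →
      V ≠ V' → (V ⊓ V' = ⊥ ∧ ∀ a ∈ V, ∀ b ∈ V', a * b = b * a) := by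
    intro V hV V' hV' hne
    have hinf : V ⊓ V' = ⊥ := by
      haveI := hV.1
      haveI := hV'.1
      rcases hV.2.2 (V ⊓ V') inferInstance inf_le_left with h | h
      · exact h
      · exfalso
        have hle : V ≤ V' := by rw [← h]; exact inf_le_right
        rcases hV'.2.2 V hV.1 hle with h' | h'
        · exact hV.2.1 h'
        · exact hne h'
    refine ⟨hinf, fun a ha b hb => ?_⟩
    exact (Subgroup.commute_of_normal_of_disjoint V V' hV.1 hV'.1 (disjoint_iff.mpr hinf) a b ha hb).eq
  -- existence of a minimal normal subgroup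
  obtain ⟨M, hMmin⟩ := exists_minimal_of_wellFoundedLT (fun V : Subgroup G => V.Normal ∧ V ≠ ⊥)
    ⟨⊤, inferInstance, fun h => hg₀ (by
      have h5 : g₀ ∈ (⊤ : Subgroup G) := Subgroup.mem_top g₀
      rw [h] at h5
      exact Subgroup.mem_bot.mp h5)⟩
  have hMn : M.Normal := hMmin.1.1
  have hM0 : M ≠ ⊥ := hMmin.1.2
  have hMm : ∀ K : Subgroup G, K.Normal → K ≤ M → K = ⊥ ∨ K = M := by
    intro K hK hKM
    by_cases hK0 : K = ⊥
    · exact Or.inl hK0
    · exact Or.inr (le_antisymm hKM (hMmin.2 ⟨hK, hK0⟩ hKM))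
  -- reduce to: a chosen minimal normal subgroup, abelian if possible
  obtain ⟨M, hMn, hM0, hMm, hMab⟩ : ∃ M : Subgroup G, M.Normal ∧ M ≠ ⊥ ∧
      (∀ K : Subgroup G, K.Normal → K ≤ M → K = ⊥ ∨ K = M) ∧
      ((∃ V : Subgroup G, (V.Normal ∧ V ≠ ⊥ ∧ ∀ K : Subgroup G, K.Normal → K ≤ V → K = ⊥ ∨ K = V) ∧
        ∀ a ∈ V, ∀ b ∈ V, a * b = b * a) → ∀ a ∈ M, ∀ b ∈ M, a * b = b * a) := by
    by_cases hex : ∃ V : Subgroup G,
        (V.Normal ∧ V ≠ ⊥ ∧ ∀ K : Subgroup G, K.Normal → K ≤ V → K = ⊥ ∨ K = V) ∧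
        ∀ a ∈ V, ∀ b ∈ V, a * b = b * a
    · obtain ⟨V, hV, hVc⟩ := hex
      exact ⟨V, hV.1, hV.2.1, hV.2.2, fun _ => hVc⟩
    · exact ⟨M, hMn, hM0, hMm, fun h => absurd h hex⟩
  haveI := hMn
  have hMmem : M ∈ {V : Subgroup G | V.Normal ∧ V ≠ ⊥ ∧
      ∀ M : Subgroup G, M.Normal → M ≤ V → M = ⊥ ∨ M = V} := ⟨hMn, hM0, hMm⟩
  haveI hMtr := htrans M hMn hM0
  by_cases hcomm : ∀ a ∈ M, ∀ b ∈ M, a * b = b * a
  · -- abelian case
    left
    have hsemi : ∀ m ∈ M, ∀ ω : Ω, m • ω = ω → m = 1 := fun m hm ω hω =>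
      semireg_of_centralizes M hMtr m (fun a ha => hcomm m hm a ha) ω hω
    have huniq : ∀ V ∈ {V : Subgroup G | V.Normal ∧ V ≠ ⊥ ∧
        ∀ M : Subgroup G, M.Normal → M ≤ V → M = ⊥ ∨ M = V}, V = M := by
      intro V hV
      by_contra hne
      obtain ⟨hinf, hc⟩ := hdisj V hV M hMmem hne
      have hle : V ≤ M := by
        intro v hv
        obtain ⟨m, hm⟩ := MulAction.exists_smul_eq M ω₀ (v • ω₀)
        have hm' : (m : G) • ω₀ = v • ω₀ := hm
        have h5 : (m : G)⁻¹ * v = 1 := by
          apply semireg_of_centralizes M hMtr _ _ ω₀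
          · rw [mul_smul, ← hm', inv_smul_smul]
          · intro a ha
            calc (m : G)⁻¹ * v * a = (m : G)⁻¹ * (v * a) := by group
              _ = (m : G)⁻¹ * (a * v) := by rw [hc v hv a ha]
              _ = ((m : G)⁻¹ * a) * v := by group
              _ = (a * (m : G)⁻¹) * v := by rw [hcomm _ (M.inv_mem m.2) a ha]
              _ = a * ((m : G)⁻¹ * v) := by group
        have h6 : v = (m : G) := (inv_mul_eq_one.mp h5).symm
        rw [h6]
        exact m.2
      rcases hMm V hV.1 hle with h | h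
      · exact hV.2.1 h
      · exact hne h
    have hNM : N = M := by
      rw [hN]
      exact le_antisymm (sSup_le fun V hV => (huniq V hV).le) (le_sSup hMmem)
    subst hNM
    have hcard : Nat.card N ≠ 1 := by
      intro h
      exact hM0 (Subgroup.card_eq_one.mp h)
    haveI : Fact (Nat.card N).minFac.Prime := ⟨Nat.minFac_prime hcard⟩
    have hexp := Cfsg.Agent.Lib.Helper1.minNormal_exponent N hMm hcomm (Nat.card N).minFac
      (Nat.minFac_dvd _)
    refine ⟨(Nat.card N).minFac, Nat.minFac_prime hcard,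
      ⟨⟨fun a b => Subtype.ext (hcomm a a.2 b b.2)⟩⟩, fun x => ?_, hMtr, fun ω => ?_⟩
    · apply Subtype.ext
      rw [Subgroup.coe_pow, Subgroup.coe_one]
      exact hexp x x.2
    · rw [eq_bot_iff]
      intro x hx
      rw [Subgroup.mem_bot]
      exact Subtype.ext (hsemi x x.2 ω hx)
  · -- nonabelian case
    right
    have hnoab : ∀ V : Subgroup G, (V.Normal ∧ V ≠ ⊥ ∧
        ∀ K : Subgroup G, K.Normal → K ≤ V → K = ⊥ ∨ K = V) →
        ¬ ∀ a ∈ V, ∀ b ∈ V, a * b = b * a := fun V hV hVc => hcomm (hMab ⟨V, hV, hVc⟩)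
    obtain ⟨T, instT, m, hTs, hm, ⟨e⟩⟩ := Cfsg.Agent.S0721.result M hM0 hMm
    have hTnc : ¬ IsMulCommutative T := fun hT => hcomm (not_comm_of_equiv M T m e hT)
    by_cases huniq : ∀ V ∈ {V : Subgroup G | V.Normal ∧ V ≠ ⊥ ∧
        ∀ M : Subgroup G, M.Normal → M ≤ V → M = ⊥ ∨ M = V}, V = M
    · have hNM : N = M := by
        rw [hN]
        exact le_antisymm (sSup_le fun V hV => (huniq V hV).le) (le_sSup hMmem)
      subst hNM
      exact ⟨T, instT, m, hm, hTs, hTnc, ⟨e⟩⟩
    · push_neg at huniq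
      obtain ⟨M', hM', hne⟩ := huniq
      haveI hM'n : M'.Normal := hM'.1
      haveI hM'tr := htrans M' hM'.1 hM'.2.1
      obtain ⟨hinf, hc⟩ := hdisj M' hM' M hMmem hne
      -- hc : ∀ a ∈ M', ∀ b ∈ M, a * b = b * a
      have hsemi' : ∀ c ∈ M', ∀ ω : Ω, c • ω = ω → c = 1 := fun c hc' ω hω =>
        semireg_of_centralizes M hMtr c (fun a ha => hc c hc' a ha) ω hω
      have hsemi : ∀ c ∈ M, ∀ ω : Ω, c • ω = ω → c = 1 := fun c hc' ω hω =>
        semireg_of_centralizes M' hM'tr c (fun a ha => (hc a ha c hc').symm) ω hω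
      have h2 : ∀ V ∈ {V : Subgroup G | V.Normal ∧ V ≠ ⊥ ∧
          ∀ M : Subgroup G, M.Normal → M ≤ V → M = ⊥ ∨ M = V}, V = M ∨ V = M' := by
        intro V hV
        by_cases hVM : V = M
        · exact Or.inl hVM
        · right
          obtain ⟨_, hcV⟩ := hdisj V hV M hMmem hVM
          have hle : V ≤ M' := by
            intro v hv
            obtain ⟨m', hm'⟩ := MulAction.exists_smul_eq M' ω₀ (v • ω₀)
            have hm'' : (m' : G) • ω₀ = v • ω₀ := hm'
            have h5 : (m' : G)⁻¹ * v = 1 := by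
              apply semireg_of_centralizes M hMtr _ _ ω₀
              · rw [mul_smul, ← hm'', inv_smul_smul]
              · intro a ha
                calc (m' : G)⁻¹ * v * a = (m' : G)⁻¹ * (v * a) := by group
                  _ = (m' : G)⁻¹ * (a * v) := by rw [hcV v hv a ha]
                  _ = ((m' : G)⁻¹ * a) * v := by group
                  _ = (a * (m' : G)⁻¹) * v := by rw [hc _ (M'.inv_mem m'.2) a ha]
                  _ = a * ((m' : G)⁻¹ * v) := by group
            have h6 : v = (m' : G) := (inv_mul_eq_one.mp h5).symm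
            rw [h6]
            exact m'.2
          rcases hM'.2.2 V hV.1 hle with h | h
          · exact absurd h hV.2.1
          · exact h
      have hNsup : N = M ⊔ M' := by
        rw [hN]
        apply le_antisymm
        · apply sSup_le
          intro V hV
          rcases h2 V hV with h | h
          · rw [h]; exact le_sup_left
          · rw [h]; exact le_sup_right
        · exact sup_le (le_sSup hMmem) (le_sSup hM')
      -- the anti-isomorphism M' → M
      have hf : ∀ c : M', ∃ a : M, (a : G) • ω₀ = (c : G) • ω₀ := fun c =>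
        MulAction.exists_smul_eq M ω₀ ((c : G) • ω₀)
      choose f hf using hf
      have hfuniq : ∀ (c : M') (a : M), (a : G) • ω₀ = (c : G) • ω₀ → a = f c := by
        intro c a ha
        have h5 : ((f c : G))⁻¹ * (a : G) = 1 := by
          apply hsemi _ (M.mul_mem (M.inv_mem (f c).2) a.2) ω₀
          rw [mul_smul, ha, ← hf c, inv_smul_smul]
        exact Subtype.ext (inv_mul_eq_one.mp h5).symm
      have hfmul : ∀ c c' : M', f (c * c') = f c' * f c := by
        intro c c'
        symm
        apply hfuniq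
        rw [Subgroup.coe_mul, Subgroup.coe_mul, mul_smul, hf c, ← mul_smul,
          ← hc (c : G) c.2 (f c' : G) (f c').2, mul_smul, hf c', mul_smul]
      let φ : M' →* M :=
        { toFun := fun c => (f c)⁻¹
          map_one' := by
            have h5 : (1 : M) = f 1 := hfuniq 1 1 rfl
            rw [← h5, inv_one]
          map_mul' := by
            intro c c'
            rw [hfmul, mul_inv_rev] }
      have hφinj : Function.Injective φ := by
        rw [injective_iff_map_eq_one]
        intro c hc1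
        have h5 : f c = 1 := inv_eq_one.mp hc1
        have h6 := hf c
        rw [h5, Subgroup.coe_one, one_smul] at h6
        exact Subtype.ext (hsemi' c c.2 ω₀ h6.symm)
      have hφsurj : Function.Surjective φ := by
        intro a
        obtain ⟨c, hc1⟩ := MulAction.exists_smul_eq M' ω₀ ((a⁻¹ : M) • ω₀)
        refine ⟨c, ?_⟩
        have h5 : a⁻¹ = f c := hfuniq c a⁻¹ hc1.symm
        show (f c)⁻¹ = a
        rw [← h5, inv_inv]
      let e' : M' ≃* (Fin m → T) := (MulEquiv.ofBijective φ ⟨hφinj, hφsurj⟩).trans e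
      have hcomm' : ∀ (a : M) (b : M'), Commute (M.subtype a) (M'.subtype b) :=
        fun a b => (hc b b.2 a a.2).symm
      have hψinj : Function.Injective (MonoidHom.noncommCoprod M.subtype M'.subtype hcomm') := by
        rw [MonoidHom.noncommCoprod_injective]
        refine ⟨M.subtype_injective, M'.subtype_injective, ?_⟩
        rw [Subgroup.range_subtype, Subgroup.range_subtype, disjoint_iff, inf_comm]
        exact hinf
      have hψrange : (MonoidHom.noncommCoprod M.subtype M'.subtype hcomm').range = N := by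
        rw [MonoidHom.noncommCoprod_range, Subgroup.range_subtype, Subgroup.range_subtype, hNsup]
      let E : N ≃* (Fin (m + m) → T) :=
        ((MulEquiv.subgroupCongr hψrange.symm).trans (MonoidHom.ofInjective hψinj).symm).trans
          ((MulEquiv.prodCongr e e').trans (prodPiEquiv m T))
      exact ⟨T, instT, m + m, by omega, hTs, hTnc, ⟨E⟩⟩

end Cfsg.Agent.S3680
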