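import Cfsg.Statements.S3681
import Mathlib
-- import your own Cfsg.Agent.* helpers here

set_option autoImplicit false
open Cfsg

namespace Cfsg.Agent.S3681

section helpers

open Equiv

/-- Commutator of two permutations whose supports meet in a single point is a 3-cycle. -/
theorem isThreeCycle_comm {α : Type*} [DecidableEq α] [Fintype α] (x y : Perm α) (a : α)
    (hx : x a ≠ a) (hy : y a ≠ a) (h : ∀ u, u ≠ a → x u = u ∨ y u = u) :
    (x⁻¹ * y⁻¹ * x * y).IsThreeCycle := by
  have hxb : x (x⁻¹ a) = a := by simp
  have hyc : y (y⁻¹ a) = a := by simp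
  have hba : x⁻¹ a ≠ a := fun h' => hx (by rw [Perm.inv_eq_iff_eq] at h'; exact h'.symm)
  have hca : y⁻¹ a ≠ a := fun h' => hy (by rw [Perm.inv_eq_iff_eq] at h'; exact h'.symm)
  have hyb : y (x⁻¹ a) = x⁻¹ a := (h _ hba).resolve_left (by rw [hxb]; exact hba.symm)
  have hxc : x (y⁻¹ a) = y⁻¹ a := (h _ hca).resolve_right (by rw [hyc]; exact hca.symm)
  have hbc : x⁻¹ a ≠ y⁻¹ a := by
    intro h'
    rw [h', hxc] at hxb
    exact hca hxb
  have hinj : ∀ (f : Perm α) (u : α), f u ≠ u → f (f u) ≠ f u := by
    intro f u hu h'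
    exact hu (f.injective h')
  have his : ∀ (f : Perm α) (u : α), f⁻¹ (f u) = u := fun f u => by simp
  have hinv : ∀ (f : Perm α) (u : α), f u = u → f⁻¹ u = u := by
    intro f u hu
    rw [Perm.inv_eq_iff_eq]; exact hu.symm
  have key : x⁻¹ * y⁻¹ * x * y = swap a (y⁻¹ a) * swap a (x⁻¹ a) := by
    ext u
    simp only [Perm.coe_mul, Function.comp_apply]
    by_cases hua : u = a
    · rw [hua]
      have h1 : x (y a) = y a := (h _ hy).resolve_right (hinj y a hy)
      rw [h1, his, swap_apply_left, swap_apply_of_ne_of_ne hba hbc]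
    · by_cases hub : u = x⁻¹ a
      · rw [hub, hyb, hxb, swap_apply_right, swap_apply_left]
        exact hinv x _ hxc
      · by_cases huc : u = y⁻¹ a
        · rw [huc, hyc, swap_apply_of_ne_of_ne hca hbc.symm, swap_apply_right]
          have h1 : y (x a) = x a := (h _ hx).resolve_left (hinj x a hx)
          rw [hinv y _ h1, his]
        · rw [swap_apply_of_ne_of_ne hua hub, swap_apply_of_ne_of_ne hua huc]
          by_cases hyu : y u = u
          · rw [hyu]
            by_cases hxu : x u = u
            · rw [hxu, hinv y u hyu, hinv x u hxu]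
            · have hwa : x u ≠ a := by
                intro h'
                apply hub
                rw [← h', his]
              have h1 : y (x u) = x u := (h _ hwa).resolve_left (hinj x u hxu)
              rw [hinv y _ h1, his]
          · have hxu : x u = u := (h u hua).resolve_right hyu
            have hva : y u ≠ a := by
              intro h'
              apply huc
              rw [← h', his]
            have h1 : x (y u) = y u := (h _ hva).resolve_right (hinj y u hyu)
            rw [h1, his, hinv x u hxu]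
  rw [key]
  exact Perm.isThreeCycle_swap_mul_swap_same hca.symm hba.symm hbc.symm

/-- If no nonidentity element of `P` is supported inside `Δ`, then `|P| * |Δ|! ≤ n!`. -/
theorem card_mul_factorial_le {Ω : Type*} [Fintype Ω] [DecidableEq Ω] (P : Subgroup (Perm Ω))
    (Δ : Finset Ω) (hgood : ∀ g ∈ P, (∀ x, x ∉ Δ → g x = x) → g = 1) :
    Nat.card P * Nat.factorial Δ.card ≤ Nat.factorial (Fintype.card Ω) := by
  classical
  let f : P × Perm {x // x ∈ Δ} → Perm Ω := fun q => (q.1 : Perm Ω) * Perm.ofSubtype q.2
  have hf : Function.Injective f := by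
    rintro ⟨g₁, s₁⟩ ⟨g₂, s₂⟩ h
    have h' : (g₁ : Perm Ω) * Perm.ofSubtype s₁ = (g₂ : Perm Ω) * Perm.ofSubtype s₂ := h
    have h1 : ((g₂⁻¹ * g₁ : P) : Perm Ω) = Perm.ofSubtype (s₂ * s₁⁻¹) := by
      rw [map_mul, map_inv, Subgroup.coe_mul, Subgroup.coe_inv]
      rw [← mul_inv_eq_iff_eq_mul] at h'
      rw [← h']
      group
    have h2 : ((g₂⁻¹ * g₁ : P) : Perm Ω) = 1 := by
      apply hgood _ (g₂⁻¹ * g₁ : P).2
      intro x hx
      rw [h1]
      exact Perm.ofSubtype_apply_of_not_mem _ hx
    have h3 : g₂⁻¹ * g₁ = 1 := Subtype.ext h2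
    have hg : g₁ = g₂ := by
      have := congrArg (fun z => g₂ * z) h3
      simpa using this
    have hs : s₁ = s₂ := by
      rw [hg] at h'
      exact Perm.ofSubtype_injective (mul_left_cancel h')
    rw [hg, hs]
  have hcard := Fintype.card_le_of_injective f hf
  rw [Fintype.card_prod, Fintype.card_perm, Fintype.card_perm, Fintype.card_coe] at hcard
  rw [Nat.card_eq_fintype_card]
  exact hcard

end helpers

/-- Bochert's bound for primitive groups. Let a finite group G act faithfully and primitively on a finite set Ω with n elements, and suppose the image of G in the symmetric group of Ω does not contain the alternating group of Ω. Then |G| · ⌊(n + 1)/2⌋! ≤ n!, that is, the index of G in the symmetric group is at least ⌊(n + 1)/2⌋!. -/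
theorem result {G Ω : Type*} [Group G] [Finite G] [MulAction G Ω] [FaithfulSMul G Ω] [Fintype Ω] [DecidableEq Ω]
    (hprim : MulAction.IsPreprimitive G Ω) (hA : ¬ alternatingGroup Ω ≤ (MulAction.toPermHom G Ω).range) :
    Nat.card G * Nat.factorial ((Fintype.card Ω + 1) / 2) ≤ Nat.factorial (Fintype.card Ω) := by
  classical
  set P : Subgroup (Equiv.Perm Ω) := (MulAction.toPermHom G Ω).range with hP
  have hcardP : Nat.card P = Nat.card G := by
    have e := MonoidHom.ofInjective (f := MulAction.toPermHom G Ω) MulAction.toPerm_injective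
    exact (Nat.card_congr e.toEquiv).symm
  have hPprim : MulAction.IsPreprimitive P Ω := by
    let φ : G → P := fun g => ⟨MulAction.toPermHom G Ω g, ⟨g, rfl⟩⟩
    let f : Ω →ₑ[φ] Ω := { toFun := id, map_smul' := fun g x => rfl }
    haveI := hprim
    exact MulAction.IsPreprimitive.of_surjective (f := f) Function.surjective_id
  have hno3 : ∀ z ∈ P, ¬ z.IsThreeCycle := by
    intro z hz h3
    exact hA (Equiv.Perm.alternatingGroup_le_of_isPreprimitive_of_isThreeCycle_mem hPprim h3 hz)
  let Good : Finset Ω → Prop := fun Δ => ∀ g ∈ P, (∀ x, x ∉ Δ → g x = x) → g = 1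
  have hempty : Good ∅ := by
    intro g _ hg
    ext x
    simpa using hg x (Finset.notMem_empty x)
  obtain ⟨Δ, hΔ, hmax⟩ := Finset.exists_max_image (Finset.univ.filter Good) Finset.card
    ⟨∅, by simp [hempty]⟩
  have hΔg : Good Δ := (Finset.mem_filter.mp hΔ).2
  have hmax' : ∀ Δ' : Finset Ω, Good Δ' → Δ'.card ≤ Δ.card := fun Δ' h => hmax Δ' (by simp [h])
  have hcomp : Good Δᶜ := by
    intro y hy hfix
    by_contra hy1
    obtain ⟨a, ha⟩ : ∃ a, y a ≠ a := by
      by_contra hall
      push Not at hall
      exact hy1 (Equiv.ext hall)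
    have haΔ : a ∉ Δ := by
      intro h
      exact ha (hfix a (by simpa using h))
    have hng : ¬ Good (insert a Δ) := by
      intro h
      have := hmax' _ h
      rw [Finset.card_insert_of_notMem haΔ] at this
      omega
    simp only [Good] at hng
    push Not at hng
    obtain ⟨x, hx, hxfix, hx1⟩ := hng
    have hxa : x a ≠ a := by
      intro h
      apply hx1
      apply hΔg x hx
      intro u hu
      by_cases hua : u = a
      · rw [hua]; exact h
      · exact hxfix u (by simp [hua, hu])
    have h3 := isThreeCycle_comm x y a hxa ha (by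
      intro u hua
      by_cases huΔ : u ∈ Δ
      · right; exact hfix u (by simpa using huΔ)
      · left; exact hxfix u (by simp [hua, huΔ]))
    exact hno3 _ (P.mul_mem (P.mul_mem (P.mul_mem (P.inv_mem hx) (P.inv_mem hy)) hx) hy) h3
  have h1 := card_mul_factorial_le P Δ hΔg
  have h2 := card_mul_factorial_le P Δᶜ hcomp
  rw [Finset.card_compl] at h2
  rw [← hcardP]
  have hd : Δ.card ≤ Fintype.card Ω := Finset.card_le_univ Δ
  by_cases hc : (Fintype.card Ω + 1) / 2 ≤ Δ.card
  · exact (Nat.mul_le_mul_left _ (Nat.factorial_le hc)).trans h1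
  · have : (Fintype.card Ω + 1) / 2 ≤ Fintype.card Ω - Δ.card := by omega
    exact (Nat.mul_le_mul_left _ (Nat.factorial_le this)).trans h2

end Cfsg.Agent.S3681
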