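import Cfsg.Statements.S3683
import Mathlib

set_option autoImplicit false
open Cfsg

namespace Cfsg.Agent.S3683

/-- A finite group in which the trivial subgroup is maximal is cyclic of prime order. -/
theorem cyclic_prime_of_isCoatom_bot {G : Type*} [Group G] [Finite G]
    (hco : IsCoatom (⊥ : Subgroup G)) : IsCyclic G ∧ (Nat.card G).Prime := by
  have hnt : Nontrivial G := by
    rw [← Subgroup.nontrivial_iff, nontrivial_iff]
    exact ⟨⊥, ⊤, hco.1⟩
  obtain ⟨g, hg⟩ := exists_ne (1 : G)
  have hz : Subgroup.zpowers g = ⊤ :=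
    hco.2 _ (bot_lt_iff_ne_bot.mpr (Subgroup.zpowers_ne_bot.mpr hg))
  have hcyc : IsCyclic G := isCyclic_iff_exists_zpowers_eq_top.mpr ⟨g, hz⟩
  refine ⟨hcyc, ?_⟩
  have hn : orderOf g = Nat.card G := by
    rw [← Nat.card_zpowers, hz, Subgroup.card_top]
  have hn1 : Nat.card G ≠ 1 := by
    intro h
    have := Finite.one_lt_card (α := G)
    omega
  have hq : (Nat.card G).minFac.Prime := Nat.minFac_prime hn1
  have hqd : (Nat.card G).minFac ∣ Nat.card G := Nat.minFac_dvd _
  have hzq : Subgroup.zpowers (g ^ (Nat.card G).minFac) ≠ ⊤ := by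
    intro h
    have h1 : orderOf (g ^ (Nat.card G).minFac) = Nat.card G := by
      rw [← Nat.card_zpowers, h, Subgroup.card_top]
    rw [orderOf_pow_of_dvd hq.ne_zero (by rw [hn]; exact hqd), hn] at h1
    have hpos : 0 < Nat.card G := Nat.card_pos
    have := Nat.div_lt_self hpos hq.one_lt
    omega
  have hzb : Subgroup.zpowers (g ^ (Nat.card G).minFac) = ⊥ := by
    by_contra h
    exact hzq (hco.2 _ (bot_lt_iff_ne_bot.mpr h))
  rw [Subgroup.zpowers_eq_bot] at hzb
  have hdvd : Nat.card G ∣ (Nat.card G).minFac := by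
    have := orderOf_dvd_of_pow_eq_one hzb
    rwa [hn] at this
  have : Nat.card G = (Nat.card G).minFac := Nat.dvd_antisymm hdvd hqd
  rw [this]; exact hq

/-- Let a finite group G act faithfully and primitively on a set Ω, and suppose the stabilizer of a point a fixes a second point b ≠ a (a suborbit of length 1 other than {a}). Then the stabilizer of a is trivial and G is cyclic of prime order. -/
theorem result {G Ω : Type*} [Group G] [Finite G] [MulAction G Ω] [FaithfulSMul G Ω] [Finite Ω]
    (hprim : MulAction.IsPreprimitive G Ω) (a b : Ω) (hab : a ≠ b) (hfix : ∀ g : G, g • a = a → g • b = b) :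
    MulAction.stabilizer G a = ⊥ ∧ IsCyclic G ∧ (Nat.card G).Prime := by
  have hpt : MulAction.IsPretransitive G Ω := hprim.toIsPretransitive
  have hntΩ : Nontrivial Ω := ⟨⟨a, b, hab⟩⟩
  have hco : IsCoatom (MulAction.stabilizer G a) :=
    (MulAction.isCoatom_stabilizer_iff_preprimitive G a).mpr hprim
  have hle : MulAction.stabilizer G a ≤ MulAction.stabilizer G b := fun g hg => hfix g hg
  have hbne : MulAction.stabilizer G b ≠ ⊤ := by
    intro h
    obtain ⟨g, hg⟩ := MulAction.exists_smul_eq G b a
    have hgs : g ∈ MulAction.stabilizer G b := by rw [h]; trivial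
    rw [MulAction.mem_stabilizer_iff] at hgs
    exact hab (by rw [← hg, hgs])
  have heq : MulAction.stabilizer G a = MulAction.stabilizer G b := by
    rcases eq_or_lt_of_le hle with h | h
    · exact h
    · exact absurd (hco.2 _ h) hbne
  have hnorm : (MulAction.stabilizer G a).Normal := by
    obtain ⟨g, hg⟩ := MulAction.exists_smul_eq G a b
    have hgn : g ∈ Subgroup.normalizer (MulAction.stabilizer G a : Set G) := by
      rw [Subgroup.mem_normalizer_iff_map_conj_eq]
      have h1 := MulAction.stabilizer_smul_eq_stabilizer_map_conj g a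
      rw [hg, ← heq] at h1
      exact h1.symm
    have hgs : g ∉ MulAction.stabilizer G a := by
      intro h
      rw [MulAction.mem_stabilizer_iff] at h
      exact hab (by rw [← hg, h])
    have hlt : MulAction.stabilizer G a < Subgroup.normalizer (MulAction.stabilizer G a : Set G) := by
      refine lt_of_le_of_ne Subgroup.le_normalizer ?_
      intro h
      rw [← h] at hgn
      exact hgs hgn
    exact Subgroup.normalizer_eq_top_iff.mp (hco.2 _ hlt)
  have hbot : MulAction.stabilizer G a = ⊥ := by
    rw [eq_bot_iff]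
    intro h hh
    rw [Subgroup.mem_bot]
    apply FaithfulSMul.eq_of_smul_eq_smul (α := Ω)
    intro c
    obtain ⟨k, rfl⟩ := MulAction.exists_smul_eq G a c
    have h1 : k⁻¹ * h * k ∈ MulAction.stabilizer G a := by
      have := hnorm.conj_mem h hh k⁻¹
      simpa using this
    rw [MulAction.mem_stabilizer_iff] at h1
    rw [one_smul]
    calc h • k • a = k • (k⁻¹ * h * k) • a := by simp [mul_smul]
      _ = k • a := by rw [h1]
  refine ⟨hbot, ?_⟩
  rw [hbot] at hco
  exact cyclic_prime_of_isCoatom_bot hco

end Cfsg.Agent.S3683
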