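import Cfsg.Statements.S3684
import Mathlib
import Cfsg.Agent.Lib.Helper6.SylowSub
import Cfsg.Agent.Lib.Helper1.ThompsonJ
import Cfsg.Agent.Lib.Helper4.DihedralHom
-- import your own Cfsg.Agent.* helpers here

set_option autoImplicit false
open Cfsg

namespace Cfsg.Agent.S3684



/-- Let a finite group G act faithfully and primitively on a set Ω, and suppose the stabilizer of a point a has an orbit of length 2. Then the stabilizer of a has order 2 and G is isomorphic to the dihedral group of order 2p for some prime p. -/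
theorem result {G Ω : Type*} [Group G] [Finite G] [MulAction G Ω] [FaithfulSMul G Ω] [Finite Ω]
    (hprim : MulAction.IsPreprimitive G Ω) (a b : Ω) (h2 : Nat.card (MulAction.orbit (MulAction.stabilizer G a) b) = 2) :
    Nat.card (MulAction.stabilizer G a) = 2 ∧ ∃ p : ℕ, p.Prime ∧ Nonempty (G ≃* DihedralGroup p) := by
  classical
  haveI : MulAction.IsPretransitive G Ω := hprim.toIsPretransitive
  have hba : b ≠ a := by
    intro hba
    rw [hba] at h2
    have h5 : MulAction.orbit (MulAction.stabilizer G a) a = {a} := by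
      ext x
      constructor
      · rintro ⟨k, rfl⟩
        exact Set.mem_singleton_iff.mpr k.2
      · intro hx
        rw [Set.mem_singleton_iff.mp hx]
        exact MulAction.mem_orbit_self _
    rw [h5] at h2
    simp at h2
  haveI : Nontrivial Ω := ⟨⟨b, a, hba⟩⟩
  set Ka := MulAction.stabilizer G a with hKa
  set Kb := MulAction.stabilizer G b with hKb
  have hmax : IsCoatom Ka := (MulAction.isCoatom_stabilizer_iff_preprimitive G a).mpr hprim
  have hst : MulAction.stabilizer Ka b = Kb.subgroupOf Ka := by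
    ext k
    simp only [MulAction.mem_stabilizer_iff, Subgroup.mem_subgroupOf]
    exact Iff.rfl
  have hrel_a : (Ka ⊓ Kb).relIndex Ka = 2 := by
    rw [Subgroup.inf_relIndex_left]
    show (Kb.subgroupOf Ka).index = 2
    rw [← hst, MulAction.index_stabilizer, ← Nat.card_coe_set_eq]
    exact h2
  have hcardeq : Nat.card Ka = Nat.card Kb := by
    have h1 := Subgroup.card_mul_index Ka
    have h3 := Subgroup.card_mul_index Kb
    have e1 : Ka.index = Nat.card Ω := MulAction.index_stabilizer_of_transitive G a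
    have e3 : Kb.index = Nat.card Ω := MulAction.index_stabilizer_of_transitive G b
    rw [e1] at h1
    rw [e3] at h3
    have hpos : 0 < Nat.card Ω := Nat.card_pos
    exact Nat.eq_of_mul_eq_mul_right hpos (h1.trans h3.symm)
  have hrel_b : (Ka ⊓ Kb).relIndex Kb = 2 := by
    have h1 := Cfsg.Agent.Lib.Helper6.card_mul_relIndex_of_le (inf_le_left : Ka ⊓ Kb ≤ Ka)
    have h3 := Cfsg.Agent.Lib.Helper6.card_mul_relIndex_of_le (inf_le_right : Ka ⊓ Kb ≤ Kb)
    rw [hrel_a, hcardeq] at h1
    have hpos : 0 < Nat.card ↥(Ka ⊓ Kb) := Nat.card_pos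
    exact Nat.eq_of_mul_eq_mul_left hpos (h3.trans h1.symm)
  have hna : Ka ≤ Subgroup.normalizer ((Ka ⊓ Kb : Subgroup G) : Set G) := by
    rw [← Subgroup.normal_subgroupOf_iff_le_normalizer inf_le_left]
    exact Subgroup.normal_of_index_eq_two hrel_a
  have hnb : Kb ≤ Subgroup.normalizer ((Ka ⊓ Kb : Subgroup G) : Set G) := by
    rw [← Subgroup.normal_subgroupOf_iff_le_normalizer inf_le_right]
    exact Subgroup.normal_of_index_eq_two hrel_b
  have hnorm : Subgroup.normalizer ((Ka ⊓ Kb : Subgroup G) : Set G) = ⊤ := by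
    rcases eq_or_lt_of_le hna with h | h
    · exfalso
      rw [← h] at hnb
      have h5 : Ka ⊓ Kb = Kb := inf_eq_right.mpr hnb
      rw [h5, Subgroup.relIndex_self] at hrel_b
      omega
    · exact hmax.2 _ h
  have htriv : ∀ N : Subgroup G, N.Normal → N ≤ Ka → N = ⊥ := by
    intro N hN hle
    rw [eq_bot_iff]
    intro n hn
    rw [Subgroup.mem_bot]
    apply FaithfulSMul.eq_of_smul_eq_smul (α := Ω)
    intro x
    obtain ⟨g, rfl⟩ := MulAction.exists_smul_eq G a x
    have h1 : g⁻¹ * n * g ∈ Ka := hle (by simpa using hN.conj_mem n hn g⁻¹)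
    rw [one_smul, ← mul_smul]
    have h2 : (g⁻¹ * n * g) • a = a := h1
    calc (n * g) • a = (g * (g⁻¹ * n * g)) • a := by rw [show g * (g⁻¹ * n * g) = n * g by group]
      _ = g • a := by rw [mul_smul, h2]
  have hT : Ka ⊓ Kb = ⊥ := htriv _ (Subgroup.normalizer_eq_top_iff.mp hnorm) inf_le_left
  have hKa2 : Nat.card Ka = 2 := by
    have h1 := Cfsg.Agent.Lib.Helper6.card_mul_relIndex_of_le (inf_le_left : Ka ⊓ Kb ≤ Ka)
    rw [hrel_a, hT, Subgroup.card_bot] at h1
    omega
  refine ⟨hKa2, ?_⟩
  obtain ⟨t, htK, ht1⟩ : ∃ t ∈ Ka, t ≠ 1 := by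
    by_contra hcon
    push_neg at hcon
    have h5 : Ka = ⊥ := by
      rw [eq_bot_iff]
      intro x hx
      exact Subgroup.mem_bot.mpr (hcon x hx)
    rw [h5, Subgroup.card_bot] at hKa2
    omega
  have htt : t * t = 1 := by
    have h1 : orderOf (⟨t, htK⟩ : Ka) ∣ 2 := hKa2 ▸ orderOf_dvd_natCard _
    have h3 : (⟨t, htK⟩ : Ka) ^ 2 = 1 := orderOf_dvd_iff_pow_eq_one.mp h1
    have h4 : t ^ 2 = 1 := by
      have := congrArg Subtype.val h3
      simpa using this
    rwa [pow_two] at h4
  have hKa_eq : ∀ x ∈ Ka, x = 1 ∨ x = t := by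
    intro x hx
    by_cases hx1 : x = 1
    · exact Or.inl hx1
    · right
      obtain ⟨y, hy, hyu⟩ := (Nat.card_eq_two_iff' (1 : Ka)).mp hKa2
      have e1 := hyu ⟨x, hx⟩ (fun h => hx1 (congrArg Subtype.val h))
      have e2 := hyu ⟨t, htK⟩ (fun h => ht1 (congrArg Subtype.val h))
      exact congrArg Subtype.val (e1.trans e2.symm)
  obtain ⟨g, hg⟩ := MulAction.exists_smul_eq G a b
  set s := g * t * g⁻¹ with hs
  have hsKb : s ∈ Kb := by
    show s • b = b
    have h5 : t • a = a := htK
    rw [hs, ← hg, ← mul_smul, show g * t * g⁻¹ * g = g * t by group, mul_smul, h5]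
  have hss : s * s = 1 := by
    rw [hs]
    calc g * t * g⁻¹ * (g * t * g⁻¹) = g * (t * t) * g⁻¹ := by group
      _ = 1 := by rw [htt]; group
  have hsKa : s ∉ Ka := by
    intro h
    have h6 : s ∈ Ka ⊓ Kb := ⟨h, hsKb⟩
    rw [hT, Subgroup.mem_bot] at h6
    apply ht1
    have h5 : t = g⁻¹ * s * g := by rw [hs]; group
    rw [h5, h6]; group
  have hgen : Subgroup.closure ({t, s} : Set G) = ⊤ := by
    have hle : Ka ≤ Subgroup.closure ({t, s} : Set G) := by
      intro x hx
      rcases hKa_eq x hx with rfl | rfl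
      · exact Subgroup.one_mem _
      · exact Subgroup.subset_closure (by simp)
    rcases eq_or_lt_of_le hle with h | h
    · exfalso; apply hsKa; rw [h]; exact Subgroup.subset_closure (by simp)
    · exact hmax.2 _ h
  set r := s * t with hr
  have hsr : s = r * t := by rw [hr, mul_assoc, htt, mul_one]
  have hr1 : r ≠ 1 := by
    intro h
    apply hsKa
    rw [hsr, h, one_mul]
    exact htK
  have htinv : t⁻¹ = t := inv_eq_of_mul_eq_one_right htt
  have hsinv : s⁻¹ = s := inv_eq_of_mul_eq_one_right hss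
  have hconj : t * r * t⁻¹ = r⁻¹ := by
    rw [hr, mul_inv_rev, htinv, hsinv]
    calc t * (s * t) * t = t * s * (t * t) := by group
      _ = t * s := by rw [htt, mul_one]
  have hnpos : 0 < orderOf r := orderOf_pos r
  set n := orderOf r with hn
  haveI : NeZero n := ⟨hnpos.ne'⟩
  have hrn : r ^ n = 1 := pow_orderOf_eq_one r
  have htr : t ∉ Subgroup.zpowers r := by
    intro h
    have hs' : s ∈ Subgroup.zpowers r := by
      rw [hsr]
      exact Subgroup.mul_mem _ (Subgroup.mem_zpowers r) h
    have hle : Subgroup.closure ({t, s} : Set G) ≤ Subgroup.zpowers r := by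
      rw [Subgroup.closure_le]
      intro x hx
      rcases hx with rfl | rfl
      · exact h
      · exact hs'
    rw [hgen] at hle
    have hg' : g ∈ Subgroup.zpowers r := hle (Subgroup.mem_top g)
    obtain ⟨i, hi⟩ := Subgroup.mem_zpowers_iff.mp hg'
    obtain ⟨j, hj⟩ := Subgroup.mem_zpowers_iff.mp h
    have hc : Commute g t := by
      rw [← hi, ← hj]
      exact (Commute.refl r).zpow_zpow i j
    apply hsKa
    rw [hs, hc.eq, mul_inv_cancel_right]
    exact htK
  let φ := Cfsg.Agent.Lib.Helper4.dihedralLift n r t hrn htt hconj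
  have hinj : Function.Injective φ :=
    Cfsg.Agent.Lib.Helper4.dihedralLift_injective hrn htt hconj rfl htr
  have hsurj : Function.Surjective φ := by
    rw [← MonoidHom.range_eq_top, eq_top_iff, ← hgen, Subgroup.closure_le]
    have ht_mem : t ∈ φ.range := by
      refine ⟨DihedralGroup.sr 0, ?_⟩
      show t * r ^ (0 : ZMod n).val = t
      rw [ZMod.val_zero, pow_zero, mul_one]
    have hr_mem : r ∈ φ.range := by
      refine ⟨DihedralGroup.r 1, ?_⟩
      show r ^ (1 : ZMod n).val = r
      rw [ZMod.val_one_eq_one_mod, hn, pow_mod_orderOf, pow_one]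
    intro x hx
    rcases hx with rfl | rfl
    · exact ht_mem
    · rw [hsr]
      exact Subgroup.mul_mem _ hr_mem ht_mem
  have hn1 : n ≠ 1 := fun h => hr1 (orderOf_eq_one_iff.mp h)
  set q := n.minFac with hq_def
  have hq : q.Prime := Nat.minFac_prime hn1
  have hqn : q ∣ n := Nat.minFac_dvd n
  set c := r ^ (n / q) with hc
  have hcord : orderOf c = q := orderOf_pow_orderOf_div hnpos.ne' hqn
  set N := Subgroup.zpowers c with hN
  have hNcard : Nat.card N = q := by rw [hN, Nat.card_zpowers, hcord]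
  have htc : t * c * t⁻¹ = c⁻¹ := by
    rw [hc, ← conj_pow, hconj, inv_pow]
  have hsc : s * c * s⁻¹ = c⁻¹ := by
    have hrc : r * c⁻¹ * r⁻¹ = c⁻¹ := by
      have h5 : Commute r c⁻¹ := ((Commute.refl r).pow_right _).inv_right
      rw [h5.eq, mul_inv_cancel_right]
    calc s * c * s⁻¹ = r * (t * c * t⁻¹) * r⁻¹ := by rw [hsr]; group
      _ = c⁻¹ := by rw [htc, hrc]
  have hNnorm : Subgroup.normalizer (N : Set G) = ⊤ := by
    rw [eq_top_iff, ← hgen, Subgroup.closure_le]
    have key : ∀ x : G, x * c * x⁻¹ = c⁻¹ → x ∈ Subgroup.normalizer (N : Set G) := by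
      intro x hx
      apply Subgroup.mem_normalizer_fintype
      intro y hy
      obtain ⟨k, rfl⟩ := Subgroup.mem_zpowers_iff.mp hy
      show x * c ^ k * x⁻¹ ∈ N
      rw [← conj_zpow, hx]
      exact Subgroup.zpow_mem _ (Subgroup.inv_mem _ (Subgroup.mem_zpowers c)) k
    intro x hx
    rcases hx with rfl | rfl
    · exact key _ htc
    · exact key _ hsc
  have hNnormal : N.Normal := Subgroup.normalizer_eq_top_iff.mp hNnorm
  have hNle : ¬ N ≤ Ka := by
    intro h
    have h5 := htriv N hNnormal h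
    rw [h5, Subgroup.card_bot] at hNcard
    exact hq.one_lt.ne hNcard
  have hsup : Ka ⊔ N = ⊤ := by
    rcases eq_or_lt_of_le (le_sup_left : Ka ≤ Ka ⊔ N) with h | h
    · exfalso; apply hNle; rw [h]; exact le_sup_right
    · exact hmax.2 _ h
  have hcardG_le : Nat.card G ≤ 2 * q := by
    have h1 := Cfsg.Agent.Lib.Helper1.card_sup_mul_card_inf Ka N (by rw [hNnorm]; exact le_top)
    rw [hsup, Subgroup.card_top, hKa2, hNcard] at h1
    exact Nat.le_of_dvd (by have := hq.pos; omega) (Dvd.intro _ h1)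
  have hcardG : Nat.card G = 2 * n := by
    rw [← Nat.card_congr (Equiv.ofBijective φ ⟨hinj, hsurj⟩), DihedralGroup.nat_card]
  have hnq : n = q := by
    have h5 : n ≤ q := by omega
    exact le_antisymm h5 (Nat.le_of_dvd hnpos hqn)
  have hnprime : n.Prime := by rw [hnq]; exact hq
  exact ⟨n, hnprime, ⟨(MulEquiv.ofBijective φ ⟨hinj, hsurj⟩).symm⟩⟩

end Cfsg.Agent.S3684
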