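import Cfsg.Statements.S3802
import Mathlib
import Cfsg.Agent.Lib.Helper6.Basic
-- import your own Cfsg.Agent.* helpers here

set_option autoImplicit false
open Cfsg

namespace Cfsg.Agent.S3802

open Cfsg.Agent.Lib.Helper6

universe u

theorem aux (n : ℕ) : ∀ (G : Type u) [Group G] [Finite G], Nat.card G ≤ n →
    ∀ (M N : Subgroup G), IsCoatom M → N.IsSubnormal → N ≤ M → N ≤ M.normalCore := by
  induction n with
  | zero =>
    intro G _ _ h
    have := Nat.card_pos (α := G)
    omega
  | succ n ih =>
    intro G _ _ hcard M N hM hN hNM
    rcases hN.lt_normal with hNtop | ⟨K, hKn, hNK, hKtop⟩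
    · exfalso
      rw [hNtop] at hNM
      exact hM.1 (top_le_iff.mp hNM)
    · by_cases hKM : K ≤ M
      · exact hNK.trans (Subgroup.normal_le_normalCore.mpr hKM)
      · have hsup : K ⊔ M = ⊤ :=
          hM.2 _ (lt_of_le_of_ne le_sup_right (fun h => hKM (h ▸ le_sup_left)))
        have hM0 : M.subgroupOf K ≠ ⊤ := by
          intro h
          apply hKM
          rw [Subgroup.subgroupOf_eq_top] at h
          exact h
        obtain ⟨M₁, hM₁, hM₁le⟩ := exists_coatom_ge (M.subgroupOf K) hM0
        have hcardK : Nat.card K ≤ n := by
          have h1 : Nat.card K ≤ Nat.card G := Subgroup.card_le_card_group K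
          have h2 : Nat.card K ≠ Nat.card G := by
            intro h
            exact hKtop.ne ((Subgroup.card_eq_iff_eq_top K).mp h)
          omega
        have hconj : ∀ g : G, ∀ x ∈ N, g * x * g⁻¹ ∈ M₁.map K.subtype := by
          intro g x hx
          have hg : g ∈ ((K ⊔ M : Subgroup G) : Set G) := by
            rw [hsup]
            trivial
          rw [Subgroup.normal_mul] at hg
          obtain ⟨k, hk, m, hm, rfl⟩ := Set.mem_mul.mp hg
          have hN'sub : (N.map (MulAut.conj m).toMonoidHom).IsSubnormal :=
            hN.map (MulAut.conj m).surjective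
          have hN'K : N.map (MulAut.conj m).toMonoidHom ≤ K := by
            rintro _ ⟨y, hy, rfl⟩
            exact hKn.conj_mem y (hNK hy) m
          have hN'M : N.map (MulAut.conj m).toMonoidHom ≤ M := by
            rintro _ ⟨y, hy, rfl⟩
            exact M.mul_mem (M.mul_mem hm (hNM hy)) (M.inv_mem hm)
          have h1 : (N.map (MulAut.conj m).toMonoidHom).subgroupOf K ≤ M₁.normalCore :=
            ih K hcardK M₁ _ hM₁ hN'sub.subgroupOf (fun y hy => hM₁le (by
              rw [Subgroup.mem_subgroupOf] at hy ⊢
              exact hN'M hy))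
          have hmx : m * x * m⁻¹ ∈ N.map (MulAut.conj m).toMonoidHom := ⟨x, hx, rfl⟩
          have h2 : (⟨m * x * m⁻¹, hN'K hmx⟩ : K) ∈ M₁.normalCore := h1 (by
            rw [Subgroup.mem_subgroupOf]
            exact hmx)
          have h3 := (Subgroup.normalCore_normal M₁).conj_mem _ h2 ⟨k, hk⟩
          have h4 := Subgroup.normalCore_le M₁ h3
          refine ⟨_, h4, ?_⟩
          simp only [Subgroup.coe_subtype, Subgroup.coe_mul, Subgroup.coe_inv]
          group
        have hD'le : Subgroup.normalClosure (N : Set G) ≤ M₁.map K.subtype := by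
          apply (Subgroup.closure_le _).mpr
          intro y hy
          rw [Group.mem_conjugatesOfSet_iff] at hy
          obtain ⟨x, hx, hxy⟩ := hy
          obtain ⟨c, rfl⟩ := isConj_iff.mp hxy
          exact hconj c x hx
        have hD'M : Subgroup.normalClosure (N : Set G) ≤ M := by
          by_contra hnot
          have hsup2 : Subgroup.normalClosure (N : Set G) ⊔ M = ⊤ :=
            hM.2 _ (lt_of_le_of_ne le_sup_right (fun h => hnot (h ▸ le_sup_left)))
          apply hM₁.1
          rw [eq_top_iff]
          intro k _
          have hk : (k : G) ∈ ((Subgroup.normalClosure (N : Set G) ⊔ M : Subgroup G) : Set G) := by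
            rw [hsup2]
            trivial
          rw [Subgroup.normal_mul] at hk
          obtain ⟨d, hd, m, hm, hdm⟩ := Set.mem_mul.mp hk
          obtain ⟨d', hd', rfl⟩ := hD'le hd
          have hmK : m ∈ K := by
            have e : m = ((d' : K) : G)⁻¹ * (k : G) := by
              rw [← hdm]
              simp
            rw [e]
            exact K.mul_mem (K.inv_mem d'.2) k.2
          have hm' : (⟨m, hmK⟩ : K) ∈ M₁ := hM₁le (by
            rw [Subgroup.mem_subgroupOf]
            exact hm)
          have e2 : k = d' * ⟨m, hmK⟩ := Subtype.ext hdm.symm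
          rw [e2]
          exact M₁.mul_mem hd' hm'
        exact Subgroup.le_normalClosure.trans (Subgroup.normal_le_normalCore.mpr hD'M)


/-- Let G be a finite group, M a maximal subgroup of G and N a subnormal subgroup of G contained in M. Then N is contained in every conjugate of M, that is, N lies in the core of M in G. -/
theorem result {G : Type*} [Group G] [Finite G] (M N : Subgroup G) (hM : IsCoatom M) (hN : N.IsSubnormal) (hNM : N ≤ M) :
    N ≤ Subgroup.normalCore M := by
  exact aux (Nat.card G) G le_rfl M N hM hN hNM

end Cfsg.Agent.S3802
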