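import Cfsg.Statements.S3815
import Mathlib

set_option autoImplicit false
open Cfsg

namespace Cfsg.Agent.S3815

theorem orderOf_conj' {G : Type*} [Group G] (g x : G) : orderOf (g * x * g⁻¹) = orderOf x := by
  have := MulEquiv.orderOf_eq (MulAut.conj g) x
  simpa using this

/-- Let G be a finite group, p a prime and d ∈ G an element of order prime to p. If dg has order prime to p for every element g ∈ G of order prime to p, then d ∈ O_{p'}(G). -/
theorem result {G : Type*} [Group G] [Finite G] {p : ℕ} [Fact p.Prime]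
    (d : G) (hd : (orderOf d).Coprime p)
    (h : ∀ g : G, (orderOf g).Coprime p → (orderOf (d * g)).Coprime p) :
    d ∈ Cfsg.pPrimeCore p G := by
  classical
  -- the submonoid of all such elements
  let D : Submonoid G :=
    { carrier := {x | (orderOf x).Coprime p ∧ ∀ g : G, (orderOf g).Coprime p → (orderOf (x * g)).Coprime p}
      one_mem' := by
        refine ⟨by simp, fun g hg => by simpa using hg⟩
      mul_mem' := by
        rintro x y ⟨hx, hx'⟩ ⟨hy, hy'⟩
        refine ⟨hx' y hy, fun g hg => ?_⟩
        rw [mul_assoc]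
        exact hx' _ (hy' g hg) }
  have hDpow : ∀ x ∈ D, ∀ n : ℕ, x ^ n ∈ D := fun x hx n => D.pow_mem hx n
  let D' : Subgroup G :=
    { D with
      inv_mem' := by
        intro x hx
        have hx' : x ∈ D := hx
        have : x⁻¹ = x ^ (orderOf x - 1) := by
          rw [eq_comm, ← mul_eq_one_iff_eq_inv, ← pow_succ,
            Nat.sub_add_cancel (orderOf_pos x), pow_orderOf_eq_one]
        rw [this]
        exact hDpow x hx' _ }
  have hmem : ∀ x, x ∈ D' ↔ ((orderOf x).Coprime p ∧ ∀ g : G, (orderOf g).Coprime p → (orderOf (x * g)).Coprime p) :=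
    fun x => Iff.rfl
  have hnormal : D'.Normal := by
    constructor
    intro x hx g
    rw [hmem] at hx ⊢
    obtain ⟨hx1, hx2⟩ := hx
    refine ⟨by rw [orderOf_conj']; exact hx1, fun y hy => ?_⟩
    have e : g * x * g⁻¹ * y = g * (x * (g⁻¹ * y * g⁻¹⁻¹)) * g⁻¹ := by group
    rw [e, orderOf_conj']
    apply hx2
    rw [orderOf_conj']
    exact hy
  have hcard : (Nat.card D').Coprime p := by
    rw [Nat.coprime_comm, Nat.Prime.coprime_iff_not_dvd Fact.out]
    intro hdvd
    obtain ⟨x, hx⟩ := exists_prime_orderOf_dvd_card' p hdvd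
    have hx1 : (orderOf (x : G)).Coprime p := ((hmem x).mp x.2).1
    rw [Subgroup.orderOf_coe, hx] at hx1
    have : p = 1 := by simpa using hx1
    exact (Fact.out : p.Prime).one_lt.ne' this
  have hle : D' ≤ Cfsg.pPrimeCore p G := le_sSup ⟨hnormal, hcard⟩
  exact hle ((hmem d).mpr ⟨hd, h⟩)

end Cfsg.Agent.S3815
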