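import Cfsg.Statements.S3821
import Mathlib
import Cfsg.Agent.Lib.Helper6.Conj

set_option autoImplicit false
open Cfsg

namespace Cfsg.Agent.S3821

open Cfsg.Agent.Lib.Helper6

theorem map_conj_map_subtype {G : Type*} [Group G] (A : Subgroup G) (K : Subgroup A) (a : A) :
    (K.map (MulAut.conj a).toMonoidHom).map A.subtype
      = (K.map A.subtype).map (MulAut.conj (a : G)).toMonoidHom := by
  rw [Subgroup.map_map, Subgroup.map_map]
  congr 1

theorem pronormal_subgroupOf_iff {G : Type*} [Group G] (A H : Subgroup G) (hHA : H ≤ A) :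
    Cfsg.IsPronormal (H.subgroupOf A) ↔ ∀ a ∈ A, ∃ x ∈ H ⊔ H.map (MulAut.conj a).toMonoidHom,
      H.map (MulAut.conj a).toMonoidHom = H.map (MulAut.conj x).toMonoidHom := by
  have hKmap : (H.subgroupOf A).map A.subtype = H := by
    rw [Subgroup.subgroupOf_map_subtype, inf_of_le_left hHA]
  constructor
  · intro h a ha
    obtain ⟨x, hx, hxe⟩ := h ⟨a, ha⟩
    refine ⟨(x : G), ?_, ?_⟩
    · have h1 : A.subtype x ∈ ((H.subgroupOf A) ⊔
          (H.subgroupOf A).map (MulAut.conj (⟨a, ha⟩ : A)).toMonoidHom).map A.subtype :=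
        Subgroup.mem_map_of_mem _ hx
      rw [Subgroup.map_sup, map_conj_map_subtype, hKmap] at h1
      exact h1
    · have h2 := congrArg (Subgroup.map A.subtype) hxe
      rw [map_conj_map_subtype, map_conj_map_subtype, hKmap] at h2
      exact h2
  · intro h a'
    obtain ⟨x, hx, hxe⟩ := h a' a'.2
    have hxA : x ∈ A := (sup_le hHA (map_conj_le_of_mem H A hHA a'.2)) hx
    refine ⟨⟨x, hxA⟩, ?_, ?_⟩
    · rw [← Subgroup.mem_map_iff_mem A.subtype_injective, Subgroup.map_sup, map_conj_map_subtype,
        hKmap]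
      exact hx
    · apply Subgroup.map_injective A.subtype_injective
      rw [map_conj_map_subtype, map_conj_map_subtype, hKmap]
      exact hxe

/-- Let A be a normal subgroup of the finite group G and H a subgroup of A. Then H is pronormal in G (H and gHg⁻¹ conjugate inside ⟨H, gHg⁻¹⟩ for every g ∈ G) if and only if H is pronormal in A and G = A · N_G(H). -/
theorem result {G : Type*} [Group G] [Finite G] (A H : Subgroup G) [A.Normal] (hHA : H ≤ A) :
    Cfsg.IsPronormal H ↔ (Cfsg.IsPronormal (H.subgroupOf A) ∧ A ⊔ Subgroup.normalizer (H : Set G) = ⊤) := by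
  constructor
  · intro h
    constructor
    · rw [pronormal_subgroupOf_iff A H hHA]
      intro a _
      exact h a
    · rw [eq_top_iff]
      intro g _
      obtain ⟨x, hx, hxe⟩ := h g
      have hxA : x ∈ A := (sup_le hHA (map_conj_le_normal H A hHA g)) hx
      have hn : x⁻¹ * g ∈ Subgroup.normalizer (H : Set G) := mem_normalizer_of_map_conj_eq H hxe
      have := Subgroup.mul_mem_sup hxA hn
      rwa [mul_inv_cancel_left] at this
  · rintro ⟨h1, h2⟩ g
    rw [pronormal_subgroupOf_iff A H hHA] at h1
    have hg : g ∈ A ⊔ Subgroup.normalizer (H : Set G) := by rw [h2]; trivial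
    obtain ⟨a, ha, n, hn, rfl⟩ := Subgroup.mem_sup_of_normal_left.mp hg
    have e : H.map (MulAut.conj (a * n)).toMonoidHom = H.map (MulAut.conj a).toMonoidHom := by
      rw [map_conj_mul, (map_conj_eq_self_iff H n).mpr hn]
    rw [e]
    exact h1 a ha

end Cfsg.Agent.S3821
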