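import Cfsg.Statements.S3825
import Mathlib
-- import your own Cfsg.Agent.* helpers here

set_option autoImplicit false
open Cfsg

namespace Cfsg.Agent.S3825



/-- Let U be a subgroup of a finite group H and w an involution of H normalizing U and commuting with exactly two elements of U, the identity and y. If V is a non-cyclic elementary abelian 2-subgroup of U containing y which is normal in U and invariant under w, then V is a Sylow 2-subgroup of U, V has order 4, and U/V is abelian. -/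
theorem result {H : Type*} [Group H] [Finite H] (U : Subgroup H) (w : H) (hw : orderOf w = 2)
    (hwU : w ∈ Subgroup.normalizer (U : Set H)) (y : H) (hy : y ≠ 1) (hyU : y ∈ U)
    (hfix : ∀ u ∈ U, w * u * w⁻¹ = u ↔ (u = 1 ∨ u = y))
    (V : Subgroup H) (hVU : V ≤ U) (hVn : (V.subgroupOf U).Normal) (hVw : ∀ v ∈ V, w * v * w⁻¹ ∈ V)
    (hVe : Cfsg.IsElementaryAbelian 2 V) (hVc : ¬ IsCyclic ↥V) (hyV : y ∈ V) :
    ¬ 2 ∣ V.relIndex U ∧ Nat.card ↥V = 4 ∧ ⁅U, U⁆ ≤ V := by
  classical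
  haveI : Fact (Nat.Prime 2) := ⟨Nat.prime_two⟩
  have hw2 : w * w = 1 := by
    have := pow_orderOf_eq_one w
    rwa [hw, pow_two] at this
  have hV2 : ∀ v ∈ V, v⁻¹ = v := fun v hv => by
    have := hVe.2 v hv
    rw [pow_two] at this
    exact inv_eq_of_mul_eq_one_left this
  have hcomm : ∀ a b : H, a ∈ V → b ∈ V → a * b = b * a := by
    intro a b ha hb
    have := hVe.1.is_comm.comm ⟨a, ha⟩ ⟨b, hb⟩
    exact congrArg Subtype.val this
  have hB : ∀ u ∈ U, u⁻¹ * (w * u * w⁻¹) ∈ V → (w * u * w⁻¹ = u ∨ w * u * w⁻¹ = u * y) := by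
    intro u hu hv
    have h1 : w * (u⁻¹ * (w * u * w⁻¹)) * w⁻¹ = (u⁻¹ * (w * u * w⁻¹))⁻¹ := by
      have e : w * (u⁻¹ * (w * u * w⁻¹)) * w⁻¹ = (w * u⁻¹ * w⁻¹) * (w * w) * u * (w * w)⁻¹ := by group
      have e' : (u⁻¹ * (w * u * w⁻¹))⁻¹ = w * u⁻¹ * w⁻¹ * u := by group
      rw [e, e', hw2, inv_one, mul_one, mul_one]
    rw [hV2 _ hv] at h1
    rcases (hfix _ (hVU hv)).mp h1 with h2 | h2
    · left
      have : w * u * w⁻¹ = u * (u⁻¹ * (w * u * w⁻¹)) := by group
      rw [this, h2, mul_one]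
    · right
      have : w * u * w⁻¹ = u * (u⁻¹ * (w * u * w⁻¹)) := by group
      rw [this, h2]
  obtain ⟨v₀, hv₀, hv₀1, hv₀y⟩ : ∃ v₀ ∈ V, v₀ ≠ 1 ∧ v₀ ≠ y := by
    by_contra hcon
    push Not at hcon
    apply hVc
    refine (isCyclic_iff_exists_zpowers_eq_top).mpr ⟨⟨y, hyV⟩, ?_⟩
    rw [eq_top_iff]
    intro v _
    by_cases hv1 : (v : H) = 1
    · have : v = 1 := Subtype.ext hv1
      rw [this]; exact one_mem _
    · have : v = ⟨y, hyV⟩ := Subtype.ext (hcon v v.2 hv1)
      rw [this]; exact Subgroup.mem_zpowers _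
  have hv₀w : w * v₀ * w⁻¹ = v₀ * y := by
    rcases hB v₀ (hVU hv₀) (mul_mem (inv_mem hv₀) (hVw v₀ hv₀)) with h | h
    · rcases (hfix v₀ (hVU hv₀)).mp h with h1 | h1
      · exact absurd h1 hv₀1
      · exact absurd h1 hv₀y
    · exact h
  have hD : ∀ u ∈ U, w * u * w⁻¹ = u * y → u = v₀ ∨ u = v₀ * y := by
    intro u hu h
    have h1 : w * (u * v₀⁻¹) * w⁻¹ = u * v₀⁻¹ := by
      have e : w * (u * v₀⁻¹) * w⁻¹ = (w * u * w⁻¹) * (w * v₀ * w⁻¹)⁻¹ := by group
      rw [e, h, hv₀w]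
      group
    rcases (hfix _ (mul_mem hu (inv_mem (hVU hv₀)))).mp h1 with h2 | h2
    · left; exact mul_inv_eq_one.mp h2
    · right
      rw [hcomm v₀ y hv₀ hyV]
      exact mul_inv_eq_iff_eq_mul.mp h2
  have hD2 : ∀ u ∈ U, u⁻¹ * (w * u * w⁻¹) ∈ V → u ∈ V := by
    intro u hu h
    rcases hB u hu h with h1 | h1
    · rcases (hfix u hu).mp h1 with h2 | h2
      · rw [h2]; exact one_mem _
      · rw [h2]; exact hyV
    · rcases hD u hu h1 with h2 | h2
      · rw [h2]; exact hv₀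
      · rw [h2]; exact mul_mem hv₀ hyV
  have hVset : (V : Set H) = {1, y, v₀, v₀ * y} := by
    ext v
    constructor
    · intro hv
      rcases hB v (hVU hv) (mul_mem (inv_mem hv) (hVw v hv)) with h1 | h1
      · rcases (hfix v (hVU hv)).mp h1 with h2 | h2
        · rw [h2]; simp
        · rw [h2]; simp
      · rcases hD v (hVU hv) h1 with h2 | h2
        · rw [h2]; simp
        · rw [h2]; simp
    · rintro (h | h | h | h)
      · rw [h]; exact one_mem _
      · rw [h]; exact hyV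
      · rw [h]; exact hv₀
      · rw [Set.mem_singleton_iff.mp h]; exact mul_mem hv₀ hyV
  have hcardV : Nat.card ↥V = 4 := by
    have h1 : Nat.card ↥V = (V : Set H).ncard := (Nat.card_coe_set_eq (V : Set H))
    have n1 : v₀ ≠ v₀ * y := by
      intro h
      exact hy (by simpa using h.symm)
    have n2 : y ∉ ({v₀, v₀ * y} : Set H) := by
      intro h
      rw [Set.mem_insert_iff, Set.mem_singleton_iff] at h
      rcases h with h | h
      · exact hv₀y h.symm
      · exact hv₀1 (by simpa using h.symm)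
    have n3 : (1 : H) ∉ ({y, v₀, v₀ * y} : Set H) := by
      intro h
      rw [Set.mem_insert_iff, Set.mem_insert_iff, Set.mem_singleton_iff] at h
      rcases h with h | h | h
      · exact hy h.symm
      · exact hv₀1 h.symm
      · apply hv₀y
        have h' : v₀ = y⁻¹ := eq_inv_of_mul_eq_one_left h.symm
        rw [h', hV2 y hyV]
    rw [h1, hVset, Set.ncard_insert_of_notMem n3, Set.ncard_insert_of_notMem n2, Set.ncard_pair n1]
  haveI := hVn
  let φ : ↥U →* ↥U := { toFun := fun u => ⟨w * u * w⁻¹, (Subgroup.mem_normalizer_iff.mp hwU u).mp u.2⟩, map_one' := by ext; simp, map_mul' := fun a b => by ext; simp }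
  have hφ : ∀ u : ↥U, ((φ u : ↥U) : H) = w * u * w⁻¹ := fun u => rfl
  have hle : V.subgroupOf U ≤ (V.subgroupOf U).comap φ := by
    intro u hu
    rw [Subgroup.mem_comap, Subgroup.mem_subgroupOf, hφ]
    exact hVw _ (Subgroup.mem_subgroupOf.mp hu)
  set σ := QuotientGroup.map (V.subgroupOf U) (V.subgroupOf U) φ hle with hσ
  have hσmk : ∀ u : ↥U, σ (QuotientGroup.mk u) = QuotientGroup.mk (φ u) := fun u => rfl
  have hσσ : ∀ q, σ (σ q) = q := by
    intro q
    induction q using QuotientGroup.induction_on with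
    | H u =>
      rw [hσmk, hσmk]
      congr 1
      apply Subtype.ext
      rw [hφ, hφ]
      have e : w * (w * (u : H) * w⁻¹) * w⁻¹ = (w * w) * u * (w * w)⁻¹ := by group
      rw [e, hw2, inv_one, mul_one, one_mul]
  have hσfix : ∀ q, σ q = q → q = 1 := by
    intro q hq
    induction q using QuotientGroup.induction_on with
    | H u =>
      rw [hσmk] at hq
      have h1 : u⁻¹ * φ u ∈ V.subgroupOf U := QuotientGroup.eq.mp hq.symm
      rw [Subgroup.mem_subgroupOf] at h1
      have h2 : (u : H)⁻¹ * (w * u * w⁻¹) ∈ V := by simpa [hφ] using h1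
      exact (QuotientGroup.eq_one_iff u).mpr (Subgroup.mem_subgroupOf.mpr (hD2 u u.2 h2))
  have hinj : Function.Injective (fun q : ↥U ⧸ V.subgroupOf U => q⁻¹ * σ q) := by
    intro a b hab
    have hab' : a⁻¹ * σ a = b⁻¹ * σ b := hab
    have h1 : σ (b * a⁻¹) = b * a⁻¹ := by
      rw [map_mul, map_inv]
      have : σ b = b * (a⁻¹ * σ a) := by rw [hab']; group
      rw [this]; group
    have h2 := hσfix _ h1
    exact (mul_inv_eq_one.mp h2).symm
  have hsurj := Finite.injective_iff_surjective.mp hinj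
  have hσinv : ∀ t, σ t = t⁻¹ := by
    intro t
    obtain ⟨q, rfl⟩ := hsurj t
    show σ (q⁻¹ * σ q) = (q⁻¹ * σ q)⁻¹
    rw [map_mul, map_inv, hσσ]; group
  have hQcomm : ∀ a b : ↥U ⧸ V.subgroupOf U, a * b = b * a := by
    intro a b
    have h1 := hσinv (a⁻¹ * b⁻¹)
    rw [map_mul, hσinv, hσinv] at h1
    simpa using h1
  refine ⟨?_, hcardV, ?_⟩
  · intro h2
    have h2' : 2 ∣ Nat.card (↥U ⧸ V.subgroupOf U) := h2
    obtain ⟨t, ht⟩ := exists_prime_orderOf_dvd_card' 2 h2'
    have ht2 : t * t = 1 := by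
      have := pow_orderOf_eq_one t
      rwa [ht, pow_two] at this
    have h3 : σ t = t := by rw [hσinv]; exact inv_eq_of_mul_eq_one_left ht2
    have h4 := hσfix t h3
    rw [h4, orderOf_one] at ht
    exact absurd ht (by norm_num)
  · rw [Subgroup.commutator_le]
    intro a ha b hb
    have h1 : (QuotientGroup.mk (⟨a, ha⟩ * ⟨b, hb⟩ * ⟨a, ha⟩⁻¹ * ⟨b, hb⟩⁻¹ : ↥U) : ↥U ⧸ V.subgroupOf U) = 1 := by
      rw [QuotientGroup.mk_mul, QuotientGroup.mk_mul, QuotientGroup.mk_mul, QuotientGroup.mk_inv, QuotientGroup.mk_inv]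
      rw [hQcomm (QuotientGroup.mk ⟨a, ha⟩) (QuotientGroup.mk ⟨b, hb⟩)]
      group
    have h2 := (QuotientGroup.eq_one_iff _).mp h1
    rw [Subgroup.mem_subgroupOf] at h2
    exact h2

end Cfsg.Agent.S3825
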