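import Cfsg.Statements.S3836
import Mathlib
import Cfsg.Agent.Lib.Helper4.PCore
-- import your own Cfsg.Agent.* helpers here

set_option autoImplicit false
open Cfsg

namespace Cfsg.Agent.S3836


theorem norm_map {G : Type*} [Group G] (H : Subgroup G) (P : Subgroup ↥H) (x : ↥H)
    (hx : x ∈ Subgroup.normalizer (P : Set ↥H)) :
    (x : G) ∈ Subgroup.normalizer ((P.map H.subtype : Subgroup G) : Set G) := by
  rw [Subgroup.mem_normalizer_iff]
  intro y
  constructor
  · intro hy
    obtain ⟨y0, hy0, rfl⟩ := Subgroup.mem_map.mp hy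
    exact Subgroup.mem_map.mpr ⟨x * y0 * x⁻¹, (Subgroup.mem_normalizer_iff.mp hx y0).mp hy0, rfl⟩
  · intro hy
    obtain ⟨z0, hz0, hz⟩ := Subgroup.mem_map.mp hy
    refine Subgroup.mem_map.mpr ⟨x⁻¹ * z0 * x, ?_, ?_⟩
    · have := (Subgroup.mem_normalizer_iff.mp (inv_mem hx) z0).mp hz0
      simpa using this
    · have hz' : (z0 : G) = (x : G) * y * (x : G)⁻¹ := hz
      show ((x⁻¹ * z0 * x : ↥H) : G) = y
      rw [Subgroup.coe_mul, Subgroup.coe_mul, Subgroup.coe_inv, hz']
      group

theorem cent_map {G : Type*} [Group G] (H : Subgroup G) (P : Subgroup ↥H) (x : ↥H) :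
    x ∈ Subgroup.centralizer (P : Set ↥H) ↔
    (x : G) ∈ Subgroup.centralizer ((P.map H.subtype : Subgroup G) : Set G) := by
  rw [Subgroup.mem_centralizer_iff, Subgroup.mem_centralizer_iff]
  constructor
  · intro h y hy
    obtain ⟨y0, hy0, rfl⟩ := Subgroup.mem_map.mp hy
    have := h y0 hy0
    exact congrArg Subtype.val this
  · intro h y hy
    have := h (y : G) (Subgroup.mem_map.mpr ⟨y, hy, rfl⟩)
    exact Subtype.ext this

/-- Let G be a finite group that is p-stable in the normalizer form: for every p-subgroup Q and every x ∈ N_G(Q) with [Q, x, x] = 1, the image of x in N_G(Q)/C_G(Q) lies in O_p(N_G(Q)/C_G(Q)). Then every subgroup of G is p-stable in the same sense. -/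
theorem result {G : Type*} [Group G] [Finite G] {p : ℕ} [Fact p.Prime] (hst : Cfsg.IsNormalizerPStable p G) (H : Subgroup G) : Cfsg.IsNormalizerPStable p ↥H := by
  classical
  intro P hP g hg hquad
  set P' : Subgroup G := P.map H.subtype with hP'
  have hP'p : IsPGroup p ↥P' := hP.map _
  have hg' : (g : G) ∈ Subgroup.normalizer (P' : Set G) := norm_map H P g hg
  have hquad' : ⁅⁅P', Subgroup.zpowers (g : G)⁆, Subgroup.zpowers (g : G)⁆ = ⊥ := by
    have hz : Subgroup.zpowers (g : G) = (Subgroup.zpowers g).map H.subtype := by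
      rw [MonoidHom.map_zpowers]
      rfl
    rw [hz, hP', ← Subgroup.map_commutator, ← Subgroup.map_commutator, hquad, Subgroup.map_bot]
  have hmem := hst P' hP'p (g : G) hg' hquad'
  let f : ↥(Subgroup.normalizer (P : Set ↥H)) →* ↥(Subgroup.normalizer (P' : Set G)) := { toFun := fun x => ⟨((x : ↥H) : G), norm_map H P x x.2⟩, map_one' := rfl, map_mul' := fun a b => rfl }
  have hf : ∀ x, ((f x : ↥(Subgroup.normalizer (P' : Set G))) : G) = ((x : ↥H) : G) := fun x => rfl
  have hle : (Subgroup.centralizer (P : Set ↥H)).subgroupOf (Subgroup.normalizer (P : Set ↥H)) ≤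
      ((Subgroup.centralizer (P' : Set G)).subgroupOf (Subgroup.normalizer (P' : Set G))).comap f := by
    intro x hx
    rw [Subgroup.mem_comap, Subgroup.mem_subgroupOf, hf]
    exact (cent_map H P x).mp (Subgroup.mem_subgroupOf.mp hx)
  set ι := QuotientGroup.map _ _ f hle with hι
  have hιinj : Function.Injective ι := by
    rw [injective_iff_map_eq_one]
    intro q hq
    induction q using QuotientGroup.induction_on with
    | H x =>
      have h1 : ι (QuotientGroup.mk x) = QuotientGroup.mk (f x) := rfl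
      rw [h1, QuotientGroup.eq_one_iff, Subgroup.mem_subgroupOf, hf] at hq
      rw [QuotientGroup.eq_one_iff, Subgroup.mem_subgroupOf]
      exact (cent_map H P x).mpr hq
  set K := (Cfsg.pCore p (↥(Subgroup.normalizer (P' : Set G)) ⧸
      (Subgroup.centralizer (P' : Set G)).subgroupOf (Subgroup.normalizer (P' : Set G)))).comap ι with hK
  haveI := Cfsg.Agent.Lib.Helper4.pCore_normal p (↥(Subgroup.normalizer (P' : Set G)) ⧸
      (Subgroup.centralizer (P' : Set G)).subgroupOf (Subgroup.normalizer (P' : Set G)))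
  have hKn : K.Normal := inferInstance
  have hKp : IsPGroup p ↥K :=
    (Cfsg.Agent.Lib.Helper4.pCore_isPGroup p _).comap_of_injective ι hιinj
  apply Cfsg.Agent.Lib.Helper4.le_pCore hKn hKp
  rw [hK, Subgroup.mem_comap]
  exact hmem

end Cfsg.Agent.S3836
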