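import Cfsg.Statements.S3838
import Mathlib
import Cfsg.Agent.Lib.Helper6.TateLike
-- import your own Cfsg.Agent.* helpers here

set_option autoImplicit false
open Cfsg

namespace Cfsg.Agent.S3838


open scoped commutatorElement

/-- Let G be a finite group with Sylow p-subgroup P such that N_G(P) has a normal p-complement. Then N_G(Q) has a normal p-complement for every subgroup Q with [P, P] ≤ Q ≤ Φ(P). -/
theorem result {G : Type*} [Group G] [Finite G] {p : ℕ} [Fact p.Prime] (P : Sylow p G) (hN : Cfsg.HasNormalPComplement p ↥(Subgroup.normalizer ((P : Subgroup G) : Set G))) (Q : Subgroup G) (h1 : (commutator ↥(P : Subgroup G)).map (P : Subgroup G).subtype ≤ Q) (h2 : Q ≤ (frattini ↥(P : Subgroup G)).map (P : Subgroup G).subtype) : Cfsg.HasNormalPComplement p ↥(Subgroup.normalizer (Q : Set G)) := by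
  classical
  set H := Subgroup.normalizer (Q : Set G) with hH
  have hQP : Q ≤ (P : Subgroup G) := h2.trans (Subgroup.map_subtype_le _)
  have hcomm : ∀ a ∈ (P : Subgroup G), ∀ b ∈ (P : Subgroup G), a * b * a⁻¹ * b⁻¹ ∈ Q := by
    intro a ha b hb
    apply h1
    refine ⟨⁅(⟨a, ha⟩ : ↥(P : Subgroup G)), ⟨b, hb⟩⁆, ?_, rfl⟩
    rw [commutator_def]
    exact Subgroup.commutator_mem_commutator (Subgroup.mem_top _) (Subgroup.mem_top _)
  have hPH : (P : Subgroup G) ≤ H := by
    intro u hu
    apply Cfsg.Agent.Lib.Helper1.mem_normalizer_of_finite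
    intro x hx
    have h3 : u * x * u⁻¹ = (u * x * u⁻¹ * x⁻¹) * x := by group
    rw [h3]
    exact Subgroup.mul_mem _ (hcomm u hu x (hQP hx)) hx
  let PX : Sylow p ↥H := P.subtype hPH
  have hPX : (PX : Subgroup ↥H) = (P : Subgroup G).subgroupOf H := Sylow.coe_subtype P hPH
  haveI hQXn : (Q.subgroupOf H).Normal := Subgroup.normal_in_normalizer
  apply Cfsg.Agent.Lib.Helper6.npc_of_normalizer_npc_of_nongen PX (Q.subgroupOf H)
  · rw [hPX]
    intro x hx
    exact Subgroup.mem_subgroupOf.mpr (hQP (Subgroup.mem_subgroupOf.mp hx))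
  · intro a ha b hb
    rw [hPX] at ha hb
    rw [Subgroup.mem_subgroupOf]
    exact hcomm _ (Subgroup.mem_subgroupOf.mp ha) _ (Subgroup.mem_subgroupOf.mp hb)
  · intro P₁ hP₁ hle
    rw [hPX] at hP₁ hle ⊢
    have h3 : (P : Subgroup G) ≤ P₁.map H.subtype := by
      apply Cfsg.Agent.Lib.Helper6.le_of_le_sup_frattini (P : Subgroup G) Q (P₁.map H.subtype) h2
      · rintro _ ⟨y, hy, rfl⟩
        exact Subgroup.mem_subgroupOf.mp (hP₁ hy)
      · intro u hu
        have h4 : (⟨u, hPH hu⟩ : ↥H) ∈ Q.subgroupOf H ⊔ P₁ :=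
          hle (Subgroup.mem_subgroupOf.mpr hu)
        have h5 : (Q.subgroupOf H ⊔ P₁).map H.subtype ≤ Q ⊔ P₁.map H.subtype := by
          rw [Subgroup.map_sup]
          apply sup_le_sup _ le_rfl
          rw [Subgroup.subgroupOf_map_subtype]
          exact inf_le_left
        exact h5 ⟨_, h4, rfl⟩
    intro x hx
    obtain ⟨y, hy, hyx⟩ := h3 (Subgroup.mem_subgroupOf.mp hx)
    have : y = x := Subtype.ext hyx
    rw [← this]
    exact hy
  · have hmem : ∀ x : ↥(Subgroup.normalizer ((PX : Subgroup ↥H) : Set ↥H)),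
        ((x : ↥H) : G) ∈ Subgroup.normalizer ((P : Subgroup G) : Set G) := by
      intro x
      apply Cfsg.Agent.Lib.Helper1.mem_normalizer_of_finite
      intro v hv
      have h3 : (⟨v, hPH hv⟩ : ↥H) ∈ (PX : Subgroup ↥H) := by
        rw [hPX]
        exact Subgroup.mem_subgroupOf.mpr hv
      have h4 := (Subgroup.mem_normalizer_iff.mp x.2 _).mp h3
      have h4' : (x : ↥H) * ⟨v, hPH hv⟩ * (x : ↥H)⁻¹ ∈ (P : Subgroup G).subgroupOf H := by
        rw [← hPX]
        exact h4
      exact Subgroup.mem_subgroupOf.mp h4'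
    let f : ↥(Subgroup.normalizer ((PX : Subgroup ↥H) : Set ↥H)) →*
        ↥(Subgroup.normalizer ((P : Subgroup G) : Set G)) :=
      (H.subtype.comp (Subgroup.normalizer ((PX : Subgroup ↥H) : Set ↥H)).subtype).codRestrict
        (Subgroup.normalizer ((P : Subgroup G) : Set G)) hmem
    have hf : Function.Injective f := by
      intro a b hab
      have h3 : ((f a : ↥(Subgroup.normalizer ((P : Subgroup G) : Set G))) : G) = (f b : G) :=
        congrArg Subtype.val hab
      exact Subtype.ext (Subtype.ext h3)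
    exact Cfsg.Agent.Lib.Helper3.npc_of_injective f hf hN

end Cfsg.Agent.S3838
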