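import Cfsg.Statements.S3858
import Mathlib
import Cfsg.Agent.Lib.Helper6.Basic
import Cfsg.Agent.Lib.Helper6.SylowSub
import Cfsg.Agent.Lib.Helper6.Maximal

set_option autoImplicit false
open Cfsg

namespace Cfsg.Agent.S3858

open Cfsg.Agent.Lib.Helper6

/-- the normalizer of `R ⊓ T` is a proper subgroup containing `N_G(R)` -/
theorem normalizer_inf_ne_top {G : Type*} [Group G] [Finite G] (T : Subgroup G) [T.Normal]
    (hT : IsSimpleGroup T) (hna : ¬ IsMulCommutative T) {r : ℕ} [Fact r.Prime] (R : Sylow r G)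
    (hR0 : (R : Subgroup G) ⊓ T ≠ ⊥) :
    Subgroup.normalizer ((((R : Subgroup G) ⊓ T : Subgroup G)) : Set G) ≠ ⊤ := by
  intro htop
  have hnorm : ((R : Subgroup G) ⊓ T).Normal := Subgroup.normalizer_eq_top_iff.mp htop
  have hn' : (((R : Subgroup G) ⊓ T).subgroupOf T).Normal := inferInstance
  rcases hn'.eq_bot_or_eq_top with h | h
  · apply hR0
    rw [Subgroup.subgroupOf_eq_bot] at h
    have := h.eq_bot
    rwa [inf_assoc, inf_idem] at this
  · rw [Subgroup.subgroupOf_eq_top] at h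
    have hTR : T ≤ (R : Subgroup G) := h.trans inf_le_left
    have hpT : IsPGroup r T := R.isPGroup'.to_le hTR
    exact hna ⟨⟨comm_of_simple_pgroup hpT⟩⟩

theorem normalizer_le_normalizer_inf {G : Type*} [Group G] (R T : Subgroup G) [T.Normal] :
    Subgroup.normalizer (R : Set G) ≤ Subgroup.normalizer (((R ⊓ T : Subgroup G)) : Set G) := by
  intro x hx
  rw [Subgroup.mem_set_normalizer_iff] at hx ⊢
  intro h
  have hT : h ∈ T ↔ x * h * x⁻¹ ∈ T := by
    constructor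
    · intro h2; exact ‹T.Normal›.conj_mem h h2 x
    · intro h2
      have := ‹T.Normal›.conj_mem _ h2 x⁻¹
      have e : x⁻¹ * (x * h * x⁻¹) * x⁻¹⁻¹ = h := by group
      rwa [e] at this
  have hR := hx h
  rw [SetLike.mem_coe, SetLike.mem_coe] at hR ⊢
  rw [Subgroup.mem_inf, Subgroup.mem_inf, hR, hT]

/-- Let G be a finite group with a normal non-abelian simple subgroup T whose centralizer is trivial (G almost simple with socle T), r a prime and R a Sylow r-subgroup of G meeting T nontrivially. Then R lies in exactly one maximal subgroup of G if and only if G has exactly one conjugacy class of maximal subgroups whose index is prime to r. -/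
theorem result {G : Type*} [Group G] [Finite G] (T : Subgroup G) [T.Normal] (hT : IsSimpleGroup T) (hna : ¬ IsMulCommutative T)
    (hC : Subgroup.centralizer (T : Set G) = ⊥) {r : ℕ} [Fact r.Prime] (R : Sylow r G) (hR0 : (R : Subgroup G) ⊓ T ≠ ⊥) :
    (∃! M : Subgroup G, IsCoatom M ∧ (R : Subgroup G) ≤ M) ↔
      ((∃ M : Subgroup G, IsCoatom M ∧ ¬ r ∣ M.index) ∧
        ∀ M₁ M₂ : Subgroup G, IsCoatom M₁ → ¬ r ∣ M₁.index → IsCoatom M₂ → ¬ r ∣ M₂.index → ∃ g : G, M₂ = M₁.map (MulAut.conj g).toMonoidHom) := by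
  have hidx_of_le : ∀ M : Subgroup G, (R : Subgroup G) ≤ M → ¬ r ∣ M.index := by
    intro M hRM hdvd
    exact R.not_dvd_index (hdvd.trans (Subgroup.index_dvd_of_le hRM))
  constructor
  · rintro ⟨M, ⟨hMco, hRM⟩, hMuniq⟩
    refine ⟨⟨M, hMco, hidx_of_le M hRM⟩, ?_⟩
    have key : ∀ M₁ : Subgroup G, IsCoatom M₁ → ¬ r ∣ M₁.index →
        ∃ g : G, M₁ = M.map (MulAut.conj g).toMonoidHom := by
      intro M₁ hM₁ hidx
      obtain ⟨g, hg⟩ := exists_conj_le_of_not_dvd_index (R : Subgroup G) R.isPGroup' M₁ hidx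
      have h1 : (R : Subgroup G) ≤ M₁.map (MulAut.conj g⁻¹).toMonoidHom := by
        have := Subgroup.map_mono (f := (MulAut.conj g⁻¹).toMonoidHom) hg
        rwa [map_conj_inv_map_conj] at this
      have h2 := hMuniq _ ⟨isCoatom_map_conj M₁ g⁻¹ hM₁, h1⟩
      refine ⟨g, ?_⟩
      rw [← h2, map_conj_map_conj_inv]
    intro M₁ M₂ hM₁ hi₁ hM₂ hi₂
    obtain ⟨g₁, hg₁⟩ := key M₁ hM₁ hi₁
    obtain ⟨g₂, hg₂⟩ := key M₂ hM₂ hi₂
    refine ⟨g₂ * g₁⁻¹, ?_⟩
    rw [map_conj_mul, hg₁, map_conj_inv_map_conj, hg₂]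
  · rintro ⟨-, hconj⟩
    have hNne := normalizer_inf_ne_top T hT hna R hR0
    obtain ⟨M₀, hM₀co, hM₀le⟩ := exists_coatom_ge _ hNne
    have hNR : Subgroup.normalizer ((R : Subgroup G) : Set G) ≤ M₀ :=
      (normalizer_le_normalizer_inf (R : Subgroup G) T).trans hM₀le
    have hRM₀ : (R : Subgroup G) ≤ M₀ := Subgroup.le_normalizer.trans hNR
    refine ⟨M₀, ⟨hM₀co, hRM₀⟩, ?_⟩
    rintro M₁ ⟨hM₁co, hRM₁⟩
    obtain ⟨g, hg⟩ := hconj M₀ M₁ hM₀co (hidx_of_le M₀ hRM₀) hM₁co (hidx_of_le M₁ hRM₁)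
    -- g⁻¹ R g ≤ M₀
    have h1 : (R : Subgroup G).map (MulAut.conj g⁻¹).toMonoidHom ≤ M₀ := by
      have := Subgroup.map_mono (f := (MulAut.conj g⁻¹).toMonoidHom) hRM₁
      rwa [hg, map_conj_inv_map_conj] at this
    have hidx : ¬ r ∣ (R : Subgroup G).relIndex M₀ := by
      intro hd
      exact R.not_dvd_index (hd.trans (Subgroup.relIndex_dvd_index_of_le hRM₀))
    obtain ⟨m, hm, hme⟩ := exists_conj_of_sylow_in_subgroup M₀ (R : Subgroup G)
      ((R : Subgroup G).map (MulAut.conj g⁻¹).toMonoidHom) hRM₀ h1 R.isPGroup'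
      (R.isPGroup'.map _) hidx (card_map_conj _ _)
    have h2 : m⁻¹ * g⁻¹ ∈ Subgroup.normalizer ((R : Subgroup G) : Set G) :=
      mem_normalizer_of_map_conj_eq _ hme
    have h3 : m⁻¹ * g⁻¹ ∈ M₀ := hNR h2
    have h4 : g ∈ M₀ := by
      have := M₀.inv_mem (M₀.mul_mem hm h3)
      have e : (m * (m⁻¹ * g⁻¹))⁻¹ = g := by group
      rwa [e] at this
    rw [hg, map_conj_of_mem M₀ h4]

end Cfsg.Agent.S3858
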