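import Cfsg.Statements.S3859
import Mathlib
import Cfsg.Agent.Lib.Helper6.Basic

set_option autoImplicit false
open Cfsg

namespace Cfsg.Agent.S3859

open Cfsg.Agent.Lib.Helper6

/-- Let G be a finite group with a normal non-abelian simple subgroup T whose centralizer is trivial (G almost simple with socle T), r a prime and R a Sylow r-subgroup of G meeting T nontrivially. If R lies in exactly one maximal subgroup of G, then G/T is an r-group. -/
theorem result {G : Type*} [Group G] [Finite G] (T : Subgroup G) [T.Normal] (hT : IsSimpleGroup T) (hna : ¬ IsMulCommutative T)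
    (hC : Subgroup.centralizer (T : Set G) = ⊥) {r : ℕ} [Fact r.Prime] (R : Sylow r G) (hR0 : (R : Subgroup G) ⊓ T ≠ ⊥)
    (huniq : ∃! M : Subgroup G, IsCoatom M ∧ (R : Subgroup G) ≤ M) : IsPGroup r (G ⧸ T) := by
  obtain ⟨M, ⟨hMco, hRM⟩, hMuniq⟩ := huniq
  obtain ⟨P₁, hP₁⟩ := sylow_inf_normal R T
  have hF := Sylow.normalizer_sup_eq_top P₁
  rw [hP₁] at hF
  -- R normalizes R ⊓ T
  have hRn : (R : Subgroup G) ≤ Subgroup.normalizer ((((R : Subgroup G) ⊓ T : Subgroup G)) : Set G) := by
    intro x hx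
    rw [Subgroup.mem_set_normalizer_iff]
    intro h
    constructor
    · rintro ⟨h1, h2⟩
      exact ⟨Subgroup.mul_mem _ (Subgroup.mul_mem _ hx h1) (Subgroup.inv_mem _ hx),
        ‹T.Normal›.conj_mem h h2 x⟩
    · rintro ⟨h1, h2⟩
      have e : x⁻¹ * (x * h * x⁻¹) * x⁻¹⁻¹ = h := by group
      refine ⟨?_, ?_⟩
      · have := Subgroup.mul_mem _ (Subgroup.mul_mem _ (Subgroup.inv_mem _ hx) h1)
          (Subgroup.inv_mem _ (Subgroup.inv_mem _ hx))
        rw [e] at this
        exact this
      · have := ‹T.Normal›.conj_mem _ h2 x⁻¹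
        rw [e] at this
        exact this
  -- the normalizer is proper
  have hNne : Subgroup.normalizer ((((R : Subgroup G) ⊓ T : Subgroup G)) : Set G) ≠ ⊤ := by
    intro htop
    have hnorm : ((R : Subgroup G) ⊓ T).Normal := Subgroup.normalizer_eq_top_iff.mp htop
    have hn' : (((R : Subgroup G) ⊓ T).subgroupOf T).Normal := inferInstance
    rcases hn'.eq_bot_or_eq_top with h | h
    · apply hR0
      rw [Subgroup.subgroupOf_eq_bot] at h
      have := h.eq_bot
      rwa [inf_assoc, inf_idem] at this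
    · rw [Subgroup.subgroupOf_eq_top] at h
      have hTR : T ≤ (R : Subgroup G) := h.trans inf_le_left
      have hpT : IsPGroup r T := R.isPGroup'.to_le hTR
      exact hna ⟨⟨comm_of_simple_pgroup hpT⟩⟩
  -- so it is contained in M
  obtain ⟨M', hM'co, hM'le⟩ := exists_coatom_ge _ hNne
  have hM'M : M' = M := hMuniq M' ⟨hM'co, hRn.trans hM'le⟩
  rw [hM'M] at hM'le
  have hMT : M ⊔ T = ⊤ := by
    rw [eq_top_iff, ← hF]
    exact sup_le_sup_right hM'le T
  -- R ⊔ T = ⊤
  have hRT : (R : Subgroup G) ⊔ T = ⊤ := by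
    by_contra hne
    obtain ⟨M'', hM''co, hM''le⟩ := exists_coatom_ge _ hne
    have hM''M : M'' = M := hMuniq M'' ⟨hM''co, le_sup_left.trans hM''le⟩
    rw [hM''M] at hM''le
    have : M ⊔ T ≤ M := sup_le le_rfl (le_sup_right.trans hM''le)
    rw [hMT] at this
    exact hMco.1 (top_le_iff.mp this)
  -- the quotient map restricted to R is surjective
  have hsurj : Function.Surjective ((QuotientGroup.mk' T).comp (R : Subgroup G).subtype) := by
    intro q
    obtain ⟨g, rfl⟩ := QuotientGroup.mk'_surjective T q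
    have hg : g ∈ (R : Subgroup G) ⊔ T := by rw [hRT]; trivial
    obtain ⟨y, hy, z, hz, rfl⟩ := Subgroup.mem_sup_of_normal_right.mp hg
    refine ⟨⟨y, hy⟩, ?_⟩
    simp only [MonoidHom.comp_apply, Subgroup.subtype_apply, QuotientGroup.mk'_apply]
    rw [QuotientGroup.eq]
    simpa using hz
  exact R.isPGroup'.of_surjective _ hsurj

end Cfsg.Agent.S3859
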