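import Cfsg.Statements.S3861
import Mathlib
import Cfsg.Agent.Lib.Helper6.TwoSylow
-- import your own Cfsg.Agent.* helpers here

set_option autoImplicit false
open Cfsg

namespace Cfsg.Agent.S3861

/-- In a group of odd order no nontrivial element is conjugate to its inverse. -/
theorem odd_conj_inv {Q : Type*} [Group Q] [Finite Q] (hodd : Odd (Nat.card Q)) (c x : Q)
    (h : c * x * c⁻¹ = x⁻¹) : x = 1 := by
  -- c^2 commutes with x
  have h2 : Commute (c * c) x := by
    have h' : c * x⁻¹ * c⁻¹ = x := by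
      have := congrArg (fun z => z⁻¹) h
      simp only [mul_inv_rev, inv_inv] at this
      rw [← mul_assoc] at this
      exact this
    show c * c * x = x * (c * c)
    calc c * c * x = c * (c * x * c⁻¹) * c := by group
      _ = c * x⁻¹ * c := by rw [h]
      _ = (c * x⁻¹ * c⁻¹) * (c * c) := by group
      _ = x * (c * c) := by rw [h']
  obtain ⟨k, hk⟩ := hodd
  have hc : c = (c * c) ^ (k + 1) := by
    have h1 : c ^ Nat.card Q = 1 := pow_card_eq_one'
    rw [← pow_two, ← pow_mul]
    have : 2 * (k + 1) = Nat.card Q + 1 := by omega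
    rw [this, pow_succ, h1, one_mul]
  have hcx : Commute c x := by
    rw [hc]; exact h2.pow_left _
  have hx : x = x⁻¹ := by
    rw [← h, hcx.eq, mul_assoc, mul_inv_cancel, mul_one]
  have hx2 : x ^ 2 = 1 := by
    rw [pow_two]
    nth_rewrite 2 [hx]
    exact mul_inv_cancel x
  have h1 : orderOf x ∣ 2 := orderOf_dvd_of_pow_eq_one hx2
  have h3 : orderOf x ∣ Nat.card Q := orderOf_dvd_natCard x
  have h4 : orderOf x ∣ Nat.gcd 2 (Nat.card Q) := Nat.dvd_gcd h1 h3
  have h5 : Nat.gcd 2 (Nat.card Q) = 1 := by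
    exact Nat.coprime_two_left.mpr ⟨k, hk⟩
  rw [h5, Nat.dvd_one] at h4
  exact orderOf_eq_one_iff.mp h4

/-- A finite group G has no non-identity element of odd order that is conjugate to its inverse if and only if the Sylow 2-subgroups of G are normal. -/
theorem result {G : Type*} [Group G] [Finite G] (P : Sylow 2 G) : (∀ x : G, x ≠ 1 → Odd (orderOf x) → ¬ IsConj x x⁻¹) ↔ (P : Subgroup G).Normal := by
  haveI h2 : Fact (Nat.Prime 2) := ⟨Nat.prime_two⟩
  constructor
  · intro h
    by_contra hnn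
    obtain ⟨q, r, s, hq, hq2, hr, hs⟩ :=
      Cfsg.Agent.Lib.Helper6.exists_inverted_of_sylow2_not_normal P hnn
    have hr1 : r ≠ 1 := by
      intro h1
      rw [h1, orderOf_one] at hr
      exact hq.one_lt.ne hr
    have hodd : Odd (orderOf r) := by
      rw [hr]
      exact hq.odd_of_ne_two hq2
    exact h r hr1 hodd (isConj_iff.mpr ⟨s, hs⟩)
  · intro hN x hx1 hodd hconj
    haveI := hN
    obtain ⟨c, hc⟩ := isConj_iff.mp hconj
    have hQodd : Odd (Nat.card (G ⧸ (P : Subgroup G))) := by
      rw [← Subgroup.index_eq_card]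
      have := P.not_dvd_index
      exact Nat.odd_iff.mpr (Nat.two_dvd_ne_zero.mp this)
    have hq : (QuotientGroup.mk c : G ⧸ (P : Subgroup G)) * (QuotientGroup.mk x)
        * (QuotientGroup.mk c)⁻¹ = (QuotientGroup.mk x)⁻¹ := by
      rw [← QuotientGroup.mk_inv, ← QuotientGroup.mk_mul, ← QuotientGroup.mk_mul, hc,
        QuotientGroup.mk_inv]
    have hx : (QuotientGroup.mk x : G ⧸ (P : Subgroup G)) = 1 := odd_conj_inv hQodd _ _ hq
    rw [QuotientGroup.eq_one_iff] at hx
    obtain ⟨k, hk⟩ := (IsPGroup.iff_orderOf.mp P.isPGroup') ⟨x, hx⟩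
    rw [Subgroup.orderOf_mk] at hk
    rw [hk] at hodd
    rcases Nat.eq_zero_or_pos k with h0 | h0
    · rw [h0, pow_zero] at hk
      exact hx1 (orderOf_eq_one_iff.mp hk)
    · have : Even (2 ^ k) := (Nat.even_pow' h0.ne').mpr even_two
      exact (Nat.not_even_iff_odd.mpr hodd) this

end Cfsg.Agent.S3861
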