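import Cfsg.Statements.S3862
import Mathlib
import Cfsg.Agent.Lib.Lead.PNilp
import Cfsg.Agent.Lib.Helper3.HallHigman
-- import your own Cfsg.Agent.* helpers here

set_option autoImplicit false
open Cfsg

namespace Cfsg.Agent.S3862


/-- A multiplicatively closed subset containing `1` of a finite group is a subgroup. -/
def finSubgroup {G : Type*} [Group G] [Finite G] (S : Set G) (h1 : (1 : G) ∈ S)
    (hmul : ∀ a ∈ S, ∀ b ∈ S, a * b ∈ S) : Subgroup G where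
  carrier := S
  mul_mem' := fun ha hb => hmul _ ha _ hb
  one_mem' := h1
  inv_mem' := by
    intro a ha
    have hpow : ∀ n : ℕ, a ^ n ∈ S := by
      intro n
      induction n with
      | zero => simpa using h1
      | succ n ih => rw [pow_succ]; exact hmul _ ih _ ha
    have hinv : a⁻¹ = a ^ (orderOf a - 1) := by
      have hpos : 0 < orderOf a := orderOf_pos a
      apply inv_eq_of_mul_eq_one_right
      rw [← pow_succ', Nat.sub_add_cancel hpos, pow_orderOf_eq_one]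
    rw [hinv]; exact hpow _

theorem mem_finSubgroup {G : Type*} [Group G] [Finite G] (S : Set G) (h1 : (1 : G) ∈ S)
    (hmul : ∀ a ∈ S, ∀ b ∈ S, a * b ∈ S) (a : G) : a ∈ finSubgroup S h1 hmul ↔ a ∈ S := Iff.rfl

theorem core {G : Type*} [Group G] [Finite G]
    (hinv : ∀ z : G, z ^ 2 = 1 → z ∈ Subgroup.center G)
    (hreal : ∀ x : G, x ^ 4 = 1 → IsConj x x⁻¹ → x ∈ Subgroup.center G)
    (y : G) (hy : (orderOf y).Coprime 2)
    (R : Subgroup G) (hR4 : ∀ a ∈ R, a ^ 4 = 1) (hyR : ∀ a ∈ R, y * a * y⁻¹ ∈ R)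
    (hmin : ∀ K : Subgroup G, K < R → (∀ a ∈ K, y * a * y⁻¹ ∈ K) → ∀ a ∈ K, y * a * y⁻¹ = a) :
    ∀ a ∈ R, y * a * y⁻¹ = a := by
  by_contra hnc
  push Not at hnc
  obtain ⟨x, hxR, hxy⟩ := hnc
  -- central elements commute
  have hcen : ∀ z : G, z ∈ Subgroup.center G → ∀ u : G, u * z = z * u :=
    fun z hz u => Subgroup.mem_center_iff.mp hz u
  -- squares are central
  have hsqc : ∀ a ∈ R, a ^ 2 ∈ Subgroup.center G := by
    intro a ha
    apply hinv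
    rw [← pow_mul]; exact hR4 a ha
  -- commutators are central
  have hcc : ∀ a ∈ R, ∀ b ∈ R, a * b * a⁻¹ * b⁻¹ ∈ Subgroup.center G := by
    intro a ha b hb
    have e : a * b * a⁻¹ * b⁻¹ = (a * b) ^ 2 * (a ^ 2)⁻¹ * (b ^ 2)⁻¹ := by
      have h1 := hcen _ (Subgroup.inv_mem _ (hsqc a ha)) b
      calc a * b * a⁻¹ * b⁻¹ = a * b * a * ((a ^ 2)⁻¹ * b) * (b ^ 2)⁻¹ := by
            simp only [pow_two]; group
        _ = a * b * a * (b * (a ^ 2)⁻¹) * (b ^ 2)⁻¹ := by rw [h1]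
        _ = (a * b) ^ 2 * (a ^ 2)⁻¹ * (b ^ 2)⁻¹ := by simp only [pow_two]; group
    rw [e]
    exact Subgroup.mul_mem _ (Subgroup.mul_mem _ (hsqc _ (R.mul_mem ha hb))
      (Subgroup.inv_mem _ (hsqc a ha))) (Subgroup.inv_mem _ (hsqc b hb))
  -- commutators have square one
  have hcs : ∀ a ∈ R, ∀ b ∈ R, (a * b * a⁻¹ * b⁻¹) ^ 2 = 1 := by
    intro a ha b hb
    have h1 := hcen _ (hcc a ha b hb) a
    have h2 := hcen _ (Subgroup.inv_mem _ (hsqc a ha)) b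
    calc (a * b * a⁻¹ * b⁻¹) ^ 2 = (a * b * a⁻¹ * b⁻¹) * a * (b * a⁻¹ * b⁻¹) := by
          simp only [pow_two]; group
      _ = a * (a * b * a⁻¹ * b⁻¹) * (b * a⁻¹ * b⁻¹) := by rw [h1]
      _ = a ^ 2 * (b * (a ^ 2)⁻¹) * b⁻¹ := by simp only [pow_two]; group
      _ = a ^ 2 * ((a ^ 2)⁻¹ * b) * b⁻¹ := by rw [h2]
      _ = 1 := by group
  -- x is not conjugate to its inverse
  have hxnc : ¬ IsConj x x⁻¹ := by
    intro hc
    have hxc := hreal x (hR4 x hxR) hc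
    apply hxy
    have := hcen x hxc y
    rw [this, mul_inv_cancel_right]
  -- the subgroup T of commutators with x
  let T : Subgroup G := finSubgroup {t | ∃ g ∈ R, t = g * x * g⁻¹ * x⁻¹} ⟨1, R.one_mem, by group⟩ (by
    rintro _ ⟨g, hg, rfl⟩ _ ⟨g', hg', rfl⟩
    refine ⟨g' * g, R.mul_mem hg' hg, ?_⟩
    have h1 := hcen _ (hcc g hg x hxR) g'
    calc g * x * g⁻¹ * x⁻¹ * (g' * x * g'⁻¹ * x⁻¹)
        = g * x * g⁻¹ * x⁻¹ * g' * x * g'⁻¹ * x⁻¹ := by group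
      _ = g' * (g * x * g⁻¹ * x⁻¹) * x * g'⁻¹ * x⁻¹ := by rw [h1]
      _ = g' * g * x * (g' * g)⁻¹ * x⁻¹ := by group)
  have hTmem : ∀ t, t ∈ T ↔ ∃ g ∈ R, t = g * x * g⁻¹ * x⁻¹ := fun t => Iff.rfl
  have hTcen : ∀ t ∈ T, t ∈ Subgroup.center G := by
    rintro t ⟨g, hg, rfl⟩
    exact hcc g hg x hxR
  have hx2T : x ^ 2 ∉ T := by
    rintro ⟨g, hg, hgx⟩
    apply hxnc
    rw [isConj_iff]
    refine ⟨g, ?_⟩
    have h4 := hR4 x hxR
    have e1 : g * x * g⁻¹ = x ^ 2 * x := by rw [hgx]; group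
    rw [e1]
    apply eq_inv_of_mul_eq_one_left
    rw [← pow_succ, ← pow_succ]; exact h4
  -- invariance of R under y⁻¹
  have hyRpow : ∀ (n : ℕ), ∀ a ∈ R, y ^ n * a * (y ^ n)⁻¹ ∈ R := by
    intro n
    induction n with
    | zero => intro a ha; simpa using ha
    | succ n ih =>
      intro a ha
      have e : y ^ (n + 1) * a * (y ^ (n + 1))⁻¹ = y * (y ^ n * a * (y ^ n)⁻¹) * y⁻¹ := by
        rw [pow_succ']; group
      rw [e]; exact hyR _ (ih a ha)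
  have hyRinv : ∀ a ∈ R, y⁻¹ * a * y ∈ R := by
    intro a ha
    have hinv' : y⁻¹ = y ^ (orderOf y - 1) := by
      have hpos : 0 < orderOf y := orderOf_pos y
      apply inv_eq_of_mul_eq_one_right
      rw [← pow_succ', Nat.sub_add_cancel hpos, pow_orderOf_eq_one]
    have := hyRpow (orderOf y - 1) a ha
    rw [← hinv', inv_inv] at this
    exact this
  -- the subgroup C
  let C : Subgroup G := finSubgroup {c | c ∈ R ∧ ∀ g ∈ R, g * c * g⁻¹ * c⁻¹ ∈ T}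
    ⟨R.one_mem, fun g _ => by
      have e : g * 1 * g⁻¹ * (1 : G)⁻¹ = 1 := by group
      rw [e]; exact T.one_mem⟩ (by
    rintro c ⟨hc, hcT⟩ c' ⟨hc', hcT'⟩
    refine ⟨R.mul_mem hc hc', fun g hg => ?_⟩
    have h1 := hcen _ (hTcen _ (hcT' g hg)) (g * c * g⁻¹)
    have e : g * (c * c') * g⁻¹ * (c * c')⁻¹ = (g * c' * g⁻¹ * c'⁻¹) * (g * c * g⁻¹ * c⁻¹) := by
      calc g * (c * c') * g⁻¹ * (c * c')⁻¹ = (g * c * g⁻¹) * (g * c' * g⁻¹ * c'⁻¹) * c⁻¹ := by group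
        _ = (g * c' * g⁻¹ * c'⁻¹) * (g * c * g⁻¹) * c⁻¹ := by rw [h1]
        _ = _ := by group
    rw [e]
    exact T.mul_mem (hcT' g hg) (hcT g hg))
  have hCle : C ≤ R := fun c hc => hc.1
  have hxC : x ∈ C := ⟨hxR, fun g hg => ⟨g, hg, rfl⟩⟩
  have hCy : ∀ a ∈ C, y * a * y⁻¹ ∈ C := by
    rintro c ⟨hc, hcT⟩
    refine ⟨hyR c hc, fun g hg => ?_⟩
    have hg' := hyRinv g hg
    have hZ := hcT _ hg'
    have e : g * (y * c * y⁻¹) * g⁻¹ * (y * c * y⁻¹)⁻¹ =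
        y * ((y⁻¹ * g * y) * c * (y⁻¹ * g * y)⁻¹ * c⁻¹) * y⁻¹ := by group
    rw [e, hcen _ (hTcen _ hZ) y, mul_inv_cancel_right]
    exact hZ
  have hCR : C = R := by
    by_contra hne
    exact hxy (hmin C (lt_of_le_of_ne hCle hne) hCy x hxC)
  have hRT : ∀ c ∈ R, ∀ g ∈ R, g * c * g⁻¹ * c⁻¹ ∈ T := by
    intro c hc g hg
    have : c ∈ C := hCR ▸ hc
    exact this.2 g hg
  -- the subgroup K
  have hsqmul : ∀ c ∈ R, ∀ c' ∈ R, (c * c') ^ 2 = (c' * c * c'⁻¹ * c⁻¹) * c ^ 2 * c' ^ 2 := by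
    intro c hc c' hc'
    have h1 := hcen _ (hcc c' hc' c hc) c
    calc (c * c') ^ 2 = c * (c' * c * c'⁻¹ * c⁻¹) * c * c' * c' := by
          simp only [pow_two]; group
      _ = (c' * c * c'⁻¹ * c⁻¹) * c * c * c' * c' := by rw [h1]
      _ = (c' * c * c'⁻¹ * c⁻¹) * c ^ 2 * c' ^ 2 := by simp only [pow_two]; group
  let K : Subgroup G := finSubgroup {c | c ∈ R ∧ c ^ 2 ∈ T}
    ⟨R.one_mem, by simp⟩ (by
    rintro c ⟨hc, hcT⟩ c' ⟨hc', hcT'⟩
    refine ⟨R.mul_mem hc hc', ?_⟩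
    show (c * c') ^ 2 ∈ T
    rw [hsqmul c hc c' hc']
    exact T.mul_mem (T.mul_mem (hRT c hc c' hc') hcT) hcT')
  have hKle : K ≤ R := fun c hc => hc.1
  have hxK : x ∉ K := fun hc => hx2T hc.2
  have hKy : ∀ a ∈ K, y * a * y⁻¹ ∈ K := by
    rintro c ⟨hc, hcT⟩
    refine ⟨hyR c hc, ?_⟩
    show (y * c * y⁻¹) ^ 2 ∈ T
    have e : (y * c * y⁻¹) ^ 2 = y * c ^ 2 * y⁻¹ := by simp only [pow_two]; group
    rw [e, hcen _ (hsqc c hc) y, mul_inv_cancel_right]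
    exact hcT
  have hKlt : K < R := lt_of_le_of_ne hKle (fun hKR => hxK (hKR ▸ hxR))
  have hKcent := hmin K hKlt hKy
  -- now y centralizes R
  apply hxy
  have hall : ∀ r ∈ R, y * r * y⁻¹ = r := by
    intro r hr
    have hs := hyR r hr
    have hkK : r⁻¹ * (y * r * y⁻¹) ∈ K := by
      refine ⟨R.mul_mem (R.inv_mem hr) hs, ?_⟩
      show (r⁻¹ * (y * r * y⁻¹)) ^ 2 ∈ T
      rw [hsqmul _ (R.inv_mem hr) _ hs]
      have e2 : (y * r * y⁻¹) ^ 2 = r ^ 2 := by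
        have e : (y * r * y⁻¹) ^ 2 = y * r ^ 2 * y⁻¹ := by simp only [pow_two]; group
        rw [e, hcen _ (hsqc r hr) y, mul_inv_cancel_right]
      rw [e2]
      have e3 : y * r * y⁻¹ * r⁻¹ * (y * r * y⁻¹)⁻¹ * r⁻¹⁻¹ * r⁻¹ ^ 2 * r ^ 2 =
          y * r * y⁻¹ * r⁻¹ * (y * r * y⁻¹)⁻¹ * r⁻¹⁻¹ := by group
      rw [e3]
      exact hRT _ (R.inv_mem hr) _ hs
    set k := r⁻¹ * (y * r * y⁻¹) with hk
    have hky : y * k * y⁻¹ = k := hKcent k hkK
    have hyr : y * r * y⁻¹ = r * k := by rw [hk]; group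
    have hpow : ∀ i : ℕ, y ^ i * r * (y ^ i)⁻¹ = r * k ^ i := by
      intro i
      induction i with
      | zero => simp
      | succ i ih =>
        have hki : y * k ^ i * y⁻¹ = k ^ i := by
          rw [← conj_pow, hky]
        calc y ^ (i + 1) * r * (y ^ (i + 1))⁻¹ = y * (y ^ i * r * (y ^ i)⁻¹) * y⁻¹ := by
              rw [pow_succ']; group
          _ = y * (r * k ^ i) * y⁻¹ := by rw [ih]
          _ = (y * r * y⁻¹) * (y * k ^ i * y⁻¹) := by group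
          _ = r * k * k ^ i := by rw [hyr, hki]
          _ = r * k ^ (i + 1) := by rw [pow_succ']; group
    have hkm : k ^ orderOf y = 1 := by
      have := hpow (orderOf y)
      rw [pow_orderOf_eq_one] at this
      simp at this
      exact this
    have hk4 : k ^ 4 = 1 := hR4 k hkK.1
    have hk1 : k = 1 := by
      have h1 : orderOf k ∣ orderOf y := orderOf_dvd_of_pow_eq_one hkm
      have h2 : orderOf k ∣ 4 := orderOf_dvd_of_pow_eq_one hk4
      have hcop : (orderOf y).Coprime 4 := by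
        have : (4 : ℕ) = 2 ^ 2 := by norm_num
        rw [this]; exact Nat.Coprime.pow_right 2 hy
      have h3 : orderOf k = 1 := Nat.eq_one_of_dvd_coprimes hcop h1 h2
      exact orderOf_eq_one_iff.mp h3
    rw [hyr, hk1, mul_one]
  exact hall x hxR

/-- If every 2-element of the finite group G that is conjugate to its inverse lies in the centre of G, then G has a normal 2-complement. -/
theorem result {G : Type*} [Group G] [Finite G] (h : ∀ x : G, (∃ j : ℕ, orderOf x = 2 ^ j) → IsConj x x⁻¹ → x ∈ Subgroup.center G) : Cfsg.HasNormalPComplement 2 G := by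
  classical
  have : Fact (Nat.Prime 2) := ⟨Nat.prime_two⟩
  obtain P : Sylow 2 G := default
  refine ⟨P, ?_⟩
  rw [Cfsg.Agent.Lib.Lead.frobenius_pnilpotent P]
  intro Q hQP y hyN hycop
  by_contra hyC
  have hinv : ∀ z : G, z ^ 2 = 1 → z ∈ Subgroup.center G := by
    intro z hz
    by_cases hz1 : z = 1
    · rw [hz1]; exact Subgroup.one_mem _
    · have ho : orderOf z = 2 := orderOf_eq_prime hz hz1
      apply h z ⟨1, by rw [ho]; norm_num⟩
      have : z⁻¹ = z := by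
        apply inv_eq_of_mul_eq_one_left
        rw [← pow_two]; exact hz
      rw [this]
  have hreal : ∀ x : G, x ^ 4 = 1 → IsConj x x⁻¹ → x ∈ Subgroup.center G := by
    intro x hx hc
    apply h x _ hc
    have h1 : orderOf x ∣ 2 ^ 2 := by
      have := orderOf_dvd_of_pow_eq_one hx
      norm_num at this ⊢
      exact this
    obtain ⟨j, -, hj⟩ := (Nat.dvd_prime_pow Nat.prime_two).1 h1
    exact ⟨j, hj⟩
  have hQp : IsPGroup 2 ↥Q := P.2.to_le hQP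
  have hyQ : ∀ a ∈ Q, y * a * y⁻¹ ∈ Q := fun a ha => (Subgroup.mem_normalizer_iff.mp hyN a).mp ha
  have hnc : ¬ ∀ a ∈ Q, y * a * y⁻¹ = a := by
    intro hall
    apply hyC
    rw [Subgroup.mem_centralizer_iff]
    intro a ha
    have h5 := hall a ha
    calc a * y = (y * a * y⁻¹) * y := by rw [h5]
      _ = y * a := by group
  obtain ⟨R₀, hR₀Q, hR₀y, hR₀nc, hR₀e⟩ :=
    Cfsg.Agent.Lib.Helper3.exists_small_exponent_not_centralized Q hQp y hyQ hycop hnc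
  have hR₀4 : ∀ a ∈ R₀, a ^ 4 = 1 := by
    intro a ha
    rcases hR₀e a ha with h2 | ⟨-, h4⟩
    · have : a ^ 4 = (a ^ 2) ^ 2 := by rw [← pow_mul]
      rw [this, h2, one_pow]
    · exact h4
  have hex : ∃ n : ℕ, ∃ R : Subgroup G, ((∀ a ∈ R, a ^ 4 = 1) ∧ (∀ a ∈ R, y * a * y⁻¹ ∈ R) ∧
      ¬ ∀ a ∈ R, y * a * y⁻¹ = a) ∧ Nat.card R = n := ⟨_, R₀, ⟨hR₀4, hR₀y, hR₀nc⟩, rfl⟩
  obtain ⟨R, ⟨hR4, hRy, hRnc⟩, hRcard⟩ := Nat.find_spec hex
  apply hRnc
  apply core hinv hreal y hycop R hR4 hRy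
  intro K hK hKy
  by_contra hc
  have hlt : Nat.card K < Nat.find hex := by
    rw [← hRcard]
    by_contra hge
    push Not at hge
    exact hK.ne (Subgroup.eq_of_le_of_card_ge hK.le hge)
  exact Nat.find_min hex hlt ⟨K, ⟨fun a ha => hR4 a (hK.le ha), hKy, hc⟩, rfl⟩

end Cfsg.Agent.S3862
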