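import Cfsg.Statements.S3864
import Mathlib
import Cfsg.Agent.Lib.Lead.SylowAux2
import Cfsg.Agent.Lib.Lead.DihFusion2

set_option autoImplicit false
open Cfsg Cfsg.Agent.Lib.Lead

namespace Cfsg.Agent.S3864

open scoped Pointwise commutatorElement

/-- Let G be a finite group whose Sylow 2-subgroups are dihedral of order 2 ^ n with n ≥ 3, and count the conjugacy classes of involutions of G. Then exactly one of the following holds: there is one class of involutions and no normal subgroup of index 2; there are two classes of involutions, a normal subgroup of index 2 and none of index 4; there are three classes of involutions and G has a normal 2-complement. -/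
theorem result {G : Type*} [Group G] [Finite G] (P : Sylow 2 G) (n : ℕ) (hn : 3 ≤ n) (hdih : Nonempty (↥(P : Subgroup G) ≃* DihedralGroup (2 ^ (n - 1)))) : (Nat.card {C : ConjClasses G // ∃ g : G, ConjClasses.mk g = C ∧ orderOf g = 2} = 1 ∧ ∀ N : Subgroup G, N.Normal → N.index ≠ 2) ∨ (Nat.card {C : ConjClasses G // ∃ g : G, ConjClasses.mk g = C ∧ orderOf g = 2} = 2 ∧ (∃ N : Subgroup G, N.Normal ∧ N.index = 2) ∧ ∀ N : Subgroup G, N.Normal → N.index ≠ 4) ∨ (Nat.card {C : ConjClasses G // ∃ g : G, ConjClasses.mk g = C ∧ orderOf g = 2} = 3 ∧ Cfsg.HasNormalPComplement 2 G) := by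
  classical
  generalize hmdef : 2 ^ (n - 1) = m at hdih
  obtain ⟨e⟩ := hdih
  obtain ⟨c, hcdef⟩ : ∃ c : ℕ, c = 2 ^ (n - 3) := ⟨_, rfl⟩
  have hc1 : 1 ≤ c := by rw [hcdef]; exact Nat.one_le_two_pow
  have hm4 : m = 4 * c := by
    rw [← hmdef, hcdef, show n - 1 = (n - 3) + 2 by omega, pow_add]; ring
  haveI : NeZero m := ⟨by omega⟩
  have hdih' : ∀ d : DihedralGroup m,
      (∃ j, d = DihedralGroup.r j) ∨ (∃ j, d = DihedralGroup.sr j) := by
    intro d
    cases d with
    | r j => exact Or.inl ⟨j, rfl⟩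
    | sr j => exact Or.inr ⟨j, rfl⟩
  obtain ⟨i₀, hi₀def⟩ : ∃ i₀ : ZMod m, i₀ = (c : ZMod m) := ⟨_, rfl⟩
  have hi₀2 : 2 * (2 * i₀) = 0 := by
    have h1 : ((4 * c : ℕ) : ZMod m) = 0 := by rw [← hm4]; exact ZMod.natCast_self m
    rw [hi₀def]
    push_cast at h1
    linear_combination h1
  have hi₀0 : 2 * i₀ ≠ 0 := by
    intro h
    have h1 : ((2 * c : ℕ) : ZMod m) = 0 := by
      push_cast
      rw [← hi₀def]; exact h
    rw [ZMod.natCast_eq_zero_iff] at h1
    have := Nat.le_of_dvd (by omega) h1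
    omega
  have hpar : ∀ k : ZMod m, ∃ i : ZMod m, k = 2 * i ∨ k = 2 * i + 1 := by
    intro k
    refine ⟨((k.val / 2 : ℕ) : ZMod m), ?_⟩
    have h1 : k = ((k.val : ℕ) : ZMod m) := (ZMod.natCast_zmod_val k).symm
    rcases Nat.mod_two_eq_zero_or_one k.val with h | h
    · left
      have h2 : k.val = 2 * (k.val / 2) := by omega
      calc k = ((k.val : ℕ) : ZMod m) := h1
        _ = ((2 * (k.val / 2) : ℕ) : ZMod m) := by rw [← h2]
        _ = 2 * ((k.val / 2 : ℕ) : ZMod m) := by rw [Nat.cast_mul, Nat.cast_ofNat]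
    · right
      have h2 : k.val = 2 * (k.val / 2) + 1 := by omega
      calc k = ((k.val : ℕ) : ZMod m) := h1
        _ = ((2 * (k.val / 2) + 1 : ℕ) : ZMod m) := by rw [← h2]
        _ = 2 * ((k.val / 2 : ℕ) : ZMod m) + 1 := by
          rw [Nat.cast_add, Nat.cast_mul, Nat.cast_ofNat, Nat.cast_one]
  obtain ⟨φ, hφdef⟩ : ∃ φ : ↥(P : Subgroup G) →* DihedralGroup m, φ = e.toMonoidHom :=
    ⟨_, rfl⟩
  have hφ : Function.Injective φ := by rw [hφdef]; exact e.injective
  have hφsurj : ∀ d, ∃ q, φ q = d := by rw [hφdef]; exact e.surjective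
  obtain ⟨M₀, hM₀def⟩ : ∃ M₀ : Subgroup ↥(P : Subgroup G),
      M₀ = (Subgroup.zpowers (DihedralGroup.r (1 : ZMod m))).comap φ := ⟨_, rfl⟩
  obtain ⟨M, hMdef⟩ : ∃ M : Subgroup G, M = M₀.map (P : Subgroup G).subtype := ⟨_, rfl⟩
  have hMmem : ∀ q : ↥(P : Subgroup G), (q : G) ∈ M ↔ ∃ j, φ q = DihedralGroup.r j := by
    intro q
    constructor
    · intro hq
      rw [hMdef] at hq
      obtain ⟨q', hq', hqq⟩ := Subgroup.mem_map.1 hq
      have hq'q : q' = q := Subtype.ext hqq
      rw [hq'q, hM₀def, Subgroup.mem_comap] at hq'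
      obtain ⟨k, hk⟩ := Subgroup.mem_zpowers_iff.1 hq'
      rw [DihedralGroup.r_one_zpow] at hk
      exact ⟨_, hk.symm⟩
    · rintro ⟨j, hj⟩
      rw [hMdef]
      refine Subgroup.mem_map.2 ⟨q, ?_, rfl⟩
      rw [hM₀def, Subgroup.mem_comap, hj, Subgroup.mem_zpowers_iff]
      exact ⟨(j.val : ℤ), by
        rw [DihedralGroup.r_one_zpow, Int.cast_natCast, ZMod.natCast_zmod_val]⟩
  have hnot : ∀ q : ↥(P : Subgroup G), (q : G) ∉ M → ∃ j, φ q = DihedralGroup.sr j := by
    intro q hq
    rcases hdih' (φ q) with ⟨j, hc⟩ | ⟨j, hc⟩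
    · exact absurd ((hMmem q).2 ⟨j, hc⟩) hq
    · exact ⟨j, hc⟩
  have hMR : M ≤ (P : Subgroup G) := by rw [hMdef]; exact Subgroup.map_subtype_le _
  have hMc : IsCyclic ↥M := by
    have hM₀c : IsCyclic ↥M₀ := by
      let θ : ↥M₀ →* ↥(Subgroup.zpowers (DihedralGroup.r (1 : ZMod m))) :=
        (φ.comp M₀.subtype).codRestrict _ (fun q => Subgroup.mem_comap.1 (hM₀def.le q.2))
      have hθ : Function.Injective θ := by
        intro a b hab
        have h1 : φ (a : ↥(P : Subgroup G)) = φ (b : ↥(P : Subgroup G)) :=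
          congrArg Subtype.val hab
        exact Subtype.ext (hφ h1)
      exact isCyclic_of_injective θ hθ
    haveI := hM₀c
    rw [hMdef]
    exact isCyclic_of_surjective
      (Subgroup.equivMapOfInjective M₀ _ (Subgroup.subtype_injective _))
      (MulEquiv.surjective _)
  have hmul : ∀ a ∈ (P : Subgroup G), ∀ b ∈ (P : Subgroup G), a ∉ M → b ∉ M →
      a * b ∈ M := by
    intro a ha b hb haM hbM
    obtain ⟨j, hj⟩ := hnot ⟨a, ha⟩ haM
    obtain ⟨k, hk⟩ := hnot ⟨b, hb⟩ hbM
    exact (hMmem (⟨a, ha⟩ * ⟨b, hb⟩)).2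
      ⟨k - j, by rw [map_mul, hj, hk, DihedralGroup.sr_mul_sr]⟩
  have hinvol : ∀ q : ↥(P : Subgroup G), orderOf (q : G) = orderOf (φ q) := by
    intro q
    rw [orderOf_injective φ hφ, Subgroup.orderOf_coe]
  have hordM : ∀ x ∈ (P : Subgroup G), x ∉ M → orderOf x = 2 := by
    intro x hxP hxM
    obtain ⟨j, hj⟩ := hnot ⟨x, hxP⟩ hxM
    have := hinvol ⟨x, hxP⟩
    rw [hj, DihedralGroup.orderOf_sr] at this
    exact this
  -- distinguished elements
  obtain ⟨zP, hzP⟩ := hφsurj (DihedralGroup.r (2 * i₀))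
  obtain ⟨aP, haP⟩ := hφsurj (DihedralGroup.sr 0)
  obtain ⟨bP, hbP⟩ := hφsurj (DihedralGroup.sr 1)
  obtain ⟨rP, hrP⟩ := hφsurj (DihedralGroup.r 1)
  obtain ⟨z, hzdef⟩ : ∃ z : G, z = (zP : G) := ⟨_, rfl⟩
  obtain ⟨a, hadef⟩ : ∃ a : G, a = (aP : G) := ⟨_, rfl⟩
  obtain ⟨b, hbdef⟩ : ∃ b : G, b = (bP : G) := ⟨_, rfl⟩
  obtain ⟨ρ, hρdef⟩ : ∃ ρ : G, ρ = (rP : G) := ⟨_, rfl⟩
  have haPm : a ∈ (P : Subgroup G) := by rw [hadef]; exact aP.2
  have hbPm : b ∈ (P : Subgroup G) := by rw [hbdef]; exact bP.2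
  have hzo : orderOf z = 2 := by
    rw [hzdef, hinvol, hzP]
    apply orderOf_eq_prime
    · rw [pow_two, DihedralGroup.r_mul_r, DihedralGroup.one_def]
      congr 1
      linear_combination hi₀2
    · intro h
      rw [DihedralGroup.one_def] at h
      exact hi₀0 (DihedralGroup.r.inj h)
  have hao : orderOf a = 2 := by rw [hadef, hinvol, haP, DihedralGroup.orderOf_sr]
  have hbo : orderOf b = 2 := by rw [hbdef, hinvol, hbP, DihedralGroup.orderOf_sr]
  have haM : a ∉ M := by
    rw [hadef]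
    intro h
    obtain ⟨l, hl⟩ := (hMmem aP).1 h
    rw [haP] at hl
    cases hl
  have hbM : b ∉ M := by
    rw [hbdef]
    intro h
    obtain ⟨l, hl⟩ := (hMmem bP).1 h
    rw [hbP] at hl
    cases hl
  have hab : a * b = ρ := by
    have h1 : aP * bP = rP := by
      apply hφ
      rw [map_mul, haP, hbP, hrP, DihedralGroup.sr_mul_sr, sub_zero]
    rw [hadef, hbdef, hρdef]; exact congrArg Subtype.val h1
  have haρb : a * ρ = b := by
    have h1 : aP * rP = bP := by
      apply hφ
      rw [map_mul, haP, hbP, hrP, DihedralGroup.sr_mul_r, zero_add]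
    rw [hadef, hbdef, hρdef]; exact congrArg Subtype.val h1
  have hρaρ : ρ * a * ρ = a := by
    have h1 : rP * aP * rP = aP := by
      apply hφ
      rw [map_mul, map_mul, haP, hrP, DihedralGroup.r_mul_sr, DihedralGroup.sr_mul_r]
      congr 1
      ring
    rw [hadef, hρdef]; exact congrArg Subtype.val h1
  have hzρ : z = ρ ^ (2 * c) := by
    have h1 : zP = rP ^ (2 * c) := by
      apply hφ
      rw [map_pow, hzP, hrP, DihedralGroup.r_one_pow, hi₀def, Nat.cast_mul, Nat.cast_ofNat]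
    rw [hzdef, hρdef, h1]; rfl
  have hPform : ∀ q : ↥(P : Subgroup G),
      (∃ k : ℕ, (q : G) = ρ ^ k) ∨ (∃ k : ℕ, (q : G) = a * ρ ^ k) := by
    intro q
    rcases hdih' (φ q) with ⟨j, hj⟩ | ⟨j, hj⟩
    · left
      refine ⟨j.val, ?_⟩
      have h1 : q = rP ^ j.val := by
        apply hφ
        rw [map_pow, hj, hrP, DihedralGroup.r_one_pow, ZMod.natCast_zmod_val]
      rw [h1, hρdef]; rfl
    · right
      refine ⟨j.val, ?_⟩
      have h1 : q = aP * rP ^ j.val := by
        apply hφ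
        rw [map_mul, map_pow, hj, haP, hrP, DihedralGroup.r_one_pow, ZMod.natCast_zmod_val,
          DihedralGroup.sr_mul_r, zero_add]
      rw [h1, hadef, hρdef]; rfl
  have hMz : ∀ x ∈ M, orderOf x = 2 → x = z := by
    intro x hxM hxo
    obtain ⟨k, hk⟩ := (hMmem ⟨x, hMR hxM⟩).1 hxM
    have hko : orderOf (DihedralGroup.r k) = 2 := by rw [← hk, ← hinvol]; exact hxo
    obtain ⟨hk2, hk0⟩ := dihedral_r_invol k hko
    have hk2i : k = 2 * i₀ := zmod_two_torsion_unique m k (2 * i₀) hk2 hk0 hi₀2 hi₀0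
    have h1 : (⟨x, hMR hxM⟩ : ↥(P : Subgroup G)) = zP := by
      apply hφ; rw [hk, hzP, hk2i]
    rw [hzdef]; exact congrArg Subtype.val h1
  have hMinv : ∀ (g x : G), orderOf x = 2 → g * x * g⁻¹ ∈ M → IsConj x z :=
    fun g x hxo hc => isConj_iff.2 ⟨g, hMz _ hc (by rw [orderOf_conj_eq, hxo])⟩
  have hconjab : ∀ x ∈ (P : Subgroup G), x ∉ M → IsConj a x ∨ IsConj b x := by
    intro x hxP hxM
    obtain ⟨k, hk⟩ := hnot ⟨x, hxP⟩ hxM
    obtain ⟨i, hi⟩ := hpar k
    obtain ⟨uP, huP⟩ := hφsurj (DihedralGroup.r (-i))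
    rcases hi with hi | hi
    · left
      rw [isConj_iff]
      refine ⟨(uP : G), ?_⟩
      have h1 : uP * aP = ⟨x, hxP⟩ * uP := by
        apply hφ
        rw [map_mul, map_mul, huP, haP, hk, DihedralGroup.r_mul_sr, DihedralGroup.sr_mul_r]
        congr 1
        rw [hi]; ring
      have h2 : (uP : G) * a = x * (uP : G) := by rw [hadef]; exact congrArg Subtype.val h1
      rw [h2]; group
    · right
      rw [isConj_iff]
      refine ⟨(uP : G), ?_⟩
      have h1 : uP * bP = ⟨x, hxP⟩ * uP := by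
        apply hφ
        rw [map_mul, map_mul, huP, hbP, hk, DihedralGroup.r_mul_sr, DihedralGroup.sr_mul_r]
        congr 1
        rw [hi]; ring
      have h2 : (uP : G) * b = x * (uP : G) := by rw [hbdef]; exact congrArg Subtype.val h1
      rw [h2]; group
  have hrel : M.relIndex (P : Subgroup G) = 2 := by
    rw [Subgroup.relIndex_eq_two_iff]
    refine ⟨a, haPm, fun p hp => ?_⟩
    rcases hdih' (φ ⟨p, hp⟩) with ⟨k, hk⟩ | ⟨k, hk⟩
    · right
      refine ⟨(hMmem ⟨p, hp⟩).2 ⟨k, hk⟩, fun h => ?_⟩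
      obtain ⟨l, hl⟩ := (hMmem (⟨p, hp⟩ * aP)).1 (by rw [hadef] at h; exact h)
      rw [map_mul, hk, haP, DihedralGroup.r_mul_sr] at hl
      cases hl
    · left
      refine ⟨?_, fun h => ?_⟩
      · have h1 := (hMmem (⟨p, hp⟩ * aP)).2
          ⟨0 - k, by rw [map_mul, hk, haP, DihedralGroup.sr_mul_sr]⟩
        rw [hadef]; exact h1
      · obtain ⟨l, hl⟩ := (hMmem ⟨p, hp⟩).1 h
        rw [hk] at hl
        cases hl
  have hO1 : ∀ g : G, orderOf g = 2 → IsConj g z ∨ IsConj g a ∨ IsConj g b := by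
    intro g hg
    obtain ⟨h, hh⟩ := sylow_conj_mem P (Subgroup.zpowers g) (isPGroup_zpowers_invol hg)
    have hxP : h * g * h⁻¹ ∈ (P : Subgroup G) := hh g (Subgroup.mem_zpowers g)
    have hxo : orderOf (h * g * h⁻¹) = 2 := by rw [orderOf_conj_eq, hg]
    have hgx : IsConj g (h * g * h⁻¹) := isConj_iff.2 ⟨h, rfl⟩
    by_cases hxM : h * g * h⁻¹ ∈ M
    · left
      rw [← hMz _ hxM hxo]; exact hgx
    · rcases hconjab _ hxP hxM with h1 | h1
      · right; left; exact hgx.trans h1.symm
      · right; right; exact hgx.trans h1.symm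
  -- normal 2-complement
  have hNPC : ¬ IsConj a z → ¬ IsConj b z → Cfsg.HasNormalPComplement 2 G := by
    intro hA hB
    apply hasNPC_of_odd_pResidual
    apply odd_card_pResidual_of_transfer P M hMR hMc hmul
    intro x hxP hxM
    have hxo : orderOf x = 2 := hordM x hxP hxM
    refine ⟨hxo, fun g hc => ?_⟩
    have hxz : IsConj x z := hMinv g x hxo hc
    rcases hconjab x hxP hxM with h | h
    · exact hA (h.trans hxz)
    · exact hB (h.trans hxz)
  -- a normal subgroup of index two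
  have hidx2 : ∀ x ∈ (P : Subgroup G), x ∉ M → ¬ IsConj x z →
      ∃ N : Subgroup G, N.Normal ∧ N.index = 2 := by
    intro x hxP hxM hxz
    have hxo : orderOf x = 2 := hordM x hxP hxM
    obtain ⟨f, hf⟩ := thompson_transfer_hom P M hrel 1 le_rfl
      (fun y hy hyM => by rw [hordM y hy hyM]; norm_num) x (by rw [hxo]; norm_num)
      (fun g hc => hxz (hMinv g x hxo hc))
    refine ⟨f.ker, inferInstance, ?_⟩
    rw [Subgroup.index_eq_two_iff]
    refine ⟨x, fun b' => ?_⟩
    simp only [MonoidHom.mem_ker, map_mul, hf]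
    rcases Int.units_eq_one_or (f b') with h | h
    · rw [h]
      right
      constructor
      · rfl
      · decide
    · rw [h]
      left
      constructor
      · decide
      · decide
  -- no normal subgroup of index two
  have hno2 : IsConj a z → IsConj b z → ∀ N : Subgroup G, N.Normal → N.index ≠ 2 := by
    intro hA hB N hN hidx
    have hconjN : ∀ x y : G, IsConj x y → (x ∈ N ↔ y ∈ N) := by
      intro x y hxy
      obtain ⟨u, hu⟩ := isConj_iff.1 hxy
      constructor
      · intro hx; rw [← hu]; exact hN.conj_mem x hx u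
      · intro hy
        have : x = u⁻¹ * y * u⁻¹⁻¹ := by rw [← hu]; group
        rw [this]; exact hN.conj_mem y hy u⁻¹
    have habN : a ∈ N ↔ b ∈ N := (hconjN a z hA).trans (hconjN b z hB).symm
    have hρN : ρ ∈ N := by
      rw [← hab]
      exact (Subgroup.mul_mem_iff_of_index_two hidx).2 habN
    have hzN : z ∈ N := by rw [hzρ]; exact N.pow_mem hρN _
    have haN : a ∈ N := (hconjN a z hA).2 hzN
    have hPN : (P : Subgroup G) ≤ N := by
      intro p hp
      rcases hPform ⟨p, hp⟩ with ⟨k, hk⟩ | ⟨k, hk⟩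
      · have hk' : p = ρ ^ k := hk
        rw [hk']; exact N.pow_mem hρN k
      · have hk' : p = a * ρ ^ k := hk
        rw [hk']; exact N.mul_mem haN (N.pow_mem hρN k)
    have h1 : N.index ∣ (P : Subgroup G).index := Subgroup.index_dvd_of_le hPN
    rw [hidx] at h1
    exact P.not_dvd_index h1
  -- no normal subgroup of index four
  have hno4 : (IsConj a z ∨ IsConj b z ∨ IsConj a b) →
      ∀ N : Subgroup G, N.Normal → N.index ≠ 4 := by
    intro hABC N hN hidx
    haveI := hN
    have hQcard : Nat.card (G ⧸ N) = 4 := hidx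
    haveI hQc : IsMulCommutative (G ⧸ N) :=
      IsPGroup.isMulCommutative_of_card_eq_prime_sq (p := 2) (by rw [hQcard]; norm_num)
    have hQcomm : ∀ x y : G ⧸ N, x * y = y * x := fun x y => mul_comm' x y
    obtain ⟨π, hπdef⟩ : ∃ π : G →* G ⧸ N, π = QuotientGroup.mk' N := ⟨_, rfl⟩
    have hπsurj : Function.Surjective π := by rw [hπdef]; exact QuotientGroup.mk'_surjective N
    have hπker : ∀ x, x ∈ N → π x = 1 := by
      intro x hx; rw [hπdef]; exact (QuotientGroup.eq_one_iff x).2 hx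
    have hπconj : ∀ x y : G, IsConj x y → π x = π y := by
      intro x y hxy
      obtain ⟨u, hu⟩ := isConj_iff.1 hxy
      rw [← hu, map_mul, map_mul, map_inv, hQcomm (π u) (π x), mul_assoc, mul_inv_cancel,
        mul_one]
    have hρ2 : π ρ * π ρ = 1 := by
      have h1 : π ρ * π a * π ρ = π a := by rw [← map_mul, ← map_mul, hρaρ]
      rw [hQcomm (π ρ) (π a), mul_assoc] at h1
      exact mul_left_cancel (h1.trans (mul_one _).symm)
    have hπz : π z = 1 := by
      rw [hzρ, map_pow, pow_mul, pow_two, hρ2, one_pow]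
    have hsup : (P : Subgroup G) ⊔ N = ⊤ := by
      rw [← Subgroup.index_eq_one]
      have h1 : ((P : Subgroup G) ⊔ N).index ∣ (P : Subgroup G).index :=
        Subgroup.index_dvd_of_le le_sup_left
      have h2 : ((P : Subgroup G) ⊔ N).index ∣ 4 := by
        rw [← hidx]; exact Subgroup.index_dvd_of_le le_sup_right
      have h3 : ¬ 2 ∣ ((P : Subgroup G) ⊔ N).index := fun h => P.not_dvd_index (h.trans h1)
      have h4 : ((P : Subgroup G) ⊔ N).index ≤ 4 := Nat.le_of_dvd (by norm_num) h2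
      generalize ((P : Subgroup G) ⊔ N).index = d at h2 h3 h4 ⊢
      interval_cases d <;> first | rfl | omega | (exfalso; revert h2 h3; decide)
    have hπP : ∀ q : G ⧸ N, ∃ p ∈ (P : Subgroup G), π p = q := by
      intro q
      obtain ⟨g, rfl⟩ := hπsurj q
      have hg : g ∈ (P : Subgroup G) ⊔ N := by rw [hsup]; exact Subgroup.mem_top g
      have hg' : g ∈ ((P : Subgroup G) : Set G) * (N : Set G) := by
        rw [← Subgroup.mul_normal]; exact hg
      obtain ⟨p, hp, n', hn', rfl⟩ := Set.mem_mul.1 hg'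
      refine ⟨p, hp, ?_⟩
      rw [map_mul, hπker n' hn', mul_one]
    have hkey : ∀ c₀ : G ⧸ N, c₀ * c₀ = 1 → π a ∈ Subgroup.zpowers c₀ →
        π ρ ∈ Subgroup.zpowers c₀ → False := by
      intro c₀ hc₀ ha hρ
      have hall : ∀ q : G ⧸ N, q ∈ Subgroup.zpowers c₀ := by
        intro q
        obtain ⟨p, hp, rfl⟩ := hπP q
        rcases hPform ⟨p, hp⟩ with ⟨k, hk⟩ | ⟨k, hk⟩
        · have hk' : p = ρ ^ k := hk
          rw [hk', map_pow]; exact Subgroup.pow_mem _ hρ k
        · have hk' : p = a * ρ ^ k := hk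
          rw [hk', map_mul, map_pow]
          exact Subgroup.mul_mem _ ha (Subgroup.pow_mem _ hρ k)
      have htop : Subgroup.zpowers c₀ = ⊤ := by
        rw [eq_top_iff]; intro q _; exact hall q
      have h1 : Nat.card (Subgroup.zpowers c₀) = 4 := by
        rw [htop, Subgroup.card_top, hQcard]
      rw [Nat.card_zpowers] at h1
      have h2 : orderOf c₀ ∣ 2 := orderOf_dvd_of_pow_eq_one (by rw [pow_two]; exact hc₀)
      have h3 := Nat.le_of_dvd (by norm_num) h2
      omega
    rcases hABC with hA | hB | hC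
    · have hπa : π a = 1 := by rw [hπconj a z hA]; exact hπz
      exact hkey (π ρ) hρ2 (by rw [hπa]; exact Subgroup.one_mem _) (Subgroup.mem_zpowers _)
    · have hπb : π b = 1 := by rw [hπconj b z hB]; exact hπz
      have h1 : π a * π ρ = 1 := by rw [← map_mul, haρb]; exact hπb
      have h2 : π a = (π ρ)⁻¹ := eq_inv_of_mul_eq_one_left h1
      exact hkey (π ρ) hρ2
        (by rw [h2]; exact Subgroup.inv_mem _ (Subgroup.mem_zpowers _))
        (Subgroup.mem_zpowers _)
    · have h1 : π a = π b := hπconj a b hC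
      have h2 : π ρ = 1 := by
        have h3 : π a * π ρ = π a * 1 := by rw [← map_mul, haρb, mul_one]; exact h1.symm
        exact mul_left_cancel h3
      have ha2 : π a * π a = 1 := by rw [← map_mul, invol_mul_self hao, map_one]
      exact hkey (π a) ha2 (Subgroup.mem_zpowers _) (by rw [h2]; exact Subgroup.one_mem _)
  -- counting the classes of involutions
  have hT : {C : ConjClasses G | ∃ g : G, ConjClasses.mk g = C ∧ orderOf g = 2}
      = {ConjClasses.mk z, ConjClasses.mk a, ConjClasses.mk b} := by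
    ext C
    constructor
    · rintro ⟨g, rfl, hg⟩
      rcases hO1 g hg with h | h | h
      · exact Or.inl (ConjClasses.mk_eq_mk_iff_isConj.2 h)
      · exact Or.inr (Or.inl (ConjClasses.mk_eq_mk_iff_isConj.2 h))
      · exact Or.inr (Or.inr (ConjClasses.mk_eq_mk_iff_isConj.2 h))
    · intro hC
      rcases hC with h | h | h
      · exact ⟨z, h.symm, hzo⟩
      · exact ⟨a, h.symm, hao⟩
      · exact ⟨b, h.symm, hbo⟩
  have hcard : Nat.card {C : ConjClasses G // ∃ g : G, ConjClasses.mk g = C ∧ orderOf g = 2}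
      = Set.ncard {C : ConjClasses G | ∃ g : G, ConjClasses.mk g = C ∧ orderOf g = 2} := rfl
  rw [hT] at hcard
  rw [hcard]
  by_cases hA : IsConj a z
  · by_cases hB : IsConj b z
    · left
      refine ⟨?_, hno2 hA hB⟩
      rw [ConjClasses.mk_eq_mk_iff_isConj.2 hA, ConjClasses.mk_eq_mk_iff_isConj.2 hB,
        Set.pair_eq_singleton, Set.pair_eq_singleton, Set.ncard_singleton]
    · right; left
      refine ⟨?_, hidx2 b hbPm hbM hB, hno4 (Or.inl hA)⟩
      rw [ConjClasses.mk_eq_mk_iff_isConj.2 hA, Set.insert_eq_of_mem (Set.mem_insert _ _)]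
      exact Set.ncard_pair (fun h => hB (ConjClasses.mk_eq_mk_iff_isConj.1 h).symm)
  · by_cases hB : IsConj b z
    · right; left
      refine ⟨?_, hidx2 a haPm haM hA, hno4 (Or.inr (Or.inl hB))⟩
      rw [ConjClasses.mk_eq_mk_iff_isConj.2 hB]
      have h1 : ({ConjClasses.mk z, ConjClasses.mk a, ConjClasses.mk z} : Set (ConjClasses G))
          = {ConjClasses.mk z, ConjClasses.mk a} := by
        ext C
        simp only [Set.mem_insert_iff, Set.mem_singleton_iff]
        tauto
      rw [h1]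
      exact Set.ncard_pair (fun h => hA (ConjClasses.mk_eq_mk_iff_isConj.1 h).symm)
    · by_cases hC : IsConj a b
      · right; left
        refine ⟨?_, hidx2 a haPm haM hA, hno4 (Or.inr (Or.inr hC))⟩
        rw [← ConjClasses.mk_eq_mk_iff_isConj.2 hC, Set.pair_eq_singleton]
        exact Set.ncard_pair (fun h => hA (ConjClasses.mk_eq_mk_iff_isConj.1 h).symm)
      · right; right
        refine ⟨?_, hNPC hA hB⟩
        have h1 : ConjClasses.mk a ≠ ConjClasses.mk b :=
          fun h => hC (ConjClasses.mk_eq_mk_iff_isConj.1 h)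
        have h2 : ConjClasses.mk z ∉ ({ConjClasses.mk a, ConjClasses.mk b} : Set (ConjClasses G)) := by
          intro h
          rcases h with h | h
          · exact hA (ConjClasses.mk_eq_mk_iff_isConj.1 h).symm
          · exact hB (ConjClasses.mk_eq_mk_iff_isConj.1
              (h : ConjClasses.mk z = ConjClasses.mk b)).symm
        rw [Set.ncard_insert_of_notMem h2, Set.ncard_pair h1]

end Cfsg.Agent.S3864
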