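import Cfsg.Statements.S3866
import Mathlib

set_option autoImplicit false
open Cfsg

namespace Cfsg.Agent.S3866

open scoped commutatorElement

theorem comm_mod_iff {G : Type*} [Group G] (K : Subgroup G) [K.Normal] (g h : G) :
    h ∈ (Subgroup.centralizer ({(QuotientGroup.mk' K) g} : Set (G ⧸ K))).comap (QuotientGroup.mk' K)
      ↔ g * h * g⁻¹ * h⁻¹ ∈ K := by
  rw [Subgroup.mem_comap, Subgroup.mem_centralizer_singleton_iff, ← map_mul, ← map_mul,
    QuotientGroup.mk'_apply, QuotientGroup.mk'_apply, QuotientGroup.eq]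
  constructor
  · intro hk
    have h6 := ‹K.Normal›.conj_mem _ hk (h * g)
    have e : h * g * ((h * g)⁻¹ * (g * h)) * (h * g)⁻¹ = g * h * g⁻¹ * h⁻¹ := by group
    rwa [e] at h6
  · intro hk
    have h6 := ‹K.Normal›.conj_mem _ hk (h * g)⁻¹
    have e : (h * g)⁻¹ * (g * h * g⁻¹ * h⁻¹) * (h * g)⁻¹⁻¹ = (h * g)⁻¹ * (g * h) := by group
    rwa [e] at h6

theorem comm_mod_symm {G : Type*} [Group G] (K : Subgroup G) (g h : G)
    (hk : g * h * g⁻¹ * h⁻¹ ∈ K) : h * g * h⁻¹ * g⁻¹ ∈ K := by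
  have h9 := K.inv_mem hk
  have e2 : (g * h * g⁻¹ * h⁻¹)⁻¹ = h * g * h⁻¹ * g⁻¹ := by group
  rwa [e2] at h9

/-- Let A be a commutative normal subgroup of the finite group G with G generated by A and an element x. Then a ↦ x a x⁻¹ a⁻¹ is a surjective homomorphism from A onto the commutator subgroup of G whose kernel is the centralizer of x in A; in particular the commutator subgroup has order equal to the index in A of that centralizer. -/
theorem result {G : Type*} [Group G] [Finite G] (A : Subgroup G) [A.Normal] (hA : IsMulCommutative A) (x : G) (hgen : A ⊔ Subgroup.zpowers x = ⊤) : (∀ a ∈ A, x * a * x⁻¹ * a⁻¹ ∈ commutator G) ∧ (∀ c ∈ commutator G, ∃ a ∈ A, x * a * x⁻¹ * a⁻¹ = c) ∧ (∀ a ∈ A, ∀ b ∈ A, x * (a * b) * x⁻¹ * (a * b)⁻¹ = (x * a * x⁻¹ * a⁻¹) * (x * b * x⁻¹ * b⁻¹)) ∧ Nat.card (commutator G) * Nat.card ↥(A ⊓ Subgroup.centralizer ({x} : Set G)) = Nat.card A := by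
  have hcomm : ∀ a ∈ A, ∀ b ∈ A, a * b = b * a := fun a ha b hb => by
    have := hA.is_comm.comm (⟨a, ha⟩ : A) ⟨b, hb⟩
    exact congrArg Subtype.val this
  have hxA : ∀ a ∈ A, x * a * x⁻¹ ∈ A := fun a ha => ‹A.Normal›.conj_mem a ha x
  have hφA : ∀ a ∈ A, x * a * x⁻¹ * a⁻¹ ∈ A := fun a ha => A.mul_mem (hxA a ha) (A.inv_mem ha)
  have h1 : ∀ a ∈ A, x * a * x⁻¹ * a⁻¹ ∈ commutator G := by
    intro a _
    have : ⁅x, a⁆ ∈ ⁅(⊤ : Subgroup G), (⊤ : Subgroup G)⁆ :=
      Subgroup.commutator_mem_commutator (Subgroup.mem_top x) (Subgroup.mem_top a)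
    rw [commutatorElement_def] at this
    exact this
  have h3 : ∀ a ∈ A, ∀ b ∈ A, x * (a * b) * x⁻¹ * (a * b)⁻¹ = (x * a * x⁻¹ * a⁻¹) * (x * b * x⁻¹ * b⁻¹) := by
    intro a ha b hb
    have hc := hcomm _ (hφA b hb) a⁻¹ (A.inv_mem ha)
    calc x * (a * b) * x⁻¹ * (a * b)⁻¹ = x * a * x⁻¹ * ((x * b * x⁻¹ * b⁻¹) * a⁻¹) := by group
      _ = x * a * x⁻¹ * (a⁻¹ * (x * b * x⁻¹ * b⁻¹)) := by rw [hc]
      _ = _ := by group
  let φ : A →* G :=
    { toFun := fun a => x * a * x⁻¹ * (a : G)⁻¹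
      map_one' := by simp
      map_mul' := fun a b => h3 a a.2 b b.2 }
  have hφ : ∀ a : A, φ a = x * a * x⁻¹ * (a : G)⁻¹ := fun a => rfl
  have hKA : φ.range ≤ A := by
    rintro _ ⟨a, rfl⟩
    exact hφA a a.2
  -- the range is normal
  have hKn : φ.range.Normal := by
    rw [← Subgroup.normalizer_eq_top_iff, eq_top_iff, ← hgen, sup_le_iff]
    constructor
    · intro b hb
      rw [Subgroup.mem_set_normalizer_iff]
      intro h
      have key : ∀ y ∈ A, ∀ k ∈ A, y * k * y⁻¹ = k := by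
        intro y hy k hk
        rw [hcomm y hy k hk, mul_inv_cancel_right]
      constructor
      · intro hh
        rw [key b hb h (hKA hh)]; exact hh
      · intro hh
        have hA' : h ∈ A := by
          have := ‹A.Normal›.conj_mem _ (hKA hh) b⁻¹
          have e : b⁻¹ * (b * h * b⁻¹) * b⁻¹⁻¹ = h := by group
          rwa [e] at this
        rw [key b hb h hA'] at hh; exact hh
    · rw [Subgroup.zpowers_le]
      rw [Subgroup.mem_set_normalizer_iff]
      intro h
      constructor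
      · rintro ⟨a, rfl⟩
        refine ⟨⟨x * a * x⁻¹, hxA a a.2⟩, ?_⟩
        rw [hφ, hφ]
        change x * (x * (a : G) * x⁻¹) * x⁻¹ * (x * (a : G) * x⁻¹)⁻¹ = x * (x * (a : G) * x⁻¹ * (a : G)⁻¹) * x⁻¹
        group
      · rintro ⟨a, ha⟩
        have hmem : x⁻¹ * (a : G) * x ∈ A := by
          have := ‹A.Normal›.conj_mem a a.2 x⁻¹
          simpa using this
        refine ⟨⟨x⁻¹ * a * x, hmem⟩, ?_⟩
        rw [hφ] at ha ⊢
        change x * (x⁻¹ * (a : G) * x) * x⁻¹ * (x⁻¹ * (a : G) * x)⁻¹ = h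
        have e : x * (x⁻¹ * (a : G) * x) * x⁻¹ * (x⁻¹ * (a : G) * x)⁻¹
            = x⁻¹ * (x * a * x⁻¹ * (a : G)⁻¹) * x := by group
        rw [e, ha]
        group
  -- the quotient by the range is commutative
  have hKn' : φ.range.Normal := hKn
  have hxc : ∀ g : G, x * g * x⁻¹ * g⁻¹ ∈ φ.range := by
    intro g
    have hS : (A ⊔ Subgroup.zpowers x) ≤
        (Subgroup.centralizer ({(QuotientGroup.mk' φ.range) x} : Set (G ⧸ φ.range))).comap
          (QuotientGroup.mk' φ.range) := by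
      rw [sup_le_iff]
      constructor
      · intro a ha
        rw [comm_mod_iff]
        exact ⟨⟨a, ha⟩, rfl⟩
      · rw [Subgroup.zpowers_le, comm_mod_iff]
        have e : x * x * x⁻¹ * x⁻¹ = 1 := by group
        rw [e]; exact one_mem _
    have hg : g ∈ A ⊔ Subgroup.zpowers x := by rw [hgen]; trivial
    exact (comm_mod_iff _ _ _).mp (hS hg)
  have hac : ∀ a ∈ A, ∀ g : G, a * g * a⁻¹ * g⁻¹ ∈ φ.range := by
    intro a ha g
    have hS : (A ⊔ Subgroup.zpowers x) ≤
        (Subgroup.centralizer ({(QuotientGroup.mk' φ.range) a} : Set (G ⧸ φ.range))).comap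
          (QuotientGroup.mk' φ.range) := by
      rw [sup_le_iff]
      constructor
      · intro b hb
        rw [comm_mod_iff]
        have e : a * b * a⁻¹ * b⁻¹ = 1 := by
          rw [hcomm a ha b hb]; group
        rw [e]; exact one_mem _
      · rw [Subgroup.zpowers_le, comm_mod_iff]
        exact comm_mod_symm _ _ _ (hxc a)
    have hg : g ∈ A ⊔ Subgroup.zpowers x := by rw [hgen]; trivial
    exact (comm_mod_iff _ _ _).mp (hS hg)
  have hall : ∀ g h : G, g * h * g⁻¹ * h⁻¹ ∈ φ.range := by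
    intro g h
    have hS : (A ⊔ Subgroup.zpowers x) ≤
        (Subgroup.centralizer ({(QuotientGroup.mk' φ.range) g} : Set (G ⧸ φ.range))).comap
          (QuotientGroup.mk' φ.range) := by
      rw [sup_le_iff]
      constructor
      · intro b hb
        rw [comm_mod_iff]
        exact comm_mod_symm _ _ _ (hac b hb g)
      · rw [Subgroup.zpowers_le, comm_mod_iff]
        exact comm_mod_symm _ _ _ (hxc g)
    have hh : h ∈ A ⊔ Subgroup.zpowers x := by rw [hgen]; trivial
    exact (comm_mod_iff _ _ _).mp (hS hh)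
  have hle : commutator G ≤ φ.range := by
    rw [commutator_eq_closure, Subgroup.closure_le]
    rintro _ ⟨g, h, rfl⟩
    rw [commutatorElement_def]
    exact hall g h
  have heq : commutator G = φ.range := by
    apply le_antisymm hle
    rintro _ ⟨a, rfl⟩
    exact h1 a a.2
  refine ⟨h1, ?_, h3, ?_⟩
  · intro c hc
    obtain ⟨a, rfl⟩ := hle hc
    exact ⟨a, a.2, rfl⟩
  · have hker : φ.ker.map A.subtype = A ⊓ Subgroup.centralizer ({x} : Set G) := by
      ext a
      rw [Subgroup.mem_inf, Subgroup.mem_centralizer_singleton_iff, Subgroup.mem_map]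
      constructor
      · rintro ⟨b, hb, rfl⟩
        rw [MonoidHom.mem_ker, hφ] at hb
        refine ⟨b.2, ?_⟩
        have : x * b * x⁻¹ = b := by rw [mul_inv_eq_one] at hb; exact hb
        rw [mul_inv_eq_iff_eq_mul] at this
        exact this.symm
      · rintro ⟨ha, hc⟩
        refine ⟨⟨a, ha⟩, ?_, rfl⟩
        rw [MonoidHom.mem_ker, hφ]
        change x * a * x⁻¹ * a⁻¹ = 1
        rw [← hc]; group
    have hc1 : Nat.card ↥(A ⊓ Subgroup.centralizer ({x} : Set G)) = Nat.card φ.ker := by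
      rw [← hker, Subgroup.card_map_of_injective A.subtype_injective]
    have hc2 : Nat.card (commutator G) = Nat.card φ.range := by rw [heq]
    rw [hc1, hc2, ← Subgroup.index_ker, mul_comm]
    exact Subgroup.card_mul_index φ.ker

end Cfsg.Agent.S3866
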