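import Cfsg.Statements.S3867
import Mathlib
import Cfsg.Agent.Lib.Helper1.Basic
import Cfsg.Agent.Lib.Helper1.ThompsonJ
import Cfsg.Agent.Lib.Helper6.Conj
import Cfsg.Agent.Lib.Helper6.Basic
import Cfsg.Agent.Lib.Helper6.SylowSub
-- import your own Cfsg.Agent.* helpers here

set_option autoImplicit false
open Cfsg

namespace Cfsg.Agent.S3867

open scoped Pointwise

/-- Frattini-type: the normalizer of `P K` is `N_G(P) K`. -/
theorem normalizer_sup_normal {G : Type*} [Group G] [Finite G] {p : ℕ} [Fact p.Prime] (P : Sylow p G)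
    (K : Subgroup G) [hK : K.Normal] :
    Subgroup.normalizer (((P : Subgroup G) ⊔ K : Subgroup G) : Set G) =
      Subgroup.normalizer ((P : Subgroup G) : Set G) ⊔ K := by
  apply le_antisymm
  · intro g hg
    have hQ : (P : Subgroup G).map (MulAut.conj g).toMonoidHom ≤ (P : Subgroup G) ⊔ K := by
      intro q hq
      rw [Cfsg.Agent.Lib.Helper6.mem_map_conj] at hq
      have h1 := (Subgroup.mem_normalizer_iff.mp hg _).mp (Subgroup.mem_sup_left hq : g⁻¹ * q * g ∈ (P : Subgroup G) ⊔ K)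
      have e : g * (g⁻¹ * q * g) * g⁻¹ = q := by group
      rwa [e] at h1
    have hidx : ¬ p ∣ (P : Subgroup G).relIndex ((P : Subgroup G) ⊔ K) := by
      intro h
      apply P.not_dvd_index
      rw [← Subgroup.relIndex_mul_index (le_sup_left : (P : Subgroup G) ≤ (P : Subgroup G) ⊔ K)]
      exact Dvd.dvd.mul_right h _
    obtain ⟨h, hh, hQeq⟩ := Cfsg.Agent.Lib.Helper6.exists_conj_of_sylow_in_subgroup ((P : Subgroup G) ⊔ K)
      (P : Subgroup G) ((P : Subgroup G).map (MulAut.conj g).toMonoidHom) le_sup_left hQ P.isPGroup'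
      (P.isPGroup'.map _) hidx (Cfsg.Agent.Lib.Helper6.card_map_conj _ g)
    have hh' : h ∈ ((K ⊔ (P : Subgroup G) : Subgroup G) : Set G) := by
      rw [sup_comm]; exact hh
    rw [Subgroup.normal_mul] at hh'
    obtain ⟨k, hk, u, hu, rfl⟩ := hh'
    rw [Cfsg.Agent.Lib.Helper6.map_conj_mul, Cfsg.Agent.Lib.Helper6.map_conj_of_mem _ hu] at hQeq
    have h2 := Cfsg.Agent.Lib.Helper6.mem_normalizer_of_map_conj_eq (P : Subgroup G) hQeq
    have e : g = (k⁻¹ * g) * ((k⁻¹ * g)⁻¹ * k * (k⁻¹ * g)) := by group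
    rw [e]
    exact Subgroup.mul_mem_sup h2 (hK.conj_mem' k hk _)
  · apply sup_le
    · intro g hg
      apply Cfsg.Agent.Lib.Helper1.mem_normalizer_of_finite
      have hle : (P : Subgroup G) ⊔ K ≤ ((P : Subgroup G) ⊔ K).comap (MulAut.conj g).toMonoidHom := by
        apply sup_le
        · intro u hu
          show g * u * g⁻¹ ∈ (P : Subgroup G) ⊔ K
          exact Subgroup.mem_sup_left ((Subgroup.mem_normalizer_iff.mp hg u).mp hu)
        · intro k hk
          show g * k * g⁻¹ ∈ (P : Subgroup G) ⊔ K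
          exact Subgroup.mem_sup_right (hK.conj_mem k hk g)
      exact fun n hn => hle hn
    · exact le_sup_right.trans Subgroup.le_normalizer

theorem card_sylow_quotient {G : Type*} [Group G] [Finite G] {p : ℕ} [Fact p.Prime] (P : Sylow p G)
    (K : Subgroup G) [hK : K.Normal] :
    Nat.card (Sylow p (G ⧸ K)) = (Subgroup.normalizer ((P : Subgroup G) : Set G) ⊔ K).index := by
  have hsurj : Function.Surjective (QuotientGroup.mk' K) := QuotientGroup.mk'_surjective K
  have h0 : Subgroup.normalizer ((P.mapSurjective hsurj : Sylow p (G ⧸ K)) : Set (G ⧸ K)) =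
      Subgroup.normalizer (((P : Subgroup G).map (QuotientGroup.mk' K) : Subgroup (G ⧸ K)) : Set (G ⧸ K)) := rfl
  rw [Sylow.card_eq_index_normalizer (P.mapSurjective hsurj), h0,
    ← Subgroup.index_comap_of_surjective _ hsurj, Subgroup.comap_normalizer_eq_of_surjective _ hsurj,
    Subgroup.comap_map_eq, QuotientGroup.ker_mk', normalizer_sup_normal]

theorem mem_sylow_of_mul {G : Type*} [Group G] [Finite G] {p : ℕ} [Fact p.Prime] (P : Sylow p G)
    (M N : Subgroup G) [hMn : M.Normal] [hNn : N.Normal] (hMN : M ⊓ N = ⊥) (m n : G) (hm : m ∈ M)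
    (hn : n ∈ N) (hu : m * n ∈ (P : Subgroup G)) : m ∈ (P : Subgroup G) := by
  have hdis : Disjoint M N := disjoint_iff.mpr hMN
  have hcomm : ∀ x ∈ M, ∀ y ∈ N, Commute x y := fun x hx y hy =>
    Subgroup.commute_of_normal_of_disjoint M N hMn hNn hdis x y hx hy
  obtain ⟨k, hk⟩ := P.isPGroup' ⟨m * n, hu⟩
  have hk' : (m * n) ^ (p ^ k) = 1 := by
    have := congrArg Subtype.val hk
    rwa [Subgroup.coe_pow] at this
  rw [(hcomm m hm n hn).mul_pow] at hk'
  have hmk : m ^ (p ^ k) = 1 := by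
    have h1 : m ^ (p ^ k) = (n ^ (p ^ k))⁻¹ := eq_inv_of_mul_eq_one_left hk'
    have h2 : m ^ (p ^ k) ∈ M ⊓ N :=
      Subgroup.mem_inf.mpr ⟨pow_mem hm _, by rw [h1]; exact inv_mem (pow_mem hn _)⟩
    rw [hMN, Subgroup.mem_bot] at h2
    exact h2
  set R := (P : Subgroup G) ⊓ M with hR
  have hmR : m ∈ Subgroup.normalizer (R : Set G) := by
    apply Cfsg.Agent.Lib.Helper1.mem_normalizer_of_finite
    intro r hr
    obtain ⟨hrP, hrM⟩ := Subgroup.mem_inf.mp hr
    refine Subgroup.mem_inf.mpr ⟨?_, mul_mem (mul_mem hm hrM) (inv_mem hm)⟩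
    have hc : n * r = r * n := ((hcomm r hrM n hn).symm).eq
    have e : m * r * m⁻¹ = (m * n) * r * (m * n)⁻¹ := by
      have : (m * n) * r * (m * n)⁻¹ = m * (n * r) * n⁻¹ * m⁻¹ := by group
      rw [this, hc]; group
    rw [e]
    exact mul_mem (mul_mem hu hrP) (inv_mem hu)
  have hZ : IsPGroup p (Subgroup.zpowers m) := by
    intro g
    obtain ⟨i, hi⟩ := Subgroup.mem_zpowers_iff.mp g.2
    refine ⟨k, ?_⟩
    apply Subtype.ext
    rw [Subgroup.coe_pow, Subgroup.coe_one, ← hi, ← zpow_natCast, ← zpow_mul, mul_comm, zpow_mul,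
      zpow_natCast, hmk, one_zpow]
  have hRp : IsPGroup p R := P.isPGroup'.to_le inf_le_left
  have hT : IsPGroup p ↥(R ⊔ Subgroup.zpowers m) :=
    IsPGroup.to_sup_of_normal_left' hRp hZ (by rw [Subgroup.zpowers_le]; exact hmR)
  obtain ⟨P₁, hP₁⟩ := Cfsg.Agent.Lib.Helper6.sylow_inf_normal P M
  have hT' : IsPGroup p ((R ⊔ Subgroup.zpowers m).subgroupOf M) := hT.comap_subtype
  have hle : (P₁ : Subgroup M) ≤ (R ⊔ Subgroup.zpowers m).subgroupOf M := by
    intro x hx
    rw [Subgroup.mem_subgroupOf]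
    apply Subgroup.mem_sup_left
    rw [hR, ← hP₁]
    exact Subgroup.mem_map_of_mem _ hx
  have heq := P₁.is_maximal' hT' hle
  have hm' : (⟨m, hm⟩ : ↥M) ∈ (R ⊔ Subgroup.zpowers m).subgroupOf M := by
    rw [Subgroup.mem_subgroupOf]
    exact Subgroup.mem_sup_right (Subgroup.mem_zpowers m)
  rw [heq] at hm'
  have h3 : m ∈ (P₁ : Subgroup M).map M.subtype := Subgroup.mem_map.mpr ⟨⟨m, hm⟩, hm', rfl⟩
  rw [hP₁] at h3
  exact (Subgroup.mem_inf.mp h3).1

theorem mem_normalizer_of_mul {G : Type*} [Group G] [Finite G] {p : ℕ} [Fact p.Prime] (P : Sylow p G)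
    (M N : Subgroup G) [hMn : M.Normal] [hNn : N.Normal] (hMN : M ⊓ N = ⊥) (m n : G) (hm : m ∈ M)
    (hn : n ∈ N) (hmn : m * n ∈ Subgroup.normalizer ((P : Subgroup G) : Set G)) :
    m ∈ Subgroup.normalizer ((P : Subgroup G) : Set G) := by
  have hdis : Disjoint M N := disjoint_iff.mpr hMN
  apply Cfsg.Agent.Lib.Helper1.mem_normalizer_of_finite
  intro u hu
  have h1 : m * n * u * (m * n)⁻¹ ∈ (P : Subgroup G) := (Subgroup.mem_normalizer_iff.mp hmn u).mp hu
  have hcn : n * u * n⁻¹ * u⁻¹ ∈ N := by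
    have : n * u * n⁻¹ * u⁻¹ = n * (u * n⁻¹ * u⁻¹) := by group
    rw [this]
    exact mul_mem hn (hNn.conj_mem _ (inv_mem hn) u)
  have hcm : m * u * m⁻¹ * u⁻¹ ∈ M := by
    have : m * u * m⁻¹ * u⁻¹ = m * (u * m⁻¹ * u⁻¹) := by group
    rw [this]
    exact mul_mem hm (hMn.conj_mem _ (inv_mem hm) u)
  have hc : m * (n * u * n⁻¹ * u⁻¹) = (n * u * n⁻¹ * u⁻¹) * m :=
    (Subgroup.commute_of_normal_of_disjoint M N hMn hNn hdis m _ hm hcn).eq
  have e : m * n * u * (m * n)⁻¹ * u⁻¹ = (m * u * m⁻¹ * u⁻¹) * (n * u * n⁻¹ * u⁻¹) := by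
    have e1 : m * n * u * (m * n)⁻¹ * u⁻¹ = (m * (n * u * n⁻¹ * u⁻¹)) * m⁻¹ * (m * u * m⁻¹ * u⁻¹) := by
      group
    rw [e1, hc, mul_inv_cancel_right]
    exact ((Subgroup.commute_of_normal_of_disjoint M N hMn hNn hdis _ _ hcm hcn).symm).eq
  have h2 : (m * u * m⁻¹ * u⁻¹) * (n * u * n⁻¹ * u⁻¹) ∈ (P : Subgroup G) := by
    rw [← e]
    exact mul_mem h1 (inv_mem hu)
  have h3 := mem_sylow_of_mul P M N hMN _ _ hcm hcn h2
  have e2 : m * u * m⁻¹ = (m * u * m⁻¹ * u⁻¹) * u := by group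
  rw [e2]
  exact mul_mem h3 hu

/-- Let M and N be nontrivial normal subgroups of the finite group G with M ⊓ N trivial, and let p be a prime. Writing n(X) for the number of Sylow p-subgroups of a group X, one has n(G) · n(G/MN) = n(G/M) · n(G/N). -/
theorem result {G : Type*} [Group G] [Finite G] (p : ℕ) [Fact p.Prime] (M N : Subgroup G) [M.Normal] [N.Normal] (hM : M ≠ ⊥) (hN : N ≠ ⊥) (hMN : M ⊓ N = ⊥) : Nat.card (Sylow p G) * Nat.card (Sylow p (G ⧸ (M ⊔ N))) = Nat.card (Sylow p (G ⧸ M)) * Nat.card (Sylow p (G ⧸ N)) := by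
  classical
  obtain ⟨P⟩ := (inferInstance : Nonempty (Sylow p G))
  set a := Subgroup.normalizer ((P : Subgroup G) : Set G) with ha
  haveI hMNn : (M ⊔ N).Normal := inferInstance
  rw [Sylow.card_eq_index_normalizer P, card_sylow_quotient P (M ⊔ N), card_sylow_quotient P M,
    card_sylow_quotient P N]
  have hdis : Disjoint M N := disjoint_iff.mpr hMN
  have hcommMN : ∀ x ∈ M, ∀ y ∈ N, Commute x y := fun x hx y hy =>
    Subgroup.commute_of_normal_of_disjoint M N inferInstance inferInstance hdis x y hx hy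
  -- the key decomposition
  have hkey : a ⊓ (M ⊔ N) = (a ⊓ M) ⊔ (a ⊓ N) := by
    apply le_antisymm
    · intro x hx
      obtain ⟨hxa, hxMN⟩ := Subgroup.mem_inf.mp hx
      have hx' : x ∈ ((M ⊔ N : Subgroup G) : Set G) := hxMN
      rw [Subgroup.mul_normal] at hx'
      obtain ⟨m, hm, n, hn, rfl⟩ := hx'
      have hma := mem_normalizer_of_mul P M N hMN m n hm hn hxa
      have hna : n ∈ a := by
        have : n = m⁻¹ * (m * n) := by group
        rw [this]
        exact mul_mem (inv_mem hma) hxa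
      exact Subgroup.mul_mem_sup (Subgroup.mem_inf.mpr ⟨hma, hm⟩) (Subgroup.mem_inf.mpr ⟨hna, hn⟩)
    · exact sup_le (inf_le_inf_left a le_sup_left) (inf_le_inf_left a le_sup_right)
  have hTL : Nat.card ↥(a ⊓ (M ⊔ N)) = Nat.card ↥(a ⊓ M) * Nat.card ↥(a ⊓ N) := by
    rw [hkey]
    have h1 := Cfsg.Agent.Lib.Helper1.card_sup_mul_card_inf (a ⊓ M) (a ⊓ N) (by
      intro x hx
      apply Cfsg.Agent.Lib.Helper1.mem_normalizer_of_finite
      intro y hy
      have hc := (hcommMN x (Subgroup.mem_inf.mp hx).2 y (Subgroup.mem_inf.mp hy).2).eq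
      rw [hc, mul_inv_cancel_right]
      exact hy)
    have h2 : (a ⊓ M) ⊓ (a ⊓ N) = ⊥ := by
      rw [eq_bot_iff, ← hMN]
      exact inf_le_inf inf_le_right inf_le_right
    rw [h2, Subgroup.card_bot, mul_one] at h1
    exact h1
  have hcL : Nat.card ↥(M ⊔ N) = Nat.card M * Nat.card N := by
    have h1 := Cfsg.Agent.Lib.Helper1.card_sup_mul_card_inf M N
      (by rw [Subgroup.normalizer_eq_top]; exact le_top)
    rw [hMN, Subgroup.card_bot, mul_one] at h1
    exact h1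
  have hsM := Cfsg.Agent.Lib.Helper1.card_sup_mul_card_inf a M (by rw [Subgroup.normalizer_eq_top]; exact le_top)
  have hsN := Cfsg.Agent.Lib.Helper1.card_sup_mul_card_inf a N (by rw [Subgroup.normalizer_eq_top]; exact le_top)
  have hsL := Cfsg.Agent.Lib.Helper1.card_sup_mul_card_inf a (M ⊔ N)
    (by rw [Subgroup.normalizer_eq_top]; exact le_top)
  rw [hTL, hcL] at hsL
  have i0 := Subgroup.index_mul_card a
  have iM := Subgroup.index_mul_card (a ⊔ M)
  have iN := Subgroup.index_mul_card (a ⊔ N)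
  have iL := Subgroup.index_mul_card (a ⊔ (M ⊔ N))
  set A0 := Nat.card a
  set SM := Nat.card ↥(a ⊔ M)
  set SN := Nat.card ↥(a ⊔ N)
  set SL := Nat.card ↥(a ⊔ (M ⊔ N))
  set TM := Nat.card ↥(a ⊓ M)
  set TN := Nat.card ↥(a ⊓ N)
  set cM := Nat.card M
  set cN := Nat.card N
  set x0 := a.index
  set xM := (a ⊔ M).index
  set xN := (a ⊔ N).index
  set xL := (a ⊔ (M ⊔ N)).index
  set g := Nat.card G
  have TM0 : 0 < TM := Nat.card_pos
  have TN0 : 0 < TN := Nat.card_pos
  have A00 : 0 < A0 := Nat.card_pos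
  have SL0 : 0 < SL := Nat.card_pos
  -- A0 * SL = SM * SN
  have h1 : (A0 * SL) * (TM * TN) = (SM * SN) * (TM * TN) := by
    calc (A0 * SL) * (TM * TN) = A0 * (SL * (TM * TN)) := by ring
      _ = A0 * (A0 * (cM * cN)) := by rw [hsL]
      _ = (A0 * cM) * (A0 * cN) := by ring
      _ = (SM * TM) * (SN * TN) := by rw [hsM, hsN]
      _ = (SM * SN) * (TM * TN) := by ring
  have h2 : A0 * SL = SM * SN := Nat.eq_of_mul_eq_mul_right (Nat.mul_pos TM0 TN0) h1
  have h3 : (x0 * xL) * (A0 * SL) = (xM * xN) * (A0 * SL) := by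
    calc (x0 * xL) * (A0 * SL) = (x0 * A0) * (xL * SL) := by ring
      _ = g * g := by rw [i0, iL]
      _ = (xM * SM) * (xN * SN) := by rw [iM, iN]
      _ = (xM * xN) * (SM * SN) := by ring
      _ = (xM * xN) * (A0 * SL) := by rw [h2]
  exact Nat.eq_of_mul_eq_mul_right (Nat.mul_pos A00 SL0) h3

end Cfsg.Agent.S3867
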