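import Cfsg.Statements.S3908
import Mathlib
import Cfsg.Agent.Lib.Helper6.AbConj
-- import your own Cfsg.Agent.* helpers here

set_option autoImplicit false
open Cfsg

namespace Cfsg.Agent.S3908



/-- Let G be a finite group in which any two abelian subgroups of the same order are conjugate. Then a Sylow 2-subgroup of G is cyclic, elementary abelian or generalized quaternion, and for an odd prime p a Sylow p-subgroup of G is cyclic or has exponent dividing p. -/
theorem result {G : Type*} [Group G] [Finite G] (hB : ∀ A B : Subgroup G, IsMulCommutative ↥A → IsMulCommutative ↥B → Nat.card ↥A = Nat.card ↥B → ∃ g : G, B = A.map (MulAut.conj g).toMonoidHom) :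
    (∀ P : Sylow 2 G, IsCyclic ↥(P : Subgroup G) ∨ Cfsg.IsElementaryAbelian 2 (P : Subgroup G) ∨ ∃ k : ℕ, Nonempty (↥(P : Subgroup G) ≃* QuaternionGroup (2 ^ k))) ∧
    ∀ (p : ℕ) [Fact p.Prime], p ≠ 2 → ∀ P : Sylow p G, IsCyclic ↥(P : Subgroup G) ∨ ∀ x ∈ (P : Subgroup G), x ^ p = 1 := by
  constructor
  · intro P
    rcases Cfsg.Agent.Lib.Helper6.sylow_of_abelian_conj hB 2 P with h | h | ⟨-, n, hn⟩
    · right; left
      refine ⟨⟨⟨fun a b => ?_⟩⟩, h⟩
      apply Subtype.ext
      show (a : G) * (b : G) = (b : G) * (a : G)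
      have ha : (a : G) ^ 2 = 1 := h _ a.2
      have hb : (b : G) ^ 2 = 1 := h _ b.2
      have hab : ((a : G) * (b : G)) ^ 2 = 1 := h _ (Subgroup.mul_mem _ a.2 b.2)
      rw [pow_two] at ha hb hab
      have ha' : (a : G) = (a : G)⁻¹ := eq_inv_of_mul_eq_one_left ha
      have hb' : (b : G) = (b : G)⁻¹ := eq_inv_of_mul_eq_one_left hb
      have hab' : (a : G) * (b : G) = ((a : G) * (b : G))⁻¹ := eq_inv_of_mul_eq_one_left hab
      rw [hab', mul_inv_rev, ← ha', ← hb']
    · left; exact h
    · right; right; exact ⟨n, hn⟩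
  · intro p _ hp2 P
    rcases Cfsg.Agent.Lib.Helper6.sylow_of_abelian_conj hB p P with h | h | ⟨h2, -⟩
    · right; exact h
    · left; exact h
    · exact absurd h2 hp2

end Cfsg.Agent.S3908
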