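import Cfsg.Statements.S3909
import Mathlib
import Cfsg.Agent.Lib.Helper6.Conj

set_option autoImplicit false
open Cfsg

namespace Cfsg.Agent.S3909

open Cfsg.Agent.Lib.Helper6

/-- Let G be a finite group in which any two abelian subgroups of the same order are conjugate. Let M be a normal subgroup of G. If M contains an element of the same order as a ∈ G, then a ∈ M; and if M is elementary abelian of order p^t with p prime and t ≥ 2, then M is the unique Sylow p-subgroup of G. -/
theorem result {G : Type*} [Group G] [Finite G] (hB : ∀ A B : Subgroup G, IsMulCommutative ↥A → IsMulCommutative ↥B → Nat.card ↥A = Nat.card ↥B → ∃ g : G, B = A.map (MulAut.conj g).toMonoidHom) (M : Subgroup G) [M.Normal] :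
    (∀ a : G, (∃ m ∈ M, orderOf m = orderOf a) → a ∈ M) ∧
    ∀ (p t : ℕ) [Fact p.Prime], 2 ≤ t → Nat.card ↥M = p ^ t → Cfsg.IsElementaryAbelian p M → ∀ P : Sylow p G, (P : Subgroup G) = M := by
  have part1 : ∀ a : G, (∃ m ∈ M, orderOf m = orderOf a) → a ∈ M := by
    rintro a ⟨m, hm, hma⟩
    obtain ⟨g, hg⟩ := hB (Subgroup.zpowers m) (Subgroup.zpowers a) inferInstance inferInstance
      (by rw [Nat.card_zpowers, Nat.card_zpowers, hma])
    have h1 : Subgroup.zpowers a ≤ M := by
      rw [hg]
      exact map_conj_le_normal _ M (by rw [Subgroup.zpowers_le]; exact hm) g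
    exact h1 (Subgroup.mem_zpowers a)
  refine ⟨part1, ?_⟩
  intro p t _ ht hcard hel P
  have hp : p.Prime := Fact.out
  have hMp : IsPGroup p M := IsPGroup.of_card hcard
  have hMP : M ≤ (P : Subgroup G) := hMp.le_sylow_of_normal P
  apply le_antisymm _ hMP
  intro x hx
  -- order of x is a power of p
  obtain ⟨k, hk⟩ := P.isPGroup' ⟨x, hx⟩
  have hk' : x ^ p ^ k = 1 := by
    have := congrArg Subtype.val hk
    simpa using this
  obtain ⟨j, -, hj⟩ := (Nat.dvd_prime_pow hp).1 (orderOf_dvd_of_pow_eq_one hk')
  -- an element of order p in M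
  have hpM : p ∣ Nat.card M := by rw [hcard]; exact dvd_pow_self p (by omega)
  obtain ⟨m, hm⟩ := exists_prime_orderOf_dvd_card' p hpM
  have hm' : orderOf (m : G) = p := by rw [Subgroup.orderOf_coe]; exact hm
  rcases Nat.lt_or_ge j 2 with hj2 | hj2
  · interval_cases j
    · rw [pow_zero, orderOf_eq_one_iff] at hj
      rw [hj]; exact one_mem _
    · rw [pow_one] at hj
      exact part1 x ⟨m, m.2, by rw [hm', hj]⟩
  · exfalso
    -- y of order p^2
    set y := x ^ p ^ (j - 2) with hy
    have hyo : orderOf y = p ^ 2 := by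
      rw [hy, orderOf_pow_of_dvd (pow_ne_zero _ hp.ne_zero) (by rw [hj]; exact pow_dvd_pow p (by omega)),
        hj]
      rw [Nat.pow_div (by omega) hp.pos]
      congr 1
      omega
    -- subgroup of M of order p^2
    have hdvd : p ^ 2 ∣ Nat.card M := by rw [hcard]; exact pow_dvd_pow p ht
    obtain ⟨K, hK⟩ := Sylow.exists_subgroup_card_pow_prime p hdvd
    have hBc : Nat.card (K.map M.subtype) = p ^ 2 := by
      rw [Subgroup.card_map_of_injective M.subtype_injective, hK]
    have hBM : K.map M.subtype ≤ M := by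
      rintro _ ⟨z, -, rfl⟩
      exact z.2
    have hBab : IsMulCommutative (K.map M.subtype) := by
      refine ⟨⟨fun a b => ?_⟩⟩
      apply Subtype.ext
      have := hel.1.is_comm.comm (⟨a, hBM a.2⟩ : M) ⟨b, hBM b.2⟩
      have h' := congrArg (Subtype.val : M → G) this
      exact h'
    obtain ⟨g, hg⟩ := hB (Subgroup.zpowers y) (K.map M.subtype) inferInstance hBab
      (by rw [Nat.card_zpowers, hyo, hBc])
    have h1 : g * y * g⁻¹ ∈ K.map M.subtype := by
      rw [hg]
      exact conj_mem_map_conj _ g (Subgroup.mem_zpowers y)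
    have h2 : (g * y * g⁻¹) ^ p = 1 := hel.2 _ (hBM h1)
    have h3 : y ^ p = 1 := by
      have : (g * y * g⁻¹) ^ p = g * y ^ p * g⁻¹ := by
        have := map_pow (MulAut.conj g) y p
        simp only [MulAut.conj_apply] at this
        exact this.symm
      rw [this] at h2
      have : y ^ p = g⁻¹ * (g * y ^ p * g⁻¹) * g := by group
      rw [this, h2]; group
    have h4 : orderOf y ∣ p := orderOf_dvd_of_pow_eq_one h3
    rw [hyo] at h4
    have := Nat.le_of_dvd hp.pos h4
    have h5 : p < p ^ 2 := by
      calc p = p ^ 1 := (pow_one p).symm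
        _ < p ^ 2 := Nat.pow_lt_pow_right hp.one_lt (by norm_num)
    omega

end Cfsg.Agent.S3909
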