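import Cfsg.Statements.S3910
import Mathlib
import Cfsg.Agent.S3909
import Cfsg.Agent.Lib.Helper6.Basic
-- import your own Cfsg.Agent.* helpers here

set_option autoImplicit false
open Cfsg

namespace Cfsg.Agent.S3910

open Cfsg.Agent.Lib.Helper6

/-- a subgroup containing a Sylow `q`-subgroup for every prime `q` is everything -/
theorem eq_top_of_sylow_le {G : Type*} [Group G] [Finite G] (H : Subgroup G)
    (h : ∀ (q : ℕ) [Fact q.Prime], ∃ Q : Sylow q G, (Q : Subgroup G) ≤ H) : H = ⊤ := by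
  rw [← Subgroup.index_eq_one, Nat.eq_one_iff_not_exists_prime_dvd]
  intro q hq hd
  have := Fact.mk hq
  obtain ⟨Q, hQ⟩ := h q
  exact Q.not_dvd_index (hd.trans (Subgroup.index_dvd_of_le hQ))

/-- in a nilpotent group a subgroup of a Sylow, normalized by that Sylow, is normal -/
theorem normal_of_le_sylow {G : Type*} [Group G] [Finite G] [Group.IsNilpotent G] {p : ℕ}
    [Fact p.Prime] (P : Sylow p G) (S : Subgroup G) (hSP : S ≤ P)
    (hPS : (P : Subgroup G) ≤ Subgroup.normalizer (S : Set G)) : S.Normal := by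
  rw [← Subgroup.normalizer_eq_top_iff]
  apply eq_top_of_sylow_le
  intro q _
  by_cases hqp : q = p
  · subst hqp
    exact ⟨P, hPS⟩
  · obtain ⟨Q⟩ := (inferInstance : Nonempty (Sylow q G))
    refine ⟨Q, ?_⟩
    intro y hy
    have hdis : Disjoint (Q : Subgroup G) (P : Subgroup G) :=
      IsPGroup.disjoint_of_ne q p hqp _ _ Q.isPGroup' P.isPGroup'
    have hcomm : ∀ s ∈ (P : Subgroup G), y * s * y⁻¹ = s := by
      intro s hs
      have := Subgroup.commute_of_normal_of_disjoint (Q : Subgroup G) (P : Subgroup G)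
        inferInstance inferInstance hdis y s hy hs
      rw [this.eq, mul_inv_cancel_right]
    have hcomm' : ∀ s ∈ (P : Subgroup G), y⁻¹ * s * y = s := by
      intro s hs
      have h0 := hcomm s hs
      calc y⁻¹ * s * y = y⁻¹ * (y * s * y⁻¹) * y := by rw [h0]
        _ = s := by group
    rw [Subgroup.mem_normalizer_iff]
    intro h
    constructor
    · intro hh
      rw [hcomm h (hSP hh)]
      exact hh
    · intro hh
      have h1 := hcomm' _ (hSP hh)
      have h2 : y⁻¹ * (y * h * y⁻¹) * y = h := by group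
      rw [h2] at h1
      rw [h1]
      exact hh

theorem sylow_cyclic {G : Type*} [Group G] [Finite G]
    (hB : ∀ A B : Subgroup G, IsMulCommutative ↥A → IsMulCommutative ↥B → Nat.card ↥A = Nat.card ↥B →
      ∃ g : G, B = A.map (MulAut.conj g).toMonoidHom)
    [Group.IsNilpotent G] {p : ℕ} [Fact p.Prime] (P : Sylow p G) : IsCyclic P := by
  by_contra hnc
  have hbt : (⊥ : Subgroup P) ≠ ⊤ := by
    intro h
    apply hnc
    have hsub : Subsingleton P := by
      constructor
      intro a b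
      have ha : a ∈ (⊥ : Subgroup P) := by rw [h]; exact Subgroup.mem_top a
      have hb : b ∈ (⊥ : Subgroup P) := by rw [h]; exact Subgroup.mem_top b
      rw [Subgroup.mem_bot] at ha hb
      rw [ha, hb]
    infer_instance
  obtain ⟨M₁, hM₁, -⟩ := exists_coatom_ge (⊥ : Subgroup P) hbt
  obtain ⟨x, hx⟩ : ∃ x : P, x ∉ M₁ := by
    by_contra h
    push Not at h
    exact hM₁.1 (eq_top_iff.mpr fun y _ => h y)
  have hzx : Subgroup.zpowers x ≠ ⊤ := by
    intro h
    apply hnc
    exact (isCyclic_iff_exists_zpowers_eq_top).mpr ⟨x, h⟩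
  obtain ⟨M₂, hM₂, hxM₂⟩ := exists_coatom_ge _ hzx
  have hx2 : x ∈ M₂ := hxM₂ (Subgroup.mem_zpowers x)
  obtain ⟨y, hy1, hy2⟩ : ∃ y : P, y ∈ M₁ ∧ y ∉ M₂ := by
    by_contra h
    push Not at h
    have hle : M₁ ≤ M₂ := fun y hy => h y hy
    have heq : M₁ = M₂ := by
      rcases eq_or_lt_of_le hle with h1 | h1
      · exact h1
      · exact absurd (hM₁.2 M₂ h1) hM₂.1
    rw [heq] at hx
    exact hx hx2
  have hnilP : Group.IsNilpotent P := P.isPGroup'.isNilpotent
  have hnc' := Group.normalizerCondition_of_isNilpotent (G := P)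
  have hn1 : M₁.Normal := Subgroup.NormalizerCondition.normal_of_coatom _ hnc' hM₁
  have hn2 : M₂.Normal := Subgroup.NormalizerCondition.normal_of_coatom _ hnc' hM₂
  have key : ∀ (M : Subgroup P), M.Normal → (M.map (P : Subgroup G).subtype).Normal := by
    intro M hM
    apply normal_of_le_sylow P
    · rintro _ ⟨z, -, rfl⟩
      exact z.2
    · intro g hg
      rw [Subgroup.mem_normalizer_iff]
      intro h
      constructor
      · rintro ⟨z, hz, rfl⟩
        exact ⟨⟨g, hg⟩ * z * ⟨g, hg⟩⁻¹, hM.conj_mem z hz _, rfl⟩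
      · rintro ⟨z, hz, hzeq⟩
        refine ⟨⟨g, hg⟩⁻¹ * z * ⟨g, hg⟩, ?_, ?_⟩
        · have := hM.conj_mem z hz (⟨g, hg⟩⁻¹)
          simpa using this
        · have h3 : ((P : Subgroup G).subtype z) = g * h * g⁻¹ := hzeq
          show g⁻¹ * (z : G) * g = h
          have h4 : (z : G) = g * h * g⁻¹ := h3
          rw [h4]
          group
  have hN1 := key M₁ hn1
  have hN2 := key M₂ hn2
  obtain ⟨a, ha⟩ := (IsPGroup.iff_orderOf.mp P.isPGroup') x
  obtain ⟨b, hb⟩ := (IsPGroup.iff_orderOf.mp P.isPGroup') y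
  have hp : p.Prime := Fact.out
  rcases le_total a b with hab | hab
  · have h1 := (Cfsg.Agent.S3909.result hB (M₁.map (P : Subgroup G).subtype)).1 (x : G)
      ⟨((y ^ p ^ (b - a) : P) : G), ⟨y ^ p ^ (b - a), M₁.pow_mem hy1 _, rfl⟩, by
        rw [Subgroup.orderOf_coe, Subgroup.orderOf_coe,
          orderOf_pow_of_dvd (pow_pos hp.pos _).ne' (by rw [hb]; exact pow_dvd_pow p (Nat.sub_le b a)),
          hb, ha, Nat.pow_div (Nat.sub_le b a) hp.pos, Nat.sub_sub_self hab]⟩
    obtain ⟨z, hz, hzx⟩ := h1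
    have hzx' : z = x := Subtype.ext hzx
    rw [hzx'] at hz
    exact hx hz
  · have h1 := (Cfsg.Agent.S3909.result hB (M₂.map (P : Subgroup G).subtype)).1 (y : G)
      ⟨((x ^ p ^ (a - b) : P) : G), ⟨x ^ p ^ (a - b), M₂.pow_mem hx2 _, rfl⟩, by
        rw [Subgroup.orderOf_coe, Subgroup.orderOf_coe,
          orderOf_pow_of_dvd (pow_pos hp.pos _).ne' (by rw [ha]; exact pow_dvd_pow p (Nat.sub_le a b)),
          hb, ha, Nat.pow_div (Nat.sub_le a b) hp.pos, Nat.sub_sub_self hab]⟩
    obtain ⟨z, hz, hzy⟩ := h1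
    have hzy' : z = y := Subtype.ext hzy
    rw [hzy'] at hz
    exact hy2 hz


/-- A finite nilpotent group in which any two abelian subgroups of the same order are conjugate is cyclic. -/
theorem result {G : Type*} [Group G] [Finite G] (hB : ∀ A B : Subgroup G, IsMulCommutative ↥A → IsMulCommutative ↥B → Nat.card ↥A = Nat.card ↥B → ∃ g : G, B = A.map (MulAut.conj g).toMonoidHom) (hnil : Group.IsNilpotent G) : IsCyclic G := by
  have hnil' : Group.IsNilpotent G := hnil
  have hZ : IsZGroup G := ⟨fun p hp P => by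
    have := Fact.mk hp
    exact sylow_cyclic hB P⟩
  infer_instance

end Cfsg.Agent.S3910
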