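import Cfsg.Statements.S3917
import Mathlib
import Cfsg.Agent.Lib.Lead.NonCyclicAb
import Cfsg.Agent.Lib.Helper1.ThompsonJ
-- import your own Cfsg.Agent.* helpers here

set_option autoImplicit false
open Cfsg

namespace Cfsg.Agent.S3917



/-- Say that a group has self-centralizing non-cyclic subgroups when every non-cyclic subgroup H satisfies C_G(H) ≤ H. A finite abelian group with self-centralizing non-cyclic subgroups is cyclic or elementary abelian of order p² for a prime p. -/
theorem result {G : Type*} [CommGroup G] [Finite G] (hX : (∀ H : Subgroup G, ¬ IsCyclic ↥H → Subgroup.centralizer (H : Set G) ≤ H)) :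
    IsCyclic G ∨ ∃ p : ℕ, p.Prime ∧ Nat.card G = p ^ 2 ∧ Monoid.exponent G = p := by
  classical
  classical
  by_cases hcyc : IsCyclic G
  · exact Or.inl hcyc
  right
  have hnc : ¬ IsCyclic ↥(⊤ : Subgroup G) := by
    intro h
    haveI := h
    exact hcyc (isCyclic_of_surjective (Subgroup.topEquiv : ↥(⊤ : Subgroup G) ≃* G) (Subgroup.topEquiv : ↥(⊤ : Subgroup G) ≃* G).surjective)
  obtain ⟨p, hp, a, -, b, -, ha1, hap, hbp, hb⟩ :=
    Cfsg.Agent.Lib.Lead.exists_elem_ab_of_not_cyclic (⊤ : Subgroup G) hnc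
  haveI : Fact p.Prime := ⟨hp⟩
  have hoa : orderOf a = p := orderOf_eq_prime hap ha1
  have hb1 : b ≠ 1 := by
    intro h
    exact hb (h ▸ one_mem _)
  have hob : orderOf b = p := orderOf_eq_prime hbp hb1
  set A := Subgroup.zpowers a with hA
  set B := Subgroup.zpowers b with hB
  have hcA : Nat.card A = p := by rw [hA, Nat.card_zpowers, hoa]
  have hcB : Nat.card B = p := by rw [hB, Nat.card_zpowers, hob]
  have hinf : B ⊓ A = ⊥ := by
    have hdvd : Nat.card ↥(B ⊓ A) ∣ p := hcB ▸ Subgroup.card_dvd_of_le inf_le_left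
    rcases (Nat.dvd_prime hp).mp hdvd with h1 | h1
    · exact Subgroup.card_eq_one.mp h1
    · exfalso
      have hle : B ≤ B ⊓ A := by
        apply le_of_eq
        symm
        apply Subgroup.eq_of_le_of_card_ge inf_le_left
        rw [h1, hcB]
      exact hb ((hle.trans inf_le_right) (Subgroup.mem_zpowers b))
  have hprod := Cfsg.Agent.Lib.Helper1.card_sup_mul_card_inf B A
    (by rw [Subgroup.normalizer_eq_top]; exact le_top)
  rw [hinf, Subgroup.card_bot, mul_one, hcA, hcB] at hprod
  set E := B ⊔ A with hE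
  have hEexp : ∀ x ∈ E, x ^ p = 1 := by
    intro x hx
    rw [hE] at hx
    obtain ⟨u, hu, v, hv, rfl⟩ := Subgroup.mem_sup.mp hx
    obtain ⟨i, rfl⟩ := Subgroup.mem_zpowers_iff.mp hu
    obtain ⟨j, rfl⟩ := Subgroup.mem_zpowers_iff.mp hv
    rw [mul_pow, ← zpow_natCast, ← zpow_natCast, ← zpow_mul, ← zpow_mul, mul_comm i, mul_comm j,
      zpow_mul, zpow_mul, zpow_natCast, zpow_natCast, hap, hbp, one_zpow, one_zpow, one_mul]
  have hEnc : ¬ IsCyclic ↥E := by
    intro hc
    obtain ⟨g, hg⟩ := hc.exists_generator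
    have h1 : orderOf g = Nat.card ↥E := orderOf_eq_card_of_forall_mem_zpowers hg
    have h2 : g ^ p = 1 := by
      apply Subtype.ext
      rw [Subgroup.coe_pow]
      exact hEexp g g.2
    have h3 : orderOf g ∣ p := orderOf_dvd_of_pow_eq_one h2
    rw [h1, hprod] at h3
    have h4 := Nat.le_of_dvd hp.pos h3
    have h5 := hp.one_lt
    nlinarith
  have hEtop : E = ⊤ := by
    have h1 := hX E hEnc
    rw [Subgroup.centralizer_eq_top_iff_subset.mpr (fun x _ => Subgroup.mem_center_iff.mpr (fun g => mul_comm g x))] at h1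
    exact top_le_iff.mp h1
  have hcG : Nat.card G = p ^ 2 := by
    rw [← Subgroup.card_top (G := G), ← hEtop, hprod, sq]
  refine ⟨p, hp, hcG, ?_⟩
  have hdvd : Monoid.exponent G ∣ p := by
    apply Monoid.exponent_dvd_of_forall_pow_eq_one
    intro g
    exact hEexp g (hEtop ▸ Subgroup.mem_top g)
  rcases (Nat.dvd_prime hp).mp hdvd with h1 | h1
  · exfalso
    have := Monoid.exp_eq_one_iff.mp h1
    exact ha1 (Subsingleton.elim a 1)
  · exact h1

end Cfsg.Agent.S3917
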