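import Cfsg.Statements.S3918
import Mathlib
import Cfsg.Agent.Lib.Lead.OmegaOdd
import Cfsg.Agent.Lib.Helper6.NormalSq
-- import your own Cfsg.Agent.* helpers here

set_option autoImplicit false
open Cfsg

namespace Cfsg.Agent.S3918



/-- Say that a group has self-centralizing non-cyclic subgroups when every non-cyclic subgroup H satisfies C_G(H) ≤ H. For an odd prime p, a finite non-abelian p-group has self-centralizing non-cyclic subgroups if and only if it has order p³. -/
theorem result {G : Type*} [Group G] [Finite G] {p : ℕ} [Fact p.Prime] (hp : p ≠ 2) (hG : IsPGroup p G) (hna : ¬ IsMulCommutative G) :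
    (∀ H : Subgroup G, ¬ IsCyclic ↥H → Subgroup.centralizer (H : Set G) ≤ H) ↔ Nat.card G = p ^ 3 := by
  classical
  have hpp := (Fact.out : p.Prime)
  obtain ⟨n, hn⟩ := IsPGroup.iff_card.mp hG
  have hn3 : 3 ≤ n := by
    by_contra hcon
    apply hna
    have : n ≤ 2 := by omega
    interval_cases n
    · haveI : Subsingleton G := (Nat.card_eq_one_iff_unique.mp (by rw [hn, pow_zero])).1
      exact ⟨⟨fun a b => Subsingleton.elim _ _⟩⟩
    · haveI : IsCyclic G := isCyclic_of_prime_card (p := p) (by rw [hn, pow_one])
      exact IsCyclic.isMulCommutative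
    · exact IsPGroup.isMulCommutative_of_card_eq_prime_sq hn
  constructor
  · intro hX
    have hnc : ¬ IsCyclic G := fun h => hna (by haveI := h; exact IsCyclic.isMulCommutative)
    obtain ⟨A, hAn, hAe, hAcard⟩ := Cfsg.Agent.Lib.Lead.exists_normal_elemAb_sq hp hG hnc
    haveI := hAn
    have hAnc : ¬ IsCyclic ↥A := by
      intro hc
      obtain ⟨g, hg⟩ := hc.exists_generator
      have h1 : orderOf g = Nat.card ↥A := orderOf_eq_card_of_forall_mem_zpowers hg
      have h2 : g ^ p = 1 := Subtype.ext (by rw [Subgroup.coe_pow]; exact hAe.2 g g.2)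
      have h3 := Nat.le_of_dvd hpp.pos (orderOf_dvd_of_pow_eq_one h2)
      rw [h1, hAcard] at h3
      have := hpp.one_lt
      nlinarith
    have h1 := Cfsg.Agent.Lib.Helper6.card_le_of_normal_sq hG A hAcard
    have h2 := Subgroup.card_le_of_le (hX A hAnc)
    rw [hAcard] at h2
    have h3 : Nat.card G ≤ p ^ 3 := by
      calc Nat.card G ≤ p * Nat.card (Subgroup.centralizer (A : Set G)) := h1
        _ ≤ p * p ^ 2 := Nat.mul_le_mul_left p h2
        _ = p ^ 3 := by ring
    rw [hn] at h3 ⊢
    have h4 : n ≤ 3 := (Nat.pow_le_pow_iff_right hpp.one_lt).mp h3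
    have h5 : n = 3 := by omega
    rw [h5]
  · intro hcard H hH
    obtain ⟨i, hi⟩ := IsPGroup.iff_card.mp (hG.to_subgroup H)
    have hi3 : i ≤ 3 := by
      have := Subgroup.card_le_card_group H
      rw [hi, hcard] at this
      exact (Nat.pow_le_pow_iff_right hpp.one_lt).mp this
    interval_cases i
    · exfalso; apply hH
      have : H = ⊥ := Subgroup.card_eq_one.mp (by rw [hi, pow_zero])
      rw [this]; infer_instance
    · exfalso; apply hH
      exact isCyclic_of_prime_card (p := p) (by rw [hi, pow_one])
    · by_contra hcon
      haveI hHc : IsMulCommutative ↥H := IsPGroup.isMulCommutative_of_card_eq_prime_sq hi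
      have hHC : H ≤ Subgroup.centralizer (H : Set G) := by
        intro h hh
        rw [Subgroup.mem_centralizer_iff]
        intro h' hh'
        exact congrArg Subtype.val (hHc.is_comm.comm ⟨h', hh'⟩ ⟨h, hh⟩)
      have hCtop : Subgroup.centralizer (H : Set G) = ⊤ := by
        obtain ⟨j, hj⟩ := IsPGroup.iff_card.mp (hG.to_subgroup (Subgroup.centralizer (H : Set G)))
        have hj3 : j ≤ 3 := by
          have := Subgroup.card_le_card_group (Subgroup.centralizer (H : Set G))
          rw [hj, hcard] at this
          exact (Nat.pow_le_pow_iff_right hpp.one_lt).mp this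
        have hj2 : 2 ≤ j := by
          have := Subgroup.card_le_of_le hHC
          rw [hi, hj] at this
          exact (Nat.pow_le_pow_iff_right hpp.one_lt).mp this
        have hjne : j ≠ 2 := by
          intro hj2'
          apply hcon
          have := Subgroup.eq_of_le_of_card_ge hHC (by rw [hj, hj2', hi])
          exact this.ge
        have hj3' : j = 3 := by omega
        apply Subgroup.eq_top_of_card_eq
        rw [hj, hj3', hcard]
      have hHZ : H ≤ Subgroup.center G := by
        intro h hh
        rw [Subgroup.mem_center_iff]
        intro g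
        have hg : g ∈ Subgroup.centralizer (H : Set G) := hCtop ▸ Subgroup.mem_top g
        exact ((Subgroup.mem_centralizer_iff.mp hg) h hh).symm
      apply hna
      have hZidx : (Subgroup.center G).index ∣ p := by
        have h1 := Subgroup.card_mul_index (Subgroup.center G)
        have h2 := Subgroup.card_dvd_of_le hHZ
        rw [hi] at h2
        obtain ⟨c, hc⟩ := h2
        rw [hc, hcard] at h1
        have : c * (Subgroup.center G).index = p := by
          have h3 : p ^ 2 * (c * (Subgroup.center G).index) = p ^ 2 * p := by
            rw [← mul_assoc, h1]; ring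
          exact Nat.eq_of_mul_eq_mul_left (pow_pos hpp.pos 2) h3
        exact Dvd.intro_left c this
      haveI : IsCyclic (G ⧸ Subgroup.center G) := by
        rcases (Nat.dvd_prime hpp).mp hZidx with h | h
        · haveI : Subsingleton (G ⧸ Subgroup.center G) := by
            have : Nat.card (G ⧸ Subgroup.center G) = 1 := h
            exact (Nat.card_eq_one_iff_unique.mp this).1
          exact isCyclic_of_subsingleton
        · exact isCyclic_of_prime_card (p := p) h
      exact isMulCommutative_of_isCyclic_quotient_center_self G
    · have : H = ⊤ := Subgroup.eq_top_of_card_eq H (by rw [hi, hcard])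
      rw [this]; exact le_top

end Cfsg.Agent.S3918
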