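import Cfsg.Statements.S3920
import Mathlib
-- import your own Cfsg.Agent.* helpers here

set_option autoImplicit false
open Cfsg

namespace Cfsg.Agent.S3920


open DihedralGroup

theorem two_mul_eq_zero_odd {n : ℕ} (hodd : Odd n) (x : ZMod n) (h : 2 * x = 0) : x = 0 := by
  obtain ⟨k, hk⟩ := hodd
  have h1 : ((2 * k + 1 : ℕ) : ZMod n) = 0 := by
    rw [← hk]
    exact ZMod.natCast_self n
  push_cast at h1
  linear_combination x * h1 - (k : ZMod n) * h

theorem two_tor_unique (n : ℕ) [NeZero n] (x m : ZMod n) (hx : 2 * x = 0) (hx0 : x ≠ 0)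
    (hm : 2 * m = 0) (hm0 : m ≠ 0) : x = m := by
  have key : ∀ y : ZMod n, 2 * y = 0 → y ≠ 0 → 2 * y.val = n := by
    intro y hy hy0
    have h1 : ((2 * y.val : ℕ) : ZMod n) = 0 := by
      push_cast
      rw [ZMod.natCast_zmod_val]
      exact hy
    have h2 := (ZMod.natCast_eq_zero_iff _ n).mp h1
    have h3 : y.val < n := ZMod.val_lt y
    have h4 : y.val ≠ 0 := fun h => hy0 ((ZMod.val_eq_zero y).mp h)
    obtain ⟨c, hc⟩ := h2
    have hc1 : c = 1 := by
      have : c < 2 := by
        by_contra hcon
        push_neg at hcon
        nlinarith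
      have : c ≠ 0 := by
        rintro rfl
        omega
      omega
    rw [hc1] at hc
    omega
  have h1 := key x hx hx0
  have h2 := key m hm hm0
  apply ZMod.val_injective n
  omega

/-- a subgroup without reflections is cyclic -/
theorem exists_sr_of_not_cyclic (n : ℕ) [NeZero n] (H : Subgroup (DihedralGroup n))
    (hH : ¬ IsCyclic ↥H) : ∃ i : ZMod n, (sr i : DihedralGroup n) ∈ H := by
  by_contra hno
  push_neg at hno
  apply hH
  have hle : H ≤ Subgroup.zpowers (r 1 : DihedralGroup n) := by
    intro x hx
    rcases x with j | j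
    · have h1 : (r 1 : DihedralGroup n) ^ j.val = r j := by
        rw [r_one_pow, ZMod.natCast_zmod_val]
      rw [← h1]
      exact Subgroup.pow_mem _ (Subgroup.mem_zpowers _) _
    · exact absurd hx (hno j)
  exact Subgroup.isCyclic_of_le hle

theorem exists_r_of_not_cyclic (n : ℕ) (H : Subgroup (DihedralGroup n))
    (hH : ¬ IsCyclic ↥H) (i : ZMod n) (hi : (sr i : DihedralGroup n) ∈ H) :
    ∃ j : ZMod n, j ≠ 0 ∧ (r j : DihedralGroup n) ∈ H := by
  by_contra hno
  push_neg at hno
  apply hH
  have hle : H ≤ Subgroup.zpowers (sr i : DihedralGroup n) := by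
    intro x hx
    rcases x with j | j
    · have h0 : j = 0 := by
        by_contra hj
        exact hno j hj hx
      rw [h0, r_zero]
      exact Subgroup.one_mem _
    · have h1 : (sr i : DihedralGroup n) * sr j ∈ H := H.mul_mem hi hx
      rw [sr_mul_sr] at h1
      have h0 : j - i = 0 := by
        by_contra hj
        exact hno _ hj h1
      have h2 : j = i := sub_eq_zero.mp h0
      rw [h2]
      exact Subgroup.mem_zpowers _
  exact Subgroup.isCyclic_of_le hle

/-- the centralizer of a subgroup containing a reflection and all rotations of order at most 2 -/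
theorem centralizer_le_of (n : ℕ) (H : Subgroup (DihedralGroup n)) (i : ZMod n)
    (hi : (sr i : DihedralGroup n) ∈ H)
    (hT : ∀ x : ZMod n, 2 * x = 0 → (r x : DihedralGroup n) ∈ H) :
    Subgroup.centralizer (H : Set (DihedralGroup n)) ≤ H := by
  intro g hg
  have h1 := (Subgroup.mem_centralizer_iff.mp hg) (sr i) hi
  rcases g with j | j
  · rw [sr_mul_r, r_mul_sr] at h1
    have h2 : i + j = i - j := by injection h1
    exact hT j (by linear_combination h2)
  · rw [sr_mul_sr, sr_mul_sr] at h1
    have h2 : j - i = i - j := by injection h1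
    have h3 := hT (j - i) (by linear_combination h2)
    have h4 : (sr i : DihedralGroup n) * r (j - i) ∈ H := H.mul_mem hi h3
    rw [sr_mul_r] at h4
    have h5 : i + (j - i) = j := by ring
    rw [h5] at h4
    exact h4

/-- Say that a group has self-centralizing non-cyclic subgroups when every non-cyclic subgroup H satisfies C_G(H) ≤ H. For n ≥ 3, the dihedral group of order 2n has self-centralizing non-cyclic subgroups if and only if n is odd or a power of 2. -/
theorem result (n : ℕ) (hn : 3 ≤ n) : (∀ H : Subgroup (DihedralGroup n), ¬ IsCyclic ↥H → Subgroup.centralizer (H : Set (DihedralGroup n)) ≤ H) ↔ (Odd n ∨ ∃ k : ℕ, n = 2 ^ k) := by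
  classical
  haveI : NeZero n := ⟨by omega⟩
  constructor
  · intro hall
    by_contra hcon
    push_neg at hcon
    obtain ⟨hodd, hpow⟩ := hcon
    have heven : Even n := Nat.not_odd_iff_even.mp hodd
    obtain ⟨a, b, hb, hnab⟩ := Nat.exists_eq_two_pow_mul_odd (n := n) (by omega)
    have hb1 : b ≠ 1 := by
      rintro rfl
      exact hpow a (by rw [hnab, mul_one])
    have ha : a ≠ 0 := by
      rintro rfl
      apply hodd
      rw [hnab, pow_zero, one_mul]
      exact hb
    let H : Subgroup (DihedralGroup n) :=
      { carrier := {x | match x with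
          | .r i => (b : ZMod n) * i = 0
          | .sr i => (b : ZMod n) * i = 0}
        mul_mem' := by
          rintro (i | i) (j | j) hi hj
          · rw [r_mul_r]
            show (b : ZMod n) * (i + j) = 0
            have hi' : (b : ZMod n) * i = 0 := hi
            have hj' : (b : ZMod n) * j = 0 := hj
            linear_combination hi' + hj'
          · rw [r_mul_sr]
            show (b : ZMod n) * (j - i) = 0
            have hi' : (b : ZMod n) * i = 0 := hi
            have hj' : (b : ZMod n) * j = 0 := hj
            linear_combination hj' - hi'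
          · rw [sr_mul_r]
            show (b : ZMod n) * (i + j) = 0
            have hi' : (b : ZMod n) * i = 0 := hi
            have hj' : (b : ZMod n) * j = 0 := hj
            linear_combination hi' + hj'
          · rw [sr_mul_sr]
            show (b : ZMod n) * (j - i) = 0
            have hi' : (b : ZMod n) * i = 0 := hi
            have hj' : (b : ZMod n) * j = 0 := hj
            linear_combination hj' - hi'
        one_mem' := by
          rw [one_def]
          show (b : ZMod n) * 0 = 0
          rw [mul_zero]
        inv_mem' := by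
          rintro (i | i) hi
          · rw [inv_r]
            show (b : ZMod n) * (-i) = 0
            have hi' : (b : ZMod n) * i = 0 := hi
            linear_combination -hi'
          · rw [inv_sr]
            exact hi }
    have hmr : ∀ i : ZMod n, (r i : DihedralGroup n) ∈ H ↔ (b : ZMod n) * i = 0 := fun i => Iff.rfl
    have hms : ∀ i : ZMod n, (sr i : DihedralGroup n) ∈ H ↔ (b : ZMod n) * i = 0 := fun i => Iff.rfl
    have hr : (r ((2 ^ a : ℕ) : ZMod n) : DihedralGroup n) ∈ H := by
      rw [hmr]
      have h1 : ((b * 2 ^ a : ℕ) : ZMod n) = 0 := by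
        rw [mul_comm, ← hnab]
        exact ZMod.natCast_self n
      exact_mod_cast h1
    have hs : (sr 0 : DihedralGroup n) ∈ H := by
      rw [hms, mul_zero]
    have hnc : ¬ IsCyclic ↥H := by
      intro hc
      have h1 := (IsCyclic.isMulCommutative (α := ↥H)).is_comm.comm
        (⟨r ((2 ^ a : ℕ) : ZMod n), hr⟩ : H) ⟨sr 0, hs⟩
      have h3 : (r ((2 ^ a : ℕ) : ZMod n) : DihedralGroup n) * sr 0 =
          sr 0 * r ((2 ^ a : ℕ) : ZMod n) := congrArg Subtype.val h1
      rw [r_mul_sr, sr_mul_r] at h3
      have h4 : (0 : ZMod n) - ((2 ^ a : ℕ) : ZMod n) = 0 + ((2 ^ a : ℕ) : ZMod n) := by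
        injection h3
      have h5 : ((2 ^ (a + 1) : ℕ) : ZMod n) = 0 := by
        rw [pow_succ]
        push_cast at h4 ⊢
        linear_combination -h4
      have h6 := (ZMod.natCast_eq_zero_iff _ n).mp h5
      obtain ⟨k, _, hk⟩ := (Nat.dvd_prime_pow Nat.prime_two).mp h6
      exact hpow k hk
    have hcen := hall H hnc
    obtain ⟨c, hc⟩ := heven
    have hz : (r ((c : ℕ) : ZMod n) : DihedralGroup n) ∈
        Subgroup.centralizer (H : Set (DihedralGroup n)) := by
      rw [Subgroup.mem_centralizer_iff]
      have hcc : (c : ZMod n) + c = 0 := by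
        have h1 : ((c + c : ℕ) : ZMod n) = 0 := by
          rw [← hc]
          exact ZMod.natCast_self n
        exact_mod_cast h1
      rintro (j | j) _
      · rw [r_mul_r, r_mul_r, add_comm]
      · rw [sr_mul_r, r_mul_sr]
        congr 1
        linear_combination hcc
    have hzH := hcen hz
    rw [hmr] at hzH
    have h7 : ((b * c : ℕ) : ZMod n) = 0 := by exact_mod_cast hzH
    have h8 := (ZMod.natCast_eq_zero_iff _ n).mp h7
    obtain ⟨t, ht⟩ := hb
    -- b * c = t * n + c
    have h9 : b * c = t * n + c := by
      rw [ht, hc]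
      ring
    rw [h9] at h8
    have h10 : n ∣ c := (Nat.dvd_add_right (Dvd.intro_left t rfl)).mp h8
    have h11 := Nat.le_of_dvd (by omega) h10
    omega
  · rintro (hodd | ⟨k, hk⟩)
    · intro H hnc
      obtain ⟨i, hi⟩ := exists_sr_of_not_cyclic n H hnc
      apply centralizer_le_of n H i hi
      intro x hx
      rw [two_mul_eq_zero_odd hodd x hx, r_zero]
      exact H.one_mem
    · intro H hnc
      obtain ⟨i, hi⟩ := exists_sr_of_not_cyclic n H hnc
      obtain ⟨j, hj0, hj⟩ := exists_r_of_not_cyclic n H hnc i hi
      -- find the involution in the rotations of H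
      have hex : ∃ t : ℕ, j * ((2 ^ t : ℕ) : ZMod n) = 0 := by
        refine ⟨k, ?_⟩
        rw [← hk, ZMod.natCast_self, mul_zero]
      have ht0 : Nat.find hex ≠ 0 := by
        intro h
        have h1 := Nat.find_spec hex
        rw [h] at h1
        apply hj0
        simpa using h1
      obtain ⟨t, ht⟩ := Nat.exists_eq_succ_of_ne_zero ht0
      have hmin : ¬ (j * ((2 ^ t : ℕ) : ZMod n) = 0) := Nat.find_min hex (by omega)
      have hspec : j * ((2 ^ (t + 1) : ℕ) : ZMod n) = 0 := by
        have h1 := Nat.find_spec hex
        rw [ht] at h1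
        exact h1
      have hm2 : 2 * (j * ((2 ^ t : ℕ) : ZMod n)) = 0 := by
        rw [pow_succ] at hspec
        push_cast at hspec ⊢
        linear_combination hspec
      have hmH : (r (j * ((2 ^ t : ℕ) : ZMod n)) : DihedralGroup n) ∈ H := by
        rw [← r_pow]
        exact H.pow_mem hj _
      apply centralizer_le_of n H i hi
      intro x hx
      by_cases hx0 : x = 0
      · rw [hx0, r_zero]
        exact H.one_mem
      · rw [two_tor_unique n x _ hx hx0 hm2 hmin]
        exact hmH

end Cfsg.Agent.S3920
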