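import Cfsg.Statements.S3937
import Mathlib
import Cfsg.Agent.Lib.Helper2.Fit
import Cfsg.Agent.Lib.Helper2.Nilp
import Cfsg.Agent.Lib.Helper6.Engel
-- import your own Cfsg.Agent.* helpers here

set_option autoImplicit false
open Cfsg

namespace Cfsg.Agent.S3937



/-- Baer's characterization of the Fitting subgroup: in a finite group G, an element g lies in the Fitting subgroup if and only if g is a left Engel element, that is, for every x there is n with [x, g, g, …, g] = 1 (n entries g, [a, b] = aba⁻¹b⁻¹). -/
theorem result {G : Type*} [Group G] [Finite G] (g : G) :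
    g ∈ Cfsg.fittingSubgroup G ↔ ∀ x : G, ∃ n : ℕ, (List.replicate n g).foldl (fun a b => a * b * a⁻¹ * b⁻¹) x = 1 := by
  rw [show (∀ x : G, ∃ n : ℕ, (List.replicate n g).foldl (fun a b => a * b * a⁻¹ * b⁻¹) x = 1) ↔
    (∀ x : G, ∃ n : ℕ, (fun c : G => c * g * c⁻¹ * g⁻¹)^[n] x = 1) from by
      constructor
      · intro h x
        obtain ⟨n, hn⟩ := h x
        exact ⟨n, by rw [← Cfsg.Agent.Lib.Helper6.foldl_replicate_engel]; exact hn⟩
      · intro h x
        obtain ⟨n, hn⟩ := h x
        exact ⟨n, by rw [Cfsg.Agent.Lib.Helper6.foldl_replicate_engel]; exact hn⟩]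
  constructor
  · intro hg x
    have hnil := Cfsg.Agent.Lib.Helper2.fitting_isNilpotent G
    obtain ⟨n, hn⟩ := (Subgroup.isNilpotent_iff_lowerCentralSeries _).1 hnil
    have hFn : (Cfsg.fittingSubgroup G).Normal := Cfsg.Agent.Lib.Helper2.fitting_normal G
    have key : ∀ j : ℕ, (fun c : G => c * g * c⁻¹ * g⁻¹)^[j + 1] x ∈
        (Cfsg.fittingSubgroup G).lowerCentralSeries j := by
      intro j
      induction j with
      | zero =>
        rw [Subgroup.lowerCentralSeries_zero]
        show x * g * x⁻¹ * g⁻¹ ∈ Cfsg.fittingSubgroup G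
        exact Subgroup.mul_mem _ (hFn.conj_mem g hg x) (Subgroup.inv_mem _ hg)
      | succ j ih =>
        rw [Function.iterate_succ_apply', Subgroup.lowerCentralSeries_succ]
        have := Subgroup.commutator_mem_commutator ih hg
        rw [commutatorElement_def] at this
        exact this
    refine ⟨n + 1, ?_⟩
    have h := key n
    rw [hn, Subgroup.mem_bot] at h
    exact h
  · intro hE
    have hsub := Cfsg.Agent.Lib.Helper6.engel_subnormal _ G rfl g hE
    have hnil : Group.IsNilpotent ↥(Subgroup.zpowers g) := by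
      letI : CommGroup ↥(Subgroup.zpowers g) :=
        { (inferInstance : Group ↥(Subgroup.zpowers g)) with
          mul_comm := fun a b => IsMulCommutative.is_comm.comm a b }
      infer_instance
    exact Cfsg.Agent.Lib.Helper2.subnormal_nilpotent_le_fitting _ hsub hnil (Subgroup.mem_zpowers g)

end Cfsg.Agent.S3937
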