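import Cfsg.Statements.S3939
import Mathlib
import Cfsg.Agent.S0199
import Cfsg.Agent.Lib.Helper3.PGroup
import Cfsg.Agent.Lib.Lead.SZ
-- import your own Cfsg.Agent.* helpers here

set_option autoImplicit false
open Cfsg

namespace Cfsg.Agent.S3939


universe u

theorem nilp_of_le {G : Type*} [Group G] {A B : Subgroup G} (h : A ≤ B)
    [hB : Group.IsNilpotent B] : Group.IsNilpotent A := by
  apply Subgroup.isNilpotent_of_ker_le_center (Subgroup.inclusion h)
  rw [(MonoidHom.ker_eq_bot_iff _).mpr (Subgroup.inclusion_injective h)]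
  exact bot_le

theorem closure_pair_le {G : Type*} [Group G] {K : Subgroup G} {a b : G} (ha : a ∈ K)
    (hb : b ∈ K) : Subgroup.closure ({a, b} : Set G) ≤ K := by
  rw [Subgroup.closure_le]
  intro c hc
  simp only [Set.mem_insert_iff, Set.mem_singleton_iff] at hc
  rcases hc with rfl | rfl
  · exact ha
  · exact hb

theorem nilp_closure_of_mem_upper (n : ℕ) : ∀ (G : Type u) [Group G] (g : G),
    g ∈ Subgroup.upperCentralSeries G n → ∀ x : G,
      Group.IsNilpotent ↥(Subgroup.closure ({x, g} : Set G)) := by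
  induction n with
  | zero =>
    intro G _ g hg x
    rw [Subgroup.upperCentralSeries_zero, Subgroup.mem_bot] at hg
    subst hg
    haveI : IsMulCommutative ↥(Subgroup.closure ({x, 1} : Set G)) :=
      Subgroup.isMulCommutative_closure (by
        intro a ha b hb
        simp only [Set.mem_insert_iff, Set.mem_singleton_iff] at ha hb
        rcases ha with rfl | rfl <;> rcases hb with rfl | rfl <;> simp)
    letI : CommGroup ↥(Subgroup.closure ({x, 1} : Set G)) :=
      { (inferInstance : Group ↥(Subgroup.closure ({x, 1} : Set G))) with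
        mul_comm := fun a b => IsMulCommutative.is_comm.comm a b }
    exact CommGroup.isNilpotent
  | succ n ih =>
    intro G _ g hg x
    have hπg : QuotientGroup.mk' (Subgroup.center G) g ∈
        Subgroup.upperCentralSeries (G ⧸ Subgroup.center G) n := by
      rw [← Subgroup.mem_comap, Subgroup.comap_upperCentralSeries_quotient_center]
      exact hg
    have hK := ih (G ⧸ Subgroup.center G) _ hπg (QuotientGroup.mk' (Subgroup.center G) x)
    obtain ⟨H, hH⟩ : ∃ H : Subgroup G, H = Subgroup.closure ({x, g} : Set G) := ⟨_, rfl⟩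
    rw [← hH]
    have hrange : ((QuotientGroup.mk' (Subgroup.center G)).comp H.subtype).range =
        Subgroup.closure ({QuotientGroup.mk' (Subgroup.center G) x,
          QuotientGroup.mk' (Subgroup.center G) g} : Set (G ⧸ Subgroup.center G)) := by
      rw [MonoidHom.range_comp, Subgroup.range_subtype, hH, MonoidHom.map_closure, Set.image_pair]
    haveI : Group.IsNilpotent ((QuotientGroup.mk' (Subgroup.center G)).comp H.subtype).range := by
      rw [hrange]; exact hK
    apply Subgroup.isNilpotent_of_ker_le_center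
      ((QuotientGroup.mk' (Subgroup.center G)).comp H.subtype).rangeRestrict
    rw [MonoidHom.ker_rangeRestrict]
    intro a ha
    rw [MonoidHom.mem_ker] at ha
    have ha' : (a : G) ∈ Subgroup.center G := by
      have : QuotientGroup.mk' (Subgroup.center G) (a : G) = 1 := ha
      rwa [QuotientGroup.mk'_apply, QuotientGroup.eq_one_iff] at this
    rw [Subgroup.mem_center_iff]
    intro b
    apply Subtype.ext
    exact Subgroup.mem_center_iff.mp ha' (b : G)

theorem commute_of_nilpotent_coprime {K : Type*} [Group K] [Finite K] [hK : Group.IsNilpotent K]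
    (p : ℕ) [Fact p.Prime] (a b : K) (ha : orderOf a = p) (hb : (orderOf b).Coprime p) :
    Commute a b := by
  have hpa : IsPGroup p (Subgroup.zpowers a) :=
    IsPGroup.of_card (n := 1) (by rw [Nat.card_zpowers, ha, pow_one])
  obtain ⟨S, hS⟩ := hpa.exists_le_sylow
  have haS : a ∈ (S : Subgroup K) := hS (Subgroup.mem_zpowers a)
  have hidx : ∃ k, (Subgroup.centralizer ((S : Subgroup K) : Set K)).index = p ^ k := by
    refine ⟨_, Nat.eq_prime_pow_of_unique_prime_dvd Subgroup.FiniteIndex.index_ne_zero ?_⟩
    intro q hq hqd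
    by_contra hne
    haveI := Fact.mk hq
    obtain ⟨Sq⟩ : Nonempty (Sylow q K) := inferInstance
    have hle : (Sq : Subgroup K) ≤ Subgroup.centralizer ((S : Subgroup K) : Set K) := by
      intro s hs
      rw [Subgroup.mem_centralizer_iff]
      intro t ht
      have hdisj : Disjoint (S : Subgroup K) (Sq : Subgroup K) :=
        IsPGroup.disjoint_of_ne p q (Ne.symm hne) _ _ S.isPGroup' Sq.isPGroup'
      exact (Subgroup.commute_of_normal_of_disjoint _ _ inferInstance inferInstance hdisj t s
        ht hs).eq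
    have h1 := Subgroup.index_dvd_of_le hle
    exact Sq.not_dvd_index (hqd.trans h1)
  obtain ⟨k, hk⟩ := hidx
  have hbC : b ∈ Subgroup.centralizer ((S : Subgroup K) : Set K) := by
    rw [← QuotientGroup.eq_one_iff, ← orderOf_eq_one_iff]
    have h1 : orderOf (b : K ⧸ Subgroup.centralizer ((S : Subgroup K) : Set K)) ∣ orderOf b :=
      orderOf_map_dvd (QuotientGroup.mk' _) b
    have h2 : orderOf (b : K ⧸ Subgroup.centralizer ((S : Subgroup K) : Set K)) ∣ p ^ k := by
      rw [← hk, Subgroup.index_eq_card]
      exact orderOf_dvd_natCard _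
    exact Nat.Coprime.eq_one_of_dvd (Nat.Coprime.coprime_dvd_left h1 (Nat.Coprime.pow_right k hb)) h2
  exact (Subgroup.mem_centralizer_iff.mp hbC) a haS

theorem isPGroup_sup_of_nilpotent {G : Type*} [Group G] [Finite G] (p : ℕ) [Fact p.Prime]
    (K : Subgroup G) [hK : Group.IsNilpotent K] (a b : G) (haK : a ∈ K) (hbK : b ∈ K)
    (ha : orderOf a = p) (hb : orderOf b = p) :
    IsPGroup p ↥(Subgroup.zpowers a ⊔ Subgroup.zpowers b) := by
  obtain ⟨S⟩ : Nonempty (Sylow p K) := inferInstance
  have hmem : ∀ c : G, ∀ hc : c ∈ K, orderOf c = p → (⟨c, hc⟩ : K) ∈ (S : Subgroup K) := by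
    intro c hc hco
    have hpc : IsPGroup p (Subgroup.zpowers (⟨c, hc⟩ : K)) :=
      IsPGroup.of_card (n := 1) (by rw [Nat.card_zpowers, Subgroup.orderOf_mk, hco, pow_one])
    obtain ⟨S₂, hS₂⟩ := hpc.exists_le_sylow
    obtain ⟨k, hk⟩ := MulAction.exists_smul_eq K S S₂
    rw [Sylow.smul_eq_of_normal] at hk
    rw [hk]
    exact hS₂ (Subgroup.mem_zpowers _)
  have hSp : IsPGroup p ((S : Subgroup K).map K.subtype) := S.isPGroup'.map K.subtype
  apply hSp.to_le
  rw [sup_le_iff, Subgroup.zpowers_le, Subgroup.zpowers_le]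
  exact ⟨⟨⟨a, haK⟩, hmem a haK ha, rfl⟩, ⟨⟨b, hbK⟩, hmem b hbK hb, rfl⟩⟩

/-- A nontrivial element generating a nilpotent subgroup with every other element forces a
nontrivial centre. -/
theorem center_ne_bot_of_left_nilp {G : Type u} [Group G] [Finite G] (g : G) (hg1 : g ≠ 1)
    (hg : ∀ x : G, Group.IsNilpotent ↥(Subgroup.closure ({x, g} : Set G))) :
    Subgroup.center G ≠ ⊥ := by
  -- pass to an element of prime order
  have ho1 : orderOf g ≠ 1 := by rw [Ne, orderOf_eq_one_iff]; exact hg1
  obtain ⟨p, hp, hpd⟩ := Nat.exists_prime_and_dvd ho1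
  haveI : Fact p.Prime := ⟨hp⟩
  obtain ⟨y, hy⟩ : ∃ y : G, y = g ^ (orderOf g / p) := ⟨_, rfl⟩
  have hyo : orderOf y = p := by
    rw [hy]; exact orderOf_pow_orderOf_div (orderOf_pos g).ne' hpd
  have hy1 : y ≠ 1 := by
    intro h; rw [h, orderOf_one] at hyo; exact hp.one_lt.ne hyo
  have hyn : ∀ x : G, Group.IsNilpotent ↥(Subgroup.closure ({x, y} : Set G)) := by
    intro x
    haveI := hg x
    apply nilp_of_le (B := Subgroup.closure ({x, g} : Set G))
    apply closure_pair_le
    · exact Subgroup.subset_closure (by simp)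
    · rw [hy]
      exact Subgroup.pow_mem _ (Subgroup.subset_closure (by simp)) _
  -- y commutes with all p'-elements
  have hycomm : ∀ x : G, (orderOf x).Coprime p → y * x = x * y := by
    intro x hx
    haveI := hyn x
    have hxK : x ∈ Subgroup.closure ({x, y} : Set G) := Subgroup.subset_closure (by simp)
    have hyK : y ∈ Subgroup.closure ({x, y} : Set G) := Subgroup.subset_closure (by simp)
    have h1 := commute_of_nilpotent_coprime p (⟨y, hyK⟩ : Subgroup.closure ({x, y} : Set G))
      ⟨x, hxK⟩ (by rw [Subgroup.orderOf_mk]; exact hyo) (by rw [Subgroup.orderOf_mk]; exact hx)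
    exact congrArg Subtype.val h1.eq
  -- Baer–Suzuki: y lies in a normal p-subgroup
  have hX : IsPGroup p (Subgroup.zpowers y) :=
    IsPGroup.of_card (n := 1) (by rw [Nat.card_zpowers, hyo, pow_one])
  obtain ⟨N, hNn, hNp, hXN⟩ := Cfsg.Agent.S0199.result (Subgroup.zpowers y) hX (by
    intro x
    haveI := hyn x
    have hxK : x ∈ Subgroup.closure ({x, y} : Set G) := Subgroup.subset_closure (by simp)
    have hyK : y ∈ Subgroup.closure ({x, y} : Set G) := Subgroup.subset_closure (by simp)
    have hcK : x * y * x⁻¹ ∈ Subgroup.closure ({x, y} : Set G) :=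
      Subgroup.mul_mem _ (Subgroup.mul_mem _ hxK hyK) (Subgroup.inv_mem _ hxK)
    have hco : orderOf (x * y * x⁻¹) = p := by
      have := (MulAut.conj x).orderOf_eq y
      rw [MulAut.conj_apply] at this
      rw [this, hyo]
    have h1 := isPGroup_sup_of_nilpotent p (Subgroup.closure ({x, y} : Set G)) y (x * y * x⁻¹)
      hyK hcK hyo hco
    have h2 : (Subgroup.zpowers y).map (MulAut.conj x).toMonoidHom =
        Subgroup.zpowers (x * y * x⁻¹) := by
      rw [MonoidHom.map_zpowers]
      rfl
    rw [h2]
    exact h1)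
  have hyN : y ∈ N := hXN (Subgroup.mem_zpowers y)
  -- T : elements of N commuting with all p'-elements
  obtain ⟨T, hT⟩ : ∃ T : Subgroup G,
      T = N ⊓ Subgroup.centralizer {x : G | (orderOf x).Coprime p} := ⟨_, rfl⟩
  have hTmem : ∀ t : G, t ∈ T ↔ t ∈ N ∧ ∀ x : G, (orderOf x).Coprime p → x * t = t * x := by
    intro t
    rw [hT, Subgroup.mem_inf, Subgroup.mem_centralizer_iff]
    rfl
  have hTn : T.Normal := by
    constructor
    intro t ht c
    rw [hTmem] at ht ⊢
    refine ⟨hNn.conj_mem t ht.1 c, ?_⟩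
    intro x hx
    have hx' : (orderOf (c⁻¹ * x * c)).Coprime p := by
      have := (MulAut.conj c⁻¹).orderOf_eq x
      rw [MulAut.conj_apply, inv_inv] at this
      rw [this]; exact hx
    have h1 := ht.2 _ hx'
    calc x * (c * t * c⁻¹) = c * ((c⁻¹ * x * c) * t) * c⁻¹ := by group
      _ = c * (t * (c⁻¹ * x * c)) * c⁻¹ := by rw [h1]
      _ = c * t * c⁻¹ * x := by group
  have hyT : y ∈ T := (hTmem y).mpr ⟨hyN, fun x hx => (hycomm x hx).symm⟩
  have hTp : IsPGroup p T := hNp.to_le (by rw [hT]; exact inf_le_left)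
  obtain ⟨P⟩ : Nonempty (Sylow p G) := inferInstance
  have hTP : T ≤ (P : Subgroup G) := hTp.le_sylow_of_normal P
  have hT'ne : T.subgroupOf (P : Subgroup G) ≠ ⊥ := by
    intro h
    rw [Subgroup.subgroupOf_eq_bot] at h
    have : y ∈ T ⊓ (P : Subgroup G) := ⟨hyT, hTP hyT⟩
    rw [h.eq_bot, Subgroup.mem_bot] at this
    exact hy1 this
  obtain ⟨z, hzT, hz1, hzc⟩ := Cfsg.Agent.Lib.Helper3.exists_ne_one_mem_center_of_normal
    P.isPGroup' (T.subgroupOf (P : Subgroup G)) hT'ne
  have hzT' : (z : G) ∈ T := Subgroup.mem_subgroupOf.mp hzT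
  have hz1' : (z : G) ≠ 1 := fun h => hz1 (Subtype.ext h)
  have hzP : ∀ x ∈ (P : Subgroup G), x * (z : G) = z * x := by
    intro x hx
    exact congrArg Subtype.val (Subgroup.mem_center_iff.mp hzc ⟨x, hx⟩)
  have hzcop := ((hTmem _).mp hzT').2
  -- centralizer of z is everything
  have hC : Subgroup.centralizer ({(z : G)} : Set G) = ⊤ := by
    rw [← Subgroup.index_eq_one, Nat.eq_one_iff_not_exists_prime_dvd]
    intro q hq hqd
    haveI := Fact.mk hq
    by_cases hqp : q = p
    · subst hqp
      have hle : (P : Subgroup G) ≤ Subgroup.centralizer ({(z : G)} : Set G) := by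
        intro x hx
        rw [Subgroup.mem_centralizer_iff]
        intro w hw
        rw [Set.mem_singleton_iff] at hw
        rw [hw]
        exact (hzP x hx).symm
      exact P.not_dvd_index (hqd.trans (Subgroup.index_dvd_of_le hle))
    · obtain ⟨Q⟩ : Nonempty (Sylow q G) := inferInstance
      have hle : (Q : Subgroup G) ≤ Subgroup.centralizer ({(z : G)} : Set G) := by
        intro x hx
        rw [Subgroup.mem_centralizer_iff]
        intro w hw
        rw [Set.mem_singleton_iff] at hw
        rw [hw]
        apply (hzcop x _).symm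
        obtain ⟨k, hk⟩ := Q.isPGroup' ⟨x, hx⟩
        have hk' : x ^ q ^ k = 1 := congrArg Subtype.val hk
        have h1 : orderOf x ∣ q ^ k := orderOf_dvd_of_pow_eq_one hk'
        apply Nat.Coprime.coprime_dvd_left h1
        apply Nat.Coprime.pow_left
        exact (Nat.coprime_primes hq hp).mpr hqp
      exact Q.not_dvd_index (hqd.trans (Subgroup.index_dvd_of_le hle))
  intro hbot
  apply hz1'
  have hzcen : (z : G) ∈ Subgroup.center G := by
    rw [Subgroup.mem_center_iff]
    intro x
    have hx : x ∈ Subgroup.centralizer ({(z : G)} : Set G) := by rw [hC]; exact Subgroup.mem_top x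
    exact ((Subgroup.mem_centralizer_iff.mp hx) _ (Set.mem_singleton _)).symm
  rw [hbot, Subgroup.mem_bot] at hzcen
  exact hzcen

theorem mem_hyper_of_left_nilp : ∀ (n : ℕ) (G : Type u) [Group G] [Finite G],
    Nat.card G = n → ∀ g : G,
      (∀ x : G, Group.IsNilpotent ↥(Subgroup.closure ({x, g} : Set G))) →
      g ∈ ⨆ n : ℕ, Subgroup.upperCentralSeries G n := by
  intro n
  induction n using Nat.strong_induction_on with
  | _ n ih =>
  intro G _ _ hn g hg
  by_cases hg1 : g = 1
  · rw [hg1]; exact Subgroup.one_mem _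
  have hZ := center_ne_bot_of_left_nilp g hg1 hg
  have hlt : Nat.card (G ⧸ Subgroup.center G) < n := by
    rw [← hn]; exact Cfsg.Agent.Lib.Lead.card_quotient_lt _ hZ
  have hq := ih _ hlt (G ⧸ Subgroup.center G) rfl (QuotientGroup.mk' (Subgroup.center G) g) (by
    intro xb
    obtain ⟨x, rfl⟩ := QuotientGroup.mk'_surjective (Subgroup.center G) xb
    haveI := hg x
    have h1 : (Subgroup.closure ({x, g} : Set G)).map (QuotientGroup.mk' (Subgroup.center G)) =
        Subgroup.closure ({QuotientGroup.mk' (Subgroup.center G) x,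
          QuotientGroup.mk' (Subgroup.center G) g} : Set (G ⧸ Subgroup.center G)) := by
      rw [MonoidHom.map_closure, Set.image_pair]
    rw [← h1]
    exact Group.nilpotent_of_surjective _
      ((QuotientGroup.mk' (Subgroup.center G)).subgroupMap_surjective _))
  have hdir : Directed (· ≤ ·) (fun n : ℕ => Subgroup.upperCentralSeries (G ⧸ Subgroup.center G) n) :=
    Monotone.directed_le (Subgroup.upperCentralSeries_mono _)
  obtain ⟨k, hk⟩ := (Subgroup.mem_iSup_of_directed hdir).mp hq
  have h2 : g ∈ Subgroup.upperCentralSeries G (k + 1) := by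
    rw [← Subgroup.comap_upperCentralSeries_quotient_center, Subgroup.mem_comap]
    exact hk
  exact (le_iSup (fun n : ℕ => Subgroup.upperCentralSeries G n) (k + 1)) h2

/-- In a finite group G the set of elements g such that the subgroup generated by g and x is nilpotent for every x ∈ G is exactly the hypercenter of G (the last term of the upper central series). -/
theorem result {G : Type*} [Group G] [Finite G] (g : G) :
    (∀ x : G, Group.IsNilpotent ↥(Subgroup.closure ({x, g} : Set G))) ↔ g ∈ ⨆ n : ℕ, Subgroup.upperCentralSeries G n := by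
  constructor
  · intro h
    exact mem_hyper_of_left_nilp _ G rfl g h
  · intro h x
    have hdir : Directed (· ≤ ·) (fun n : ℕ => Subgroup.upperCentralSeries G n) :=
      Monotone.directed_le (Subgroup.upperCentralSeries_mono _)
    obtain ⟨k, hk⟩ := (Subgroup.mem_iSup_of_directed hdir).mp h
    exact nilp_closure_of_mem_upper k G g hk x

end Cfsg.Agent.S3939
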