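import Cfsg.Statements.S3941
import Mathlib
-- import your own Cfsg.Agent.* helpers here

set_option autoImplicit false
open Cfsg

namespace Cfsg.Agent.S3941

theorem sign_via {m : ℕ} (e : Equiv.Perm (Fin m)) :
    Equiv.Perm.sign (Equiv.Perm.viaEmbeddingHom (Fin.castSuccEmb (n := m)) e) =
      Equiv.Perm.sign e := by
  rw [Equiv.Perm.viaEmbeddingHom_apply]
  unfold Equiv.Perm.viaEmbedding
  exact @Equiv.Perm.sign_extendDomain _ _ _ _ _ _ e _ (fun a => Classical.propDecidable _) _

noncomputable def ψ (m : ℕ) : alternatingGroup (Fin m) →* alternatingGroup (Fin (m + 1)) :=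
  ((Equiv.Perm.viaEmbeddingHom (Fin.castSuccEmb (n := m))).comp
    (alternatingGroup (Fin m)).subtype).codRestrict (alternatingGroup (Fin (m + 1)))
    (fun x => by
      rw [Equiv.Perm.mem_alternatingGroup]
      show Equiv.Perm.sign (Equiv.Perm.viaEmbeddingHom _ x.1) = 1
      rw [sign_via]
      exact Equiv.Perm.mem_alternatingGroup.mp x.2)

theorem ψ_inj (m : ℕ) : Function.Injective (ψ m) := by
  intro x y hxy
  have h1 := congrArg Subtype.val hxy
  exact Subtype.ext (Equiv.Perm.viaEmbeddingHom_injective _ h1)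

theorem mem_of_normal_sylow {H : Type*} [Group H] [Finite H] {p : ℕ} [Fact p.Prime]
    (P : Sylow p H) (hPn : (P : Subgroup H).Normal) (g : H) (hg : g ^ p = 1) :
    g ∈ (P : Subgroup H) := by
  have hQ : IsPGroup p (Subgroup.zpowers g) := by
    rintro ⟨q, hq⟩
    obtain ⟨j, rfl⟩ := Subgroup.mem_zpowers_iff.mp hq
    refine ⟨1, Subtype.ext ?_⟩
    show (g ^ j) ^ (p ^ 1) = 1
    rw [pow_one, ← zpow_natCast, ← zpow_mul, mul_comm, zpow_mul, zpow_natCast, hg, one_zpow]
  obtain ⟨P', hP'⟩ := hQ.exists_le_sylow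
  obtain ⟨g', hg'⟩ := MulAction.exists_smul_eq H P P'
  haveI := hPn
  rw [Sylow.smul_eq_of_normal] at hg'
  subst hg'
  exact hP' (Subgroup.mem_zpowers g)

def c₁ : alternatingGroup (Fin 4) := ⟨c[0, 1, 2], Equiv.Perm.mem_alternatingGroup.mpr (by decide)⟩
def c₂ : alternatingGroup (Fin 4) := ⟨c[1, 2, 3], Equiv.Perm.mem_alternatingGroup.mpr (by decide)⟩
theorem hc1 : c₁ ^ 3 = 1 := Subtype.ext (by decide)
theorem hc2 : c₂ ^ 3 = 1 := Subtype.ext (by decide)
theorem hc12 : (c₁ * c₂) ^ 2 = 1 := Subtype.ext (by decide)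
theorem hc12' : c₁ * c₂ ≠ 1 := by
  intro h0
  have := congrArg Subtype.val h0
  revert this
  decide

/-- Let n ≥ 5 and p an odd prime with p ≤ n, and suppose that every proper subgroup of the alternating group of degree n whose order is divisible by p has a normal Sylow p-subgroup. Then n = p. -/
theorem result (n p : ℕ) (hn : 5 ≤ n) [Fact p.Prime] (hp : p ≠ 2) (hpn : p ≤ n)
    (h : ∀ H : Subgroup ↥(alternatingGroup (Fin n)), H ≠ ⊤ → p ∣ Nat.card ↥H → Cfsg.IsPClosed p ↥H) : n = p := by
  classical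
  by_contra hne
  have hlt : p < n := lt_of_le_of_ne hpn (Ne.symm hne)
  obtain ⟨m, rfl⟩ : ∃ m, n = m + 1 := ⟨n - 1, by omega⟩
  have hm4 : 4 ≤ m := by omega
  have hpm : p ≤ m := by omega
  have hpp : p.Prime := Fact.out
  let H : Subgroup (alternatingGroup (Fin (m + 1))) := (ψ m).range
  let eH : alternatingGroup (Fin m) ≃* H := MonoidHom.ofInjective (ψ_inj m)
  haveI : Nontrivial (Fin m) := Fin.nontrivial_iff_two_le.mpr (by omega)
  haveI : Nontrivial (Fin (m + 1)) := Fin.nontrivial_iff_two_le.mpr (by omega)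
  have hcardA : 2 * Nat.card (alternatingGroup (Fin m)) = m.factorial := by
    rw [two_mul_nat_card_alternatingGroup, Nat.card_perm, Nat.card_fin]
  have hcardA' : 2 * Nat.card (alternatingGroup (Fin (m + 1))) = (m + 1).factorial := by
    rw [two_mul_nat_card_alternatingGroup, Nat.card_perm, Nat.card_fin]
  have hcH : Nat.card H = Nat.card (alternatingGroup (Fin m)) := (Nat.card_congr eH.toEquiv).symm
  have hHne : H ≠ ⊤ := by
    intro htop
    have h1 : Nat.card H = Nat.card (alternatingGroup (Fin (m + 1))) := by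
      rw [htop]; exact Subgroup.card_top
    have h3 : m.factorial = (m + 1).factorial := by omega
    rw [Nat.factorial_succ] at h3
    have := Nat.factorial_pos m
    nlinarith
  have hpdvd : p ∣ Nat.card H := by
    have h1 : p ∣ m.factorial := (Nat.Prime.dvd_factorial hpp).mpr hpm
    rw [← hcardA, ← hcH] at h1
    have hcop : Nat.Coprime p 2 := by
      rw [Nat.coprime_primes hpp Nat.prime_two]; exact hp
    exact hcop.dvd_of_dvd_mul_left h1
  have hcl := h H hHne hpdvd
  have h2dvd : 2 ∣ Nat.card H := by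
    have h4 : 4 ∣ m.factorial :=
      dvd_trans (by decide : 4 ∣ Nat.factorial 4) (Nat.factorial_dvd_factorial hm4)
    rw [← hcardA, ← hcH] at h4
    omega
  let P : Sylow p H := default
  have hPn := hcl P
  rcases Nat.lt_or_ge 4 m with h5 | h4
  · haveI : IsSimpleGroup (alternatingGroup (Fin m)) :=
      alternatingGroup.isSimpleGroup (by rw [Nat.card_fin]; exact h5)
    haveI : Nontrivial H := by
      rw [← Finite.one_lt_card_iff_nontrivial]
      have := Nat.le_of_dvd Nat.card_pos h2dvd
      omega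
    haveI : IsSimpleGroup H := IsSimpleGroup.isSimpleGroup_of_surjective eH.toMonoidHom eH.surjective
    rcases hPn.eq_bot_or_eq_top with hb | ht
    · exact P.ne_bot_of_dvd_card hpdvd hb
    · have hPG : IsPGroup p H := by
        intro g
        obtain ⟨k, hk⟩ := P.isPGroup' ⟨g, by rw [ht]; exact Subgroup.mem_top g⟩
        exact ⟨k, congrArg Subtype.val hk⟩
      obtain ⟨k, hk⟩ := IsPGroup.iff_card.mp hPG
      rw [hk] at h2dvd
      have h6 := (Nat.Prime.dvd_of_dvd_pow Nat.prime_two h2dvd)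
      have h7 := (Nat.prime_dvd_prime_iff_eq Nat.prime_two hpp).mp h6
      exact hp h7.symm
  · obtain rfl : m = 4 := by omega
    have hp3 : p = 3 := by
      have h2 := hpp.two_le
      interval_cases p
      · exact absurd rfl hp
      · rfl
      · exact absurd hpp (by decide)
    subst hp3
    have hx : eH c₁ ∈ (P : Subgroup H) :=
      mem_of_normal_sylow P hPn _ (by rw [← map_pow, hc1, map_one])
    have hy : eH c₂ ∈ (P : Subgroup H) :=
      mem_of_normal_sylow P hPn _ (by rw [← map_pow, hc2, map_one])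
    have hxy : eH (c₁ * c₂) ∈ (P : Subgroup H) := by
      rw [map_mul]; exact mul_mem hx hy
    obtain ⟨k, hk⟩ := P.isPGroup' ⟨_, hxy⟩
    have hk' : (eH (c₁ * c₂)) ^ (3 ^ k) = 1 := congrArg Subtype.val hk
    rw [← map_pow] at hk'
    have hk'' : (c₁ * c₂) ^ (3 ^ k) = 1 := by
      apply eH.injective
      rw [hk', map_one]
    obtain ⟨j, hj⟩ : Odd (3 ^ k) := Odd.pow (by decide)
    rw [hj, pow_succ, pow_mul, hc12, one_pow, one_mul] at hk''
    exact hc12' hk''

end Cfsg.Agent.S3941
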