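import Cfsg.Statements.S3949
import Mathlib

set_option autoImplicit false
open Cfsg

namespace Cfsg.Agent.S3949

theorem aux_sq {G : Type*} [Group G] (α : MulAut G) (x : G) (hx : α x = x⁻¹) :
    x * (α x)⁻¹ = x ^ 2 := by
  simp [hx, pow_two]

theorem aux_inv_pow {G : Type*} [Group G] (α : MulAut G) (x : G) (hx : α x = x⁻¹) (n : ℕ) :
    α (x ^ n) = (x ^ n)⁻¹ := by
  rw [map_pow, hx, inv_pow]

theorem aux_iter {G : Type*} [Group G] (α : MulAut G) (i : ℕ) :
    ∀ x : G, α x = x⁻¹ → (fun c : G => c * (α c)⁻¹)^[i] x = x ^ (2 ^ i) := by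
  induction i with
  | zero => intro x _; simp
  | succ i ih =>
    intro x hx
    rw [Function.iterate_succ_apply, aux_sq α x hx, ih (x ^ 2) (aux_inv_pow α x hx 2), ← pow_mul,
      pow_succ']

theorem aux_range_inv {G : Type*} [Group G] (α : MulAut G) (hα : orderOf α = 2) (c : G) :
    α (c * (α c)⁻¹) = (c * (α c)⁻¹)⁻¹ := by
  have h2 : α ^ 2 = 1 := by rw [← hα]; exact pow_orderOf_eq_one α
  have h3 : α (α c) = c := by
    have : (α ^ 2) c = c := by rw [h2]; rfl
    simpa [pow_two] using this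
  rw [map_mul, map_inv, h3]
  simp

/-- Let G be a finite group and α an automorphism of G of order 2 such that the elements g·α(g)⁻¹ generate G. Let j be a positive integer such that 2^j divides the order of no element inverted by α. Then the set of values of the j-th iterate of the map c ↦ c·α(c)⁻¹ is exactly the set of elements of odd order inverted by α. -/
theorem result {G : Type*} [Group G] [Finite G] (α : MulAut G) (hα : orderOf α = 2) (hG : Subgroup.closure (Set.range (fun c : G => c * (α c)⁻¹)) = ⊤)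
    (j : ℕ) (hj : ∀ g : G, α g = g⁻¹ → ¬ 2 ^ j ∣ orderOf g) :
    Set.range ((fun c : G => c * (α c)⁻¹)^[j]) = {g : G | Odd (orderOf g) ∧ α g = g⁻¹} := by
  obtain ⟨j', rfl⟩ : ∃ j', j = j' + 1 := by
    rcases j with _ | j'
    · exfalso
      exact hj 1 (by simp) (by simp)
    · exact ⟨j', rfl⟩
  ext g
  constructor
  · rintro ⟨c, rfl⟩
    have hs : α (c * (α c)⁻¹) = (c * (α c)⁻¹)⁻¹ := aux_range_inv α hα c
    rw [Function.iterate_succ_apply]
    change Odd (orderOf ((fun c : G => c * (α c)⁻¹)^[j'] (c * (α c)⁻¹))) ∧ _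
    rw [aux_iter α j' _ hs]
    set s := c * (α c)⁻¹ with hsdef
    refine ⟨?_, aux_inv_pow α s hs _⟩
    have hspos : 0 < orderOf s := orderOf_pos s
    rw [orderOf_pow' s (by positivity : (2 : ℕ) ^ j' ≠ 0)]
    by_contra hodd
    rw [Nat.not_odd_iff_even, even_iff_two_dvd] at hodd
    have hgd : Nat.gcd (orderOf s) (2 ^ j') ∣ 2 ^ j' := Nat.gcd_dvd_right _ _
    obtain ⟨b, hb, hbe⟩ := (Nat.dvd_prime_pow Nat.prime_two).1 hgd
    have hgo : Nat.gcd (orderOf s) (2 ^ j') ∣ orderOf s := Nat.gcd_dvd_left _ _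
    have h1 : 2 * Nat.gcd (orderOf s) (2 ^ j') ∣ orderOf s := by
      rw [mul_comm]
      exact Nat.mul_dvd_of_dvd_div hgo hodd
    rw [hbe] at h1
    have h2 : 2 ^ (b + 1) ∣ orderOf s := by rw [pow_succ']; exact h1
    by_cases hbj : b + 1 ≤ j'
    · have h3 : 2 ^ (b + 1) ∣ Nat.gcd (orderOf s) (2 ^ j') :=
        Nat.dvd_gcd h2 (pow_dvd_pow 2 hbj)
      rw [hbe] at h3
      have := Nat.le_of_dvd (by positivity) h3
      have h4 : 2 ^ b < 2 ^ (b + 1) := Nat.pow_lt_pow_right (by norm_num) (by omega)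
      omega
    · have hbj' : b = j' := by omega
      rw [hbj'] at h2
      exact hj s hs h2
  · rintro ⟨hodd, hinv⟩
    have key : ∀ i : ℕ, ∃ c : G, α c = c⁻¹ ∧ Odd (orderOf c) ∧ (fun c : G => c * (α c)⁻¹)^[i] c = g := by
      intro i
      induction i with
      | zero => exact ⟨g, hinv, hodd, rfl⟩
      | succ i ih =>
        obtain ⟨c, hc1, hc2, hc3⟩ := ih
        obtain ⟨k, hk⟩ := hc2
        refine ⟨c ^ (k + 1), aux_inv_pow α c hc1 _, ?_, ?_⟩
        · have hd : orderOf (c ^ (k + 1)) ∣ orderOf c := orderOf_pow_dvd _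
          rcases Nat.even_or_odd (orderOf (c ^ (k + 1))) with he | ho
          · exfalso
            have : 2 ∣ orderOf c := (even_iff_two_dvd.mp he).trans hd
            omega
          · exact ho
        · rw [Function.iterate_succ_apply, aux_sq α _ (aux_inv_pow α c hc1 _), ← pow_mul]
          have : (k + 1) * 2 = orderOf c + 1 := by omega
          rw [this, pow_succ, pow_orderOf_eq_one, one_mul]
          exact hc3
    obtain ⟨c, -, -, hc⟩ := key (j' + 1)
    exact ⟨c, hc⟩

end Cfsg.Agent.S3949
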