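import Cfsg.Statements.S3982
import Mathlib
import Cfsg.Agent.Lib.Helper6.InvolFix
-- import your own Cfsg.Agent.* helpers here

set_option autoImplicit false
open Cfsg

namespace Cfsg.Agent.S3982

open Cfsg.Agent.Lib.Helper6


/-- Let p be an odd prime and G a finite group of even order divisible by p in which the centralizer of every non-identity p-element has odd order. If some nontrivial p-subgroup of G has a normalizer of even order, then the normalizer of every Sylow p-subgroup of G has even order. -/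
theorem result {G : Type*} [Group G] [Finite G] (p : ℕ) [Fact p.Prime] (hp2 : p ≠ 2) (hpG : p ∣ Nat.card G) (h2G : 2 ∣ Nat.card G) (hC : ∀ g : G, g ≠ 1 → (∃ k : ℕ, orderOf g = p ^ k) → Odd (Nat.card ↥(Subgroup.centralizer ({g} : Set G)))) (Q : Subgroup G) (hQ : IsPGroup p ↥Q) (hQ1 : Q ≠ ⊥) (hev : Even (Nat.card ↥(Subgroup.normalizer (Q : Set G)))) (P : Sylow p G) : Even (Nat.card ↥(Subgroup.normalizer ((P : Subgroup G) : Set G))) := by
  classical
  have hp : p.Prime := Fact.out
  have h2f : Fact (Nat.Prime 2) := ⟨Nat.prime_two⟩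
  -- choose Q₀ of maximal order
  let S : Set (Subgroup G) := {Q | IsPGroup p Q ∧ Q ≠ ⊥ ∧
    Even (Nat.card (Subgroup.normalizer (Q : Set G)))}
  obtain ⟨Q₀, ⟨hQ₀pg, hQ₀ne, hQ₀ev⟩, hQ₀max⟩ :=
    Set.exists_max_image S (fun Q => Nat.card Q) (Set.toFinite S) ⟨Q, hQ, hQ1, hev⟩
  -- an involution in N(Q₀)
  obtain ⟨t', ht'⟩ := exists_prime_orderOf_dvd_card' 2 (even_iff_two_dvd.mp hQ₀ev)
  set t := (t' : G) with ht
  have hto : orderOf t = 2 := by rw [ht, Subgroup.orderOf_coe, ht']
  have htN : t ∈ Subgroup.normalizer (Q₀ : Set G) := t'.2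
  have htt : t * t = 1 := by
    have := pow_orderOf_eq_one t
    rw [hto, sq] at this
    exact this
  have hinv : t⁻¹ = t := inv_eq_of_mul_eq_one_right htt
  -- if an involution normalizes a subgroup, its normalizer has even order
  have hevenN : ∀ R : Subgroup G, t ∈ Subgroup.normalizer (R : Set G) →
      Even (Nat.card (Subgroup.normalizer (R : Set G))) := by
    intro R hR
    rw [even_iff_two_dvd, ← hto]
    exact Subgroup.orderOf_dvd_natCard _ hR
  -- t does not commute with nontrivial p-elements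
  have hnc : ∀ x : G, x ≠ 1 → (∃ k : ℕ, orderOf x = p ^ k) → ¬ Commute t x := by
    intro x hx1 hxp hcomm
    have h1 := hC x hx1 hxp
    have h2 : t ∈ Subgroup.centralizer ({x} : Set G) := by
      rw [Subgroup.mem_centralizer_iff]
      intro y hy
      rw [Set.mem_singleton_iff] at hy
      rw [hy]
      exact hcomm.eq.symm
    have h3 : 2 ∣ Nat.card (Subgroup.centralizer ({x} : Set G)) := by
      rw [← hto]
      exact Subgroup.orderOf_dvd_natCard _ h2
    exact (Nat.not_even_iff_odd.mpr h1) (even_iff_two_dvd.mpr h3)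
  have hpel : ∀ (R : Subgroup G), IsPGroup p R → ∀ x ∈ R, ∃ k : ℕ, orderOf x = p ^ k := by
    intro R hR x hx
    obtain ⟨k, hk⟩ := (IsPGroup.iff_orderOf.mp hR) ⟨x, hx⟩
    exact ⟨k, by rw [← hk, Subgroup.orderOf_mk]⟩
  -- t inverts Q₀
  have hconjQ : ∀ x ∈ Q₀, t * x * t⁻¹ ∈ Q₀ := fun x hx =>
    (Subgroup.mem_normalizer_iff.mp htN x).mp hx
  have hinvQ : ∀ x ∈ Q₀, t * x * t⁻¹ = x⁻¹ := by
    let ψ : Q₀ → Q₀ := fun x => ⟨(x : G)⁻¹ * (t * x * t⁻¹), Q₀.mul_mem (Q₀.inv_mem x.2) (hconjQ x x.2)⟩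
    have hψinj : Function.Injective ψ := by
      intro x y hxy
      have h1 : (x : G)⁻¹ * (t * x * t⁻¹) = (y : G)⁻¹ * (t * y * t⁻¹) := congrArg Subtype.val hxy
      have h2 : Commute t ((y : G) * (x : G)⁻¹) := by
        show t * ((y : G) * (x : G)⁻¹) = (y : G) * (x : G)⁻¹ * t
        have e1 : (y : G) * (x : G)⁻¹ * t = (y : G) * ((x : G)⁻¹ * (t * x * t⁻¹)) * t * (x : G)⁻¹ := by
          group
        rw [e1, h1]
        group
      by_contra hne
      have h3 : (y : G) * (x : G)⁻¹ ≠ 1 := by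
        intro h
        apply hne
        apply Subtype.ext
        have := mul_inv_eq_one.mp h
        exact this.symm
      exact hnc _ h3 (hpel Q₀ hQ₀pg _ (Q₀.mul_mem y.2 (Q₀.inv_mem x.2))) h2
    have hψsurj : Function.Surjective ψ := Finite.surjective_of_injective hψinj
    intro z hz
    obtain ⟨x, hx⟩ := hψsurj ⟨z, hz⟩
    have hz' : z = (x : G)⁻¹ * (t * x * t⁻¹) := (congrArg Subtype.val hx).symm
    rw [hz', hinv]
    calc t * ((x : G)⁻¹ * (t * x * t)) * t = t * (x : G)⁻¹ * t * x * (t * t) := by group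
      _ = t * (x : G)⁻¹ * t * x := by rw [htt, mul_one]
      _ = t⁻¹ * (x : G)⁻¹ * t⁻¹ * x := by rw [hinv]
      _ = ((x : G)⁻¹ * (t * x * t))⁻¹ := by group
  -- the centralizer of Q₀
  obtain ⟨x₀, hx₀1⟩ := (Subgroup.ne_bot_iff_exists_ne_one.mp hQ₀ne)
  have hCodd : Odd (Nat.card (Subgroup.centralizer (Q₀ : Set G))) := by
    have h1 := hC (x₀ : G) (fun h => hx₀1 (Subtype.ext h)) (hpel Q₀ hQ₀pg _ x₀.2)
    have h2 : Subgroup.centralizer (Q₀ : Set G) ≤ Subgroup.centralizer ({(x₀ : G)} : Set G) :=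
      Subgroup.centralizer_le (Set.singleton_subset_iff.mpr x₀.2)
    have h3 := Subgroup.card_dvd_of_le h2
    exact Odd.of_dvd_nat h1 h3
  have htC : t ∈ Subgroup.normalizer ((Subgroup.centralizer (Q₀ : Set G) : Subgroup G) : Set G) := by
    apply mem_normalizer_of_invol t htt
    intro c hc
    rw [Subgroup.mem_centralizer_iff] at hc ⊢
    intro x hx
    have h1 := hc (t⁻¹ * x * t) (by
      have := hconjQ x hx
      rw [hinv] at this ⊢
      exact this)
    calc x * (t * c * t⁻¹) = t * ((t⁻¹ * x * t) * c) * t⁻¹ := by group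
      _ = t * (c * (t⁻¹ * x * t)) * t⁻¹ := by rw [h1]
      _ = t * c * t⁻¹ * x := by group
  obtain ⟨R₀, hR₀C, hR₀pg, hR₀idx, htR₀⟩ :=
    exists_invariant_sylow_of_odd _ hCodd t htt htC p
  -- R₀ ≤ Q₀ by maximality
  have hR₀Q : R₀ ≤ Q₀ := by
    have hnorm : R₀ ≤ Subgroup.normalizer (Q₀ : Set G) :=
      hR₀C.trans (Subgroup.centralizer_le_normalizer _)
    have hsup_pg : IsPGroup p (R₀ ⊔ Q₀ : Subgroup G) := IsPGroup.to_sup_of_normal_right' hR₀pg hQ₀pg hnorm
    have hsup_ne : R₀ ⊔ Q₀ ≠ ⊥ := by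
      intro h
      apply hQ₀ne
      rw [eq_bot_iff, ← h]
      exact le_sup_right
    have hsup_t : t ∈ Subgroup.normalizer ((R₀ ⊔ Q₀ : Subgroup G) : Set G) := by
      apply mem_normalizer_of_invol t htt
      intro k hk
      have h1 : (R₀ ⊔ Q₀ : Subgroup G) ≤ (R₀ ⊔ Q₀ : Subgroup G).comap (MulAut.conj t).toMonoidHom := by
        apply sup_le
        · intro r hr
          exact Subgroup.mem_sup_left ((Subgroup.mem_normalizer_iff.mp htR₀ r).mp hr)
        · intro r hr
          exact Subgroup.mem_sup_right (hconjQ r hr)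
      exact h1 hk
    have hmax := hQ₀max (R₀ ⊔ Q₀) ⟨hsup_pg, hsup_ne, hevenN _ hsup_t⟩
    have heq : Q₀ = R₀ ⊔ Q₀ := Subgroup.eq_of_le_of_card_ge le_sup_right hmax
    rw [heq]
    exact le_sup_left
  -- a Sylow p-subgroup containing Q₀ and a central element
  obtain ⟨P₁, hP₁⟩ := hQ₀pg.exists_le_sylow
  have hP₁nt : Nontrivial (P₁ : Subgroup G) := by
    refine ⟨⟨⟨x₀, hP₁ x₀.2⟩, 1, ?_⟩⟩
    intro h
    apply hx₀1
    apply Subtype.ext
    have h' : ((⟨(x₀ : G), hP₁ x₀.2⟩ : (P₁ : Subgroup G)) : G) = ((1 : (P₁ : Subgroup G)) : G) := by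
      rw [h]
    exact h'
  have hcnt := P₁.isPGroup'.center_nontrivial
  obtain ⟨⟨z', hz'c⟩, hz'1⟩ := exists_ne (1 : Subgroup.center (P₁ : Subgroup G))
  have hz'1' : (z' : G) ≠ 1 := by
    intro h
    apply hz'1
    apply Subtype.ext
    apply Subtype.ext
    exact h
  set z := (z' : G) with hz
  have hzcomm : ∀ y ∈ (P₁ : Subgroup G), y * z = z * y := by
    intro y hy
    have := (Subgroup.mem_center_iff.mp hz'c) ⟨y, hy⟩
    exact congrArg Subtype.val this
  have hzC : z ∈ Subgroup.centralizer (Q₀ : Set G) := by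
    rw [Subgroup.mem_centralizer_iff]
    intro y hy
    exact hzcomm y (hP₁ hy)
  have hzp : ∃ k : ℕ, orderOf z = p ^ k := hpel P₁ P₁.isPGroup' z z'.2
  -- z ∈ R₀
  have hzR₀ : z ∈ R₀ := by
    have hZpg : IsPGroup p (Subgroup.zpowers z) := by
      obtain ⟨k, hk⟩ := hzp
      exact IsPGroup.of_card (n := k) (by rw [Nat.card_zpowers, hk])
    have hZn : Subgroup.zpowers z ≤ Subgroup.normalizer (R₀ : Set G) := by
      rw [Subgroup.zpowers_le]
      apply (Subgroup.centralizer_le_normalizer (R₀ : Set G))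
      rw [Subgroup.mem_centralizer_iff]
      intro y hy
      exact hzcomm y (hP₁ (hR₀Q hy))
    have hsup_pg : IsPGroup p (Subgroup.zpowers z ⊔ R₀ : Subgroup G) :=
      IsPGroup.to_sup_of_normal_right' hZpg hR₀pg hZn
    have hle := pgroup_le_of_not_dvd_relIndex hsup_pg le_sup_right
      (sup_le (Subgroup.zpowers_le.mpr hzC) hR₀C) hR₀idx
    exact hle (Subgroup.mem_sup_left (Subgroup.mem_zpowers z))
  have hzQ : z ∈ Q₀ := hR₀Q hzR₀
  -- the centralizer of z
  have hCzodd := hC z hz'1' hzp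
  have htz : t * z * t⁻¹ = z⁻¹ := hinvQ z hzQ
  have htCz : t ∈ Subgroup.normalizer ((Subgroup.centralizer ({z} : Set G) : Subgroup G) : Set G) := by
    apply mem_normalizer_of_invol t htt
    intro c hc
    rw [Subgroup.mem_centralizer_iff] at hc ⊢
    intro y hy
    rw [Set.mem_singleton_iff] at hy
    rw [hy]
    have h1 := hc z (Set.mem_singleton z)
    have h2 : t⁻¹ * z * t = z⁻¹ := by
      rw [hinv] at htz ⊢
      exact htz
    have h3 : z⁻¹ * c = c * z⁻¹ := by
      calc z⁻¹ * c = z⁻¹ * (c * z) * z⁻¹ := by group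
        _ = z⁻¹ * (z * c) * z⁻¹ := by rw [h1]
        _ = c * z⁻¹ := by group
    calc z * (t * c * t⁻¹) = t * ((t⁻¹ * z * t) * c) * t⁻¹ := by group
      _ = t * (c * (t⁻¹ * z * t)) * t⁻¹ := by rw [h2, h3]
      _ = t * c * t⁻¹ * z := by group
  obtain ⟨R, hRC, hRpg, hRidx, htR⟩ :=
    exists_invariant_sylow_of_odd _ hCzodd t htt htCz p
  -- R is a Sylow p-subgroup of G
  have hP₁C : (P₁ : Subgroup G) ≤ Subgroup.centralizer ({z} : Set G) := by
    intro y hy
    rw [Subgroup.mem_centralizer_iff]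
    intro w hw
    rw [Set.mem_singleton_iff] at hw
    rw [hw]
    exact (hzcomm y hy).symm
  have hRindex : ¬ p ∣ R.index := by
    rw [← Subgroup.relIndex_mul_index hRC]
    intro hd
    rcases (Nat.Prime.dvd_mul hp).mp hd with h | h
    · exact hRidx h
    · exact P₁.not_dvd_index (h.trans (Subgroup.index_dvd_of_le hP₁C))
  set R' : Sylow p G := hRpg.toSylow hRindex with hR'
  have hR'coe : (R' : Subgroup G) = R := IsPGroup.toSylow_coe hRpg hRindex
  have hevR : Even (Nat.card (Subgroup.normalizer ((R' : Subgroup G) : Set G))) := by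
    rw [hR'coe]
    exact hevenN R htR
  -- transfer to P
  have hidx : (Subgroup.normalizer ((P : Subgroup G) : Set G)).index =
      (Subgroup.normalizer ((R' : Subgroup G) : Set G)).index := by
    exact (Sylow.card_eq_index_normalizer P).symm.trans (Sylow.card_eq_index_normalizer R')
  have hc1 := Subgroup.card_mul_index (Subgroup.normalizer ((P : Subgroup G) : Set G))
  have hc2 := Subgroup.card_mul_index (Subgroup.normalizer ((R' : Subgroup G) : Set G))
  rw [hidx, ← hc2] at hc1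
  have hpos : 0 < (Subgroup.normalizer ((R' : Subgroup G) : Set G)).index :=
    Nat.pos_of_ne_zero (Subgroup.index_ne_zero_of_finite)
  rw [Nat.eq_of_mul_eq_mul_right hpos hc1]
  exact hevR

end Cfsg.Agent.S3982
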