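import Cfsg.Statements.S3983
import Mathlib

set_option autoImplicit false
open Cfsg
open scoped Pointwise

namespace Cfsg.Agent.S3983

theorem mem_conj_smul {G : Type*} [Group G] (H : Subgroup G) (g x : G) :
    x ∈ MulAut.conj g • H ↔ g⁻¹ * x * g ∈ H := by
  rw [Subgroup.mem_pointwise_smul_iff_inv_smul_mem]
  have e2 : (MulAut.conj g)⁻¹ • x = g⁻¹ * x * g := by
    rw [← map_inv, MulAut.smul_def, MulAut.conj_apply, inv_inv]
  rw [e2]

/-- the TI property passes to conjugates -/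
theorem ti_conj {G : Type*} [Group G] [Finite G] (p : ℕ) [Fact p.Prime] (P : Sylow p G)
    (hTI : ∀ g : G, g ∉ Subgroup.normalizer ((P : Subgroup G) : Set G) →
      (P : Subgroup G) ⊓ (MulAut.conj g • (P : Subgroup G)) = ⊥) (h : G) :
    ∀ g : G, g ∉ Subgroup.normalizer (((h • P : Sylow p G) : Subgroup G) : Set G) →
      ((h • P : Sylow p G) : Subgroup G) ⊓ (MulAut.conj g • ((h • P : Sylow p G) : Subgroup G)) = ⊥ := by
  intro g hg
  have hg' : h⁻¹ * g * h ∉ Subgroup.normalizer ((P : Subgroup G) : Set G) := by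
    intro hn
    apply hg
    rw [Sylow.coe_coe, ← Sylow.smul_eq_iff_mem_normalizer] at hn ⊢
    rw [← mul_smul]
    have e : g * h = h * (h⁻¹ * g * h) := by group
    rw [e, mul_smul, hn]
  have hti := hTI _ hg'
  rw [eq_bot_iff]
  intro x hx
  rw [Subgroup.mem_bot]
  obtain ⟨hx1, hx2⟩ := Subgroup.mem_inf.mp hx
  rw [mem_conj_smul] at hx2
  rw [Sylow.coe_subgroup_smul, mem_conj_smul] at hx1 hx2
  have hz : h⁻¹ * x * h ∈ (P : Subgroup G) ⊓ (MulAut.conj (h⁻¹ * g * h) • (P : Subgroup G)) := by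
    refine Subgroup.mem_inf.mpr ⟨hx1, ?_⟩
    rw [mem_conj_smul]
    have e : (h⁻¹ * g * h)⁻¹ * (h⁻¹ * x * h) * (h⁻¹ * g * h) = h⁻¹ * (g⁻¹ * x * g) * h := by group
    rw [e]; exact hx2
  rw [hti, Subgroup.mem_bot] at hz
  have e : x = h * (h⁻¹ * x * h) * h⁻¹ := by group
  rw [e, hz]; group

/-- Let P be a Sylow p-subgroup of the finite group G that meets each conjugate g P g⁻¹ with g outside N_G(P) trivially, and let U be a subgroup of G of order divisible by p. Then a Sylow p-subgroup Q of U has the same property inside U: Q meets each conjugate u Q u⁻¹ with u ∈ U outside N_U(Q) trivially. -/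
theorem result {G : Type*} [Group G] [Finite G] (p : ℕ) [Fact p.Prime] (P : Sylow p G) (hTI : ∀ g : G, g ∉ Subgroup.normalizer ((P : Subgroup G) : Set G) → (P : Subgroup G) ⊓ (MulAut.conj g • (P : Subgroup G)) = ⊥) (U : Subgroup G) (hU : p ∣ Nat.card ↥U) (Q : Sylow p ↥U) : ∀ u : ↥U, u ∉ Subgroup.normalizer ((Q : Subgroup ↥U) : Set ↥U) → (Q : Subgroup ↥U) ⊓ (MulAut.conj u • (Q : Subgroup ↥U)) = ⊥ := by
  intro u hu
  have hQ' : IsPGroup p ((Q : Subgroup U).map U.subtype) := Q.isPGroup'.map _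
  obtain ⟨P₁, hP₁⟩ := hQ'.exists_le_sylow
  obtain ⟨h, rfl⟩ := MulAction.exists_smul_eq G P P₁
  have hti := ti_conj p P hTI h
  -- Q is the set of elements of U lying in h • P
  have hQeq : (((h • P : Sylow p G) : Subgroup G).subgroupOf U) = (Q : Subgroup U) := by
    apply Q.3 ((h • P : Sylow p G).isPGroup'.comap_subtype)
    intro y hy
    show y ∈ ((h • P : Sylow p G) : Subgroup G).subgroupOf U
    rw [Subgroup.mem_subgroupOf]
    exact hP₁ ⟨y, hy, rfl⟩
  have hmem : ∀ y : U, y ∈ (Q : Subgroup U) ↔ (y : G) ∈ ((h • P : Sylow p G) : Subgroup G) := by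
    intro y
    rw [← hQeq, Subgroup.mem_subgroupOf]
  by_cases hun : (u : G) ∈ Subgroup.normalizer (((h • P : Sylow p G) : Subgroup G) : Set G)
  · exfalso
    apply hu
    rw [Subgroup.mem_set_normalizer_iff]
    intro y
    rw [Subgroup.mem_set_normalizer_iff] at hun
    have h1 := hun (y : G)
    rw [SetLike.mem_coe, SetLike.mem_coe] at h1 ⊢
    rw [hmem, hmem]
    exact h1
  · have h2 := hti (u : G) hun
    rw [eq_bot_iff]
    intro x hx
    rw [Subgroup.mem_bot]
    obtain ⟨hx1, hx2⟩ := Subgroup.mem_inf.mp hx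
    rw [mem_conj_smul] at hx2
    rw [hmem] at hx1 hx2
    have hx3 : (x : G) ∈ ((h • P : Sylow p G) : Subgroup G) ⊓
        (MulAut.conj (u : G) • ((h • P : Sylow p G) : Subgroup G)) := by
      refine Subgroup.mem_inf.mpr ⟨hx1, ?_⟩
      rw [mem_conj_smul]
      exact hx2
    rw [h2, Subgroup.mem_bot] at hx3
    exact Subtype.ext hx3

end Cfsg.Agent.S3983
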