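import Cfsg.Statements.S3984
import Mathlib
import Cfsg.Agent.Lib.Helper6.Conj
import Cfsg.Agent.Lib.Helper6.SylowSub
-- import your own Cfsg.Agent.* helpers here

set_option autoImplicit false
open scoped Pointwise
open Cfsg

namespace Cfsg.Agent.S3984

open Cfsg.Agent.Lib.Helper6

theorem mem_conj_smul {G : Type*} [Group G] (a z : G) (S : Subgroup G) :
    z ∈ MulAut.conj a • S ↔ a⁻¹ * z * a ∈ S := by
  rw [Subgroup.mem_pointwise_smul_iff_inv_smul_mem, ← map_inv, MulAut.smul_def, MulAut.conj_apply,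
    inv_inv]

/-- order of a `p`-element modulo a normal `p'`-subgroup -/
theorem orderOf_mk_eq {G : Type*} [Group G] [Finite G] (p : ℕ) [Fact p.Prime]
    (N : Subgroup G) [N.Normal] (hN : (Nat.card ↥N).Coprime p) (y : G) (k : ℕ)
    (hy : orderOf y = p ^ k) : orderOf (QuotientGroup.mk' N y) = orderOf y := by
  apply Nat.dvd_antisymm (orderOf_map_dvd _ y)
  apply orderOf_dvd_of_pow_eq_one
  set m := orderOf (QuotientGroup.mk' N y) with hm
  have h1 : y ^ m ∈ N := by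
    rw [← QuotientGroup.ker_mk' N, MonoidHom.mem_ker, map_pow]
    exact pow_orderOf_eq_one _
  have h2 : orderOf (y ^ m) ∣ Nat.card N := Subgroup.orderOf_dvd_natCard N h1
  have h3 : orderOf (y ^ m) ∣ p ^ k := by
    rw [← hy]
    exact orderOf_pow_dvd m
  have h4 : Nat.Coprime (Nat.card N) (p ^ k) := Nat.Coprime.pow_right k hN
  have h5 : orderOf (y ^ m) = 1 := Nat.eq_one_of_dvd_coprimes h4 h2 h3
  exact orderOf_eq_one_iff.mp h5


/-- Let P be a Sylow p-subgroup of the finite group G that meets each conjugate g P g⁻¹ with g outside N_G(P) trivially, and let N be a normal subgroup of G of order prime to p. Then every Sylow p-subgroup Q of G ⧸ N meets each conjugate x Q x⁻¹ with x outside its normalizer trivially. -/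
theorem result {G : Type*} [Group G] [Finite G] (p : ℕ) [Fact p.Prime] (P : Sylow p G) (hTI : ∀ g : G, g ∉ Subgroup.normalizer ((P : Subgroup G) : Set G) → (P : Subgroup G) ⊓ (MulAut.conj g • (P : Subgroup G)) = ⊥) (N : Subgroup G) [N.Normal] (hN : (Nat.card ↥N).Coprime p) (Q : Sylow p (G ⧸ N)) : ∀ x : G ⧸ N, x ∉ Subgroup.normalizer ((Q : Subgroup (G ⧸ N)) : Set (G ⧸ N)) → (Q : Subgroup (G ⧸ N)) ⊓ (MulAut.conj x • (Q : Subgroup (G ⧸ N))) = ⊥ := by
  have hp : p.Prime := Fact.out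
  -- TI in conjugation-invariant form
  have ti : ∀ a b z : G, z ≠ 1 → a⁻¹ * z * a ∈ (P : Subgroup G) → b⁻¹ * z * b ∈ (P : Subgroup G) →
      a⁻¹ * b ∈ Subgroup.normalizer ((P : Subgroup G) : Set G) := by
    intro a b z hz ha hb
    by_contra hnot
    have h1 := hTI (a⁻¹ * b) hnot
    have h2 : a⁻¹ * z * a ∈ (P : Subgroup G) ⊓ (MulAut.conj (a⁻¹ * b) • (P : Subgroup G)) := by
      refine Subgroup.mem_inf.mpr ⟨ha, ?_⟩
      rw [mem_conj_smul]
      have e : (a⁻¹ * b)⁻¹ * (a⁻¹ * z * a) * (a⁻¹ * b) = b⁻¹ * z * b := by group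
      rw [e]
      exact hb
    rw [h1, Subgroup.mem_bot] at h2
    apply hz
    have e : z = a * (a⁻¹ * z * a) * a⁻¹ := by group
    rw [e, h2]
    group
  set π := QuotientGroup.mk' N with hπdef
  have hπ : Function.Surjective π := QuotientGroup.mk'_surjective N
  obtain ⟨P₁, hP₁⟩ := Sylow.mapSurjective_surjective hπ p Q
  have hQ : (Q : Subgroup (G ⧸ N)) = (P₁ : Subgroup G).map π := by
    rw [← hP₁]
    rfl
  obtain ⟨g₀, hg₀⟩ := MulAction.exists_smul_eq G P P₁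
  have hP₁' : ∀ z : G, z ∈ (P₁ : Subgroup G) ↔ g₀⁻¹ * z * g₀ ∈ (P : Subgroup G) := by
    intro z
    rw [← hg₀, Sylow.smul_def, Sylow.pointwise_smul_def, mem_conj_smul]
  -- TI for P₁
  have ti₁ : ∀ a b z : G, z ≠ 1 → a⁻¹ * z * a ∈ (P₁ : Subgroup G) → b⁻¹ * z * b ∈ (P₁ : Subgroup G) →
      a⁻¹ * b ∈ Subgroup.normalizer ((P₁ : Subgroup G) : Set G) := by
    intro a b z hz ha hb
    rw [hP₁'] at ha hb
    have h1 := ti (a * g₀) (b * g₀) z hz (by
      have e : (a * g₀)⁻¹ * z * (a * g₀) = g₀⁻¹ * (a⁻¹ * z * a) * g₀ := by group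
      rw [e]; exact ha) (by
      have e : (b * g₀)⁻¹ * z * (b * g₀) = g₀⁻¹ * (b⁻¹ * z * b) * g₀ := by group
      rw [e]; exact hb)
    rw [Subgroup.mem_normalizer_iff] at h1 ⊢
    intro h
    rw [hP₁', hP₁']
    have h2 := h1 (g₀⁻¹ * h * g₀)
    have e : (a * g₀)⁻¹ * (b * g₀) * (g₀⁻¹ * h * g₀) * ((a * g₀)⁻¹ * (b * g₀))⁻¹ =
        g₀⁻¹ * (a⁻¹ * b * h * (a⁻¹ * b)⁻¹) * g₀ := by group
    rw [e] at h2
    exact h2
  intro x hx
  by_contra hne
  obtain ⟨⟨u, hu⟩, hu1⟩ := (Subgroup.ne_bot_iff_exists_ne_one.mp hne)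
  have hu' : u ≠ 1 := fun h => hu1 (Subtype.ext h)
  obtain ⟨huQ, huQx⟩ := Subgroup.mem_inf.mp hu
  clear hu1 hu
  obtain ⟨g, rfl⟩ := hπ x
  rw [hQ] at huQ
  obtain ⟨a, haP, hau⟩ := huQ
  rw [mem_conj_smul, hQ] at huQx
  obtain ⟨b, hbP, hbu⟩ := huQx
  set c := g * b * g⁻¹ with hc
  have hcu : π c = u := by
    rw [hc, map_mul, map_mul, hbu, map_inv]
    group
  have ha1 : a ≠ 1 := by
    intro h
    rw [h, map_one] at hau
    exact hu' hau.symm
  have hc1 : c ≠ 1 := by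
    intro h
    rw [h, map_one] at hcu
    exact hu' hcu.symm
  -- orders
  obtain ⟨ka, hka⟩ := (IsPGroup.iff_orderOf.mp P₁.isPGroup') ⟨a, haP⟩
  rw [← Subgroup.orderOf_coe] at hka
  obtain ⟨kb, hkb⟩ := (IsPGroup.iff_orderOf.mp P₁.isPGroup') ⟨b, hbP⟩
  rw [← Subgroup.orderOf_coe] at hkb
  have hkc : orderOf c = p ^ kb := by
    rw [hc, ← hkb]
    exact (MulAut.conj g).orderOf_eq b
  have hoa : orderOf (π a) = orderOf a := orderOf_mk_eq p N hN a ka hka
  have hoc : orderOf (π c) = orderOf c := orderOf_mk_eq p N hN c kb hkc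
  have hac : orderOf c = orderOf a := by
    rw [← hoa, ← hoc, hau, hcu]
  -- Sylow conjugacy in ⟨a⟩N
  have hacN : a⁻¹ * c ∈ N := by
    rw [← QuotientGroup.eq]
    exact hau.trans hcu.symm
  have hcH : Subgroup.zpowers c ≤ Subgroup.zpowers a ⊔ N := by
    rw [Subgroup.zpowers_le]
    have e : c = a * (a⁻¹ * c) := by group
    rw [e]
    exact Subgroup.mul_mem _ (Subgroup.mem_sup_left (Subgroup.mem_zpowers a))
      (Subgroup.mem_sup_right hacN)
  have hidx : ¬ p ∣ (Subgroup.zpowers a).relIndex (Subgroup.zpowers a ⊔ N) := by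
    intro hd
    have h1 := hd.trans (relIndex_sup_normal_dvd (Subgroup.zpowers a) N)
    have h2 : p ∣ Nat.gcd (Nat.card N) p := Nat.dvd_gcd h1 dvd_rfl
    rw [hN] at h2
    exact hp.one_lt.ne' (Nat.dvd_one.mp h2)
  obtain ⟨h, hh, hconj⟩ := exists_conj_of_sylow_in_subgroup (p := p) (Subgroup.zpowers a ⊔ N)
    (Subgroup.zpowers a) (Subgroup.zpowers c) le_sup_left hcH
    (IsPGroup.of_card (n := ka) (by rw [Nat.card_zpowers, hka]))
    (IsPGroup.of_card (n := kb) (by rw [Nat.card_zpowers, hkc])) hidx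
    (by rw [Nat.card_zpowers, Nat.card_zpowers, hac])
  have hh' : h ∈ ((N ⊔ Subgroup.zpowers a : Subgroup G) : Set G) := by
    rw [sup_comm]
    exact hh
  rw [Subgroup.normal_mul] at hh'
  obtain ⟨n, hn, a', ha', rfl⟩ := Set.mem_mul.mp hh'
  have h3 : (n * a')⁻¹ * c * (n * a') ∈ Subgroup.zpowers a := by
    rw [← mem_map_conj, ← hconj]
    exact Subgroup.mem_zpowers c
  have h4 : n⁻¹ * c * n ∈ Subgroup.zpowers a := by
    have e : n⁻¹ * c * n = a' * ((n * a')⁻¹ * c * (n * a')) * a'⁻¹ := by group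
    rw [e]
    exact Subgroup.mul_mem _ (Subgroup.mul_mem _ ha' h3) (Subgroup.inv_mem _ ha')
  have h5 : n⁻¹ * c * n ∈ (P₁ : Subgroup G) :=
    (Subgroup.zpowers_le.mpr haP) h4
  have h6 : g⁻¹ * c * g ∈ (P₁ : Subgroup G) := by
    have e : g⁻¹ * c * g = b := by rw [hc]; group
    rw [e]
    exact hbP
  have h7 := ti₁ n g c hc1 h5 h6
  apply hx
  have h8 : π (n⁻¹ * g) ∈ Subgroup.normalizer (((P₁ : Subgroup G).map π : Subgroup (G ⧸ N)) : Set (G ⧸ N)) :=
    Subgroup.le_normalizer_map π ⟨_, h7, rfl⟩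
  have h9 : π (n⁻¹ * g) = π g := by
    rw [map_mul, map_inv]
    have : π n = 1 := by
      rw [← MonoidHom.mem_ker, QuotientGroup.ker_mk']
      exact hn
    rw [this, inv_one, one_mul]
  rw [h9, ← hQ] at h8
  exact h8

end Cfsg.Agent.S3984
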