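import Cfsg.Statements.S3985
import Mathlib
import Cfsg.Agent.Lib.Helper1.Basic
import Cfsg.Agent.Lib.Lead.SZ
-- import your own Cfsg.Agent.* helpers here

set_option autoImplicit false
open scoped Pointwise
open Cfsg

namespace Cfsg.Agent.S3985


theorem aut_pow_eq_one {P₀ : Type*} [Group P₀] [Finite P₀] [IsCyclic P₀] {p : ℕ} [Fact p.Prime] (n : ℕ)
    (hcard : Nat.card P₀ = p ^ n) (σ : MulAut P₀) (x : P₀) (hx : x ≠ 1) (hfix : σ x = x) :
    σ ^ (p ^ n) = 1 := by
  obtain ⟨u, hu⟩ := IsCyclic.exists_generator (α := P₀)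
  have hou : orderOf u = p ^ n := by rw [orderOf_eq_card_of_forall_mem_zpowers hu, hcard]
  obtain ⟨j, hj⟩ : ∃ j : ℕ, σ u = u ^ j := by
    have : σ u ∈ Submonoid.powers u := (mem_powers_iff_mem_zpowers).mpr (hu (σ u))
    obtain ⟨j, hj⟩ := this
    exact ⟨j, hj.symm⟩
  obtain ⟨i, hi⟩ : ∃ i : ℕ, x = u ^ i := by
    have : x ∈ Submonoid.powers u := (mem_powers_iff_mem_zpowers).mpr (hu x)
    obtain ⟨i, hi⟩ := this
    exact ⟨i, hi.symm⟩
  have hpow : ∀ m : ℕ, (σ ^ m) u = u ^ (j ^ m) := by
    intro m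
    induction m with
    | zero => simp
    | succ m ih => rw [pow_succ, MulAut.mul_apply, hj, map_pow, ih, ← pow_mul, ← pow_succ]
  have hmod : j * i ≡ i [MOD p ^ n] := by
    rw [← hou, ← pow_eq_pow_iff_modEq]
    rw [hi, map_pow, hj, ← pow_mul] at hfix
    exact hfix
  have hni : ¬ p ^ n ∣ i := by
    intro h
    apply hx
    rw [hi]
    rw [← hou] at h
    exact orderOf_dvd_iff_pow_eq_one.mp h
  have hpj : (p : ℤ) ∣ (j : ℤ) - 1 := by
    by_contra hnd
    have hprime : Prime (p : ℤ) := Nat.prime_iff_prime_int.mp Fact.out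
    have hcop : IsCoprime ((p : ℤ) ^ n) ((j : ℤ) - 1) :=
      IsCoprime.pow_left ((Prime.coprime_iff_not_dvd hprime).mpr hnd)
    have h2 : (p : ℤ) ^ n ∣ (i : ℤ) * ((j : ℤ) - 1) := by
      have h := (Nat.modEq_iff_dvd).mp hmod
      push_cast at h
      have e : (i : ℤ) * ((j : ℤ) - 1) = -((i : ℤ) - (j : ℤ) * i) := by ring
      rw [e]
      exact (dvd_neg.mpr h)
    have h3 := hcop.dvd_of_dvd_mul_right h2
    apply hni
    have h4 : ((p ^ n : ℕ) : ℤ) ∣ (i : ℤ) := by
      push_cast
      exact h3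
    exact Int.natCast_dvd_natCast.mp h4
  have hu1 : (σ ^ (p ^ n)) u = u := by
    rw [hpow]
    have h3 := dvd_sub_pow_of_dvd_sub hpj n
    rw [one_pow] at h3
    have h4 : 1 ≡ j ^ (p ^ n) [MOD orderOf u] := by
      rw [hou]
      apply (Nat.modEq_iff_dvd).mpr
      push_cast
      exact Dvd.dvd.trans (pow_dvd_pow (p : ℤ) (Nat.le_succ n)) h3
    have h5 := (pow_eq_pow_iff_modEq).mpr h4
    rw [pow_one] at h5
    exact h5.symm
  ext a
  obtain ⟨k, rfl⟩ := Subgroup.mem_zpowers_iff.mp (hu a)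
  rw [map_zpow, hu1]
  rfl

theorem cyc_comm {G : Type*} [Group G] (P₀ : Subgroup G) (h : IsCyclic ↥P₀) (a b : G) (ha : a ∈ P₀)
    (hb : b ∈ P₀) : a * b = b * a := by
  obtain ⟨u, hu⟩ := h.exists_generator
  obtain ⟨i, hi⟩ := Subgroup.mem_zpowers_iff.mp (hu ⟨a, ha⟩)
  obtain ⟨j, hj⟩ := Subgroup.mem_zpowers_iff.mp (hu ⟨b, hb⟩)
  have hi' : (u : G) ^ i = a := by
    have := congrArg Subtype.val hi
    simpa using this
  have hj' : (u : G) ^ j = b := by
    have := congrArg Subtype.val hj
    simpa using this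
  rw [← hi', ← hj', ← zpow_add, ← zpow_add, add_comm]

/-- Let P be a cyclic Sylow p-subgroup of the finite group G. Then P meets each conjugate g P g⁻¹ with g outside N_G(P) trivially if and only if P is weakly self-centralizing: C_G(x) = C_G(P) for every non-identity x ∈ P. -/
theorem result {G : Type*} [Group G] [Finite G] (p : ℕ) [Fact p.Prime] (P : Sylow p G) (hcyc : IsCyclic ↥(P : Subgroup G)) : (∀ g : G, g ∉ Subgroup.normalizer ((P : Subgroup G) : Set G) → (P : Subgroup G) ⊓ (MulAut.conj g • (P : Subgroup G)) = ⊥) ↔ ∀ x : G, x ∈ (P : Subgroup G) → x ≠ 1 → Subgroup.centralizer ({x} : Set G) = Subgroup.centralizer ((P : Subgroup G) : Set G) := by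
  classical
  have hPC : (P : Subgroup G) ≤ Subgroup.centralizer ((P : Subgroup G) : Set G) := by
    intro a ha
    rw [Subgroup.mem_centralizer_iff]
    intro b hb
    exact cyc_comm _ hcyc b a hb ha
  have hCM : Subgroup.centralizer ((P : Subgroup G) : Set G) ≤
      Subgroup.normalizer ((P : Subgroup G) : Set G) := by
    intro c hc
    apply Cfsg.Agent.Lib.Helper1.mem_normalizer_of_finite
    intro n hn
    have h0 := (Subgroup.mem_centralizer_iff.mp hc) n hn
    have h' : c * n * c⁻¹ = n := by rw [← h0]; group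
    rw [h']; exact hn
  obtain ⟨n, hn⟩ := IsPGroup.iff_card.mp P.isPGroup'
  constructor
  · intro hTI x hxP hx1
    apply le_antisymm
    · intro c hc
      rw [Subgroup.mem_centralizer_singleton_iff] at hc
      have hcM : c ∈ Subgroup.normalizer ((P : Subgroup G) : Set G) := by
        by_contra hcon
        have h1 := hTI c hcon
        have h2 : x ∈ (P : Subgroup G) ⊓ (MulAut.conj c • (P : Subgroup G)) := by
          refine Subgroup.mem_inf.mpr ⟨hxP, ?_⟩
          rw [Cfsg.Agent.Lib.Helper1.mem_conj_smul]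
          have : c⁻¹ * x * c = x := by rw [mul_assoc, ← hc]; group
          rw [this]; exact hxP
        rw [h1, Subgroup.mem_bot] at h2
        exact hx1 h2
      set M := Subgroup.normalizer ((P : Subgroup G) : Set G) with hM
      set φ := (P : Subgroup G).normalizerMonoidHom with hφ
      set c' : ↥M := ⟨c, hcM⟩ with hc'
      have hfix : (φ c') ⟨x, hxP⟩ = ⟨x, hxP⟩ := by
        apply Subtype.ext
        show c * x * c⁻¹ = x
        rw [hc]; group
      have hx1' : (⟨x, hxP⟩ : ↥(P : Subgroup G)) ≠ 1 := fun h => hx1 (by simpa using congrArg Subtype.val h)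
      haveI := hcyc
      have hσ := aut_pow_eq_one n hn (φ c') ⟨x, hxP⟩ hx1' hfix
      set K := φ.ker with hK
      have h1 : c' ^ (p ^ n) ∈ K := by rw [hK, MonoidHom.mem_ker, map_pow, hσ]
      have h2 : c' ^ K.index ∈ K := Subgroup.pow_index_mem K c'
      have hKeq : K = (Subgroup.centralizer ((P : Subgroup G) : Set G)).subgroupOf M :=
        Subgroup.normalizerMonoidHom_ker _
      have hidx : ¬ p ∣ K.index := by
        rw [hKeq]
        show ¬ p ∣ (Subgroup.centralizer ((P : Subgroup G) : Set G)).relIndex M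
        have e1 := Subgroup.relIndex_mul_relIndex (P : Subgroup G) _ M hPC hCM
        have e2 := Subgroup.relIndex_mul_index (hPC.trans hCM)
        intro h4
        apply P.not_dvd_index
        rw [← e2, ← e1]
        exact Dvd.dvd.mul_right (Dvd.dvd.mul_left h4 _) _
      have hcop : Nat.Coprime (p ^ n) K.index :=
        Nat.Coprime.pow_left n ((Nat.Prime.coprime_iff_not_dvd Fact.out).mpr hidx)
      have hc'K : c' ∈ K := by
        have hb := Nat.gcd_eq_gcd_ab (p ^ n) K.index
        rw [hcop.gcd_eq_one] at hb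
        have : c' = (c' ^ (p ^ n)) ^ (Nat.gcdA (p ^ n) K.index) * (c' ^ K.index) ^ (Nat.gcdB (p ^ n) K.index) := by
          conv_lhs => rw [← zpow_one c', show (1 : ℤ) = ((1 : ℕ) : ℤ) by norm_num, hb]
          rw [zpow_add, zpow_mul, zpow_mul, zpow_natCast, zpow_natCast]
        rw [this]
        exact mul_mem (zpow_mem h1 _) (zpow_mem h2 _)
      have hc'K2 : c' ∈ (Subgroup.centralizer ((P : Subgroup G) : Set G)).subgroupOf M := by
        rw [← hKeq]; exact hc'K
      rw [Subgroup.mem_subgroupOf] at hc'K2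
      exact hc'K2
    · intro c hc
      rw [Subgroup.mem_centralizer_singleton_iff]
      exact ((Subgroup.mem_centralizer_iff.mp hc) x hxP).symm
  · intro hC g hg
    by_contra hne
    obtain ⟨⟨x, hx⟩, hx1⟩ := (Subgroup.ne_bot_iff_exists_ne_one).mp hne
    have hx1' : x ≠ 1 := fun h => hx1 (Subtype.ext h)
    have hxP := (Subgroup.mem_inf.mp hx).1
    have hxg := (Subgroup.mem_inf.mp hx).2
    rw [Cfsg.Agent.Lib.Helper1.mem_conj_smul] at hxg
    have hx'1 : g⁻¹ * x * g ≠ 1 := by
      intro h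
      apply hx1'
      have : x = g * (g⁻¹ * x * g) * g⁻¹ := by group
      rw [this, h]; group
    have e1 := hC x hxP hx1'
    have e2 := hC (g⁻¹ * x * g) hxg hx'1
    have hle : MulAut.conj g • (P : Subgroup G) ≤ Subgroup.centralizer ((P : Subgroup G) : Set G) := by
      intro a ha
      rw [Cfsg.Agent.Lib.Helper1.mem_conj_smul] at ha
      have h1 : g⁻¹ * a * g ∈ Subgroup.centralizer ({g⁻¹ * x * g} : Set G) := by
        rw [e2]; exact hPC ha
      rw [Subgroup.mem_centralizer_singleton_iff] at h1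
      rw [← e1, Subgroup.mem_centralizer_singleton_iff]
      have h2 := congrArg (fun w => g * w * g⁻¹) h1
      simpa [mul_assoc] using h2
    have hconjP : IsPGroup p ↥(MulAut.conj g • (P : Subgroup G)) :=
      IsPGroup.of_card (n := n) (by rw [Cfsg.Agent.Lib.Lead.card_conj_smul, hn])
    have hsup : IsPGroup p ↥((P : Subgroup G) ⊔ MulAut.conj g • (P : Subgroup G)) :=
      IsPGroup.to_sup_of_normal_left' P.isPGroup' hconjP (hle.trans hCM)
    have hPeq := P.is_maximal' hsup le_sup_left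
    apply hg
    apply Cfsg.Agent.Lib.Helper1.mem_normalizer_of_finite
    intro m hm
    have h1 : g * m * g⁻¹ ∈ MulAut.conj g • (P : Subgroup G) := by
      rw [Cfsg.Agent.Lib.Helper1.mem_conj_smul]
      have : g⁻¹ * (g * m * g⁻¹) * g = m := by group
      rw [this]; exact hm
    have h2 : g * m * g⁻¹ ∈ (P : Subgroup G) ⊔ MulAut.conj g • (P : Subgroup G) := Subgroup.mem_sup_right h1
    rw [hPeq] at h2
    exact h2

end Cfsg.Agent.S3985
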