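import Cfsg.Statements.S3986
import Mathlib
import Cfsg.Agent.Lib.Helper6.Coprime
import Cfsg.Agent.Lib.Helper6.Conj

set_option autoImplicit false
open Cfsg

namespace Cfsg.Agent.S3986

open Cfsg.Agent.Lib.Helper6

theorem orderOf_of_mem_sylow {G : Type*} [Group G] {p : ℕ} [Fact p.Prime] (P : Sylow p G) {x : G}
    (hx : x ∈ (P : Subgroup G)) : ∃ a : ℕ, orderOf x = p ^ a := by
  obtain ⟨k, hk⟩ := P.isPGroup' ⟨x, hx⟩
  have hk' : x ^ p ^ k = 1 := by
    have := congrArg Subtype.val hk
    simpa using this
  obtain ⟨j, -, hj⟩ := (Nat.dvd_prime_pow (Fact.out : p.Prime)).1 (orderOf_dvd_of_pow_eq_one hk')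
  exact ⟨j, hj⟩

/-- Let p be a prime and G a finite group. Then some Sylow p-subgroup of G is a direct factor of G (it is normal and has a normal complement) if and only if every element of p-power order commutes with every element whose order is a power of a prime other than p. -/
theorem result {G : Type*} [Group G] [Finite G] (p : ℕ) [Fact p.Prime] : (∃ (P : Sylow p G) (K : Subgroup G), (P : Subgroup G).Normal ∧ K.Normal ∧ (P : Subgroup G) ⊓ K = ⊥ ∧ (P : Subgroup G) ⊔ K = ⊤) ↔ ∀ x y : G, (∃ a : ℕ, orderOf x = p ^ a) → (∃ q b : ℕ, q.Prime ∧ q ≠ p ∧ orderOf y = q ^ b) → x * y = y * x := by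
  have hp : p.Prime := Fact.out
  constructor
  · rintro ⟨P, K, hPn, hKn, hdis, hsup⟩ x y ⟨a, hxa⟩ ⟨q, b, hq, hqp, hyb⟩
    -- x ∈ P
    have hxP : x ∈ (P : Subgroup G) := by
      have hpg : IsPGroup p (Subgroup.zpowers x) := IsPGroup.of_card (n := a) (by rw [Nat.card_zpowers, hxa])
      obtain ⟨Q, hQ⟩ := hpg.exists_le_sylow
      obtain ⟨g, rfl⟩ := MulAction.exists_smul_eq G P Q
      rw [Sylow.smul_eq_of_normal] at hQ
      exact hQ (Subgroup.mem_zpowers x)
    -- y ∈ K
    have hyK : y ∈ K := by
      have hy : y ∈ (P : Subgroup G) ⊔ K := by rw [hsup]; trivial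
      obtain ⟨u, hu, k, hk, rfl⟩ := Subgroup.mem_sup_of_normal_right.mp hy
      have hcomm : Commute u k :=
        Subgroup.commute_of_normal_of_disjoint _ _ hPn hKn (disjoint_iff.mpr hdis) u k hu hk
      have h1 : (u * k) ^ (q ^ b) = 1 := by rw [← hyb]; exact pow_orderOf_eq_one _
      rw [hcomm.mul_pow] at h1
      have h2 : u ^ (q ^ b) = (k ^ (q ^ b))⁻¹ := eq_inv_of_mul_eq_one_left h1
      have h3 : u ^ (q ^ b) ∈ (P : Subgroup G) ⊓ K :=
        ⟨Subgroup.pow_mem _ hu _, by rw [h2]; exact K.inv_mem (K.pow_mem hk _)⟩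
      rw [hdis, Subgroup.mem_bot] at h3
      obtain ⟨c, hc⟩ := orderOf_of_mem_sylow P hu
      have h4 : orderOf u ∣ q ^ b := orderOf_dvd_of_pow_eq_one h3
      have h5 : orderOf u ∣ Nat.gcd (p ^ c) (q ^ b) := Nat.dvd_gcd (by rw [hc]) h4
      have h6 : Nat.gcd (p ^ c) (q ^ b) = 1 :=
        Nat.Coprime.pow _ _ ((Nat.coprime_primes hp hq).mpr (Ne.symm hqp))
      rw [h6, Nat.dvd_one, orderOf_eq_one_iff] at h5
      rw [h5, one_mul]; exact hk
    exact (Subgroup.commute_of_normal_of_disjoint _ _ hPn hKn (disjoint_iff.mpr hdis) x y hxP hyK).eq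
  · intro hyp
    obtain ⟨P⟩ : Nonempty (Sylow p G) := inferInstance
    -- elements of order prime to p centralize P
    have hcent : ∀ h : G, (orderOf h).Coprime p → h ∈ Subgroup.centralizer ((P : Subgroup G) : Set G) := by
      intro h hcop
      apply mem_of_coprime_order p _ _ (orderOf h) h rfl hcop
      intro y hy
      rw [Subgroup.mem_centralizer_iff]
      intro x hx
      exact hyp x y (orderOf_of_mem_sylow P hx) hy
    -- P is normal
    have hPn : (P : Subgroup G).Normal := by
      rw [← Subgroup.normalizer_eq_top_iff, ← Subgroup.index_eq_one]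
      by_contra hne
      obtain ⟨q, hq, hqd⟩ := Nat.exists_prime_and_dvd hne
      by_cases hqp : q = p
      · subst hqp
        exact P.not_dvd_index (hqd.trans (Subgroup.index_dvd_of_le Subgroup.le_normalizer))
      · haveI : Fact q.Prime := ⟨hq⟩
        obtain ⟨Q⟩ : Nonempty (Sylow q G) := inferInstance
        have hQle : (Q : Subgroup G) ≤ Subgroup.normalizer ((P : Subgroup G) : Set G) := by
          intro y hy
          apply centralizer_le_normalizer'
          apply hcent
          obtain ⟨b, hb⟩ := orderOf_of_mem_sylow Q hy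
          rw [hb]
          exact Nat.Coprime.pow_left _ ((Nat.coprime_primes hq hp).mpr hqp)
        exact Q.not_dvd_index (hqd.trans (Subgroup.index_dvd_of_le hQle))
    -- complement
    obtain ⟨H, hH⟩ := Subgroup.exists_right_complement'_of_coprime (N := (P : Subgroup G)) P.card_coprime_index
    have hHcard : Nat.card H = (P : Subgroup G).index := by
      have h1 := hH.card_mul_card
      have h2 := Subgroup.card_mul_index (P : Subgroup G)
      have hpos : 0 < Nat.card (P : Subgroup G) := Nat.card_pos
      rw [← h2] at h1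
      exact Nat.eq_of_mul_eq_mul_left hpos h1
    have hHcent : H ≤ Subgroup.centralizer ((P : Subgroup G) : Set G) := by
      intro h hh
      apply hcent
      have h1 : orderOf h ∣ Nat.card H := by
        have := orderOf_dvd_natCard (⟨h, hh⟩ : H)
        rwa [Subgroup.orderOf_mk] at this
      rw [hHcard] at h1
      apply Nat.Coprime.coprime_dvd_left h1
      rw [Nat.coprime_comm, Nat.Prime.coprime_iff_not_dvd hp]
      exact P.not_dvd_index
    have hHn : H.Normal := by
      rw [← Subgroup.normalizer_eq_top_iff, eq_top_iff, ← hH.sup_eq_top, sup_le_iff]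
      refine ⟨?_, Subgroup.le_normalizer⟩
      intro x hx
      rw [Subgroup.mem_set_normalizer_iff]
      intro h
      have key : ∀ k ∈ H, x * k * x⁻¹ = k := by
        intro k hk
        have := hHcent hk
        rw [Subgroup.mem_centralizer_iff] at this
        rw [this x hx, mul_inv_cancel_right]
      constructor
      · intro hh
        rw [SetLike.mem_coe] at hh ⊢
        rw [key h hh]; exact hh
      · intro hh
        rw [SetLike.mem_coe] at hh ⊢
        have h2 : x * (x * h * x⁻¹) * x⁻¹ = x * h * x⁻¹ := key _ hh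
        have h3 : x * (x * h * x⁻¹) = x * h := by
          have := congrArg (· * x) h2
          simpa [mul_assoc] using this
        have h4 : x * h * x⁻¹ = h := mul_left_cancel h3
        rw [h4] at hh; exact hh
    exact ⟨P, H, hPn, hHn, hH.disjoint.eq_bot, hH.sup_eq_top⟩

end Cfsg.Agent.S3986
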