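import Cfsg.Statements.S3987
import Mathlib
import Cfsg.Agent.Lib.Helper6.SetMul
import Cfsg.Agent.Lib.Helper6.PiElts
import Cfsg.Agent.Lib.Helper1.ThompsonJ
import Cfsg.Agent.Lib.Helper6.Conj
-- import your own Cfsg.Agent.* helpers here

set_option autoImplicit false
open Cfsg

namespace Cfsg.Agent.S3987


open scoped Pointwise

theorem comm_of_index {G : Type*} [Group G] [Finite G] (x y : G)
    (h : (Subgroup.centralizer ({x * y} : Set G)).index = (Subgroup.centralizer ({x} : Set G)).index * (Subgroup.centralizer ({y} : Set G)).index) :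
    x * y = y * x := by
  have hle : Subgroup.centralizer ({x} : Set G) ⊓ Subgroup.centralizer ({y} : Set G) ≤ Subgroup.centralizer ({x * y} : Set G) := by
    intro g hg
    obtain ⟨h1, h2⟩ := Subgroup.mem_inf.mp hg
    rw [Subgroup.mem_centralizer_singleton_iff] at h1 h2 ⊢
    rw [← mul_assoc, h1, mul_assoc, h2, mul_assoc]
  have h1 := Subgroup.index_inf_le (H := Subgroup.centralizer ({x} : Set G)) (K := Subgroup.centralizer ({y} : Set G))
  have h2 := Subgroup.index_dvd_of_le hle
  have h3 : (Subgroup.centralizer ({x} : Set G) ⊓ Subgroup.centralizer ({y} : Set G)).index = (Subgroup.centralizer ({x * y} : Set G)).index := by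
    apply le_antisymm
    · rw [h]; exact h1
    · exact Nat.le_of_dvd (Nat.pos_of_ne_zero Subgroup.index_ne_zero_of_finite) h2
  have h4 : Subgroup.centralizer ({x} : Set G) ⊓ Subgroup.centralizer ({y} : Set G) = Subgroup.centralizer ({x * y} : Set G) := by
    apply Subgroup.eq_of_le_of_card_ge hle
    have e1 := Subgroup.index_mul_card (Subgroup.centralizer ({x} : Set G) ⊓ Subgroup.centralizer ({y} : Set G))
    have e2 := Subgroup.index_mul_card (Subgroup.centralizer ({x * y} : Set G))
    rw [h3] at e1
    have hpos : 0 < (Subgroup.centralizer ({x * y} : Set G)).index := Nat.pos_of_ne_zero Subgroup.index_ne_zero_of_finite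
    have := Nat.eq_of_mul_eq_mul_left hpos (e1.trans e2.symm)
    exact this.ge
  have h5 : x * y ∈ Subgroup.centralizer ({x} : Set G) ⊓ Subgroup.centralizer ({y} : Set G) := by
    rw [h4, Subgroup.mem_centralizer_singleton_iff]
  have h6 := (Subgroup.mem_inf.mp h5).1
  rw [Subgroup.mem_centralizer_singleton_iff] at h6
  -- h6 : x * y * x = x * (x * y)
  have : y * x = x * y := by
    apply mul_left_cancel (a := x)
    rw [← mul_assoc]; exact h6
  exact this.symm

theorem index_prod {G : Type*} [Group G] [Finite G] (P K : Subgroup G) [P.Normal] [K.Normal]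
    (hd : P ⊓ K = ⊥) (ht : P ⊔ K = ⊤) (x y : G) (hx : x ∈ P) (hy : y ∈ K) :
    (Subgroup.centralizer ({x * y} : Set G)).index = (Subgroup.centralizer ({x} : Set G)).index * (Subgroup.centralizer ({y} : Set G)).index := by
  have hdis : Disjoint P K := disjoint_iff.mpr hd
  have hcomm : ∀ a ∈ P, ∀ b ∈ K, a * b = b * a := fun a ha b hb =>
    (Subgroup.commute_of_normal_of_disjoint P K inferInstance inferInstance hdis a b ha hb).eq
  have hKx : K ≤ Subgroup.centralizer ({x} : Set G) := by
    intro b hb
    rw [Subgroup.mem_centralizer_singleton_iff]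
    exact (hcomm x hx b hb).symm
  have hPy : P ≤ Subgroup.centralizer ({y} : Set G) := by
    intro a ha
    rw [Subgroup.mem_centralizer_singleton_iff]
    exact hcomm a ha y hy
  have hmul : ∀ g : G, ∃ a ∈ P, ∃ b ∈ K, g = a * b := by
    intro g
    have hg : g ∈ ((P ⊔ K : Subgroup G) : Set G) := by rw [ht]; exact Subgroup.mem_top g
    rw [Subgroup.mul_normal] at hg
    obtain ⟨a, ha, b, hb, hab⟩ := Set.mem_mul.mp hg
    exact ⟨a, ha, b, hb, hab.symm⟩
  have heq : Subgroup.centralizer ({x * y} : Set G) = Subgroup.centralizer ({x} : Set G) ⊓ Subgroup.centralizer ({y} : Set G) := by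
    apply le_antisymm
    · intro g hg
      rw [Subgroup.mem_centralizer_singleton_iff] at hg
      obtain ⟨a, ha, b, hb, rfl⟩ := hmul g
      have e1 : a * b * (x * y) = (a * x) * (b * y) := by
        rw [mul_assoc, ← mul_assoc b x y, ← hcomm x hx b hb]; simp only [mul_assoc]
      have e2 : x * y * (a * b) = (x * a) * (y * b) := by
        rw [mul_assoc, ← mul_assoc y a b, ← hcomm a ha y hy]; simp only [mul_assoc]
      rw [e1, e2] at hg
      have e3 : (x * a)⁻¹ * (a * x) = (y * b) * (b * y)⁻¹ := by
        rw [inv_mul_eq_iff_eq_mul, ← mul_assoc, ← hg, mul_assoc, mul_inv_cancel, mul_one]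
      have e4 : (x * a)⁻¹ * (a * x) ∈ P ⊓ K := by
        apply Subgroup.mem_inf.mpr
        refine ⟨P.mul_mem (P.inv_mem (P.mul_mem hx ha)) (P.mul_mem ha hx), ?_⟩
        rw [e3]
        exact K.mul_mem (K.mul_mem hy hb) (K.inv_mem (K.mul_mem hb hy))
      rw [hd, Subgroup.mem_bot] at e4
      have e5 : a * x = x * a := by
        rw [inv_mul_eq_one] at e4; exact e4.symm
      have e6 : b * y = y * b := by
        rw [e4] at e3
        have := e3.symm
        rw [mul_inv_eq_one] at this; exact this.symm
      apply Subgroup.mem_inf.mpr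
      constructor
      · rw [Subgroup.mem_centralizer_singleton_iff]
        rw [mul_assoc, ← hcomm x hx b hb, ← mul_assoc, e5, mul_assoc]
      · rw [Subgroup.mem_centralizer_singleton_iff]
        rw [mul_assoc, e6, ← mul_assoc, hcomm a ha y hy, mul_assoc]
    · intro g hg
      obtain ⟨h1, h2⟩ := Subgroup.mem_inf.mp hg
      rw [Subgroup.mem_centralizer_singleton_iff] at h1 h2 ⊢
      rw [← mul_assoc, h1, mul_assoc, h2, mul_assoc]
  rw [heq]
  set A := Subgroup.centralizer ({x} : Set G) with hA
  set B := Subgroup.centralizer ({y} : Set G) with hB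
  have hs : ((A : Set G) * (B : Set G)) = Set.univ := by
    apply Set.eq_univ_of_forall
    intro g
    obtain ⟨a, ha, b, hb, rfl⟩ := hmul g
    rw [hcomm a ha b hb]
    exact Set.mul_mem_mul (hKx hb) (hPy ha)
  have hc := Cfsg.Agent.Lib.Helper6.card_setMul_mul_card_inf A B
  rw [hs, Set.ncard_univ] at hc
  have e1 := Subgroup.index_mul_card (A ⊓ B)
  have e2 := Subgroup.index_mul_card A
  have e3 := Subgroup.index_mul_card B
  have hpos : 0 < Nat.card G := Nat.card_pos
  have hAB : 0 < Nat.card ↥A * Nat.card ↥B := Nat.mul_pos Nat.card_pos Nat.card_pos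
  apply Nat.eq_of_mul_eq_mul_right hAB
  have : (A ⊓ B).index * (Nat.card ↥A * Nat.card ↥B) = Nat.card G * Nat.card G := by
    rw [← hc, mul_comm (Nat.card G), ← mul_assoc, e1]
  rw [this]
  calc Nat.card G * Nat.card G = (A.index * Nat.card ↥A) * (B.index * Nat.card ↥B) := by rw [e2, e3]
    _ = A.index * B.index * (Nat.card ↥A * Nat.card ↥B) := by ring

/-- Let p be a prime and G a finite group. Then some Sylow p-subgroup of G is a direct factor of G (normal with a normal complement) if and only if for every element x of p-power order and every element y whose order is a power of a prime other than p, the conjugacy class of x y has as many elements as the product of the sizes of the classes of x and of y. -/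
theorem result {G : Type*} [Group G] [Finite G] (p : ℕ) [Fact p.Prime] : (∃ (P : Sylow p G) (K : Subgroup G), (P : Subgroup G).Normal ∧ K.Normal ∧ (P : Subgroup G) ⊓ K = ⊥ ∧ (P : Subgroup G) ⊔ K = ⊤) ↔ ∀ x y : G, (∃ a : ℕ, orderOf x = p ^ a) → (∃ q b : ℕ, q.Prime ∧ q ≠ p ∧ orderOf y = q ^ b) → (Subgroup.centralizer ({x * y} : Set G)).index = (Subgroup.centralizer ({x} : Set G)).index * (Subgroup.centralizer ({y} : Set G)).index := by
  classical
  constructor
  · rintro ⟨P, K, hPn, hKn, hd, ht⟩ x y ⟨a, ha⟩ ⟨q, b, hq, hqp, hb⟩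
    haveI := hPn
    haveI := hKn
    have hx : x ∈ (P : Subgroup G) := by
      have h1 : IsPGroup p (Subgroup.zpowers x) := by
        apply IsPGroup.of_card (n := a)
        rw [Nat.card_zpowers, ha]
      obtain ⟨Q, hQ⟩ := h1.exists_le_sylow
      obtain ⟨g, hg⟩ := MulAction.exists_smul_eq G P Q
      have : Q = P := by rw [← hg]; exact Sylow.smul_eq_of_normal
      rw [← this]
      exact hQ (Subgroup.mem_zpowers x)
    have hy : y ∈ K := by
      have hc := Cfsg.Agent.Lib.Helper1.card_sup_mul_card_inf (P : Subgroup G) K (by rw [Subgroup.normalizer_eq_top]; exact le_top)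
      rw [hd, ht, Subgroup.card_bot, mul_one, Subgroup.card_top] at hc
      have hi := Subgroup.index_mul_card K
      rw [hc] at hi
      have hi2 : K.index = Nat.card (P : Subgroup G) := Nat.eq_of_mul_eq_mul_right Nat.card_pos hi
      obtain ⟨n, hn⟩ := (IsPGroup.iff_card.mp P.isPGroup')
      have h1 : y ^ (p ^ n) ∈ K := by
        rw [← hn, ← hi2]; exact Subgroup.pow_index_mem K y
      have h2 : y ^ (q ^ b) = 1 := by rw [← hb]; exact pow_orderOf_eq_one y
      have hcop : Nat.Coprime (p ^ n) (q ^ b) := by
        apply Nat.Coprime.pow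
        exact (Nat.coprime_primes (Fact.out) hq).mpr (Ne.symm hqp)
      have hbez := Nat.gcd_eq_gcd_ab (p ^ n) (q ^ b)
      rw [hcop.gcd_eq_one] at hbez
      have : y = (y ^ (p ^ n)) ^ (Nat.gcdA (p ^ n) (q ^ b)) * (y ^ (q ^ b)) ^ (Nat.gcdB (p ^ n) (q ^ b)) := by
        rw [← zpow_natCast, ← zpow_natCast, ← zpow_mul, ← zpow_mul, ← zpow_add, ← hbez]
        simp
      rw [this, h2, one_zpow, mul_one]
      exact K.zpow_mem h1 _
    exact index_prod (P : Subgroup G) K hd ht x y hx hy
  · intro h
    have hcomm : ∀ x y : G, (∃ a : ℕ, orderOf x = p ^ a) → (∃ q b : ℕ, q.Prime ∧ q ≠ p ∧ orderOf y = q ^ b) → x * y = y * x :=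
      fun x y hx hy => comm_of_index x y (h x y hx hy)
    obtain ⟨P⟩ : Nonempty (Sylow p G) := inferInstance
    set C := Subgroup.centralizer ((P : Subgroup G) : Set G) with hC
    have hqC : ∀ (y : G) (q v : ℕ), q.Prime → q ∈ {q : ℕ | q ≠ p} → orderOf y = q ^ v → y ∈ C := by
      intro y q v hq hqp hy
      rw [hC, Subgroup.mem_centralizer_iff]
      intro x hx
      have hx' : ∃ a : ℕ, orderOf x = p ^ a := by
        obtain ⟨k, hk⟩ := (IsPGroup.iff_orderOf.mp P.isPGroup') ⟨x, hx⟩
        exact ⟨k, by rw [← hk]; exact (Subgroup.orderOf_mk x hx).symm⟩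
      exact hcomm x y hx' ⟨q, v, hq, hqp, hy⟩
    have hpC : ∀ k : G, (orderOf k).Coprime p → k ∈ C := by
      intro k hk
      apply Cfsg.Agent.Lib.Helper6.mem_of_piElt {q : ℕ | q ≠ p} C hqC (orderOf k) k rfl
      intro q hq hqd
      show q ≠ p
      rintro rfl
      have := Nat.Coprime.eq_one_of_dvd hk.symm hqd
      exact hq.one_lt.ne' this
    have hPC : (P : Subgroup G) ⊔ C = ⊤ := by
      rw [← Subgroup.index_eq_one]
      rw [Nat.eq_one_iff_not_exists_prime_dvd]
      intro q hq hqd
      haveI : Fact q.Prime := ⟨hq⟩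
      by_cases hqp : q = p
      · subst hqp
        exact P.not_dvd_index (dvd_trans hqd (Subgroup.index_dvd_of_le le_sup_left))
      · obtain ⟨Q⟩ : Nonempty (Sylow q G) := inferInstance
        have hQC : (Q : Subgroup G) ≤ C := by
          intro y hy
          obtain ⟨k, hk⟩ := (IsPGroup.iff_orderOf.mp Q.isPGroup') ⟨y, hy⟩
          exact hqC y q k hq hqp (by rw [← hk]; exact (Subgroup.orderOf_mk y hy).symm)
        exact Q.not_dvd_index (dvd_trans hqd (Subgroup.index_dvd_of_le (hQC.trans le_sup_right)))
    have hPn : (P : Subgroup G).Normal := by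
      rw [← Subgroup.normalizer_eq_top_iff, eq_top_iff, ← hPC]
      apply sup_le Subgroup.le_normalizer
      exact Cfsg.Agent.Lib.Helper6.centralizer_le_normalizer' _
    haveI := hPn
    have hcop : Nat.Coprime (Nat.card (P : Subgroup G)) (P : Subgroup G).index := by
      obtain ⟨n, hn⟩ := (IsPGroup.iff_card.mp P.isPGroup')
      rw [hn]
      apply Nat.Coprime.pow_left
      exact (Nat.Prime.coprime_iff_not_dvd (Fact.out)).mpr P.not_dvd_index
    obtain ⟨K, hK⟩ := Subgroup.exists_right_complement'_of_coprime hcop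
    have hKC : K ≤ C := by
      intro k hk
      apply hpC
      have h1 : orderOf k ∣ Nat.card K := by
        have := orderOf_dvd_natCard (⟨k, hk⟩ : K)
        rwa [Subgroup.orderOf_mk] at this
      have h2 : Nat.card K = (P : Subgroup G).index := hK.symm.index_eq_card.symm
      rw [h2] at h1
      obtain ⟨n, hn⟩ := (IsPGroup.iff_card.mp P.isPGroup')
      have h3 : Nat.Coprime (P : Subgroup G).index p := by
        rw [Nat.coprime_comm]
        exact (Nat.Prime.coprime_iff_not_dvd (Fact.out)).mpr P.not_dvd_index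
      exact Nat.Coprime.coprime_dvd_left h1 h3
    have hKn : K.Normal := by
      rw [← Subgroup.normalizer_eq_top_iff, eq_top_iff, ← hK.sup_eq_top]
      apply sup_le _ Subgroup.le_normalizer
      intro x hx
      rw [Subgroup.mem_normalizer_iff]
      intro k
      have hxk : ∀ k ∈ K, x * k * x⁻¹ = k := by
        intro k hk
        have := hKC hk
        rw [hC, Subgroup.mem_centralizer_iff] at this
        rw [this x hx, mul_assoc, mul_inv_cancel, mul_one]
      constructor
      · intro hk
        rw [hxk k hk]; exact hk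
      · intro hk
        have := hxk _ hk
        have e : k = x * k * x⁻¹ := by
          have h2 : x * (x * k * x⁻¹) * x⁻¹ = x * k * x⁻¹ := this
          have h3 : x * (x * k * x⁻¹) = x * k := by
            have := congrArg (· * x) h2
            simpa [mul_assoc] using this
          have h4 := mul_left_cancel h3
          exact h4.symm
        rw [e]; exact hk
    exact ⟨P, K, hPn, hKn, hK.disjoint.eq_bot, hK.sup_eq_top⟩

end Cfsg.Agent.S3987
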