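import Cfsg.Statements.S4013
import Mathlib

set_option autoImplicit false
open Cfsg

namespace Cfsg.Agent.S4013

/-- Let G be a finite p-group (p prime) and N < M normal subgroups of G such that for some g ∈ M ∖ N the conjugacy class of g is exactly M ∖ N. Then p = 2 and N has index 2 in M. -/
theorem result {G : Type*} [Group G] [Finite G] (p : ℕ) [Fact p.Prime] (hG : IsPGroup p G) (N M : Subgroup G) [N.Normal] [M.Normal] (hNM : N < M) (g : G) (hgM : g ∈ M) (hgN : g ∉ N) (hcl : {h : G | IsConj g h} = (M : Set G) \ (N : Set G)) : p = 2 ∧ N.relIndex M = 2 := by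
  have hp : p.Prime := Fact.out
  have hle : N ≤ M := hNM.le
  have horb : MulAction.orbit (ConjAct G) g = {h : G | IsConj g h} := by
    ext h
    rw [ConjAct.mem_orbit_conjAct, Set.mem_ofPred_eq, isConj_comm]
  obtain ⟨k, hk⟩ := IsPGroup.card_orbit (G := ConjAct G) (show IsPGroup p (ConjAct G) from hG) g
  rw [horb, hcl] at hk
  have hk' : (M : Set G).ncard - (N : Set G).ncard = p ^ k := by
    rw [← Set.ncard_sdiff (by exact_mod_cast hle) (Set.toFinite _), ← hk]
    exact (Nat.card_coe_set_eq _).symm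
  have hMc : (M : Set G).ncard = Nat.card M := (Nat.card_coe_set_eq _).symm
  have hNc : (N : Set G).ncard = Nat.card N := (Nat.card_coe_set_eq _).symm
  rw [hMc, hNc] at hk'
  have hmul : Nat.card N * N.relIndex M = Nat.card M := by
    have h1 := Subgroup.card_mul_index (N.subgroupOf M)
    rw [Nat.card_congr (Subgroup.subgroupOfEquivOfLe hle).toEquiv] at h1
    exact h1
  have hNpos : 0 < Nat.card N := Nat.card_pos
  have hr1 : N.relIndex M ≠ 1 := by
    intro h
    rw [Subgroup.relIndex_eq_one] at h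
    exact (not_le_of_gt hNM) h
  have hr0 : N.relIndex M ≠ 0 := by
    intro h
    rw [h, mul_zero] at hmul
    have : 0 < Nat.card M := Nat.card_pos
    omega
  -- relIndex is a power of p
  obtain ⟨m, hm⟩ := (hG.to_subgroup M).exists_card_eq
  have hrd : N.relIndex M ∣ p ^ m := by
    rw [← hm, ← hmul]; exact dvd_mul_left _ _
  obtain ⟨b, -, hb⟩ := (Nat.dvd_prime_pow hp).1 hrd
  have hr2 : 2 ≤ N.relIndex M := by omega
  -- (r - 1) divides p^k
  have hsub : Nat.card N * (N.relIndex M - 1) = p ^ k := by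
    rw [Nat.mul_sub, mul_one, hmul]; exact hk'
  have hd : N.relIndex M - 1 ∣ p ^ k := by rw [← hsub]; exact dvd_mul_left _ _
  obtain ⟨c, -, hc⟩ := (Nat.dvd_prime_pow hp).1 hd
  have hc0 : c = 0 := by
    by_contra hne
    have h1 : p ∣ N.relIndex M - 1 := by rw [hc]; exact dvd_pow_self p hne
    have hb0 : b ≠ 0 := by
      intro h0; rw [h0, pow_zero] at hb; exact hr1 hb
    have h2 : p ∣ N.relIndex M := by rw [hb]; exact dvd_pow_self p hb0
    have h3 : p ∣ 1 := by
      have := (Nat.dvd_sub h2 h1)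
      have e : N.relIndex M - (N.relIndex M - 1) = 1 := by omega
      rwa [e] at this
    exact hp.one_lt.ne' (Nat.dvd_one.mp h3)
  rw [hc0, pow_zero] at hc
  have hr : N.relIndex M = 2 := by omega
  refine ⟨?_, hr⟩
  rw [hr] at hb
  have hb0 : b ≠ 0 := by
    intro h0; rw [h0, pow_zero] at hb; omega
  have : p ∣ 2 := by rw [hb]; exact dvd_pow_self p hb0
  exact (Nat.prime_dvd_prime_iff_eq hp Nat.prime_two).1 this

end Cfsg.Agent.S4013
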