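import Cfsg.Statements.S4023
import Mathlib
import Cfsg.Agent.Lib.Helper6.PConj
import Cfsg.Agent.Lib.Helper6.PiElts
-- import your own Cfsg.Agent.* helpers here

set_option autoImplicit false
open Cfsg

namespace Cfsg.Agent.S4023

/-- Let p be a prime and G a finite group in which any two p-subgroups of the same order are conjugate, with Sylow p-subgroup P. Then P is cyclic, or elementary abelian, or p = 2 and P is a quaternion group of order 8, or p is odd and P is non-abelian of order p³ and exponent p. -/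
theorem result {G : Type*} [Group G] [Finite G]
    {p : ℕ} [Fact p.Prime] (hC : ∀ H K : Subgroup G, IsPGroup p H → IsPGroup p K → Nat.card H = Nat.card K →
      ∃ g : G, K = H.map (MulAut.conj g).toMonoidHom) (P : Sylow p G) :
    IsCyclic P ∨ Cfsg.IsElementaryAbelian p (P : Subgroup G) ∨
      (p = 2 ∧ Nonempty ((P : Subgroup G) ≃* QuaternionGroup 2)) ∨
      (p ≠ 2 ∧ ¬ IsMulCommutative P ∧ Nat.card P = p ^ 3 ∧ Monoid.exponent P = p) := by
  classical
  have hp : p.Prime := Fact.out
  rcases Cfsg.Agent.Lib.Helper6.sylow_of_pconj p hC P with hexp | hcyc | ⟨hp2, n, ⟨e⟩⟩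
  · by_cases hab : ∀ a b : ↥(P : Subgroup G), a * b = b * a
    · right; left
      exact ⟨⟨⟨hab⟩⟩, hexp⟩
    · right; right; right
      have hexp' : ∀ x : ↥(P : Subgroup G), x ^ p = 1 := fun x => Subtype.ext (hexp x.1 x.2)
      obtain ⟨B, hBcard, x, hxB, a, haB, hxa⟩ :=
        Cfsg.Agent.Lib.Helper6.exists_nonab_card_cube p P.2 hexp' hab
      obtain ⟨n, hn⟩ := IsPGroup.iff_card.mp P.2
      have hn3 : 3 ≤ n := by
        have h1 : p ^ 3 ∣ p ^ n := by
          rw [← hBcard, ← hn]; exact Subgroup.card_subgroup_dvd_card B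
        exact (Nat.pow_dvd_pow_iff_le_right hp.one_lt).mp h1
      have hn3' : n = 3 := by
        by_contra hne
        have h4 : p ^ 4 ∣ Nat.card ↥(P : Subgroup G) := by
          rw [hn]; exact pow_dvd_pow p (by omega)
        obtain ⟨A, hAcard, hAc⟩ := Cfsg.Agent.Lib.Helper6.exists_ab_card_cube p P.2 hexp' h4
        have hA' : Nat.card (A.map (P : Subgroup G).subtype) = p ^ 3 := by
          rw [Subgroup.card_map_of_injective (Subgroup.subtype_injective _), hAcard]
        have hB' : Nat.card (B.map (P : Subgroup G).subtype) = p ^ 3 := by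
          rw [Subgroup.card_map_of_injective (Subgroup.subtype_injective _), hBcard]
        obtain ⟨g, hg⟩ := hC _ _ (IsPGroup.of_card hA') (IsPGroup.of_card hB') (hA'.trans hB'.symm)
        have hx' : (x : G) ∈ B.map (P : Subgroup G).subtype := ⟨x, hxB, rfl⟩
        have ha' : (a : G) ∈ B.map (P : Subgroup G).subtype := ⟨a, haB, rfl⟩
        rw [hg] at hx' ha'
        obtain ⟨_, ⟨u, huA, rfl⟩, hu⟩ := hx'
        obtain ⟨_, ⟨v, hvA, rfl⟩, hv⟩ := ha'
        apply hxa
        apply Subtype.ext
        show (x : G) * (a : G) = a * x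
        rw [← hu, ← hv]
        have huv : (u : G) * v = v * u := congrArg Subtype.val (hAc u huA v hvA)
        show g * u * g⁻¹ * (g * v * g⁻¹) = g * v * g⁻¹ * (g * u * g⁻¹)
        calc g * u * g⁻¹ * (g * v * g⁻¹) = g * ((u:G) * v) * g⁻¹ := by group
          _ = g * ((v:G) * u) * g⁻¹ := by rw [huv]
          _ = g * v * g⁻¹ * (g * u * g⁻¹) := by group
      have hp2 : p ≠ 2 := by
        intro h2
        subst h2
        apply hab
        intro a b
        have h1 : a⁻¹ = a := inv_eq_of_mul_eq_one_left (by rw [← pow_two]; exact hexp' a)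
        have h2 : b⁻¹ = b := inv_eq_of_mul_eq_one_left (by rw [← pow_two]; exact hexp' b)
        have h3 : (a * b)⁻¹ = a * b :=
          inv_eq_of_mul_eq_one_left (by rw [← pow_two]; exact hexp' (a * b))
        calc a * b = (a * b)⁻¹ := h3.symm
          _ = b⁻¹ * a⁻¹ := mul_inv_rev a b
          _ = b * a := by rw [h1, h2]
      refine ⟨hp2, ?_, by rw [hn, hn3'], ?_⟩
      · intro hcomm
        apply hab
        intro a b
        exact hcomm.is_comm.comm a b
      · have h1 : Monoid.exponent ↥(P : Subgroup G) ∣ p :=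
          Monoid.exponent_dvd_of_forall_pow_eq_one hexp'
        rcases (Nat.dvd_prime hp).mp h1 with h2 | h2
        · exfalso
          have := Monoid.exp_eq_one_iff.mp h2
          exact hab (fun a b => by rw [Subsingleton.elim a b])
        · exact h2
  · left; exact hcyc
  · subst hp2
    rcases n with _ | _ | n
    · left
      haveI : IsCyclic (QuaternionGroup (2 ^ 0)) := QuaternionGroup.quaternionGroup_one_isCyclic
      exact isCyclic_of_surjective e.symm.toMonoidHom e.symm.surjective
    · right; right; left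
      exact ⟨rfl, ⟨e⟩⟩
    · exfalso
      have hN0 : 2 ^ (n + 1 + 1) ≠ 0 := by positivity
      haveI : NeZero (2 ^ (n + 1 + 1)) := ⟨hN0⟩
      have hordc : orderOf (QuaternionGroup.a 1 ^ 2 ^ n : QuaternionGroup (2 ^ (n + 1 + 1))) = 8 := by
        have h1 : 2 * 2 ^ (n + 1 + 1) = 8 * 2 ^ n := by ring
        rw [orderOf_pow_of_dvd (by positivity)
          (by rw [QuaternionGroup.orderOf_a_one, h1]; exact Dvd.intro_left 8 rfl),
          QuaternionGroup.orderOf_a_one, h1]
        exact Nat.mul_div_cancel 8 (by positivity)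
      set c₁ : ↥(P : Subgroup G) := e.symm (QuaternionGroup.a 1 ^ 2 ^ n) with hc₁
      have hc₁ord : orderOf (c₁ : G) = 8 := by
        rw [Subgroup.orderOf_coe, hc₁, MulEquiv.orderOf_eq, hordc]
      set x₁ : ↥(P : Subgroup G) := e.symm (QuaternionGroup.xa 0) with hx₁
      have hx₁ord : orderOf (x₁ : G) = 4 := by
        rw [Subgroup.orderOf_coe, hx₁, MulEquiv.orderOf_eq, QuaternionGroup.orderOf_xa]
      have hZP : Subgroup.zpowers (x₁ : G) ≤ (P : Subgroup G) := by
        rw [Subgroup.zpowers_le]; exact x₁.2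
      have hZcard : Nat.card (Subgroup.zpowers (x₁ : G)) = 2 ^ 2 := by
        rw [Nat.card_zpowers, hx₁ord]; norm_num
      have hdvd : 2 ^ 3 ∣ Nat.card (P : Subgroup G) := by
        have := Subgroup.orderOf_dvd_natCard (P : Subgroup G) c₁.2
        rw [hc₁ord] at this
        exact this
      obtain ⟨K, hZK, hKP, hKcard⟩ := Cfsg.Agent.Lib.Helper6.exists_le_card_pow (P : Subgroup G) _
        hZP 2 3 hZcard (by norm_num) hdvd
      have hDcard : Nat.card (Subgroup.zpowers (c₁ : G)) = Nat.card K := by
        rw [Nat.card_zpowers, hc₁ord, hKcard]; norm_num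
      obtain ⟨g, hg⟩ := hC (Subgroup.zpowers (c₁ : G)) K
        (P.2.to_le (by rw [Subgroup.zpowers_le]; exact c₁.2)) (P.2.to_le hKP) hDcard
      rw [MonoidHom.map_zpowers] at hg
      set d : G := g * (c₁ : G) * g⁻¹ with hd
      have hg' : K = Subgroup.zpowers d := hg
      have hdK : d ∈ K := by rw [hg']; exact Subgroup.mem_zpowers d
      have hdP : d ∈ (P : Subgroup G) := hKP hdK
      have hdord : orderOf d = 8 :=
        (Cfsg.Agent.Lib.Helper6.orderOf_conj_eq g (c₁ : G)).trans hc₁ord
      have hx₁K : (x₁ : G) ∈ Subgroup.zpowers d := by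
        rw [← hg']; exact hZK (Subgroup.mem_zpowers _)
      rw [← mem_powers_iff_mem_zpowers, Submonoid.mem_powers_iff] at hx₁K
      obtain ⟨k, hk⟩ := hx₁K
      have hk' : (⟨d, hdP⟩ : ↥(P : Subgroup G)) ^ k = x₁ := Subtype.ext hk
      have hed : ∃ i, e ⟨d, hdP⟩ = QuaternionGroup.a i := by
        rcases h : e ⟨d, hdP⟩ with i | i
        · exact ⟨i, rfl⟩
        · exfalso
          have h1 : orderOf (e ⟨d, hdP⟩) = 8 := by
            rw [MulEquiv.orderOf_eq, ← Subgroup.orderOf_coe]; exact hdord
          rw [h, QuaternionGroup.orderOf_xa] at h1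
          omega
      obtain ⟨i, hi⟩ := hed
      have hpow : ∀ k : ℕ, ∃ j, (QuaternionGroup.a i : QuaternionGroup (2 ^ (n + 1 + 1))) ^ k =
          QuaternionGroup.a j := by
        intro k
        induction k with
        | zero => exact ⟨0, by rw [pow_zero]; rfl⟩
        | succ k ih =>
          obtain ⟨j, hj⟩ := ih
          exact ⟨j + i, by rw [pow_succ (QuaternionGroup.a i) k, hj, QuaternionGroup.a_mul_a]⟩
      obtain ⟨j, hj⟩ := hpow k
      have h1 : e x₁ = QuaternionGroup.a j := by
        rw [← hk', map_pow, hi, hj]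
      rw [hx₁, MulEquiv.apply_symm_apply] at h1
      cases h1

end Cfsg.Agent.S4023
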