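import Cfsg.Statements.S4024
import Mathlib
import Cfsg.Agent.Lib.Helper6.PConj
import Cfsg.Agent.Lib.Helper6.PSolvCore
import Cfsg.Agent.Lib.Helper5.PPrimeCore5
-- import your own Cfsg.Agent.* helpers here

set_option autoImplicit false
open Cfsg

namespace Cfsg.Agent.S4024

/-- Let p be an odd prime and G a finite group in which any two p-subgroups of the same order are conjugate, with Sylow p-subgroup P. If H is a normal p-solvable subgroup of G whose order is divisible by p, then P is abelian, and either P ≤ H or P is cyclic. -/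
theorem result {G : Type*} [Group G] [Finite G]
    {p : ℕ} [Fact p.Prime] (hp : p ≠ 2) (hC : ∀ H K : Subgroup G, IsPGroup p H → IsPGroup p K → Nat.card H = Nat.card K →
      ∃ g : G, K = H.map (MulAut.conj g).toMonoidHom) (P : Sylow p G)
    (H : Subgroup G) [H.Normal] (hsolv : Cfsg.IsPSolvable p H) (hdiv : p ∣ Nat.card H) :
    IsMulCommutative P ∧ ((P : Subgroup G) ≤ H ∨ IsCyclic P) := by
  classical
  have hpp : p.Prime := Fact.out
  rcases Cfsg.Agent.Lib.Helper6.sylow_of_pconj p hC P with hexp | hcyc | ⟨hp2, -⟩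
  · have hord : ∀ y ∈ (P : Subgroup G), y ≠ 1 → orderOf y = p := by
      intro y hy hy1
      have h1 : orderOf y ∣ p := orderOf_dvd_of_pow_eq_one (hexp y hy)
      rcases (Nat.dvd_prime hpp).mp h1 with h2 | h2
      · exact absurd (orderOf_eq_one_iff.mp h2) hy1
      · exact h2
    have step1 : ∀ M : Subgroup G, M.Normal → p ∣ Nat.card M → (P : Subgroup G) ≤ M := by
      intro M hM hMdvd
      obtain ⟨x, hx⟩ := exists_prime_orderOf_dvd_card' p hMdvd
      have hxG : orderOf (x : G) = p := by rw [Subgroup.orderOf_coe]; exact hx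
      intro y hy
      by_cases hy1 : y = 1
      · rw [hy1]; exact M.one_mem
      have hyord : orderOf y = p := hord y hy hy1
      obtain ⟨g, hg⟩ := hC (Subgroup.zpowers (x : G)) (Subgroup.zpowers y)
        (IsPGroup.of_card (n := 1) (by rw [Nat.card_zpowers, hxG, pow_one]))
        (IsPGroup.of_card (n := 1) (by rw [Nat.card_zpowers, hyord, pow_one]))
        (by rw [Nat.card_zpowers, Nat.card_zpowers, hxG, hyord])
      have h1 : y ∈ (Subgroup.zpowers (x : G)).map (MulAut.conj g).toMonoidHom := by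
        rw [← hg]; exact Subgroup.mem_zpowers y
      obtain ⟨u, hu, rfl⟩ := h1
      have huM : u ∈ M := by
        have : Subgroup.zpowers (x : G) ≤ M := by rw [Subgroup.zpowers_le]; exact x.2
        exact this hu
      exact hM.conj_mem u huM g
    have hPH : (P : Subgroup G) ≤ H := step1 H inferInstance hdiv
    refine ⟨?_, Or.inl hPH⟩
    set D := Cfsg.pPrimeCore p ↥H with hD
    set E := Cfsg.pPrimePCore p ↥H with hE
    haveI hDc : D.Characteristic := Cfsg.Agent.Lib.Helper2.pPrimeCore_characteristic' p ↥H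
    haveI hEc : E.Characteristic := Cfsg.Agent.Lib.Helper6.pPrimePCore_characteristic p ↥H
    haveI hK'n : (D.map H.subtype).Normal := ConjAct.normal_of_characteristic_of_normal
    haveI hL'n : (E.map H.subtype).Normal := ConjAct.normal_of_characteristic_of_normal
    have hKcop : (Nat.card (D.map H.subtype)).Coprime p := by
      rw [Subgroup.card_map_of_injective H.subtype_injective]
      exact Cfsg.Agent.Lib.Helper3.pPrimeCore_coprime hpp ↥H
    have hLdvd : p ∣ Nat.card (E.map H.subtype) := by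
      rw [Subgroup.card_map_of_injective H.subtype_injective]
      exact Cfsg.Agent.Lib.Helper6.dvd_card_pPrimePCore hsolv hdiv
    have hPL : (P : Subgroup G) ≤ E.map H.subtype := step1 _ hL'n hLdvd
    have hdec : ∀ l ∈ E.map H.subtype, ∃ k ∈ D.map H.subtype, ∃ x' ∈ (P : Subgroup G),
        l = k * x' := by
      rintro _ ⟨l, hl, rfl⟩
      obtain ⟨d, hd, q, hq, rfl⟩ :=
        Cfsg.Agent.Lib.Helper6.pPrimePCore_decomp (P.subtype hPH) l hl
      refine ⟨(d : G), ⟨d, hd, rfl⟩, (q : G), ?_, rfl⟩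
      rw [Sylow.coe_subtype] at hq
      exact hq
    have hdisj : (P : Subgroup G) ⊓ D.map H.subtype = ⊥ :=
      Cfsg.Agent.Lib.Helper5.inf_eq_bot_of_pGroup_of_coprime _ _ P.2 hKcop
    haveI hPnt : Nontrivial ↥(P : Subgroup G) :=
      (Subgroup.nontrivial_iff_ne_bot _).mpr
        (P.ne_bot_of_dvd_card (hdiv.trans (Subgroup.card_subgroup_dvd_card H)))
    haveI := P.2.center_nontrivial
    obtain ⟨⟨z, hzZ⟩, hz1⟩ := exists_ne (1 : Subgroup.center ↥(P : Subgroup G))
    have hz1' : (z : G) ≠ 1 := fun h => hz1 (Subtype.ext (Subtype.ext h))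
    have hzc : ∀ x ∈ (P : Subgroup G), x * (z : G) = (z : G) * x := by
      intro x hx
      exact congrArg Subtype.val (Subgroup.mem_center_iff.mp hzZ ⟨x, hx⟩)
    have hzord : orderOf (z : G) = p := hord _ z.2 hz1'
    have key : ∀ y ∈ (P : Subgroup G), ∀ x ∈ (P : Subgroup G), x * y = y * x := by
      intro y hy x hx
      by_cases hy1 : y = 1
      · rw [hy1, mul_one, one_mul]
      have hyord : orderOf y = p := hord y hy hy1
      obtain ⟨g, hg⟩ := hC (Subgroup.zpowers (z : G)) (Subgroup.zpowers y)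
        (IsPGroup.of_card (n := 1) (by rw [Nat.card_zpowers, hzord, pow_one]))
        (IsPGroup.of_card (n := 1) (by rw [Nat.card_zpowers, hyord, pow_one]))
        (by rw [Nat.card_zpowers, Nat.card_zpowers, hzord, hyord])
      have h1 : y ∈ (Subgroup.zpowers (z : G)).map (MulAut.conj g).toMonoidHom := by
        rw [← hg]; exact Subgroup.mem_zpowers y
      obtain ⟨z', hz', hzy⟩ := h1
      have hy' : y = g * z' * g⁻¹ := hzy.symm
      have hz'c : ∀ x ∈ (P : Subgroup G), x * z' = z' * x := by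
        intro x hx
        obtain ⟨j, rfl⟩ := Subgroup.mem_zpowers_iff.mp hz'
        exact (Commute.zpow_right (show Commute x (z : G) from hzc x hx) j).eq
      have hxL : g⁻¹ * x * g ∈ E.map H.subtype := by
        have := hL'n.conj_mem x (hPL hx) g⁻¹
        simpa using this
      obtain ⟨k, hk, x', hx', hkx⟩ := hdec _ hxL
      have hk₁K : g * k * g⁻¹ ∈ D.map H.subtype := hK'n.conj_mem k hk g
      have hxeq : x = (g * k * g⁻¹) * (g * x' * g⁻¹) := by
        have : x = g * (g⁻¹ * x * g) * g⁻¹ := by group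
        rw [this, hkx]; group
      have hqy : (g * x' * g⁻¹) * y = y * (g * x' * g⁻¹) := by
        rw [hy']
        have := hz'c x' hx'
        calc g * x' * g⁻¹ * (g * z' * g⁻¹) = g * (x' * z') * g⁻¹ := by group
          _ = g * (z' * x') * g⁻¹ := by rw [this]
          _ = g * z' * g⁻¹ * (g * x' * g⁻¹) := by group
      have hcomm_mem : x * y * x⁻¹ * y⁻¹ ∈ D.map H.subtype := by
        have h2 : x * y * x⁻¹ * y⁻¹ = (g * k * g⁻¹) * (y * (g * k * g⁻¹)⁻¹ * y⁻¹) := by
          rw [hxeq]
          calc (g * k * g⁻¹) * (g * x' * g⁻¹) * y * ((g * k * g⁻¹) * (g * x' * g⁻¹))⁻¹ * y⁻¹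
              = (g * k * g⁻¹) * ((g * x' * g⁻¹) * y) * (g * x' * g⁻¹)⁻¹ * (g * k * g⁻¹)⁻¹ * y⁻¹ := by
                group
            _ = (g * k * g⁻¹) * (y * (g * x' * g⁻¹)) * (g * x' * g⁻¹)⁻¹ * (g * k * g⁻¹)⁻¹ * y⁻¹ := by
                rw [hqy]
            _ = (g * k * g⁻¹) * (y * (g * k * g⁻¹)⁻¹ * y⁻¹) := by group
        rw [h2]
        exact (D.map H.subtype).mul_mem hk₁K
          (hK'n.conj_mem _ ((D.map H.subtype).inv_mem hk₁K) y)
      have hcomm_P : x * y * x⁻¹ * y⁻¹ ∈ (P : Subgroup G) :=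
        (P : Subgroup G).mul_mem ((P : Subgroup G).mul_mem ((P : Subgroup G).mul_mem hx hy)
          ((P : Subgroup G).inv_mem hx)) ((P : Subgroup G).inv_mem hy)
      have h3 : x * y * x⁻¹ * y⁻¹ ∈ (P : Subgroup G) ⊓ D.map H.subtype := ⟨hcomm_P, hcomm_mem⟩
      rw [hdisj, Subgroup.mem_bot] at h3
      calc x * y = (x * y * x⁻¹ * y⁻¹) * (y * x) := by group
        _ = y * x := by rw [h3, one_mul]
    exact ⟨⟨fun a b => Subtype.ext (key b.1 b.2 a.1 a.2)⟩⟩
  · refine ⟨?_, Or.inr hcyc⟩
    refine ⟨⟨fun a b => ?_⟩⟩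
    obtain ⟨g, hg⟩ := hcyc.exists_generator
    obtain ⟨i, rfl⟩ := Subgroup.mem_zpowers_iff.mp (hg a)
    obtain ⟨j, rfl⟩ := Subgroup.mem_zpowers_iff.mp (hg b)
    exact (Commute.zpow_zpow_self g i j).eq
  · exact absurd hp2 hp

end Cfsg.Agent.S4024
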