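import Cfsg.Statements.S4027
import Mathlib
import Cfsg.Agent.Lib.Helper6.TwoSylow
-- import your own Cfsg.Agent.* helpers here

set_option autoImplicit false
open Cfsg

namespace Cfsg.Agent.S4027

open Cfsg.Agent.Lib.Helper6


/-- Let G be a finite group in which every element x of odd order satisfies N_G(⟨x⟩) = C_G(x). Then the Sylow 2-subgroups of G are normal. -/
theorem result {G : Type*} [Group G] [Finite G]
    (hirr : ∀ x : G, (∀ r : ℕ, r.Prime → r ∣ orderOf x → r ≠ 2) →
      Subgroup.normalizer ((Subgroup.zpowers x : Subgroup G) : Set G) ≤ Subgroup.centralizer {x}) (P : Sylow 2 G) :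
    (P : Subgroup G).Normal := by
  by_contra hnn
  obtain ⟨q, r, s, hq, hq2, hro, hinv⟩ := exists_inverted_of_sylow2_not_normal P hnn
  have h1 := hirr r (by
    intro r' hr' hd
    rw [hro] at hd
    rw [(Nat.prime_dvd_prime_iff_eq hr' hq).mp hd]
    exact hq2)
  have h2 := h1 (mem_normalizer_zpowers_of_inv s r hinv)
  rw [Subgroup.mem_centralizer_iff] at h2
  have h3 := h2 r (Set.mem_singleton r)
  apply ne_inv_of_orderOf_odd_prime r q hq hq2 hro
  rw [← hinv, ← h3]
  group

end Cfsg.Agent.S4027
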