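import Cfsg.Statements.S4028
import Mathlib
import Cfsg.Agent.Lib.Helper1.Basic
-- import your own Cfsg.Agent.* helpers here

set_option autoImplicit false
open Cfsg

namespace Cfsg.Agent.S4028


theorem pow_mem_cent {G : Type*} [Group G] [Finite G] (x g : G) (k : ℕ) (hx : orderOf x = 2 ^ k)
    (hg : g ∈ Subgroup.normalizer ((Subgroup.zpowers x : Subgroup G) : Set G)) :
    x * g ^ (2 ^ k) = g ^ (2 ^ k) * x := by
  have hcard : Nat.card (MulAut ↥(Subgroup.zpowers x)) ∣ 2 ^ k := by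
    rw [IsCyclic.card_mulAut, Nat.card_zpowers, hx]
    rcases Nat.eq_zero_or_pos k with rfl | hk
    · simp
    · rw [Nat.totient_prime_pow Nat.prime_two hk]
      simp only [Nat.add_one_sub_one, mul_one]
      exact pow_dvd_pow 2 (Nat.sub_le k 1)
  have h1 : ((Subgroup.zpowers x).normalizerMonoidHom ⟨g, hg⟩) ^ (2 ^ k) = 1 := by
    obtain ⟨c, hc⟩ := hcard
    rw [hc, pow_mul, pow_card_eq_one', one_pow]
  have h2 : (⟨g, hg⟩ : ↥(Subgroup.normalizer ((Subgroup.zpowers x : Subgroup G) : Set G))) ^ (2 ^ k) ∈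
      (Subgroup.zpowers x).normalizerMonoidHom.ker := by
    rw [MonoidHom.mem_ker, map_pow, h1]
  rw [Subgroup.normalizerMonoidHom_ker, Subgroup.mem_subgroupOf] at h2
  have h3 := (Subgroup.mem_centralizer_iff.mp h2) x (Subgroup.mem_zpowers x)
  simpa using h3

theorem conj_zpow' {G : Type*} [Group G] (h x : G) (j : ℤ) :
    (h⁻¹ * x * h) ^ j = h⁻¹ * x ^ j * h := by
  have := conj_zpow (a := h⁻¹) (b := x) (i := j)
  rw [inv_inv] at this
  exact this

/-- Let G be a finite group with Sylow 2-subgroup P. Then N_G(⟨x⟩) = C_G(x) holds for every 2-element x of G if and only if N_P(⟨y⟩) = C_P(y) holds for every y ∈ P (computed inside P). -/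
theorem result {G : Type*} [Group G] [Finite G] (P : Sylow 2 G) :
    (∀ x : G, (∀ r : ℕ, r.Prime → r ∣ orderOf x → r = 2) →
      Subgroup.normalizer ((Subgroup.zpowers x : Subgroup G) : Set G) ≤ Subgroup.centralizer {x}) ↔
    (∀ y : ↥(P : Subgroup G), Subgroup.normalizer ((Subgroup.zpowers y : Subgroup ↥(P : Subgroup G)) : Set ↥(P : Subgroup G)) ≤
        Subgroup.centralizer {y}) := by
  classical
  constructor
  · intro h y z hz
    rw [Subgroup.mem_centralizer_singleton_iff]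
    have hy2 : ∀ r : ℕ, r.Prime → r ∣ orderOf (y : G) → r = 2 := by
      intro r hr hdvd
      obtain ⟨k, hk⟩ := (IsPGroup.iff_orderOf.mp P.isPGroup') y
      rw [Subgroup.orderOf_coe, hk] at hdvd
      exact (Nat.prime_dvd_prime_iff_eq hr Nat.prime_two).mp (hr.dvd_of_dvd_pow hdvd)
    have hzn : (z : G) ∈ Subgroup.normalizer ((Subgroup.zpowers (y : G) : Subgroup G) : Set G) := by
      apply Cfsg.Agent.Lib.Helper1.mem_normalizer_of_finite
      intro n hn
      obtain ⟨i, rfl⟩ := Subgroup.mem_zpowers_iff.mp hn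
      have h1 : z * y * z⁻¹ ∈ Subgroup.zpowers y :=
        (Subgroup.mem_normalizer_iff.mp hz y).mp (Subgroup.mem_zpowers y)
      obtain ⟨j, hj⟩ := Subgroup.mem_zpowers_iff.mp h1
      have h2 : (z : G) * (y : G) * (z : G)⁻¹ = (y : G) ^ j := by
        have := congrArg (Subtype.val) hj
        simpa using this.symm
      rw [← conj_zpow, h2]
      exact zpow_mem (zpow_mem (Subgroup.mem_zpowers _) j) i
    have h3 := h (y : G) hy2 hzn
    rw [Subgroup.mem_centralizer_singleton_iff] at h3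
    exact Subtype.ext (by simpa using h3)
  · intro hP x hx g hg
    rw [Subgroup.mem_centralizer_singleton_iff]
    obtain ⟨k, hk⟩ : ∃ k, orderOf x = 2 ^ k :=
      ⟨_, Nat.eq_prime_pow_of_unique_prime_dvd (orderOf_pos x).ne' (fun {d} hd hdvd => hx d hd hdvd)⟩
    have key : ∀ t : G, t ∈ Subgroup.normalizer ((Subgroup.zpowers x : Subgroup G) : Set G) →
        (∃ e, orderOf t = 2 ^ e) → x * t = t * x := by
      rintro t ht ⟨e, he⟩
      have hX : IsPGroup 2 (Subgroup.zpowers x) := IsPGroup.of_card (n := k) (by rw [Nat.card_zpowers, hk])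
      have hT : IsPGroup 2 (Subgroup.zpowers t) := IsPGroup.of_card (n := e) (by rw [Nat.card_zpowers, he])
      have hsup : IsPGroup 2 ↥(Subgroup.zpowers x ⊔ Subgroup.zpowers t) :=
        IsPGroup.to_sup_of_normal_left' hX hT (by rw [Subgroup.zpowers_le]; exact ht)
      obtain ⟨Q, hQ⟩ := hsup.exists_le_sylow
      obtain ⟨h, rfl⟩ := MulAction.exists_smul_eq G P Q
      have hxQ : x ∈ ((h • P : Sylow 2 G) : Subgroup G) := hQ (Subgroup.mem_sup_left (Subgroup.mem_zpowers x))
      have htQ : t ∈ ((h • P : Sylow 2 G) : Subgroup G) := hQ (Subgroup.mem_sup_right (Subgroup.mem_zpowers t))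
      rw [Sylow.smul_def, Sylow.pointwise_smul_def, Cfsg.Agent.Lib.Helper1.mem_conj_smul] at hxQ htQ
      set y : ↥(P : Subgroup G) := ⟨h⁻¹ * x * h, hxQ⟩ with hy
      set z : ↥(P : Subgroup G) := ⟨h⁻¹ * t * h, htQ⟩ with hz
      have hzn : z ∈ Subgroup.normalizer ((Subgroup.zpowers y : Subgroup ↥(P : Subgroup G)) : Set ↥(P : Subgroup G)) := by
        apply Cfsg.Agent.Lib.Helper1.mem_normalizer_of_finite
        intro n hn
        obtain ⟨i, rfl⟩ := Subgroup.mem_zpowers_iff.mp hn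
        have h1 : t * x * t⁻¹ ∈ Subgroup.zpowers x :=
          (Subgroup.mem_normalizer_iff.mp ht x).mp (Subgroup.mem_zpowers x)
        obtain ⟨j, hj⟩ := Subgroup.mem_zpowers_iff.mp h1
        have h2 : z * y * z⁻¹ = y ^ j := by
          apply Subtype.ext
          rw [Subgroup.coe_zpow]
          show h⁻¹ * t * h * (h⁻¹ * x * h) * (h⁻¹ * t * h)⁻¹ = (h⁻¹ * x * h) ^ j
          rw [conj_zpow', hj]
          group
        rw [← conj_zpow, h2]
        exact zpow_mem (zpow_mem (Subgroup.mem_zpowers _) j) i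
      have h3 := hP y hzn
      rw [Subgroup.mem_centralizer_singleton_iff] at h3
      have h4 : h⁻¹ * x * h * (h⁻¹ * t * h) = h⁻¹ * t * h * (h⁻¹ * x * h) := (congrArg Subtype.val h3).symm
      have h5 := congrArg (fun w => h * w * h⁻¹) h4
      simpa [mul_assoc] using h5
    obtain ⟨e, m, hm, hn⟩ := Nat.exists_eq_two_pow_mul_odd (orderOf_pos g).ne'
    have hcop : Nat.Coprime (2 ^ e) m := Nat.Coprime.pow_left e (Nat.coprime_two_left.mpr hm)
    have ht : x * g ^ m = g ^ m * x := by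
      apply key (g ^ m) (pow_mem hg m)
      have h1 : (g ^ m) ^ (2 ^ e) = 1 := by
        rw [← pow_mul, mul_comm, ← hn, pow_orderOf_eq_one]
      obtain ⟨i, -, hi⟩ := (Nat.dvd_prime_pow Nat.prime_two).mp (orderOf_dvd_of_pow_eq_one h1)
      exact ⟨i, hi⟩
    have hc1 : Commute x (g ^ (2 ^ k)) := pow_mem_cent x g k hk hg
    have hcd : Commute x (g ^ (Nat.gcd (2 ^ k) (orderOf g))) := by
      have h1 : g ^ (Nat.gcd (2 ^ k) (orderOf g)) =
          (g ^ (2 ^ k)) ^ (Nat.gcdA (2 ^ k) (orderOf g)) * (g ^ (orderOf g)) ^ (Nat.gcdB (2 ^ k) (orderOf g)) := by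
        rw [← zpow_natCast g (Nat.gcd _ _), Nat.gcd_eq_gcd_ab, zpow_add, zpow_mul, zpow_mul,
          zpow_natCast, zpow_natCast]
      rw [h1, pow_orderOf_eq_one, one_zpow, mul_one]
      exact hc1.zpow_right _
    have hce : Commute x (g ^ (2 ^ e)) := by
      have hd : Nat.gcd (2 ^ k) (orderOf g) ∣ 2 ^ e := by
        apply Nat.Coprime.dvd_of_dvd_mul_right (n := m)
        · apply Nat.Coprime.coprime_dvd_left (Nat.gcd_dvd_left _ _)
          exact Nat.Coprime.pow_left k (Nat.coprime_two_left.mpr hm)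
        · rw [← hn]
          exact Nat.gcd_dvd_right _ _
      obtain ⟨c, hc⟩ := hd
      rw [hc, pow_mul]
      exact hcd.pow_right c
    have hg1 : g = (g ^ (2 ^ e)) ^ (Nat.gcdA (2 ^ e) m) * (g ^ m) ^ (Nat.gcdB (2 ^ e) m) := by
      have h1 := Nat.gcd_eq_gcd_ab (2 ^ e) m
      rw [hcop.gcd_eq_one] at h1
      conv_lhs => rw [← zpow_one g, show (1 : ℤ) = ((1 : ℕ) : ℤ) by norm_num, h1]
      rw [zpow_add, zpow_mul, zpow_mul, zpow_natCast, zpow_natCast]
    rw [hg1]
    have ht' : Commute x (g ^ m) := ht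
    exact (Commute.mul_right (hce.zpow_right _) (ht'.zpow_right _)).eq.symm

end Cfsg.Agent.S4028
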