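import Cfsg.Statements.S4029
import Mathlib
import Cfsg.Agent.Lib.Helper8.CharStronglyReal
import Cfsg.Agent.Lib.Lead.CharQuot
import Cfsg.Agent.Lib.Lead.CharArtin
import Cfsg.Agent.Lib.Lead.CharMisc
import Cfsg.Agent.Lib.Helper7.ElemAbCount
import Cfsg.Agent.Lib.Helper1.Basic
-- import your own Cfsg.Agent.* helpers here

set_option autoImplicit false
open Cfsg

namespace Cfsg.Agent.S4029

open scoped commutatorElement

/-- Let P be a finite 2-group in which N_P(⟨y⟩) = C_P(y) for every y ∈ P. If s is the number of conjugacy classes of involutions of P, then #(P/Φ(P)) ≤ s + 1; in particular the subgroup generated by the involutions of P has order at least #(P/Φ(P)). -/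
theorem result {P : Type*} [Group P] [Finite P] (hP : IsPGroup 2 P)
    (hirr : ∀ y : P, Subgroup.normalizer ((Subgroup.zpowers y : Subgroup P) : Set P) ≤ Subgroup.centralizer {y}) :
    Nat.card (P ⧸ frattini P) ≤ Nat.card {c : ConjClasses P // ∃ y : P, ConjClasses.mk y = c ∧ orderOf y = 2} + 1 ∧
    Nat.card (P ⧸ frattini P) ≤ Nat.card (Subgroup.closure {y : P | orderOf y = 2}) := by
  classical
  haveI : Fact (Nat.Prime 2) := ⟨Nat.prime_two⟩
  have hsurj : Function.Surjective (QuotientGroup.mk' (frattini P)) :=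
    QuotientGroup.mk'_surjective _
  have hQcomm : ∀ a b : P ⧸ frattini P, a * b = b * a := by
    intro a b
    obtain ⟨x, rfl⟩ := hsurj a
    obtain ⟨y, rfl⟩ := hsurj b
    show ((x * y : P) : P ⧸ frattini P) = ((y * x : P) : P ⧸ frattini P)
    rw [QuotientGroup.eq]
    exact Cfsg.Agent.Lib.Helper7.comm_mem_frattini hP x y
  have hQsq : ∀ a : P ⧸ frattini P, a * a = 1 := by
    intro a
    obtain ⟨x, rfl⟩ := hsurj a
    rw [← map_mul, QuotientGroup.mk'_apply, QuotientGroup.eq_one_iff, ← pow_two]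
    exact Cfsg.Agent.Lib.Helper7.pow_mem_frattini hP x
  have hdeg := Cfsg.Agent.Lib.Lead.commutative_iff_degrees.mp hQcomm
  have hcardIrr : Nat.card (Cfsg.IrrCharacter (P ⧸ frattini P)) = Nat.card (P ⧸ frattini P) := by
    have h1 := Cfsg.Agent.Lib.Lead.card_linear_irr (G := P ⧸ frattini P)
    have h2 : commutator (P ⧸ frattini P) = ⊥ := by
      rw [eq_bot_iff]
      show ⁅(⊤ : Subgroup (P ⧸ frattini P)), ⊤⁆ ≤ ⊥
      rw [Subgroup.commutator_le]
      intro a _ b _
      rw [Subgroup.mem_bot, commutatorElement_eq_one_iff_mul_comm]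
      exact hQcomm a b
    rw [h2, Subgroup.index_bot] at h1
    rw [← h1]
    exact Nat.card_congr (Equiv.subtypeUnivEquiv hdeg).symm
  have hreal : ∀ (φ : Cfsg.IrrCharacter (P ⧸ frattini P)) (q : P ⧸ frattini P),
      ((φ : P ⧸ frattini P → ℂ) q).im = 0 := by
    intro φ q
    have h1 : (φ : P ⧸ frattini P → ℂ) q * (φ : P ⧸ frattini P → ℂ) q = 1 := by
      rw [← Cfsg.Agent.Lib.Lead.linear_char_mul φ.2 (hdeg φ), hQsq q]
      exact hdeg φ
    rcases mul_self_eq_one_iff.mp h1 with h | h <;> rw [h] <;> simp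
  have hle1 : Nat.card (Cfsg.IrrCharacter (P ⧸ frattini P)) ≤
      Nat.card {χ : Cfsg.IrrCharacter P // ∀ g : P, ((χ : P → ℂ) g).im = 0} := by
    apply Nat.card_le_card_of_injective (fun φ =>
      (⟨Cfsg.Agent.Lib.Lead.inflIrr _ hsurj φ, fun g => hreal φ _⟩ :
        {χ : Cfsg.IrrCharacter P // ∀ g : P, ((χ : P → ℂ) g).im = 0}))
    intro a b hab
    exact Cfsg.Agent.Lib.Lead.inflIrr_injective _ hsurj (congrArg Subtype.val hab)
  have hle2 := Cfsg.Agent.Lib.Helper8.card_real_irr_eq (G := P)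
  have hrealelt : ∀ g : P, IsConj g⁻¹ g → g * g = 1 := by
    intro g hg
    obtain ⟨x, hx⟩ := isConj_iff.mp hg
    have h2 : x * g * x⁻¹ = g⁻¹ := by
      have : x * g * x⁻¹ = (x * g⁻¹ * x⁻¹)⁻¹ := by group
      rw [this, hx]
    have hxN : x ∈ Subgroup.normalizer ((Subgroup.zpowers g : Subgroup P) : Set P) := by
      apply Cfsg.Agent.Lib.Helper1.mem_normalizer_of_finite
      intro n hn
      obtain ⟨k, rfl⟩ := Subgroup.mem_zpowers_iff.mp hn
      rw [← conj_zpow, h2]
      exact Subgroup.zpow_mem _ (Subgroup.inv_mem _ (Subgroup.mem_zpowers g)) k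
    have hxC := hirr g hxN
    rw [Subgroup.mem_centralizer_iff] at hxC
    have h3 : g * x = x * g := hxC g rfl
    have h5 : x * g⁻¹ * x⁻¹ = g⁻¹ := by
      have : x * g⁻¹ = g⁻¹ * x := by
        calc x * g⁻¹ = g⁻¹ * (g * x) * g⁻¹ := by group
          _ = g⁻¹ * (x * g) * g⁻¹ := by rw [h3]
          _ = g⁻¹ * x := by group
      rw [this]; group
    have h4 : g = g⁻¹ := hx.symm.trans h5
    exact mul_eq_one_iff_eq_inv.mpr h4
  have hle3 : Nat.card {c : ConjClasses P // ∃ g : P, ConjClasses.mk g = c ∧ IsConj g⁻¹ g} ≤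
      Nat.card {c : ConjClasses P // ∃ y : P, ConjClasses.mk y = c ∧ orderOf y = 2} + 1 := by
    have hsub : {c : ConjClasses P | ∃ g : P, ConjClasses.mk g = c ∧ IsConj g⁻¹ g} ⊆
        insert (ConjClasses.mk 1)
          {c : ConjClasses P | ∃ y : P, ConjClasses.mk y = c ∧ orderOf y = 2} := by
      rintro c ⟨g, rfl, hg⟩
      by_cases h1 : g = 1
      · left; rw [h1]
      · right
        exact ⟨g, rfl, orderOf_eq_prime (by rw [pow_two]; exact hrealelt g hg) h1⟩
    have h1 := Set.ncard_le_ncard hsub (Set.toFinite _)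
    have h2 := Set.ncard_insert_le (ConjClasses.mk (1 : P))
      {c : ConjClasses P | ∃ y : P, ConjClasses.mk y = c ∧ orderOf y = 2}
    show Nat.card ↥{c : ConjClasses P | ∃ g : P, ConjClasses.mk g = c ∧ IsConj g⁻¹ g} ≤
      Nat.card ↥{c : ConjClasses P | ∃ y : P, ConjClasses.mk y = c ∧ orderOf y = 2} + 1
    rw [Nat.card_coe_set_eq, Nat.card_coe_set_eq]
    exact h1.trans h2
  have hmem : ∀ c : {c : ConjClasses P // ∃ g : P, ConjClasses.mk g = c ∧ IsConj g⁻¹ g},
      Classical.choose c.2 ∈ Subgroup.closure {y : P | orderOf y = 2} := by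
    intro c
    have hspec := Classical.choose_spec c.2
    by_cases h1 : Classical.choose c.2 = 1
    · rw [h1]; exact Subgroup.one_mem _
    · apply Subgroup.subset_closure
      exact orderOf_eq_prime (by rw [pow_two]; exact hrealelt _ hspec.2) h1
  have hle4 : Nat.card {c : ConjClasses P // ∃ g : P, ConjClasses.mk g = c ∧ IsConj g⁻¹ g} ≤
      Nat.card (Subgroup.closure {y : P | orderOf y = 2}) := by
    apply Nat.card_le_card_of_injective (fun c =>
      (⟨Classical.choose c.2, hmem c⟩ : ↥(Subgroup.closure {y : P | orderOf y = 2})))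
    intro a b hab
    have h1 : Classical.choose a.2 = Classical.choose b.2 := congrArg Subtype.val hab
    apply Subtype.ext
    rw [← (Classical.choose_spec a.2).1, ← (Classical.choose_spec b.2).1, h1]
  constructor
  · rw [← hcardIrr]
    exact (hle1.trans hle2.le).trans hle3
  · rw [← hcardIrr]
    exact (hle1.trans hle2.le).trans hle4

end Cfsg.Agent.S4029
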