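import Cfsg.Statements.S4032
import Mathlib
import Cfsg.Agent.Lib.Helper1.Basic
import Cfsg.Agent.Lib.Lead.SZ2
-- import your own Cfsg.Agent.* helpers here

set_option autoImplicit false
open Cfsg

namespace Cfsg.Agent.S4032

open scoped Pointwise

/-- Let π be a set of primes and G a finite group in which N_G(⟨x⟩) = C_G(x) for every π-element x. If N is a normal subgroup of G whose order is divisible by no prime of π, then G/N has the same property: N_{G/N}(⟨y⟩) = C_{G/N}(y) for every π-element y of G/N. -/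
theorem result {G : Type*} [Group G] [Finite G] (π : Set ℕ)
    (hirr : ∀ x : G, (∀ r : ℕ, r.Prime → r ∣ orderOf x → r ∈ π) →
      Subgroup.normalizer ((Subgroup.zpowers x : Subgroup G) : Set G) ≤ Subgroup.centralizer {x})
    (N : Subgroup G) [N.Normal] (hN : ∀ r : ℕ, r.Prime → r ∣ Nat.card N → r ∉ π) :
    ∀ y : G ⧸ N, (∀ r : ℕ, r.Prime → r ∣ orderOf y → r ∈ π) →
      Subgroup.normalizer ((Subgroup.zpowers y : Subgroup (G ⧸ N)) : Set (G ⧸ N)) ≤ Subgroup.centralizer {y} := by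
  classical
  intro y hy z hz
  obtain ⟨x₀, rfl⟩ := QuotientGroup.mk_surjective y
  obtain ⟨g, rfl⟩ := QuotientGroup.mk_surjective z
  set o := orderOf (QuotientGroup.mk x₀ : G ⧸ N) with ho
  have hcop : Nat.Coprime (Nat.card N) o := by
    apply Nat.Coprime.symm
    apply Nat.coprime_of_dvd
    intro k hk hko hkN
    exact hN k hk hkN (hy k hk hko)
  have hbez := Nat.gcd_eq_gcd_ab (Nat.card N) o
  rw [hcop.gcd_eq_one] at hbez
  set a := Nat.gcdA (Nat.card N) o with ha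
  set b := Nat.gcdB (Nat.card N) o with hb
  set x : G := x₀ ^ ((Nat.card N : ℤ) * a) with hx
  have hx0N : x₀ ^ o ∈ N := by
    rw [← QuotientGroup.eq_one_iff, QuotientGroup.mk_pow, ho, pow_orderOf_eq_one]
  have hx0 : x₀ ^ (o * Nat.card N) = 1 := by
    have h1 : (⟨x₀ ^ o, hx0N⟩ : N) ^ Nat.card N = 1 := pow_card_eq_one'
    have h2 : (x₀ ^ o) ^ Nat.card N = 1 := by
      have := congrArg Subtype.val h1
      rwa [Subgroup.coe_pow] at this
    rw [pow_mul]
    exact h2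
  have hmkx : (QuotientGroup.mk x : G ⧸ N) = QuotientGroup.mk x₀ := by
    rw [hx, QuotientGroup.mk_zpow]
    have h1 : ((Nat.card N : ℤ) * a) = 1 - (o : ℤ) * b := by
      have : ((1 : ℕ) : ℤ) = (Nat.card N : ℤ) * a + (o : ℤ) * b := hbez
      push_cast at this
      linarith
    rw [h1, zpow_sub, zpow_one, zpow_mul, zpow_natCast, ho, pow_orderOf_eq_one, one_zpow, inv_one,
      mul_one]
  have hxo : x ^ o = 1 := by
    rw [hx, ← zpow_natCast, ← zpow_mul, mul_comm, ← mul_assoc, zpow_mul]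
    have : x₀ ^ ((o : ℤ) * (Nat.card N : ℤ)) = 1 := by
      rw [← Nat.cast_mul, zpow_natCast, hx0]
    rw [this, one_zpow]
  have hox : orderOf x ∣ o := orderOf_dvd_of_pow_eq_one hxo
  have hxπ : ∀ r : ℕ, r.Prime → r ∣ orderOf x → r ∈ π := fun r hr hdvd => hy r hr (hdvd.trans hox)
  have hnc := hirr x hxπ
  rw [← hmkx] at hz ⊢
  set H := Subgroup.zpowers x with hH
  -- conjugate of x by g lies in H ⊔ N
  have hgx : g * x * g⁻¹ ∈ H ⊔ N := by
    have h1 : (QuotientGroup.mk g : G ⧸ N) * QuotientGroup.mk x * (QuotientGroup.mk g)⁻¹ ∈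
        Subgroup.zpowers (QuotientGroup.mk x : G ⧸ N) :=
      (Subgroup.mem_normalizer_iff.mp hz _).mp (Subgroup.mem_zpowers _)
    obtain ⟨j, hj⟩ := Subgroup.mem_zpowers_iff.mp h1
    have h2 : (QuotientGroup.mk (x ^ j) : G ⧸ N) = QuotientGroup.mk (g * x * g⁻¹) := by
      rw [QuotientGroup.mk_zpow, hj]
      rfl
    have h3 : (x ^ j)⁻¹ * (g * x * g⁻¹) ∈ N := QuotientGroup.eq.mp h2
    have h4 : g * x * g⁻¹ = x ^ j * ((x ^ j)⁻¹ * (g * x * g⁻¹)) := by group
    rw [h4]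
    exact Subgroup.mul_mem_sup (zpow_mem (Subgroup.mem_zpowers x) j) h3
  have hK : MulAut.conj g • H ≤ H ⊔ N := by
    intro k hk
    rw [Cfsg.Agent.Lib.Helper1.mem_conj_smul] at hk
    obtain ⟨i, hi⟩ := Subgroup.mem_zpowers_iff.mp hk
    have h1 : k = (g * x * g⁻¹) ^ i := by
      rw [conj_zpow, hi]
      group
    rw [h1]
    exact zpow_mem hgx i
  have hsolvH : Group.IsSolvable ↥H := by
    apply Group.isSolvable_of_comm
    intro u v
    obtain ⟨i, hi⟩ := Subgroup.mem_zpowers_iff.mp u.2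
    obtain ⟨j, hj⟩ := Subgroup.mem_zpowers_iff.mp v.2
    apply Subtype.ext
    rw [Subgroup.coe_mul, Subgroup.coe_mul, ← hi, ← hj, ← zpow_add, ← zpow_add, add_comm]
  have hcop2 : (Nat.card N).Coprime (Nat.card H) := by
    rw [hH, Nat.card_zpowers]
    exact Nat.Coprime.coprime_dvd_right hox hcop
  obtain ⟨n, hn, hconj⟩ := Cfsg.Agent.Lib.Lead.szc N H (MulAut.conj g • H)
    (by rw [Subgroup.normalizer_eq_top]; exact le_top) hK
    (Cfsg.Agent.Lib.Lead.card_conj_smul g H) hcop2 (Or.inr hsolvH)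
  have hnorm : n⁻¹ * g ∈ Subgroup.normalizer ((H : Subgroup G) : Set G) := by
    apply Cfsg.Agent.Lib.Helper1.mem_normalizer_of_finite
    intro h hh
    have h1 : g * h * g⁻¹ ∈ MulAut.conj g • H := by
      rw [Cfsg.Agent.Lib.Helper1.mem_conj_smul]
      have : g⁻¹ * (g * h * g⁻¹) * g = h := by group
      rw [this]
      exact hh
    rw [← hconj, Cfsg.Agent.Lib.Helper1.mem_conj_smul] at h1
    have h2 : n⁻¹ * g * h * (n⁻¹ * g)⁻¹ = n⁻¹ * (g * h * g⁻¹) * n := by group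
    rw [h2]
    exact h1
  have hcent := hnc hnorm
  rw [Subgroup.mem_centralizer_singleton_iff] at hcent ⊢
  have hmk : (QuotientGroup.mk (n⁻¹ * g) : G ⧸ N) = QuotientGroup.mk g := by
    rw [QuotientGroup.mk_mul, (QuotientGroup.eq_one_iff (n⁻¹)).mpr (inv_mem hn), one_mul]
  have h5 : (QuotientGroup.mk (n⁻¹ * g) : G ⧸ N) * QuotientGroup.mk x = QuotientGroup.mk x * QuotientGroup.mk (n⁻¹ * g) := by
    rw [← QuotientGroup.mk_mul, ← QuotientGroup.mk_mul, hcent]
  rw [hmk] at h5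
  exact h5

end Cfsg.Agent.S4032
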