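import Cfsg.Statements.S4035
import Mathlib
import Cfsg.Agent.Lib.Helper6.PParts
import Cfsg.Agent.Lib.Helper6.Maximal
-- import your own Cfsg.Agent.* helpers here

set_option autoImplicit false
open Cfsg

namespace Cfsg.Agent.S4035

open Cfsg.Agent.Lib.Helper6


/-- Let G be a finite group and p a prime such that p divides the size of no conjugacy class of p-regular elements (elements of order prime to p). Then G is the internal direct product of a Sylow p-subgroup P and a normal subgroup H of order prime to p: P is normal, P ⊓ H = 1 and PH = G. -/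
theorem result {G : Type*} [Group G] [Finite G] {p : ℕ} [Fact p.Prime]
    (h : ∀ x : G, (orderOf x).Coprime p → ¬ p ∣ (ConjClasses.mk x).carrier.ncard) (P : Sylow p G) :
    (P : Subgroup G).Normal ∧ ∃ H : Subgroup G, H.Normal ∧ ¬ p ∣ Nat.card H ∧
      (P : Subgroup G) ⊓ H = ⊥ ∧ (P : Subgroup G) ⊔ H = ⊤ := by
  have hp : p.Prime := Fact.out
  -- every p'-element centralizes a conjugate of P
  have ha : ∀ x : G, (orderOf x).Coprime p →
      ∃ a : G, ∀ y ∈ (P : Subgroup G), Commute (a * y * a⁻¹) x := by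
    intro x hx
    have h1 : (ConjClasses.mk x).carrier.ncard = (Subgroup.centralizer ({x} : Set G)).index := by
      rw [← ConjAct.orbit_eq_carrier_conjClasses, ← MulAction.index_stabilizer,
        ConjAct.stabilizer_eq_centralizer]
      rfl
    have h2 := h x hx
    rw [h1] at h2
    obtain ⟨a, ha⟩ := exists_conj_le_of_not_dvd_index (P : Subgroup G) P.isPGroup' _ h2
    refine ⟨a, fun y hy => ?_⟩
    have h3 := ha (conj_mem_map_conj _ a hy)
    rw [Subgroup.mem_centralizer_iff] at h3
    exact (h3 x (Set.mem_singleton x)).symm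
  set M := (P : Subgroup G) ⊔ Subgroup.centralizer ((P : Subgroup G) : Set G) with hM
  have hcover : ∀ g : G, ∃ b : G, b⁻¹ * g * b ∈ M := by
    intro g
    obtain ⟨y, z, hg, hyz, ⟨k, hk⟩, hz, -, -⟩ := exists_p_decomp p g
    obtain ⟨a, ha'⟩ := ha z hz
    set C := Subgroup.centralizer ({z} : Set G) with hC
    have hyC : y ∈ C := by
      rw [hC, Subgroup.mem_centralizer_iff]
      intro w hw
      rw [Set.mem_singleton_iff] at hw
      rw [hw]
      exact hyz.eq.symm
    have hPaC : (P : Subgroup G).map (MulAut.conj a).toMonoidHom ≤ C := by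
      rintro _ ⟨u, hu, rfl⟩
      rw [hC, Subgroup.mem_centralizer_iff]
      intro w hw
      rw [Set.mem_singleton_iff] at hw
      rw [hw]
      exact (ha' u hu).eq.symm
    have hidx : ¬ p ∣ (((P : Subgroup G).map (MulAut.conj a).toMonoidHom).subgroupOf C).index := by
      show ¬ p ∣ ((P : Subgroup G).map (MulAut.conj a).toMonoidHom).relIndex C
      intro hd
      have h1 := Subgroup.relIndex_mul_index hPaC
      have h2 : ((P : Subgroup G).map (MulAut.conj a).toMonoidHom).index = (P : Subgroup G).index := by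
        have e1 := Subgroup.card_mul_index ((P : Subgroup G).map (MulAut.conj a).toMonoidHom)
        have e2 := Subgroup.card_mul_index (P : Subgroup G)
        rw [card_map_conj, ← e2] at e1
        exact Nat.eq_of_mul_eq_mul_left Nat.card_pos e1
      apply P.not_dvd_index
      rw [← h2, ← h1]
      exact Dvd.dvd.mul_right hd _
    have hZpg : IsPGroup p (Subgroup.zpowers (⟨y, hyC⟩ : C)) :=
      IsPGroup.of_card (n := k) (by rw [Nat.card_zpowers, Subgroup.orderOf_mk, hk])
    obtain ⟨c, hc⟩ := exists_conj_le_of_not_dvd_index _ hZpg _ hidx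
    have h4 : c * ⟨y, hyC⟩ * c⁻¹ ∈
        ((P : Subgroup G).map (MulAut.conj a).toMonoidHom).subgroupOf C :=
      hc (conj_mem_map_conj _ c (Subgroup.mem_zpowers _))
    rw [Subgroup.mem_subgroupOf] at h4
    have h5 : a⁻¹ * ((c : G) * y * (c : G)⁻¹) * a ∈ (P : Subgroup G) :=
      (mem_map_conj _ a _).mp h4
    refine ⟨(c : G)⁻¹ * a, ?_⟩
    have hcz : z * (c : G) = (c : G) * z :=
      (Subgroup.mem_centralizer_iff.mp c.2) z (Set.mem_singleton z)
    have hczc : (c : G) * z * (c : G)⁻¹ = z := by
      rw [← hcz]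
      group
    have e : ((c : G)⁻¹ * a)⁻¹ * g * ((c : G)⁻¹ * a) =
        (a⁻¹ * ((c : G) * y * (c : G)⁻¹) * a) * (a⁻¹ * z * a) := by
      rw [hg]
      calc ((c : G)⁻¹ * a)⁻¹ * (y * z) * ((c : G)⁻¹ * a)
          = a⁻¹ * ((c : G) * y * (c : G)⁻¹) * ((c : G) * z * (c : G)⁻¹) * a := by group
        _ = (a⁻¹ * ((c : G) * y * (c : G)⁻¹) * a) * (a⁻¹ * z * a) := by
          rw [hczc]
          group
    rw [e]
    apply Subgroup.mul_mem _ (Subgroup.mem_sup_left h5) (Subgroup.mem_sup_right _)
    rw [Subgroup.mem_centralizer_iff]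
    intro u hu
    have h6 := ha' u hu
    calc u * (a⁻¹ * z * a) = a⁻¹ * ((a * u * a⁻¹) * z) * a := by group
      _ = a⁻¹ * (z * (a * u * a⁻¹)) * a := by rw [h6.eq]
      _ = a⁻¹ * z * a * u := by group
  have hMtop : M = ⊤ := eq_top_of_conj_cover M hcover
  have hPn : (P : Subgroup G).Normal := by
    rw [← Subgroup.normalizer_eq_top_iff, eq_top_iff, ← hMtop, hM]
    exact sup_le Subgroup.le_normalizer (Subgroup.centralizer_le_normalizer _)
  refine ⟨hPn, ?_⟩
  obtain ⟨H, hH⟩ := Subgroup.exists_right_complement'_of_coprime P.card_coprime_index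
  have hcard := hH.card_mul_card
  have hHp : ¬ p ∣ Nat.card H := by
    have h1 := Subgroup.card_mul_index (P : Subgroup G)
    have h2 : Nat.card H = (P : Subgroup G).index :=
      Nat.eq_of_mul_eq_mul_left Nat.card_pos (hcard.trans h1.symm)
    rw [h2]
    exact P.not_dvd_index
  have hHC : H ≤ Subgroup.centralizer ((P : Subgroup G) : Set G) := by
    intro x hx
    have hxo : (orderOf x).Coprime p :=
      Nat.Coprime.coprime_dvd_left (Subgroup.orderOf_dvd_natCard H hx)
        (Nat.Coprime.symm ((Nat.Prime.coprime_iff_not_dvd hp).mpr hHp))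
    obtain ⟨a, ha'⟩ := ha x hxo
    rw [Subgroup.mem_centralizer_iff]
    intro u hu
    have hu' : a⁻¹ * u * a ∈ (P : Subgroup G) := by
      have := hPn.conj_mem u hu a⁻¹
      simpa using this
    have h6 := ha' _ hu'
    have e : a * (a⁻¹ * u * a) * a⁻¹ = u := by group
    rw [e] at h6
    exact h6.eq
  refine ⟨H, ?_, hHp, hH.disjoint.eq_bot, hH.sup_eq_top⟩
  rw [← Subgroup.normalizer_eq_top_iff, eq_top_iff, ← hH.sup_eq_top]
  apply sup_le _ Subgroup.le_normalizer
  intro u hu
  apply Subgroup.centralizer_le_normalizer (H : Set G)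
  rw [Subgroup.mem_centralizer_iff]
  intro x hx
  exact ((Subgroup.mem_centralizer_iff.mp (hHC hx)) u hu).symm

end Cfsg.Agent.S4035
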