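import Cfsg.Statements.S4036
import Mathlib
-- import your own Cfsg.Agent.* helpers here

set_option autoImplicit false
open Cfsg

namespace Cfsg.Agent.S4036

/-- Let P be a finite abelian p-group and K a group of automorphisms of P (a subgroup of Aut P) whose order is divisible by p. If all non-identity elements of K have the same fixed-point subgroup on P, then K has no non-trivial normal subgroup of order prime to p. -/
theorem result {P : Type*} [CommGroup P] [Finite P] {p : ℕ}
    [Fact p.Prime] (hP : IsPGroup p P) (K : Subgroup (MulAut P)) (hK : p ∣ Nat.card K)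
    (hfix : ∀ x y : MulAut P, x ∈ K → y ∈ K → x ≠ 1 → y ≠ 1 → ∀ v : P, x v = v ↔ y v = v) :
    ∀ N : Subgroup ↥K, N.Normal → ¬ p ∣ Nat.card N → N = ⊥ := by
  intro N hN hpN
  classical
  have hp : p.Prime := Fact.out
  haveI : Fintype ↥N := Fintype.ofFinite _
  -- averaging hom
  let τ : P →* P :=
    { toFun := fun v => ∏ n : N, ((n : K) : MulAut P) v
      map_one' := by simp
      map_mul' := fun a b => by simp [Finset.prod_mul_distrib] }
  have hτ : ∀ v : P, τ v = ∏ n : N, ((n : K) : MulAut P) v := fun v => rfl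
  have hτK : ∀ (k : K) (v : P), τ ((k : MulAut P) v) = (k : MulAut P) (τ v) := by
    intro k v
    rw [hτ, hτ, map_prod]
    refine Fintype.prod_equiv (MulAut.conjNormal k⁻¹ : MulAut N).toEquiv _ _ ?_
    intro n
    simp [MulAut.conjNormal_apply]
  have hτN : ∀ (n₀ : N) (v : P), τ (((n₀ : K) : MulAut P) v) = τ v := by
    intro n₀ v
    rw [hτ, hτ]
    refine Fintype.prod_equiv (Equiv.mulRight n₀) _ _ ?_
    intro n
    simp [MulAut.mul_apply]
  obtain ⟨x, hx⟩ := exists_prime_orderOf_dvd_card' p hK
  have hx1 : x ≠ 1 := by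
    intro h
    rw [h, orderOf_one] at hx
    exact hp.one_lt.ne hx
  have hx1' : (x : MulAut P) ≠ 1 := by
    intro h
    apply hx1
    exact Subtype.ext h
  have hker : τ.ker = ⊥ := by
    by_contra hne
    have hpker : p ∣ Nat.card τ.ker := by
      have hPker : IsPGroup p τ.ker := hP.to_subgroup τ.ker
      obtain ⟨k, hk⟩ := hPker.exists_card_eq
      rcases Nat.eq_zero_or_pos k with rfl | hkpos
      · exfalso
        apply hne
        rw [pow_zero] at hk
        exact Subgroup.card_eq_one.mp hk
      · rw [hk]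
        exact dvd_pow_self p hkpos.ne'
    let σ : Equiv.Perm τ.ker := ((x : MulAut P).toEquiv).subtypeEquiv (fun a => by
      show a ∈ τ.ker ↔ (x : MulAut P) a ∈ τ.ker
      rw [MonoidHom.mem_ker, MonoidHom.mem_ker, hτK x a]
      constructor
      · intro h
        rw [h, map_one]
      · intro h
        exact (x : MulAut P).injective (by rw [h, map_one]))
    have hσa : ∀ a : τ.ker, ((σ a : τ.ker) : P) = (x : MulAut P) (a : P) := fun a => rfl
    have hpow : ∀ k : ℕ, ∀ a : τ.ker, (((σ ^ k) a : τ.ker) : P) = ((x : MulAut P) ^ k) (a : P) := by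
      intro k
      induction k with
      | zero => intro a; simp
      | succ k ih =>
        intro a
        rw [pow_succ, pow_succ, Equiv.Perm.mul_apply, MulAut.mul_apply, ih, hσa]
    have hσ : σ ^ p ^ 1 = 1 := by
      rw [pow_one]
      ext a
      rw [hpow]
      have : (x : MulAut P) ^ p = 1 := by
        have h1 : x ^ p = 1 := by rw [← hx]; exact pow_orderOf_eq_one x
        have h2 := congrArg (Subtype.val : K → MulAut P) h1
        simpa using h2
      rw [this]
      simp
    haveI : Fintype τ.ker := Fintype.ofFinite _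
    obtain ⟨b, hb, hb1⟩ := Equiv.Perm.exists_fixed_point_of_prime' (p := p) (n := 1)
      (by rw [← Nat.card_eq_fintype_card]; exact hpker) hσ (a := 1)
      (by apply Subtype.ext; rw [hσa]; simp)
    have hbx : (x : MulAut P) (b : P) = (b : P) := by
      rw [← hσa, hb]
    have hbN : ∀ n : N, ((n : K) : MulAut P) (b : P) = (b : P) := by
      intro n
      by_cases hn1 : ((n : K) : MulAut P) = 1
      · rw [hn1]; simp
      · exact (hfix x (n : K) x.2 (n : K).2 hx1' hn1 (b : P)).mp hbx
    have hτb : τ (b : P) = (b : P) ^ Nat.card N := by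
      rw [hτ, Finset.prod_congr rfl (fun n _ => hbN n)]
      simp [Nat.card_eq_fintype_card]
    have hb0 : (b : P) ^ Nat.card N = 1 := by
      rw [← hτb]
      exact MonoidHom.mem_ker.mp b.2
    have hord : orderOf (b : P) ∣ Nat.card N := orderOf_dvd_of_pow_eq_one hb0
    obtain ⟨k, hk⟩ := hP (b : P)
    have hord2 : orderOf (b : P) ∣ p ^ k := orderOf_dvd_of_pow_eq_one hk
    have hcop : Nat.Coprime (p ^ k) (Nat.card N) :=
      Nat.Coprime.pow_left k ((Nat.Prime.coprime_iff_not_dvd hp).mpr hpN)
    have h1 : orderOf (b : P) = 1 :=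
      Nat.Coprime.eq_one_of_dvd (Nat.Coprime.coprime_dvd_left hord2 hcop) hord
    apply hb1
    apply Subtype.ext
    exact orderOf_eq_one_iff.mp h1
  have hinj : Function.Injective τ := (MonoidHom.ker_eq_bot_iff τ).mp hker
  rw [Subgroup.eq_bot_iff_forall]
  intro n hn
  have h1 : ((⟨n, hn⟩ : N) : K) = 1 := by
    apply Subtype.ext
    apply MulEquiv.ext
    intro v
    exact hinj (hτN ⟨n, hn⟩ v)
  exact h1

end Cfsg.Agent.S4036
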