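import Cfsg.Statements.S4040
import Mathlib
import Cfsg.Agent.S0659
import Cfsg.Agent.Lib.Helper6.NilpNPC
import Cfsg.Agent.Lib.Helper6.PGroups
import Cfsg.Agent.Lib.Lead.Glauberman2
import Cfsg.Agent.Lib.Lead.SZ
import Cfsg.Agent.Lib.Helper1.ThompsonJ
-- import your own Cfsg.Agent.* helpers here

set_option autoImplicit false
open Cfsg

namespace Cfsg.Agent.S4040


universe u

theorem key_prime {G : Type u} [Group G] [Finite G] (M : Subgroup G) (hmax : IsCoatom M)
    [hnil : Group.IsNilpotent M] (hodd : Odd (Nat.card M)) (hcore : M.normalCore = ⊥)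
    (p : ℕ) (hp : p.Prime) (hpM : p ∣ Nat.card M) :
    ¬ p ∣ M.index ∧ ∃ K : Subgroup G, K.Normal ∧ ¬ p ∣ Nat.card K ∧ ∃ k : ℕ, K.index = p ^ k := by
  classical
  haveI : Fact p.Prime := ⟨hp⟩
  have hp2 : p ≠ 2 := by
    rintro rfl
    exact (Nat.not_even_iff_odd.mpr hodd) (even_iff_two_dvd.mpr hpM)
  have hnc := Group.normalizerCondition_of_isNilpotent (G := M)
  obtain ⟨PM⟩ : Nonempty (Sylow p M) := inferInstance
  have hPMn : (PM : Subgroup M).Normal := Sylow.normal_of_normalizerCondition hnc PM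
  obtain ⟨P, hPdef⟩ : ∃ P : Subgroup G, P = (PM : Subgroup M).map M.subtype := ⟨_, rfl⟩
  have hPM : P ≤ M := by rw [hPdef]; exact Subgroup.map_subtype_le _
  have hPp : IsPGroup p P := by rw [hPdef]; exact PM.isPGroup'.map _
  have hPne : P ≠ ⊥ := by
    rw [hPdef]
    intro h
    rw [Subgroup.map_eq_bot_iff_of_injective _ M.subtype_injective] at h
    exact Sylow.ne_bot_of_dvd_card PM hpM h
  have hMN : M ≤ Subgroup.normalizer (P : Set G) := by
    intro m hm
    apply Cfsg.Agent.Lib.Helper1.mem_normalizer_of_finite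
    intro x hx
    rw [hPdef] at hx ⊢
    obtain ⟨y, hy, rfl⟩ := hx
    exact ⟨(⟨m, hm⟩ : M) * y * (⟨m, hm⟩ : M)⁻¹, hPMn.conj_mem y hy ⟨m, hm⟩, rfl⟩
  have hcoreM : ∀ W : Subgroup G, W ≤ M → W ≠ ⊥ → Subgroup.normalizer (W : Set G) ≠ ⊤ := by
    intro W hWM hWne htop
    haveI : W.Normal := Subgroup.normalizer_eq_top_iff.mp htop
    have := Subgroup.normal_le_normalCore.mpr hWM
    rw [hcore] at this
    exact hWne (le_bot_iff.mp this)
  have hNP : Subgroup.normalizer (P : Set G) = M := by
    rcases hmax.le_iff.mp hMN with h | h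
    · exact absurd h (hcoreM P hPM hPne)
    · exact h
  obtain ⟨S, hPS⟩ := hPp.exists_le_sylow
  have hPS' : P = (S : Subgroup G) := by
    by_contra hne
    have hlt : P < (S : Subgroup G) := lt_of_le_of_ne hPS hne
    obtain ⟨g, hgS, hgN, hgP⟩ := Cfsg.Agent.Lib.Helper6.exists_mem_normalizer_not_mem (S : Subgroup G) P S.isPGroup' hlt
    rw [hNP] at hgN
    apply hgP
    obtain ⟨a, ha⟩ := (IsPGroup.iff_orderOf.mp S.isPGroup') ⟨g, hgS⟩
    have ha' : orderOf (⟨g, hgN⟩ : M) = p ^ a := by
      rw [Subgroup.orderOf_mk, ← ha, Subgroup.orderOf_mk]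
    have := Cfsg.Agent.Lib.Helper6.mem_normal_sylow PM hPMn (⟨g, hgN⟩ : M) a ha'
    rw [hPdef]
    exact ⟨⟨g, hgN⟩, this, rfl⟩
  have hidx : ¬ p ∣ M.index := by
    intro h
    have h1 : M.index ∣ (S : Subgroup G).index := Subgroup.index_dvd_of_le (hPS' ▸ hPM)
    exact S.not_dvd_index (dvd_trans h h1)
  refine ⟨hidx, ?_⟩
  obtain ⟨W, hWdef⟩ : ∃ W : Subgroup G, W = Cfsg.centerThompsonAOf (S : Subgroup G) := ⟨_, rfl⟩
  have hWS : W ≤ (S : Subgroup G) := by rw [hWdef]; exact Cfsg.Agent.Lib.Helper6.centerThompsonAOf_le _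
  have hWne : W ≠ ⊥ := by
    rw [hWdef]
    exact Cfsg.Agent.Lib.Helper6.centerThompsonAOf_ne_bot _ S.isPGroup' (hPS' ▸ hPne)
  have hWM : W ≤ M := hWS.trans (hPS' ▸ hPM)
  have hNW : Subgroup.normalizer (W : Set G) = M := by
    have h1 : M ≤ Subgroup.normalizer (W : Set G) := by
      rw [hWdef, ← hNP, hPS']
      exact Cfsg.Agent.Lib.Helper6.normalizer_le_normalizer_centerThompsonAOf _
    rcases hmax.le_iff.mp h1 with h | h
    · exact absurd h (hcoreM W hWM hWne)
    · exact h
  have hnpcM : Cfsg.HasNormalPComplement p ↥M := Cfsg.Agent.Lib.Helper6.npc_of_nilpotent p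
  have hnpcN : Cfsg.HasNormalPComplement p ↥(Subgroup.normalizer (Cfsg.centerThompsonAOf (S : Subgroup G) : Set G)) := by
    rw [← hWdef, hNW]
    exact hnpcM
  obtain ⟨S', K, hKn, hK⟩ := Cfsg.Agent.S0659.result hp2 S hnpcN
  refine ⟨K, hKn, ?_, ?_⟩
  · have h1 : (S' : Subgroup G).index = Nat.card K := hK.index_eq_card
    rw [← h1]
    exact S'.not_dvd_index
  · have h1 : K.index = Nat.card (S' : Subgroup G) := hK.symm.index_eq_card
    rw [h1]
    exact IsPGroup.iff_card.mp S'.isPGroup'

theorem solv_main : ∀ (n : ℕ) (G : Type u) [Group G] [Finite G], Nat.card G = n →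
    ∀ (M : Subgroup G), IsCoatom M → Group.IsNilpotent M → Odd (Nat.card M) → Group.IsSolvable G := by
  intro n
  induction n using Nat.strong_induction_on with
  | _ n ih =>
  intro G _ _ hn M hmax hnil hodd
  classical
  haveI := hnil
  by_cases hcore : M.normalCore = ⊥
  swap
  · obtain ⟨N, hNdef⟩ : ∃ N : Subgroup G, N = M.normalCore := ⟨_, rfl⟩
    haveI hNn : N.Normal := by rw [hNdef]; infer_instance
    have hNM : N ≤ M := by rw [hNdef]; exact Subgroup.normalCore_le M
    have hNne : N ≠ ⊥ := by rw [hNdef]; exact hcore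
    have hlt : Nat.card (G ⧸ N) < n := by
      rw [← hn]; exact Cfsg.Agent.Lib.Lead.card_quotient_lt N hNne
    have hmax' := Cfsg.Agent.Lib.Helper6.isCoatom_map_mk N M hNM hmax
    have hnil' : Group.IsNilpotent (M.map (QuotientGroup.mk' N)) := by
      have hsurj : Function.Surjective ((QuotientGroup.mk' N).subgroupMap M) := (QuotientGroup.mk' N).subgroupMap_surjective M
      exact Group.nilpotent_of_surjective _ hsurj
    have hodd' : Odd (Nat.card (M.map (QuotientGroup.mk' N))) :=
      Odd.of_dvd_nat hodd (Subgroup.card_map_dvd M _)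
    haveI : Group.IsSolvable (G ⧸ N) := ih _ hlt (G ⧸ N) rfl _ hmax' hnil' hodd'
    haveI : Group.IsSolvable N := by
      have : Group.IsSolvable (N.subgroupOf M) := inferInstance
      exact Group.isSolvable_of_isSolvable_injective (f := (Subgroup.subgroupOfEquivOfLe hNM).symm.toMonoidHom) (Subgroup.subgroupOfEquivOfLe hNM).symm.injective
    exact Group.isSolvable_of_ker_le_range N.subtype (QuotientGroup.mk' N) (by rw [QuotientGroup.ker_mk', Subgroup.range_subtype])
  · by_cases hMbot : M = ⊥
    · subst hMbot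
      have hz : ∀ x : G, x ≠ 1 → Subgroup.zpowers x = ⊤ := by
        intro x hx
        apply hmax.2
        rw [bot_lt_iff_ne_bot]
        intro h
        exact hx (Subgroup.zpowers_eq_bot.mp h)
      apply Group.isSolvable_of_comm
      intro a b
      by_cases ha : a = 1
      · rw [ha, one_mul, mul_one]
      · have hb : b ∈ Subgroup.zpowers a := by rw [hz a ha]; exact Subgroup.mem_top b
        obtain ⟨k, rfl⟩ := Subgroup.mem_zpowers_iff.mp hb
        exact (Commute.zpow_right (Commute.refl a) k).eq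
    · -- main case
      have hkey := fun (p : ℕ) (hp : p.Prime) (hpM : p ∣ Nat.card M) => key_prime M hmax hodd hcore p hp hpM
      choose Kf hKf using fun (q : {p : ℕ // p.Prime ∧ p ∣ Nat.card M}) => (hkey q.1 q.2.1 q.2.2).2
      obtain ⟨K, hKdef⟩ : ∃ K : Subgroup G, K = ⨅ q, Kf q := ⟨_, rfl⟩
      haveI hKn : K.Normal := by
        rw [hKdef]
        exact Subgroup.normal_iInf_normal (fun q => (hKf q).1)
      have hcop : (Nat.card M).Coprime (Nat.card K) := by
        apply Nat.coprime_of_dvd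
        intro p hp hpM hpK
        have h1 : K ≤ Kf ⟨p, hp, hpM⟩ := by rw [hKdef]; exact iInf_le _ _
        exact (hKf ⟨p, hp, hpM⟩).2.1 (dvd_trans hpK (Subgroup.card_dvd_of_le h1))
      have hKne : K ≠ ⊥ := by
        intro hKbot
        apply hmax.1
        rw [← Subgroup.index_eq_one, Nat.eq_one_iff_not_exists_prime_dvd]
        intro q hq hqd
        by_cases hqM : q ∣ Nat.card M
        · exact (hkey q hq hqM).1 hqd
        · haveI : Fact q.Prime := ⟨hq⟩
          obtain ⟨Q⟩ : Nonempty (Sylow q G) := inferInstance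
          have hQK : (Q : Subgroup G) ≤ K := by
            rw [hKdef]
            apply le_iInf
            intro r x hx
            obtain ⟨k, hk⟩ := (hKf r).2.2
            haveI := (hKf r).1
            have h1 : x ^ (r.1 ^ k) ∈ Kf r := by
              rw [← hk]; exact Subgroup.pow_index_mem _ x
            obtain ⟨b, hb⟩ := (IsPGroup.iff_orderOf.mp Q.isPGroup') ⟨x, hx⟩
            have h2 : x ^ (q ^ b) = 1 := by
              rw [← hb, Subgroup.orderOf_mk]; exact pow_orderOf_eq_one x
            have hrq : r.1 ≠ q := by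
              rintro h
              exact hqM (h ▸ r.2.2)
            have hcop2 : Nat.Coprime (r.1 ^ k) (q ^ b) := by
              apply Nat.Coprime.pow
              exact (Nat.coprime_primes r.2.1 hq).mpr hrq
            have hbez := Nat.gcd_eq_gcd_ab (r.1 ^ k) (q ^ b)
            rw [hcop2.gcd_eq_one] at hbez
            have : x = (x ^ (r.1 ^ k)) ^ (Nat.gcdA (r.1 ^ k) (q ^ b)) * (x ^ (q ^ b)) ^ (Nat.gcdB (r.1 ^ k) (q ^ b)) := by
              rw [← zpow_natCast, ← zpow_natCast, ← zpow_mul, ← zpow_mul, ← zpow_add, ← hbez]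
              simp
            rw [this, h2, one_zpow, mul_one]
            exact (Kf r).zpow_mem h1 _
          rw [hKbot] at hQK
          have hQbot : (Q : Subgroup G) = ⊥ := le_bot_iff.mp hQK
          have hqG : ¬ q ∣ Nat.card G := fun h => Sylow.ne_bot_of_dvd_card Q h hQbot
          exact hqG (dvd_trans hqd (Subgroup.index_dvd_card M))
      have hK1 : Nat.card K ≠ 1 := fun h => hKne (Subgroup.card_eq_one.mp h)
      obtain ⟨q, hq, hqK⟩ := Nat.exists_prime_and_dvd hK1
      haveI : Fact q.Prime := ⟨hq⟩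
      have hMK : M ≤ Subgroup.normalizer (K : Set G) := by
        rw [Subgroup.normalizer_eq_top]; exact le_top
      obtain ⟨Q, hQ⟩ := Cfsg.Agent.Lib.Lead.coprime_exists_invariant_sylow M K hMK hcop (Or.inl inferInstance) q
      obtain ⟨Q', hQ'def⟩ : ∃ Q' : Subgroup G, Q' = (Q : Subgroup K).map K.subtype := ⟨_, rfl⟩
      rw [← hQ'def] at hQ
      have hQ'K : Q' ≤ K := by rw [hQ'def]; exact Subgroup.map_subtype_le _
      have hQ'ne : Q' ≠ ⊥ := by
        rw [hQ'def]
        intro h
        rw [Subgroup.map_eq_bot_iff_of_injective _ K.subtype_injective] at h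
        exact Sylow.ne_bot_of_dvd_card Q hqK h
      have hMKbot : M ⊓ K = ⊥ := disjoint_iff.mp (Subgroup.disjoint_of_coprime_natCard hcop)
      have hMQbot : M ⊓ Q' = ⊥ := le_bot_iff.mp (hMKbot ▸ inf_le_inf_left M hQ'K)
      have hMQtop : M ⊔ Q' = ⊤ := by
        apply hmax.2
        apply lt_of_le_of_ne le_sup_left
        intro h
        have h1 : Q' ≤ M := by rw [h]; exact le_sup_right
        have h2 : Q' ≤ M ⊓ Q' := le_inf h1 le_rfl
        rw [hMQbot] at h2
        exact hQ'ne (le_bot_iff.mp h2)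
      have hc1 := Cfsg.Agent.Lib.Helper1.card_sup_mul_card_inf M Q' hQ
      rw [hMQtop, hMQbot, Subgroup.card_bot, mul_one, Subgroup.card_top] at hc1
      have hc2 := Cfsg.Agent.Lib.Helper1.card_sup_mul_card_inf M K hMK
      rw [hMKbot, Subgroup.card_bot, mul_one] at hc2
      have hc3 : Nat.card ↥(M ⊔ K) ≤ Nat.card G := Subgroup.card_le_card_group _
      have hKQ : K = Q' := by
        symm
        apply Subgroup.eq_of_le_of_card_ge hQ'K
        have : Nat.card M * Nat.card K ≤ Nat.card M * Nat.card Q' := by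
          rw [← hc2, ← hc1]; exact hc3
        exact Nat.le_of_mul_le_mul_left this Nat.card_pos
      have hKp : IsPGroup q K := by
        rw [hKQ, hQ'def]
        exact Q.isPGroup'.map _
      haveI : Group.IsNilpotent K := hKp.isNilpotent
      haveI : Group.IsSolvable K := inferInstance
      have hMKtop : M ⊔ K = ⊤ := by
        rw [hKQ]; exact hMQtop
      haveI : Group.IsSolvable (G ⧸ K) := by
        apply Group.isSolvable_of_surjective (f := (QuotientGroup.mk' K).comp M.subtype)
        intro y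
        obtain ⟨g, rfl⟩ := QuotientGroup.mk'_surjective K y
        have hg : g ∈ ((M ⊔ K : Subgroup G) : Set G) := by rw [hMKtop]; exact Subgroup.mem_top g
        rw [Subgroup.mul_normal] at hg
        obtain ⟨m, hm, k, hk, rfl⟩ := Set.mem_mul.mp hg
        refine ⟨⟨m, hm⟩, ?_⟩
        show QuotientGroup.mk' K m = QuotientGroup.mk' K (m * k)
        have hk1 : (QuotientGroup.mk' K) k = 1 := (QuotientGroup.eq_one_iff k).mpr hk
        rw [map_mul, hk1, mul_one]
      exact Group.isSolvable_of_ker_le_range K.subtype (QuotientGroup.mk' K) (by rw [QuotientGroup.ker_mk', Subgroup.range_subtype])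

/-- A finite group possessing a maximal subgroup that is nilpotent of odd order is solvable. -/
theorem result {G : Type*} [Group G] [Finite G]
    (M : Subgroup G) (hmax : IsCoatom M) (hnil : Group.IsNilpotent M) (hodd : Odd (Nat.card M)) :
    Group.IsSolvable G := by
  exact solv_main (Nat.card G) G rfl M hmax hnil hodd

end Cfsg.Agent.S4040
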