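import Cfsg.Statements.S4043
import Mathlib
import Cfsg.Agent.Lib.Helper6.Conj
import Cfsg.Agent.Lib.Lead.SZ2
-- import your own Cfsg.Agent.* helpers here

set_option autoImplicit false
open Cfsg

namespace Cfsg.Agent.S4043

section helpers

open Cfsg.Agent.Lib.Helper6

variable {G : Type*} [Group G]

theorem exists_fixed_of_pgroups [Finite G] {p : ℕ} [Fact p.Prime] (S N : Subgroup G)
    (hS : IsPGroup p S) (hN : IsPGroup p N)
    (hSN : S ≤ Subgroup.normalizer (N : Set G)) (hne : N ≠ ⊥) :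
    ∃ n ∈ N, n ≠ 1 ∧ ∀ s ∈ S, s * n * s⁻¹ = n := by
  classical
  letI : MulAction S N :=
    { smul := fun s n => ⟨(s : G) * n * (s : G)⁻¹,
        (Subgroup.le_normalizer_iff.mp hSN) s s.2 n n.2⟩
      one_smul := fun n => Subtype.ext (by
        show ((1 : S) : G) * n * ((1 : S) : G)⁻¹ = n
        simp)
      mul_smul := fun s t n => Subtype.ext (by
        show ((s * t : S) : G) * n * ((s * t : S) : G)⁻¹
          = (s : G) * ((t : G) * n * (t : G)⁻¹) * (s : G)⁻¹
        simp [mul_assoc]) }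
  have hsm : ∀ (s : S) (n : N), ((s • n : N) : G) = (s : G) * n * (s : G)⁻¹ := fun _ _ => rfl
  have h := hS.card_modEq_card_fixedPoints N
  have hdvd : p ∣ Nat.card N := by
    rcases hN.card_eq_or_dvd with h1 | h1
    · exact absurd (Subgroup.card_eq_one.1 h1) hne
    · exact h1
  have hdvd2 : p ∣ Nat.card (MulAction.fixedPoints S N) :=
    (Nat.modEq_zero_iff_dvd).mp (h.symm.trans ((Nat.modEq_zero_iff_dvd).mpr hdvd))
  have hone : (1 : N) ∈ MulAction.fixedPoints S N := by
    intro s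
    apply Subtype.ext
    rw [hsm]; simp
  haveI : Nonempty (MulAction.fixedPoints S N) := ⟨⟨1, hone⟩⟩
  have hpos : 0 < Nat.card (MulAction.fixedPoints S N) := Nat.card_pos
  have h2 : 1 < Nat.card (MulAction.fixedPoints S N) := by
    have := Nat.le_of_dvd hpos hdvd2
    have hp := (Fact.out : p.Prime).two_le
    omega
  haveI : Nontrivial (MulAction.fixedPoints S N) := Finite.one_lt_card_iff_nontrivial.mp h2
  obtain ⟨x, hx⟩ := exists_ne (⟨1, hone⟩ : MulAction.fixedPoints S N)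
  refine ⟨((x : N) : G), (x : N).2, ?_, ?_⟩
  · intro h1
    apply hx
    apply Subtype.ext; apply Subtype.ext; exact h1
  · intro s hs
    have := x.2 ⟨s, hs⟩
    have h3 := congrArg (fun n : N => (n : G)) this
    simpa [hsm] using h3

theorem lemmaB [Finite G] {p : ℕ} [Fact p.Prime] (A A₁ K S : Subgroup G)
    (hK : K ≤ A) (hK₁ : K ≤ A₁) (hKn : A ≤ Subgroup.normalizer (K : Set G))
    (hKn₁ : A₁ ≤ Subgroup.normalizer (K : Set G))
    (hS : IsPGroup p S) (hSA : S ≤ A) (hdec : ∀ a ∈ A, ∃ k ∈ K, ∃ s ∈ S, a = k * s) :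
    ∀ (k : ℕ) (N : Subgroup G), Nat.card N = k → IsPGroup p N →
      A ≤ Subgroup.normalizer (N : Set G) → A₁ ≤ Subgroup.normalizer (N : Set G) →
      N ⊓ A = ⊥ → N ⊓ A₁ = ⊥ → N ⊔ A = N ⊔ A₁ →
      (∀ n ∈ N, (∀ a ∈ A, a * n * a⁻¹ = n) → n = 1) →
      ∃ n ∈ N, A₁ = A.map (MulAut.conj n).toMonoidHom := by
  intro k
  induction k using Nat.strong_induction_on with
  | _ k ih =>
  intro N hk hN hAN hA₁N hdisj hdisj₁ hsup hC
  set C : Subgroup G := N ⊓ Subgroup.centralizer (K : Set G) with hCdef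
  by_cases hCN : C = N
  · have hNK : N ≤ Subgroup.centralizer (K : Set G) := by rw [← hCN]; exact inf_le_right
    have hNbot : N = ⊥ := by
      by_contra hne
      obtain ⟨n, hn, hn1, hfix⟩ := exists_fixed_of_pgroups S N hS hN (hSA.trans hAN) hne
      apply hn1
      apply hC n hn
      intro a ha
      obtain ⟨k', hk', s, hs, rfl⟩ := hdec a ha
      have h1 : k' * n = n * k' := (Subgroup.mem_centralizer_iff.mp (hNK hn)) k' hk'
      have h2 := hfix s hs
      calc k' * s * n * (k' * s)⁻¹ = k' * (s * n * s⁻¹) * k'⁻¹ := by group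
        _ = k' * n * k'⁻¹ := by rw [h2]
        _ = n := by rw [h1]; group
    refine ⟨1, N.one_mem, ?_⟩
    rw [map_conj_one]
    rw [hNbot, bot_sup_eq, bot_sup_eq] at hsup
    exact hsup.symm
  · have hCle : C ≤ N := inf_le_left
    have hClt : Nat.card C < k := by
      rw [← hk]
      rcases (Subgroup.card_le_of_le hCle).lt_or_eq with h | h
      · exact h
      · exact absurd (Subgroup.eq_of_le_of_card_ge hCle h.ge) hCN
    have hnormC : ∀ X : Subgroup G, X ≤ Subgroup.normalizer (N : Set G) →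
        X ≤ Subgroup.normalizer (K : Set G) → X ≤ Subgroup.normalizer (C : Set G) := by
      intro X hXN hXK
      rw [Subgroup.le_normalizer_iff] at hXN hXK ⊢
      intro x hx c hc
      refine ⟨hXN x hx c hc.1, ?_⟩
      show x * c * x⁻¹ ∈ Subgroup.centralizer (K : Set G)
      rw [Subgroup.mem_centralizer_iff]
      intro k' hk'
      have hc2 := Subgroup.mem_centralizer_iff.mp hc.2
      have hk'' : x⁻¹ * k' * x ∈ K := by
        have := hXK x⁻¹ (X.inv_mem hx) k' hk'
        simpa using this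
      have h3 := hc2 _ hk''
      calc k' * (x * c * x⁻¹) = x * ((x⁻¹ * k' * x) * c) * x⁻¹ := by group
        _ = x * (c * (x⁻¹ * k' * x)) * x⁻¹ := by rw [h3]
        _ = x * c * x⁻¹ * k' := by group
    have hAC := hnormC A hAN hKn
    have hA₁C := hnormC A₁ hA₁N hKn₁
    have hsupC : ∀ X : Subgroup G, X ≤ Subgroup.normalizer (N : Set G) →
        X ≤ Subgroup.normalizer (K : Set G) → K ≤ X → N ⊓ X = ⊥ →
        C ⊔ X = (N ⊔ X) ⊓ Subgroup.normalizer (K : Set G) := by
      intro X hXN hXK hKX hd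
      apply le_antisymm
      · apply sup_le
        · exact le_inf (inf_le_left.trans le_sup_left)
            (inf_le_right.trans (Subgroup.centralizer_le_normalizer _))
        · exact le_inf le_sup_right hXK
      · rintro g ⟨hg1, hg2⟩
        have hg1' : g ∈ ((N ⊔ X : Subgroup G) : Set G) := hg1
        rw [Subgroup.coe_mul_of_right_le_normalizer_left N X hXN, Set.mem_mul] at hg1'
        obtain ⟨n, hn, a, ha, rfl⟩ := hg1'
        have hn2 : n ∈ Subgroup.normalizer (K : Set G) := by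
          have : n = (n * a) * a⁻¹ := by group
          rw [this]
          exact Subgroup.mul_mem _ hg2 (Subgroup.inv_mem _ (hXK ha))
        have hnC : n ∈ C := by
          refine ⟨hn, ?_⟩
          show n ∈ Subgroup.centralizer (K : Set G)
          rw [Subgroup.mem_centralizer_iff]
          intro k' hk'
          have h1 : n * k' * n⁻¹ * k'⁻¹ ∈ N ⊓ X := by
            constructor
            · have := (Subgroup.le_normalizer_iff.mp hXN) k' (hKX hk') n⁻¹ (N.inv_mem hn)
              have e : n * k' * n⁻¹ * k'⁻¹ = n * (k' * n⁻¹ * k'⁻¹) := by group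
              rw [e]; exact N.mul_mem hn this
            · have h3 : n * k' * n⁻¹ ∈ K :=
                (Subgroup.le_normalizer_iff.mp (le_refl (Subgroup.normalizer (K : Set G))))
                  n hn2 k' hk'
              exact X.mul_mem (hKX h3) (X.inv_mem (hKX hk'))
          rw [hd, Subgroup.mem_bot] at h1
          have h4 : n * k' * n⁻¹ = k' := by
            have := mul_inv_eq_one.mp h1
            exact this
          calc k' * n = (n * k' * n⁻¹) * n := by rw [h4]
            _ = n * k' := by group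
        exact Subgroup.mul_mem_sup hnC ha
    have hsup' : C ⊔ A = C ⊔ A₁ := by
      rw [hsupC A hAN hKn hK hdisj, hsupC A₁ hA₁N hKn₁ hK₁ hdisj₁, hsup]
    obtain ⟨n, hn, h⟩ := ih (Nat.card C) hClt C rfl (hN.to_le hCle) hAC hA₁C
      (by rw [eq_bot_iff, ← hdisj]; exact inf_le_inf_right _ hCle)
      (by rw [eq_bot_iff, ← hdisj₁]; exact inf_le_inf_right _ hCle) hsup'
      (fun n hn hfix => hC n hn.1 hfix)
    exact ⟨n, hn.1, h⟩

theorem npc_data [Finite G] {p : ℕ} [Fact p.Prime] (A : Subgroup G)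
    (h : Cfsg.HasNormalPComplement p A) :
    ∃ K S : Subgroup G, K ≤ A ∧ S ≤ A ∧ A ≤ Subgroup.normalizer (K : Set G) ∧
      (Nat.card K).Coprime p ∧ IsPGroup p S ∧
      (∀ a ∈ A, ∃ k ∈ K, ∃ s ∈ S, a = k * s) ∧ Nat.card K * Nat.card S = Nat.card A := by
  obtain ⟨P, M, hM, hc⟩ := h
  refine ⟨M.map A.subtype, (P : Subgroup A).map A.subtype, Subgroup.map_subtype_le _,
    Subgroup.map_subtype_le _, ?_, ?_, ?_, ?_, ?_⟩
  · rw [Subgroup.le_normalizer_iff]
    intro a ha k hk
    obtain ⟨m, hm, rfl⟩ := hk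
    exact ⟨⟨a, ha⟩ * m * ⟨a, ha⟩⁻¹, hM.conj_mem m hm ⟨a, ha⟩, rfl⟩
  · rw [Subgroup.card_map_of_injective A.subtype_injective]
    have h1 : Nat.card M * Nat.card (P : Subgroup A) = Nat.card A := hc.card_mul_card
    have h2 : Nat.card (P : Subgroup A) * (P : Subgroup A).index = Nat.card A :=
      Subgroup.card_mul_index _
    have h3 : Nat.card M = (P : Subgroup A).index := by
      have hpos : 0 < Nat.card (P : Subgroup A) := Nat.card_pos
      apply Nat.eq_of_mul_eq_mul_left hpos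
      rw [h2, mul_comm, h1]
    rw [h3]
    exact ((Nat.Prime.coprime_iff_not_dvd Fact.out).mpr P.not_dvd_index).symm
  · exact P.isPGroup'.map A.subtype
  · intro a ha
    obtain ⟨⟨⟨m, hm⟩, ⟨s, hs⟩⟩, e, _⟩ := Subgroup.IsComplement.existsUnique hc ⟨a, ha⟩
    simp only at e
    refine ⟨m, ⟨m, hm, rfl⟩, s, ⟨s, hs, rfl⟩, ?_⟩
    have := congrArg (fun z : A => (z : G)) e
    exact this.symm
  · rw [Subgroup.card_map_of_injective A.subtype_injective,
      Subgroup.card_map_of_injective A.subtype_injective]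
    exact hc.card_mul_card

end helpers

/-- Let G be a finite group that is the semidirect product of a normal p-subgroup N by a subgroup A, and also of N by a subgroup A₁, where p is a prime and A and A₁ both have normal p-complements. If C_N(A) = C_N(A₁) = 1, then A₁ is conjugate to A by an element of N. -/
theorem result {G : Type*} [Group G] [Finite G] {p : ℕ}
    [Fact p.Prime] (N : Subgroup G) [N.Normal] (hN : IsPGroup p N) (A A₁ : Subgroup G)
    (hA : A.IsComplement' N) (hA₁ : A₁.IsComplement' N)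
    (hAp : Cfsg.HasNormalPComplement p A) (hA₁p : Cfsg.HasNormalPComplement p A₁)
    (hC : ∀ n : G, n ∈ N → (∀ a : G, a ∈ A → a * n * a⁻¹ = n) → n = 1)
    (hC₁ : ∀ n : G, n ∈ N → (∀ a : G, a ∈ A₁ → a * n * a⁻¹ = n) → n = 1) :
    ∃ n : G, n ∈ N ∧ A₁ = A.map (MulAut.conj n).toMonoidHom := by
  classical
  have hp : p.Prime := Fact.out
  have hNA : N ⊓ A = ⊥ := by rw [inf_comm]; exact hA.disjoint.eq_bot
  have hNA₁ : N ⊓ A₁ = ⊥ := by rw [inf_comm]; exact hA₁.disjoint.eq_bot
  have hsupA : N ⊔ A = ⊤ := by rw [sup_comm]; exact hA.sup_eq_top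
  have hsupA₁ : N ⊔ A₁ = ⊤ := by rw [sup_comm]; exact hA₁.sup_eq_top
  have hnormN : ∀ X : Subgroup G, X ≤ Subgroup.normalizer (N : Set G) := fun X => by
    rw [Subgroup.normalizer_eq_top]; exact le_top
  obtain ⟨K, S, hK, hSA, hKn, hKcop, hS, hdec, hcardKS⟩ := npc_data A hAp
  obtain ⟨K₁, S₁, hK₁, hSA₁, hKn₁, hKcop₁, hS₁, hdec₁, hcardKS₁⟩ := npc_data A₁ hA₁p
  have hcardA : Nat.card A = Nat.card A₁ := by
    have h1 := hA.card_mul_card
    have h2 := hA₁.card_mul_card
    have hpos : 0 < Nat.card N := Nat.card_pos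
    exact Nat.eq_of_mul_eq_mul_right hpos (h1.trans h2.symm)
  obtain ⟨s, hs⟩ := IsPGroup.iff_card.mp hS
  obtain ⟨s₁, hs₁⟩ := IsPGroup.iff_card.mp hS₁
  obtain ⟨j, hj⟩ := IsPGroup.iff_card.mp hN
  have hcardK : Nat.card K₁ = Nat.card K := by
    have e : Nat.card K * p ^ s = Nat.card K₁ * p ^ s₁ := by
      rw [← hs, ← hs₁, hcardKS, hcardKS₁, hcardA]
    apply Nat.dvd_antisymm
    · exact (Nat.Coprime.pow_right s hKcop₁).dvd_of_dvd_mul_right (Dvd.intro (p ^ s₁) e.symm)
    · exact (Nat.Coprime.pow_right s₁ hKcop).dvd_of_dvd_mul_right (Dvd.intro (p ^ s) e)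
  have hLn : (K ⊔ N).Normal := by
    rw [← Subgroup.normalizer_eq_top_iff, eq_top_iff, ← hsupA]
    apply sup_le
    · exact le_sup_right.trans Subgroup.le_normalizer
    · intro a ha
      rw [← Cfsg.Agent.Lib.Helper6.map_conj_eq_self_iff, Subgroup.map_sup,
        (Cfsg.Agent.Lib.Helper6.map_conj_eq_self_iff K a).mpr (hKn ha),
        (Cfsg.Agent.Lib.Helper6.map_conj_eq_self_iff N a).mpr (hnormN A ha)]
  have hKidx : K.index = p ^ (s + j) := by
    have h1 := Subgroup.card_mul_index K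
    have h2 := hA.card_mul_card
    rw [← h2, ← hcardKS, hs, hj] at h1
    have hpos : 0 < Nat.card K := Nat.card_pos
    apply Nat.eq_of_mul_eq_mul_left hpos
    rw [h1, pow_add]; ring
  have hLidx : ∃ t, (K ⊔ N).index = p ^ t := by
    have := Subgroup.index_dvd_of_le (le_sup_left : K ≤ K ⊔ N)
    rw [hKidx] at this
    obtain ⟨t, _, ht⟩ := (Nat.dvd_prime_pow hp).mp this
    exact ⟨t, ht⟩
  have hK₁L : K₁ ≤ K ⊔ N := by
    intro x hx
    obtain ⟨t, ht⟩ := hLidx
    have h1 : x ^ (K ⊔ N).index ∈ K ⊔ N := Subgroup.pow_index_mem _ x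
    have hord : orderOf x ∣ Nat.card K₁ := by
      have := orderOf_dvd_natCard (⟨x, hx⟩ : K₁)
      rwa [Subgroup.orderOf_mk] at this
    have hcop : ((K ⊔ N).index).Coprime (orderOf x) := by
      rw [ht]
      exact Nat.Coprime.pow_left t ((Nat.Coprime.coprime_dvd_left hord hKcop₁).symm)
    obtain ⟨m, hm⟩ := exists_pow_eq_self_of_coprime hcop
    rw [← hm]
    exact Subgroup.pow_mem _ h1 m
  have hsolv : Group.IsSolvable N := by
    haveI := hN.isNilpotent
    infer_instance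
  obtain ⟨n, hn, hconj⟩ := Cfsg.Agent.Lib.Lead.szc N K K₁ (hnormN K) hK₁L hcardK
    (by rw [hj]; exact Nat.Coprime.pow_left j hKcop.symm) (Or.inl hsolv)
  have hconj' : K.map (MulAut.conj n).toMonoidHom = K₁ := hconj
  have hK₁A' : K₁ ≤ A.map (MulAut.conj n).toMonoidHom := by
    rw [← hconj']; exact Subgroup.map_mono hK
  have hA'K₁ : A.map (MulAut.conj n).toMonoidHom ≤ Subgroup.normalizer (K₁ : Set G) := by
    rw [← hconj']
    exact (Subgroup.map_mono hKn).trans (Subgroup.le_normalizer_map _)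
  have hNA' : N ⊓ A.map (MulAut.conj n).toMonoidHom = ⊥ := by
    rw [eq_bot_iff]
    rintro x ⟨hxN, hxA⟩
    have hxA' : x ∈ A.map (MulAut.conj n).toMonoidHom := hxA
    rw [Cfsg.Agent.Lib.Helper6.mem_map_conj] at hxA'
    have h1 : n⁻¹ * x * n ∈ N ⊓ A := ⟨N.mul_mem (N.mul_mem (N.inv_mem hn) hxN) hn, hxA'⟩
    rw [hNA, Subgroup.mem_bot] at h1
    rw [Subgroup.mem_bot]
    have h2 : x = n * (n⁻¹ * x * n) * n⁻¹ := by group
    rw [h2, h1]; group
  have hsupA' : N ⊔ A.map (MulAut.conj n).toMonoidHom = ⊤ := by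
    have h1 : (N ⊔ A).map (MulAut.conj n).toMonoidHom = ⊤ := by
      rw [hsupA]; exact Subgroup.map_top_of_surjective _ (MulAut.conj n).surjective
    rw [Subgroup.map_sup,
      (Cfsg.Agent.Lib.Helper6.map_conj_eq_self_iff N n).mpr (hnormN N hn)] at h1
    exact h1
  obtain ⟨m, hm, hres⟩ := lemmaB A₁ (A.map (MulAut.conj n).toMonoidHom) K₁ S₁ hK₁ hK₁A' hKn₁
    hA'K₁ hS₁ hSA₁ hdec₁ (Nat.card N) N rfl hN
    (hnormN A₁) (hnormN _) hNA₁ hNA' (hsupA₁.trans hsupA'.symm) hC₁
  refine ⟨m⁻¹ * n, N.mul_mem (N.inv_mem hm) hn, ?_⟩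
  rw [Cfsg.Agent.Lib.Helper6.map_conj_mul, hres, Cfsg.Agent.Lib.Helper6.map_conj_inv_map_conj]

end Cfsg.Agent.S4043
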