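import Cfsg.Statements.S4049
import Mathlib
import Cfsg.Agent.Lib.Helper6.TwoSylow
-- import your own Cfsg.Agent.* helpers here

set_option autoImplicit false
open Cfsg

namespace Cfsg.Agent.S4049

open Cfsg.Agent.Lib.Helper6


/-- Let G be a finite group such that N_G(H)/C_G(H) has odd order for every nontrivial subgroup H of odd order. Then the Sylow 2-subgroups of G are normal. -/
theorem result {G : Type*} [Group G] [Finite G]
    (hhom : ∀ H : Subgroup G, H ≠ ⊥ → ¬ 2 ∣ Nat.card ↥H →
        ¬ 2 ∣ (Subgroup.centralizer (H : Set G)).relIndex (Subgroup.normalizer (H : Set G))) (P : Sylow 2 G) :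
    (P : Subgroup G).Normal := by
  by_contra hnn
  obtain ⟨q, r, s, hq, hq2, hro, hinv⟩ := exists_inverted_of_sylow2_not_normal P hnn
  have hr1 : r ≠ 1 := by
    intro h
    rw [h, orderOf_one] at hro
    exact hq.one_lt.ne hro
  set H := Subgroup.zpowers r with hH
  have hHne : H ≠ ⊥ := by
    intro h
    apply hr1
    have : r ∈ H := Subgroup.mem_zpowers r
    rw [h, Subgroup.mem_bot] at this
    exact this
  have hHodd : ¬ 2 ∣ Nat.card H := by
    rw [hH, Nat.card_zpowers, hro]
    intro h
    exact hq2 ((Nat.prime_dvd_prime_iff_eq Nat.prime_two hq).mp h).symm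
  apply hhom H hHne hHodd
  have hsN : s ∈ Subgroup.normalizer (H : Set G) := mem_normalizer_zpowers_of_inv s r hinv
  -- the image of s in N/C has order 2
  set C' := (Subgroup.centralizer (H : Set G)).subgroupOf (Subgroup.normalizer (H : Set G)) with hC'
  have hC'n : C'.Normal := Subgroup.normal_subgroupOf_centralizer_normalizer (H : Set G)
  show 2 ∣ C'.index
  rw [Subgroup.index_eq_card]
  set sb : Subgroup.normalizer (H : Set G) ⧸ C' := QuotientGroup.mk' C' ⟨s, hsN⟩ with hsb
  have hsb1 : sb ≠ 1 := by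
    intro h
    rw [hsb, QuotientGroup.mk'_apply, QuotientGroup.eq_one_iff, hC', Subgroup.mem_subgroupOf,
      Subgroup.mem_centralizer_iff] at h
    have h3 := h r (Subgroup.mem_zpowers r)
    apply ne_inv_of_orderOf_odd_prime r q hq hq2 hro
    rw [← hinv, ← h3]
    group
  have hsb2 : sb ^ 2 = 1 := by
    rw [sq, hsb, ← map_mul, QuotientGroup.mk'_apply, QuotientGroup.eq_one_iff, hC',
      Subgroup.mem_subgroupOf, Subgroup.mem_centralizer_iff]
    intro k hk
    obtain ⟨i, rfl⟩ := hk
    show r ^ i * (s * s) = s * s * r ^ i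
    have h4 : s * s * r * (s * s)⁻¹ = r := by
      calc s * s * r * (s * s)⁻¹ = s * (s * r * s⁻¹) * s⁻¹ := by group
        _ = s * r⁻¹ * s⁻¹ := by rw [hinv]
        _ = (s * r * s⁻¹)⁻¹ := by group
        _ = r := by rw [hinv, inv_inv]
    have h5 : s * s * r ^ i * (s * s)⁻¹ = r ^ i := by
      rw [← conj_zpow, h4]
    calc r ^ i * (s * s) = (s * s * r ^ i * (s * s)⁻¹) * (s * s) := by rw [h5]
      _ = s * s * r ^ i := by group
  have h2f : Fact (Nat.Prime 2) := ⟨Nat.prime_two⟩
  have hord : orderOf sb = 2 := orderOf_eq_prime hsb2 hsb1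
  rw [← hord]
  exact orderOf_dvd_natCard sb

end Cfsg.Agent.S4049
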