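import Cfsg.Statements.S4050
import Mathlib
import Cfsg.Agent.Lib.Helper6.PiSub
-- import your own Cfsg.Agent.* helpers here

set_option autoImplicit false
open Cfsg

namespace Cfsg.Agent.S4050


open Cfsg.Agent.Lib.Helper6 in
theorem s4050_mp {G : Type*} [Group G] [Finite G] (π : Set ℕ)
    (Kπ : Subgroup G) (hKpi : ∀ x : G, x ∈ Kπ ↔ PiElt π x) :
    ((∃ (n : ℕ) (H : Fin (n + 1) → Subgroup G), H 0 = ⊥ ∧ H (Fin.last n) = ⊤ ∧ Monotone H ∧ (∀ i, (H i).Normal) ∧
      ∀ i : Fin n, (∀ q : ℕ, q.Prime → q ∣ (H i.castSucc).relIndex (H i.succ) → q ∈ π) ∨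
        (∀ q : ℕ, q.Prime → q ∣ (H i.castSucc).relIndex (H i.succ) → q ∉ π)) ∧
     (∀ H : Subgroup G, H ≠ ⊥ → (∀ p : ℕ, p.Prime → p ∣ Nat.card ↥H → p ∉ π) →
        ∀ p : ℕ, p.Prime → p ∣ (Subgroup.centralizer (H : Set G)).relIndex (Subgroup.normalizer (H : Set G)) → p ∉ π)) := by
  have hKn : Kπ.Normal := ⟨fun x hx g => (hKpi _).2 (((hKpi x).1 hx).conj g)⟩
  refine ⟨⟨2, ![⊥, Kπ, ⊤], rfl, rfl, ?_, ?_, ?_⟩, ?_⟩
  · rw [Fin.monotone_iff_le_succ]
    intro i
    fin_cases i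
    · show (⊥ : Subgroup G) ≤ Kπ
      exact bot_le
    · show Kπ ≤ (⊤ : Subgroup G)
      exact le_top
  · intro i
    fin_cases i
    · show (⊥ : Subgroup G).Normal
      infer_instance
    · exact hKn
    · show (⊤ : Subgroup G).Normal
      infer_instance
  · intro i
    fin_cases i
    · left
      show ∀ q : ℕ, q.Prime → q ∣ (⊥ : Subgroup G).relIndex Kπ → q ∈ π
      intro q hq hqd
      rw [Subgroup.relIndex_bot_left] at hqd
      exact piNum_card_of_forall (fun a => (piElt_coe_iff a).1 ((hKpi a.1).1 a.2)) q hq hqd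
    · right
      show ∀ q : ℕ, q.Prime → q ∣ Kπ.relIndex (⊤ : Subgroup G) → q ∉ π
      intro q hq hqd hqπ
      rw [Subgroup.relIndex_top_right, Subgroup.index_eq_card] at hqd
      have : Fact q.Prime := ⟨hq⟩
      obtain ⟨a, ha⟩ := exists_prime_orderOf_dvd_card' (G := G ⧸ Kπ) q hqd
      obtain ⟨g, rfl⟩ := QuotientGroup.mk'_surjective Kπ a
      have h1 : PiElt π (QuotientGroup.mk' Kπ g) := by
        intro p hp hpd
        rw [ha] at hpd
        rw [(Nat.prime_dvd_prime_iff_eq hp hq).1 hpd]; exact hqπ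
      have h2 : g ∈ Kπ := (hKpi g).2 (piElt_of_quotient Kπ (fun x hx => (hKpi x).1 hx) g h1)
      have h3 : QuotientGroup.mk' Kπ g = 1 := (QuotientGroup.eq_one_iff g).2 h2
      rw [h3, orderOf_one] at ha
      exact hq.ne_one ha.symm
  · intro H hH hHpi p hp hpd hpπ
    have : Fact p.Prime := ⟨hp⟩
    have hcen : ∀ g ∈ Subgroup.normalizer (H : Set G), g ∈ Kπ →
        g ∈ Subgroup.centralizer (H : Set G) := by
      intro g hg hgK
      rw [Subgroup.mem_centralizer_iff]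
      intro h hh
      have hc1 : g * h * g⁻¹ * h⁻¹ ∈ H :=
        H.mul_mem ((Subgroup.mem_normalizer_iff.1 hg h).1 hh) (H.inv_mem hh)
      have hc2 : g * h * g⁻¹ * h⁻¹ ∈ Kπ := by
        have : g * h * g⁻¹ * h⁻¹ = g * (h * g⁻¹ * h⁻¹) := by group
        rw [this]
        exact Kπ.mul_mem hgK (hKn.conj_mem _ (Kπ.inv_mem hgK) h)
      have hc3 : g * h * g⁻¹ * h⁻¹ = 1 := by
        apply eq_one_of_piElt_of_not ((hKpi _).1 hc2)
        intro q hq hqd
        exact hHpi q hq (hqd.trans (Subgroup.orderOf_dvd_natCard H hc1))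
      calc h * g = (g * h * g⁻¹ * h⁻¹)⁻¹ * (g * h) := by group
        _ = g * h := by rw [hc3, inv_one, one_mul]
    obtain ⟨S⟩ : Nonempty (Sylow p ↥(Subgroup.normalizer (H : Set G))) := inferInstance
    have hSle : (S : Subgroup ↥(Subgroup.normalizer (H : Set G))) ≤
        (Subgroup.centralizer (H : Set G)).subgroupOf (Subgroup.normalizer (H : Set G)) := by
      intro s hs
      rw [Subgroup.mem_subgroupOf]
      apply hcen _ s.2
      rw [hKpi]
      obtain ⟨k, hk⟩ := (IsPGroup.iff_orderOf.1 S.2) ⟨s, hs⟩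
      rw [Subgroup.orderOf_mk] at hk
      intro q hq hqd
      rw [Subgroup.orderOf_coe, hk] at hqd
      rw [(Nat.prime_dvd_prime_iff_eq hq hp).1 (hq.dvd_of_dvd_pow hqd)]; exact hpπ
    have h1 := Subgroup.index_dvd_of_le hSle
    exact S.not_dvd_index (hpd.trans h1)

open Cfsg.Agent.Lib.Helper6 in
theorem s4050_mpr {G : Type*} [Group G] [Finite G] (π : Set ℕ)
    (n : ℕ) (H : Fin (n + 1) → Subgroup G) (h0 : H 0 = ⊥) (hlast : H (Fin.last n) = ⊤)
    (hmono : Monotone H) (hnormal : ∀ i, (H i).Normal)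
    (hfac : ∀ i : Fin n, (∀ q : ℕ, q.Prime → q ∣ (H i.castSucc).relIndex (H i.succ) → q ∈ π) ∨
        (∀ q : ℕ, q.Prime → q ∣ (H i.castSucc).relIndex (H i.succ) → q ∉ π))
    (hhom : ∀ H : Subgroup G, H ≠ ⊥ → (∀ p : ℕ, p.Prime → p ∣ Nat.card ↥H → p ∉ π) →
        ∀ p : ℕ, p.Prime → p ∣ (Subgroup.centralizer (H : Set G)).relIndex (Subgroup.normalizer (H : Set G)) → p ∉ π) :
    ∃ K : Subgroup G, ∀ x : G, x ∈ K ↔ ∀ p : ℕ, p.Prime → p ∣ orderOf x → p ∈ π := by
  have hcen := hcen_of_hhom π hhom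
  have key : ∀ i : ℕ, ∀ hi : i < n + 1, ∀ x ∈ H ⟨i, hi⟩, ∀ y ∈ H ⟨i, hi⟩,
      PiElt π x → PiElt π y → PiElt π (x * y) := by
    intro i
    induction i with
    | zero =>
      intro hi x hx y hy _ _
      have h00 : H ⟨0, hi⟩ = ⊥ := h0
      rw [h00, Subgroup.mem_bot] at hx hy
      rw [hx, hy, one_mul]; exact piElt_one
    | succ i ih =>
      intro hi x hx y hy hxpi hypi
      have hi' : i < n := by omega
      have hi2 : i < n + 1 := by omega
      have ih' := ih hi2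
      have hKn : ((H ⟨i, hi2⟩).subgroupOf (H ⟨i + 1, hi⟩)).Normal :=
        (hnormal _).subgroupOf _
      have hK' : ∀ a ∈ (H ⟨i, hi2⟩).subgroupOf (H ⟨i + 1, hi⟩),
          ∀ b ∈ (H ⟨i, hi2⟩).subgroupOf (H ⟨i + 1, hi⟩),
          PiElt π a → PiElt π b → PiElt π (a * b) := by
        intro a ha b hb hapi hbpi
        rw [Subgroup.mem_subgroupOf] at ha hb
        have := ih' (a : G) ha (b : G) hb ((piElt_coe_iff a).2 hapi) ((piElt_coe_iff b).2 hbpi)
        exact (piElt_coe_iff (a * b)).1 this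
      have hidx : Nat.card (↥(H ⟨i + 1, hi⟩) ⧸ (H ⟨i, hi2⟩).subgroupOf (H ⟨i + 1, hi⟩)) =
          (H (⟨i, hi'⟩ : Fin n).castSucc).relIndex (H (⟨i, hi'⟩ : Fin n).succ) := by
        rw [← Subgroup.index_eq_card]; rfl
      have hQ' : ∀ a b : ↥(H ⟨i + 1, hi⟩) ⧸ (H ⟨i, hi2⟩).subgroupOf (H ⟨i + 1, hi⟩),
          PiElt π a → PiElt π b → PiElt π (a * b) := by
        rcases hfac ⟨i, hi'⟩ with hf | hf
        · intro a b _ _
          exact piElt_of_piNum_card (by rw [hidx]; exact hf) (a * b)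
        · intro a b ha hb
          have h1 : ∀ c : ↥(H ⟨i + 1, hi⟩) ⧸ (H ⟨i, hi2⟩).subgroupOf (H ⟨i + 1, hi⟩),
              PiElt π c → c = 1 := by
            intro c hc
            apply eq_one_of_piElt_of_not hc
            intro q hq hqd
            apply hf q hq
            rw [← hidx]
            exact hqd.trans (orderOf_dvd_natCard c)
          rw [h1 a ha, h1 b hb, one_mul]; exact piElt_one
      have hmain := piElt_mul_closed π (hcen_subgroup π hcen (H ⟨i + 1, hi⟩))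
        ((H ⟨i, hi2⟩).subgroupOf (H ⟨i + 1, hi⟩)) hK' hQ'
      have := hmain ⟨x, hx⟩ ⟨y, hy⟩ ((piElt_coe_iff (⟨x, hx⟩ : ↥(H ⟨i + 1, hi⟩))).1 hxpi)
        ((piElt_coe_iff (⟨y, hy⟩ : ↥(H ⟨i + 1, hi⟩))).1 hypi)
      exact (piElt_coe_iff (π := π) ((⟨x, hx⟩ : ↥(H ⟨i + 1, hi⟩)) *
        (⟨y, hy⟩ : ↥(H ⟨i + 1, hi⟩)))).2 this
  apply exists_subgroup_of_mul_closed
  intro x y hx hy
  have hlast' : H ⟨n, by omega⟩ = ⊤ := hlast
  exact key n (by omega) x (hlast' ▸ Subgroup.mem_top x) y (hlast' ▸ Subgroup.mem_top y) hx hy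

/-- Let π be a set of primes and G a finite group. The π-elements of G (elements whose order is divisible only by primes of π) form a subgroup if and only if G is π-separable (it has a chain of normal subgroups from 1 to G with each successive index divisible only by primes in π or only by primes outside π) and N_G(H)/C_G(H) is a π'-group for every nontrivial π'-subgroup H of G. -/
theorem result {G : Type*} [Group G] [Finite G] (π : Set ℕ)
    (hπ : ∀ p ∈ π, p.Prime) :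
    (∃ K : Subgroup G, ∀ x : G, x ∈ K ↔ ∀ p : ℕ, p.Prime → p ∣ orderOf x → p ∈ π) ↔
    ((∃ (n : ℕ) (H : Fin (n + 1) → Subgroup G), H 0 = ⊥ ∧ H (Fin.last n) = ⊤ ∧ Monotone H ∧ (∀ i, (H i).Normal) ∧
      ∀ i : Fin n, (∀ q : ℕ, q.Prime → q ∣ (H i.castSucc).relIndex (H i.succ) → q ∈ π) ∨
        (∀ q : ℕ, q.Prime → q ∣ (H i.castSucc).relIndex (H i.succ) → q ∉ π)) ∧
     (∀ H : Subgroup G, H ≠ ⊥ → (∀ p : ℕ, p.Prime → p ∣ Nat.card ↥H → p ∉ π) →
        ∀ p : ℕ, p.Prime → p ∣ (Subgroup.centralizer (H : Set G)).relIndex (Subgroup.normalizer (H : Set G)) → p ∉ π)) := by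
  constructor
  · rintro ⟨Kπ, hKπ⟩
    exact s4050_mp π Kπ hKπ
  · rintro ⟨⟨n, H, h0, hlast, hmono, hnormal, hfac⟩, hhom⟩
    exact s4050_mpr π n H h0 hlast hmono hnormal hfac hhom

end Cfsg.Agent.S4050
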