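import Cfsg.Statements.S4051
import Mathlib
import Cfsg.Agent.Lib.Helper6.PiSub
-- import your own Cfsg.Agent.* helpers here

set_option autoImplicit false
open Cfsg

namespace Cfsg.Agent.S4051

/-- Let π be a set of primes and G a finite group such that N_G(H)/C_G(H) is a π'-group for every nontrivial π'-subgroup H of G. If K is a normal subgroup of G such that the π-elements of K form a subgroup and the π-elements of G/K form a subgroup, then the π-elements of G form a subgroup. -/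
theorem result {G : Type*} [Group G] [Finite G] (π : Set ℕ)
    (hπ : ∀ p ∈ π, p.Prime) (hhom : (∀ H : Subgroup G, H ≠ ⊥ → (∀ p : ℕ, p.Prime → p ∣ Nat.card ↥H → p ∉ π) →
        ∀ p : ℕ, p.Prime → p ∣ (Subgroup.centralizer (H : Set G)).relIndex (Subgroup.normalizer (H : Set G)) → p ∉ π))
    (K : Subgroup G) [K.Normal]
    (hK : ∃ L : Subgroup ↥K, ∀ x : ↥K, x ∈ L ↔ ∀ p : ℕ, p.Prime → p ∣ orderOf x → p ∈ π)
    (hQ : ∃ L : Subgroup (G ⧸ K), ∀ x : G ⧸ K, x ∈ L ↔ ∀ p : ℕ, p.Prime → p ∣ orderOf x → p ∈ π) :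
    (∃ K : Subgroup G, ∀ x : G, x ∈ K ↔ ∀ p : ℕ, p.Prime → p ∣ orderOf x → p ∈ π) := by
  obtain ⟨LK, hLK⟩ := hK
  obtain ⟨LQ, hLQ⟩ := hQ
  apply Cfsg.Agent.Lib.Helper6.exists_subgroup_of_mul_closed
  apply Cfsg.Agent.Lib.Helper6.piElt_mul_closed π (Cfsg.Agent.Lib.Helper6.hcen_of_hhom π hhom) K
  · intro x hx y hy hxpi hypi
    have h1 : (⟨x, hx⟩ : ↥K) ∈ LK :=
      (hLK _).2 ((Cfsg.Agent.Lib.Helper6.piElt_coe_iff (⟨x, hx⟩ : ↥K)).1 hxpi)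
    have h2 : (⟨y, hy⟩ : ↥K) ∈ LK :=
      (hLK _).2 ((Cfsg.Agent.Lib.Helper6.piElt_coe_iff (⟨y, hy⟩ : ↥K)).1 hypi)
    have h3 := (hLK _).1 (LK.mul_mem h1 h2)
    exact (Cfsg.Agent.Lib.Helper6.piElt_coe_iff (π := π) ((⟨x, hx⟩ : ↥K) * (⟨y, hy⟩ : ↥K))).2 h3
  · intro a b ha hb
    exact (hLQ _).1 (LQ.mul_mem ((hLQ a).2 ha) ((hLQ b).2 hb))

end Cfsg.Agent.S4051
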