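import Cfsg.Statements.S4056
import Mathlib
import Cfsg.Agent.Lib.Helper4.Frattini
-- import your own Cfsg.Agent.* helpers here

set_option autoImplicit false
open Cfsg

namespace Cfsg.Agent.S4056

open scoped commutatorElement

/-- In a finite 2-group of nilpotency class at most 2 and exponent dividing 4, the Frattini subgroup lies in the centre and is elementary abelian. -/
theorem result {P : Type*} [Group P] [Finite P] (hP : IsPGroup 2 P)
    (hcl : Group.nilpotencyClass P ≤ 2) (hexp : Monoid.exponent P ∣ 4) :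
    frattini P ≤ Subgroup.center P ∧ Cfsg.IsElementaryAbelian 2 (frattini P) := by
  classical
  haveI : Group.IsNilpotent P := hP.isNilpotent
  have h2 : (⊤ : Subgroup P).lowerCentralSeries 2 = ⊥ :=
    (Subgroup.lowerCentralSeries_eq_bot_iff_nilpotencyClass_le (G := P) (n := 2)).mpr hcl
  have hexp4 : ∀ g : P, g ^ 4 = 1 := (Monoid.exponent_dvd_iff_forall_pow_eq_one).mp hexp
  have hZ : ∀ a b g : P, ⁅a, b⁆ * g = g * ⁅a, b⁆ := by
    intro a b g
    have h1 : ⁅⁅a, b⁆, g⁆ ∈ (⊤ : Subgroup P).lowerCentralSeries 2 := by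
      show ⁅⁅a, b⁆, g⁆ ∈ ⁅⁅(⊤ : Subgroup P), (⊤ : Subgroup P)⁆, (⊤ : Subgroup P)⁆
      exact Subgroup.commutator_mem_commutator
        (Subgroup.commutator_mem_commutator (Subgroup.mem_top a) (Subgroup.mem_top b)) (Subgroup.mem_top g)
    rw [h2, Subgroup.mem_bot, commutatorElement_eq_one_iff_mul_comm] at h1
    exact h1
  have hbl : ∀ a a' b : P, ⁅a * a', b⁆ = ⁅a, b⁆ * ⁅a', b⁆ := by
    intro a a' b
    have e : ⁅a * a', b⁆ = a * ⁅a', b⁆ * a⁻¹ * ⁅a, b⁆ := by
      simp only [commutatorElement_def]; group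
    rw [e, ← hZ a' b a, mul_inv_cancel_right]
    exact hZ a' b _
  have hbr : ∀ a b b' : P, ⁅a, b * b'⁆ = ⁅a, b⁆ * ⁅a, b'⁆ := by
    intro a b b'
    have e : ⁅a, b * b'⁆ = ⁅a, b⁆ * (b * ⁅a, b'⁆ * b⁻¹) := by
      simp only [commutatorElement_def]; group
    rw [e, ← hZ a b' b, mul_inv_cancel_right]
  have hcomm2 : ∀ x y : P, ⁅y, x⁆ * ⁅y, x⁆ = 1 := by
    intro x y
    set d := ⁅y, x⁆ with hd
    have hd4 : d * d * (d * d) = 1 := by
      have := hexp4 d
      rw [← this]; simp only [pow_succ, pow_zero, one_mul, mul_assoc]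
    have hyx : y * x = d * (x * y) := by
      rw [hd]; simp only [commutatorElement_def]; group
    have hXY : (y * y) * (x * x) = (x * x) * (y * y) := by
      have h1 : ⁅y * y, x * x⁆ = 1 := by
        rw [hbl, hbr, ← hd, hd4]
      exact commutatorElement_eq_one_iff_mul_comm.mp h1
    have e1 : (x * y) * (x * y) = d * ((x * x) * (y * y)) := by
      calc (x * y) * (x * y) = x * (y * x) * y := by group
        _ = x * (d * (x * y)) * y := by rw [hyx]
        _ = (x * d) * (x * y * y) := by group
        _ = (d * x) * (x * y * y) := by rw [hZ y x x]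
        _ = d * ((x * x) * (y * y)) := by group
    have e2 : (x * y) ^ 4 = d * d := by
      calc (x * y) ^ 4 = ((x * y) * (x * y)) * ((x * y) * (x * y)) := by
            simp only [pow_succ, pow_zero, one_mul, mul_assoc]
        _ = (d * ((x * x) * (y * y))) * (d * ((x * x) * (y * y))) := by rw [e1]
        _ = d * (((x * x) * (y * y)) * d) * ((x * x) * (y * y)) := by group
        _ = d * (d * ((x * x) * (y * y))) * ((x * x) * (y * y)) := by rw [hZ y x ((x * x) * (y * y))]
        _ = d * d * ((x * x) * ((y * y) * (x * x)) * (y * y)) := by group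
        _ = d * d * ((x * x) * ((x * x) * (y * y)) * (y * y)) := by rw [hXY]
        _ = d * d * (x ^ 4 * y ^ 4) := by simp only [pow_succ, pow_zero, one_mul, mul_assoc]
        _ = d * d := by rw [hexp4, hexp4, mul_one, mul_one]
    rw [← e2, hexp4]
  have hsqc : ∀ a b : P, (a * a) * b = b * (a * a) := by
    intro a b
    have h1 : ⁅a * a, b⁆ = 1 := by
      rw [hbl, hcomm2 b a]
    exact commutatorElement_eq_one_iff_mul_comm.mp h1
  let N : Subgroup P := { carrier := {g | g ∈ Subgroup.center P ∧ g * g = 1}, mul_mem' := fun {g h} hg hh => ⟨mul_mem hg.1 hh.1, by have hc := (Subgroup.mem_center_iff.mp hh.1) g; calc g * h * (g * h) = g * (h * g) * h := by group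
      _ = g * (g * h) * h := by rw [← hc]
      _ = (g * g) * (h * h) := by group
      _ = 1 := by rw [hg.2, hh.2, mul_one]⟩, one_mem' := ⟨one_mem _, mul_one 1⟩, inv_mem' := fun {g} hg => ⟨inv_mem hg.1, by rw [← mul_inv_rev, hg.2, inv_one]⟩ }
  have hNmem : ∀ g : P, g ∈ N ↔ g ∈ Subgroup.center P ∧ g * g = 1 := fun g => Iff.rfl
  haveI hNn : N.Normal := by
    constructor
    intro n hn g
    have hc := (Subgroup.mem_center_iff.mp ((hNmem n).mp hn).1) g
    have : g * n * g⁻¹ = n := by rw [hc, mul_inv_cancel_right]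
    rw [this]; exact hn
  have hfr : frattini P ≤ N := by
    have h := Cfsg.Agent.Lib.Helper4.frattini_le_ker_of_elementary Nat.prime_two (QuotientGroup.mk' N)
      (by
        intro x y
        show (QuotientGroup.mk (x * y) : P ⧸ N) = QuotientGroup.mk (y * x)
        rw [QuotientGroup.eq]
        have e : (x * y)⁻¹ * (y * x) = ⁅y⁻¹, x⁻¹⁆ := by
          simp only [commutatorElement_def]; group
        rw [e, hNmem]
        refine ⟨?_, hcomm2 _ _⟩
        rw [Subgroup.mem_center_iff]
        intro g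
        exact (hZ _ _ g).symm)
      (by
        intro x
        show (QuotientGroup.mk x : P ⧸ N) ^ 2 = 1
        rw [← QuotientGroup.mk_pow, QuotientGroup.eq_one_iff, hNmem, pow_two]
        refine ⟨?_, ?_⟩
        · rw [Subgroup.mem_center_iff]
          intro g
          exact (hsqc x g).symm
        · have := hexp4 x
          rw [← this]; simp only [pow_succ, pow_zero, one_mul, mul_assoc])
    rw [QuotientGroup.ker_mk'] at h
    exact h
  refine ⟨fun g hg => ((hNmem g).mp (hfr hg)).1, ?_, ?_⟩
  · apply IsMulCommutative.of_setLike_mul_comm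
    intro x hx y hy
    exact ((Subgroup.mem_center_iff.mp ((hNmem y).mp (hfr hy)).1) x)
  · intro a ha
    rw [pow_two]
    exact ((hNmem a).mp (hfr ha)).2

end Cfsg.Agent.S4056
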