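import Cfsg.Statements.S4066
import Mathlib
import Cfsg.Agent.Lib.Helper1.Basic
import Cfsg.Agent.Lib.Helper6.CPGroups
-- import your own Cfsg.Agent.* helpers here

set_option autoImplicit false
open Cfsg

namespace Cfsg.Agent.S4066


open Cfsg.Agent.Lib.Helper6

/-- Let G be a finite group in which the centralizer of every element meets each of its conjugates by elements outside its normalizer trivially. Then any two distinct Sylow p-subgroups of G, for any prime p, intersect trivially. -/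
theorem result {G : Type*} [Group G] [Finite G] (hTI : ∀ x : G, Cfsg.IsTISubset (Subgroup.centralizer ({x} : Set G) : Set G))
    {p : ℕ} [Fact p.Prime] (P Q : Sylow p G) (hPQ : P ≠ Q) : (P : Subgroup G) ⊓ (Q : Subgroup G) = ⊥ := by
  classical
  have hp : p.Prime := Fact.out
  by_contra hD
  obtain ⟨⟨d, hdPQ⟩, hd1⟩ := (Subgroup.ne_bot_iff_exists_ne_one).1 hD
  have hdP : d ∈ (P : Subgroup G) := hdPQ.1
  have hdQ : d ∈ (Q : Subgroup G) := hdPQ.2
  have hd1' : d ≠ 1 := fun h => hd1 (Subtype.ext h)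
  -- TI usage
  have hTI' : ∀ (y g c : G), c ≠ 1 → Commute c y → Commute (g * c * g⁻¹) y →
      ∀ h : G, Commute h y ↔ Commute (g * h * g⁻¹) y := by
    intro y g c hc1 hc hgc h
    have hg : g ∈ Subgroup.normalizer ((Subgroup.centralizer ({y} : Set G) : Subgroup G) : Set G) := by
      by_contra hg
      exact hc1 (hTI y g hg c (Subgroup.mem_centralizer_singleton_iff.2 hc)
        (Subgroup.mem_centralizer_singleton_iff.2 hgc))
    have := Subgroup.mem_normalizer_iff.1 hg h
    rw [Subgroup.mem_centralizer_singleton_iff, Subgroup.mem_centralizer_singleton_iff] at this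
    exact this
  -- a central element of P
  have hP1 : (P : Subgroup G) ≠ ⊥ := fun h => hd1' (by rw [h, Subgroup.mem_bot] at hdP; exact hdP)
  obtain ⟨⟨z, hzmem⟩, hz1⟩ := (Subgroup.ne_bot_iff_exists_ne_one).1
    (inf_centralizer_ne_bot (P : Subgroup G) P.2 hP1)
  have hz1' : z ≠ 1 := fun h => hz1 (Subtype.ext h)
  have hzP : ∀ x ∈ (P : Subgroup G), Commute x z := by
    intro x hx
    have h2 : z ∈ Subgroup.centralizer ((P : Subgroup G) : Set G) := hzmem.2
    rw [Subgroup.mem_centralizer_iff] at h2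
    exact h2 x hx
  obtain ⟨g, hg⟩ := MulAction.exists_smul_eq G P Q
  have hQmem : ∀ x : G, x ∈ (Q : Subgroup G) ↔ g⁻¹ * x * g ∈ (P : Subgroup G) := by
    intro x
    rw [← hg, Sylow.coe_subgroup_smul, Cfsg.Agent.Lib.Helper1.mem_conj_smul]
  have hzQ : ∀ x ∈ (Q : Subgroup G), Commute x z := by
    intro x hx
    have h1 := hTI' z g⁻¹ d hd1' (hzP _ hdP)
      (by rw [inv_inv]; exact hzP _ ((hQmem _).1 hdQ)) x
    rw [inv_inv] at h1
    exact h1.2 (hzP _ ((hQmem x).1 hx))
  set H := (P : Subgroup G) ⊔ (Q : Subgroup G) with hH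
  have hPH : (P : Subgroup G) ≤ H := le_sup_left
  have hQH : (Q : Subgroup G) ≤ H := le_sup_right
  have hzH : ∀ x ∈ H, Commute x z := by
    intro x hx
    have hle : H ≤ Subgroup.centralizer ({z} : Set G) := by
      apply sup_le
      · intro x hx
        exact Subgroup.mem_centralizer_singleton_iff.2 (hzP x hx)
      · intro x hx
        exact Subgroup.mem_centralizer_singleton_iff.2 (hzQ x hx)
    exact Subgroup.mem_centralizer_singleton_iff.1 (hle hx)
  -- (2)
  have h2 : ∀ x ∈ H, ∀ u ∈ H, Commute (u * x * u⁻¹) x := by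
    intro x hx u hu
    have h1 := hTI' x u z hz1' (hzH x hx).symm (by
      have : u * z * u⁻¹ = z := by
        rw [(hzH u hu).eq, mul_inv_cancel_right]
      rw [this]
      exact (hzH x hx).symm) x
    exact h1.1 (Commute.refl x)
  -- (3)
  have h3 : ∀ x ∈ H, ∀ y ∈ H, ∀ (m k : ℕ), x ^ m = 1 → m.Coprime p → y ^ p ^ k = 1 → Commute x y := by
    intro x hx y hy m k hxm hmp hyk
    set w := y * x * y⁻¹ * x⁻¹ with hw
    have hA : Commute (y * x * y⁻¹) x := h2 x hx y hy
    have hwm : w ^ m = 1 := by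
      have e : w = (y * x * y⁻¹) * x⁻¹ := rfl
      rw [e, (hA.inv_right).mul_pow, conj_pow, hxm, inv_pow, hxm]
      simp
    have hB : Commute (x * y⁻¹ * x⁻¹) y⁻¹ := h2 y⁻¹ (H.inv_mem hy) x hx
    have hB' : Commute y (x * y⁻¹ * x⁻¹) := by
      have := hB.inv_right
      rw [inv_inv] at this
      exact this.symm
    have hwk : w ^ p ^ k = 1 := by
      have e : w = y * (x * y⁻¹ * x⁻¹) := by rw [hw]; group
      rw [e, hB'.mul_pow, conj_pow, inv_pow, hyk]
      simp
    have ho1 : orderOf w ∣ m := orderOf_dvd_of_pow_eq_one hwm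
    have ho2 : orderOf w ∣ p ^ k := orderOf_dvd_of_pow_eq_one hwk
    have hcop : m.Coprime (p ^ k) := Nat.Coprime.pow_right k hmp
    have ho : orderOf w = 1 := Nat.eq_one_of_dvd_coprimes hcop ho1 ho2
    have hw1 : w = 1 := orderOf_eq_one_iff.1 ho
    show x * y = y * x
    calc x * y = (y * x * y⁻¹ * x⁻¹)⁻¹ * (y * x) := by group
      _ = y * x := by rw [← hw, hw1, inv_one, one_mul]
  -- (4) p'-elements of H are central in H
  have hpelt : ∀ y ∈ (P : Subgroup G), ∃ k : ℕ, y ^ p ^ k = 1 := by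
    intro y hy
    obtain ⟨k, hk⟩ := P.2 ⟨y, hy⟩
    exact ⟨k, congrArg Subtype.val hk⟩
  have hqelt : ∀ y ∈ (Q : Subgroup G), ∃ k : ℕ, y ^ p ^ k = 1 := by
    intro y hy
    obtain ⟨k, hk⟩ := Q.2 ⟨y, hy⟩
    exact ⟨k, congrArg Subtype.val hk⟩
  have h4 : ∀ x ∈ H, ∀ m : ℕ, x ^ m = 1 → m.Coprime p → ∀ y ∈ H, Commute y x := by
    intro x hx m hxm hmp y hy
    have hle : H ≤ Subgroup.centralizer ({x} : Set G) := by
      apply sup_le
      · intro y hy
        obtain ⟨k, hk⟩ := hpelt y hy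
        exact Subgroup.mem_centralizer_singleton_iff.2 (h3 x hx y (hPH hy) m k hxm hmp hk).symm
      · intro y hy
        obtain ⟨k, hk⟩ := hqelt y hy
        exact Subgroup.mem_centralizer_singleton_iff.2 (h3 x hx y (hQH hy) m k hxm hmp hk).symm
    exact Subgroup.mem_centralizer_singleton_iff.1 (hle hy)
  -- (5) H / Z(H) is a p-group
  have h5 : IsPGroup p (↥H ⧸ Subgroup.center ↥H) := by
    intro y
    obtain ⟨h, rfl⟩ := QuotientGroup.mk_surjective y
    have ho : orderOf h ≠ 0 := (orderOf_pos h).ne'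
    obtain ⟨a, m, hm, hom⟩ := Nat.exists_eq_pow_mul_and_not_dvd ho p hp.ne_one
    refine ⟨a, ?_⟩
    rw [← QuotientGroup.mk_pow, QuotientGroup.eq_one_iff, Subgroup.mem_center_iff]
    intro t
    have hxm : ((h ^ p ^ a : ↥H) : G) ^ m = 1 := by
      have : (h ^ p ^ a) ^ m = 1 := by
        rw [← pow_mul, ← hom]; exact pow_orderOf_eq_one h
      exact congrArg Subtype.val this
    have := h4 ((h ^ p ^ a : ↥H) : G) (h ^ p ^ a : ↥H).2 m hxm
      ((Nat.Prime.coprime_iff_not_dvd hp).2 hm).symm (t : G) t.2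
    exact Subtype.ext this
  haveI : Group.IsNilpotent (↥H ⧸ Subgroup.center ↥H) := h5.isNilpotent
  haveI : Group.IsNilpotent ↥H := Group.of_quotient_center_nilpotent inferInstance
  have hnP : ((P.subtype hPH : Sylow p ↥H) : Subgroup ↥H).Normal := inferInstance
  haveI := Sylow.unique_of_normal (P.subtype hPH) hnP
  have heq : P.subtype hPH = Q.subtype hQH := Subsingleton.elim _ _
  exact hPQ (Sylow.subtype_injective heq)

end Cfsg.Agent.S4066
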