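import Cfsg.Statements.S4071
import Mathlib
import Cfsg.Agent.Lib.Helper1.SchmidtStr2
import Cfsg.Agent.Lib.Helper6.Basic
-- import your own Cfsg.Agent.* helpers here

set_option autoImplicit false
open Cfsg

namespace Cfsg.Agent.S4071


theorem normalizer_comap_ne' {G : Type*} [Group G] (N : Subgroup G) [N.Normal]
    (H : Subgroup (G ⧸ N)) (h : Subgroup.normalizer (H : Set (G ⧸ N)) ≠ H) :
    Subgroup.normalizer ((H.comap (QuotientGroup.mk' N) : Subgroup G) : Set G) ≠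
      H.comap (QuotientGroup.mk' N) := by
  intro heq
  apply h
  apply le_antisymm _ Subgroup.le_normalizer
  intro g hg
  obtain ⟨g, rfl⟩ := QuotientGroup.mk'_surjective N g
  have h1 : g ∈ Subgroup.normalizer ((H.comap (QuotientGroup.mk' N) : Subgroup G) : Set G) := by
    rw [Subgroup.mem_normalizer_iff]
    intro x
    rw [Subgroup.mem_comap, Subgroup.mem_comap, map_mul, map_mul, map_inv]
    exact Subgroup.mem_normalizer_iff.1 hg _
  rw [heq] at h1
  exact h1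

theorem comm_pow_eq {G : Type*} [Group G] (a x : G)
    (h : (a * x * a⁻¹ * x⁻¹) * x = x * (a * x * a⁻¹ * x⁻¹)) (n : ℕ) :
    (a * x * a⁻¹ * x⁻¹) ^ n = a * x ^ n * a⁻¹ * (x ^ n)⁻¹ := by
  induction n with
  | zero => simp
  | succ n ih =>
    have hc : Commute (a * x * a⁻¹ * x⁻¹) x := h
    have h2 : (a * x * a⁻¹ * x⁻¹) * (x ^ n)⁻¹ = (x ^ n)⁻¹ * (a * x * a⁻¹ * x⁻¹) :=
      ((hc.pow_right n).inv_right).eq
    rw [pow_succ, ih]
    calc a * x ^ n * a⁻¹ * (x ^ n)⁻¹ * (a * x * a⁻¹ * x⁻¹)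
        = a * x ^ n * a⁻¹ * ((x ^ n)⁻¹ * (a * x * a⁻¹ * x⁻¹)) := by group
      _ = a * x ^ n * a⁻¹ * ((a * x * a⁻¹ * x⁻¹) * (x ^ n)⁻¹) := by rw [h2]
      _ = a * x ^ (n + 1) * a⁻¹ * (x ^ (n + 1))⁻¹ := by rw [pow_succ]; group

theorem central_of_sup_zpowers {G : Type*} [Group G] (K : Subgroup G) (x : G)
    (hKx : K ⊔ Subgroup.zpowers x = ⊤) (a : G)
    (hK : ∀ u ∈ K, a * u = u * a) (hx : a * x = x * a) : ∀ g : G, g * a = a * g := by
  have h1 : K ⊔ Subgroup.zpowers x ≤ Subgroup.centralizer ({a} : Set G) := by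
    apply sup_le
    · intro u hu
      rw [Subgroup.mem_centralizer_iff]
      intro v hv
      rw [Set.mem_singleton_iff.1 hv]
      exact hK u hu
    · rw [Subgroup.zpowers_le, Subgroup.mem_centralizer_iff]
      intro v hv
      rw [Set.mem_singleton_iff.1 hv]
      exact hx
  rw [hKx] at h1
  intro g
  exact (Subgroup.mem_centralizer_iff.1 (h1 (Subgroup.mem_top g)) a rfl).symm

theorem s4071_mp {G : Type*} [Group G] [Finite G] [Group.IsSolvable G]
    (hnn : ¬ Group.IsNilpotent G)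
    (hS : ∀ H : Subgroup G, ¬ IsMulCommutative H → Subgroup.normalizer (H : Set G) = H) :
    ∃ (x : G) (A : Subgroup G) (p : ℕ), p.Prime ∧ A.Normal ∧ IsMulCommutative A ∧
      (∃ k : ℕ, orderOf x = p ^ k) ∧
      ¬ p ∣ Nat.card A ∧ (Subgroup.zpowers x).IsComplement' A ∧ x ^ p ∈ Subgroup.center G ∧
      ∀ a : G, a ∈ A → a ≠ 1 → x * a * x⁻¹ ≠ a := by
  have hab : ∀ H : Subgroup G, Subgroup.normalizer (H : Set G) ≠ H → IsMulCommutative H := by
    intro H hH
    by_contra hc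
    exact hH (hS H hc)
  have habn : ∀ N : Subgroup G, N.Normal → N ≠ ⊤ → IsMulCommutative N := by
    intro N hN hNt
    apply hab
    rw [Subgroup.normalizer_eq_top_iff.2 hN]
    exact fun h => hNt h.symm
  have hGna : ¬ ∀ a b : G, a * b = b * a := by
    intro hc
    apply hnn
    refine ⟨⟨1, ?_⟩⟩
    rw [Subgroup.upperCentralSeries_one, eq_top_iff]
    intro g _
    rw [Subgroup.mem_center_iff]
    intro h
    exact hc h g
  have hnt : Nontrivial G := by
    by_contra h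
    rw [not_nontrivial_iff_subsingleton] at h
    exact hGna (fun a b => Subsingleton.elim _ _)
  obtain ⟨M, hMco, hcM⟩ := Cfsg.Agent.Lib.Helper6.exists_coatom_ge (commutator G)
    (IsSolvable.commutator_lt_top_of_nontrivial G).ne
  have hMn : M.Normal := by
    constructor
    intro m hm g
    have h1 : g * m * g⁻¹ * m⁻¹ ∈ M := by
      apply hcM
      rw [commutator_def]
      have := Subgroup.commutator_mem_commutator (Subgroup.mem_top g) (Subgroup.mem_top m)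
      rwa [commutatorElement_def] at this
    have h2 : g * m * g⁻¹ = (g * m * g⁻¹ * m⁻¹) * m := by group
    rw [h2]; exact M.mul_mem h1 hm
  have hMp : M.index.Prime := Cfsg.Agent.Lib.Helper1.index_prime_of_normal_coatom M hMco
  obtain ⟨p, hpdef⟩ : ∃ p, p = M.index := ⟨_, rfl⟩
  have hp : p.Prime := hpdef ▸ hMp
  have : Fact p.Prime := ⟨hp⟩
  have hMab := habn M hMn hMco.1
  have hMcomm : ∀ a ∈ M, ∀ b ∈ M, a * b = b * a := fun a ha b hb =>
    congrArg Subtype.val (hMab.is_comm.comm ⟨a, ha⟩ ⟨b, hb⟩)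
  obtain ⟨P⟩ : Nonempty (Sylow p G) := inferInstance
  obtain ⟨x, hxP, hxM⟩ : ∃ x ∈ (P : Subgroup G), x ∉ M := by
    by_contra hcon
    push_neg at hcon
    have hle : (P : Subgroup G) ≤ M := hcon
    have h1 := Subgroup.index_dvd_of_le hle
    rw [← hpdef] at h1
    exact P.not_dvd_index h1
  obtain ⟨k, hk⟩ : ∃ k, orderOf x = p ^ k := by
    obtain ⟨k, hk⟩ := (IsPGroup.iff_orderOf.1 P.2) ⟨x, hxP⟩
    rw [Subgroup.orderOf_mk] at hk
    exact ⟨k, hk⟩
  have hMx : M ⊔ Subgroup.zpowers x = ⊤ := by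
    apply hMco.2
    apply lt_of_le_of_ne le_sup_left
    intro heq
    apply hxM
    rw [heq]
    exact (le_sup_right : Subgroup.zpowers x ≤ _) (Subgroup.mem_zpowers x)
  have hxpM : x ^ p ∈ M := by rw [hpdef]; exact M.pow_index_mem x
  obtain ⟨m, hm⟩ : ∃ m, m = ordCompl[p] (Nat.card M) := ⟨_, rfl⟩
  obtain ⟨q, hq⟩ : ∃ q, q = ordProj[p] (Nat.card M) := ⟨_, rfl⟩
  have hqm : q * m = Nat.card M := by rw [hq, hm]; exact Nat.ordProj_mul_ordCompl_eq_self _ _
  have hcop : Nat.Coprime p m := by rw [hm]; exact Nat.coprime_ordCompl hp Nat.card_pos.ne'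
  obtain ⟨b, hb⟩ : ∃ b, q = p ^ b := ⟨_, hq⟩
  obtain ⟨A, hA⟩ : ∃ A : Subgroup G, ∀ a : G, a ∈ A ↔ a ∈ M ∧ a ^ m = 1 := by
    refine ⟨
      { carrier := {a | a ∈ M ∧ a ^ m = 1}, mul_mem' := ?_, one_mem' := ?_, inv_mem' := ?_ },
      fun a => Iff.rfl⟩
    · rintro a b ⟨ha, ha'⟩ ⟨hb, hb'⟩
      refine ⟨M.mul_mem ha hb, ?_⟩
      have hc : Commute a b := hMcomm a ha b hb
      rw [hc.mul_pow, ha', hb', one_mul]
    · exact ⟨M.one_mem, one_pow m⟩
    · rintro a ⟨ha, ha'⟩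
      exact ⟨M.inv_mem ha, by rw [inv_pow, ha', inv_one]⟩
  have hAM : A ≤ M := fun a ha => ((hA a).1 ha).1
  have hAn : A.Normal := by
    constructor
    intro a ha g
    rw [hA] at ha ⊢
    exact ⟨hMn.conj_mem a ha.1 g, by rw [conj_pow, ha.2, mul_one, mul_inv_cancel]⟩
  have hAcomm : ∀ a ∈ A, ∀ b ∈ A, a * b = b * a :=
    fun a ha b hb => hMcomm a (hAM ha) b (hAM hb)
  have hAab : IsMulCommutative A := ⟨⟨fun a b => Subtype.ext (hAcomm a.1 a.2 b.1 b.2)⟩⟩
  have hpA : ¬ p ∣ Nat.card A := by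
    intro hd
    obtain ⟨a, ha⟩ := exists_prime_orderOf_dvd_card' (G := ↥A) p hd
    have h1 : (a : G) ^ m = 1 := ((hA a.1).1 a.2).2
    have h2 : orderOf (a : G) ∣ m := orderOf_dvd_of_pow_eq_one h1
    rw [Subgroup.orderOf_coe, ha] at h2
    exact (Nat.Prime.coprime_iff_not_dvd hp).1 hcop h2
  have hA1 : ∀ a ∈ A, ∀ j : ℕ, a ^ (p ^ j) = 1 → a = 1 := by
    intro a ha j hj
    have h1 : orderOf a ∣ p ^ j := orderOf_dvd_of_pow_eq_one hj
    have h2 : orderOf a ∣ m := orderOf_dvd_of_pow_eq_one ((hA a).1 ha).2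
    have h3 : orderOf a ∣ Nat.gcd (p ^ j) m := Nat.dvd_gcd h1 h2
    rw [(Nat.Coprime.pow_left j hcop).gcd_eq_one] at h3
    exact orderOf_eq_one_iff.1 (Nat.dvd_one.1 h3)
  have hpowA : ∀ g : G, g ^ (p ^ (b + 1)) ∈ A := by
    intro g
    rw [hA]
    have h1 : g ^ p ∈ M := by rw [hpdef]; exact M.pow_index_mem g
    have h2 : g ^ (p ^ (b + 1)) = (g ^ p) ^ q := by rw [hb, ← pow_mul, pow_succ, mul_comm]
    refine ⟨h2 ▸ M.pow_mem h1 q, ?_⟩
    rw [h2, ← pow_mul, hqm]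
    have h3 : ((⟨g ^ p, h1⟩ : ↥M) ^ Nat.card ↥M : ↥M) = 1 := pow_card_eq_one'
    have h4 := congrArg Subtype.val h3
    rw [Subgroup.coe_pow, Subgroup.coe_one] at h4
    exact h4
  have hQp : IsPGroup p (G ⧸ A) := by
    intro g
    obtain ⟨g, rfl⟩ := QuotientGroup.mk'_surjective A g
    refine ⟨b + 1, ?_⟩
    rw [← map_pow, QuotientGroup.mk'_apply, QuotientGroup.eq_one_iff]
    exact hpowA g
  have hQnil : Group.IsNilpotent (G ⧸ A) := hQp.isNilpotent
  have hHna : ¬ IsMulCommutative ↥(A ⊔ Subgroup.zpowers x) := by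
    intro hc
    apply hnn
    have hxA : ∀ a ∈ A, x * a = a * x := by
      intro a ha
      have := hc.is_comm.comm (⟨x, (le_sup_right : Subgroup.zpowers x ≤ A ⊔ Subgroup.zpowers x)
        (Subgroup.mem_zpowers x)⟩ : ↥(A ⊔ Subgroup.zpowers x))
        ⟨a, (le_sup_left : A ≤ A ⊔ Subgroup.zpowers x) ha⟩
      exact congrArg Subtype.val this
    have hAcen : A ≤ Subgroup.center G := by
      intro a ha
      rw [Subgroup.mem_center_iff]
      exact central_of_sup_zpowers M x hMx a (fun u hu => hMcomm a (hAM ha) u hu)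
        (hxA a ha).symm
    exact Subgroup.isNilpotent_of_ker_le_center (QuotientGroup.mk' A)
      (by rw [QuotientGroup.ker_mk']; exact hAcen)
  have hAx : A ⊔ Subgroup.zpowers x = ⊤ := by
    by_contra hne
    have hself := hS _ hHna
    have h1 : ((A ⊔ Subgroup.zpowers x).map (QuotientGroup.mk' A)).comap (QuotientGroup.mk' A) =
        A ⊔ Subgroup.zpowers x := by
      rw [Subgroup.comap_map_eq, QuotientGroup.ker_mk']
      exact sup_eq_left.2 le_sup_left
    have h2 : (A ⊔ Subgroup.zpowers x).map (QuotientGroup.mk' A) ≠ ⊤ := by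
      intro h
      rw [h, Subgroup.comap_top] at h1
      exact hne h1.symm
    have hnc := Group.normalizerCondition_of_isNilpotent (G := G ⧸ A) _ (lt_top_iff_ne_top.2 h2)
    have h3 := normalizer_comap_ne' A _ hnc.ne'
    rw [h1] at h3
    exact h3 hself
  have hcompl : (Subgroup.zpowers x).IsComplement' A := by
    apply Subgroup.isComplement'_of_disjoint_and_mul_eq_univ
    · apply Subgroup.disjoint_of_coprime_natCard
      rw [Nat.card_zpowers, hk]
      exact Nat.Coprime.pow_left k ((Nat.Prime.coprime_iff_not_dvd hp).2 hpA)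
    · rw [← Subgroup.mul_normal, sup_comm, hAx, Subgroup.coe_top]
  have hxpc : x ^ p ∈ Subgroup.center G := by
    rw [Subgroup.mem_center_iff]
    exact central_of_sup_zpowers M x hMx (x ^ p) (fun u hu => hMcomm (x ^ p) hxpM u hu)
      (pow_mul_comm' x p)
  have hxnc : ¬ ∀ b ∈ A, b * x = x * b := by
    intro hxA
    apply hGna
    have hxcen : ∀ g : G, g * x = x * g :=
      central_of_sup_zpowers A x hAx x (fun u hu => (hxA u hu).symm) rfl
    have h1 : A ⊔ Subgroup.zpowers x ≤ Subgroup.center G := by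
      apply sup_le
      · intro a ha
        rw [Subgroup.mem_center_iff]
        exact central_of_sup_zpowers A x hAx a (fun u hu => hAcomm a ha u hu) (hxA a ha)
      · rw [Subgroup.zpowers_le, Subgroup.mem_center_iff]
        exact hxcen
    rw [hAx] at h1
    intro a b
    exact Subgroup.mem_center_iff.1 (h1 (Subgroup.mem_top b)) a
  refine ⟨x, A, p, hp, hAn, hAab, ⟨k, hk⟩, hpA, hcompl, hxpc, ?_⟩
  intro a ha ha1 hfix
  have hxa : a * x = x * a := by
    calc a * x = (x * a * x⁻¹) * x := by rw [hfix]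
      _ = x * a := by group
  have hacen : ∀ g : G, g * a = a * g :=
    central_of_sup_zpowers A x hAx a (fun u hu => hAcomm a ha u hu) hxa
  have hncl : Subgroup.normalClosure ({x} : Set G) = ⊤ := by
    by_contra hne
    have hc := habn _ Subgroup.normalClosure_normal hne
    have hcomm : ∀ b : G, x * (b * x * b⁻¹) = (b * x * b⁻¹) * x := by
      intro b
      have h1 : x ∈ Subgroup.normalClosure ({x} : Set G) := Subgroup.subset_normalClosure rfl
      have h2 : b * x * b⁻¹ ∈ Subgroup.normalClosure ({x} : Set G) :=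
        Subgroup.normalClosure_normal.conj_mem x h1 b
      exact congrArg Subtype.val (hc.is_comm.comm ⟨x, h1⟩ ⟨b * x * b⁻¹, h2⟩)
    apply hxnc
    intro b hb
    have h1 : (b * x * b⁻¹ * x⁻¹) * x = x * (b * x * b⁻¹ * x⁻¹) := by
      have := hcomm b
      calc (b * x * b⁻¹ * x⁻¹) * x = (b * x * b⁻¹) * x * x⁻¹ := by group
        _ = x * (b * x * b⁻¹) * x⁻¹ := by rw [this]
        _ = x * (b * x * b⁻¹ * x⁻¹) := by group
    have h2 := comm_pow_eq b x h1 p
    have h3 : b * x ^ p * b⁻¹ * (x ^ p)⁻¹ = 1 := by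
      have := Subgroup.mem_center_iff.1 hxpc b
      rw [this]; group
    rw [h3] at h2
    have h4 : b * x * b⁻¹ * x⁻¹ ∈ A := by
      have : b * x * b⁻¹ * x⁻¹ = b * (x * b⁻¹ * x⁻¹) := by group
      rw [this]
      exact A.mul_mem hb (hAn.conj_mem _ (A.inv_mem hb) x)
    have h5 := hA1 _ h4 1 (by rw [pow_one]; exact h2)
    calc b * x = (b * x * b⁻¹ * x⁻¹) * (x * b) := by group
      _ = x * b := by rw [h5, one_mul]
  have hacomm : a ∈ commutator G := by
    rw [← Abelianization.ker_of, MonoidHom.mem_ker]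
    have h1 : (⊤ : Subgroup G) ≤ (Subgroup.zpowers (Abelianization.of x)).comap
        (Abelianization.of : G →* Abelianization G) := by
      rw [← hncl]
      apply Subgroup.normalClosure_le_normal
      rw [Set.singleton_subset_iff]
      exact Subgroup.mem_zpowers (Abelianization.of x)
    obtain ⟨j, hj⟩ := Subgroup.mem_zpowers_iff.1 (h1 (Subgroup.mem_top a))
    have h2 : (Abelianization.of a) ^ (p ^ k) = 1 := by
      rw [← hj, ← zpow_natCast, ← zpow_mul, mul_comm, zpow_mul, zpow_natCast, ← map_pow, ← hk,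
        pow_orderOf_eq_one, map_one, one_zpow]
    have h3 : (Abelianization.of a) ^ m = 1 := by
      rw [← map_pow, ((hA a).1 ha).2, map_one]
    have h4 : orderOf (Abelianization.of a) ∣ Nat.gcd (p ^ k) m :=
      Nat.dvd_gcd (orderOf_dvd_of_pow_eq_one h2) (orderOf_dvd_of_pow_eq_one h3)
    rw [(Nat.Coprime.pow_left k hcop).gcd_eq_one] at h4
    exact orderOf_eq_one_iff.1 (Nat.dvd_one.1 h4)
  have hT : MonoidHom.transfer (Abelianization.of : ↥M →* Abelianization ↥M) a = 1 := by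
    have h1 := Abelianization.commutator_subset_ker
      (MonoidHom.transfer (Abelianization.of : ↥M →* Abelianization ↥M))
    exact MonoidHom.mem_ker.1 (h1 hacomm)
  have hkey : ∀ (n : ℕ) (g₀ : G), g₀⁻¹ * a ^ n * g₀ ∈ M → g₀⁻¹ * a ^ n * g₀ = a ^ n := by
    intro n g₀ _
    have h1 : g₀ * a ^ n = a ^ n * g₀ := ((show Commute g₀ a from hacen g₀).pow_right n).eq
    rw [mul_assoc, ← h1, inv_mul_cancel_left]
  have h2 := MonoidHom.transfer_eq_pow (Abelianization.of : ↥M →* Abelianization ↥M) a hkey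
  rw [hT] at h2
  have haM : a ∈ M := hAM ha
  have h3 : (⟨a, haM⟩ : ↥M) ^ M.index ∈ commutator ↥M := by
    rw [← Abelianization.ker_of, MonoidHom.mem_ker]
    exact h2.symm
  have hcomM : commutator ↥M = ⊥ := by
    rw [eq_bot_iff, commutator_def, Subgroup.commutator_le]
    intro u _ v _
    rw [Subgroup.mem_bot, commutatorElement_def, hMab.is_comm.comm u v]; group
  rw [hcomM, Subgroup.mem_bot] at h3
  have h4 : a ^ M.index = 1 := by
    have := congrArg Subtype.val h3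
    simpa using this
  rw [← hpdef] at h4
  exact ha1 (hA1 a ha 1 (by rw [pow_one]; exact h4))

theorem s4071_mpr {G : Type*} [Group G] [Finite G] (x : G) (A : Subgroup G) (p : ℕ)
    (hp : p.Prime) (hAn : A.Normal) (hAc : IsMulCommutative A) (k : ℕ) (hk : orderOf x = p ^ k)
    (hcompl : (Subgroup.zpowers x).IsComplement' A) (hxp : x ^ p ∈ Subgroup.center G)
    (hfpf : ∀ a : G, a ∈ A → a ≠ 1 → x * a * x⁻¹ ≠ a)
    (H : Subgroup G) (hH : ¬ IsMulCommutative H) : Subgroup.normalizer (H : Set G) = H := by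
  have hAcomm : ∀ a ∈ A, ∀ b ∈ A, a * b = b * a := fun a ha b hb =>
    congrArg Subtype.val (hAc.is_comm.comm ⟨a, ha⟩ ⟨b, hb⟩)
  have hdec : ∀ g : G, ∃ i : ℤ, ∃ a ∈ A, g = x ^ i * a := by
    intro g
    obtain ⟨⟨⟨u, hu⟩, ⟨a, ha⟩⟩, hua, -⟩ := (Subgroup.isComplement_iff_existsUnique.1 hcompl) g
    obtain ⟨i, rfl⟩ := Subgroup.mem_zpowers_iff.1 hu
    exact ⟨i, a, ha, hua.symm⟩
  have hπ : ∀ g : G, QuotientGroup.mk' A g = 1 ↔ g ∈ A := fun g => by
    rw [QuotientGroup.mk'_apply, QuotientGroup.eq_one_iff]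
  have hzc : ∀ (i : ℤ) (g : G), (x ^ p) ^ i * g = g * (x ^ p) ^ i := by
    intro i g
    have h1 : Commute (x ^ p) g := (Subgroup.mem_center_iff.1 hxp g).symm
    exact (h1.zpow_left i).eq
  obtain ⟨h, hhH, i, a, ha, hh, hpi⟩ : ∃ h ∈ H, ∃ i : ℤ, ∃ a ∈ A, h = x ^ i * a ∧
      ¬ (p : ℤ) ∣ i := by
    by_contra hcon
    push_neg at hcon
    apply hH
    refine ⟨⟨fun u v => ?_⟩⟩
    obtain ⟨i, a, ha, hu⟩ := hdec u.1
    obtain ⟨j, b, hb, hv⟩ := hdec v.1
    obtain ⟨i', hi'⟩ := hcon u.1 u.2 i a ha hu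
    obtain ⟨j', hj'⟩ := hcon v.1 v.2 j b hb hv
    apply Subtype.ext
    show u.1 * v.1 = v.1 * u.1
    rw [hu, hv, hi', hj', zpow_mul, zpow_mul, zpow_natCast]
    calc (x ^ p) ^ i' * a * ((x ^ p) ^ j' * b)
        = (x ^ p) ^ i' * (a * (x ^ p) ^ j') * b := by group
      _ = (x ^ p) ^ i' * ((x ^ p) ^ j' * a) * b := by rw [hzc j' a]
      _ = ((x ^ p) ^ i' * (x ^ p) ^ j') * (a * b) := by group
      _ = ((x ^ p) ^ j' * (x ^ p) ^ i') * (b * a) := by
          rw [hzc i' ((x ^ p) ^ j'), hAcomm a ha b hb]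
      _ = (x ^ p) ^ j' * ((x ^ p) ^ i' * b) * a := by group
      _ = (x ^ p) ^ j' * (b * (x ^ p) ^ i') * a := by rw [hzc i' b]
      _ = (x ^ p) ^ j' * b * ((x ^ p) ^ i' * a) := by group
  have hco : IsCoprime ((p : ℤ) ^ k) i :=
    ((Nat.prime_iff_prime_int.1 hp).irreducible.coprime_iff_not_dvd.2 hpi).pow_left
  obtain ⟨v, u, hvu⟩ := hco
  have hxpk : x ^ ((p : ℤ) ^ k) = 1 := by
    rw [← Nat.cast_pow, zpow_natCast, ← hk]; exact pow_orderOf_eq_one x
  have hxiu : x ^ (i * u) = x := by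
    have : i * u = 1 - (p : ℤ) ^ k * v := by linarith
    rw [this, zpow_sub, zpow_one, zpow_mul, hxpk, one_zpow, inv_one, mul_one]
  have hπh : QuotientGroup.mk' A h = QuotientGroup.mk' A (x ^ i) := by
    rw [hh, map_mul, (hπ a).2 ha, mul_one]
  obtain ⟨y, hy⟩ : ∃ y, y = h ^ u := ⟨_, rfl⟩
  have hyH : y ∈ H := hy ▸ H.zpow_mem hhH u
  have hπy : QuotientGroup.mk' A y = QuotientGroup.mk' A x := by
    rw [hy, map_zpow, hπh, ← map_zpow, ← zpow_mul, hxiu]
  have hxy : x⁻¹ * y ∈ A := by rw [← hπ, map_mul, map_inv, hπy, inv_mul_cancel]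
  obtain ⟨a2, ha2, hya2⟩ : ∃ a2 ∈ A, y = x * a2 := ⟨x⁻¹ * y, hxy, by group⟩
  have hyconj : ∀ d ∈ A, y * d * y⁻¹ = x * d * x⁻¹ := by
    intro d hd
    have := hAcomm a2 ha2 d hd
    rw [hya2, mul_inv_rev]
    calc x * a2 * d * (a2⁻¹ * x⁻¹) = x * (a2 * d) * a2⁻¹ * x⁻¹ := by group
      _ = x * (d * a2) * a2⁻¹ * x⁻¹ := by rw [this]
      _ = x * d * x⁻¹ := by group
  have hinj : ∀ a ∈ A, ∀ b ∈ A, a * (y * a⁻¹ * y⁻¹) = b * (y * b⁻¹ * y⁻¹) → a = b := by
    intro a ha b hb heq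
    have e1 : b⁻¹ * a = (y * b⁻¹ * y⁻¹) * (y * a⁻¹ * y⁻¹)⁻¹ := by
      calc b⁻¹ * a = b⁻¹ * (a * (y * a⁻¹ * y⁻¹)) * (y * a⁻¹ * y⁻¹)⁻¹ := by group
        _ = b⁻¹ * (b * (y * b⁻¹ * y⁻¹)) * (y * a⁻¹ * y⁻¹)⁻¹ := by rw [heq]
        _ = (y * b⁻¹ * y⁻¹) * (y * a⁻¹ * y⁻¹)⁻¹ := by group
    have e2 : (y * b⁻¹ * y⁻¹) * (y * a⁻¹ * y⁻¹)⁻¹ = y * (b⁻¹ * a) * y⁻¹ := by group
    have h1 : y * (b⁻¹ * a) * y⁻¹ = b⁻¹ * a := by rw [← e2]; exact e1.symm
    have hd : b⁻¹ * a ∈ A := A.mul_mem (A.inv_mem hb) ha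
    rw [hyconj _ hd] at h1
    by_contra hne
    apply hfpf _ hd _ h1
    intro h2
    exact hne (inv_mul_eq_one.1 h2).symm
  have hstep : ∀ a ∈ A, a ∈ Subgroup.normalizer (H : Set G) → a ∈ H := by
    intro a ha haN
    have hf : ∀ b : ↥(H ⊓ A), (b : G) * (y * (b : G)⁻¹ * y⁻¹) ∈ H ⊓ A := by
      intro b
      refine ⟨H.mul_mem b.2.1 (H.mul_mem (H.mul_mem hyH (H.inv_mem b.2.1)) (H.inv_mem hyH)),
        A.mul_mem b.2.2 (hAn.conj_mem _ (A.inv_mem b.2.2) y)⟩
    have hfinj : Function.Injective (fun b : ↥(H ⊓ A) =>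
        (⟨(b : G) * (y * (b : G)⁻¹ * y⁻¹), hf b⟩ : ↥(H ⊓ A))) := by
      intro b1 b2 h12
      have := congrArg Subtype.val h12
      exact Subtype.ext (hinj b1.1 b1.2.2 b2.1 b2.2.2 this)
    have hfsurj := Finite.injective_iff_surjective.1 hfinj
    have hc : a * (y * a⁻¹ * y⁻¹) ∈ H ⊓ A := by
      refine ⟨?_, A.mul_mem ha (hAn.conj_mem _ (A.inv_mem ha) y)⟩
      have h1 : a * y * a⁻¹ ∈ H := (Subgroup.mem_normalizer_iff.1 haN y).1 hyH
      have h2 : a * (y * a⁻¹ * y⁻¹) = (a * y * a⁻¹) * y⁻¹ := by group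
      rw [h2]
      exact H.mul_mem h1 (H.inv_mem hyH)
    obtain ⟨b, hb⟩ := hfsurj ⟨_, hc⟩
    have h3 := congrArg Subtype.val hb
    have h4 := hinj b.1 b.2.2 a ha h3
    rw [← h4]
    exact b.2.1
  apply le_antisymm _ Subgroup.le_normalizer
  intro g hg
  obtain ⟨j, b, hb, hgj⟩ := hdec g
  have h1 : y ^ (-j) * g ∈ A := by
    rw [← hπ, map_mul, map_zpow, hπy, hgj, map_mul, map_zpow, (hπ b).2 hb, mul_one, ← zpow_add,
      neg_add_cancel, zpow_zero]
  have h2 : y ^ (-j) * g ∈ Subgroup.normalizer (H : Set G) :=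
    (Subgroup.normalizer (H : Set G)).mul_mem (Subgroup.le_normalizer (H.zpow_mem hyH (-j))) hg
  have h3 := hstep _ h1 h2
  have h4 : g = y ^ j * (y ^ (-j) * g) := by group
  rw [h4]
  exact H.mul_mem (H.zpow_mem hyH j) h3

/-- Let G be a finite solvable non-nilpotent group. Every non-abelian subgroup of G is self-normalizing if and only if G is a semidirect product ⟨x⟩ ⋉ A in which ⟨x⟩ is a p-group for some prime p, A is a normal abelian subgroup of order prime to p, x^p is central in G, and x acts fixed-point-freely on A (no non-identity element of A commutes with x). -/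
theorem result {G : Type*} [Group G] [Finite G]
    [Group.IsSolvable G] (hnn : ¬ Group.IsNilpotent G) :
    (∀ H : Subgroup G, ¬ IsMulCommutative H → Subgroup.normalizer (H : Set G) = H) ↔
    ∃ (x : G) (A : Subgroup G) (p : ℕ), p.Prime ∧ A.Normal ∧ IsMulCommutative A ∧ (∃ k : ℕ, orderOf x = p ^ k) ∧
      ¬ p ∣ Nat.card A ∧ (Subgroup.zpowers x).IsComplement' A ∧ x ^ p ∈ Subgroup.center G ∧
      ∀ a : G, a ∈ A → a ≠ 1 → x * a * x⁻¹ ≠ a := by
  constructor
  · intro hS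
    exact s4071_mp hnn hS
  · rintro ⟨x, A, p, hp, hAn, hAc, ⟨k, hk⟩, -, hcompl, hxp, hfpf⟩ H hH
    exact s4071_mpr x A p hp hAn hAc k hk hcompl hxp hfpf H hH

end Cfsg.Agent.S4071
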