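import Cfsg.Statements.S4072
import Mathlib
import Cfsg.Agent.Lib.Helper1.Basic
import Cfsg.Agent.Lib.Helper2.Fit
import Cfsg.Agent.Lib.Helper2.FStar
import Cfsg.Agent.Lib.Helper6.MinNonAb
-- import your own Cfsg.Agent.* helpers here

set_option autoImplicit false
open Cfsg

namespace Cfsg.Agent.S4072


theorem normalizer_ne_of_simple_comm_sylow {S : Type*} [Group S] [Finite S]
    (hsimp : ∀ K : Subgroup S, K.Normal → K = ⊥ ∨ K = ⊤) (hna : ¬ ∀ a b : S, a * b = b * a)
    {q : ℕ} [Fact q.Prime] (Q : Sylow q S) (hQ : (Q : Subgroup S) ≠ ⊥)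
    (hQc : ∀ a ∈ (Q : Subgroup S), ∀ b ∈ (Q : Subgroup S), a * b = b * a) :
    Subgroup.normalizer ((Q : Subgroup S) : Set S) ≠ (Q : Subgroup S) := by
  intro hnorm
  have hNC : Subgroup.normalizer ((Q : Subgroup S) : Set S) ≤
      Subgroup.centralizer ((Q : Subgroup S) : Set S) := by
    rw [hnorm]
    intro a ha
    rw [Subgroup.mem_centralizer_iff]
    intro b hb
    exact hQc b hb a ha
  have hcomp := MonoidHom.ker_transferSylow_isComplement' Q hNC
  rcases hsimp _ (MonoidHom.normal_ker (MonoidHom.transferSylow Q hNC)) with h | h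
  · have := hcomp.sup_eq_top
    rw [h, bot_sup_eq] at this
    apply hna
    intro a b
    exact hQc a (this ▸ Subgroup.mem_top a) b (this ▸ Subgroup.mem_top b)
  · have := hcomp.disjoint
    rw [h, disjoint_iff, top_inf_eq] at this
    exact hQ this

theorem normalizer_comap_ne {G : Type*} [Group G] (N : Subgroup G) [N.Normal]
    (H : Subgroup (G ⧸ N)) (h : Subgroup.normalizer (H : Set (G ⧸ N)) ≠ H) :
    Subgroup.normalizer ((H.comap (QuotientGroup.mk' N) : Subgroup G) : Set G) ≠
      H.comap (QuotientGroup.mk' N) := by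
  intro heq
  apply h
  apply le_antisymm _ Subgroup.le_normalizer
  intro g hg
  obtain ⟨g, rfl⟩ := QuotientGroup.mk'_surjective N g
  have h1 : g ∈ Subgroup.normalizer ((H.comap (QuotientGroup.mk' N) : Subgroup G) : Set G) := by
    rw [Subgroup.mem_normalizer_iff]
    intro x
    rw [Subgroup.mem_comap, Subgroup.mem_comap, map_mul, map_mul, map_inv]
    exact Subgroup.mem_normalizer_iff.1 hg _
  rw [heq] at h1
  exact h1

/-- A finite group in which every non-abelian subgroup is self-normalizing is solvable or simple. -/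
theorem result {G : Type*} [Group G] [Finite G] (hS : ∀ H : Subgroup G, ¬ IsMulCommutative H → Subgroup.normalizer (H : Set G) = H) :
    Group.IsSolvable G ∨ IsSimpleGroup G := by
  by_contra hcon
  rw [not_or] at hcon
  obtain ⟨hns, hnsimp⟩ := hcon
  have hab : ∀ H : Subgroup G, Subgroup.normalizer (H : Set G) ≠ H → IsMulCommutative H := by
    intro H hH
    by_contra hc
    exact hH (hS H hc)
  have habn : ∀ N : Subgroup G, N.Normal → N ≠ ⊤ → IsMulCommutative N := by
    intro N hN hNt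
    apply hab
    rw [Subgroup.normalizer_eq_top_iff.2 hN]
    exact fun h => hNt h.symm
  have hnt : Nontrivial G := by
    by_contra h
    rw [not_nontrivial_iff_subsingleton] at h
    exact hns inferInstance
  obtain ⟨N₀, hN₀n, hN₀b, hN₀t⟩ : ∃ N₀ : Subgroup G, N₀.Normal ∧ N₀ ≠ ⊥ ∧ N₀ ≠ ⊤ := by
    by_contra hne
    push_neg at hne
    apply hnsimp
    exact ⟨fun H hH => by
      by_cases hb : H = ⊥
      · exact Or.inl hb
      · exact Or.inr (hne H hH hb)⟩
  obtain ⟨N, hN₀N, hNmax⟩ := Set.Finite.exists_le_maximal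
    (s := {K : Subgroup G | K.Normal ∧ K ≠ ⊤}) (Set.toFinite _) ⟨hN₀n, hN₀t⟩
  have hNn : N.Normal := hNmax.prop.1
  have hNt : N ≠ ⊤ := hNmax.prop.2
  have hNb : N ≠ ⊥ := fun h => hN₀b (le_bot_iff.1 (h ▸ hN₀N))
  have hNmax' : ∀ K : Subgroup G, K.Normal → N ≤ K → K = N ∨ K = ⊤ := by
    intro K hK hNK
    by_cases hKt : K = ⊤
    · exact Or.inr hKt
    · exact Or.inl (le_antisymm (hNmax.le_of_ge ⟨hK, hKt⟩ hNK) hNK)
  have := hNn
  have hNab := habn N hNn hNt
  have hker : ∀ n : G, n ∈ N → QuotientGroup.mk' N n = 1 := by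
    intro n hn
    rw [QuotientGroup.mk'_apply, QuotientGroup.eq_one_iff]; exact hn
  have hker' : ∀ n : G, QuotientGroup.mk' N n = 1 → n ∈ N := by
    intro n hn
    rw [QuotientGroup.mk'_apply, QuotientGroup.eq_one_iff] at hn; exact hn
  have hsimp : ∀ K : Subgroup (G ⧸ N), K.Normal → K = ⊥ ∨ K = ⊤ := by
    intro K hK
    have hKc : (K.comap (QuotientGroup.mk' N)).Normal := hK.comap _
    have hle : N ≤ K.comap (QuotientGroup.mk' N) := by
      intro n hn
      rw [Subgroup.mem_comap, hker n hn]; exact K.one_mem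
    rcases hNmax' _ hKc hle with h | h
    · left
      rw [eq_bot_iff]
      intro k hk
      obtain ⟨g, rfl⟩ := QuotientGroup.mk'_surjective N k
      have : g ∈ K.comap (QuotientGroup.mk' N) := hk
      rw [h] at this
      rw [Subgroup.mem_bot]; exact hker g this
    · right
      rw [eq_top_iff]
      intro k _
      obtain ⟨g, rfl⟩ := QuotientGroup.mk'_surjective N k
      have : g ∈ K.comap (QuotientGroup.mk' N) := by rw [h]; trivial
      exact this
  have hna : ¬ ∀ a b : G ⧸ N, a * b = b * a := by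
    intro hc
    apply hns
    have : Group.IsSolvable ↥N :=
      Group.isSolvable_of_comm (fun a b => IsMulCommutative.is_comm.comm a b)
    have : Group.IsSolvable (G ⧸ N) := Group.isSolvable_of_comm hc
    exact Group.isSolvable_of_ker_le_range N.subtype (QuotientGroup.mk' N)
      (by rw [QuotientGroup.ker_mk', Subgroup.range_subtype])
  -- N is central
  have hcent : ∀ n ∈ N, ∀ g : G, g * n = n * g := by
    have hSnt : Nontrivial (G ⧸ N) := by
      by_contra h
      rw [not_nontrivial_iff_subsingleton] at h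
      apply hna; intro a b; exact Subsingleton.elim _ _
    obtain ⟨q, hq, hqd⟩ := Nat.exists_prime_and_dvd
      (show Nat.card (G ⧸ N) ≠ 1 from (Finite.one_lt_card).ne')
    have : Fact q.Prime := ⟨hq⟩
    obtain ⟨Q⟩ : Nonempty (Sylow q (G ⧸ N)) := inferInstance
    have hQb : (Q : Subgroup (G ⧸ N)) ≠ ⊥ := Q.ne_bot_of_dvd_card hqd
    obtain ⟨Hb, hHb, hHbn⟩ : ∃ Hb : Subgroup (G ⧸ N), Hb ≠ ⊥ ∧
        Subgroup.normalizer (Hb : Set (G ⧸ N)) ≠ Hb := by
      by_cases hQc : ∀ a ∈ (Q : Subgroup (G ⧸ N)), ∀ b ∈ (Q : Subgroup (G ⧸ N)), a * b = b * a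
      · exact ⟨Q, hQb, normalizer_ne_of_simple_comm_sylow hsimp hna Q hQb hQc⟩
      · refine ⟨(Subgroup.center ↥(Q : Subgroup (G ⧸ N))).map (Q : Subgroup (G ⧸ N)).subtype,
          ?_, ?_⟩
        · have : Nontrivial ↥(Q : Subgroup (G ⧸ N)) := (Subgroup.nontrivial_iff_ne_bot _).2 hQb
          have := IsPGroup.center_nontrivial Q.2
          obtain ⟨z, hz⟩ := exists_ne (1 : ↥(Subgroup.center ↥(Q : Subgroup (G ⧸ N))))
          intro hbot
          apply hz
          have hmem : ((z : ↥(Q : Subgroup (G ⧸ N))) : G ⧸ N) ∈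
              (Subgroup.center ↥(Q : Subgroup (G ⧸ N))).map (Q : Subgroup (G ⧸ N)).subtype :=
            ⟨z.1, z.2, rfl⟩
          rw [hbot, Subgroup.mem_bot] at hmem
          apply Subtype.ext; apply Subtype.ext; exact hmem
        · intro hnorm
          apply hQc
          have hQle : (Q : Subgroup (G ⧸ N)) ≤ Subgroup.normalizer
              (((Subgroup.center ↥(Q : Subgroup (G ⧸ N))).map (Q : Subgroup (G ⧸ N)).subtype :
                Subgroup (G ⧸ N)) : Set (G ⧸ N)) := by
            intro x hx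
            apply Cfsg.Agent.Lib.Helper1.mem_normalizer_of_finite
            rintro _ ⟨z, hz, rfl⟩
            have := Subgroup.mem_center_iff.1 hz ⟨x, hx⟩
            have h2 : x * (z : G ⧸ N) = (z : G ⧸ N) * x := congrArg Subtype.val this
            show x * (z : G ⧸ N) * x⁻¹ ∈ _
            rw [h2, mul_inv_cancel_right]
            exact ⟨z, hz, rfl⟩
          rw [hnorm] at hQle
          intro a ha b hb
          obtain ⟨za, hza, rfl⟩ := hQle ha
          have := Subgroup.mem_center_iff.1 hza ⟨b, hb⟩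
          exact (congrArg Subtype.val this).symm
    have hHc := hab _ (normalizer_comap_ne N Hb hHbn)
    obtain ⟨hb, hhb, hhb1⟩ : ∃ x ∈ Hb, x ≠ 1 := by
      by_contra hne
      push_neg at hne
      apply hHb
      rw [eq_bot_iff]
      intro x hx
      rw [Subgroup.mem_bot]; exact hne x hx
    obtain ⟨h, rfl⟩ := QuotientGroup.mk'_surjective N hb
    have hhH : h ∈ Hb.comap (QuotientGroup.mk' N) := hhb
    have hhN : h ∉ N := fun hh => hhb1 (hker h hh)
    have hNH : N ≤ Hb.comap (QuotientGroup.mk' N) := by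
      intro n hn
      rw [Subgroup.mem_comap, hker n hn]; exact Hb.one_mem
    have hZn : (Subgroup.centralizer (N : Set G)).Normal := inferInstance
    have hNZ : N ≤ Subgroup.centralizer (N : Set G) := by
      intro a ha
      rw [Subgroup.mem_centralizer_iff]
      intro b hb
      have := IsMulCommutative.is_comm.comm (⟨b, hb⟩ : ↥N) ⟨a, ha⟩
      exact congrArg Subtype.val this
    have hhZ : h ∈ Subgroup.centralizer (N : Set G) := by
      rw [Subgroup.mem_centralizer_iff]
      intro b hb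
      have := hHc.is_comm.comm (⟨b, hNH hb⟩ : ↥(Hb.comap (QuotientGroup.mk' N))) ⟨h, hhH⟩
      exact congrArg Subtype.val this
    rcases hNmax' _ hZn hNZ with hZ | hZ
    · exact absurd (hZ ▸ hhZ) hhN
    · intro n hn g
      have : g ∈ Subgroup.centralizer (N : Set G) := by rw [hZ]; trivial
      exact (Subgroup.mem_centralizer_iff.1 this n hn).symm
  -- G is perfect
  have hperf : commutator G = ⊤ := by
    by_contra hne
    have hc := habn (commutator G) inferInstance hne
    apply hns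
    have : Group.IsSolvable ↥(commutator G) :=
      Group.isSolvable_of_comm (fun a b => hc.is_comm.comm a b)
    exact Group.isSolvable_of_ker_le_range (commutator G).subtype (Abelianization.of)
      (by rw [Abelianization.ker_of, Subgroup.range_subtype])
  -- a central element of prime order
  obtain ⟨p, hp, hpd⟩ := Nat.exists_prime_and_dvd
    (show Nat.card ↥N ≠ 1 from fun h => hNb (Subgroup.card_eq_one.1 h))
  have : Fact p.Prime := ⟨hp⟩
  obtain ⟨zN, hzN⟩ := exists_prime_orderOf_dvd_card' (G := ↥N) p hpd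
  obtain ⟨z, hz⟩ : ∃ z : G, z = (zN : G) := ⟨_, rfl⟩
  have hzN' : z ∈ N := hz ▸ zN.2
  have hzo : orderOf z = p := by rw [hz, Subgroup.orderOf_coe]; exact hzN
  have hz1 : z ≠ 1 := by
    intro h
    rw [h, orderOf_one] at hzo
    exact hp.ne_one hzo.symm
  have hzc : ∀ g : G, g * z = z * g := hcent z hzN'
  have hzp : z ^ p = 1 := by
    have := pow_orderOf_eq_one z
    rwa [hzo] at this
  obtain ⟨P⟩ : Nonempty (Sylow p G) := inferInstance
  have hzP : z ∈ (P : Subgroup G) := by
    have : (Subgroup.zpowers z).Normal := by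
      constructor
      intro n hn g
      obtain ⟨j, rfl⟩ := Subgroup.mem_zpowers_iff.1 hn
      have h1 : g * z ^ j = z ^ j * g := ((show Commute g z from hzc g).zpow_right j).eq
      rw [h1, mul_inv_cancel_right]
      exact Subgroup.zpow_mem_zpowers z j
    have hpg : IsPGroup p ↥(Subgroup.zpowers z) := by
      apply IsPGroup.of_card (n := 1)
      rw [Nat.card_zpowers, hzo, pow_one]
    exact Cfsg.Agent.Lib.Helper2.normal_pgroup_le_sylow _ hpg P (Subgroup.mem_zpowers z)
  -- transfer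
  have hzcomm : (⟨z, hzP⟩ : ↥(P : Subgroup G)) ∈ commutator ↥(P : Subgroup G) := by
    have hT : ∀ g : G, MonoidHom.transfer
        (Abelianization.of : ↥(P : Subgroup G) →* Abelianization ↥(P : Subgroup G)) g = 1 := by
      intro g
      have h1 := Abelianization.commutator_subset_ker (MonoidHom.transfer
        (Abelianization.of : ↥(P : Subgroup G) →* Abelianization ↥(P : Subgroup G)))
      rw [hperf] at h1
      exact MonoidHom.mem_ker.1 (h1 (Subgroup.mem_top g))
    have hkey : ∀ (k : ℕ) (g₀ : G), g₀⁻¹ * z ^ k * g₀ ∈ (P : Subgroup G) →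
        g₀⁻¹ * z ^ k * g₀ = z ^ k := by
      intro k g₀ _
      have h1 : g₀ * z ^ k = z ^ k * g₀ := ((show Commute g₀ z from hzc g₀).pow_right k).eq
      rw [mul_assoc, ← h1, inv_mul_cancel_left]
    have h2 := MonoidHom.transfer_eq_pow
      (Abelianization.of : ↥(P : Subgroup G) →* Abelianization ↥(P : Subgroup G)) z hkey
    rw [hT z] at h2
    have h4 : (⟨z, hzP⟩ : ↥(P : Subgroup G)) ^ (P : Subgroup G).index ∈
        commutator ↥(P : Subgroup G) := by
      rw [← Abelianization.ker_of, MonoidHom.mem_ker]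
      exact h2.symm
    have h5 : (⟨z, hzP⟩ : ↥(P : Subgroup G)) ^ p ∈ commutator ↥(P : Subgroup G) := by
      have : (⟨z, hzP⟩ : ↥(P : Subgroup G)) ^ p = 1 := by
        apply Subtype.ext
        rw [Subgroup.coe_pow]; exact hzp
      rw [this]; exact Subgroup.one_mem _
    have hcop : Nat.Coprime (P : Subgroup G).index p :=
      ((Nat.Prime.coprime_iff_not_dvd hp).2 P.not_dvd_index).symm
    exact Cfsg.Agent.Lib.Helper2.mem_of_pow_mem_of_coprime _ _ _ _ hcop h4 h5
  have hPna : ¬ ∀ a b : ↥(P : Subgroup G), a * b = b * a := by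
    intro hc
    have : commutator ↥(P : Subgroup G) = ⊥ := by
      rw [eq_bot_iff, commutator_def, Subgroup.commutator_le]
      intro a _ b _
      rw [Subgroup.mem_bot, commutatorElement_def, hc a b]; group
    rw [this, Subgroup.mem_bot] at hzcomm
    exact hz1 (congrArg Subtype.val hzcomm)
  have hPprop : ∀ Q : Subgroup ↥(P : Subgroup G), Q ≠ ⊤ → IsMulCommutative Q := by
    intro Q hQ
    have : Group.IsNilpotent ↥(P : Subgroup G) := P.2.isNilpotent
    have hnc := Group.normalizerCondition_of_isNilpotent (G := ↥(P : Subgroup G)) Q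
      (lt_top_iff_ne_top.2 hQ)
    obtain ⟨x, hxn, hxQ⟩ := SetLike.exists_of_lt hnc
    have hab' := hab (Q.map (P : Subgroup G).subtype) (by
      intro heq
      apply hxQ
      have h1 : (x : G) ∈ Subgroup.normalizer
          ((Q.map (P : Subgroup G).subtype : Subgroup G) : Set G) := by
        apply Cfsg.Agent.Lib.Helper1.mem_normalizer_of_finite
        rintro _ ⟨u, hu, rfl⟩
        exact ⟨x * u * x⁻¹, (Subgroup.mem_normalizer_iff.1 hxn u).1 hu, rfl⟩
      rw [heq] at h1
      obtain ⟨u, hu, hu'⟩ := h1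
      have : u = x := Subtype.ext hu'
      rw [← this]; exact hu)
    refine ⟨⟨fun a b => ?_⟩⟩
    have := hab'.is_comm.comm (⟨a.1.1, ⟨a.1, a.2, rfl⟩⟩ : ↥(Q.map (P : Subgroup G).subtype))
      ⟨b.1.1, ⟨b.1, b.2, rfl⟩⟩
    have h3 : (a.1.1 : G) * b.1.1 = b.1.1 * a.1.1 := congrArg Subtype.val this
    apply Subtype.ext; apply Subtype.ext
    exact h3
  obtain ⟨x, y, hxy⟩ : ∃ x y : ↥(P : Subgroup G), x * y ≠ y * x := by
    by_contra h; push_neg at h; exact hPna h
  obtain ⟨hcl, hcen, hcp, hcomm⟩ :=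
    Cfsg.Agent.Lib.Helper6.minNonAb_commutator P.2 hPprop x y hxy
  obtain ⟨c, hc⟩ : ∃ c : ↥(P : Subgroup G), c = x * y * x⁻¹ * y⁻¹ := ⟨_, rfl⟩
  rw [← hc] at hcen hcp hcomm
  have hzc' : (⟨z, hzP⟩ : ↥(P : Subgroup G)) ∈ Subgroup.zpowers c := hcomm hzcomm
  have hc1 : c ≠ 1 := by
    rintro rfl
    rw [Subgroup.zpowers_one_eq_bot, Subgroup.mem_bot] at hzc'
    exact hz1 (congrArg Subtype.val hzc')
  have hco : orderOf c = p := by
    have h1 : orderOf c ∣ p := orderOf_dvd_of_pow_eq_one hcp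
    rcases (Nat.dvd_prime hp).1 h1 with h | h
    · exact absurd (orderOf_eq_one_iff.1 h) hc1
    · exact h
  have hzo' : orderOf (⟨z, hzP⟩ : ↥(P : Subgroup G)) = p := by
    rw [Subgroup.orderOf_mk]; exact hzo
  have heqz : Subgroup.zpowers (⟨z, hzP⟩ : ↥(P : Subgroup G)) = Subgroup.zpowers c := by
    apply Subgroup.eq_of_le_of_card_ge
    · rw [Subgroup.zpowers_le]; exact hzc'
    · rw [Nat.card_zpowers, Nat.card_zpowers, hco, hzo']
  have hcN : (c : G) ∈ N := by
    have h1 : c ∈ Subgroup.zpowers (⟨z, hzP⟩ : ↥(P : Subgroup G)) := by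
      rw [heqz]; exact Subgroup.mem_zpowers c
    obtain ⟨j, hj⟩ := Subgroup.mem_zpowers_iff.1 h1
    rw [← hj]
    have : ((⟨z, hzP⟩ : ↥(P : Subgroup G)) ^ j : ↥(P : Subgroup G)) = (⟨z ^ j, Subgroup.zpow_mem _ hzP j⟩ : ↥(P : Subgroup G)) := by
      apply Subtype.ext; simp
    rw [this]
    exact Subgroup.zpow_mem _ hzN' j
  -- the image of P in G/N is abelian
  obtain ⟨f, hf⟩ : ∃ f : ↥(P : Subgroup G) →* G ⧸ N,
      f = (QuotientGroup.mk' N).comp (P : Subgroup G).subtype := ⟨_, rfl⟩
  have hfxy : f x * f y = f y * f x := by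
    have h1 : f c = 1 := by rw [hf]; exact hker _ hcN
    rw [hc, map_mul, map_mul, map_mul, map_inv, map_inv] at h1
    have h2 : f x * f y = (f x * f y * (f x)⁻¹ * (f y)⁻¹) * (f y * f x) := by group
    rw [h2, h1, one_mul]
  have hClc := Subgroup.isMulCommutative_closure (k := ({f x, f y} : Set (G ⧸ N))) (by
    intro u hu v hv
    rcases hu with rfl | rfl <;> rcases hv with rfl | rfl
    · rfl
    · exact hfxy
    · exact hfxy.symm
    · rfl)
  have hmapf : ∀ u : ↥(P : Subgroup G), f u ∈ Subgroup.closure ({f x, f y} : Set (G ⧸ N)) := by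
    have h1 : (⊤ : Subgroup ↥(P : Subgroup G)).map f =
        Subgroup.closure ({f x, f y} : Set (G ⧸ N)) := by
      rw [← hcl, MonoidHom.map_closure, Set.image_pair]
    intro u
    rw [← h1]
    exact ⟨u, trivial, rfl⟩
  have hPbc : ∀ a ∈ (P : Subgroup G).map (QuotientGroup.mk' N),
      ∀ b ∈ (P : Subgroup G).map (QuotientGroup.mk' N), a * b = b * a := by
    rintro _ ⟨u, hu, rfl⟩ _ ⟨v, hv, rfl⟩
    have h1 := hmapf ⟨u, hu⟩
    have h2 := hmapf ⟨v, hv⟩
    have := hClc.is_comm.comm (⟨f ⟨u, hu⟩, h1⟩ : ↥(Subgroup.closure ({f x, f y} : Set (G ⧸ N))))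
      ⟨f ⟨v, hv⟩, h2⟩
    have h3 : f ⟨u, hu⟩ * f ⟨v, hv⟩ = f ⟨v, hv⟩ * f ⟨u, hu⟩ := congrArg Subtype.val this
    rw [hf] at h3
    exact h3
  obtain ⟨Qb, hQb⟩ : ∃ Qb : Sylow p (G ⧸ N),
      (Qb : Subgroup (G ⧸ N)) = (P : Subgroup G).map (QuotientGroup.mk' N) :=
    ⟨P.mapSurjective (QuotientGroup.mk'_surjective N), Sylow.coe_mapSurjective _ P⟩
  have hPN : ¬ (P : Subgroup G) ≤ N := by
    intro hle
    apply hPna
    intro a b
    have := IsMulCommutative.is_comm.comm (⟨a.1, hle a.2⟩ : ↥N) ⟨b.1, hle b.2⟩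
    have h3 : (a : G) * b = b * a := congrArg Subtype.val this
    apply Subtype.ext
    exact h3
  have hQbb : (Qb : Subgroup (G ⧸ N)) ≠ ⊥ := by
    intro hbot
    apply hPN
    intro u hu
    have : QuotientGroup.mk' N u ∈ (Qb : Subgroup (G ⧸ N)) := by
      rw [hQb]; exact ⟨u, hu, rfl⟩
    rw [hbot, Subgroup.mem_bot] at this
    exact hker' u this
  have hQbn := normalizer_ne_of_simple_comm_sylow hsimp hna Qb hQbb (by rw [hQb]; exact hPbc)
  have hfin := hab _ (normalizer_comap_ne N Qb hQbn)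
  apply hPna
  intro a b
  have hle : (P : Subgroup G) ≤ (Qb : Subgroup (G ⧸ N)).comap (QuotientGroup.mk' N) := by
    rw [hQb]; exact Subgroup.le_comap_map _ _
  have := hfin.is_comm.comm (⟨a.1, hle a.2⟩ :
    ↥((Qb : Subgroup (G ⧸ N)).comap (QuotientGroup.mk' N))) ⟨b.1, hle b.2⟩
  have h3 : (a : G) * b = b * a := congrArg Subtype.val this
  apply Subtype.ext
  exact h3

end Cfsg.Agent.S4072
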