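import Cfsg.Statements.S4074
import Mathlib
-- import your own Cfsg.Agent.* helpers here

set_option autoImplicit false
open Cfsg

namespace Cfsg.Agent.S4074


open DihedralGroup

/-- the parity homomorphism of an even dihedral group -/
noncomputable def parHom (n : ℕ) (h2 : 2 ∣ n) : DihedralGroup n →* Multiplicative (ZMod 2) :=
  MonoidHom.mk' (fun x => match x with
    | .r i => Multiplicative.ofAdd (ZMod.castHom h2 (ZMod 2) i)
    | .sr i => Multiplicative.ofAdd (ZMod.castHom h2 (ZMod 2) i)) (by
    rintro (i | i) (j | j)
    · rw [r_mul_r]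
      show Multiplicative.ofAdd _ = Multiplicative.ofAdd _ * Multiplicative.ofAdd _
      rw [← ofAdd_add, map_add]
    · rw [r_mul_sr]
      show Multiplicative.ofAdd _ = Multiplicative.ofAdd _ * Multiplicative.ofAdd _
      rw [← ofAdd_add, map_sub, CharTwo.sub_eq_add, add_comm]
    · rw [sr_mul_r]
      show Multiplicative.ofAdd _ = Multiplicative.ofAdd _ * Multiplicative.ofAdd _
      rw [← ofAdd_add, map_add]
    · rw [sr_mul_sr]
      show Multiplicative.ofAdd _ = Multiplicative.ofAdd _ * Multiplicative.ofAdd _
      rw [← ofAdd_add, map_sub, CharTwo.sub_eq_add, add_comm])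

theorem parHom_r (n : ℕ) (h2 : 2 ∣ n) (i : ZMod n) :
    parHom n h2 (r i) = Multiplicative.ofAdd (ZMod.castHom h2 (ZMod 2) i) := rfl

theorem parHom_sr (n : ℕ) (h2 : 2 ∣ n) (i : ZMod n) :
    parHom n h2 (sr i) = Multiplicative.ofAdd (ZMod.castHom h2 (ZMod 2) i) := rfl

theorem comm_of_card_dvd_four {K : Type*} [Group K] [Finite K] (h : Nat.card K = 1 ∨
    Nat.card K = 2 ∨ Nat.card K = 4) : IsMulCommutative K := by
  rcases h with h | h | h
  · haveI : Subsingleton K := (Nat.card_eq_one_iff_unique.mp h).1
    exact ⟨⟨fun a b => Subsingleton.elim _ _⟩⟩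
  · haveI : Fact (Nat.Prime 2) := ⟨Nat.prime_two⟩
    haveI := isCyclic_of_prime_card h
    exact IsCyclic.isMulCommutative
  · haveI : Fact (Nat.Prime 2) := ⟨Nat.prime_two⟩
    exact IsPGroup.isMulCommutative_of_card_eq_prime_sq (p := 2) (by rw [h]; norm_num)

/-- For n > 2, every non-abelian subgroup of the dihedral group of order 2n is self-normalizing if and only if n = 4 or n is odd. -/
theorem result (n : ℕ) (hn : 2 < n) :
    (∀ H : Subgroup (DihedralGroup n), ¬ IsMulCommutative H → Subgroup.normalizer (H : Set (DihedralGroup n)) = H) ↔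
    (n = 4 ∨ Odd n) := by
  classical
  constructor
  · intro hall
    by_contra hcon
    push_neg at hcon
    obtain ⟨hn4, hodd⟩ := hcon
    have heven : Even n := Nat.not_odd_iff_even.mp hodd
    have h2 : 2 ∣ n := heven.two_dvd
    have hn6 : 6 ≤ n := by
      obtain ⟨k, hk⟩ := h2
      omega
    set H : Subgroup (DihedralGroup n) := (parHom n h2).ker with hH
    have hr2 : (r 2 : DihedralGroup n) ∈ H := by
      rw [hH, MonoidHom.mem_ker, parHom_r]
      have : ZMod.castHom h2 (ZMod 2) (2 : ZMod n) = 0 := by
        rw [map_ofNat]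
        rfl
      rw [this]
      rfl
    have hs0 : (sr 0 : DihedralGroup n) ∈ H := by
      rw [hH, MonoidHom.mem_ker, parHom_sr, map_zero]
      rfl
    have hr1 : (r 1 : DihedralGroup n) ∉ H := by
      rw [hH, MonoidHom.mem_ker, parHom_r, map_one]
      intro h
      have h' : (1 : ZMod 2) = 0 := h
      exact absurd h' (by decide)
    have hnc : ¬ IsMulCommutative H := by
      intro hc
      have h1 := hc.is_comm.comm (⟨r 2, hr2⟩ : H) ⟨sr 0, hs0⟩
      have h3 : (r 2 : DihedralGroup n) * sr 0 = sr 0 * r 2 := congrArg Subtype.val h1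
      rw [r_mul_sr, sr_mul_r] at h3
      have h4 : (0 : ZMod n) - 2 = 0 + 2 := by
        injection h3
      have h5 : ((4 : ℕ) : ZMod n) = 0 := by
        have : (4 : ZMod n) = (0 + 2) - (0 - 2) := by ring
        rw [← h4, sub_self] at this
        exact_mod_cast this
      have h6 := (ZMod.natCast_eq_zero_iff 4 n).mp h5
      have := Nat.le_of_dvd (by norm_num) h6
      omega
    have h7 := hall H hnc
    haveI : H.Normal := by
      rw [hH]
      exact MonoidHom.normal_ker _
    rw [Subgroup.normalizer_eq_top] at h7
    apply hr1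
    rw [← h7]
    exact Subgroup.mem_top _
  · rintro (rfl | hodd)
    · intro H hnc
      apply le_antisymm _ Subgroup.le_normalizer
      have hcard : Nat.card (DihedralGroup 4) = 8 := by
        rw [DihedralGroup.nat_card]
      have hdvd : Nat.card H ∣ 8 := by
        rw [← hcard]
        exact Subgroup.card_subgroup_dvd_card H
      have hle : Nat.card H ≤ 8 := Nat.le_of_dvd (by norm_num) hdvd
      have hpos : 0 < Nat.card H := Nat.card_pos
      have hcases : Nat.card H = 1 ∨ Nat.card H = 2 ∨ Nat.card H = 4 ∨ Nat.card H = 8 := by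
        generalize Nat.card H = c at *
        interval_cases c <;> simp_all
      rcases hcases with h | h | h | h
      · exact absurd (comm_of_card_dvd_four (Or.inl h)) hnc
      · exact absurd (comm_of_card_dvd_four (Or.inr (Or.inl h))) hnc
      · exact absurd (comm_of_card_dvd_four (Or.inr (Or.inr h))) hnc
      · have htop : H = ⊤ := Subgroup.eq_top_of_card_eq H (by rw [h, hcard])
        rw [htop]
        exact le_top
    · intro H hnc
      apply le_antisymm _ Subgroup.le_normalizer
      -- H contains a reflection
      have hex : ∃ i : ZMod n, (sr i : DihedralGroup n) ∈ H := by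
        by_contra hno
        push_neg at hno
        apply hnc
        refine ⟨⟨fun a b => ?_⟩⟩
        obtain ⟨a, ha⟩ := a
        obtain ⟨b, hb⟩ := b
        apply Subtype.ext
        show a * b = b * a
        rcases a with i | i
        · rcases b with j | j
          · rw [r_mul_r, r_mul_r, add_comm]
          · exact absurd hb (hno j)
        · exact absurd ha (hno i)
      obtain ⟨i, hi⟩ := hex
      obtain ⟨k, hk⟩ := hodd
      have hk2 : ((2 * k : ℕ) : ZMod n) = -1 := by
        have h1 : ((2 * k + 1 : ℕ) : ZMod n) = 0 := by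
          rw [← hk]
          exact ZMod.natCast_self n
        push_cast at h1 ⊢
        linear_combination h1
      have claimR : ∀ j : ZMod n, (r j : DihedralGroup n) ∈ Subgroup.normalizer (H : Set (DihedralGroup n)) →
          (r j : DihedralGroup n) ∈ H := by
        intro j hj
        have h1 : r j * sr i * (r j)⁻¹ ∈ H := (Subgroup.mem_normalizer_iff.mp hj (sr i)).mp hi
        rw [inv_r, r_mul_sr, sr_mul_r] at h1
        have h2 : sr i * sr (i - j + -j) ∈ H := H.mul_mem hi h1
        rw [sr_mul_sr] at h2
        have h3 := H.pow_mem h2 k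
        rw [r_pow] at h3
        have h4 : (i - j + -j - i) * (k : ZMod n) = j := by
          have : (2 * (k : ZMod n)) = -1 := by exact_mod_cast hk2
          linear_combination (-j) * this
        rw [h4] at h3
        exact h3
      intro g hg
      rcases g with j | j
      · exact claimR j hg
      · have h1 : (sr j : DihedralGroup n) * sr i ∈ Subgroup.normalizer (H : Set (DihedralGroup n)) :=
          Subgroup.mul_mem _ hg (Subgroup.le_normalizer hi)
        rw [sr_mul_sr] at h1
        have h2 := claimR _ h1
        have h3 : (r (i - j) : DihedralGroup n) * (sr i)⁻¹ ∈ H := H.mul_mem h2 (H.inv_mem hi)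
        rw [inv_sr, r_mul_sr] at h3
        have h4 : i - (i - j) = j := by ring
        rw [h4] at h3
        exact h3

end Cfsg.Agent.S4074
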