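import Cfsg.Statements.S4075
import Mathlib
-- import your own Cfsg.Agent.* helpers here

set_option autoImplicit false
open Cfsg

namespace Cfsg.Agent.S4075

theorem abelian_of_sylow_abelian {G : Type*} [Group G] [Finite G] [Group.IsNilpotent G]
    (h : ∀ (p : ℕ) [Fact p.Prime] (P : Sylow p G), ∀ a b : G, a ∈ P → b ∈ P → a * b = b * a) :
    ∀ a b : G, a * b = b * a := by
  let e := Sylow.directProductOfNormal (G := G) (fun {p} _ P => inferInstance)
  intro a b
  have h1 : e.symm a * e.symm b = e.symm b * e.symm a := by
    funext p P
    have hp := Fact.mk (Nat.prime_of_mem_primeFactors p.2)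
    apply Subtype.ext
    simp only [Pi.mul_apply]
    exact h p P _ _ (e.symm a p P).2 (e.symm b p P).2
  have h2 := congrArg e h1
  simpa using h2


/-- Let G be a finite nilpotent group. Every non-abelian subgroup of G is self-normalizing if and only if G is abelian or G is a minimal non-abelian p-group for some prime p (non-abelian of prime-power order with every proper subgroup abelian). -/
theorem result {G : Type*} [Group G] [Finite G]
    [Group.IsNilpotent G] :
    (∀ H : Subgroup G, ¬ IsMulCommutative H → Subgroup.normalizer (H : Set G) = H) ↔
    (IsMulCommutative G ∨ (IsPrimePow (Nat.card G) ∧ ¬ IsMulCommutative G ∧ ∀ H : Subgroup G, H ≠ ⊤ → IsMulCommutative H)) := by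
  constructor
  · intro hN
    by_cases hc : IsMulCommutative G
    · exact Or.inl hc
    · right
      have hprop : ∀ H : Subgroup G, H ≠ ⊤ → IsMulCommutative H := by
        intro H hH
        by_contra hHc
        have h1 := hN H hHc
        have h2 := Group.normalizerCondition_of_isNilpotent (G := G) H (lt_top_iff_ne_top.mpr hH)
        rw [h1] at h2
        exact lt_irrefl _ h2
      refine ⟨?_, hc, hprop⟩
      by_contra hnp
      apply hc
      rw [isMulCommutative_iff]
      apply abelian_of_sylow_abelian
      intro p _ P a b ha hb
      have hP : (P : Subgroup G) ≠ ⊤ := by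
        intro htop
        have hcard : Nat.card G = Nat.card P := by
          rw [htop, Subgroup.card_top]
        obtain ⟨k, hk⟩ := P.isPGroup'.exists_card_eq
        rw [hk] at hcard
        rcases Nat.eq_zero_or_pos k with rfl | hkpos
        · rw [pow_zero] at hcard
          apply hc
          have : Subsingleton G := (Nat.card_eq_one_iff_unique.mp hcard).1
          rw [isMulCommutative_iff]
          intro x y
          exact Subsingleton.elim _ _
        · apply hnp
          rw [hcard]
          exact ⟨p, k, (Fact.out : p.Prime).prime, hkpos, rfl⟩
      have hPc := hprop P hP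
      have := (isMulCommutative_iff.mp hPc) ⟨a, ha⟩ ⟨b, hb⟩
      exact congrArg Subtype.val this
  · rintro (hc | ⟨-, -, hprop⟩)
    · intro H hH
      exfalso
      apply hH
      rw [isMulCommutative_iff]
      intro a b
      apply Subtype.ext
      exact (isMulCommutative_iff.mp hc) a b
    · intro H hH
      have : H = ⊤ := by
        by_contra hne
        exact hH (hprop H hne)
      rw [this]
      refine le_antisymm le_top ?_
      exact Subgroup.le_normalizer

end Cfsg.Agent.S4075
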