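import Cfsg.Statements.S4080
import Mathlib
-- import your own Cfsg.Agent.* helpers here

set_option autoImplicit false
open Cfsg

namespace Cfsg.Agent.S4080


open Matrix

theorem zmod_sq_dvd (p : ℕ) [Fact p.Prime] (r : ZMod (p ^ 2))
    (h : ZMod.castHom (dvd_pow_self p two_ne_zero) (ZMod p) r = 0) : ∃ s : ZMod (p ^ 2), r = (p : ZMod (p ^ 2)) * s := by
  haveI : NeZero (p ^ 2) := ⟨pow_ne_zero 2 (Fact.out : p.Prime).ne_zero⟩
  have h1 : ((r.val : ℕ) : ZMod (p ^ 2)) = r := ZMod.natCast_zmod_val r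
  rw [← h1, map_natCast, ZMod.natCast_eq_zero_iff] at h
  obtain ⟨c, hc⟩ := h
  exact ⟨(c : ZMod (p ^ 2)), by rw [← h1, hc]; push_cast; rfl⟩

theorem ch2 {R : Type*} [CommRing R] (D : Matrix (Fin 2) (Fin 2) R) :
    D * D = D.trace • D - D.det • (1 : Matrix (Fin 2) (Fin 2) R) := by
  rw [Matrix.trace_fin_two, Matrix.det_fin_two]
  ext i j
  fin_cases i <;> fin_cases j <;> simp [Matrix.mul_apply, Fin.sum_univ_two] <;> ring

theorem mat_lemma (p : ℕ) [Fact p.Prime] (hp : 3 < p) (M : Matrix (Fin 2) (Fin 2) (ZMod (p ^ 2)))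
    (hM : M ^ p = 1) : p • (M - 1) = 0 := by
  have hpp : (Fact.out : p.Prime) = (Fact.out : p.Prime) := rfl
  have hprime : p.Prime := Fact.out
  obtain ⟨φ, hφ⟩ : ∃ φ : ZMod (p ^ 2) →+* ZMod p, φ = ZMod.castHom (dvd_pow_self p two_ne_zero) (ZMod p) := ⟨_, rfl⟩
  obtain ⟨D, hD⟩ : ∃ D : Matrix (Fin 2) (Fin 2) (ZMod (p ^ 2)), D = M - 1 := ⟨_, rfl⟩
  have hpR : (p : ZMod (p ^ 2)) * (p : ZMod (p ^ 2)) = 0 := by
    rw [← Nat.cast_mul, ← pow_two]; exact ZMod.natCast_self (p ^ 2)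
  -- reduction mod p is nilpotent
  have hDbar : (φ.mapMatrix D) ^ p = 0 := by
    have h1 : φ.mapMatrix D = φ.mapMatrix M - 1 := by rw [hD, map_sub, map_one]
    rw [h1, sub_pow_char_of_commute p (Commute.one_right _), one_pow, ← map_pow, hM, map_one, sub_self]
  have hnil : IsNilpotent (φ.mapMatrix D) := ⟨p, hDbar⟩
  have htr : φ D.trace = 0 := by
    have h1 := (Matrix.isNilpotent_trace_of_isNilpotent hnil).eq_zero
    rw [AddMonoidHom.map_trace φ D]
    exact h1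
  have hdet : φ D.det = 0 := by
    rw [RingHom.map_det]
    have h1 : (φ.mapMatrix D).det ^ p = 0 := by rw [← Matrix.det_pow, hDbar, Matrix.det_zero]
    exact pow_eq_zero_iff (hprime.ne_zero) |>.mp h1
  obtain ⟨t, ht⟩ := zmod_sq_dvd p _ (by rw [← hφ]; exact htr)
  obtain ⟨d, hd⟩ := zmod_sq_dvd p _ (by rw [← hφ]; exact hdet)
  have hCH : D ^ 2 = D.trace • D - D.det • (1 : Matrix (Fin 2) (Fin 2) (ZMod (p ^ 2))) := by
    rw [← ch2 D]; exact sq D
  have hD2 : D ^ 2 = (p : ZMod (p ^ 2)) • (t • D - d • (1 : Matrix (Fin 2) (Fin 2) (ZMod (p ^ 2)))) := by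
    rw [hCH, ht, hd, mul_smul, mul_smul, ← smul_sub]
  have hD4 : D ^ 4 = 0 := by
    have : D ^ 4 = D ^ 2 * D ^ 2 := by rw [← pow_add]
    rw [this, hD2, Matrix.smul_mul, Matrix.mul_smul, smul_smul, hpR, zero_smul]
  have hMD : M = D + 1 := by rw [hD]; abel
  have hexp := (Commute.one_right D).add_pow p
  rw [← hMD, hM] at hexp
  have hsum : ∑ m ∈ Finset.range (p + 1), D ^ m * 1 ^ (p - m) * ((p.choose m : ℕ) : Matrix (Fin 2) (Fin 2) (ZMod (p ^ 2))) = D ^ 0 * 1 ^ (p - 0) * ((p.choose 0 : ℕ) : Matrix (Fin 2) (Fin 2) (ZMod (p ^ 2))) + D ^ 1 * 1 ^ (p - 1) * ((p.choose 1 : ℕ) : Matrix (Fin 2) (Fin 2) (ZMod (p ^ 2))) := by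
    apply Finset.sum_eq_add 0 1 (by norm_num)
    · intro m hm ⟨hm0, hm1⟩
      rw [Finset.mem_range] at hm
      rw [one_pow, mul_one, ← nsmul_eq_mul']
      by_cases hmp : m = p
      · have : D ^ m = D ^ 4 * D ^ (m - 4) := by rw [← pow_add]; congr 1; omega
        rw [this, hD4, zero_mul, smul_zero]
      · have hdvd : p ∣ p.choose m := hprime.dvd_choose_self hm0 (by omega)
        obtain ⟨c, hc⟩ := hdvd
        have : D ^ m = D ^ 2 * D ^ (m - 2) := by rw [← pow_add]; congr 1; omega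
        rw [this, hD2, hc, mul_nsmul, ← Nat.cast_smul_eq_nsmul (ZMod (p ^ 2)) p, Matrix.smul_mul, smul_smul, hpR, zero_smul, smul_zero]
    · intro h; exact absurd (Finset.mem_range.mpr (by omega)) h
    · intro h; exact absurd (Finset.mem_range.mpr (by omega)) h
  rw [hsum] at hexp
  simp only [pow_zero, one_pow, mul_one, Nat.choose_zero_right, Nat.cast_one, pow_one, Nat.choose_one_right] at hexp
  have : D * ((p : ℕ) : Matrix (Fin 2) (Fin 2) (ZMod (p ^ 2))) = 0 := by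
    have h2 : (1 : Matrix (Fin 2) (Fin 2) (ZMod (p ^ 2))) + 0 = 1 + D * ((p : ℕ) : Matrix (Fin 2) (Fin 2) (ZMod (p ^ 2))) := by rw [add_zero]; exact hexp
    exact (add_left_cancel h2).symm
  rw [nsmul_eq_mul', ← hD]
  exact this

theorem zmod_sq_tors (p : ℕ) [Fact p.Prime] (u : ZMod (p ^ 2)) (h : p • u = 0) :
    ∃ s : ZMod (p ^ 2), u = p • s := by
  haveI : NeZero (p ^ 2) := ⟨pow_ne_zero 2 (Fact.out : p.Prime).ne_zero⟩
  have h1 : ((u.val : ℕ) : ZMod (p ^ 2)) = u := ZMod.natCast_zmod_val u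
  rw [← h1, nsmul_eq_mul, ← Nat.cast_mul, ZMod.natCast_eq_zero_iff] at h
  have h' : p * p ∣ p * u.val := dvd_trans (by rw [sq]) h
  have h2 : p ∣ u.val := Nat.dvd_of_mul_dvd_mul_left (Fact.out : p.Prime).pos h'
  obtain ⟨c, hc⟩ := h2
  exact ⟨(c : ZMod (p ^ 2)), by rw [← h1, hc, nsmul_eq_mul]; push_cast; rfl⟩

/-- Let p > 3 be a prime and L the direct product of two cyclic groups of order p². Every automorphism of L of order p fixes every element of order p of L. -/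
theorem result {p : ℕ} [Fact p.Prime] (hp : 3 < p)
    (a : MulAut (Multiplicative (ZMod (p ^ 2) × ZMod (p ^ 2)))) (ha : orderOf a = p)
    (x : Multiplicative (ZMod (p ^ 2) × ZMod (p ^ 2))) (hx : orderOf x = p) : a x = x := by
  classical
  obtain ⟨g, hg⟩ : ∃ g : (ZMod (p ^ 2) × ZMod (p ^ 2)) →+ (ZMod (p ^ 2) × ZMod (p ^ 2)), ∀ v, g v = Multiplicative.toAdd (a (Multiplicative.ofAdd v)) :=
    ⟨AddMonoidHom.toMultiplicative.symm (a : Multiplicative (ZMod (p ^ 2) × ZMod (p ^ 2)) →* Multiplicative (ZMod (p ^ 2) × ZMod (p ^ 2))), fun v => rfl⟩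
  obtain ⟨F, hF⟩ : ∃ F : Module.End (ZMod (p ^ 2)) (ZMod (p ^ 2) × ZMod (p ^ 2)), ∀ v, F v = g v :=
    ⟨g.toZModLinearMap (p ^ 2), fun v => rfl⟩
  have hFa : ∀ v, a (Multiplicative.ofAdd v) = Multiplicative.ofAdd (F v) := by
    intro v; rw [hF, hg]; rfl
  have hFk : ∀ k : ℕ, ∀ v, (a ^ k) (Multiplicative.ofAdd v) = Multiplicative.ofAdd ((F ^ k) v) := by
    intro k
    induction k with
    | zero => intro v; simp
    | succ k ih =>
      intro v
      rw [pow_succ' a k, MulAut.mul_apply, ih, hFa, pow_succ' F k, Module.End.mul_apply]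
  have hap : a ^ p = 1 := by
    have := pow_orderOf_eq_one a
    rwa [ha] at this
  have hFp : F ^ p = 1 := by
    apply LinearMap.ext
    intro v
    have := hFk p v
    rw [hap, MulAut.one_apply] at this
    exact (Multiplicative.ofAdd.injective this).symm
  obtain ⟨e, he⟩ : ∃ e : Module.End (ZMod (p ^ 2)) (ZMod (p ^ 2) × ZMod (p ^ 2)) ≃ₐ[ZMod (p ^ 2)] Matrix (Fin 2) (Fin 2) (ZMod (p ^ 2)), e = e :=
    ⟨LinearMap.toMatrixAlgEquiv (Module.Basis.finTwoProd (ZMod (p ^ 2))), rfl⟩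
  have hM : (e F) ^ p = 1 := by rw [← map_pow, hFp, map_one]
  have h1 := mat_lemma p hp (e F) hM
  have h2 : p • (F - 1) = 0 := by
    apply e.injective
    rw [map_nsmul, map_sub, map_one, map_zero]; exact h1
  have hxp : x ^ p = 1 := by
    have := pow_orderOf_eq_one x
    rwa [hx] at this
  have hv : p • Multiplicative.toAdd x = 0 := by
    have := congrArg Multiplicative.toAdd hxp
    rwa [toAdd_pow, toAdd_one] at this
  obtain ⟨s, hs⟩ := zmod_sq_tors p (Multiplicative.toAdd x).1 (by have := congrArg Prod.fst hv; simpa using this)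
  obtain ⟨t, ht⟩ := zmod_sq_tors p (Multiplicative.toAdd x).2 (by have := congrArg Prod.snd hv; simpa using this)
  have hy : Multiplicative.toAdd x = p • ((s, t) : ZMod (p ^ 2) × ZMod (p ^ 2)) := by
    apply Prod.ext
    · simpa using hs
    · simpa using ht
  have h3 : p • (F (s, t) - (s, t)) = 0 := by
    have := congrArg (fun T : Module.End (ZMod (p ^ 2)) (ZMod (p ^ 2) × ZMod (p ^ 2)) => T (s, t)) h2
    simpa using this
  have h4 : F (Multiplicative.toAdd x) = Multiplicative.toAdd x := by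
    rw [hy, map_nsmul]
    rw [smul_sub, sub_eq_zero] at h3
    exact h3
  have h5 := hFa (Multiplicative.toAdd x)
  rw [h4] at h5
  exact h5

end Cfsg.Agent.S4080
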