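import Cfsg.Statements.S4084
import Mathlib
-- import your own Cfsg.Agent.* helpers here

set_option autoImplicit false
open Cfsg

namespace Cfsg.Agent.S4084

/-- the double centralizer inside the centralizer -/
def zc {G : Type*} [Group G] (g : G) : Subgroup G :=
  Subgroup.centralizer (Subgroup.centralizer ({g} : Set G) : Set G) ⊓ Subgroup.centralizer ({g} : Set G)

theorem mem_zc {G : Type*} [Group G] (g x : G) :
    x ∈ zc g ↔ (Commute x g ∧ ∀ y : G, Commute y g → Commute x y) := by
  unfold zc
  rw [Subgroup.mem_inf, Subgroup.mem_centralizer_iff, Subgroup.mem_centralizer_iff]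
  constructor
  · rintro ⟨h1, h2⟩
    refine ⟨?_, ?_⟩
    · exact (h2 g (Set.mem_singleton g)).symm
    · intro y hy
      have : y ∈ Subgroup.centralizer ({g} : Set G) := by
        rw [Subgroup.mem_centralizer_iff]
        intro z hz
        rw [Set.mem_singleton_iff] at hz
        subst hz
        exact hy.symm.eq
      exact (h1 y this).symm
  · rintro ⟨h1, h2⟩
    refine ⟨?_, ?_⟩
    · intro y hy
      have hy' : Commute y g := by
        have := (Subgroup.mem_centralizer_iff.mp hy) g (Set.mem_singleton g)
        exact this.symm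
      exact (h2 y hy').symm.eq
    · intro z hz
      rw [Set.mem_singleton_iff] at hz
      subst hz
      exact h1.symm.eq

theorem one_dir {G H : Type*} [Group G] [Finite G] [Group H] [Finite H] (e : G ≃ H)
    (he : ∀ x y : G, Commute x y ↔ Commute (e x) (e y))
    {p q : ℕ} (hp : p.Prime) (hq : q.Prime) (hpq : p ≠ q) :
    (∃ g : G, orderOf g = p * q) → (∃ h : H, orderOf h = p * q) := by
  rintro ⟨g, hg⟩
  -- cardinalities agree
  have hcard : Nat.card (zc g) = Nat.card (zc (e g)) := by
    apply Nat.card_congr
    refine Equiv.subtypeEquiv e ?_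
    intro a
    show a ∈ zc g ↔ e a ∈ zc (e g)
    rw [mem_zc, mem_zc]
    constructor
    · rintro ⟨h1, h2⟩
      refine ⟨(he _ _).mp h1, ?_⟩
      intro y hy
      obtain ⟨y', rfl⟩ := e.surjective y
      exact (he _ _).mp (h2 y' ((he _ _).mpr hy))
    · rintro ⟨h1, h2⟩
      refine ⟨(he _ _).mpr h1, ?_⟩
      intro y hy
      exact (he _ _).mpr (h2 (e y) ((he _ _).mp hy))
  have hgz : g ∈ zc g := by
    rw [mem_zc]
    exact ⟨Commute.refl g, fun y hy => hy.symm⟩
  have hdvd : p * q ∣ Nat.card (zc (e g)) := by
    rw [← hcard, ← hg]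
    have := Subgroup.orderOf_dvd_natCard (zc g) hgz
    exact this
  have hpd : p ∣ Nat.card (zc (e g)) := (Dvd.intro _ rfl).trans hdvd
  have hqd : q ∣ Nat.card (zc (e g)) := (Dvd.intro_left _ rfl).trans hdvd
  have := Fact.mk hp
  have := Fact.mk hq
  obtain ⟨a, ha⟩ := exists_prime_orderOf_dvd_card' p hpd
  obtain ⟨b, hb⟩ := exists_prime_orderOf_dvd_card' q hqd
  have hab : Commute (a : H) (b : H) := by
    have h1 := (mem_zc (e g) a).mp a.2
    have h2 := (mem_zc (e g) b).mp b.2
    exact h1.2 _ h2.1
  refine ⟨(a : H) * (b : H), ?_⟩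
  rw [hab.orderOf_mul_eq_mul_orderOf_of_coprime, Subgroup.orderOf_coe, Subgroup.orderOf_coe, ha, hb]
  rw [Subgroup.orderOf_coe, Subgroup.orderOf_coe, ha, hb]
  exact (Nat.coprime_primes hp hq).mpr hpq

/-- Let G and H be finite groups whose commuting graphs are isomorphic: there is a bijection e : G → H with x, y commuting exactly when e(x), e(y) commute. Then G and H have the same prime graph: for distinct primes p, q, G has an element of order pq if and only if H does (and #G = #H, so the prime divisors agree). -/
theorem result {G H : Type*} [Group G] [Finite G] [Group H] [Finite H] (e : G ≃ H)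
    (he : ∀ x y : G, Commute x y ↔ Commute (e x) (e y))
    {p q : ℕ} (hp : p.Prime) (hq : q.Prime) (hpq : p ≠ q) :
    (∃ g : G, orderOf g = p * q) ↔ (∃ h : H, orderOf h = p * q) := by
  constructor
  · exact one_dir e he hp hq hpq
  · apply one_dir e.symm _ hp hq hpq
    intro x y
    rw [he (e.symm x) (e.symm y)]
    simp

end Cfsg.Agent.S4084
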