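import Cfsg.Statements.S4086
import Mathlib
-- import your own Cfsg.Agent.* helpers here

set_option autoImplicit false
open Cfsg

namespace Cfsg.Agent.S4086

theorem mem_zpowers_of_orderOf_dvd {C : Type*} [Group C] [Finite C] [IsCyclic C] (x y : C)
    (h : orderOf x ∣ orderOf y) : x ∈ Subgroup.zpowers y := by
  classical
  have := Fintype.ofFinite C
  have hn : 0 < orderOf y := orderOf_pos y
  have h1 := IsCyclic.card_pow_eq_one_le (α := C) hn
  have hsub : (Finset.univ.filter (fun a : C => a ∈ Subgroup.zpowers y)) ⊆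
      (Finset.univ.filter (fun a : C => a ^ orderOf y = 1)) := by
    intro a ha
    rw [Finset.mem_filter] at ha ⊢
    refine ⟨Finset.mem_univ _, ?_⟩
    obtain ⟨k, rfl⟩ := ha.2
    rw [← zpow_natCast, ← zpow_mul, mul_comm, zpow_mul, zpow_natCast, pow_orderOf_eq_one, one_zpow]
  have hcardT : (Finset.univ.filter (fun a : C => a ∈ Subgroup.zpowers y)).card = orderOf y := by
    rw [← Nat.card_zpowers, Nat.card_eq_fintype_card, Fintype.card_subtype]
  have heq := Finset.eq_of_subset_of_card_le hsub (by rw [hcardT]; exact h1)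
  have hx : x ∈ (Finset.univ.filter (fun a : C => a ^ orderOf y = 1)) := by
    rw [Finset.mem_filter]; exact ⟨Finset.mem_univ _, (orderOf_dvd_iff_pow_eq_one).mp h⟩
  rw [← heq, Finset.mem_filter] at hx
  exact hx.2

theorem forward {G : Type*} [Group G] [Finite G]
    (h : ∀ g : G, g ≠ 1 → IsPrimePow (orderOf g)) (x y : G)
    (hC : IsCyclic ↥(Subgroup.closure ({x, y} : Set G))) :
    x ∈ Subgroup.zpowers y ∨ y ∈ Subgroup.zpowers x := by
  have hxC : x ∈ Subgroup.closure ({x, y} : Set G) := Subgroup.subset_closure (by simp)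
  have hyC : y ∈ Subgroup.closure ({x, y} : Set G) := Subgroup.subset_closure (by simp)
  obtain ⟨g, hg⟩ := hC.exists_generator
  have hcard : orderOf g = Nat.card ↥(Subgroup.closure ({x, y} : Set G)) :=
    orderOf_eq_card_of_forall_mem_zpowers hg
  have key : ∀ a b : ↥(Subgroup.closure ({x, y} : Set G)), orderOf a ∣ orderOf b →
      (a : G) ∈ Subgroup.zpowers (b : G) := by
    intro a b hab
    have := mem_zpowers_of_orderOf_dvd a b hab
    obtain ⟨k, hk⟩ := this
    refine ⟨k, ?_⟩
    have := congrArg (Subtype.val) hk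
    simpa using this
  by_cases hg1 : g = 1
  · left
    have : (⟨x, hxC⟩ : ↥(Subgroup.closure ({x, y} : Set G))) = 1 := by
      obtain ⟨k, hk⟩ := hg ⟨x, hxC⟩
      rw [← hk, hg1]
      exact one_zpow k
    have hx1 : x = 1 := by simpa using congrArg Subtype.val this
    rw [hx1]
    exact one_mem _
  · have hg1' : (g : G) ≠ 1 := by
      intro h1
      apply hg1
      exact Subtype.ext h1
    obtain ⟨p, k, hp, hk, hpk⟩ := h (g : G) hg1'
    rw [Subgroup.orderOf_coe] at hpk
    have hox : orderOf (⟨x, hxC⟩ : ↥(Subgroup.closure ({x, y} : Set G))) ∣ p ^ k := by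
      rw [hpk, hcard]; exact orderOf_dvd_natCard _
    have hoy : orderOf (⟨y, hyC⟩ : ↥(Subgroup.closure ({x, y} : Set G))) ∣ p ^ k := by
      rw [hpk, hcard]; exact orderOf_dvd_natCard _
    obtain ⟨i, hi, hxi⟩ := (Nat.dvd_prime_pow hp.nat_prime).mp hox
    obtain ⟨j, hj, hyj⟩ := (Nat.dvd_prime_pow hp.nat_prime).mp hoy
    rcases le_total i j with hij | hij
    · left
      exact key ⟨x, hxC⟩ ⟨y, hyC⟩ (by rw [hxi, hyj]; exact pow_dvd_pow p hij)
    · right
      exact key ⟨y, hyC⟩ ⟨x, hxC⟩ (by rw [hxi, hyj]; exact pow_dvd_pow p hij)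

theorem backward {G : Type*} [Group G] [Finite G]
    (h : ∀ x y : G, IsCyclic ↥(Subgroup.closure ({x, y} : Set G)) →
      (x ∈ Subgroup.zpowers y ∨ y ∈ Subgroup.zpowers x)) (g : G) (hg : g ≠ 1) :
    IsPrimePow (orderOf g) := by
  by_contra hnp
  have hn1 : orderOf g ≠ 1 := by
    intro h1; exact hg (orderOf_eq_one_iff.mp h1)
  have hn0 : orderOf g ≠ 0 := (orderOf_pos g).ne'
  obtain ⟨p, hp, hpd⟩ := Nat.exists_prime_and_dvd hn1
  -- a = p-part, b = p'-part
  set n := orderOf g with hn
  set a := p ^ n.factorization p with ha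
  set b := n / a with hb
  have hab : a * b = n := Nat.ordProj_mul_ordCompl_eq_self n p
  have hcop : Nat.Coprime a b := by
    rw [ha, hb]
    exact Nat.Coprime.pow_left _ (Nat.coprime_ordCompl hp hn0)
  have ha1 : a ≠ 1 := by
    rw [ha]
    intro h1
    have hpos : 0 < n.factorization p := hp.factorization_pos_of_dvd hn0 hpd
    have : 1 < p ^ n.factorization p := Nat.one_lt_pow hpos.ne' hp.one_lt
    omega
  have hb1 : b ≠ 1 := by
    intro h1
    apply hnp
    rw [← hab, h1, mul_one, ha]
    exact ⟨p, n.factorization p, hp.prime, hp.factorization_pos_of_dvd hn0 hpd, rfl⟩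
  have ha0 : a ≠ 0 := by intro h0; rw [h0, zero_mul] at hab; exact hn0 hab.symm
  have hb0 : b ≠ 0 := by intro h0; rw [h0, mul_zero] at hab; exact hn0 hab.symm
  have hoa : orderOf (g ^ a) = b := by
    rw [orderOf_pow' g ha0, ← hn, Nat.gcd_eq_right (Dvd.intro _ hab), hb]
  have hob : orderOf (g ^ b) = a := by
    rw [orderOf_pow' g hb0, ← hn, Nat.gcd_eq_right (Dvd.intro_left _ hab)]
    exact Nat.div_eq_of_eq_mul_left (Nat.pos_of_ne_zero hb0) hab.symm
  have hcyc : IsCyclic ↥(Subgroup.closure ({g ^ a, g ^ b} : Set G)) := by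
    have hle : Subgroup.closure ({g ^ a, g ^ b} : Set G) ≤ Subgroup.zpowers g := by
      rw [Subgroup.closure_le]
      intro z hz
      rcases hz with rfl | rfl
      · exact Subgroup.npow_mem_zpowers g a
      · exact Subgroup.npow_mem_zpowers g b
    exact isCyclic_of_injective (Subgroup.inclusion hle) (Subgroup.inclusion_injective hle)
  rcases h (g ^ a) (g ^ b) hcyc with h1 | h1
  · have hd : orderOf (g ^ a) ∣ orderOf (g ^ b) := by
      obtain ⟨k, hk⟩ := h1
      rw [← hk]
      exact orderOf_dvd_of_pow_eq_one (by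
        rw [← zpow_natCast, ← zpow_mul, mul_comm, zpow_mul, zpow_natCast, pow_orderOf_eq_one, one_zpow])
    rw [hoa, hob] at hd
    have := Nat.eq_one_of_dvd_coprimes hcop.symm dvd_rfl hd
    exact hb1 this
  · have hd : orderOf (g ^ b) ∣ orderOf (g ^ a) := by
      obtain ⟨k, hk⟩ := h1
      rw [← hk]
      exact orderOf_dvd_of_pow_eq_one (by
        rw [← zpow_natCast, ← zpow_mul, mul_comm, zpow_mul, zpow_natCast, pow_orderOf_eq_one, one_zpow])
    rw [hoa, hob] at hd
    have := Nat.eq_one_of_dvd_coprimes hcop dvd_rfl hd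
    exact ha1 this


/-- For a finite group G the following are equivalent: every non-identity element has prime-power order; whenever two elements generate a cyclic subgroup, one of them is a power of the other (the enhanced power graph of G coincides with its power graph). -/
theorem result {G : Type*} [Group G] [Finite G] :
    (∀ g : G, g ≠ 1 → IsPrimePow (orderOf g)) ↔
    (∀ x y : G, IsCyclic ↥(Subgroup.closure ({x, y} : Set G)) → (x ∈ Subgroup.zpowers y ∨ y ∈ Subgroup.zpowers x)) := by
  exact ⟨forward, backward⟩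

end Cfsg.Agent.S4086
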