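import Cfsg.Statements.S4089
import Mathlib
import Cfsg.Agent.Lib.Helper1.Basic
import Cfsg.Agent.Lib.Helper2.Fit
import Cfsg.Agent.Lib.Helper4.Subnormal
import Cfsg.Agent.Lib.Lead.PmQ
-- import your own Cfsg.Agent.* helpers here

set_option autoImplicit false
open Cfsg

namespace Cfsg.Agent.S4089


open Cfsg.Agent.Lib.Helper2 in
theorem exists_pgroup_of_subnormal {G : Type*} [Group G] [Finite G] (p : ℕ) [Fact p.Prime]
    (H : Subgroup G) (hH : IsPGroup p H) (g : G)
    (h : (H.subgroupOf (H ⊔ Subgroup.zpowers g)).IsSubnormal) :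
    ∃ R : Subgroup G, IsPGroup p R ∧ H ≤ R ∧ g ∈ Subgroup.normalizer (R : Set G) := by
  set K := H ⊔ Subgroup.zpowers g with hK
  have hHK : IsPGroup p (H.subgroupOf K) := hH.comap_subtype
  have hle : H.subgroupOf K ≤ Cfsg.pCore p K := subnormal_pgroup_le_pCore p (H.subgroupOf K) h hHK
  refine ⟨(Cfsg.pCore p K).map K.subtype, (pCore_isPGroup' p K).map K.subtype, ?_, ?_⟩
  · intro x hx
    have hxK : x ∈ K := (le_sup_left : H ≤ K) hx
    exact ⟨⟨x, hxK⟩, hle (Subgroup.mem_subgroupOf.2 hx), rfl⟩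
  · have hgK : g ∈ K := (le_sup_right : Subgroup.zpowers g ≤ K) (Subgroup.mem_zpowers g)
    apply Cfsg.Agent.Lib.Helper1.mem_normalizer_of_finite
    rintro n ⟨y, hy, rfl⟩
    refine ⟨(⟨g, hgK⟩ : K) * y * (⟨g, hgK⟩ : K)⁻¹, ?_, rfl⟩
    exact (Cfsg.pCore_normal p K).conj_mem y hy _

theorem subnormal_of_pgroup {G : Type*} [Group G] [Finite G] (p : ℕ) [Fact p.Prime]
    (H R : Subgroup G) (hR : IsPGroup p R) (hHR : H ≤ R) (g : G)
    (hg : g ∈ Subgroup.normalizer (R : Set G)) :
    (H.subgroupOf (H ⊔ Subgroup.zpowers g)).IsSubnormal := by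
  set L := R ⊔ Subgroup.zpowers g with hL
  have hKL : H ⊔ Subgroup.zpowers g ≤ L := sup_le (hHR.trans le_sup_left) le_sup_right
  have hLN : L ≤ Subgroup.normalizer (R : Set G) :=
    sup_le Subgroup.le_normalizer ((Subgroup.zpowers_le).2 hg)
  have hRn : (R.subgroupOf L).Normal := Subgroup.normal_subgroupOf_of_le_normalizer hLN
  have hRp : IsPGroup p (R.subgroupOf L) := hR.comap_subtype
  haveI : Group.IsNilpotent ↥(R.subgroupOf L) := hRp.isNilpotent
  have hle : H.subgroupOf L ≤ R.subgroupOf L := by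
    intro x hx
    exact Subgroup.mem_subgroupOf.2 (hHR (Subgroup.mem_subgroupOf.1 hx))
  have h1 : ((H.subgroupOf L).subgroupOf (R.subgroupOf L)).IsSubnormal :=
    Cfsg.Agent.Lib.Helper4.isSubnormal_of_isNilpotent _
  have h2 : (H.subgroupOf L).IsSubnormal := Subgroup.IsSubnormal.trans hle h1 hRn.isSubnormal
  have h3 := h2.comap (Subgroup.inclusion hKL)
  have e : (H.subgroupOf L).comap (Subgroup.inclusion hKL) = H.subgroupOf (H ⊔ Subgroup.zpowers g) := by
    ext x
    simp [Subgroup.mem_subgroupOf]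
  rw [e] at h3
  exact h3

/-- `O_p(K)` as a subgroup of `G`. -/
def opOf {G : Type*} [Group G] (p : ℕ) (K : Subgroup G) : Subgroup G :=
  (Cfsg.pCore p K).map K.subtype

open Cfsg.Agent.Lib.Helper2 in
theorem opOf_isPGroup {G : Type*} [Group G] [Finite G] (p : ℕ) [Fact p.Prime] (K : Subgroup G) :
    IsPGroup p (opOf p K) := (pCore_isPGroup' p K).map K.subtype

theorem le_opOf_normalizer {G : Type*} [Group G] [Finite G] (p : ℕ) [Fact p.Prime] (R : Subgroup G)
    (hR : IsPGroup p R) : R ≤ opOf p (Subgroup.normalizer (R : Set G)) := by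
  intro x hx
  have hxN : x ∈ Subgroup.normalizer (R : Set G) := Subgroup.le_normalizer hx
  have hn : (R.subgroupOf (Subgroup.normalizer (R : Set G))).Normal :=
    Subgroup.normal_subgroupOf_of_le_normalizer le_rfl
  have hp : IsPGroup p (R.subgroupOf (Subgroup.normalizer (R : Set G))) := hR.comap_subtype
  have hle : R.subgroupOf (Subgroup.normalizer (R : Set G)) ≤ Cfsg.pCore p (Subgroup.normalizer (R : Set G)) :=
    le_sSup ⟨hn, hp⟩
  exact ⟨⟨x, hxN⟩, hle (Subgroup.mem_subgroupOf.2 hx), rfl⟩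

theorem le_normalizer_opOf {G : Type*} [Group G] [Finite G] (p : ℕ) [Fact p.Prime] (K : Subgroup G) :
    K ≤ Subgroup.normalizer (opOf p K : Set G) := by
  intro g hgK
  apply Cfsg.Agent.Lib.Helper1.mem_normalizer_of_finite
  rintro n ⟨y, hy, rfl⟩
  refine ⟨(⟨g, hgK⟩ : K) * y * (⟨g, hgK⟩ : K)⁻¹, ?_, rfl⟩
  exact (Cfsg.pCore_normal p K).conj_mem y hy _

/-- From a `p`-subgroup normalized by `g` to a radical one. -/
theorem exists_radical {G : Type*} [Group G] [Finite G] (p : ℕ) [Fact p.Prime]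
    (H R₀ : Subgroup G) (hR₀ : IsPGroup p R₀) (hHR₀ : H ≤ R₀) (g : G)
    (hg : g ∈ Subgroup.normalizer (R₀ : Set G)) :
    ∃ R : Subgroup G, H ≤ R ∧ opOf p (Subgroup.normalizer (R : Set G)) = R ∧
      g ∈ Subgroup.normalizer (R : Set G) := by
  classical
  have hex : ∃ n : ℕ, ∃ R : Subgroup G, IsPGroup p R ∧ H ≤ R ∧
      g ∈ Subgroup.normalizer (R : Set G) ∧ Nat.card G - Nat.card R = n :=
    ⟨_, R₀, hR₀, hHR₀, hg, rfl⟩
  obtain ⟨R, hRp, hHR, hgR, hn⟩ := Nat.find_spec hex
  have hmin := fun m (hm : m < Nat.find hex) => Nat.find_min hex hm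
  refine ⟨R, hHR, ?_, hgR⟩
  set R' := opOf p (Subgroup.normalizer (R : Set G)) with hR'
  have hRR' : R ≤ R' := le_opOf_normalizer p R hRp
  have hR'p : IsPGroup p R' := opOf_isPGroup p _
  have hgR' : g ∈ Subgroup.normalizer (R' : Set G) := le_normalizer_opOf p _ hgR
  by_contra hne
  have hlt : Nat.card R < Nat.card R' := by
    have h1 : Nat.card R ≤ Nat.card R' := Subgroup.card_le_of_le hRR'
    rcases lt_or_eq_of_le h1 with h2 | h2
    · exact h2
    · exfalso
      exact hne (Subgroup.eq_of_le_of_card_ge hRR' h2.ge).symm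
  have hR'G : Nat.card R' ≤ Nat.card G := Subgroup.card_le_card_group R'
  exact hmin (Nat.card G - Nat.card R') (by omega) ⟨R', hR'p, hHR.trans hRR', hgR', rfl⟩

open Cfsg.Agent.Lib.Helper2 in
/-- A radical `p`-subgroup is the intersection of the Sylow subgroups containing it. -/
theorem radical_eq_sInf {G : Type*} [Group G] [Finite G] (p : ℕ) [Fact p.Prime]
    (R : Subgroup G) (hR : opOf p (Subgroup.normalizer (R : Set G)) = R) :
    sInf {K : Subgroup G | ∃ Q : Sylow p G, R ≤ (Q : Subgroup G) ∧ K = (Q : Subgroup G)} ≤ R := by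
  classical
  have hRp : IsPGroup p R := by rw [← hR]; exact opOf_isPGroup p _
  set T := sInf {K : Subgroup G | ∃ Q : Sylow p G, R ≤ (Q : Subgroup G) ∧ K = (Q : Subgroup G)} with hT
  obtain ⟨Q₀, hQ₀⟩ := hRp.exists_le_sylow
  have hTQ₀ : T ≤ (Q₀ : Subgroup G) := sInf_le ⟨Q₀, hQ₀, rfl⟩
  have hTp : IsPGroup p T := Q₀.2.to_le hTQ₀
  have hRT : R ≤ T := by
    apply le_sInf
    rintro K ⟨Q, hQ, rfl⟩
    exact hQ
  by_contra hne
  have hne' : R ≠ T := fun h => hne (h ▸ le_rfl)
  obtain ⟨t, htT, htN, htR⟩ := Cfsg.Agent.Lib.Lead.exists_mem_normalizer_not_mem T R hTp hRT hne'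
  apply htR
  set N := Subgroup.normalizer (R : Set G) with hN
  -- t lies in every Sylow subgroup of N
  have hall : ∀ S : Sylow p N, (⟨t, htN⟩ : N) ∈ (S : Subgroup N) := by
    intro S
    have hSp : IsPGroup p ((S : Subgroup N).map N.subtype) := S.2.map N.subtype
    obtain ⟨Q, hQ⟩ := hSp.exists_le_sylow
    have hRn : (R.subgroupOf N).Normal := Subgroup.normal_subgroupOf_of_le_normalizer le_rfl
    have hRS : R.subgroupOf N ≤ (S : Subgroup N) :=
      normal_pgroup_le_sylow (R.subgroupOf N) hRp.comap_subtype S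
    have hRQ : R ≤ (Q : Subgroup G) := by
      intro x hx
      have hxN : x ∈ N := Subgroup.le_normalizer hx
      exact hQ ⟨⟨x, hxN⟩, hRS (Subgroup.mem_subgroupOf.2 hx), rfl⟩
    have htQ : t ∈ (Q : Subgroup G) := (sInf_le ⟨Q, hRQ, rfl⟩ : T ≤ (Q : Subgroup G)) htT
    have hQN : IsPGroup p ((Q : Subgroup G).subgroupOf N) := Q.2.comap_subtype
    have hSQ : (S : Subgroup N) ≤ (Q : Subgroup G).subgroupOf N := by
      intro x hx
      exact Subgroup.mem_subgroupOf.2 (hQ ⟨x, hx, rfl⟩)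
    have heq : (Q : Subgroup G).subgroupOf N = (S : Subgroup N) := S.3 hQN hSQ
    rw [← heq]
    exact Subgroup.mem_subgroupOf.2 htQ
  -- the intersection of all Sylow subgroups of N is a normal p-subgroup
  set J : Subgroup N := ⨅ S : Sylow p N, (S : Subgroup N) with hJ
  have hJn : J.Normal := by
    refine ⟨fun x hx n => ?_⟩
    rw [hJ, Subgroup.mem_iInf] at hx ⊢
    intro S
    have h1 : x ∈ ((n⁻¹ • S : Sylow p N) : Subgroup N) := hx (n⁻¹ • S)
    rw [Sylow.coe_subgroup_smul, Cfsg.Agent.Lib.Helper1.mem_conj_smul] at h1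
    simpa using h1
  obtain ⟨S₀⟩ : Nonempty (Sylow p N) := inferInstance
  have hJp : IsPGroup p J := S₀.2.to_le (iInf_le _ S₀)
  have hJle : J ≤ Cfsg.pCore p N := le_sSup ⟨hJn, hJp⟩
  have htJ : (⟨t, htN⟩ : N) ∈ J := by
    rw [hJ, Subgroup.mem_iInf]
    exact hall
  have : t ∈ opOf p N := ⟨⟨t, htN⟩, hJle htJ, rfl⟩
  rw [hR] at this
  exact this

/-- Let G be a finite group, p a prime and H a p-subgroup of G. Then the set of elements g of G such that H is subnormal in the subgroup generated by H and g is the union of the normalizers N_G(R) over the subgroups R of G containing H with R = O_p(N_G(R)); and this set does not change when H is replaced by the intersection of all Sylow p-subgroups of G containing H. -/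
theorem result {G : Type*} [Group G] [Finite G] (p : ℕ) [Fact p.Prime]
    (H : Subgroup G) (hH : IsPGroup p H) :
    {g : G | ((H).subgroupOf (H ⊔ Subgroup.zpowers g)).IsSubnormal} =
      {g : G | ∃ R : Subgroup G, H ≤ R ∧ (Cfsg.pCore p (Subgroup.normalizer (R : Set G))).map (Subgroup.normalizer (R : Set G)).subtype = R ∧ g ∈ Subgroup.normalizer (R : Set G)} ∧
    ∀ g : G, (((H).subgroupOf (H ⊔ Subgroup.zpowers g)).IsSubnormal ↔
      (((sInf {K : Subgroup G | ∃ Q : Sylow p G, H ≤ (Q : Subgroup G) ∧ K = (Q : Subgroup G)})).subgroupOf ((sInf {K : Subgroup G | ∃ Q : Sylow p G, H ≤ (Q : Subgroup G) ∧ K = (Q : Subgroup G)}) ⊔ Subgroup.zpowers g)).IsSubnormal) := by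
  classical
  have key : ∀ g : G, (H.subgroupOf (H ⊔ Subgroup.zpowers g)).IsSubnormal ↔
      ∃ R : Subgroup G, H ≤ R ∧ opOf p (Subgroup.normalizer (R : Set G)) = R ∧
        g ∈ Subgroup.normalizer (R : Set G) := by
    intro g
    constructor
    · intro h
      obtain ⟨R₀, hR₀, hHR₀, hg⟩ := exists_pgroup_of_subnormal p H hH g h
      exact exists_radical p H R₀ hR₀ hHR₀ g hg
    · rintro ⟨R, hHR, hR, hg⟩
      have hRp : IsPGroup p R := by rw [← hR]; exact opOf_isPGroup p _
      exact subnormal_of_pgroup p H R hRp hHR g hg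
  refine ⟨?_, ?_⟩
  · ext g
    exact key g
  · intro g
    set Ht := sInf {K : Subgroup G | ∃ Q : Sylow p G, H ≤ (Q : Subgroup G) ∧ K = (Q : Subgroup G)} with hHt
    have hHHt : H ≤ Ht := by
      apply le_sInf
      rintro K ⟨Q, hQ, rfl⟩
      exact hQ
    obtain ⟨Q₀, hQ₀⟩ := hH.exists_le_sylow
    have hHtp : IsPGroup p Ht := Q₀.2.to_le (sInf_le ⟨Q₀, hQ₀, rfl⟩)
    constructor
    · intro h
      obtain ⟨R, hHR, hR, hg⟩ := (key g).1 h
      have hRp : IsPGroup p R := by rw [← hR]; exact opOf_isPGroup p _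
      have h1 := radical_eq_sInf p R hR
      have h2 : Ht ≤ R := by
        refine le_trans ?_ h1
        apply le_sInf
        rintro K ⟨Q, hQ, rfl⟩
        exact sInf_le ⟨Q, hHR.trans hQ, rfl⟩
      exact subnormal_of_pgroup p Ht R hRp h2 g hg
    · intro h
      obtain ⟨R₀, hR₀, hHR₀, hg⟩ := exists_pgroup_of_subnormal p Ht hHtp g h
      exact subnormal_of_pgroup p H R₀ hR₀ (hHHt.trans hHR₀) g hg

end Cfsg.Agent.S4089
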