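import Cfsg.Statements.S4092
import Mathlib
import Cfsg.Agent.Lib.Helper6.Conj
import Cfsg.Agent.Lib.Helper6.PGroups
-- import your own Cfsg.Agent.* helpers here

set_option autoImplicit false
open Cfsg

namespace Cfsg.Agent.S4092


open Cfsg.Agent.Lib.Helper6

theorem key_mem {G : Type*} [Group G] [Finite G] (p : ℕ) [Fact p.Prime] (P Q : Sylow p G)
    (D D₁ : Subgroup G) (hD : D = (P : Subgroup G) ⊓ Q)
    (hmax : ∀ S : Sylow p G, S ≠ P → Nat.card ((P : Subgroup G) ⊓ S : Subgroup G) ≤ Nat.card D)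
    (hDD₁ : D ≤ D₁) (hD₁Q : D₁ ≤ Q) (hD₁N : D₁ ≤ Subgroup.normalizer (D : Set G))
    (hgen : ∀ y ∈ D₁, y ∉ D → D₁ ≤ D ⊔ Subgroup.zpowers y)
    (w : G) (hw : w ∈ (P : Subgroup G)) (y : G) (hy : y ∈ D₁) (hyD : y ∉ D)
    (hz : w * y * w⁻¹ ∈ D₁) : w ∈ D := by
  have hDP : D ≤ P := hD ▸ inf_le_left
  have hyP : y ∉ (P : Subgroup G) := fun h => hyD (by rw [hD]; exact ⟨h, hD₁Q hy⟩)
  set z := w * y * w⁻¹ with hzdef
  have hzP : z ∉ (P : Subgroup G) := by
    intro h
    apply hyP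
    have : y = w⁻¹ * z * w := by rw [hzdef]; group
    rw [this]
    exact (P : Subgroup G).mul_mem ((P : Subgroup G).mul_mem ((P : Subgroup G).inv_mem hw) h) hw
  have hzD : z ∉ D := fun h => hzP (hDP h)
  have hD₁p : IsPGroup p D₁ := Q.2.to_le hD₁Q
  have hprinc : ∀ (E : Subgroup G) (S : Sylow p G), S ≠ P → E ≤ P → E ≤ S → D ≤ E → E = D := by
    intro E S hSP hEP hES hDE
    have h1 := hmax S hSP
    have h2 : E ≤ (P : Subgroup G) ⊓ S := le_inf hEP hES
    have h3 : Nat.card E ≤ Nat.card D := (Subgroup.card_le_of_le h2).trans h1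
    exact (Subgroup.eq_of_le_of_card_ge hDE h3).symm
  -- step 2 : w normalizes D
  set Dw := D.map (MulAut.conj w).toMonoidHom with hDw
  have hDwP : Dw ≤ P := map_conj_le_of_mem D P hDP hw
  have hyN : D.map (MulAut.conj y).toMonoidHom = D := (map_conj_eq_self_iff D y).2 (hD₁N hy)
  have hzN : D.map (MulAut.conj z).toMonoidHom = D := (map_conj_eq_self_iff D z).2 (hD₁N hz)
  have hzNw : Dw.map (MulAut.conj z).toMonoidHom = Dw := by
    rw [hDw, ← map_conj_mul]
    have : z * w = w * y := by rw [hzdef]; group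
    rw [this, map_conj_mul, hyN]
  set E := D ⊔ Dw with hE
  have hzNE : z ∈ Subgroup.normalizer (E : Set G) := by
    rw [← map_conj_eq_self_iff, hE, Subgroup.map_sup, hzN, hzNw]
  have hEP : E ≤ P := sup_le hDP hDwP
  have hEp : IsPGroup p E := P.2.to_le hEP
  have hzp : IsPGroup p (Subgroup.zpowers z) := hD₁p.to_le ((Subgroup.zpowers_le).2 hz)
  have hsup : IsPGroup p (Subgroup.zpowers z ⊔ E : Subgroup G) :=
    hzp.to_sup_of_normal_right' hEp ((Subgroup.zpowers_le).2 hzNE)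
  obtain ⟨S, hS⟩ := hsup.exists_le_sylow
  have hSP : S ≠ P := by
    rintro rfl
    exact hzP (hS (Subgroup.mem_sup_left (Subgroup.mem_zpowers z)))
  have hED : E = D := hprinc E S hSP hEP (le_sup_right.trans hS) le_sup_left
  have hDwD : Dw = D := by
    have h1 : Dw ≤ D := by rw [← hED]; exact le_sup_right
    exact Subgroup.eq_of_le_of_card_ge h1 (by rw [hDw, card_map_conj])
  -- step 3 : w normalizes D₁
  set D₁w := D₁.map (MulAut.conj w).toMonoidHom with hD₁w
  have hzD₁w : z ∈ D₁w := conj_mem_map_conj D₁ w hy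
  have hDD₁w : D ≤ D₁w := by
    rw [← hDwD, hDw, hD₁w]
    exact Subgroup.map_mono hDD₁
  have h1 : D₁ ≤ D₁w :=
    (hgen z hz hzD).trans (sup_le hDD₁w ((Subgroup.zpowers_le).2 hzD₁w))
  have hD₁eq : D₁w = D₁ :=
    (Subgroup.eq_of_le_of_card_ge h1 (by rw [hD₁w, card_map_conj])).symm
  have hwN : w ∈ Subgroup.normalizer (D₁ : Set G) := (map_conj_eq_self_iff D₁ w).1 hD₁eq
  have hwp : IsPGroup p (Subgroup.zpowers w) := P.2.to_le ((Subgroup.zpowers_le).2 hw)
  have hsup' : IsPGroup p (Subgroup.zpowers w ⊔ D₁ : Subgroup G) :=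
    hwp.to_sup_of_normal_right' hD₁p ((Subgroup.zpowers_le).2 hwN)
  obtain ⟨S', hS'⟩ := hsup'.exists_le_sylow
  have hS'P : S' ≠ P := by
    rintro rfl
    exact hyP (hS' (Subgroup.mem_sup_right hy))
  have hE' : D ⊔ Subgroup.zpowers w = D :=
    hprinc _ S' hS'P (sup_le hDP ((Subgroup.zpowers_le).2 hw))
      (sup_le (hDD₁.trans (le_sup_right.trans hS')) (le_sup_left.trans hS')) le_sup_left
  rw [← hE']
  exact Subgroup.mem_sup_right (Subgroup.mem_zpowers w)

/-- Let G be a finite group, p a prime and P a Sylow p-subgroup of G that is not normal in G. Then G has at least p·#P elements of p-power order (the identity included). -/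
theorem result {G : Type*} [Group G] [Finite G] (p : ℕ) [Fact p.Prime]
    (P : Sylow p G) (hP : ¬ (P : Subgroup G).Normal) :
    p * Nat.card (P : Subgroup G) ≤ Nat.card {g : G // ∃ k : ℕ, orderOf g = p ^ k} := by
  classical
  have hp : p.Prime := Fact.out
  -- another Sylow subgroup
  have hex : ∃ Q : Sylow p G, Q ≠ P := by
    by_contra hno
    push Not at hno
    haveI : Subsingleton (Sylow p G) := ⟨fun a b => (hno a).trans (hno b).symm⟩
    exact hP (Sylow.normal_of_subsingleton P)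
  obtain ⟨Q₀, hQ₀⟩ := hex
  haveI : Nonempty {Q : Sylow p G // Q ≠ P} := ⟨⟨Q₀, hQ₀⟩⟩
  obtain ⟨⟨Q, hQP⟩, hQmax⟩ := Finite.exists_max
    (fun Q : {Q : Sylow p G // Q ≠ P} => Nat.card ((P : Subgroup G) ⊓ (Q.1 : Subgroup G) : Subgroup G))
  set D := (P : Subgroup G) ⊓ (Q : Subgroup G) with hD
  have hmax : ∀ S : Sylow p G, S ≠ P → Nat.card ((P : Subgroup G) ⊓ S : Subgroup G) ≤ Nat.card D :=
    fun S hS => hQmax ⟨S, hS⟩
  have hDQ : D ≤ Q := inf_le_right
  have hDP : D ≤ P := inf_le_left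
  have hDp : IsPGroup p D := Q.2.to_le hDQ
  obtain ⟨n, hn⟩ := IsPGroup.iff_card.1 hDp
  obtain ⟨N, hN⟩ := IsPGroup.iff_card.1 Q.2
  have hDneQ : D ≠ Q := by
    intro h
    have : (Q : Subgroup G) ≤ P := by rw [← h]; exact hDP
    exact hQP (sylow_eq_of_le this)
  have hnN : n < N := by
    have h1 : Nat.card D < Nat.card (Q : Subgroup G) := by
      rcases lt_or_eq_of_le (Subgroup.card_le_of_le hDQ) with h | h
      · exact h
      · exact absurd (Subgroup.eq_of_le_of_card_ge hDQ h.ge) hDneQ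
    rw [hn, hN] at h1
    exact (Nat.pow_lt_pow_iff_right hp.one_lt).1 h1
  -- D₁
  have hH' : Nat.card (D.subgroupOf (Q : Subgroup G)) = p ^ n := by
    rw [← hn]
    exact Nat.card_congr (Subgroup.subgroupOfEquivOfLe hDQ).toEquiv
  have hdvd : p ^ (n + 1) ∣ Nat.card (Q : Subgroup G) := by
    rw [hN]; exact pow_dvd_pow p hnN
  obtain ⟨K, hKcard, hHK⟩ := Sylow.exists_subgroup_card_pow_succ hdvd hH'
  set D₁ := K.map (Q : Subgroup G).subtype with hD₁
  have hD₁card : Nat.card D₁ = p ^ (n + 1) := by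
    rw [hD₁, Subgroup.card_map_of_injective (Subgroup.subtype_injective _), hKcard]
  have hDD₁ : D ≤ D₁ := by
    intro x hx
    exact ⟨⟨x, hDQ hx⟩, hHK (Subgroup.mem_subgroupOf.2 hx), rfl⟩
  have hD₁Q : D₁ ≤ Q := by
    rintro x ⟨k, -, rfl⟩
    exact k.2
  have hD₁p : IsPGroup p D₁ := Q.2.to_le hD₁Q
  have hD₁N : D₁ ≤ Subgroup.normalizer (D : Set G) := by
    have h1 : Nat.card (D.subgroupOf D₁) = p ^ n := by
      rw [← hn]
      exact Nat.card_congr (Subgroup.subgroupOfEquivOfLe hDD₁).toEquiv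
    have h2 := Subgroup.card_mul_index (D.subgroupOf D₁)
    rw [h1, hD₁card, pow_succ] at h2
    have h3 : (D.subgroupOf D₁).index = p :=
      Nat.eq_of_mul_eq_mul_left (pow_pos hp.pos n) h2
    have h4 : (D.subgroupOf D₁).Normal := by
      apply Subgroup.normal_of_index_eq_minFac_card
      rw [h3, hD₁card, Nat.Prime.pow_minFac hp (Nat.succ_ne_zero n)]
    exact (Subgroup.normal_subgroupOf_iff_le_normalizer hDD₁).1 h4
  have hgen : ∀ y ∈ D₁, y ∉ D → D₁ ≤ D ⊔ Subgroup.zpowers y := by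
    intro y hy hyD
    set T := D ⊔ Subgroup.zpowers y with hT
    have hTD₁ : T ≤ D₁ := sup_le hDD₁ ((Subgroup.zpowers_le).2 hy)
    obtain ⟨j, hj⟩ := IsPGroup.iff_card.1 (hD₁p.to_le hTD₁)
    have hlt : Nat.card D < Nat.card T := by
      rcases lt_or_eq_of_le (Subgroup.card_le_of_le (le_sup_left : D ≤ T)) with h | h
      · exact h
      · exfalso
        have : D = T := Subgroup.eq_of_le_of_card_ge le_sup_left h.ge
        exact hyD (this ▸ Subgroup.mem_sup_right (Subgroup.mem_zpowers y))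
    rw [hn, hj] at hlt
    have h1 : n < j := (Nat.pow_lt_pow_iff_right hp.one_lt).1 hlt
    have h2 : Nat.card D₁ ≤ Nat.card T := by
      rw [hD₁card, hj]
      exact Nat.pow_le_pow_right hp.pos h1
    exact (Subgroup.eq_of_le_of_card_ge hTD₁ h2).ge
  -- counting
  let Y := {y : G // y ∈ D₁ ∧ y ∉ D}
  have hYcard : Nat.card Y = (p - 1) * p ^ n := by
    have e1 : Nat.card Y = (((D₁ : Set G) \ (D : Set G)) : Set G).ncard := by
      rw [← Nat.card_coe_set_eq]
      rfl
    have e2 : ((D : Set G)).ncard = p ^ n := by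
      rw [← Nat.card_coe_set_eq]; exact hn
    have e3 : ((D₁ : Set G)).ncard = p ^ (n + 1) := by
      rw [← Nat.card_coe_set_eq]; exact hD₁card
    have hsub : (D : Set G) ⊆ (D₁ : Set G) := hDD₁
    rw [e1, Set.ncard_sdiff hsub, e2, e3, pow_succ, Nat.sub_mul, one_mul, mul_comm]
  haveI : Fintype G := Fintype.ofFinite G
  haveI : Fintype Y := Fintype.ofFinite Y
  haveI : Fintype (P : Subgroup G) := Fintype.ofFinite _
  haveI : Fintype D := Fintype.ofFinite _
  let f : ↥(P : Subgroup G) × Y → G := fun x => (x.1 : G)⁻¹ * (x.2 : G) * (x.1 : G)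
  have hfib : ∀ a ∈ (Finset.univ : Finset (↥(P : Subgroup G) × Y)).image f,
      ((Finset.univ : Finset (↥(P : Subgroup G) × Y)).filter (fun x => f x = a)).card ≤ Nat.card D := by
    intro a ha
    obtain ⟨⟨u, y⟩, -, rfl⟩ := Finset.mem_image.1 ha
    have hmem : ∀ x : ↥(P : Subgroup G) × Y, f x = f (u, y) → (x.1 : G) * (u : G)⁻¹ ∈ D := by
      intro x hx
      apply key_mem p P Q D D₁ hD hmax hDD₁ hD₁Q hD₁N hgen _
        ((P : Subgroup G).mul_mem x.1.2 ((P : Subgroup G).inv_mem u.2)) (y : G) y.2.1 y.2.2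
      have e : (x.1 : G) * (u : G)⁻¹ * (y : G) * ((x.1 : G) * (u : G)⁻¹)⁻¹ = (x.2 : G) := by
        have hx' : (x.1 : G)⁻¹ * (x.2 : G) * (x.1 : G) = (u : G)⁻¹ * (y : G) * (u : G) := hx
        calc (x.1 : G) * (u : G)⁻¹ * (y : G) * ((x.1 : G) * (u : G)⁻¹)⁻¹
            = (x.1 : G) * ((u : G)⁻¹ * (y : G) * (u : G)) * (x.1 : G)⁻¹ := by group
          _ = (x.1 : G) * ((x.1 : G)⁻¹ * (x.2 : G) * (x.1 : G)) * (x.1 : G)⁻¹ := by rw [hx']
          _ = (x.2 : G) := by group
      rw [e]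
      exact x.2.2.1
    let g : ↥(P : Subgroup G) × Y → D := fun x =>
      if h : (x.1 : G) * (u : G)⁻¹ ∈ D then ⟨_, h⟩ else 1
    have hle := Finset.card_le_card_of_injOn (s := (Finset.univ : Finset (↥(P : Subgroup G) × Y)).filter
      (fun x => f x = f (u, y))) (t := (Finset.univ : Finset D)) g (fun x _ => Finset.mem_univ _) (by
      intro x₁ hx₁ x₂ hx₂ hg
      have hx₁' : f x₁ = f (u, y) := (Finset.mem_filter.1 hx₁).2
      have hx₂' : f x₂ = f (u, y) := (Finset.mem_filter.1 hx₂).2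
      have hg1 : g x₁ = ⟨_, hmem x₁ hx₁'⟩ := dif_pos (hmem x₁ hx₁')
      have hg2 : g x₂ = ⟨_, hmem x₂ hx₂'⟩ := dif_pos (hmem x₂ hx₂')
      rw [hg1, hg2] at hg
      have h1 : (x₁.1 : G) * (u : G)⁻¹ = (x₂.1 : G) * (u : G)⁻¹ := congrArg Subtype.val hg
      have h2 : (x₁.1 : G) = (x₂.1 : G) := mul_right_cancel h1
      have h3 : (x₁.2 : G) = (x₂.2 : G) := by
        have e1 : (x₁.1 : G)⁻¹ * (x₁.2 : G) * (x₁.1 : G) = (x₂.1 : G)⁻¹ * (x₂.2 : G) * (x₂.1 : G) :=
          hx₁'.trans hx₂'.symm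
        rw [h2] at e1
        exact mul_left_cancel (mul_right_cancel e1)
      exact Prod.ext (Subtype.ext h2) (Subtype.ext h3))
    rw [Finset.card_univ, ← Nat.card_eq_fintype_card] at hle
    exact hle
  have h1 := Finset.card_le_mul_card_image (Finset.univ : Finset (↥(P : Subgroup G) × Y))
    (Nat.card D) hfib
  rw [Finset.card_univ, Fintype.card_prod, ← Nat.card_eq_fintype_card, ← Nat.card_eq_fintype_card,
    hYcard, hn] at h1
  set B' := (Finset.univ : Finset (↥(P : Subgroup G) × Y)).image f with hB'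
  have hB'card : (p - 1) * Nat.card (P : Subgroup G) ≤ B'.card := by
    have h2 : p ^ n * ((p - 1) * Nat.card (P : Subgroup G)) ≤ p ^ n * B'.card := by
      calc p ^ n * ((p - 1) * Nat.card (P : Subgroup G))
          = Nat.card (P : Subgroup G) * ((p - 1) * p ^ n) := by ring
        _ ≤ p ^ n * B'.card := h1
    exact Nat.le_of_mul_le_mul_left h2 (pow_pos hp.pos n)
  set A' := (Finset.univ : Finset ↥(P : Subgroup G)).image (Subtype.val : ↥(P : Subgroup G) → G) with hA'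
  have hA'card : A'.card = Nat.card (P : Subgroup G) := by
    rw [hA', Finset.card_image_of_injective _ Subtype.val_injective, Finset.card_univ,
      Nat.card_eq_fintype_card]
  have hdisj : Disjoint A' B' := by
    rw [Finset.disjoint_left]
    intro a haA haB
    obtain ⟨x, -, rfl⟩ := Finset.mem_image.1 haA
    obtain ⟨⟨u, y⟩, -, hxy⟩ := Finset.mem_image.1 haB
    have hyP : (y : G) ∈ (P : Subgroup G) := by
      have e : (y : G) = (u : G) * (x : G) * (u : G)⁻¹ := by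
        have hxy' : (u : G)⁻¹ * (y : G) * (u : G) = (x : G) := hxy
        rw [← hxy']; group
      rw [e]
      exact (P : Subgroup G).mul_mem ((P : Subgroup G).mul_mem u.2 x.2) ((P : Subgroup G).inv_mem u.2)
    exact y.2.2 ⟨hyP, hD₁Q y.2.1⟩
  have hpelt : ∀ a ∈ A' ∪ B', ∃ k : ℕ, orderOf a = p ^ k := by
    intro a ha
    have hpow : ∃ k : ℕ, a ^ p ^ k = 1 := by
      rcases Finset.mem_union.1 ha with h | h
      · obtain ⟨x, -, rfl⟩ := Finset.mem_image.1 h
        obtain ⟨k, hk⟩ := P.2 x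
        exact ⟨k, congrArg Subtype.val hk⟩
      · obtain ⟨⟨u, y⟩, -, rfl⟩ := Finset.mem_image.1 h
        obtain ⟨k, hk⟩ := hD₁p ⟨(y : G), y.2.1⟩
        have hk' : (y : G) ^ p ^ k = 1 := congrArg Subtype.val hk
        refine ⟨k, ?_⟩
        have e : (u : G)⁻¹ * (y : G) * (u : G) = (u : G)⁻¹ * (y : G) * ((u : G)⁻¹)⁻¹ := by
          rw [inv_inv]
        show ((u : G)⁻¹ * (y : G) * (u : G)) ^ p ^ k = 1
        rw [e, conj_pow, hk', mul_one, mul_inv_cancel]
    obtain ⟨k, hk⟩ := hpow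
    obtain ⟨j, -, hj⟩ := (Nat.dvd_prime_pow hp).1 (orderOf_dvd_of_pow_eq_one hk)
    exact ⟨j, hj⟩
  have hXcard : Nat.card {g : G // ∃ k : ℕ, orderOf g = p ^ k} =
      ((Finset.univ : Finset G).filter (fun g => ∃ k : ℕ, orderOf g = p ^ k)).card := by
    rw [Nat.card_eq_fintype_card, Fintype.card_subtype]
  have hsub : A' ∪ B' ⊆ (Finset.univ : Finset G).filter (fun g => ∃ k : ℕ, orderOf g = p ^ k) := by
    intro a ha
    exact Finset.mem_filter.2 ⟨Finset.mem_univ _, hpelt a ha⟩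
  have hfinal := Finset.card_le_card hsub
  rw [Finset.card_union_of_disjoint hdisj, hA'card] at hfinal
  rw [hXcard]
  have hp1 : 1 ≤ p := hp.one_le
  calc p * Nat.card (P : Subgroup G)
      = Nat.card (P : Subgroup G) + (p - 1) * Nat.card (P : Subgroup G) := by
        nth_rewrite 1 [show p = 1 + (p - 1) by omega]
        ring
    _ ≤ Nat.card (P : Subgroup G) + B'.card := Nat.add_le_add_left hB'card _
    _ ≤ _ := hfinal

end Cfsg.Agent.S4092
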