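import Cfsg.Statements.S4093
import Mathlib
import Cfsg.Agent.Lib.Helper1.Basic
-- import your own Cfsg.Agent.* helpers here

set_option autoImplicit false
open scoped BigOperators
open Cfsg

namespace Cfsg.Agent.S4093


theorem orbit_card {G : Type*} [Group G] [Finite G] (N : Subgroup G) (x : G) :
    ({g : G | ∃ n ∈ N, g = n * x * n⁻¹} : Set G).ncard *
      Nat.card ↥(N ⊓ Subgroup.centralizer ({x} : Set G)) = Nat.card N := by
  classical
  letI : MulAction ↥N G :=
    MulAction.compHom G ((ConjAct.toConjAct (G := G)).toMonoidHom.comp N.subtype)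
  have hsmul : ∀ (n : N) (g : G), n • g = (n : G) * g * (n : G)⁻¹ := fun n g => rfl
  have h1 : (MulAction.orbit ↥N x) = {g : G | ∃ n ∈ N, g = n * x * n⁻¹} := by
    ext g
    constructor
    · rintro ⟨n, rfl⟩
      exact ⟨n, n.2, hsmul n x⟩
    · rintro ⟨n, hn, rfl⟩
      exact ⟨⟨n, hn⟩, hsmul ⟨n, hn⟩ x⟩
  have h2 : (MulAction.stabilizer ↥N x).index = (MulAction.orbit ↥N x).ncard :=
    MulAction.index_stabilizer ↥N x
  have h3 := Subgroup.card_mul_index (MulAction.stabilizer ↥N x)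
  have h4 : Nat.card (MulAction.stabilizer ↥N x) =
      Nat.card ↥(N ⊓ Subgroup.centralizer ({x} : Set G)) := by
    apply Nat.card_congr
    refine ⟨fun s => ⟨(s.1 : G), s.1.2, ?_⟩, fun t => ⟨⟨t.1, t.2.1⟩, ?_⟩, fun _ => rfl, fun _ => rfl⟩
    · show (s.1 : G) ∈ Subgroup.centralizer ({x} : Set G)
      rw [Subgroup.mem_centralizer_singleton_iff]
      have := s.2
      rw [MulAction.mem_stabilizer_iff, hsmul] at this
      exact mul_inv_eq_iff_eq_mul.1 this
    · rw [MulAction.mem_stabilizer_iff, hsmul]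
      have ht : (t : G) ∈ Subgroup.centralizer ({x} : Set G) := t.2.2
      rw [Subgroup.mem_centralizer_singleton_iff] at ht
      exact mul_inv_eq_iff_eq_mul.2 ht
  rw [← h1, ← h2, ← h4, mul_comm]
  exact h3

/-- Let G be a finite group with a normal subgroup N complementing a Sylow p-subgroup P (a normal p-complement). Then the number of elements of G of p-power order equals the sum over x ∈ P of the index of C_N(x) in N. -/
theorem result {G : Type*} [Group G] [Finite G] (p : ℕ) [Fact p.Prime]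
    (P : Sylow p G) (N : Subgroup G) [N.Normal] (hNP : N.IsComplement' (P : Subgroup G)) :
    Nat.card {g : G // ∃ k : ℕ, orderOf g = p ^ k} =
      ∑ᶠ x : (P : Subgroup G), Nat.card N / Nat.card ↥(N ⊓ Subgroup.centralizer ({(x : G)} : Set G)) := by
  classical
  have hp : p.Prime := Fact.out
  have hNn : N.Normal := inferInstance
  set O : G → Set G := fun x => {g : G | ∃ n ∈ N, g = n * x * n⁻¹} with hO
  have hdisj : N ⊓ (P : Subgroup G) = ⊥ := hNP.disjoint.eq_bot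
  have hsup : N ⊔ (P : Subgroup G) = ⊤ := hNP.sup_eq_top
  have huniq : ∀ (n₁ n₂ x y : G), n₁ ∈ N → n₂ ∈ N → x ∈ (P : Subgroup G) → y ∈ (P : Subgroup G) →
      n₁ * x = n₂ * y → x = y := by
    intro n₁ n₂ x y h1 h2 hx hy h
    have h3 : n₂⁻¹ * n₁ = y * x⁻¹ := by
      calc n₂⁻¹ * n₁ = n₂⁻¹ * (n₁ * x) * x⁻¹ := by group
        _ = n₂⁻¹ * (n₂ * y) * x⁻¹ := by rw [h]
        _ = y * x⁻¹ := by group
    have h4 : y * x⁻¹ ∈ N ⊓ (P : Subgroup G) :=
      ⟨h3 ▸ N.mul_mem (N.inv_mem h2) h1,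
        (P : Subgroup G).mul_mem hy ((P : Subgroup G).inv_mem hx)⟩
    rw [hdisj, Subgroup.mem_bot] at h4
    exact (mul_inv_eq_one.1 h4).symm
  have horb_uniq : ∀ (x y : ↥(P : Subgroup G)) (g : G), g ∈ O x → g ∈ O y → x = y := by
    rintro x y g ⟨n, hn, rfl⟩ ⟨m, hm, h⟩
    apply Subtype.ext
    have e1 : n * (x : G) * n⁻¹ = (n * ((x : G) * n⁻¹ * (x : G)⁻¹)) * (x : G) := by group
    have e2 : m * (y : G) * m⁻¹ = (m * ((y : G) * m⁻¹ * (y : G)⁻¹)) * (y : G) := by group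
    refine huniq (n * ((x : G) * n⁻¹ * (x : G)⁻¹)) (m * ((y : G) * m⁻¹ * (y : G)⁻¹)) _ _
      (N.mul_mem hn (hNn.conj_mem _ (N.inv_mem hn) (x : G)))
      (N.mul_mem hm (hNn.conj_mem _ (N.inv_mem hm) (y : G))) x.2 y.2 ?_
    rw [← e1, ← e2]
    exact h
  have hpel : ∀ (x : ↥(P : Subgroup G)) (g : G), g ∈ O x → ∃ k : ℕ, orderOf g = p ^ k := by
    rintro x g ⟨n, hn, rfl⟩
    obtain ⟨k, hk⟩ := P.2 x
    have hk' : (x : G) ^ p ^ k = 1 := congrArg Subtype.val hk
    have h1 : (n * (x : G) * n⁻¹) ^ p ^ k = 1 := by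
      rw [conj_pow, hk', mul_one, mul_inv_cancel]
    obtain ⟨j, -, hj⟩ := (Nat.dvd_prime_pow hp).1 (orderOf_dvd_of_pow_eq_one h1)
    exact ⟨j, hj⟩
  have hex : ∀ g : G, (∃ k : ℕ, orderOf g = p ^ k) → ∃ x : ↥(P : Subgroup G), g ∈ O x := by
    rintro g ⟨k, hk⟩
    have hgp : IsPGroup p (Subgroup.zpowers g) :=
      IsPGroup.of_card (by rw [Nat.card_zpowers, hk])
    obtain ⟨S, hS⟩ := hgp.exists_le_sylow
    obtain ⟨h, rfl⟩ := MulAction.exists_smul_eq G P S
    have hg : g ∈ ((h • P : Sylow p G) : Subgroup G) := hS (Subgroup.mem_zpowers g)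
    rw [Sylow.coe_subgroup_smul, Cfsg.Agent.Lib.Helper1.mem_conj_smul] at hg
    have hh : h ∈ N ⊔ (P : Subgroup G) := by rw [hsup]; trivial
    have hh' : h ∈ ((N ⊔ (P : Subgroup G) : Subgroup G) : Set G) := hh
    rw [Subgroup.normal_mul] at hh'
    obtain ⟨n, hn, x', hx', rfl⟩ := Set.mem_mul.1 hh'
    have hy : n⁻¹ * g * n ∈ (P : Subgroup G) := by
      have e : n⁻¹ * g * n = x' * ((n * x')⁻¹ * g * (n * x')) * x'⁻¹ := by group
      rw [e]
      exact (P : Subgroup G).mul_mem ((P : Subgroup G).mul_mem hx' hg) ((P : Subgroup G).inv_mem hx')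
    exact ⟨⟨n⁻¹ * g * n, hy⟩, n, hn, by group⟩
  have hequiv : {g : G // ∃ k : ℕ, orderOf g = p ^ k} ≃
      Σ x : ↥(P : Subgroup G), {g : G // g ∈ O x} :=
    { toFun := fun g => ⟨Classical.choose (hex g.1 g.2), ⟨g.1, Classical.choose_spec (hex g.1 g.2)⟩⟩
      invFun := fun s => ⟨s.2.1, hpel s.1 s.2.1 s.2.2⟩
      left_inv := fun g => rfl
      right_inv := fun s => by
        apply Sigma.subtype_ext
        · exact horb_uniq _ _ s.2.1
            (Classical.choose_spec (hex s.2.1 (hpel s.1 s.2.1 s.2.2))) s.2.2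
        · rfl }
  haveI : Fintype ↥(P : Subgroup G) := Fintype.ofFinite _
  rw [Nat.card_congr hequiv, Nat.card_sigma, finsum_eq_sum_of_fintype]
  apply Finset.sum_congr rfl
  intro x _
  have h1 := orbit_card N (x : G)
  have h2 : Nat.card {g : G // g ∈ O x} = (O x).ncard := Nat.card_coe_set_eq (O x)
  rw [h2]
  exact (Nat.div_eq_of_eq_mul_left Nat.card_pos h1.symm).symm

end Cfsg.Agent.S4093
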