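import Mathlib
import Cfsg.Statements.S4106
import Cfsg.Agent.Lib.Helper7.SylowAux

set_option autoImplicit false
open Cfsg

namespace Cfsg.Agent.S4106

open Cfsg.Agent.Lib.Helper7
open scoped Pointwise

universe u

/-- class condition -/
def PiClass {G : Type u} [Group G] (σ : Set ℕ) (C : ConjClasses G) : Prop :=
  ∀ q : ℕ, q.Prime → (∃ g : G, ConjClasses.mk g = C ∧ q ∣ orderOf g) → q ∈ σ

lemma piClass_mk {G : Type u} [Group G] (σ : Set ℕ) (g : G) :
    PiClass σ (ConjClasses.mk g) ↔ ∀ q : ℕ, q.Prime → q ∣ orderOf g → q ∈ σ := by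
  constructor
  · intro h q hq hdvd; exact h q hq ⟨g, rfl, hdvd⟩
  · rintro h q hq ⟨g', hg', hdvd⟩
    rw [ConjClasses.mk_eq_mk_iff_isConj, isConj_iff] at hg'
    obtain ⟨c, hc⟩ := hg'
    have : orderOf g = orderOf g' := by rw [← hc, orderOf_conj_eq]
    exact h q hq (this ▸ hdvd)

/-- the bound -/
def bnd (σ : Finset ℕ) (n : ℕ) : ℕ := ∏ q ∈ σ, q ^ n.factorization q

lemma bnd_mono (σ : Finset ℕ) (hσ : ∀ q ∈ σ, q.Prime) {a b : ℕ} (hab : a ∣ b) (hb : b ≠ 0) :
    bnd σ a ≤ bnd σ b := by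
  unfold bnd
  apply Finset.prod_le_prod
  · intro i _; exact Nat.zero_le _
  · intro q hq
    have ha : a ≠ 0 := fun h => hb (by rw [h] at hab; exact zero_dvd_iff.mp hab)
    have := (Nat.factorization_le_iff_dvd ha hb).mpr hab
    exact Nat.pow_le_pow_right (hσ q hq).pos (this q)

lemma exists_decomp {G : Type u} [Group G] [Finite G] (p : ℕ) (hp : p.Prime) (g : G) :
    ∃ gp gq : G, gp * gq = g ∧ gp * gq = gq * gp ∧ (∃ k : ℕ, orderOf gp = p ^ k) ∧
      ¬ p ∣ orderOf gq ∧ orderOf gq ∣ orderOf g := by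
  have hn : orderOf g ≠ 0 := (orderOf_pos g).ne'
  obtain ⟨a, n', hpn', hn'⟩ := Nat.exists_eq_pow_mul_and_not_dvd hn p hp.ne_one
  have hcop : Nat.Coprime (p ^ a) n' :=
    Nat.Coprime.pow_left a ((Nat.Prime.coprime_iff_not_dvd hp).mpr hpn')
  have hbez : ((p ^ a : ℕ) : ℤ) * Nat.gcdA (p ^ a) n' + (n' : ℤ) * Nat.gcdB (p ^ a) n' = 1 := by
    have := Nat.gcd_eq_gcd_ab (p ^ a) n'
    rw [hcop.gcd_eq_one] at this
    exact_mod_cast this.symm
  have h1 : (g ^ ((n' : ℤ) * Nat.gcdB (p ^ a) n')) ^ (p ^ a) = 1 := by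
    rw [← zpow_natCast, ← zpow_mul]
    have : (n' : ℤ) * Nat.gcdB (p ^ a) n' * ((p ^ a : ℕ) : ℤ)
        = ((orderOf g : ℕ) : ℤ) * Nat.gcdB (p ^ a) n' := by
      rw [hn']; push_cast; ring
    rw [this, zpow_mul, zpow_natCast, pow_orderOf_eq_one, one_zpow]
  have h2 : (g ^ (((p ^ a : ℕ) : ℤ) * Nat.gcdA (p ^ a) n')) ^ n' = 1 := by
    rw [← zpow_natCast, ← zpow_mul]
    have : ((p ^ a : ℕ) : ℤ) * Nat.gcdA (p ^ a) n' * (n' : ℤ)
        = ((orderOf g : ℕ) : ℤ) * Nat.gcdA (p ^ a) n' := by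
      rw [hn']; push_cast; ring
    rw [this, zpow_mul, zpow_natCast, pow_orderOf_eq_one, one_zpow]
  refine ⟨g ^ ((n' : ℤ) * Nat.gcdB (p ^ a) n'), g ^ (((p ^ a : ℕ) : ℤ) * Nat.gcdA (p ^ a) n'),
    ?_, ?_, ?_, ?_, ?_⟩
  · rw [← zpow_add, add_comm, hbez, zpow_one]
  · rw [← zpow_add, ← zpow_add, add_comm]
  · obtain ⟨m, _, hm⟩ := (Nat.dvd_prime_pow hp).mp (orderOf_dvd_of_pow_eq_one h1)
    exact ⟨m, hm⟩
  · exact fun h => hpn' (h.trans (orderOf_dvd_of_pow_eq_one h2))
  · apply orderOf_dvd_of_pow_eq_one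
    rw [← zpow_natCast, ← zpow_mul, mul_comm, zpow_mul, zpow_natCast, pow_orderOf_eq_one, one_zpow]

/-- the relation between source and target -/
def Rel {G : Type u} [Group G] (σ' : Set ℕ) (P : Subgroup G)
    (s : Σ u : ↥P, {c : ConjClasses ↥(Subgroup.centralizer ({(u : G)} : Set G)) // PiClass σ' c})
    (C : ConjClasses G) : Prop :=
  ∃ w : ↥(Subgroup.centralizer ({(s.1 : G)} : Set G)),
    ConjClasses.mk w = s.2.1 ∧ ConjClasses.mk ((s.1 : G) * (w : G)) = C

lemma rel_functional {G : Type u} [Group G] (σ' : Set ℕ) (P : Subgroup G)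
    (s : Σ u : ↥P, {c : ConjClasses ↥(Subgroup.centralizer ({(u : G)} : Set G)) // PiClass σ' c})
    (C C' : ConjClasses G) (h : Rel σ' P s C) (h' : Rel σ' P s C') : C = C' := by
  obtain ⟨w, hw1, hw2⟩ := h
  obtain ⟨w', hw1', hw2'⟩ := h'
  have h1 : ConjClasses.mk w = ConjClasses.mk w' := hw1.trans hw1'.symm
  rw [ConjClasses.mk_eq_mk_iff_isConj, isConj_iff] at h1
  obtain ⟨x, hx⟩ := h1
  rw [← hw2, ← hw2', ConjClasses.mk_eq_mk_iff_isConj, isConj_iff]
  refine ⟨(x : G), ?_⟩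
  have hxu : (s.1 : G) * (x : G) = (x : G) * (s.1 : G) :=
    (Subgroup.mem_centralizer_iff.mp x.2) _ rfl
  have hx' : (x : G) * (w : G) * (x : G)⁻¹ = (w' : G) := by
    have := congrArg Subtype.val hx
    simpa using this
  calc (x : G) * ((s.1 : G) * (w : G)) * (x : G)⁻¹
      = ((x : G) * (s.1 : G)) * (w : G) * (x : G)⁻¹ := by group
    _ = ((s.1 : G) * (x : G)) * (w : G) * (x : G)⁻¹ := by rw [hxu]
    _ = (s.1 : G) * ((x : G) * (w : G) * (x : G)⁻¹) := by group
    _ = (s.1 : G) * (w' : G) := by rw [hx']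

lemma rel_exists {G : Type u} [Group G] [Finite G] (p : ℕ) [Fact p.Prime] (σ' : Finset ℕ)
    (P : Sylow p G) (C : ConjClasses G)
    (hC : PiClass ((insert p σ' : Finset ℕ) : Set ℕ) C) :
    ∃ s, Rel (σ' : Set ℕ) (P : Subgroup G) s C := by
  have hpp : p.Prime := Fact.out
  obtain ⟨g, rfl⟩ := ConjClasses.mk_surjective C
  rw [piClass_mk] at hC
  obtain ⟨gp, gq, hg, hcomm, hgp, hgq, hgqd⟩ := exists_decomp p hpp g
  obtain ⟨Q, hQ⟩ := exists_mem_sylow_of_orderOf gp hgp
  obtain ⟨h, hh⟩ := MulAction.exists_smul_eq G Q P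
  have hu : h * gp * h⁻¹ ∈ (P : Subgroup G) := by
    have : h * gp * h⁻¹ ∈ P := by
      rw [← hh, mem_sylow_smul_iff]
      have e : h⁻¹ * (h * gp * h⁻¹) * h = gp := by group
      rw [e]; exact hQ
    exact this
  have hw : h * gq * h⁻¹ ∈ Subgroup.centralizer ({h * gp * h⁻¹} : Set G) := by
    rw [Subgroup.mem_centralizer_iff]
    intro y hy
    rw [Set.mem_singleton_iff] at hy
    subst hy
    calc h * gp * h⁻¹ * (h * gq * h⁻¹) = h * (gp * gq) * h⁻¹ := by group
      _ = h * (gq * gp) * h⁻¹ := by rw [hcomm]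
      _ = h * gq * h⁻¹ * (h * gp * h⁻¹) := by group
  refine ⟨⟨⟨h * gp * h⁻¹, hu⟩, ⟨ConjClasses.mk ⟨h * gq * h⁻¹, hw⟩, ?_⟩⟩,
    ⟨h * gq * h⁻¹, hw⟩, rfl, ?_⟩
  · rw [piClass_mk]
    intro q hq hqd
    rw [Subgroup.orderOf_mk, orderOf_conj_eq] at hqd
    have h1 := hC q hq (hqd.trans hgqd)
    rw [Finset.coe_insert, Set.mem_insert_iff] at h1
    rcases h1 with rfl | h1
    · exact absurd hqd hgq
    · exact h1
  · show ConjClasses.mk (h * gp * h⁻¹ * (h * gq * h⁻¹)) = ConjClasses.mk g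
    rw [ConjClasses.mk_eq_mk_iff_isConj, isConj_iff]
    refine ⟨h⁻¹, ?_⟩
    rw [← hg]; group

theorem key (σ : Finset ℕ) : (∀ q ∈ σ, q.Prime) → ∀ (G : Type u) [Group G] [Finite G],
    Nat.card {C : ConjClasses G // PiClass (σ : Set ℕ) C} ≤ bnd σ (Nat.card G) := by
  classical
  induction σ using Finset.induction_on with
  | empty =>
    intro _ G _ _
    have aux : ∀ C : ConjClasses G, PiClass ((∅ : Finset ℕ) : Set ℕ) C →
        C = ConjClasses.mk 1 := by
      intro C hC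
      obtain ⟨g, rfl⟩ := ConjClasses.mk_surjective C
      rw [piClass_mk] at hC
      have h1 : orderOf g = 1 := by
        by_contra hne
        obtain ⟨q, hq, hqd⟩ := Nat.exists_prime_and_dvd hne
        have := hC q hq hqd
        simp at this
      rw [orderOf_eq_one_iff] at h1
      rw [h1]
    have : Subsingleton {C : ConjClasses G // PiClass ((∅ : Finset ℕ) : Set ℕ) C} := by
      constructor
      rintro ⟨C, hC⟩ ⟨C', hC'⟩
      apply Subtype.ext
      show C = C'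
      rw [aux C hC, aux C' hC']
    have h1 := Finite.card_le_one_iff_subsingleton.mpr this
    simpa [bnd] using h1
  | insert p σ' hp ih =>
    intro hprime G _ _
    have hpp : p.Prime := hprime p (Finset.mem_insert_self p σ')
    have hσ' : ∀ q ∈ σ', q.Prime := fun q hq => hprime q (Finset.mem_insert_of_mem hq)
    haveI : Fact p.Prime := ⟨hpp⟩
    obtain ⟨P⟩ : Nonempty (Sylow p G) := inferInstance
    have hS : Nat.card (Σ u : ↥(P : Subgroup G),
        {c : ConjClasses ↥(Subgroup.centralizer ({(u : G)} : Set G)) // PiClass (σ' : Set ℕ) c})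
        ≤ bnd (insert p σ') (Nat.card G) := by
      haveI : Fintype ↥(P : Subgroup G) := Fintype.ofFinite _
      rw [Nat.card_sigma]
      have h1 : ∀ u : ↥(P : Subgroup G), Nat.card {c : ConjClasses
          ↥(Subgroup.centralizer ({(u : G)} : Set G)) // PiClass (σ' : Set ℕ) c}
          ≤ bnd σ' (Nat.card G) := by
        intro u
        exact (ih hσ' _).trans
          (bnd_mono σ' hσ' (Subgroup.card_subgroup_dvd_card _) Nat.card_pos.ne')
      calc ∑ u : ↥(P : Subgroup G), Nat.card {c : ConjClasses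
            ↥(Subgroup.centralizer ({(u : G)} : Set G)) // PiClass (σ' : Set ℕ) c}
          ≤ ∑ _u : ↥(P : Subgroup G), bnd σ' (Nat.card G) :=
            Finset.sum_le_sum (fun u _ => h1 u)
        _ = Nat.card P * bnd σ' (Nat.card G) := by
            rw [Finset.sum_const, Finset.card_univ, smul_eq_mul, ← Nat.card_eq_fintype_card]
        _ = bnd (insert p σ') (Nat.card G) := by
            unfold bnd
            rw [Finset.prod_insert hp, Sylow.card_eq_multiplicity]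
    refine le_trans ?_ hS
    have hex : ∀ C : {C : ConjClasses G // PiClass ((insert p σ' : Finset ℕ) : Set ℕ) C},
        ∃ s, Rel (σ' : Set ℕ) (P : Subgroup G) s C.1 := fun C => rel_exists p σ' P C.1 C.2
    choose f hf using hex
    apply Nat.card_le_card_of_injective f
    intro C C' hCC'
    have h2 : Rel (σ' : Set ℕ) (P : Subgroup G) (f C) C'.1 := by rw [hCC']; exact hf C'
    exact Subtype.ext (rel_functional _ _ _ _ _ (hf C) h2)

/-- Let G be a finite group, π a set of primes and m the π-part of the order of G. Then the number of conjugacy classes of G consisting of π-elements (elements whose order is divisible only by primes in π) is at most m. -/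
theorem result {G : Type*} [Group G] [Finite G]
    (π : Set ℕ) (hπ : ∀ q ∈ π, q.Prime)
    (m : ℕ) (hm : m ∣ Nat.card G) (hmπ : ∀ q : ℕ, q.Prime → q ∣ m → q ∈ π)
    (hm' : ∀ q ∈ π, ¬ q ∣ Nat.card G / m) :
    Nat.card {C : ConjClasses G // ∀ q : ℕ, q.Prime → (∃ g : G, ConjClasses.mk g = C ∧ q ∣ orderOf g) → q ∈ π} ≤ m := by
  classical
  obtain ⟨σ, hσdef⟩ : ∃ σ : Finset ℕ, σ = (Nat.card G).primeFactors.filter (· ∈ π) := ⟨_, rfl⟩
  have hσ : ∀ q ∈ σ, q.Prime := by
    intro q hq; rw [hσdef, Finset.mem_filter] at hq; exact Nat.prime_of_mem_primeFactors hq.1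
  have h1 := key σ hσ G
  have h2 : Nat.card {C : ConjClasses G // ∀ q : ℕ, q.Prime →
      (∃ g : G, ConjClasses.mk g = C ∧ q ∣ orderOf g) → q ∈ π}
      ≤ Nat.card {C : ConjClasses G // PiClass (σ : Set ℕ) C} := by
    refine Nat.card_le_card_of_injective (fun C => ⟨C.1, ?_⟩) ?_
    · intro q hq hex
      have hqπ := C.2 q hq hex
      obtain ⟨g, _, hqd⟩ := hex
      have : q ∣ Nat.card G := hqd.trans (orderOf_dvd_natCard g)
      rw [Finset.mem_coe, hσdef, Finset.mem_filter, Nat.mem_primeFactors]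
      exact ⟨⟨hq, this, Nat.card_pos.ne'⟩, hqπ⟩
    · intro C C' h
      have h' := congrArg Subtype.val h
      exact Subtype.ext h'
  refine h2.trans (h1.trans ?_)
  have hmpos : 0 < m := Nat.pos_of_dvd_of_pos hm Nat.card_pos
  apply Nat.le_of_dvd hmpos
  unfold bnd
  apply Finset.prod_dvd_of_isRelPrime
  · intro q hq r hr hqr
    have hqp := hσ q hq
    have hrp := hσ r hr
    exact Nat.coprime_iff_isRelPrime.mp (Nat.Coprime.pow _ _ ((Nat.coprime_primes hqp hrp).mpr hqr))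
  · intro q hq
    have hqp := hσ q hq
    have hqπ : q ∈ π := by rw [hσdef, Finset.mem_filter] at hq; exact hq.2
    obtain ⟨k, hk⟩ : ∃ k, k = (Nat.card G).factorization q := ⟨_, rfl⟩
    have h3 : q ^ k ∣ Nat.card G := hk ▸ Nat.ordProj_dvd _ _
    rw [← hk]
    obtain ⟨c, hc⟩ := hm
    have hc' : Nat.card G / m = c := by rw [hc]; exact Nat.mul_div_cancel_left c hmpos
    have h4 : ¬ q ∣ c := hc' ▸ hm' q hqπ
    rw [hc] at h3
    exact (Nat.Coprime.pow_left _ ((Nat.Prime.coprime_iff_not_dvd hqp).mpr h4)).dvd_of_dvd_mul_right h3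

end Cfsg.Agent.S4106
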