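import Cfsg.Statements.S4108
import Mathlib
import Cfsg.Agent.Lib.Helper7.Basic

set_option autoImplicit false
open Cfsg

namespace Cfsg.Agent.S4108

open Cfsg.Agent.Lib.Helper7
open scoped Pointwise

/-- An element of a `p`-group lying in a subgroup of order prime to `p` is trivial. -/
theorem eq_one_of_mem_both {G : Type*} [Group G] [Finite G] (N H : Subgroup G) (p : ℕ) [Fact p.Prime]
    (hNp : IsPGroup p N) (hH : (Nat.card H).Coprime p) (x : G) (hxN : x ∈ N) (hxH : x ∈ H) : x = 1 := by
  obtain ⟨k, hk⟩ := hNp ⟨x, hxN⟩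
  have hk' : x ^ p ^ k = 1 := by
    have := congrArg Subtype.val hk
    simpa using this
  have h1 : orderOf x ∣ p ^ k := orderOf_dvd_of_pow_eq_one hk'
  have h2 : orderOf x ∣ Nat.card H := by
    have := Subgroup.orderOf_dvd_natCard H hxH
    exact this
  have h3 : Nat.Coprime (Nat.card H) (p ^ k) := Nat.Coprime.pow_right k hH
  have h4 : orderOf x = 1 := Nat.eq_one_of_dvd_coprimes h3 h2 h1
  exact orderOf_eq_one_iff.mp h4

/-- The core: a nontrivial element of `H` commutes with no nontrivial element of `N`. -/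
theorem core {G : Type*} [Group G] [Finite G] (N : Subgroup G) [N.Normal]
    (heq : ∀ x : G, x ∉ N → ∀ n ∈ N, orderOf (x * n) = orderOf x)
    (p : ℕ) [Fact p.Prime] (hNp : IsPGroup p N) (H : Subgroup G) (hH : (Nat.card H).Coprime p)
    (h : G) (hh : h ∈ H) (hh1 : h ≠ 1) (n : G) (hn : n ∈ N) (hc : h * n = n * h) : n = 1 := by
  have hhN : h ∉ N := fun hN => hh1 (eq_one_of_mem_both N H p hNp hH h hN hh)
  have h1 := heq h hhN n hn
  obtain ⟨k, hk⟩ := hNp ⟨n, hn⟩
  have hk' : n ^ p ^ k = 1 := by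
    have := congrArg Subtype.val hk
    simpa using this
  have h2 : orderOf n ∣ p ^ k := orderOf_dvd_of_pow_eq_one hk'
  have h3 : orderOf h ∣ Nat.card H := Subgroup.orderOf_dvd_natCard H hh
  have h4 : Nat.Coprime (orderOf h) (orderOf n) :=
    Nat.Coprime.coprime_dvd_left h3 (Nat.Coprime.coprime_dvd_right h2 (Nat.Coprime.pow_right k hH))
  have h5 : orderOf (h * n) = orderOf h * orderOf n :=
    Commute.orderOf_mul_eq_mul_orderOf_of_coprime hc h4
  rw [h5] at h1
  have h6 : 0 < orderOf h := orderOf_pos h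
  have h7 : orderOf n = 1 := by
    have : orderOf h * orderOf n = orderOf h * 1 := by rw [h1, mul_one]
    exact Nat.eq_of_mul_eq_mul_left h6 this
  exact orderOf_eq_one_iff.mp h7

/-- Let G be a finite group, p a prime and N a proper non-trivial normal p-subgroup such that for every x outside N all elements of the coset xN have the same order as x. Then every non-trivial subgroup H of G of order prime to p acts fixed-point-freely on N: NH is a Frobenius group with complement H and kernel N. -/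
theorem result {G : Type*} [Group G] [Finite G] (N : Subgroup G) [N.Normal] (hN1 : N ≠ ⊥) (hN2 : N ≠ ⊤)
    (heq : ∀ x : G, x ∉ N → ∀ n ∈ N, orderOf (x * n) = orderOf x)
    (p : ℕ) [Fact p.Prime] (hNp : IsPGroup p N) :
    ∀ H : Subgroup G, H ≠ ⊥ → (Nat.card H).Coprime p →
      Cfsg.IsFrobeniusComplement (H.subgroupOf (N ⊔ H)) ∧ Cfsg.frobeniusKernel (H.subgroupOf (N ⊔ H)) = (N.subgroupOf (N ⊔ H) : Set ↥(N ⊔ H)) := by
  intro H hH1 hHp
  have hcore := core N heq p hNp H hHp
  have hdisj : ∀ x : G, x ∈ N → x ∈ H → x = 1 := eq_one_of_mem_both N H p hNp hHp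
  have hdecomp : ∀ g : ↥(N ⊔ H), ∃ n ∈ N, ∃ h ∈ H, (g : G) = n * h := by
    intro g
    have hg : (g : G) ∈ ((N ⊔ H : Subgroup G) : Set G) := g.2
    rw [Subgroup.normal_mul] at hg
    obtain ⟨n, hn, h, hh, e⟩ := Set.mem_mul.mp hg
    exact ⟨n, hn, h, hh, e.symm⟩
  refine ⟨⟨?_, ?_, ?_⟩, ?_⟩
  · rw [Ne, Subgroup.subgroupOf_eq_bot]
    intro hd
    apply hH1
    rw [eq_bot_iff]
    intro x hx
    have := hd.le_bot (show x ∈ H ⊓ (N ⊔ H) from ⟨hx, (le_sup_right : H ≤ N ⊔ H) hx⟩)
    exact this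
  · rw [Ne, Subgroup.subgroupOf_eq_top]
    intro hle
    apply hN1
    rw [eq_bot_iff]
    intro x hx
    exact hdisj x hx (hle ((le_sup_left : N ≤ N ⊔ H) hx))
  · intro g hg
    rw [eq_bot_iff]
    rintro y ⟨hy1, hy2⟩
    rw [Subgroup.mem_bot]
    have hy2' : g⁻¹ * y * g ∈ H.subgroupOf (N ⊔ H) := (mem_conj_smul g y _).mp hy2
    replace hy1 : y ∈ H.subgroupOf (N ⊔ H) := hy1
    rw [Subgroup.mem_subgroupOf] at hy1 hy2' hg
    obtain ⟨n, hn, h₀, hh₀, e⟩ := hdecomp g
    have hn1 : n ≠ 1 := by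
      rintro rfl
      rw [one_mul] at e
      rw [e] at hg
      exact hg hh₀
    have hy3 : n⁻¹ * (y : G) * n ∈ H := by
      have h1 : ((g⁻¹ * y * g : ↥(N ⊔ H)) : G) = h₀⁻¹ * (n⁻¹ * (y : G) * n) * h₀ := by
        push_cast
        rw [e]
        group
      rw [h1] at hy2'
      have h2 := H.mul_mem (H.mul_mem hh₀ hy2') (H.inv_mem hh₀)
      have h3 : h₀ * (h₀⁻¹ * (n⁻¹ * (y : G) * n) * h₀) * h₀⁻¹ = n⁻¹ * (y : G) * n := by group
      rw [h3] at h2
      exact h2
    have hy4 : (y : G)⁻¹ * (n⁻¹ * (y : G) * n) ∈ N := by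
      have h1 : (y : G)⁻¹ * n⁻¹ * ((y : G)⁻¹)⁻¹ ∈ N := Subgroup.Normal.conj_mem inferInstance _ (N.inv_mem hn) _
      have h2 := N.mul_mem h1 hn
      have h3 : (y : G)⁻¹ * n⁻¹ * ((y : G)⁻¹)⁻¹ * n = (y : G)⁻¹ * (n⁻¹ * (y : G) * n) := by group
      rw [h3] at h2
      exact h2
    have hy5 : (y : G)⁻¹ * (n⁻¹ * (y : G) * n) = 1 :=
      hdisj _ hy4 (H.mul_mem (H.inv_mem hy1) hy3)
    have hy6 : (y : G) * n = n * (y : G) := by
      have h1 : n⁻¹ * (y : G) * n = (y : G) := by
        have := congrArg (fun t => (y : G) * t) hy5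
        simp only [mul_inv_cancel_left, mul_one] at this
        exact this
      have h2 : n * (n⁻¹ * (y : G) * n) = n * (y : G) := congrArg (fun t => n * t) h1
      rw [← h2]
      group
    by_contra hy7
    have hy8 : (y : G) ≠ 1 := fun h => hy7 (Subtype.ext h)
    exact hn1 (hcore y hy1 hy8 n hn hy6)
  · ext x
    simp only [Cfsg.frobeniusKernel, Set.mem_ofPred_eq, SetLike.mem_coe, Subgroup.mem_subgroupOf]
    constructor
    · rintro (rfl | hx)
      · exact N.one_mem
      · obtain ⟨n, hn, h, hh, e⟩ := hdecomp x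
        by_cases hh1 : h = 1
        · rw [e, hh1, mul_one]; exact hn
        · exfalso
          -- the map m ↦ m h m⁻¹ h⁻¹ on N is injective hence surjective
          have hmap : ∀ m : N, (m : G) * h * (m : G)⁻¹ * h⁻¹ ∈ N := by
            intro m
            have h1 : h * (m : G)⁻¹ * h⁻¹ ∈ N := Subgroup.Normal.conj_mem inferInstance _ (N.inv_mem m.2) _
            have h2 := N.mul_mem m.2 h1
            have h3 : (m : G) * (h * (m : G)⁻¹ * h⁻¹) = (m : G) * h * (m : G)⁻¹ * h⁻¹ := by group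
            rw [h3] at h2
            exact h2
          let φ : N → N := fun m => ⟨(m : G) * h * (m : G)⁻¹ * h⁻¹, hmap m⟩
          have hinj : Function.Injective φ := by
            intro m m' hmm
            have h1 : (m : G) * h * (m : G)⁻¹ * h⁻¹ = (m' : G) * h * (m' : G)⁻¹ * h⁻¹ := congrArg Subtype.val hmm
            have h2 : h * ((m' : G)⁻¹ * (m : G)) = ((m' : G)⁻¹ * (m : G)) * h := by
              have h3 : (m : G) * h * (m : G)⁻¹ = (m' : G) * h * (m' : G)⁻¹ := mul_right_cancel h1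
              have h4 : h = (m : G)⁻¹ * ((m' : G) * h * (m' : G)⁻¹) * (m : G) := by
                rw [← h3]; group
              calc h * ((m' : G)⁻¹ * (m : G))
                  = ((m' : G)⁻¹ * (m : G)) * ((m : G)⁻¹ * ((m' : G) * h * (m' : G)⁻¹) * (m : G)) := by group
                _ = ((m' : G)⁻¹ * (m : G)) * h := by rw [← h4]
            have h5 := hcore h hh hh1 _ (N.mul_mem (N.inv_mem m'.2) m.2) h2
            apply Subtype.ext
            have h6 : (m : G) = (m' : G) * ((m' : G)⁻¹ * (m : G)) := by group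
            rw [h6, h5, mul_one]
          have hsurj : Function.Surjective φ := Finite.injective_iff_surjective.mp hinj
          obtain ⟨m, hm⟩ := hsurj ⟨n, hn⟩
          have hm' : (m : G) * h * (m : G)⁻¹ * h⁻¹ = n := congrArg Subtype.val hm
          have hmK : (m : G) ∈ N ⊔ H := (le_sup_left : N ≤ N ⊔ H) m.2
          apply hx ⟨(m : G), hmK⟩
          rw [mem_conj_smul, Subgroup.mem_subgroupOf]
          have h7 : (((⟨(m : G), hmK⟩ : ↥(N ⊔ H))⁻¹ * x * ⟨(m : G), hmK⟩ : ↥(N ⊔ H)) : G) = h := by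
            push_cast
            rw [e, ← hm']
            group
          rw [h7]
          exact hh
    · intro hx
      by_cases hx1 : x = 1
      · exact Or.inl hx1
      · right
        intro g hg
        rw [mem_conj_smul, Subgroup.mem_subgroupOf] at hg
        have h1 : ((g⁻¹ * x * g : ↥(N ⊔ H)) : G) ∈ N := by
          push_cast
          have := Subgroup.Normal.conj_mem (inferInstance : N.Normal) _ hx (g : G)⁻¹
          simpa using this
        have h2 := hdisj _ h1 hg
        apply hx1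
        have h3 : g⁻¹ * x * g = 1 := Subtype.ext h2
        have h4 : x = g * (g⁻¹ * x * g) * g⁻¹ := by group
        rw [h4, h3]; group

end Cfsg.Agent.S4108
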