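import Cfsg.Statements.S4112
import Mathlib

set_option autoImplicit false
open Cfsg

namespace Cfsg.Agent.S4112

/-- (2) ⇒ (1). -/
theorem cent_le_of_coprime {G : Type*} [Group G] [Finite G] (N M : Subgroup G) [N.Normal] [M.Normal]
    (hcam : ∀ g : G, g ∉ N → ∀ m ∈ M, ∃ x : G, x * g * x⁻¹ = g * m)
    (hcop : N.index.Coprime (Nat.card M)) :
    ∀ x ∈ M, x ≠ 1 → Subgroup.centralizer ({x} : Set G) ≤ N := by
  intro x hxM hx1 g hg
  by_contra hgN
  rw [Subgroup.mem_centralizer_singleton_iff] at hg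
  have hox : orderOf x ≠ 1 := fun h => hx1 (orderOf_eq_one_iff.mp h)
  obtain ⟨q, hq, hqx⟩ := Nat.exists_prime_and_dvd hox
  obtain ⟨d, hd⟩ := hqx
  have hd0 : d ≠ 0 := by
    rintro rfl
    rw [mul_zero] at hd
    exact (orderOf_pos x).ne' hd
  have hyord : orderOf (x ^ d) = q := by
    rw [orderOf_pow_of_dvd hd0 (by rw [hd]; exact dvd_mul_left _ _), hd]
    exact Nat.mul_div_cancel _ (Nat.pos_of_ne_zero hd0)
  have hyM : x ^ d ∈ M := M.pow_mem hxM d
  have hqM : q ∣ Nat.card M := by rw [← hyord]; exact Subgroup.orderOf_dvd_natCard M hyM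
  have hqN : Nat.Coprime q N.index := by
    rw [Nat.Prime.coprime_iff_not_dvd hq]
    intro h
    exact hq.one_lt.ne' (Nat.eq_one_of_dvd_coprimes hcop h hqM)
  have hcomm : Commute g x := hg
  -- the q'-part of g
  have hgN' : g ^ (ordProj[q] (orderOf g)) ∉ N := by
    intro h
    apply hgN
    have h1 : orderOf (QuotientGroup.mk' N g) ∣ q ^ (orderOf g).factorization q := by
      apply orderOf_dvd_of_pow_eq_one
      rw [← map_pow]
      exact (QuotientGroup.eq_one_iff _).mpr h
    have h2 : orderOf (QuotientGroup.mk' N g) ∣ N.index := by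
      rw [Subgroup.index_eq_card]
      exact orderOf_dvd_natCard _
    have h3 : Nat.Coprime (q ^ (orderOf g).factorization q) N.index := Nat.Coprime.pow_left _ hqN
    have h4 : orderOf (QuotientGroup.mk' N g) = 1 := Nat.eq_one_of_dvd_coprimes h3 h1 h2
    exact (QuotientGroup.eq_one_iff g).mp (orderOf_eq_one_iff.mp h4)
  have hhr : (g ^ (ordProj[q] (orderOf g))) ^ (ordCompl[q] (orderOf g)) = 1 := by
    rw [← pow_mul, Nat.ordProj_mul_ordCompl_eq_self, pow_orderOf_eq_one]
  have hcop2 : Nat.Coprime q (ordCompl[q] (orderOf g)) := Nat.coprime_ordCompl hq (orderOf_pos g).ne'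
  obtain ⟨z, hz⟩ := hcam _ hgN' _ hyM
  have hcomm2 : Commute (g ^ (ordProj[q] (orderOf g))) (x ^ d) := (hcomm.pow_pow _ _)
  have h5 : (g ^ (ordProj[q] (orderOf g)) * x ^ d) ^ (ordCompl[q] (orderOf g)) = 1 := by
    rw [← hz, conj_pow, hhr, mul_one, mul_inv_cancel]
  rw [hcomm2.mul_pow, hhr, one_mul] at h5
  have h6 : q ∣ ordCompl[q] (orderOf g) := by
    have h60 := orderOf_dvd_of_pow_eq_one h5
    rwa [hyord] at h60
  have h7 : q = 1 := Nat.eq_one_of_dvd_coprimes hcop2 (dvd_refl q) h6
  exact hq.one_lt.ne' h7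

/-- (1) ⇒ (2). -/
theorem coprime_of_cent_le {G : Type*} [Group G] [Finite G] (N M : Subgroup G) [N.Normal] [M.Normal]
    (hA : ∀ x ∈ M, x ≠ 1 → Subgroup.centralizer ({x} : Set G) ≤ N) :
    N.index.Coprime (Nat.card M) := by
  by_contra hnc
  obtain ⟨p, hp, hpN, hpM⟩ := Nat.Prime.not_coprime_iff_dvd.mp hnc
  haveI := Fact.mk hp
  obtain ⟨P⟩ : Nonempty (Sylow p G) := inferInstance
  letI : MulAction P M := MulAction.compHom M ((MulAut.conjNormal (H := M)).comp (P : Subgroup G).subtype)
  have hsmul : ∀ (g : P) (m : M), ((g • m : M) : G) = (g : G) * (m : G) * (g : G)⁻¹ := by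
    intro g m
    rfl
  have hmod := P.isPGroup'.card_modEq_card_fixedPoints M
  have hdvd : p ∣ Nat.card (MulAction.fixedPoints P M) :=
    (Nat.modEq_zero_iff_dvd.mp ((hmod.symm.trans (Nat.modEq_zero_iff_dvd.mpr hpM))))
  have h1 : (1 : M) ∈ MulAction.fixedPoints P M := by
    intro g
    apply Subtype.ext
    rw [hsmul]
    simp
  haveI : Nonempty (MulAction.fixedPoints P M) := ⟨⟨1, h1⟩⟩
  have hcard : 1 < Nat.card (MulAction.fixedPoints P M) :=
    lt_of_lt_of_le hp.one_lt (Nat.le_of_dvd Nat.card_pos hdvd)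
  haveI : Nontrivial (MulAction.fixedPoints P M) := Finite.one_lt_card_iff_nontrivial.mp hcard
  obtain ⟨⟨x, hx⟩, hne⟩ := exists_ne (⟨1, h1⟩ : MulAction.fixedPoints P M)
  have hx1 : (x : G) ≠ 1 := by
    intro h
    apply hne
    apply Subtype.ext
    apply Subtype.ext
    exact h
  have hPle : (P : Subgroup G) ≤ Subgroup.centralizer {(x : G)} := by
    intro g hg
    rw [Subgroup.mem_centralizer_singleton_iff]
    have h2 := hx ⟨g, hg⟩
    have h3 := congrArg Subtype.val h2
    rw [hsmul] at h3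
    have h4 : g * (x : G) * g⁻¹ = (x : G) := h3
    calc g * (x : G) = g * (x : G) * g⁻¹ * g := by group
      _ = (x : G) * g := by rw [h4]
  have hPN : (P : Subgroup G) ≤ N := hPle.trans (hA x x.2 hx1)
  exact P.not_dvd_index (dvd_trans hpN (Subgroup.index_dvd_of_le hPN))

/-- One descent step for (3). -/
theorem descent {G : Type*} [Group G] [Finite G] (N M : Subgroup G) [N.Normal] (hMN : M ≤ N)
    (hcop : N.index.Coprime (Nat.card M)) (H : Subgroup G) (hHN : H ⊔ N = ⊤) (hHM : H ⊓ M ≠ ⊥) :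
    ∃ H' : Subgroup G, H' ⊔ N = ⊤ ∧ Nat.card H' < Nat.card H := by
  -- decomposition
  have hdec : ∀ g : G, ∃ h ∈ H, ∃ n ∈ N, g = h * n := by
    intro g
    have hg : g ∈ ((H ⊔ N : Subgroup G) : Set G) := by rw [hHN]; trivial
    rw [Subgroup.mul_normal] at hg
    obtain ⟨h, hh, n, hn, e⟩ := Set.mem_mul.mp hg
    exact ⟨h, hh, n, hn, e.symm⟩
  have hcard1 : Nat.card (H ⊓ M : Subgroup G) ≠ 1 := by
    intro h
    exact hHM (Subgroup.card_eq_one.mp h)
  obtain ⟨q, hq, hqdvd⟩ := Nat.exists_prime_and_dvd hcard1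
  haveI := Fact.mk hq
  have hqM : q ∣ Nat.card M := dvd_trans hqdvd (Subgroup.card_dvd_of_le inf_le_right)
  have hqN : ¬ q ∣ N.index := by
    intro h
    exact hq.one_lt.ne' (Nat.eq_one_of_dvd_coprimes hcop h hqM)
  -- K = N ∩ H inside H
  have hqK : q ∣ Nat.card (N.subgroupOf H) := by
    have h1 : (H ⊓ M).subgroupOf H ≤ N.subgroupOf H := by
      intro y hy
      rw [Subgroup.mem_subgroupOf] at hy ⊢
      exact hMN hy.2
    have h2 : Nat.card ((H ⊓ M).subgroupOf H) = Nat.card (H ⊓ M : Subgroup G) :=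
      Nat.card_congr (Subgroup.subgroupOfEquivOfLe inf_le_left).toEquiv
    exact dvd_trans (h2 ▸ hqdvd) (Subgroup.card_dvd_of_le h1)
  obtain ⟨Q⟩ : Nonempty (Sylow q (N.subgroupOf H)) := inferInstance
  have hfr := Sylow.normalizer_sup_eq_top Q
  have hQcard : Nat.card ((Q : Subgroup (N.subgroupOf H)).map (N.subgroupOf H).subtype) = Nat.card Q :=
    Subgroup.card_map_of_injective (Subgroup.subtype_injective _)
  have hQ1 : 1 < Nat.card Q := by
    rw [Sylow.card_eq_multiplicity]
    apply Nat.one_lt_pow _ hq.one_lt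
    intro h0
    rcases (Nat.factorization_eq_zero_iff _ _).mp h0 with h | h | h
    · exact h hq
    · exact h hqK
    · exact Nat.card_pos.ne' h
  by_cases hnorm : Subgroup.normalizer (((Q : Subgroup (N.subgroupOf H)).map (N.subgroupOf H).subtype : Subgroup H) : Set H) = ⊤
  · -- Q normal in H : Schur–Zassenhaus
    haveI hQn : ((Q : Subgroup (N.subgroupOf H)).map (N.subgroupOf H).subtype).Normal :=
      Subgroup.normalizer_eq_top_iff.mp hnorm
    have hcopQ : Nat.Coprime (Nat.card ((Q : Subgroup (N.subgroupOf H)).map (N.subgroupOf H).subtype))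
        ((Q : Subgroup (N.subgroupOf H)).map (N.subgroupOf H).subtype).index := by
      rw [hQcard, Sylow.card_eq_multiplicity]
      apply Nat.Coprime.pow_left
      rw [Nat.Prime.coprime_iff_not_dvd hq]
      rw [Subgroup.index_map_subtype]
      intro h
      rcases (Nat.Prime.dvd_mul hq).mp h with h | h
      · exact Q.not_dvd_index h
      · apply hqN
        have h3 : (N.subgroupOf H).index = N.relIndex H := rfl
        rw [h3] at h
        exact dvd_trans h (Subgroup.relIndex_dvd_index_of_normal N H)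
    obtain ⟨L, hL⟩ := Subgroup.exists_right_complement'_of_coprime hcopQ
    refine ⟨L.map H.subtype, ?_, ?_⟩
    · rw [eq_top_iff]
      intro g _
      obtain ⟨h, hh, n, hn, rfl⟩ := hdec g
      have h4 : (⟨h, hh⟩ : H) ∈ ((Q : Subgroup (N.subgroupOf H)).map (N.subgroupOf H).subtype) ⊔ L := by
        rw [hL.sup_eq_top]; trivial
      have h5 : (⟨h, hh⟩ : H) ∈ ((((Q : Subgroup (N.subgroupOf H)).map (N.subgroupOf H).subtype) ⊔ L : Subgroup H) : Set H) := h4
      rw [Subgroup.normal_mul] at h5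
      obtain ⟨a, ha, l, hl, e⟩ := Set.mem_mul.mp h5
      have haN : (a : G) ∈ N := by
        obtain ⟨a', -, rfl⟩ := Subgroup.mem_map.mp ha
        exact a'.2
      have e' : h = (a : G) * (l : G) := by
        have := congrArg Subtype.val e
        simpa using this.symm
      have h6 : (a : G) * (l : G) * n = (l : G) * ((l : G)⁻¹ * (a : G) * (l : G) * n) := by group
      rw [e', h6]
      apply Subgroup.mul_mem_sup
      · exact Subgroup.mem_map_of_mem H.subtype hl
      · apply N.mul_mem _ hn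
        have := Subgroup.Normal.conj_mem (inferInstance : N.Normal) _ haN (l : G)⁻¹
        simpa using this
    · rw [Subgroup.card_map_of_injective (Subgroup.subtype_injective _)]
      have h7 := hL.card_mul_card
      rw [hQcard] at h7
      have hLpos : 0 < Nat.card L := Nat.card_pos
      nlinarith
  · refine ⟨(Subgroup.normalizer (((Q : Subgroup (N.subgroupOf H)).map (N.subgroupOf H).subtype : Subgroup H) : Set H)).map H.subtype, ?_, ?_⟩
    · rw [eq_top_iff]
      intro g _
      obtain ⟨h, hh, n, hn, rfl⟩ := hdec g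
      have h4 : (⟨h, hh⟩ : H) ∈ ((Subgroup.normalizer (((Q : Subgroup (N.subgroupOf H)).map (N.subgroupOf H).subtype : Subgroup H) : Set H) ⊔ N.subgroupOf H : Subgroup H) : Set H) := by
        rw [hfr]; trivial
      rw [Subgroup.mul_normal] at h4
      obtain ⟨a, ha, k, hk, e⟩ := Set.mem_mul.mp h4
      have hkN : (k : G) ∈ N := Subgroup.mem_subgroupOf.mp hk
      have e' : h = (a : G) * (k : G) := by
        have := congrArg Subtype.val e
        simpa using this.symm
      rw [e', mul_assoc]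
      apply Subgroup.mul_mem_sup
      · exact Subgroup.mem_map_of_mem H.subtype ha
      · exact N.mul_mem hkN hn
    · rw [Subgroup.card_map_of_injective (Subgroup.subtype_injective _)]
      have h8 : Nat.card (Subgroup.normalizer (((Q : Subgroup (N.subgroupOf H)).map (N.subgroupOf H).subtype : Subgroup H) : Set H)) ≤ Nat.card H :=
        Subgroup.card_le_card_group _
      rcases lt_or_eq_of_le h8 with h | h
      · exact h
      · exact absurd (Subgroup.card_eq_iff_eq_top _ |>.mp h) hnorm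

/-- (3) from (2). -/
theorem exists_compl {G : Type*} [Group G] [Finite G] (N M : Subgroup G) [N.Normal] (hMN : M ≤ N)
    (hcop : N.index.Coprime (Nat.card M)) :
    ∃ H : Subgroup G, H ⊔ N = ⊤ ∧ H ⊓ M = ⊥ := by
  have key : ∀ n : ℕ, ∀ H : Subgroup G, Nat.card H = n → H ⊔ N = ⊤ → ∃ H' : Subgroup G, H' ⊔ N = ⊤ ∧ H' ⊓ M = ⊥ := by
    intro n
    induction n using Nat.strong_induction_on with
    | _ n ih =>
      intro H hn hHN
      by_cases hHM : H ⊓ M = ⊥
      · exact ⟨H, hHN, hHM⟩
      · obtain ⟨H', h1, h2⟩ := descent N M hMN hcop H hHN hHM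
        exact ih (Nat.card H') (hn ▸ h2) H' rfl h1
  exact key _ ⊤ rfl (by simp)

/-- Let G be a finite group and M ≤ N non-trivial proper normal subgroups such that for every g outside N the conjugacy class of g is a union of cosets of M (equivalently gm is conjugate to g for every m ∈ M). Then (1) and (2) below are equivalent, and they imply (3): (1) every g outside N acts fixed-point-freely on M, that is C_G(x) ≤ N for every x ∈ M, x ≠ 1; (2) the index of N in G is coprime to the order of M; (3) there is a subgroup H of G with HN = G and H ∩ M = 1. -/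
theorem result {G : Type*} [Group G] [Finite G] (N M : Subgroup G) [N.Normal] [M.Normal] (hMN : M ≤ N) (hM1 : M ≠ ⊥) (hN2 : N ≠ ⊤)
    (hcam : ∀ g : G, g ∉ N → ∀ m ∈ M, ∃ x : G, x * g * x⁻¹ = g * m) :
    ((∀ x ∈ M, x ≠ 1 → Subgroup.centralizer ({x} : Set G) ≤ N) ↔ N.index.Coprime (Nat.card M)) ∧
    ((∀ x ∈ M, x ≠ 1 → Subgroup.centralizer ({x} : Set G) ≤ N) → ∃ H : Subgroup G, H ⊔ N = ⊤ ∧ H ⊓ M = ⊥) := by
  refine ⟨⟨coprime_of_cent_le N M, cent_le_of_coprime N M hcam⟩, fun hA => ?_⟩
  exact exists_compl N M hMN (coprime_of_cent_le N M hA)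

end Cfsg.Agent.S4112
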