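import Cfsg.Statements.S4116
import Mathlib
import Cfsg.Agent.Lib.Helper7.MapConj
import Cfsg.Agent.Lib.Helper7.SylowAux

set_option autoImplicit false
open Cfsg

namespace Cfsg.Agent.S4116

open Cfsg.Agent.Lib.Helper7

/-- A `p`-subgroup is conjugate into any subgroup of index prime to `p`. -/
theorem exists_conj_mem {G : Type*} [Group G] [Finite G] {p : ℕ} [Fact p.Prime]
    (Q H : Subgroup G) (hQ : IsPGroup p Q) (hH : ¬ p ∣ H.index) :
    ∃ g : G, ∀ y ∈ Q, g⁻¹ * y * g ∈ H := by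
  obtain ⟨x, hx⟩ := hQ.nonempty_fixed_point_of_prime_not_dvd_card (G ⧸ H)
    (by rwa [← Subgroup.index_eq_card])
  obtain ⟨g, rfl⟩ := QuotientGroup.mk_surjective x
  refine ⟨g, fun y hy => ?_⟩
  have h1 := hx ⟨y, hy⟩
  have h2 : ((y * g : G) : G ⧸ H) = (g : G ⧸ H) := h1
  rw [QuotientGroup.eq] at h2
  have h3 : (y * g)⁻¹ * g = (g⁻¹ * y * g)⁻¹ := by group
  rw [h3] at h2
  exact (Subgroup.inv_mem_iff H).mp h2

/-- Counting: the conjugates of the nonidentity elements of a "Frobenius-like" subgroup `L`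
cover at least half of the group. -/
theorem count {X : Type*} [Group X] [Finite X] (L : Subgroup X) (hL : L ≠ ⊥)
    (hb : ∀ a ∈ L, a ≠ 1 → ∀ k : X, k⁻¹ * a * k ∈ L → k ∈ L) :
    Nat.card X ≤ 2 * Nat.card {y : X // ∃ k : X, ∃ a ∈ L, a ≠ 1 ∧ y = k * a * k⁻¹} := by
  classical
  haveI : Fintype X := Fintype.ofFinite X
  set S : Finset (X × X) := Finset.univ ×ˢ (Finset.univ.filter (fun a : X => a ∈ L ∧ a ≠ 1)) with hS
  set f : X × X → X := fun x => x.1 * x.2 * x.1⁻¹ with hf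
  have himg : S.image f ⊆ Finset.univ.filter (fun y : X => ∃ k : X, ∃ a ∈ L, a ≠ 1 ∧ y = k * a * k⁻¹) := by
    intro y hy
    obtain ⟨⟨k, a⟩, hka, rfl⟩ := Finset.mem_image.mp hy
    simp only [hS, Finset.mem_product, Finset.mem_filter, Finset.mem_univ, true_and] at hka
    simp only [Finset.mem_filter, Finset.mem_univ, true_and]
    exact ⟨k, a, hka.1, hka.2, rfl⟩
  have hLcard : Nat.card L = (Finset.univ.filter (fun a : X => a ∈ L)).card := by
    rw [Nat.card_eq_fintype_card, Fintype.card_subtype]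
  have hfib : ∀ b ∈ S.image f, (S.filter (fun x => f x = b)).card ≤ Nat.card L := by
    intro b hb'
    obtain ⟨⟨k₀, a₀⟩, hka₀, rfl⟩ := Finset.mem_image.mp hb'
    simp only [hS, Finset.mem_product, Finset.mem_filter, Finset.mem_univ, true_and] at hka₀
    rw [hLcard]
    apply Finset.card_le_card_of_injOn (fun x : X × X => k₀⁻¹ * x.1)
    · intro x hx
      rw [Finset.mem_coe, Finset.mem_filter] at hx
      obtain ⟨hxS, hxf⟩ := hx
      simp only [hS, Finset.mem_product, Finset.mem_filter, Finset.mem_univ, true_and] at hxS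
      rw [Finset.mem_coe, Finset.mem_filter]
      refine ⟨Finset.mem_univ _, ?_⟩
      apply hb a₀ hka₀.1 hka₀.2 (k₀⁻¹ * x.1)
      have e : x.1 * x.2 * x.1⁻¹ = k₀ * a₀ * k₀⁻¹ := hxf
      have e2 : (k₀⁻¹ * x.1)⁻¹ * a₀ * (k₀⁻¹ * x.1) = x.2 := by
        have : a₀ = k₀⁻¹ * (x.1 * x.2 * x.1⁻¹) * k₀ := by rw [e]; group
        rw [this]; group
      rw [e2]
      exact hxS.1
    · intro x hx x' hx' e
      rw [Finset.mem_coe, Finset.mem_filter] at hx hx'
      have e1 : x.1 = x'.1 := mul_left_cancel e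
      have e2 : x.1 * x.2 * x.1⁻¹ = x'.1 * x'.2 * x'.1⁻¹ := hx.2.trans hx'.2.symm
      rw [← e1] at e2
      have e3 : x.2 = x'.2 := mul_left_cancel (mul_right_cancel e2)
      exact Prod.ext e1 e3
  have h1 := Finset.card_le_mul_card_image S (Nat.card L) hfib
  have h2 : (Finset.univ.filter (fun a : X => a ∈ L ∧ a ≠ 1)).card + 1 = Nat.card L := by
    have e : Finset.univ.filter (fun a : X => a ∈ L ∧ a ≠ 1) = (Finset.univ.filter (fun a : X => a ∈ L)).erase 1 := by
      ext a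
      simp only [Finset.mem_filter, Finset.mem_univ, true_and, Finset.mem_erase]
      tauto
    rw [e, hLcard, Finset.card_erase_of_mem (by simp [L.one_mem])]
    have : 0 < (Finset.univ.filter (fun a : X => a ∈ L)).card := by
      apply Finset.card_pos.mpr
      exact ⟨1, by simp [L.one_mem]⟩
    omega
  have h3 : S.card = Nat.card X * (Finset.univ.filter (fun a : X => a ∈ L ∧ a ≠ 1)).card := by
    rw [hS, Finset.card_product, Finset.card_univ, Nat.card_eq_fintype_card]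
  have h4 : 1 < Nat.card L := (Subgroup.one_lt_card_iff_ne_bot L).mpr hL
  have h5 : (S.image f).card ≤ Nat.card {y : X // ∃ k : X, ∃ a ∈ L, a ≠ 1 ∧ y = k * a * k⁻¹} := by
    rw [Nat.card_eq_fintype_card, Fintype.card_subtype]
    exact Finset.card_le_card himg
  rw [h3] at h1
  generalize (Finset.univ.filter (fun a : X => a ∈ L ∧ a ≠ 1)).card = m at h1 h2
  generalize (S.image f).card = i at h1 h5
  generalize Nat.card {y : X // ∃ k : X, ∃ a ∈ L, a ≠ 1 ∧ y = k * a * k⁻¹} = j at h5 ⊢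
  generalize Nat.card X = n at h1 ⊢
  have hm : 1 ≤ m := by omega
  have h6 : m * n ≤ m * (2 * j) := by
    calc m * n = n * m := mul_comm _ _
      _ ≤ Nat.card L * i := h1
      _ = (m + 1) * i := by rw [h2]
      _ ≤ (m + m) * j := Nat.mul_le_mul (by omega) h5
      _ = m * (2 * j) := by ring
  exact Nat.le_of_mul_le_mul_left h6 (by omega)

/-- Let G be a finite group with a subgroup H whose order is coprime to its index (a Hall subgroup) and which meets each of its conjugates by elements outside N_G(H) trivially. Then every subgroup of G whose order is divisible only by primes dividing the order of H lies in a conjugate of H. -/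
theorem result {G : Type*} [Group G] [Finite G] (H : Subgroup G)
    (hHall : (Nat.card H).Coprime H.index) (hTI : Cfsg.IsTISubset (H : Set G))
    (K : Subgroup G) (hK : ∀ q : ℕ, q.Prime → q ∣ Nat.card K → q ∣ Nat.card H) :
    ∃ g : G, K ≤ H.map (MulAut.conj g).toMonoidHom := by
  classical
  by_contra hcon
  push Not at hcon
  have hKcop : (Nat.card K).Coprime H.index := by
    apply Nat.coprime_of_dvd
    intro q hq hqK hqH
    exact hq.one_lt.ne' (Nat.eq_one_of_dvd_coprimes hHall (hK q hq hqK) hqH)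
  -- (T)
  have hT : ∀ t x : G, x ∈ H → x ≠ 1 → t * x * t⁻¹ ∈ H → t ∈ Subgroup.normalizer (H : Set G) := by
    intro t x hx hx1 htx
    by_contra ht
    exact hx1 (hTI t ht x hx htx)
  -- (P)
  have hP : ∀ t ∈ Subgroup.normalizer (H : Set G), (orderOf t).Coprime H.index → t ∈ H := by
    intro t ht hcop
    haveI hn : (H.subgroupOf (Subgroup.normalizer (H : Set G))).Normal := Subgroup.normal_in_normalizer
    have h1 : orderOf (QuotientGroup.mk' (H.subgroupOf (Subgroup.normalizer (H : Set G))) ⟨t, ht⟩) ∣ orderOf t := by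
      have := orderOf_map_dvd (QuotientGroup.mk' (H.subgroupOf (Subgroup.normalizer (H : Set G))))
        (⟨t, ht⟩ : Subgroup.normalizer (H : Set G))
      rwa [Subgroup.orderOf_mk] at this
    have h2 : orderOf (QuotientGroup.mk' (H.subgroupOf (Subgroup.normalizer (H : Set G))) ⟨t, ht⟩) ∣ H.index := by
      have h3 := orderOf_dvd_natCard (QuotientGroup.mk' (H.subgroupOf (Subgroup.normalizer (H : Set G))) ⟨t, ht⟩)
      rw [← Subgroup.index_eq_card] at h3
      exact dvd_trans h3 (Subgroup.relIndex_dvd_index_of_le Subgroup.le_normalizer)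
    have h4 := Nat.eq_one_of_dvd_coprimes hcop h1 h2
    have h5 := orderOf_eq_one_iff.mp h4
    have h6 : (⟨t, ht⟩ : Subgroup.normalizer (H : Set G)) ∈ H.subgroupOf (Subgroup.normalizer (H : Set G)) :=
      (QuotientGroup.eq_one_iff _).mp h5
    exact Subgroup.mem_subgroupOf.mp h6
  -- (b'')
  have hb2 : ∀ g₁ g₂ y : G, y ≠ 1 → g₁⁻¹ * y * g₁ ∈ H → g₂⁻¹ * y * g₂ ∈ H →
      ∀ z : G, g₁⁻¹ * z * g₁ ∈ H ↔ g₂⁻¹ * z * g₂ ∈ H := by
    intro g₁ g₂ y hy h1 h2 z
    have hx1 : g₂⁻¹ * y * g₂ ≠ 1 := by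
      intro h
      apply hy
      have : y = g₂ * (g₂⁻¹ * y * g₂) * g₂⁻¹ := by group
      rw [this, h]; group
    have ht : g₁⁻¹ * g₂ ∈ Subgroup.normalizer (H : Set G) := by
      apply hT (g₁⁻¹ * g₂) (g₂⁻¹ * y * g₂) h2 hx1
      have : g₁⁻¹ * g₂ * (g₂⁻¹ * y * g₂) * (g₁⁻¹ * g₂)⁻¹ = g₁⁻¹ * y * g₁ := by group
      rw [this]; exact h1
    have h3 := Subgroup.mem_normalizer_iff.mp ht (g₂⁻¹ * z * g₂)
    have e : g₁⁻¹ * g₂ * (g₂⁻¹ * z * g₂) * (g₁⁻¹ * g₂)⁻¹ = g₁⁻¹ * z * g₁ := by group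
    rw [e] at h3
    exact h3.symm
  -- (b)
  have hb : ∀ g : G, ∀ y ∈ K, y ≠ 1 → g⁻¹ * y * g ∈ H → ∀ k ∈ K, g⁻¹ * (k⁻¹ * y * k) * g ∈ H →
      g⁻¹ * k * g ∈ H := by
    intro g y hyK hy1 hyH k hkK hk
    have hx1 : g⁻¹ * (k⁻¹ * y * k) * g ≠ 1 := by
      intro h
      apply hy1
      have : y = k * (g * (g⁻¹ * (k⁻¹ * y * k) * g) * g⁻¹) * k⁻¹ := by group
      rw [this, h]; group
    have ht : g⁻¹ * k * g ∈ Subgroup.normalizer (H : Set G) := by
      apply hT (g⁻¹ * k * g) (g⁻¹ * (k⁻¹ * y * k) * g) hk hx1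
      have : g⁻¹ * k * g * (g⁻¹ * (k⁻¹ * y * k) * g) * (g⁻¹ * k * g)⁻¹ = g⁻¹ * y * g := by group
      rw [this]; exact hyH
    apply hP _ ht
    have h1 : orderOf (g⁻¹ * k * g) = orderOf k := by
      have := orderOf_conj_eq g⁻¹ k
      rwa [inv_inv] at this
    rw [h1]
    exact Nat.Coprime.coprime_dvd_left (Subgroup.orderOf_dvd_natCard K hkK) hKcop
  -- the subgroups L g of K
  have hLmem : ∀ (g : G) (k : K), k ∈ (H.map (MulAut.conj g).toMonoidHom).subgroupOf K ↔ g⁻¹ * (k : G) * g ∈ H := by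
    intro g k
    rw [Subgroup.mem_subgroupOf, mem_map_conj]
  have hLtop : ∀ g : G, (H.map (MulAut.conj g).toMonoidHom).subgroupOf K ≠ ⊤ := by
    intro g h
    apply hcon g
    intro k hk
    have : (⟨k, hk⟩ : K) ∈ (H.map (MulAut.conj g).toMonoidHom).subgroupOf K := by rw [h]; trivial
    rw [mem_map_conj]
    exact (hLmem g ⟨k, hk⟩).mp this
  have hLb : ∀ g : G, ∀ a ∈ (H.map (MulAut.conj g).toMonoidHom).subgroupOf K, a ≠ 1 → ∀ k : K,
      k⁻¹ * a * k ∈ (H.map (MulAut.conj g).toMonoidHom).subgroupOf K →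
      k ∈ (H.map (MulAut.conj g).toMonoidHom).subgroupOf K := by
    intro g a ha ha1 k hk
    rw [hLmem] at ha hk ⊢
    exact hb g a a.2 (fun h => ha1 (Subtype.ext h)) ha k k.2 (by simpa using hk)
  have hSyl : ∀ (q : ℕ) [Fact q.Prime], q ∣ Nat.card K → ∀ Q : Sylow q K,
      ∃ g : G, (Q : Subgroup K) ≤ (H.map (MulAut.conj g).toMonoidHom).subgroupOf K := by
    intro q _ hq Q
    have hqH : ¬ q ∣ H.index := by
      intro h
      exact (Fact.out : q.Prime).one_lt.ne' (Nat.eq_one_of_dvd_coprimes hKcop hq h)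
    obtain ⟨g, hg⟩ := exists_conj_mem ((Q : Subgroup K).map K.subtype) H (Q.isPGroup'.map _) hqH
    refine ⟨g, fun k hk => ?_⟩
    rw [hLmem]
    exact hg _ (Subgroup.mem_map_of_mem K.subtype hk)
  have hne : ∀ (r : ℕ) [Fact r.Prime], r ∣ Nat.card K → ∀ (R : Sylow r K) (g : G),
      (R : Subgroup K) ≤ (H.map (MulAut.conj g).toMonoidHom).subgroupOf K →
      (H.map (MulAut.conj g).toMonoidHom).subgroupOf K ≠ ⊥ := by
    intro r _ hr R g hRg h
    have h1 : (R : Subgroup K) = ⊥ := by rw [eq_bot_iff, ← h]; exact hRg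
    have h2 : Nat.card (R : Subgroup K) = 1 := by rw [h1]; exact Subgroup.card_bot
    rw [Sylow.card_eq_multiplicity] at h2
    have h3 : (Nat.card K).factorization r ≠ 0 := by
      intro h0
      rcases (Nat.factorization_eq_zero_iff _ _).mp h0 with h | h | h
      · exact h Fact.out
      · exact h hr
      · exact Nat.card_pos.ne' h
    have := Nat.one_lt_pow h3 (Fact.out : r.Prime).one_lt
    omega
  have hK1 : Nat.card K ≠ 1 := by
    intro h
    apply hcon 1
    have : K = ⊥ := Subgroup.card_eq_one.mp h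
    rw [this]; exact bot_le
  obtain ⟨p, hp, hpK⟩ := Nat.exists_prime_and_dvd hK1
  haveI := Fact.mk hp
  obtain ⟨P⟩ : Nonempty (Sylow p K) := inferInstance
  obtain ⟨g₁, hg₁⟩ := hSyl p hpK P
  have hidx1 : ((H.map (MulAut.conj g₁).toMonoidHom).subgroupOf K).index ≠ 1 :=
    fun h => hLtop g₁ (Subgroup.index_eq_one.mp h)
  obtain ⟨q, hq, hqL⟩ := Nat.exists_prime_and_dvd hidx1
  haveI := Fact.mk hq
  have hqK : q ∣ Nat.card K := dvd_trans hqL (Subgroup.index_dvd_card _)
  obtain ⟨Q⟩ : Nonempty (Sylow q K) := inferInstance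
  obtain ⟨g₂, hg₂⟩ := hSyl q hqK Q
  have hL1 := hne p hpK P g₁ hg₁
  have hL2 := hne q hqK Q g₂ hg₂
  haveI : Fintype K := Fintype.ofFinite K
  have hc1 := count _ hL1 (hLb g₁)
  have hc2 := count _ hL2 (hLb g₂)
  rw [Nat.card_eq_fintype_card (α := {y : K // _}), Fintype.card_subtype] at hc1 hc2
  -- disjointness
  have hdisj : Disjoint
      (Finset.univ.filter (fun y : K => ∃ k : K, ∃ a ∈ (H.map (MulAut.conj g₁).toMonoidHom).subgroupOf K, a ≠ 1 ∧ y = k * a * k⁻¹))
      (Finset.univ.filter (fun y : K => ∃ k : K, ∃ a ∈ (H.map (MulAut.conj g₂).toMonoidHom).subgroupOf K, a ≠ 1 ∧ y = k * a * k⁻¹)) := by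
    rw [Finset.disjoint_left]
    intro y hy1 hy2
    simp only [Finset.mem_filter, Finset.mem_univ, true_and] at hy1 hy2
    obtain ⟨k₁, a₁, ha₁, ha₁1, e₁⟩ := hy1
    obtain ⟨k₂, a₂, ha₂, ha₂1, e₂⟩ := hy2
    rw [hLmem] at ha₁ ha₂
    have hy1' : (y : G) ≠ 1 := by
      intro h
      apply ha₁1
      have h' : y = 1 := Subtype.ext h
      rw [h'] at e₁
      have : a₁ = k₁⁻¹ * (k₁ * a₁ * k₁⁻¹) * k₁ := by group
      rw [this, ← e₁]; group
    have h1 : ((k₁ : G) * g₁)⁻¹ * (y : G) * ((k₁ : G) * g₁) ∈ H := by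
      have : ((k₁ : G) * g₁)⁻¹ * (y : G) * ((k₁ : G) * g₁) = g₁⁻¹ * (a₁ : G) * g₁ := by
        rw [e₁]; push_cast; group
      rw [this]; exact ha₁
    have h2 : ((k₂ : G) * g₂)⁻¹ * (y : G) * ((k₂ : G) * g₂) ∈ H := by
      have : ((k₂ : G) * g₂)⁻¹ * (y : G) * ((k₂ : G) * g₂) = g₂⁻¹ * (a₂ : G) * g₂ := by
        rw [e₂]; push_cast; group
      rw [this]; exact ha₂
    have hiff := hb2 _ _ _ hy1' h1 h2
    have hmap : (H.map (MulAut.conj g₂).toMonoidHom).subgroupOf K =
        ((H.map (MulAut.conj g₁).toMonoidHom).subgroupOf K).map (MulAut.conj (k₂⁻¹ * k₁)).toMonoidHom := by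
      ext z
      rw [mem_map_conj, hLmem, hLmem]
      have h3 := hiff ((k₂ : G) * z * (k₂ : G)⁻¹)
      have ea : ((k₁ : G) * g₁)⁻¹ * ((k₂ : G) * z * (k₂ : G)⁻¹) * ((k₁ : G) * g₁) =
          g₁⁻¹ * (((k₂⁻¹ * k₁)⁻¹ * z * (k₂⁻¹ * k₁) : K) : G) * g₁ := by
        push_cast; group
      have eb : ((k₂ : G) * g₂)⁻¹ * ((k₂ : G) * z * (k₂ : G)⁻¹) * ((k₂ : G) * g₂) = g₂⁻¹ * (z : G) * g₂ := by
        group
      rw [ea, eb] at h3
      exact h3.symm
    have hcard : Nat.card ((H.map (MulAut.conj g₂).toMonoidHom).subgroupOf K) =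
        Nat.card ((H.map (MulAut.conj g₁).toMonoidHom).subgroupOf K) := by
      rw [hmap]
      exact Subgroup.card_map_of_injective (MulAut.conj _).injective
    have hQdvd : Nat.card (Q : Subgroup K) ∣ Nat.card ((H.map (MulAut.conj g₁).toMonoidHom).subgroupOf K) := by
      rw [← hcard]; exact Subgroup.card_dvd_of_le hg₂
    rw [Sylow.card_eq_multiplicity] at hQdvd
    have h3 : q ^ ((Nat.card K).factorization q + 1) ∣ Nat.card K := by
      have h4 := Nat.mul_dvd_mul hQdvd hqL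
      rw [Subgroup.card_mul_index, ← pow_succ] at h4
      exact h4
    exact Nat.pow_succ_factorization_not_dvd Nat.card_pos.ne' hq h3
  have hsub : (Finset.univ.filter (fun y : K => ∃ k : K, ∃ a ∈ (H.map (MulAut.conj g₁).toMonoidHom).subgroupOf K, a ≠ 1 ∧ y = k * a * k⁻¹)) ∪
      (Finset.univ.filter (fun y : K => ∃ k : K, ∃ a ∈ (H.map (MulAut.conj g₂).toMonoidHom).subgroupOf K, a ≠ 1 ∧ y = k * a * k⁻¹))
      ⊆ Finset.univ.erase 1 := by
    intro y hy
    rw [Finset.mem_erase]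
    refine ⟨?_, Finset.mem_univ _⟩
    rintro rfl
    have key : ∀ (k a : K), a ≠ 1 → (1 : K) = k * a * k⁻¹ → False := by
      intro k a ha1 e
      apply ha1
      have : a = k⁻¹ * (k * a * k⁻¹) * k := by group
      rw [this, ← e]; group
    rcases Finset.mem_union.mp hy with h | h
    · simp only [Finset.mem_filter, Finset.mem_univ, true_and] at h
      obtain ⟨k, a, -, ha1, e⟩ := h
      exact key k a ha1 e
    · simp only [Finset.mem_filter, Finset.mem_univ, true_and] at h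
      obtain ⟨k, a, -, ha1, e⟩ := h
      exact key k a ha1 e
  have hcardU := Finset.card_le_card hsub
  rw [Finset.card_union_of_disjoint hdisj, Finset.card_erase_of_mem (Finset.mem_univ _), Finset.card_univ,
    ← Nat.card_eq_fintype_card] at hcardU
  have : 0 < Nat.card K := Nat.card_pos
  omega

end Cfsg.Agent.S4116
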