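import Mathlib
import Cfsg.Statements.S4117
import Cfsg.Agent.Lib.Lead.CoprimeAction2
import Cfsg.Agent.Lib.Helper7.SylowIndex
import Cfsg.Agent.Lib.Helper7.SylowAux

set_option autoImplicit false
open Cfsg

namespace Cfsg.Agent.S4117

open Subgroup
open scoped commutatorElement
open Cfsg.Agent.Lib.Helper7

/-- A cocycle with values in a commutative group of coprime order is a coboundary. -/
theorem cocycle_coboundary {V A : Type*} [CommGroup V] [Group A] [Fintype A]
    (σ : A → (V →* V)) (k : A → V) (hk : ∀ a b, k (a * b) = k a * σ a (k b))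
    (hcop : (Nat.card V).Coprime (Fintype.card A)) :
    ∃ r : V, ∀ a, σ a r = (k a)⁻¹ * r := by
  obtain ⟨r, hr⟩ : ∃ r : V, r ^ Fintype.card A = ∏ b, k b :=
    ⟨(powCoprime hcop).symm (∏ b, k b), (powCoprime hcop).apply_symm_apply _⟩
  refine ⟨r, fun a => ?_⟩
  apply (powCoprime hcop).injective
  show σ a r ^ Fintype.card A = ((k a)⁻¹ * r) ^ Fintype.card A
  rw [← map_pow, hr, map_prod, mul_pow, hr]
  have h1 : ∀ b, σ a (k b) = (k a)⁻¹ * k (a * b) := by
    intro b; rw [hk a b]; group
  simp_rw [h1]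
  rw [Finset.prod_mul_distrib, Finset.prod_const, Finset.card_univ]
  congr 1
  exact Equiv.prod_comp (Equiv.mulLeft a) k

/-- The norm of a cocycle value is trivial. -/
theorem cocycle_norm {V A : Type*} [CommGroup V] [Group A] [Fintype A]
    (σ : A → (V →* V)) (k : A → V) (hk : ∀ a b, k (a * b) = k a * σ a (k b)) (b : A) :
    ∏ a, σ a (k b) = 1 := by
  have h1 : ∀ a, σ a (k b) = (k a)⁻¹ * k (a * b) := by
    intro a; rw [hk a b]; group
  simp_rw [h1]
  rw [Finset.prod_mul_distrib, Finset.prod_inv_distrib]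
  have h2 : ∏ a, k (a * b) = ∏ a, k a := Equiv.prod_comp (Equiv.mulRight b) k
  rw [h2]; group

/-- In a finite cyclic group, elements of the same prime order generate the same subgroup. -/
theorem mem_zpowers_of_orderOf_eq_prime {P : Type*} [Group P] [Finite P] [IsCyclic P] (p : ℕ)
    (hp : p.Prime) (x y : P) (hx : orderOf x = p) (hy : orderOf y = p) :
    y ∈ Subgroup.zpowers x := by
  obtain ⟨z, hz⟩ := IsCyclic.exists_monoid_generator (α := P)
  have hn : orderOf z = Nat.card P := orderOf_eq_card_of_forall_mem_powers hz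
  have hpn : p ∣ orderOf z := by rw [hn, ← hx]; exact orderOf_dvd_natCard x
  obtain ⟨n', hn'⟩ := hpn
  have hn0 : n' ≠ 0 := by
    rintro rfl
    rw [mul_zero] at hn'
    exact (orderOf_pos z).ne' hn'
  obtain ⟨w, hw⟩ : ∃ w, w = z ^ n' := ⟨_, rfl⟩
  have hwo : orderOf w = p := by
    rw [hw, orderOf_pow_of_dvd hn0 (Dvd.intro_left _ hn'.symm), hn',
      Nat.mul_div_cancel _ (Nat.pos_of_ne_zero hn0)]
  have key : ∀ t : P, t ^ p = 1 → t ∈ Subgroup.zpowers w := by
    intro t ht
    obtain ⟨i, hi⟩ := hz t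
    have hi' : z ^ i = t := hi
    subst hi'
    have h1 : orderOf z ∣ i * p := by
      apply orderOf_dvd_of_pow_eq_one
      rw [pow_mul]; exact ht
    rw [hn', mul_comm i p] at h1
    obtain ⟨j, hj⟩ := Nat.dvd_of_mul_dvd_mul_left hp.pos h1
    rw [hj, pow_mul, ← hw]
    exact Subgroup.pow_mem _ (Subgroup.mem_zpowers w) j
  have hxw : x ∈ Subgroup.zpowers w := key x (by rw [← hx]; exact pow_orderOf_eq_one x)
  have hyw : y ∈ Subgroup.zpowers w := key y (by rw [← hy]; exact pow_orderOf_eq_one y)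
  have hle : Subgroup.zpowers x ≤ Subgroup.zpowers w := (Subgroup.zpowers_le).mpr hxw
  have heq : Subgroup.zpowers x = Subgroup.zpowers w := by
    apply Subgroup.eq_of_le_of_card_ge hle
    rw [Nat.card_zpowers, Nat.card_zpowers, hx, hwo]
  rw [heq]; exact hyw

section action

variable {G A : Type*} [Group G] [Group A] [MulDistribMulAction A G]

/-- the subgroup `[G, A]` -/
abbrev comm (G A : Type*) [Group G] [Group A] [MulDistribMulAction A G] : Subgroup G :=
  Subgroup.closure {y : G | ∃ (a : A) (g : G), y = g⁻¹ * a • g}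

theorem gen_mem (a : A) (g : G) : g⁻¹ * a • g ∈ comm G A :=
  Subgroup.subset_closure ⟨a, g, rfl⟩

theorem comm_normal : (comm G A).Normal := by
  constructor
  intro y hy h
  refine Cfsg.Agent.Lib.Lead.conj_mem_closure _ h ?_ y hy
  rintro s ⟨a, g, rfl⟩
  have e : h * (g⁻¹ * a • g) * h⁻¹ =
      ((g * h⁻¹)⁻¹ * a • (g * h⁻¹)) * ((h⁻¹)⁻¹ * a • h⁻¹)⁻¹ := by
    rw [smul_mul', smul_inv']; group
  rw [e]
  exact Subgroup.mul_mem _ (gen_mem a _) (Subgroup.inv_mem _ (gen_mem a _))

theorem smul_mem_comm (b : A) {y : G} (hy : y ∈ comm G A) : b • y ∈ comm G A := by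
  induction hy using Subgroup.closure_induction with
  | mem y hy =>
    obtain ⟨a, g, rfl⟩ := hy
    have e : b • (g⁻¹ * a • g) = (b • g)⁻¹ * (b * a * b⁻¹) • (b • g) := by
      rw [smul_mul', smul_inv', smul_smul, smul_smul]
      congr 2
      group
    rw [e]; exact gen_mem _ _
  | one => rw [smul_one]; exact Subgroup.one_mem _
  | mul x y _ _ hx hy => rw [smul_mul']; exact Subgroup.mul_mem _ hx hy
  | inv x _ hx => rw [smul_inv']; exact Subgroup.inv_mem _ hx

/-- `[G, A]` centralizes every `A`-invariant cyclic normal subgroup. -/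
theorem comm_le_centralizer (P : Subgroup G) [hPn : P.Normal] [hPc : IsCyclic P]
    (hinv : ∀ (a : A), ∀ x ∈ P, a • x ∈ P) :
    comm G A ≤ centralizer (P : Set G) := by
  rw [Subgroup.closure_le]
  rintro y ⟨a, g, rfl⟩
  show g⁻¹ * a • g ∈ centralizer (P : Set G)
  rw [Subgroup.mem_centralizer_iff]
  intro z hz
  obtain ⟨s, hs⟩ := MonoidHom.map_cyclic ((MulAut.conjNormal g : MulAut ↥P).toMonoidHom)
  have hconj : ∀ t ∈ P, g * t * g⁻¹ = t ^ s := by
    intro t ht
    have h1 := congrArg Subtype.val (hs ⟨t, ht⟩)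
    have h2 : (((MulAut.conjNormal g : MulAut ↥P).toMonoidHom ⟨t, ht⟩ : ↥P) : G) = g * t * g⁻¹ :=
      MulAut.conjNormal_apply ..
    rw [h2] at h1
    rw [h1]; rfl
  have hx : a⁻¹ • z ∈ P := hinv a⁻¹ z hz
  have h1 : a • (g * (a⁻¹ • z) * g⁻¹) = a • ((a⁻¹ • z) ^ s) := by rw [hconj _ hx]
  rw [smul_mul', smul_mul', smul_inv', smul_inv_smul, smul_zpow', smul_inv_smul] at h1
  have h2 := hconj z hz
  have h3 : a • g * z * (a • g)⁻¹ = g * z * g⁻¹ := by rw [h1, h2]
  calc z * (g⁻¹ * a • g) = g⁻¹ * (g * z * g⁻¹) * a • g := by group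
    _ = g⁻¹ * (a • g * z * (a • g)⁻¹) * a • g := by rw [h3]
    _ = g⁻¹ * a • g * z := by group

theorem smul_mem_commutator (a : A) (x : G) (hx : x ∈ commutator G) : a • x ∈ commutator G := by
  have h1 : (commutator G).map (MulDistribMulAction.toMulAut A G a).toMonoidHom ≤ commutator G :=
    (Subgroup.characteristic_iff_map_le.mp inferInstance) _
  exact h1 (Subgroup.mem_map_of_mem _ hx)

theorem comm_isCyclic [Finite G] [IsZGroup G] : IsCyclic (comm G A) := by
  haveI hcyc : IsCyclic (commutator G) := IsZGroup.isCyclic_commutator G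
  have hle : comm G A ≤ centralizer (commutator G : Set G) :=
    comm_le_centralizer (commutator G) (fun a x hx => smul_mem_commutator a x hx)
  haveI : Group.IsNilpotent ↥(comm G A) := by
    rw [Subgroup.nilpotent_iff_lowerCentralSeries]
    refine ⟨2, Subgroup.lowerCentralSeries_succ_eq_bot ⊤ ?_⟩
    rw [Subgroup.top_lowerCentralSeries_one, _root_.commutator_def, Subgroup.commutator_le]
    intro x _ y _
    rw [Subgroup.mem_center_iff]
    intro t
    apply Subtype.ext
    have h1 : ((⁅x, y⁆ : ↥(comm G A)) : G) ∈ commutator G := by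
      rw [_root_.commutator_def]
      exact Subgroup.commutator_mem_commutator (g₁ := (x : G)) (g₂ := (y : G))
        (Subgroup.mem_top _) (Subgroup.mem_top _)
    have h2 := Subgroup.mem_centralizer_iff.mp (hle t.2) _ h1
    exact h2.symm
  infer_instance

/-- the restricted action on `[G, A]` -/
def sig (a : A) : ↥(comm G A) →* ↥(comm G A) where
  toFun x := ⟨a • x.1, smul_mem_comm a x.2⟩
  map_one' := Subtype.ext (smul_one a)
  map_mul' x y := Subtype.ext (smul_mul' a x.1 y.1)

/-- the cocycle of an element -/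
def coc (g : G) (a : A) : ↥(comm G A) := ⟨g⁻¹ * a • g, gen_mem a g⟩

end action

theorem norm_eq_one_of_closure {V A : Type*} [CommGroup V] [Fintype A] (σ : A → (V →* V))
    (S : Set V) (hS : ∀ s ∈ S, ∏ a, σ a s = 1) (hcl : Subgroup.closure S = ⊤) (x : V) :
    ∏ a, σ a x = 1 := by
  have h1 : Subgroup.closure S ≤ (∏ a, σ a : V →* V).ker := by
    rw [Subgroup.closure_le]
    intro s hs
    show s ∈ (∏ a, σ a : V →* V).ker
    rw [MonoidHom.mem_ker, MonoidHom.finsetProd_apply]
    exact hS s hs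
  rw [hcl] at h1
  have h2 := h1 (Subgroup.mem_top x)
  rw [MonoidHom.mem_ker, MonoidHom.finsetProd_apply] at h2
  exact h2

section main

variable {G A : Type*} [Group G] [Finite G] [Group A] [Finite A] [MulDistribMulAction A G]

omit [Finite G] [Finite A] in
theorem coc_cocycle (g : G) (a b : A) : coc g (a * b) = coc g a * sig a (coc g b) := by
  apply Subtype.ext
  show g⁻¹ * (a * b) • g = (g⁻¹ * a • g) * a • (g⁻¹ * b • g)
  rw [smul_mul', smul_inv', mul_smul]; group

/-- fixed points in `[G, A]` are trivial -/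
theorem fixed_comm_eq_one [IsZGroup G] (hcop : (Nat.card A).Coprime (Nat.card G)) (c : G)
    (hc : c ∈ comm G A) (hfix : ∀ a : A, a • c = c) : c = 1 := by
  classical
  haveI : Fintype A := Fintype.ofFinite A
  haveI hKc : IsCyclic (comm G A) := comm_isCyclic
  letI : CommGroup ↥(comm G A) := IsCyclic.commGroup
  have hν : ∀ x : ↥(comm G A), ∏ a : A, sig a x = 1 := by
    apply norm_eq_one_of_closure (fun a => sig a)
      (((↑) : ↥(comm G A) → G) ⁻¹' {y : G | ∃ (a : A) (g : G), y = g⁻¹ * a • g})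
    · rintro ⟨s, hs⟩ ⟨b, g, hsb⟩
      have e : (⟨s, hs⟩ : ↥(comm G A)) = coc g b := Subtype.ext hsb
      rw [e]
      exact cocycle_norm (fun a => sig a) (coc g) (coc_cocycle g) b
    · exact Subgroup.closure_closure_coe_preimage
  have h1 := hν ⟨c, hc⟩
  have h2 : ∀ a : A, sig a ⟨c, hc⟩ = ⟨c, hc⟩ := fun a => Subtype.ext (hfix a)
  simp_rw [h2] at h1
  rw [Finset.prod_const, Finset.card_univ] at h1
  have h3 : c ^ Fintype.card A = 1 := by
    have := congrArg Subtype.val h1
    simpa using this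
  have h4 : orderOf c ∣ Nat.card A := by
    rw [Nat.card_eq_fintype_card]; exact orderOf_dvd_of_pow_eq_one h3
  have h5 : orderOf c ∣ Nat.card G := orderOf_dvd_natCard c
  exact orderOf_eq_one_iff.mp (Nat.eq_one_of_dvd_coprimes hcop h4 h5)

theorem exists_fixed_mul [IsZGroup G] (hcop : (Nat.card A).Coprime (Nat.card G)) (g : G) :
    ∃ c : G, (∀ a : A, a • c = c) ∧ ∃ r ∈ comm G A, g = c * r := by
  classical
  haveI : Fintype A := Fintype.ofFinite A
  haveI hKc : IsCyclic (comm G A) := comm_isCyclic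
  letI : CommGroup ↥(comm G A) := IsCyclic.commGroup
  have hcop' : (Nat.card ↥(comm G A)).Coprime (Fintype.card A) := by
    rw [← Nat.card_eq_fintype_card]
    exact Nat.Coprime.coprime_dvd_left (Subgroup.card_subgroup_dvd_card _) hcop.symm
  obtain ⟨r, hr⟩ := cocycle_coboundary (fun a => sig a) (coc g) (coc_cocycle g) hcop'
  refine ⟨g * r.1, ?_, (r.1)⁻¹, Subgroup.inv_mem _ r.2, by group⟩
  intro a
  have h1 : a • (r : G) = (g⁻¹ * a • g)⁻¹ * (r : G) := congrArg Subtype.val (hr a)
  rw [smul_mul', h1]; group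

end main

/-- Let A be a finite group acting on the finite group G by automorphisms with the orders of A and G coprime, and suppose every Sylow subgroup of G is cyclic. Then the fixed-point subgroup C_G(A) is a Hall subgroup of G (its order is coprime to its index), the subgroup [G, A] generated by the elements g⁻¹·a(g) is cyclic and normal with [G, A] ∩ C_G(A) = 1 and [G, A]·C_G(A) = G. -/
theorem result {G A : Type*} [Group G] [Finite G] [Group A] [Finite A]
    [MulDistribMulAction A G] (hcop : (Nat.card A).Coprime (Nat.card G))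
    (hcyc : ∀ (p : ℕ) [Fact p.Prime] (P : Sylow p G), IsCyclic (P : Subgroup G)) :
    (Nat.card (MulAction.fixedPoints A G : Set G)).Coprime (Nat.card G / Nat.card (MulAction.fixedPoints A G : Set G)) ∧
    IsCyclic (Subgroup.closure {y : G | ∃ (a : A) (g : G), y = g⁻¹ * a • g}) ∧
    (Subgroup.closure {y : G | ∃ (a : A) (g : G), y = g⁻¹ * a • g}).Normal ∧
    (Subgroup.closure {y : G | ∃ (a : A) (g : G), y = g⁻¹ * a • g} : Set G) ∩ MulAction.fixedPoints A G = {1} ∧
    Subgroup.closure {y : G | ∃ (a : A) (g : G), y = g⁻¹ * a • g} ⊔ Subgroup.closure (MulAction.fixedPoints A G) = ⊤ := by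
  haveI : IsZGroup G := ⟨fun p hp P => by haveI := Fact.mk hp; exact hcyc p P⟩
  have hKc : IsCyclic (comm G A) := comm_isCyclic
  haveI hKn : (comm G A).Normal := comm_normal
  have h4 : ∀ c ∈ comm G A, (∀ a : A, a • c = c) → c = 1 := fixed_comm_eq_one hcop
  have h5 : ∀ g : G, ∃ c : G, (∀ a : A, a • c = c) ∧ ∃ r ∈ comm G A, g = c * r :=
    exists_fixed_mul hcop
  refine ⟨?_, hKc, hKn, ?_, ?_⟩
  · obtain ⟨C, hC⟩ : ∃ C : Subgroup G, C = FixedPoints.subgroup A G := ⟨_, rfl⟩
    have hCmem : ∀ x, x ∈ C ↔ ∀ a : A, a • x = x := by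
      intro x; rw [hC]; exact FixedPoints.mem_subgroup A G x
    have hcardC : Nat.card (MulAction.fixedPoints A G : Set G) = Nat.card C := by
      rw [hC]; rfl
    have hCK : C ⊓ comm G A = ⊥ := by
      rw [eq_bot_iff]
      intro x hx
      obtain ⟨hx1, hx2⟩ := Subgroup.mem_inf.mp hx
      exact Subgroup.mem_bot.mpr (h4 x hx2 ((hCmem x).mp hx1))
    have hsup : C ⊔ comm G A = ⊤ := by
      rw [eq_top_iff]
      intro g _
      obtain ⟨c, hc, r, hr, rfl⟩ := h5 g
      exact Subgroup.mul_mem_sup ((hCmem c).mpr hc) hr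
    have hidx : C.index = Nat.card (comm G A) := by
      rw [← Subgroup.relIndex_top_right, ← hsup,
        relIndex_sup_eq_of_le_normalizer _ _ Subgroup.le_normalizer_of_normal]
      have c := card_inf_mul_relIndex C (comm G A)
      rw [hCK, Subgroup.card_bot, one_mul] at c
      exact c
    have hdiv : Nat.card G / Nat.card C = Nat.card (comm G A) := by
      rw [← hidx]
      exact Nat.div_eq_of_eq_mul_right Nat.card_pos (Subgroup.card_mul_index C).symm
    rw [hcardC, hdiv]
    by_contra hnc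
    obtain ⟨p, hp, hpC, hpK⟩ := Nat.Prime.not_coprime_iff_dvd.mp hnc
    haveI := Fact.mk hp
    obtain ⟨x, hx⟩ := exists_prime_orderOf_dvd_card' p hpC
    obtain ⟨y, hy⟩ := exists_prime_orderOf_dvd_card' p hpK
    have hxo : orderOf (x : G) = p := by rw [Subgroup.orderOf_coe]; exact hx
    have hyo : orderOf (y : G) = p := by rw [Subgroup.orderOf_coe]; exact hy
    obtain ⟨P, hxP⟩ := exists_mem_sylow_of_orderOf (x : G) ⟨1, by rw [hxo, pow_one]⟩
    obtain ⟨Q, hyQ⟩ := exists_mem_sylow_of_orderOf (y : G) ⟨1, by rw [hyo, pow_one]⟩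
    obtain ⟨g, hg⟩ := MulAction.exists_smul_eq G Q P
    have hy'P : g * (y : G) * g⁻¹ ∈ P := by
      rw [← hg, mem_sylow_smul_iff]
      have e : g⁻¹ * (g * (y : G) * g⁻¹) * g = (y : G) := by group
      rw [e]; exact hyQ
    have hy'o : orderOf (g * (y : G) * g⁻¹) = p := by rw [orderOf_conj_eq]; exact hyo
    haveI : IsCyclic ↥(P : Subgroup G) := hcyc p P
    have hmem := mem_zpowers_of_orderOf_eq_prime (P := ↥(P : Subgroup G)) p hp ⟨(x : G), hxP⟩
      ⟨g * (y : G) * g⁻¹, hy'P⟩ ((Subgroup.orderOf_mk _ hxP).trans hxo)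
      ((Subgroup.orderOf_mk _ hy'P).trans hy'o)
    obtain ⟨j, hj⟩ := Subgroup.mem_zpowers_iff.mp hmem
    have hj' : (x : G) ^ j = g * (y : G) * g⁻¹ := by
      have := congrArg Subtype.val hj
      simpa using this
    have h1 : g * (y : G) * g⁻¹ ∈ C := by rw [← hj']; exact Subgroup.zpow_mem _ x.2 j
    have h2 : g * (y : G) * g⁻¹ ∈ comm G A := hKn.conj_mem _ y.2 g
    have h3 := h4 _ h2 ((hCmem _).mp h1)
    rw [h3, orderOf_one] at hy'o
    exact hp.one_lt.ne hy'o
  · ext x
    constructor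
    · rintro ⟨hx1, hx2⟩
      exact h4 x hx1 hx2
    · intro hx
      rw [Set.mem_singleton_iff] at hx
      subst hx
      exact ⟨Subgroup.one_mem _, fun a => smul_one a⟩
  · rw [eq_top_iff]
    intro g _
    obtain ⟨c, hc, r, hr, rfl⟩ := h5 g
    exact Subgroup.mul_mem _ (Subgroup.mem_sup_right (Subgroup.subset_closure hc))
      (Subgroup.mem_sup_left hr)

end Cfsg.Agent.S4117
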