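import Mathlib
import Cfsg.Statements.S4160
import Cfsg.Agent.Lib.Helper7.SylowIndex

set_option autoImplicit false
open Cfsg

namespace Cfsg.Agent.S4160

open Subgroup

/-- If `p ∤ |G : H|`, a Sylow `p`-subgroup is conjugate into `H`. -/
theorem exists_conj_le {G : Type*} [Group G] [Finite G] (p : ℕ) [Fact p.Prime] (P : Sylow p G)
    (H : Subgroup G) (hH : ¬ p ∣ H.index) : ∃ g : G, ∀ u ∈ (P : Subgroup G), g⁻¹ * u * g ∈ H := by
  have h1 : ¬ p ∣ Nat.card (G ⧸ H) := hH
  obtain ⟨c, hc⟩ := P.2.nonempty_fixed_point_of_prime_not_dvd_card (G ⧸ H) h1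
  induction c using QuotientGroup.induction_on with
  | H g =>
    refine ⟨g, fun u hu => ?_⟩
    have h2 : (⟨u, hu⟩ : (P : Subgroup G)) • (g : G ⧸ H) = (g : G ⧸ H) := hc ⟨u, hu⟩
    have h3 : ((u * g : G) : G ⧸ H) = (g : G ⧸ H) := h2
    have h4 := QuotientGroup.eq.mp h3
    have h5 : g⁻¹ * u * g = ((u * g)⁻¹ * g)⁻¹ := by group
    rw [h5]
    exact H.inv_mem h4

/-- The nonidentity elements of the conjugates of `C` number at most `|G:N| * (|C| - 1)` when `N`
normalizes `C`. -/
theorem card_conj_le {G : Type*} [Group G] [Finite G] (C N : Subgroup G)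
    (hN : N ≤ normalizer (C : Set G)) (c' : ℕ) (hc : Nat.card C = c' + 1) :
    Nat.card {x : G // x ≠ 1 ∧ ∃ g : G, ∃ c ∈ C, x = g * c * g⁻¹} ≤ N.index * c' := by
  classical
  have h1 : Nat.card {c : C // c ≠ 1} = c' := by
    have h2 : Nat.card {c : C // c ≠ 1} + 1 = Nat.card C := by
      haveI : Fintype C := Fintype.ofFinite C
      rw [Nat.card_eq_fintype_card, Nat.card_eq_fintype_card]
      have := Fintype.card_subtype_compl (fun c : C => c = 1)
      have h3 : Fintype.card {c : C // c = 1} = 1 := Fintype.card_subtype_eq 1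
      have h4 : 0 < Fintype.card C := Fintype.card_pos
      simp only [ne_eq]
      omega
    omega
  have h2 : Nat.card ((G ⧸ N) × {c : C // c ≠ 1}) = N.index * c' := by
    rw [Nat.card_prod, h1]; rfl
  rw [← h2]
  let f : (G ⧸ N) × {c : C // c ≠ 1} → {x : G // x ≠ 1 ∧ ∃ g : G, ∃ c ∈ C, x = g * c * g⁻¹} :=
    fun t => ⟨Quotient.out t.1 * (t.2.1 : G) * (Quotient.out t.1)⁻¹, by
      constructor
      · intro h3
        apply t.2.2
        have h4 : ((t.2.1 : C) : G) = 1 := by
          have : ((t.2.1 : C) : G) = (Quotient.out t.1)⁻¹ * (Quotient.out t.1 * (t.2.1 : G) * (Quotient.out t.1)⁻¹) * (Quotient.out t.1) := by group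
          rw [this, h3]; group
        exact Subtype.ext h4
      · exact ⟨Quotient.out t.1, t.2.1, t.2.1.2, rfl⟩⟩
  apply Nat.card_le_card_of_surjective f
  rintro ⟨x, hx1, g, c, hc, rfl⟩
  have h3 : ((Quotient.out (g : G ⧸ N) : G) : G ⧸ N) = (g : G ⧸ N) := Quotient.out_eq _
  have h4 := QuotientGroup.eq.mp h3
  set g' := Quotient.out (g : G ⧸ N) with hg'
  set n := g'⁻¹ * g with hn
  have h5 : n * c * n⁻¹ ∈ C := by
    have := hN h4
    exact (mem_normalizer_iff.mp this c).mp hc
  have h6 : (⟨n * c * n⁻¹, h5⟩ : C) ≠ 1 := by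
    intro h7
    apply hx1
    have h8 : n * c * n⁻¹ = 1 := congrArg Subtype.val h7
    have h9 : c = 1 := by
      have : c = n⁻¹ * (n * c * n⁻¹) * n := by group
      rw [this, h8]; group
    rw [h9]; group
  refine ⟨((g : G ⧸ N), ⟨⟨n * c * n⁻¹, h5⟩, h6⟩), ?_⟩
  apply Subtype.ext
  show g' * (n * c * n⁻¹) * g'⁻¹ = g * c * g⁻¹
  rw [hn]; group

theorem key {G : Type*} [Group G] [Finite G] (p q : ℕ) [Fact p.Prime] [Fact q.Prime]
    (P : Sylow p G) (Q : Sylow q G)
    (h : ∀ x : G, ¬ p ∣ (Subgroup.centralizer ({x} : Set G)).index ∨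
      ¬ q ∣ (Subgroup.centralizer ({x} : Set G)).index) :
    normalizer ((P : Subgroup G) : Set G) ≤ centralizer ((P : Subgroup G) : Set G) ∨
    normalizer ((Q : Subgroup G) : Set G) ≤ centralizer ((Q : Subgroup G) : Set G) := by
  classical
  by_contra hcon
  push Not at hcon
  obtain ⟨hP, hQ⟩ := hcon
  -- notation
  set CP := centralizer ((P : Subgroup G) : Set G) with hCP
  set NP := normalizer ((P : Subgroup G) : Set G) with hNP
  set CQ := centralizer ((Q : Subgroup G) : Set G) with hCQ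
  set NQ := normalizer ((Q : Subgroup G) : Set G) with hNQ
  have hCNP : CP ≤ NP := by
    intro x hx
    rw [hNP, mem_normalizer_iff]
    intro u
    constructor
    · intro hu
      have := hx u hu
      have h2 : x * u * x⁻¹ = u := by rw [← this]; group
      rw [h2]; exact hu
    · intro hu
      have := hx _ hu
      have h2 : u = x * u * x⁻¹ := by
        have h3 : x * u * x⁻¹ * x = x * (x * u * x⁻¹) := this
        have h4 : x * u = x * (x * u * x⁻¹) := by rw [← h3]; group
        exact mul_left_cancel h4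
      rw [h2]; exact hu
  have hCNQ : CQ ≤ NQ := by
    intro x hx
    rw [hNQ, mem_normalizer_iff]
    intro u
    constructor
    · intro hu
      have := hx u hu
      have h2 : x * u * x⁻¹ = u := by rw [← this]; group
      rw [h2]; exact hu
    · intro hu
      have := hx _ hu
      have h2 : u = x * u * x⁻¹ := by
        have h3 : x * u * x⁻¹ * x = x * (x * u * x⁻¹) := this
        have h4 : x * u = x * (x * u * x⁻¹) := by rw [← h3]; group
        exact mul_left_cancel h4
      rw [h2]; exact hu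
  have hNCP : NP ≤ normalizer (CP : Set G) := by
    intro n hn
    rw [mem_normalizer_iff]
    have hn' := mem_normalizer_iff.mp hn
    have hninv : n⁻¹ ∈ NP := NP.inv_mem hn
    have hn'' := mem_normalizer_iff.mp hninv
    intro x
    constructor
    · intro hx u hu
      have h1 : n⁻¹ * u * n ∈ (P : Subgroup G) := by
        have := (hn'' u).mp hu
        simpa using this
      have h2 := hx _ h1
      have h3 : u * (n * x * n⁻¹) = n * ((n⁻¹ * u * n) * x) * n⁻¹ := by group
      have h4 : n * x * n⁻¹ * u = n * (x * (n⁻¹ * u * n)) * n⁻¹ := by group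
      rw [h3, h4, h2]
    · intro hx u hu
      have h1 : n * u * n⁻¹ ∈ (P : Subgroup G) := (hn' u).mp hu
      have h2 := hx _ h1
      have h3 : u * x = n⁻¹ * ((n * u * n⁻¹) * (n * x * n⁻¹)) * n := by group
      have h4 : x * u = n⁻¹ * ((n * x * n⁻¹) * (n * u * n⁻¹)) * n := by group
      rw [h3, h4, h2]
  have hNCQ : NQ ≤ normalizer (CQ : Set G) := by
    intro n hn
    rw [mem_normalizer_iff]
    have hn' := mem_normalizer_iff.mp hn
    have hninv : n⁻¹ ∈ NQ := NQ.inv_mem hn
    have hn'' := mem_normalizer_iff.mp hninv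
    intro x
    constructor
    · intro hx u hu
      have h1 : n⁻¹ * u * n ∈ (Q : Subgroup G) := by
        have := (hn'' u).mp hu
        simpa using this
      have h2 := hx _ h1
      have h3 : u * (n * x * n⁻¹) = n * ((n⁻¹ * u * n) * x) * n⁻¹ := by group
      have h4 : n * x * n⁻¹ * u = n * (x * (n⁻¹ * u * n)) * n⁻¹ := by group
      rw [h3, h4, h2]
    · intro hx u hu
      have h1 : n * u * n⁻¹ ∈ (Q : Subgroup G) := (hn' u).mp hu
      have h2 := hx _ h1
      have h3 : u * x = n⁻¹ * ((n * u * n⁻¹) * (n * x * n⁻¹)) * n := by group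
      have h4 : x * u = n⁻¹ * ((n * x * n⁻¹) * (n * u * n⁻¹)) * n := by group
      rw [h3, h4, h2]
  -- cardinalities
  obtain ⟨c', hc'⟩ : ∃ c', Nat.card CP = c' + 1 := ⟨Nat.card CP - 1, by have := Nat.card_pos (α := CP); omega⟩
  obtain ⟨d', hd'⟩ : ∃ d', Nat.card CQ = d' + 1 := ⟨Nat.card CQ - 1, by have := Nat.card_pos (α := CQ); omega⟩
  have hbP := card_conj_le CP NP hNCP c' hc'
  have hbQ := card_conj_le CQ NQ hNCQ d' hd'
  -- indices
  have hrP : 2 ≤ CP.relIndex NP := by
    have h1 : CP.relIndex NP ≠ 0 := Subgroup.index_ne_zero_of_finite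
    have h2 : CP.relIndex NP ≠ 1 := by
      intro h3; exact hP (Subgroup.relIndex_eq_one.mp h3)
    omega
  have hrQ : 2 ≤ CQ.relIndex NQ := by
    have h1 : CQ.relIndex NQ ≠ 0 := Subgroup.index_ne_zero_of_finite
    have h2 : CQ.relIndex NQ ≠ 1 := by
      intro h3; exact hQ (Subgroup.relIndex_eq_one.mp h3)
    omega
  have hGP : Nat.card G = NP.index * (CP.relIndex NP * (c' + 1)) := by
    have h1 := Cfsg.Agent.Lib.Helper7.card_inf_mul_relIndex CP NP
    rw [inf_eq_left.mpr hCNP] at h1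
    rw [← hc', mul_comm (CP.relIndex NP), h1]
    exact (Subgroup.index_mul_card NP).symm
  have hGQ : Nat.card G = NQ.index * (CQ.relIndex NQ * (d' + 1)) := by
    have h1 := Cfsg.Agent.Lib.Helper7.card_inf_mul_relIndex CQ NQ
    rw [inf_eq_left.mpr hCNQ] at h1
    rw [← hd', mul_comm (CQ.relIndex NQ), h1]
    exact (Subgroup.index_mul_card NQ).symm
  have hiP : 1 ≤ NP.index := Nat.one_le_iff_ne_zero.mpr Subgroup.index_ne_zero_of_finite
  have hiQ : 1 ≤ NQ.index := Nat.one_le_iff_ne_zero.mpr Subgroup.index_ne_zero_of_finite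
  -- covering
  have hcov : Nat.card G ≤ 1 + Nat.card {x : G // x ≠ 1 ∧ ∃ g : G, ∃ c ∈ CP, x = g * c * g⁻¹}
      + Nat.card {x : G // x ≠ 1 ∧ ∃ g : G, ∃ c ∈ CQ, x = g * c * g⁻¹} := by
    have h1 : Nat.card G ≤ Nat.card (Unit ⊕ {x : G // x ≠ 1 ∧ ∃ g : G, ∃ c ∈ CP, x = g * c * g⁻¹}
        ⊕ {x : G // x ≠ 1 ∧ ∃ g : G, ∃ c ∈ CQ, x = g * c * g⁻¹}) := by
      let f : (Unit ⊕ {x : G // x ≠ 1 ∧ ∃ g : G, ∃ c ∈ CP, x = g * c * g⁻¹}
        ⊕ {x : G // x ≠ 1 ∧ ∃ g : G, ∃ c ∈ CQ, x = g * c * g⁻¹}) → G :=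
        fun t => match t with
          | Sum.inl _ => 1
          | Sum.inr (Sum.inl x) => x.1
          | Sum.inr (Sum.inr x) => x.1
      apply Nat.card_le_card_of_surjective f
      intro x
      by_cases hx1 : x = 1
      · exact ⟨Sum.inl (), hx1.symm⟩
      · rcases h x with hx | hx
        · obtain ⟨g, hg⟩ := exists_conj_le p P _ hx
          have h2 : g * x * g⁻¹ ∈ CP := by
            intro u hu
            have h3 := hg u hu
            have h4 := Subgroup.mem_centralizer_iff.mp h3 x (Set.mem_singleton x)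
            have h5 : u * (g * x * g⁻¹) = g * ((g⁻¹ * u * g) * x) * g⁻¹ := by group
            have h6 : g * x * g⁻¹ * u = g * (x * (g⁻¹ * u * g)) * g⁻¹ := by group
            rw [h5, h6, h4]
          exact ⟨Sum.inr (Sum.inl ⟨x, hx1, g⁻¹, g * x * g⁻¹, h2, by group⟩), rfl⟩
        · obtain ⟨g, hg⟩ := exists_conj_le q Q _ hx
          have h2 : g * x * g⁻¹ ∈ CQ := by
            intro u hu
            have h3 := hg u hu
            have h4 := Subgroup.mem_centralizer_iff.mp h3 x (Set.mem_singleton x)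
            have h5 : u * (g * x * g⁻¹) = g * ((g⁻¹ * u * g) * x) * g⁻¹ := by group
            have h6 : g * x * g⁻¹ * u = g * (x * (g⁻¹ * u * g)) * g⁻¹ := by group
            rw [h5, h6, h4]
          exact ⟨Sum.inr (Sum.inr ⟨x, hx1, g⁻¹, g * x * g⁻¹, h2, by group⟩), rfl⟩
    rw [Nat.card_sum, Nat.card_sum] at h1
    simp only [Nat.card_unique] at h1
    omega
  -- arithmetic
  have e1 : NP.index * (CP.relIndex NP * (c' + 1)) ≥ 2 * (NP.index * c') + 2 * NP.index := by
    have : NP.index * (2 * (c' + 1)) ≤ NP.index * (CP.relIndex NP * (c' + 1)) :=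
      Nat.mul_le_mul_left _ (Nat.mul_le_mul_right _ hrP)
    nlinarith
  have e2 : NQ.index * (CQ.relIndex NQ * (d' + 1)) ≥ 2 * (NQ.index * d') + 2 * NQ.index := by
    have : NQ.index * (2 * (d' + 1)) ≤ NQ.index * (CQ.relIndex NQ * (d' + 1)) :=
      Nat.mul_le_mul_left _ (Nat.mul_le_mul_right _ hrQ)
    nlinarith
  omega

theorem result {G : Type*} [Group G] [Finite G] (p q : ℕ) (hp : p.Prime) (hq : q.Prime) (hpq : p ≠ q)
    (hp' : ∃ x : G, p ∣ (Subgroup.centralizer ({x} : Set G)).index) (hq' : ∃ x : G, q ∣ (Subgroup.centralizer ({x} : Set G)).index) (h : ∀ x : G, ¬ p * q ∣ (Subgroup.centralizer ({x} : Set G)).index) :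
    Cfsg.HasNormalPComplement p G ∨ Cfsg.HasNormalPComplement q G := by
  haveI : Fact p.Prime := ⟨hp⟩
  haveI : Fact q.Prime := ⟨hq⟩
  obtain ⟨P⟩ : Nonempty (Sylow p G) := inferInstance
  obtain ⟨Q⟩ : Nonempty (Sylow q G) := inferInstance
  have h' : ∀ x : G, ¬ p ∣ (Subgroup.centralizer ({x} : Set G)).index ∨
      ¬ q ∣ (Subgroup.centralizer ({x} : Set G)).index := by
    intro x
    by_contra hcon
    push Not at hcon
    exact h x (Nat.Coprime.mul_dvd_of_dvd_of_dvd ((Nat.coprime_primes hp hq).mpr hpq) hcon.1 hcon.2)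
  rcases key p q P Q h' with hP | hQ
  · left
    exact ⟨P, (MonoidHom.transferSylow P hP).ker, inferInstance,
      MonoidHom.ker_transferSylow_isComplement' P hP⟩
  · right
    exact ⟨Q, (MonoidHom.transferSylow Q hQ).ker, inferInstance,
      MonoidHom.ker_transferSylow_isComplement' Q hQ⟩

end Cfsg.Agent.S4160
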