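import Mathlib
import Cfsg.Statements.S4127
import Cfsg.Agent.S4160
import Cfsg.Agent.Lib.Helper5.CoprimeAB
import Cfsg.Agent.Lib.Helper6.PParts
import Cfsg.Agent.Lib.Helper6.Index
import Cfsg.Agent.Lib.Helper4.PCore
import Cfsg.Agent.Lib.Helper3.PComplement
import Cfsg.Agent.Lib.Lead.PNilp
import Cfsg.Agent.Lib.Helper7.SylowAux
import Cfsg.Agent.Lib.Helper7.SylowIndex
import Cfsg.Agent.Lib.Helper7.ClassCount

set_option autoImplicit false
open Cfsg

namespace Cfsg.Agent.S4127

open Subgroup Cfsg.Agent.Lib.Helper7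

/-- Camina's lemma: if every `p'`-element has class size prime to `p`, the Sylow `p`-subgroup has a
normal complement. -/
theorem camina {H : Type*} [Group H] [Finite H] (p : ℕ) [Fact p.Prime]
    (hyp : ∀ y : H, (orderOf y).Coprime p → ¬ p ∣ (centralizer ({y} : Set H)).index)
    (S : Sylow p H) : ∃ N : Subgroup H, N.Normal ∧ N.IsComplement' (S : Subgroup H) := by
  have hcov : ∀ z : H, ∃ a : H, a⁻¹ * z * a ∈ normalizer ((S : Subgroup H) : Set H) := by
    intro z
    obtain ⟨u, v, hz, hcomm, ⟨k, hu⟩, hv, -, -⟩ := Cfsg.Agent.Lib.Helper6.exists_p_decomp p z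
    obtain ⟨g, hg⟩ := Cfsg.Agent.S4160.exists_conj_le p S (centralizer ({v} : Set H)) (hyp v hv)
    set S1 : Sylow p H := g⁻¹ • S with hS1def
    have hS1 : (S1 : Subgroup H) ≤ centralizer ({v} : Set H) := by
      intro s hs
      have hs' : s ∈ S1 := hs
      rw [hS1def, mem_sylow_smul_iff] at hs'
      have h1 := hg _ hs'
      have h2 : g⁻¹ * (g⁻¹⁻¹ * s * g⁻¹) * g = s := by group
      rwa [h2] at h1
    let T1 : Sylow p (centralizer ({v} : Set H)) := S1.subtype hS1
    have huC : u ∈ centralizer ({v} : Set H) := by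
      rw [Subgroup.mem_centralizer_iff]
      intro w hw
      rw [Set.mem_singleton_iff] at hw
      rw [hw]; exact hcomm.symm.eq
    have hpg : IsPGroup p (zpowers (⟨u, huC⟩ : centralizer ({v} : Set H))) := by
      apply IsPGroup.of_card (n := k)
      rw [Nat.card_zpowers, Subgroup.orderOf_mk, hu]
    obtain ⟨T2, hT2⟩ := hpg.exists_le_sylow
    obtain ⟨c, hc⟩ := MulAction.exists_smul_eq (centralizer ({v} : Set H)) T1 T2
    have hu2 : (⟨u, huC⟩ : centralizer ({v} : Set H)) ∈ (c • T1 : Sylow p _) := by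
      rw [hc]; exact hT2 (mem_zpowers _)
    rw [mem_sylow_smul_iff] at hu2
    have hu3 : (c : H)⁻¹ * u * c ∈ (S1 : Subgroup H) := by
      have h1 : c⁻¹ * (⟨u, huC⟩ : centralizer ({v} : Set H)) * c ∈ ((S1.subtype hS1 : Sylow p _) : Subgroup _) := hu2
      rw [Sylow.coe_subtype, Subgroup.mem_subgroupOf] at h1
      exact h1
    have hcv : (c : H) * v = v * c := by
      have := Subgroup.mem_centralizer_iff.mp c.2 v (Set.mem_singleton v)
      exact this.symm
    set S2 : Sylow p H := (c : H) • S1 with hS2def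
    have huS2 : u ∈ S2 := by
      rw [hS2def, mem_sylow_smul_iff]; exact hu3
    have hvS2 : ∀ s ∈ S2, v * s = s * v := by
      intro s hs
      rw [hS2def, mem_sylow_smul_iff] at hs
      have h1 := Subgroup.mem_centralizer_iff.mp (hS1 hs) v (Set.mem_singleton v)
      -- v * (c⁻¹ s c) = (c⁻¹ s c) * v
      have h2 : s = (c : H) * ((c : H)⁻¹ * s * c) * (c : H)⁻¹ := by group
      have hcv' : (c : H)⁻¹ * v = v * (c : H)⁻¹ := by
        have : (c : H)⁻¹ * v = (c : H)⁻¹ * (v * c) * (c : H)⁻¹ := by group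
        rw [this, ← hcv]; group
      rw [h2]
      calc v * ((c : H) * ((c : H)⁻¹ * s * c) * (c : H)⁻¹)
          = (v * c) * ((c : H)⁻¹ * s * c) * (c : H)⁻¹ := by group
        _ = (c : H) * (v * ((c : H)⁻¹ * s * c)) * (c : H)⁻¹ := by rw [← hcv]; group
        _ = (c : H) * (((c : H)⁻¹ * s * c) * v) * (c : H)⁻¹ := by rw [h1]
        _ = (c : H) * ((c : H)⁻¹ * s * c) * (v * (c : H)⁻¹) := by group
        _ = (c : H) * ((c : H)⁻¹ * s * c) * ((c : H)⁻¹ * v) := by rw [hcv']
        _ = (c : H) * ((c : H)⁻¹ * s * c) * (c : H)⁻¹ * v := by group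
    have hzN : z ∈ normalizer ((S2 : Subgroup H) : Set H) := by
      rw [hz]
      apply Subgroup.mul_mem
      · exact Subgroup.le_normalizer huS2
      · rw [mem_normalizer_iff]
        intro s
        have key : ∀ s ∈ S2, v * s * v⁻¹ = s := by
          intro s hs
          rw [hvS2 s hs]; group
        constructor
        · intro hs; rw [key s hs]; exact hs
        · intro hs
          have h1 : v⁻¹ * (v * s * v⁻¹) * v = v * s * v⁻¹ := by
            have h2 := hvS2 _ hs
            have : v⁻¹ * (v * s * v⁻¹) * v = v⁻¹ * (v * (v * s * v⁻¹)) := by rw [h2]; group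
            rw [this]; group
          have h3 : v⁻¹ * (v * s * v⁻¹) * v = s := by group
          rw [h3] at h1
          rw [h1]; exact hs
    obtain ⟨b, hb⟩ := MulAction.exists_smul_eq H S S2
    have hzN' : z • S2 = S2 := Sylow.smul_eq_iff_mem_normalizer.mpr hzN
    refine ⟨b, Sylow.smul_eq_iff_mem_normalizer.mp ?_⟩
    rw [← hb] at hzN'
    rw [mul_smul, mul_smul, hzN', inv_smul_smul]
  have htop := Cfsg.Agent.Lib.Helper6.eq_top_of_conj_cover _ hcov
  apply (Cfsg.Agent.Lib.Lead.frobenius_pnilpotent S).mpr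
  intro Q hQ y _ hy
  obtain ⟨g, hg⟩ := Cfsg.Agent.S4160.exists_conj_le p S (centralizer ({y} : Set H)) (hyp y hy)
  rw [Subgroup.mem_centralizer_iff]
  intro s hs
  have hgN : g ∈ normalizer ((S : Subgroup H) : Set H) := by rw [htop]; trivial
  have h1 : g * s * g⁻¹ ∈ (S : Subgroup H) := (mem_normalizer_iff.mp hgN s).mp (hQ hs)
  have h2 := hg _ h1
  have h3 : g⁻¹ * (g * s * g⁻¹) * g = s := by group
  rw [h3] at h2
  exact (Subgroup.mem_centralizer_iff.mp h2 y (Set.mem_singleton y)).symm

section main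

variable {G : Type*} [Group G] [Finite G] (p : ℕ) [Fact p.Prime]

/-- Wielandt: a `p`-element with class size a power of `p` lies in `O_p(G)`. -/
theorem mem_pCore (a : ℕ) (x : G) (hxo : ∃ k : ℕ, orderOf x = p ^ k)
    (hx : (centralizer ({x} : Set G)).index = p ^ a) : x ∈ Cfsg.pCore p G := by
  have hp : p.Prime := Fact.out
  obtain ⟨P, hxP⟩ := exists_mem_sylow_of_orderOf (p := p) x hxo
  set Y := centralizer ({x} : Set G) with hY
  -- |P| = p^a * |P ⊓ Y|
  have hcard : Nat.card (P : Subgroup G) = Y.index * Nat.card ((P : Subgroup G) ⊓ Y : Subgroup G) := by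
    have h1 := card_inf_mul_relIndex ((P : Subgroup G) ⊓ Y) (P : Subgroup G)
    rw [inf_eq_left.mpr (inf_le_left : (P : Subgroup G) ⊓ Y ≤ P)] at h1
    have h2 : ((P : Subgroup G) ⊓ Y).relIndex (P : Subgroup G) ≤ Y.index := by
      have h3 : ((P : Subgroup G) ⊓ Y).index ≤ (P : Subgroup G).index * Y.index := Subgroup.index_inf_le
      have h4 := Subgroup.relIndex_mul_index (inf_le_left : (P : Subgroup G) ⊓ Y ≤ P)
      rw [← h4, mul_comm] at h3
      exact Nat.le_of_mul_le_mul_left h3 (Nat.pos_of_ne_zero Subgroup.index_ne_zero_of_finite)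
    -- |P ⊓ Y| is a p-power dividing |Y|
    have hPY : IsPGroup p ((P : Subgroup G) ⊓ Y : Subgroup G) := P.2.to_le inf_le_left
    obtain ⟨m, hm⟩ := IsPGroup.iff_card.mp hPY
    have h5 : Nat.card ((P : Subgroup G) ⊓ Y : Subgroup G) ∣ Nat.card Y :=
      Subgroup.card_dvd_of_le inf_le_right
    have h6 : Nat.card Y * Y.index = Nat.card G := Subgroup.card_mul_index Y
    have h7 : Nat.card (P : Subgroup G) = p ^ (Nat.card G).factorization p := P.card_eq_multiplicity
    have hY0 : Nat.card Y ≠ 0 := Nat.card_pos.ne'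
    have h8 : (Nat.card G).factorization p = (Nat.card Y).factorization p + a := by
      rw [← h6, hx, Nat.factorization_mul hY0 (pow_pos hp.pos a).ne']
      simp [Nat.Prime.factorization_pow hp]
    have h9 : m ≤ (Nat.card Y).factorization p := by
      rw [hm] at h5
      exact (hp.pow_dvd_iff_le_factorization hY0).mp h5
    -- |P| / |P ⊓ Y| ≤ p^a
    rw [hm, h7, h8] at h1
    rw [hx] at h2 ⊢
    rw [hm, h7, h8]
    have h10 : (Nat.card Y).factorization p + a ≤ m + a := by
      by_contra hcon
      push Not at hcon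
      have h11 : p ^ m * p ^ (a + 1) ∣ p ^ ((Nat.card Y).factorization p + a) := by
        rw [← pow_add]; exact pow_dvd_pow p (by omega)
      rw [← h1] at h11
      have h12 : p ^ (a + 1) ∣ ((P : Subgroup G) ⊓ Y).relIndex (P : Subgroup G) :=
        Nat.dvd_of_mul_dvd_mul_left (pow_pos hp.pos m) h11
      have h13 := Nat.le_of_dvd (by
        rcases Nat.eq_zero_or_pos (((P : Subgroup G) ⊓ Y).relIndex (P : Subgroup G)) with h | h
        · rw [h, mul_zero] at h1
          exact absurd h1.symm (pow_pos hp.pos _).ne'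
        · exact h) h12
      have h14 : p ^ a < p ^ (a + 1) := Nat.pow_lt_pow_right hp.one_lt (by omega)
      omega
    have h15 : (Nat.card Y).factorization p = m := by omega
    rw [h15, pow_add, mul_comm]
  -- every conjugate of x lies in P
  have hconj : ∀ g : G, g * x * g⁻¹ ∈ (P : Subgroup G) := by
    intro g
    obtain ⟨c, hc, hcg⟩ := exists_mul_of_card_eq (P : Subgroup G) Y hcard g
    have h1 := Subgroup.mem_centralizer_iff.mp hcg x (Set.mem_singleton x)
    have h2 : g * x * g⁻¹ = c * x * c⁻¹ := by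
      have : g * x * g⁻¹ = c * ((c⁻¹ * g) * x) * (c⁻¹ * g)⁻¹ * c⁻¹ := by group
      rw [this, ← h1]; group
    rw [h2]
    exact Subgroup.mul_mem _ (Subgroup.mul_mem _ hc hxP) (Subgroup.inv_mem _ hc)
  have hle : Subgroup.normalClosure ({x} : Set G) ≤ (P : Subgroup G) := by
    rw [Subgroup.normalClosure]
    apply (Subgroup.closure_le _).mpr
    intro w hw
    rw [Group.mem_conjugatesOfSet_iff] at hw
    obtain ⟨b, hb, hbw⟩ := hw
    rw [Set.mem_singleton_iff] at hb
    rw [hb, isConj_iff] at hbw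
    obtain ⟨g, hg⟩ := hbw
    rw [← hg]; exact hconj g
  have hpg : IsPGroup p (Subgroup.normalClosure ({x} : Set G)) := P.2.to_le hle
  exact Cfsg.Agent.Lib.Helper4.le_pCore Subgroup.normalClosure_normal hpg
    (Subgroup.subset_normalClosure (Set.mem_singleton x))

/-- centralizer of a product of commuting elements of coprime order -/
theorem centralizer_mul_le (x y : G) (hxy : Commute x y) (hcop : (orderOf x).Coprime (orderOf y)) :
    centralizer ({x * y} : Set G) ≤ centralizer ({x} : Set G) ⊓ centralizer ({y} : Set G) := by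
  intro z hz
  have hz' : (x * y) * z = z * (x * y) := Subgroup.mem_centralizer_iff.mp hz _ (Set.mem_singleton _)
  have hzc : Commute (x * y) z := hz'
  have h1 : ∀ n : ℕ, Commute ((x * y) ^ n) z := fun n => hzc.pow_left n
  rw [Subgroup.mem_inf]
  constructor
  · obtain ⟨m, hm⟩ := exists_pow_eq_self_of_coprime (x := x) (n := orderOf y) hcop.symm
    have h2 := h1 (orderOf y)
    rw [hxy.mul_pow, pow_orderOf_eq_one, mul_one] at h2
    have h3 : Commute x z := by rw [← hm]; exact h2.pow_left m
    rw [Subgroup.mem_centralizer_iff]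
    intro w hw
    rw [Set.mem_singleton_iff] at hw
    rw [hw]; exact h3.eq
  · obtain ⟨m, hm⟩ := exists_pow_eq_self_of_coprime (x := y) (n := orderOf x) hcop
    have h2 := h1 (orderOf x)
    rw [hxy.mul_pow, pow_orderOf_eq_one, one_mul] at h2
    have h3 : Commute y z := by rw [← hm]; exact h2.pow_left m
    rw [Subgroup.mem_centralizer_iff]
    intro w hw
    rw [Set.mem_singleton_iff] at hw
    rw [hw]; exact h3.eq

variable (a : ℕ) (hmax : ∀ y : G, ¬ p ^ (a + 1) ∣ (Subgroup.centralizer ({y} : Set G)).index)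
  (x : G) (hxo : ∃ k : ℕ, orderOf x = p ^ k) (hx : (centralizer ({x} : Set G)).index = p ^ a)

include hmax hxo hx in
theorem step_a (y : G) (hxy : Commute x y) (hy : (orderOf y).Coprime p) :
    ¬ p ∣ (centralizer ({y} : Set G)).relIndex (centralizer ({x} : Set G)) := by
  have hp : p.Prime := Fact.out
  obtain ⟨k, hk⟩ := hxo
  intro hdvd
  have hcop : (orderOf x).Coprime (orderOf y) := by
    rw [hk]; exact (Nat.Coprime.pow_left k hy.symm)
  have h1 := centralizer_mul_le x y hxy hcop
  have h2 := Subgroup.index_dvd_of_le h1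
  have h3 := Subgroup.relIndex_mul_index
    (inf_le_left : centralizer ({x} : Set G) ⊓ centralizer ({y} : Set G) ≤ centralizer ({x} : Set G))
  rw [Subgroup.inf_relIndex_left, hx] at h3
  apply hmax (x * y)
  refine dvd_trans ?_ h2
  rw [← h3, pow_succ, mul_comm]
  exact Nat.mul_dvd_mul_right hdvd _

include hmax hxo hx in
theorem step_b (y : G) (hxy : Commute x y) (hy : (orderOf y).Coprime p) :
    ∀ e ∈ Cfsg.pCore p G, y * e * y⁻¹ = e := by
  have hp : p.Prime := Fact.out
  haveI hRn := Cfsg.Agent.Lib.Helper4.pCore_normal p G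
  have hRp := Cfsg.Agent.Lib.Helper4.pCore_isPGroup p G
  set R := Cfsg.pCore p G with hR
  set T := R ⊓ centralizer ({x} : Set G) with hT
  have hTle : T ≤ centralizer ({x} : Set G) := inf_le_right
  have hTn : centralizer ({x} : Set G) ≤ normalizer (T : Set G) := by
    intro h hh
    have key : ∀ h ∈ centralizer ({x} : Set G), ∀ t ∈ T, h * t * h⁻¹ ∈ T := by
      intro h hh t ht
      rw [hT, Subgroup.mem_inf] at ht ⊢
      exact ⟨hRn.conj_mem t ht.1 h, Subgroup.mul_mem _ (Subgroup.mul_mem _ hh ht.2) (Subgroup.inv_mem _ hh)⟩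
    rw [mem_normalizer_iff]
    intro t
    constructor
    · exact key h hh t
    · intro ht
      have := key h⁻¹ (Subgroup.inv_mem _ hh) _ ht
      have e : h⁻¹ * (h * t * h⁻¹) * h⁻¹⁻¹ = t := by group
      rwa [e] at this
  have h1 := Cfsg.Agent.Lib.Helper6.relIndex_dvd_of_normal_in (centralizer ({y} : Set G)) T
    (centralizer ({x} : Set G)) hTle hTn
  have h2 := step_a p a hmax x hxo hx y hxy hy
  have hTp : IsPGroup p T := hRp.to_le inf_le_left
  obtain ⟨j, hj⟩ := IsPGroup.iff_card.mp hTp
  have h3 : (centralizer ({y} : Set G)).relIndex T ∣ p ^ j := by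
    rw [← hj]; exact Subgroup.relIndex_dvd_card _ _
  obtain ⟨i, -, hi⟩ := (Nat.dvd_prime_pow hp).mp h3
  have h4 : (centralizer ({y} : Set G)).relIndex T = 1 := by
    rcases Nat.eq_zero_or_pos i with h0 | hpos
    · rw [hi, h0, pow_zero]
    · exfalso
      apply h2
      refine dvd_trans ?_ h1
      rw [hi]; exact dvd_pow_self p (by omega)
  have h5 : T ≤ centralizer ({y} : Set G) := Subgroup.relIndex_eq_one.mp h4
  obtain ⟨k, hk⟩ := hxo
  have hB : IsPGroup p (zpowers x) := by
    apply IsPGroup.of_card (n := k)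
    rw [Nat.card_zpowers, hk]
  apply Cfsg.Agent.Lib.Helper5.thompson_AB5 R (zpowers x) hRp hB
  · rw [Subgroup.normalizer_eq_top]; exact le_top
  · rw [Subgroup.normalizer_eq_top]; trivial
  · intro b hb
    obtain ⟨n, rfl⟩ := Subgroup.mem_zpowers_iff.mp hb
    exact ((hxy.zpow_left n).eq).symm
  · exact hy
  · intro e he hfix
    have h6 : e ∈ T := by
      rw [hT, Subgroup.mem_inf]
      refine ⟨he, ?_⟩
      rw [Subgroup.mem_centralizer_iff]
      intro w hw
      rw [Set.mem_singleton_iff] at hw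
      rw [hw]; exact hfix x (Subgroup.mem_zpowers x)
    have h7 := Subgroup.mem_centralizer_iff.mp (h5 h6) y (Set.mem_singleton y)
    rw [h7]; group

include hmax hxo hx in
/-- every `p'`-element centralizes `O_p(G)` -/
theorem step_c (y : G) (hy : (orderOf y).Coprime p) :
    y ∈ centralizer ((Cfsg.pCore p G : Subgroup G) : Set G) := by
  have hp : p.Prime := Fact.out
  haveI hRn := Cfsg.Agent.Lib.Helper4.pCore_normal p G
  set D := centralizer ((Cfsg.pCore p G : Subgroup G) : Set G) with hD
  haveI hDn : D.Normal := Subgroup.normal_centralizer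
  have hq : ∀ q : ℕ, q.Prime → q ≠ p → ¬ q ∣ D.index := by
    intro q hqp hqne
    haveI : Fact q.Prime := ⟨hqp⟩
    obtain ⟨Q⟩ : Nonempty (Sylow q G) := inferInstance
    have h1 : ¬ q ∣ (centralizer ({x} : Set G)).index := by
      rw [hx]
      intro h
      exact hqne ((Nat.prime_dvd_prime_iff_eq hqp hp).mp (hqp.dvd_of_dvd_pow h))
    obtain ⟨g, hg⟩ := Cfsg.Agent.S4160.exists_conj_le q Q _ h1
    have hQD : (Q : Subgroup G) ≤ D := by
      intro u hu
      have h2 := hg u hu
      have h3 : Commute x (g⁻¹ * u * g) := Subgroup.mem_centralizer_iff.mp h2 x (Set.mem_singleton x)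
      have h4 : (orderOf (g⁻¹ * u * g)).Coprime p := by
        have h5 : orderOf (g⁻¹ * u * g) = orderOf u := by
          have := orderOf_conj_eq g⁻¹ u
          rwa [inv_inv] at this
        rw [h5]
        obtain ⟨k, hk⟩ := orderOf_of_mem_sylow Q u hu
        rw [hk]
        exact Nat.Coprime.pow_left k ((Nat.coprime_primes hqp hp).mpr hqne)
      have h6 := step_b p a hmax x hxo hx _ h3 h4
      have h7 : g⁻¹ * u * g ∈ D := by
        rw [hD, Subgroup.mem_centralizer_iff]
        intro e he
        have := h6 e he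
        have e2 : g⁻¹ * u * g * e = (g⁻¹ * u * g * e * (g⁻¹ * u * g)⁻¹) * (g⁻¹ * u * g) := by group
        rw [e2, this]
      have h8 := hDn.conj_mem _ h7 g
      have e3 : g * (g⁻¹ * u * g) * g⁻¹ = u := by group
      rwa [e3] at h8
    have h9 := Subgroup.index_dvd_of_le hQD
    intro h10
    exact Q.not_dvd_index (dvd_trans h10 h9)
  have hcop : (D.index).Coprime (orderOf y) := by
    by_contra hcon
    obtain ⟨r, hr, hr1, hr2⟩ := Nat.Prime.not_coprime_iff_dvd.mp hcon
    by_cases hrp : r = p
    · rw [hrp] at hr2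
      have := Nat.Coprime.eq_one_of_dvd hy.symm hr2
      exact hp.one_lt.ne' this
    · exact hq r hr hrp hr1
  obtain ⟨m, hm⟩ := exists_pow_eq_self_of_coprime (x := y) (n := D.index) hcop
  rw [← hm]
  exact Subgroup.pow_mem _ (Subgroup.pow_index_mem D y) m

end main

theorem result {G : Type*} [Group G] [Finite G] (p : ℕ) [Fact p.Prime]
    (a : ℕ) (hmax : ∀ y : G, ¬ p ^ (a + 1) ∣ (Subgroup.centralizer ({y} : Set G)).index)
    (hx : ∃ x : G, (∃ k : ℕ, orderOf x = p ^ k) ∧ (Subgroup.centralizer ({x} : Set G)).index = p ^ a) :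
    Cfsg.HasNormalPComplement p G := by
  obtain ⟨x, hxo, hx⟩ := hx
  have hp : p.Prime := Fact.out
  have hxR := mem_pCore p a x hxo hx
  set Hx := centralizer ({x} : Set G) with hHx
  -- all p'-elements lie in Hx
  have hall : ∀ y : G, (orderOf y).Coprime p → y ∈ Hx := by
    intro y hy
    have h1 := step_c p a hmax x hxo hx y hy
    rw [hHx, Subgroup.mem_centralizer_iff]
    intro w hw
    rw [Set.mem_singleton_iff] at hw
    rw [hw]
    exact Subgroup.mem_centralizer_iff.mp h1 x hxR
  -- Camina's lemma in Hx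
  have hyp : ∀ y : Hx, (orderOf y).Coprime p → ¬ p ∣ (centralizer ({y} : Set Hx)).index := by
    intro y hy
    have h1 : (centralizer ({y} : Set Hx)) = (centralizer ({(y : G)} : Set G)).subgroupOf Hx := by
      ext z
      rw [Subgroup.mem_subgroupOf, Subgroup.mem_centralizer_iff, Subgroup.mem_centralizer_iff]
      constructor
      · intro h w hw
        rw [Set.mem_singleton_iff] at hw
        rw [hw]
        have := h y (Set.mem_singleton y)
        exact congrArg Subtype.val this
      · intro h w hw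
        rw [Set.mem_singleton_iff] at hw
        rw [hw]
        exact Subtype.ext (h (y : G) (Set.mem_singleton _))
    rw [h1]
    have hy' : (orderOf (y : G)).Coprime p := by rwa [Subgroup.orderOf_coe]
    have hxy : Commute x (y : G) := Subgroup.mem_centralizer_iff.mp y.2 x (Set.mem_singleton x)
    exact step_a p a hmax x hxo hx (y : G) hxy hy'
  obtain ⟨S⟩ : Nonempty (Sylow p Hx) := inferInstance
  obtain ⟨N, hNn, hNc⟩ := camina p hyp S
  apply Cfsg.Agent.Lib.Helper3.hasNormalPComplement_of_subgroup (N.map Hx.subtype)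
  · have h1 : Nat.card (N.map Hx.subtype) = Nat.card N :=
      Nat.card_congr (N.equivMapOfInjective Hx.subtype Hx.subtype_injective).symm.toEquiv
    rw [h1]
    have h2 : (S : Subgroup Hx).index = Nat.card N := hNc.index_eq_card
    rw [← h2]
    exact (Nat.Prime.coprime_iff_not_dvd hp).mpr S.not_dvd_index |>.symm
  · intro g hg
    have hgH := hall g hg
    have hg' : (orderOf (⟨g, hgH⟩ : Hx)).Coprime p := by rwa [Subgroup.orderOf_mk]
    have := Cfsg.Agent.Lib.Lead.mem_of_coprime_of_complement (S : Subgroup Hx) N S.2 hNc ⟨g, hgH⟩ hg'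
    exact ⟨⟨g, hgH⟩, this, rfl⟩

end Cfsg.Agent.S4127
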