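import Cfsg.Statements.S4142
import Mathlib

set_option autoImplicit false
open Cfsg

namespace Cfsg.Agent.S4142

theorem card_comap_mk {G : Type*} [Group G] [Finite G] (N : Subgroup G) [N.Normal]
    (K : Subgroup (G ⧸ N)) :
    Nat.card (K.comap (QuotientGroup.mk' N)) = Nat.card K * Nat.card N := by
  have h1 : (K.comap (QuotientGroup.mk' N)).index = K.index :=
    Subgroup.index_comap_of_surjective K (QuotientGroup.mk'_surjective N)
  have h2 := Subgroup.card_mul_index (K.comap (QuotientGroup.mk' N))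
  have h3 := Subgroup.card_mul_index K
  have h4 := Subgroup.card_eq_card_quotient_mul_card_subgroup N
  have h5 : K.index ≠ 0 := Subgroup.index_ne_zero_of_finite
  rw [h1] at h2
  have h6 : Nat.card (K.comap (QuotientGroup.mk' N)) * K.index = (Nat.card K * Nat.card N) * K.index := by
    rw [h2, h4, ← h3]; ring
  exact Nat.eq_of_mul_eq_mul_right (Nat.pos_of_ne_zero h5) h6

theorem key {G : Type*} [Group G] [Finite G] (N : Subgroup G) [N.Normal] (g : G) :
    Nat.card {n : N // ∃ x : G, x * g * x⁻¹ = g * n} * Nat.card (Subgroup.centralizer ({g} : Set G)) =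
      Nat.card (Subgroup.centralizer ({(QuotientGroup.mk g : G ⧸ N)} : Set (G ⧸ N))) * Nat.card N := by
  rw [← card_comap_mk, ← Nat.card_prod]
  have hDmem : ∀ x : G, x ∈ (Subgroup.centralizer ({(QuotientGroup.mk g : G ⧸ N)} : Set (G ⧸ N))).comap (QuotientGroup.mk' N)
      ↔ g⁻¹ * (x * g * x⁻¹) ∈ N := by
    intro x
    rw [Subgroup.mem_comap, Subgroup.mem_centralizer_singleton_iff, QuotientGroup.mk'_apply,
      ← QuotientGroup.mk_mul, ← QuotientGroup.mk_mul, eq_comm, QuotientGroup.eq]
    have h1 : (g * x)⁻¹ * (x * g) = x⁻¹ * (g⁻¹ * x * g) := by group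
    have h2 : g⁻¹ * (x * g * x⁻¹) = (g⁻¹ * x * g) * x⁻¹ := by group
    rw [h1, h2]
    exact Subgroup.Normal.mem_comm_iff inferInstance
  choose r hr using fun n : {n : N // ∃ x : G, x * g * x⁻¹ = g * n} => n.2
  have hconj : ∀ (n : {n : N // ∃ x : G, x * g * x⁻¹ = g * n}) (c : Subgroup.centralizer ({g} : Set G)),
      (r n * (c : G)) * g * (r n * (c : G))⁻¹ = g * (n : N) := by
    intro n c
    have hc : (c : G) * g = g * (c : G) := Subgroup.mem_centralizer_singleton_iff.mp c.2
    have hc' : (c : G) * g * (c : G)⁻¹ = g := by rw [hc, mul_inv_cancel_right]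
    have : (r n * (c : G)) * g * (r n * (c : G))⁻¹ = r n * ((c : G) * g * (c : G)⁻¹) * (r n)⁻¹ := by group
    rw [this, hc', hr]
  let f : {n : N // ∃ x : G, x * g * x⁻¹ = g * n} × Subgroup.centralizer ({g} : Set G) →
      (Subgroup.centralizer ({(QuotientGroup.mk g : G ⧸ N)} : Set (G ⧸ N))).comap (QuotientGroup.mk' N) :=
    fun nc => ⟨r nc.1 * (nc.2 : G), by
      rw [hDmem, hconj, inv_mul_cancel_left]
      exact (nc.1 : N).2⟩
  apply Nat.card_eq_of_bijective f
  constructor
  · rintro ⟨n, c⟩ ⟨m, c'⟩ h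
    have h1 : r n * (c : G) = r m * (c' : G) := congrArg Subtype.val h
    have h2 : g * ((n : N) : G) = g * ((m : N) : G) := by
      rw [← hconj n c, ← hconj m c', h1]
    have h3 : n = m := Subtype.ext (Subtype.ext (mul_left_cancel h2))
    subst h3
    have h4 : c = c' := Subtype.ext (mul_left_cancel h1)
    rw [h4]
  · rintro ⟨x, hx⟩
    have hxN := (hDmem x).mp hx
    let n : {n : N // ∃ x : G, x * g * x⁻¹ = g * n} :=
      ⟨⟨g⁻¹ * (x * g * x⁻¹), hxN⟩, ⟨x, by simp [mul_assoc]⟩⟩
    have hn : r n * g * (r n)⁻¹ = x * g * x⁻¹ := by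
      rw [hr n]
      show g * (g⁻¹ * (x * g * x⁻¹)) = x * g * x⁻¹
      rw [mul_inv_cancel_left]
    have hc : (r n)⁻¹ * x ∈ Subgroup.centralizer ({g} : Set G) := by
      rw [Subgroup.mem_centralizer_singleton_iff]
      have h1 : g = (r n)⁻¹ * (r n * g * (r n)⁻¹) * r n := by group
      have h2 : (r n)⁻¹ * x * g = (r n)⁻¹ * (x * g * x⁻¹) * x := by group
      rw [h2, ← hn]
      group
    refine ⟨(n, ⟨(r n)⁻¹ * x, hc⟩), ?_⟩
    apply Subtype.ext
    show r n * ((r n)⁻¹ * x) = x
    rw [mul_inv_cancel_left]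

/-- Let G be a finite group and N a normal subgroup. Then the conjugacy class of every element g outside N is a union of cosets of N (gn is conjugate to g for all n ∈ N) if and only if for every g outside N the centralizer of g in G has the same order as the centralizer of gN in G/N. -/
theorem result {G : Type*} [Group G] [Finite G] (N : Subgroup G) [N.Normal] :
    (∀ g : G, g ∉ N → ∀ n ∈ N, ∃ x : G, x * g * x⁻¹ = g * n) ↔
      ∀ g : G, g ∉ N → Nat.card (Subgroup.centralizer ({g} : Set G)) =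
        Nat.card (Subgroup.centralizer ({(QuotientGroup.mk g : G ⧸ N)} : Set (G ⧸ N))) := by
  constructor
  · intro h g hg
    have hk := key N g
    have h1 : Nat.card {n : N // ∃ x : G, x * g * x⁻¹ = g * n} = Nat.card N :=
      Nat.card_congr (Equiv.subtypeUnivEquiv (fun n => h g hg n n.2))
    rw [h1, mul_comm] at hk
    exact Nat.eq_of_mul_eq_mul_right Nat.card_pos hk
  · intro h g hg n hn
    have hk := key N g
    rw [← h g hg, mul_comm] at hk
    have h1 : Nat.card {n : N // ∃ x : G, x * g * x⁻¹ = g * n} = Nat.card N :=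
      Nat.eq_of_mul_eq_mul_left Nat.card_pos hk
    have hinj : Function.Injective (fun s : {n : N // ∃ x : G, x * g * x⁻¹ = g * n} => (s : N)) :=
      Subtype.val_injective
    have hbij := hinj.bijective_of_nat_card_le (le_of_eq h1.symm)
    obtain ⟨s, hs⟩ := hbij.2 ⟨n, hn⟩
    obtain ⟨x, hx⟩ := s.2
    refine ⟨x, ?_⟩
    rw [hx]
    have := congrArg Subtype.val hs
    simp only at this
    rw [this]

end Cfsg.Agent.S4142
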