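import Mathlib
import Cfsg.Statements.S4145
import Cfsg.Agent.Lib.Helper7.CyclicSylow2
import Cfsg.Agent.Lib.Helper3.PComplement

set_option autoImplicit false
open Cfsg

namespace Cfsg.Agent.S4145

open Cfsg.Agent.Lib.Helper7
open Subgroup

/-- elements acting trivially on `H` modulo `T₂` -/
def centMod {G : Type*} [Group G] (H T₂ : Subgroup G) [hT : T₂.Normal] : Subgroup G :=
  { carrier := {g | ∀ h ∈ H, g * h * g⁻¹ * h⁻¹ ∈ T₂}
    mul_mem' := by
      intro a b ha hb h hh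
      have e : a * b * h * (a * b)⁻¹ * h⁻¹
          = a * (b * h * b⁻¹ * h⁻¹) * a⁻¹ * (a * h * a⁻¹ * h⁻¹) := by group
      rw [e]
      exact T₂.mul_mem (hT.conj_mem _ (hb h hh) a) (ha h hh)
    one_mem' := by
      intro h hh
      have e : (1 : G) * h * 1⁻¹ * h⁻¹ = 1 := by group
      rw [e]; exact T₂.one_mem
    inv_mem' := by
      intro a ha h hh
      have e : a⁻¹ * h * a⁻¹⁻¹ * h⁻¹ = a⁻¹ * (a * h * a⁻¹ * h⁻¹)⁻¹ * a⁻¹⁻¹ := by group
      rw [e]
      exact hT.conj_mem _ (T₂.inv_mem (ha h hh)) a⁻¹ }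

lemma mem_centMod {G : Type*} [Group G] (H T₂ : Subgroup G) [T₂.Normal] (g : G) :
    g ∈ centMod H T₂ ↔ ∀ h ∈ H, g * h * g⁻¹ * h⁻¹ ∈ T₂ := Iff.rfl

instance centMod_normal {G : Type*} [Group G] (H T₂ : Subgroup G) [hT : T₂.Normal]
    [hH : H.Normal] : (centMod H T₂).Normal := by
  constructor
  intro c hc x
  rw [mem_centMod] at hc ⊢
  intro h hh
  have e : x * c * x⁻¹ * h * (x * c * x⁻¹)⁻¹ * h⁻¹
      = x * (c * (x⁻¹ * h * x⁻¹⁻¹) * c⁻¹ * (x⁻¹ * h * x⁻¹⁻¹)⁻¹) * x⁻¹ := by group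
  rw [e]
  exact hT.conj_mem _ (hc _ (hH.conj_mem h hh x⁻¹)) x

lemma exists_ne_one_mem_inf {G : Type*} [Group G] [Finite G] (p : ℕ) [Fact p.Prime]
    (P : Sylow p G) (H : Subgroup G) [hH : H.Normal] (h1 : p ∣ Nat.card H) :
    ∃ u ∈ (P : Subgroup G), u ∈ H ∧ u ≠ 1 := by
  have hp : p.Prime := Fact.out
  obtain ⟨y, hy⟩ := exists_prime_orderOf_dvd_card' p h1
  have hy' : orderOf (y : G) = p := by rw [Subgroup.orderOf_coe]; exact hy
  obtain ⟨Q, hQ⟩ := exists_mem_sylow_of_orderOf (y : G) ⟨1, by rw [hy', pow_one]⟩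
  obtain ⟨g, hg⟩ := MulAction.exists_smul_eq G Q P
  refine ⟨g * (y : G) * g⁻¹, ?_, hH.conj_mem _ y.2 g, ?_⟩
  · have : g * (y : G) * g⁻¹ ∈ P := by
      rw [← hg, mem_sylow_smul_iff]
      have e : g⁻¹ * (g * (y : G) * g⁻¹) * g = (y : G) := by group
      rw [e]; exact hQ
    exact this
  · intro h
    have h2 : orderOf (g * (y : G) * g⁻¹) = p := by rw [orderOf_conj_eq]; exact hy'
    rw [h, orderOf_one] at h2
    exact hp.one_lt.ne h2

/-- Let G be a finite group with a cyclic Sylow p-subgroup and H a normal subgroup such that p divides both the order of H and the index of H. Then H has a normal p-complement and G is p-solvable. -/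
theorem result {G : Type*} [Group G] [Finite G] (p : ℕ) [Fact p.Prime]
    (P : Sylow p G) (hP : IsCyclic (P : Subgroup G)) (H : Subgroup G) [H.Normal] (h1 : p ∣ Nat.card H) (h2 : p ∣ H.index) :
    Cfsg.HasNormalPComplement p H ∧ Cfsg.IsPSolvable p G := by
  have hp : p.Prime := Fact.out
  have hHn : H.Normal := inferInstance
  have hcommP : ∀ x ∈ (P : Subgroup G), ∀ y ∈ (P : Subgroup G), x * y = y * x := by
    intro x hx y hy
    have hc : IsMulCommutative (P : Subgroup G) := IsCyclic.isMulCommutative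
    have := hc.is_comm.comm (⟨x, hx⟩ : (P : Subgroup G)) ⟨y, hy⟩
    exact congrArg Subtype.val this
  have hPX : (P : Subgroup G) ≤ H ⊔ (P : Subgroup G) := le_sup_right
  have hcondX : ∀ g ∈ H ⊔ (P : Subgroup G), ∀ t ∈ (P : Subgroup G), ∀ k : ℤ,
      zpowers t = (P : Subgroup G) → g * t * g⁻¹ = t ^ k → t ∉ zpowers (t ^ (k - 1)) := by
    intro g hg t ht k hz hk hmem
    obtain ⟨h, hh, u, hu, rfl⟩ := mem_sup_of_normal_left.mp hg
    have e1 : t ^ (k - 1) = h * (t * h⁻¹ * t⁻¹) := by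
      rw [zpow_sub, zpow_one, ← hk]
      have hut := hcommP u hu t ht
      calc h * u * t * (h * u)⁻¹ * t⁻¹ = h * (u * t) * u⁻¹ * h⁻¹ * t⁻¹ := by group
        _ = h * (t * u) * u⁻¹ * h⁻¹ * t⁻¹ := by rw [hut]
        _ = h * (t * h⁻¹ * t⁻¹) := by group
    have e2 : t ^ (k - 1) ∈ H := by
      rw [e1]; exact H.mul_mem hh (hHn.conj_mem _ (H.inv_mem hh) t)
    have e3 : t ∈ H := (zpowers_le.mpr e2) hmem
    have e4 : (P : Subgroup G) ≤ H := by rw [← hz, zpowers_le]; exact e3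
    exact P.not_dvd_index (h2.trans (index_dvd_of_le e4))
  obtain ⟨T, hTX, hTn, hTcop, hTcomm, hTp', hTrel, hTdisj⟩ :=
    burnside_cyclic_sub P hP (H ⊔ (P : Subgroup G)) hPX hcondX
  constructor
  · apply Cfsg.Agent.Lib.Helper3.hasNormalPComplement_of_subgroup (T.subgroupOf H)
    · have hdvd : Nat.card (T.subgroupOf H) ∣ Nat.card T := by
        rw [← Subgroup.inf_subgroupOf_right,
          Nat.card_congr (Subgroup.subgroupOfEquivOfLe (inf_le_right : T ⊓ H ≤ H)).toEquiv]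
        exact Subgroup.card_dvd_of_le inf_le_left
      exact Nat.Coprime.coprime_dvd_left hdvd hTcop
    · intro g hg
      rw [mem_subgroupOf]
      apply hTp' _ (le_sup_left (a := H) g.2)
      rw [Subgroup.orderOf_coe]; exact hg
  · haveI hT2n : (T ⊓ H).Normal := by
      constructor
      intro y hy g
      have hyH : g * y * g⁻¹ ∈ H := hHn.conj_mem y hy.2 g
      refine ⟨?_, hyH⟩
      apply hTp' _ (le_sup_left (a := H) hyH)
      rw [orderOf_conj_eq]
      exact Nat.Coprime.coprime_dvd_left (Subgroup.orderOf_dvd_natCard _ hy.1) hTcop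
    have hPCs : (P : Subgroup G) ≤ centMod H (T ⊓ H) := by
      intro x hx
      rw [mem_centMod]
      intro h hh
      refine ⟨hTcomm x (hPX hx) h (le_sup_left (a := H) hh), ?_⟩
      exact H.mul_mem (hHn.conj_mem h hh x) (H.inv_mem hh)
    have hcondC : ∀ g ∈ centMod H (T ⊓ H), ∀ t ∈ (P : Subgroup G), ∀ k : ℤ,
        zpowers t = (P : Subgroup G) → g * t * g⁻¹ = t ^ k → t ∉ zpowers (t ^ (k - 1)) := by
      intro g hg t ht k hz hk hmem
      obtain ⟨i, hi⟩ := mem_zpowers_iff.mp hmem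
      obtain ⟨u, huP, huH, hu1⟩ := exists_ne_one_mem_inf p P H h1
      have huz : u ∈ zpowers t := by rw [hz]; exact huP
      obtain ⟨j, rfl⟩ := mem_zpowers_iff.mp huz
      have e1 : g * t ^ j * g⁻¹ * (t ^ j)⁻¹ = t ^ ((k - 1) * j) := by
        rw [← conj_zpow, hk, ← zpow_mul, ← zpow_neg, ← zpow_add]
        congr 1; ring
      have e2 : t ^ ((k - 1) * j) ∈ T := by
        rw [← e1]; exact ((mem_centMod H (T ⊓ H) g).mp hg _ huH).1
      have e3 : t ^ ((k - 1) * j) ∈ (P : Subgroup G) := zpow_mem ht _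
      have e4 : t ^ ((k - 1) * j) = 1 := hTdisj _ e2 e3
      apply hu1
      calc t ^ j = ((t ^ (k - 1)) ^ i) ^ j := by rw [hi]
        _ = (t ^ ((k - 1) * j)) ^ i := by
            rw [← zpow_mul, ← zpow_mul, ← zpow_mul]; congr 1; ring
        _ = 1 := by rw [e4, one_zpow]
    obtain ⟨U, hUC, hUn, hUcop, hUcomm, hUp', hUrel, hUdisj⟩ :=
      burnside_cyclic_sub P hP (centMod H (T ⊓ H)) hPCs hcondC
    haveI hUnorm : U.Normal := by
      constructor
      intro y hy g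
      have h3 : g * y * g⁻¹ ∈ centMod H (T ⊓ H) :=
        (centMod_normal H (T ⊓ H)).conj_mem y (hUC hy) g
      apply hUp' _ h3
      rw [orderOf_conj_eq]
      exact Nat.Coprime.coprime_dvd_left (Subgroup.orderOf_dvd_natCard _ hy) hUcop
    obtain ⟨e, he⟩ := IsPGroup.iff_card.mp P.2
    apply isPSolvable_of_three p U (centMod H (T ⊓ H)) hUC hUcop ⟨e, by rw [hUrel]; exact he⟩
    apply Nat.Coprime.coprime_dvd_left (index_dvd_of_le hPCs)
    exact ((Nat.Prime.coprime_iff_not_dvd hp).mpr P.not_dvd_index).symm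

end Cfsg.Agent.S4145
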