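import Cfsg.Statements.S4154
import Mathlib

set_option autoImplicit false
open Cfsg

namespace Cfsg.Agent.S4154

/-- Let G be a finite group and α an automorphism of G such that every element of G is the product of an element fixed by α and an element of the form g⁻¹α(g). If N is a normal α-invariant subgroup, then the automorphism ᾱ induced on G/N has the same property, and every coset fixed by ᾱ contains an element fixed by α (so the fixed points of ᾱ are the images of the fixed points of α). -/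
theorem result {G : Type*} [Group G] [Finite G] (α : MulAut G)
    (hccp : ∀ x : G, ∃ c g : G, α c = c ∧ x = c * (g⁻¹ * α g))
    (N : Subgroup G) [N.Normal] (hN : ∀ n ∈ N, α n ∈ N) :
    (∀ x : G, ∃ c g : G, c⁻¹ * α c ∈ N ∧ x⁻¹ * (c * (g⁻¹ * α g)) ∈ N) ∧
    (∀ x : G, x⁻¹ * α x ∈ N → ∃ c : G, α c = c ∧ c⁻¹ * x ∈ N) := by
  refine ⟨?_, ?_⟩
  · intro x
    obtain ⟨c, g, hc, hx⟩ := hccp x
    refine ⟨c, g, ?_, ?_⟩
    · rw [hc, inv_mul_cancel]; exact N.one_mem
    · rw [← hx, inv_mul_cancel]; exact N.one_mem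
  · have hN' : N ≤ N.comap (α : G →* G) := fun n hn => hN n hn
    let β : (G ⧸ N) →* (G ⧸ N) := QuotientGroup.map N N (α : G →* G) hN'
    have hβ : ∀ x : G, β (x : G ⧸ N) = ((α x : G) : G ⧸ N) := fun x => rfl
    let F : Set (G ⧸ N) := {y | β y = y}
    let I : Set (G ⧸ N) := Set.range (fun y : G ⧸ N => y⁻¹ * β y)
    let PC : Set (G ⧸ N) := {y | ∃ c : G, α c = c ∧ y = (c : G ⧸ N)}
    have hPCF : PC ⊆ F := by
      rintro y ⟨c, hc, rfl⟩
      show β c = c
      rw [hβ, hc]
    have hA : Nat.card F * Nat.card I ≤ Nat.card (G ⧸ N) := by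
      have hex : ∀ i : I, ∃ y : G ⧸ N, y⁻¹ * β y = i := fun i => i.2
      choose s hs using hex
      let f : F × I → G ⧸ N := fun p => (p.1 : G ⧸ N) * s p.2
      have hkey : ∀ p : F × I, (f p)⁻¹ * β (f p) = (p.2 : G ⧸ N) := by
        rintro ⟨f1, i1⟩
        have hf1 : β (f1 : G ⧸ N) = f1 := f1.2
        show ((f1 : G ⧸ N) * s i1)⁻¹ * β ((f1 : G ⧸ N) * s i1) = i1
        rw [map_mul, hf1, ← hs i1]
        group
      have hf : Function.Injective f := by
        intro p1 p2 h
        have h1 := hkey p1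
        have h2 := hkey p2
        rw [h] at h1
        have h3 : p1.2 = p2.2 := Subtype.ext (h1.symm.trans h2)
        have h4 : (p1.1 : G ⧸ N) * s p1.2 = (p2.1 : G ⧸ N) * s p2.2 := h
        rw [h3] at h4
        have h5 : p1.1 = p2.1 := Subtype.ext (mul_right_cancel h4)
        exact Prod.ext h5 h3
      calc Nat.card F * Nat.card I = Nat.card (F × I) := (Nat.card_prod _ _).symm
        _ ≤ Nat.card (G ⧸ N) := Nat.card_le_card_of_injective f hf
    have hB : Nat.card (G ⧸ N) ≤ Nat.card PC * Nat.card I := by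
      let f : PC × I → G ⧸ N := fun p => (p.1 : G ⧸ N) * (p.2 : G ⧸ N)
      have hf : Function.Surjective f := by
        intro y
        obtain ⟨x, rfl⟩ := QuotientGroup.mk_surjective y
        obtain ⟨c, g, hc, hx⟩ := hccp x
        refine ⟨(⟨(c : G ⧸ N), c, hc, rfl⟩, ⟨(g : G ⧸ N)⁻¹ * β g, (g : G ⧸ N), rfl⟩), ?_⟩
        show (c : G ⧸ N) * ((g : G ⧸ N)⁻¹ * β g) = ((x : G) : G ⧸ N)
        rw [hβ, hx]
        rfl
      calc Nat.card (G ⧸ N) ≤ Nat.card (PC × I) := Nat.card_le_card_of_surjective f hf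
        _ = Nat.card PC * Nat.card I := Nat.card_prod _ _
    have hIne : Nonempty I := ⟨⟨(1 : G ⧸ N)⁻¹ * β 1, 1, rfl⟩⟩
    have hI : 0 < Nat.card I := Nat.card_pos
    have hle : Nat.card F ≤ Nat.card PC := Nat.le_of_mul_le_mul_right (hA.trans hB) hI
    have heq : PC = F := by
      apply Set.eq_of_subset_of_ncard_le hPCF _ (Set.toFinite F)
      rw [← Nat.card_coe_set_eq, ← Nat.card_coe_set_eq]
      exact hle
    intro x hx
    have hxF : (x : G ⧸ N) ∈ F := by
      show β x = x
      rw [hβ, QuotientGroup.eq]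
      have := N.inv_mem hx
      simpa using this
    rw [← heq] at hxF
    obtain ⟨c, hc, hxc⟩ := hxF
    exact ⟨c, hc, QuotientGroup.eq.mp hxc.symm⟩

end Cfsg.Agent.S4154
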