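import Cfsg.Statements.S4156
import Mathlib

set_option autoImplicit false
open Cfsg

namespace Cfsg.Agent.S4156

/-- matrix of a permutation of `Fin (n+1)` on the basis `e_{i+1} - e_0` of the sum-zero hyperplane -/
def permMat (n : ℕ) (F : Type*) [Field F] (σ : Equiv.Perm (Fin (n + 1))) :
    Matrix (Fin n) (Fin n) F :=
  fun k i => (if σ i.succ = k.succ then 1 else 0) - (if σ 0 = k.succ then 1 else 0)

theorem permMat_apply (n : ℕ) (F : Type*) [Field F] (σ : Equiv.Perm (Fin (n + 1)))
    (k i : Fin n) : permMat n F σ k i =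
      (if σ i.succ = k.succ then 1 else 0) - (if σ 0 = k.succ then 1 else 0) := rfl

theorem permMat_mul (n : ℕ) (F : Type*) [Field F] (σ τ : Equiv.Perm (Fin (n + 1))) :
    permMat n F (σ * τ) = permMat n F σ * permMat n F τ := by
  ext k i
  rw [Matrix.mul_apply]
  simp only [permMat_apply]
  have key : ∀ g : Fin (n + 1) → F, g 0 = 0 → ∑ j : Fin n, g j.succ = ∑ m, g m := by
    intro g h0; rw [Fin.sum_univ_succ, h0, zero_add]
  refine Eq.trans ?_ (key (fun m => ((if σ m = k.succ then (1 : F) else 0) -
    (if σ 0 = k.succ then 1 else 0)) *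
      ((if τ i.succ = m then 1 else 0) - (if τ 0 = m then 1 else 0))) (by simp)).symm
  simp only [mul_sub, Finset.sum_sub_distrib, mul_ite, mul_one, mul_zero, Finset.sum_ite_eq,
    Finset.mem_univ, if_true, Equiv.Perm.coe_mul, Function.comp_apply]
  by_cases c1 : σ (τ i.succ) = k.succ <;> by_cases c2 : σ (τ 0) = k.succ <;>
    by_cases c3 : σ 0 = k.succ <;> simp [c1, c2, c3]

theorem permMat_one (n : ℕ) (F : Type*) [Field F] : permMat n F 1 = 1 := by
  ext k i
  rw [permMat_apply, Matrix.one_apply]
  have h0 : ¬ ((1 : Equiv.Perm (Fin (n + 1))) 0 = k.succ) := by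
    rw [Equiv.Perm.coe_one, id]; exact (Fin.succ_ne_zero k).symm
  rw [if_neg h0, sub_zero, Equiv.Perm.coe_one, id]
  by_cases h : k = i
  · rw [if_pos h, if_pos (by rw [h])]
  · rw [if_neg h, if_neg (fun h' => h (Fin.succ_injective _ h').symm)]

/-- the permutation representation on the hyperplane -/
def permHom (n : ℕ) (F : Type*) [Field F] :
    Equiv.Perm (Fin (n + 1)) →* Matrix (Fin n) (Fin n) F where
  toFun := permMat n F
  map_one' := permMat_one n F
  map_mul' := permMat_mul n F

theorem permMat_injective (n : ℕ) (hn : 2 ≤ n) (F : Type*) [Field F]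
    (σ : Equiv.Perm (Fin (n + 1))) (h : permMat n F σ = 1) : σ = 1 := by
  have hki : ∀ k i : Fin n, (if σ i.succ = k.succ then (1 : F) else 0) -
      (if σ 0 = k.succ then 1 else 0) = if k = i then 1 else 0 := by
    intro k i
    rw [← permMat_apply, h, Matrix.one_apply]
  have h0 : σ 0 = 0 := by
    by_contra hne
    obtain ⟨k, hk⟩ := Fin.exists_succ_eq_of_ne_zero hne
    obtain ⟨i, hi⟩ : ∃ i : Fin n, k ≠ i := by
      by_cases h0 : k = ⟨0, by omega⟩
      · exact ⟨⟨1, by omega⟩, by rw [h0]; intro h'; simp [Fin.ext_iff] at h'⟩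
      · exact ⟨⟨0, by omega⟩, h0⟩
    have h1 := hki k i
    rw [if_pos hk.symm, if_neg hi] at h1
    by_cases h2 : σ i.succ = k.succ
    · rw [hk] at h2
      exact Fin.succ_ne_zero i (σ.injective h2)
    · rw [if_neg h2] at h1
      norm_num at h1
  have hs : ∀ i : Fin n, σ i.succ = i.succ := by
    intro i
    have hc1 : ¬ (σ 0 = i.succ) := by rw [h0]; exact (Fin.succ_ne_zero i).symm
    have h1 := hki i i
    rw [if_neg hc1, sub_zero] at h1
    by_contra h2
    rw [if_neg h2] at h1
    simp at h1
  ext x
  rw [Equiv.Perm.coe_one, id]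
  congr 1
  refine Fin.cases ?_ (fun i => ?_) x
  · exact h0
  · exact hs i

/-- Let n ≥ 5 and F a finite field. Then the projective special linear group PSL_n(F) contains a subgroup isomorphic to the alternating group of degree n + 1. -/
theorem result (n : ℕ) (hn : 5 ≤ n) (F : Type*) [Field F] [Finite F] :
    ∃ f : alternatingGroup (Fin (n + 1)) →* Matrix.ProjectiveSpecialLinearGroup (Fin n) F, Function.Injective f := by
  have h5 : 5 ≤ Nat.card (Fin (n + 1)) := by rw [Nat.card_fin]; omega
  haveI hsimple : IsSimpleGroup (alternatingGroup (Fin (n + 1))) := alternatingGroup.isSimpleGroup h5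
  have hperf : commutator (alternatingGroup (Fin (n + 1))) = ⊤ :=
    commutator_alternatingGroup_eq_top h5
  -- determinant one
  have hdet : ∀ σ : alternatingGroup (Fin (n + 1)), (permMat n F σ.1).det = 1 := by
    intro σ
    let d : alternatingGroup (Fin (n + 1)) →* Fˣ :=
      Matrix.GeneralLinearGroup.det.comp
        ((permHom n F).toHomUnits.comp (alternatingGroup (Fin (n + 1))).subtype)
    have hker : d.ker = ⊤ := by
      refine eq_top_iff.2 ?_
      rw [← hperf]
      exact Abelianization.commutator_subset_ker d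
    have hσ : d σ = 1 := by
      have : σ ∈ d.ker := by rw [hker]; exact Subgroup.mem_top σ
      exact this
    have h1 : ((d σ : Fˣ) : F) = (permMat n F σ.1).det := by
      show ((Matrix.GeneralLinearGroup.det ((permHom n F).toHomUnits σ.1) : Fˣ) : F) = _
      rw [Matrix.GeneralLinearGroup.val_det_apply]
      rfl
    rw [← h1, hσ]; rfl
  let f₀ : alternatingGroup (Fin (n + 1)) →* Matrix.SpecialLinearGroup (Fin n) F :=
    MonoidHom.mk' (fun σ => ⟨permMat n F σ.1, hdet σ⟩) (by
      intro a b
      apply Subtype.ext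
      show permMat n F (a.1 * b.1) = permMat n F a.1 * permMat n F b.1
      exact permMat_mul n F a.1 b.1)
  have hf₀ : Function.Injective f₀ := by
    rw [injective_iff_map_eq_one]
    intro σ hσ
    have h1 : permMat n F σ.1 = 1 := congrArg Subtype.val hσ
    exact Subtype.ext (permMat_injective n (by omega) F σ.1 h1)
  refine ⟨(QuotientGroup.mk' (Subgroup.center (Matrix.SpecialLinearGroup (Fin n) F))).comp f₀, ?_⟩
  rw [← MonoidHom.ker_eq_bot_iff]
  rcases Subgroup.Normal.eq_bot_or_eq_top (MonoidHom.normal_ker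
    ((QuotientGroup.mk' (Subgroup.center (Matrix.SpecialLinearGroup (Fin n) F))).comp f₀))
    with h | h
  · exact h
  · exfalso
    have hcen : ∀ σ : alternatingGroup (Fin (n + 1)),
        f₀ σ ∈ Subgroup.center (Matrix.SpecialLinearGroup (Fin n) F) := by
      intro σ
      have : σ ∈ ((QuotientGroup.mk' (Subgroup.center
          (Matrix.SpecialLinearGroup (Fin n) F))).comp f₀).ker := by
        rw [h]; exact Subgroup.mem_top σ
      rw [MonoidHom.mem_ker, MonoidHom.comp_apply, QuotientGroup.mk'_apply,
        QuotientGroup.eq_one_iff] at this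
      exact this
    have hcomm : ∀ σ τ : alternatingGroup (Fin (n + 1)), σ * τ = τ * σ := by
      intro σ τ
      apply hf₀
      rw [map_mul, map_mul]
      exact (Subgroup.mem_center_iff.1 (hcen τ) (f₀ σ))
    have hbot : commutator (alternatingGroup (Fin (n + 1))) = ⊥ := by
      rw [eq_bot_iff, commutator_def, Subgroup.commutator_le]
      intro g₁ _ g₂ _
      rw [Subgroup.mem_bot, commutatorElement_eq_one_iff_mul_comm]
      exact hcomm g₁ g₂
    rw [hperf] at hbot
    exact top_ne_bot hbot

end Cfsg.Agent.S4156
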