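import Cfsg.Statements.S4168
import Mathlib

set_option autoImplicit false
open Cfsg

namespace Cfsg.Agent.S4168

/-- Let L be a finite quasisimple group (perfect with L/Z(L) simple). Then every prime dividing the order of the centre Z(L) also divides the order of L/Z(L). -/
theorem result {L : Type*} [Group L] [Finite L] (hL : Cfsg.IsQuasisimple L)
    (p : ℕ) (hp : p.Prime) (hdiv : p ∣ Nat.card (Subgroup.center L)) : p ∣ (Subgroup.center L).index := by
  have : Fact p.Prime := ⟨hp⟩
  obtain ⟨hperf, -⟩ := hL
  have hker : (MonoidHom.transferCenterPow L).ker = ⊤ := by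
    rw [eq_top_iff, ← hperf.commutator_eq_top, commutator_def, Subgroup.commutator_le]
    intro a _ b _
    rw [MonoidHom.mem_ker, commutatorElement_def]
    simp only [map_mul, map_inv]
    rw [mul_comm' ((MonoidHom.transferCenterPow L) a), mul_assoc, mul_assoc]
    simp
  obtain ⟨z, hz⟩ := exists_prime_orderOf_dvd_card' p hdiv
  have h1 : (z : L) ∈ (MonoidHom.transferCenterPow L).ker := by rw [hker]; trivial
  rw [MonoidHom.mem_ker] at h1
  have h2 : (z : L) ^ (Subgroup.center L).index = 1 := by
    have := congrArg (Subtype.val) h1
    simpa using this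
  have h3 : orderOf (z : L) = p := by
    rw [← hz]; exact Subgroup.orderOf_coe z
  rw [← h3]
  exact orderOf_dvd_of_pow_eq_one h2

end Cfsg.Agent.S4168
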