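import Cfsg.Statements.S4177
import Mathlib
import Cfsg.Agent.Lib.Helper7.ClassCount

set_option autoImplicit false
open Cfsg

namespace Cfsg.Agent.S4177

open Cfsg.Agent.Lib.Helper7

/-- Key lemma: if a subgroup `K` is transitive on the `H`-orbit of `a` (which spans `V`),
then every `K`-fixed vector is a multiple of the orbit sum `∑ h, ρ h a`. -/
theorem key {k V H : Type*} [Field k] [AddCommGroup V] [Module k V] [Group H] [Fintype H]
    (hchar : ¬ ringChar k ∣ Nat.card H) (ρ : Representation k H V) (a : V)
    (hspan : Submodule.span k {u : V | ∃ h : H, ρ h a = u} = ⊤)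
    (K : Subgroup H) (htr : ∀ g : H, ∃ c ∈ K, ρ g a = ρ c a)
    (w : V) (hw : ∀ c ∈ K, ρ c w = w) : ∃ t : k, t • (∑ h : H, ρ h a) = w := by
  classical
  haveI : Fintype K := Fintype.ofFinite K
  have hHne : ((Nat.card H : ℕ) : k) ≠ 0 := by
    intro h
    exact hchar ((ringChar.spec k _).mp h)
  have hKne : ((Nat.card K : ℕ) : k) ≠ 0 := by
    intro h
    exact hchar (dvd_trans ((ringChar.spec k _).mp h) (Subgroup.card_subgroup_dvd_card K))
  -- the averaging operator over K
  let E : V →ₗ[k] V := ∑ c : K, ρ (c : H)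
  have hE : ∀ v, E v = ∑ c : K, ρ (c : H) v := by
    intro v
    simp [E, LinearMap.sum_apply]
  -- (1)
  have h1 : ∀ g : H, E (ρ g a) = E a := by
    intro g
    obtain ⟨c, hc, e⟩ := htr g
    rw [e, hE, hE]
    have : ∀ c' : K, ρ (c' : H) (ρ c a) = ρ (((c' * ⟨c, hc⟩ : K) : H)) a := by
      intro c'
      rw [Subgroup.coe_mul, map_mul]
      rfl
    rw [Finset.sum_congr rfl (fun c' _ => this c')]
    exact Fintype.sum_equiv (Equiv.mulRight (⟨c, hc⟩ : K)) _ _ (fun c' => rfl)
  -- (2)
  have h2 : ∑ h : H, E (ρ h a) = (Nat.card K) • (∑ h : H, ρ h a) := by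
    have : ∀ h : H, E (ρ h a) = ∑ c : K, ρ (c : H) (ρ h a) := fun h => hE _
    rw [Finset.sum_congr rfl (fun h _ => this h), Finset.sum_comm]
    have h3 : ∀ c : K, ∑ h : H, ρ (c : H) (ρ h a) = ∑ h : H, ρ h a := by
      intro c
      have : ∀ h : H, ρ (c : H) (ρ h a) = ρ ((c : H) * h) a := by
        intro h
        rw [map_mul]
        rfl
      rw [Finset.sum_congr rfl (fun h _ => this h)]
      exact Fintype.sum_equiv (Equiv.mulLeft (c : H)) _ _ (fun h => rfl)
    rw [Finset.sum_congr rfl (fun c _ => h3 c), Finset.sum_const, Finset.card_univ, Nat.card_eq_fintype_card]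
  -- (3)
  have h3 : (Nat.card H) • E a = (Nat.card K) • (∑ h : H, ρ h a) := by
    rw [← h2, Finset.sum_congr rfl (fun h _ => h1 h), Finset.sum_const, Finset.card_univ,
      Nat.card_eq_fintype_card]
  have h4 : E a ∈ Submodule.span k {∑ h : H, ρ h a} := by
    rw [Submodule.mem_span_singleton]
    refine ⟨((Nat.card H : ℕ) : k)⁻¹ * ((Nat.card K : ℕ) : k), ?_⟩
    rw [mul_smul, Nat.cast_smul_eq_nsmul, ← h3, ← Nat.cast_smul_eq_nsmul k, smul_smul, inv_mul_cancel₀ hHne,
      one_smul]
  -- (4)
  have h5 : ∀ v : V, E v ∈ Submodule.span k {∑ h : H, ρ h a} := by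
    intro v
    have hv : v ∈ Submodule.span k {u : V | ∃ h : H, ρ h a = u} := by rw [hspan]; trivial
    induction hv using Submodule.span_induction with
    | mem x hx =>
      obtain ⟨h, rfl⟩ := hx
      rw [h1]; exact h4
    | zero => rw [map_zero]; exact Submodule.zero_mem _
    | add x y _ _ hx hy => rw [map_add]; exact Submodule.add_mem _ hx hy
    | smul t x _ hx => rw [map_smul]; exact Submodule.smul_mem _ _ hx
  -- (5)
  have h6 : E w = (Nat.card K) • w := by
    rw [hE, Finset.sum_congr rfl (fun (c : K) _ => hw (c : H) c.2), Finset.sum_const, Finset.card_univ,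
      Nat.card_eq_fintype_card]
  have h7 := h5 w
  rw [h6, Submodule.mem_span_singleton] at h7
  obtain ⟨t, ht⟩ := h7
  refine ⟨((Nat.card K : ℕ) : k)⁻¹ * t, ?_⟩
  rw [mul_smul, ht, ← Nat.cast_smul_eq_nsmul k, smul_smul, inv_mul_cancel₀ hKne, one_smul]

/-- Let k be a field whose characteristic does not divide the order of the finite group H (for instance a field of characteristic zero), and ρ a k-linear representation of H on V. Let a be a vector whose H-orbit spans V. Then the space of H-fixed vectors has dimension at most 1, and every vector b whose H-orbit has size coprime to the size of the orbit of a is fixed by H. -/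
theorem result {k V H : Type*} [Field k] [AddCommGroup V] [Module k V] [Group H] [Finite H]
    (hchar : ¬ ringChar k ∣ Nat.card H) (ρ : Representation k H V) (a : V)
    (hspan : Submodule.span k {u : V | ∃ h : H, ρ h a = u} = ⊤) :
    Module.finrank k ρ.invariants ≤ 1 ∧
    ∀ b : V, (Nat.card {u : V | ∃ h : H, ρ h a = u}).Coprime (Nat.card {u : V | ∃ h : H, ρ h b = u}) → ∀ h : H, ρ h b = b := by
  classical
  haveI : Fintype H := Fintype.ofFinite H
  have hSfix : ∀ g : H, ρ g (∑ h : H, ρ h a) = ∑ h : H, ρ h a := by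
    intro g
    rw [map_sum]
    have : ∀ h : H, ρ g (ρ h a) = ρ (g * h) a := by
      intro h
      rw [map_mul]
      rfl
    rw [Finset.sum_congr rfl (fun h _ => this h)]
    exact Fintype.sum_equiv (Equiv.mulLeft g) _ _ (fun h => rfl)
  constructor
  · apply finrank_le_one (⟨∑ h : H, ρ h a, (Representation.mem_invariants ρ _).mpr hSfix⟩ : ρ.invariants)
    rintro ⟨w, hw⟩
    rw [Representation.mem_invariants] at hw
    obtain ⟨t, ht⟩ := key hchar ρ a hspan ⊤ (fun g => ⟨g, trivial, rfl⟩) w (fun c _ => hw c)
    refine ⟨t, ?_⟩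
    apply Subtype.ext
    exact ht
  · intro b hcop g
    letI act : MulAction H V := MulAction.compHom V (ρ : H →* (V →ₗ[k] V))
    have hsm : ∀ (h : H) (v : V), h • v = ρ h v := fun h v => rfl
    have hia := MulAction.index_stabilizer H a
    have hib := MulAction.index_stabilizer H b
    have hOa : Nat.card {u : V | ∃ h : H, ρ h a = u} = (MulAction.stabilizer H a).index := by
      rw [hia, Nat.card_coe_set_eq]
      rfl
    have hOb : Nat.card {u : V | ∃ h : H, ρ h b = u} = (MulAction.stabilizer H b).index := by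
      rw [hib, Nat.card_coe_set_eq]
      rfl
    rw [hOa, hOb] at hcop
    -- K = stabilizer of b is transitive on the orbit of a
    have hcard : Nat.card (MulAction.stabilizer H b) =
        (MulAction.stabilizer H a).index * Nat.card (MulAction.stabilizer H b ⊓ MulAction.stabilizer H a : Subgroup H) := by
      apply le_antisymm (card_le_index_mul_card_inf _ _)
      have e1 := Subgroup.relIndex_mul_index (inf_le_left : MulAction.stabilizer H b ⊓ MulAction.stabilizer H a ≤ MulAction.stabilizer H b)
      have e2 := Subgroup.relIndex_mul_index (inf_le_right : MulAction.stabilizer H b ⊓ MulAction.stabilizer H a ≤ MulAction.stabilizer H a)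
      rw [Subgroup.inf_relIndex_left] at e1
      have e3 : (MulAction.stabilizer H a).index ∣ (MulAction.stabilizer H a).relIndex (MulAction.stabilizer H b) * (MulAction.stabilizer H b).index := by
        rw [e1, ← e2]
        exact dvd_mul_left _ _
      have e4 : (MulAction.stabilizer H a).index ∣ (MulAction.stabilizer H a).relIndex (MulAction.stabilizer H b) :=
        hcop.dvd_of_dvd_mul_right e3
      have e5 := Subgroup.relIndex_mul_relIndex ⊥ (MulAction.stabilizer H b ⊓ MulAction.stabilizer H a) (MulAction.stabilizer H b) bot_le inf_le_left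
      rw [Subgroup.relIndex_bot_left, Subgroup.relIndex_bot_left, Subgroup.inf_relIndex_left] at e5
      rw [← e5, mul_comm]
      apply Nat.mul_le_mul_left
      apply Nat.le_of_dvd _ e4
      apply Nat.pos_of_ne_zero
      intro h0
      rw [h0, mul_zero] at e5
      exact Nat.card_pos.ne' e5.symm
    have htr : ∀ g : H, ∃ c ∈ MulAction.stabilizer H b, ρ g a = ρ c a := by
      intro g
      obtain ⟨c, hc, hcg⟩ := exists_mul_of_card_eq _ _ hcard g
      refine ⟨c, hc, ?_⟩
      have h1 : (c⁻¹ * g) • a = a := MulAction.mem_stabilizer_iff.mp hcg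
      rw [hsm, map_mul] at h1
      have h2 : ρ c (ρ c⁻¹ (ρ g a)) = ρ c a := congrArg (ρ c) h1
      rw [← Module.End.mul_apply, ← map_mul, mul_inv_cancel, map_one] at h2
      exact h2
    obtain ⟨t, ht⟩ := key hchar ρ a hspan (MulAction.stabilizer H b) htr b
      (fun c hc => MulAction.mem_stabilizer_iff.mp hc)
    rw [← ht, map_smul, hSfix]

end Cfsg.Agent.S4177
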