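import Cfsg.Statements.S4178
import Mathlib

set_option autoImplicit false
open Cfsg

namespace Cfsg.Agent.S4178

theorem index_le_of_map {H X : Type*} [Group H] [Finite X] (S : Subgroup H) (φ : H → X)
    (hφ : ∀ h h', φ h = φ h' → h⁻¹ * h' ∈ S) : S.index ≤ Nat.card X := by
  have hinj : Function.Injective (fun q : H ⧸ S => φ (Quotient.out q)) := by
    intro q q' hq
    have h1 := hφ _ _ hq
    have h2 : ((Quotient.out q : H) : H ⧸ S) = ((Quotient.out q' : H) : H ⧸ S) :=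
      QuotientGroup.eq.mpr h1
    rwa [QuotientGroup.out_eq', QuotientGroup.out_eq'] at h2
  exact Nat.card_le_card_of_injective _ hinj

theorem card_ne {α : Type*} [Finite α] (a : α) : Nat.card {x : α // x ≠ a} = Nat.card α - 1 := by
  classical
  haveI := Fintype.ofFinite α
  rw [Nat.card_eq_fintype_card, Nat.card_eq_fintype_card, Fintype.card_subtype_compl,
    Fintype.card_subtype_eq]

theorem index_le_of_invariant {F V : Type*} [Field F] [Fintype F] [AddCommGroup V] [Module F V]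
    [FiniteDimensional F V] (H : Subgroup (V ≃ₗ[F] V)) (W : Submodule F V) (hW0 : W ≠ ⊥)
    (hinv : ∀ h ∈ H, ∀ w ∈ W, h w ∈ W) :
    (Subgroup.closure {h : ↥H | ∃ v : V, v ≠ 0 ∧ (h : V ≃ₗ[F] V) v = v}).index ≤
      Fintype.card F ^ Module.finrank F W - 1 := by
  obtain ⟨w₀, hw₀, hw₀ne⟩ := Submodule.exists_mem_ne_zero_of_ne_bot hW0
  haveI : Finite W := Module.finite_of_finite F
  have hcard : Nat.card {w : W // w ≠ 0} = Fintype.card F ^ Module.finrank F W - 1 := by
    rw [card_ne, Module.natCard_eq_pow_finrank (K := F) (V := W), Nat.card_eq_fintype_card]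
  rw [← hcard]
  apply index_le_of_map _
    (fun h : ↥H => (⟨⟨(h : V ≃ₗ[F] V) w₀, hinv h h.2 w₀ hw₀⟩, by
      intro h0
      apply hw₀ne
      have h1 : (h : V ≃ₗ[F] V) w₀ = 0 := congrArg Subtype.val h0
      exact (LinearEquiv.map_eq_zero_iff _).mp h1⟩ : {w : W // w ≠ 0}))
  intro h h' hh
  have h1 : (h : V ≃ₗ[F] V) w₀ = (h' : V ≃ₗ[F] V) w₀ :=
    congrArg (fun x : {w : W // w ≠ 0} => ((x : W) : V)) hh
  apply Subgroup.subset_closure
  refine ⟨w₀, hw₀ne, ?_⟩
  show ((h : V ≃ₗ[F] V)⁻¹ * (h' : V ≃ₗ[F] V)) w₀ = w₀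
  show (h : V ≃ₗ[F] V).symm ((h' : V ≃ₗ[F] V) w₀) = w₀
  rw [← h1, LinearEquiv.symm_apply_apply]

theorem index_le_of_invariant_dual {F V : Type*} [Field F] [Fintype F] [AddCommGroup V]
    [Module F V] [FiniteDimensional F V] (H : Subgroup (V ≃ₗ[F] V)) (W : Submodule F V)
    (hWtop : W ≠ ⊤) (hinv : ∀ h ∈ H, ∀ w ∈ W, h w ∈ W) :
    (Subgroup.closure {h : ↥H | ∃ v : V, v ≠ 0 ∧ (h : V ≃ₗ[F] V) v = v}).index ≤
      Fintype.card F ^ (Module.finrank F V - Module.finrank F W) - 1 := by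
  obtain ⟨f₀, hf₀ne, hf₀⟩ := Submodule.exists_le_ker_of_lt_top W (lt_top_iff_ne_top.mpr hWtop)
  haveI : Finite (Module.Dual F V) := Module.finite_of_finite (R := F) (M := Module.Dual F V)
  haveI : Finite W.dualAnnihilator := Finite.of_injective (fun x : W.dualAnnihilator => (x : Module.Dual F V)) Subtype.coe_injective
  have hfin : Module.finrank F W.dualAnnihilator = Module.finrank F V - Module.finrank F W := by
    have := Subspace.finrank_add_finrank_dualAnnihilator_eq W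
    omega
  have hcard : Nat.card {f : W.dualAnnihilator // f ≠ 0} =
      Fintype.card F ^ (Module.finrank F V - Module.finrank F W) - 1 := by
    rw [card_ne, Module.natCard_eq_pow_finrank (K := F) (V := W.dualAnnihilator),
      Nat.card_eq_fintype_card, hfin]
  rw [← hcard]
  have hmem : ∀ h : ↥H, f₀ ∘ₗ ((h : V ≃ₗ[F] V).symm : V →ₗ[F] V) ∈ W.dualAnnihilator := by
    intro h
    rw [Submodule.mem_dualAnnihilator]
    intro w hw
    have h1 : (h : V ≃ₗ[F] V).symm w ∈ W := hinv (h : V ≃ₗ[F] V)⁻¹ (H.inv_mem h.2) w hw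
    exact LinearMap.mem_ker.mp (hf₀ h1)
  apply index_le_of_map _
    (fun h : ↥H => (⟨⟨f₀ ∘ₗ ((h : V ≃ₗ[F] V).symm : V →ₗ[F] V), hmem h⟩, by
      intro h0
      apply hf₀ne
      have h1 : f₀ ∘ₗ ((h : V ≃ₗ[F] V).symm : V →ₗ[F] V) = 0 := congrArg Subtype.val h0
      ext v
      have h2 := LinearMap.congr_fun h1 ((h : V ≃ₗ[F] V) v)
      simpa using h2⟩ : {f : W.dualAnnihilator // f ≠ 0}))
  intro h h' hh
  have h1 : f₀ ∘ₗ ((h : V ≃ₗ[F] V).symm : V →ₗ[F] V) =
      f₀ ∘ₗ ((h' : V ≃ₗ[F] V).symm : V →ₗ[F] V) :=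
    congrArg (fun x : {f : W.dualAnnihilator // f ≠ 0} => ((x : W.dualAnnihilator) :
      Module.Dual F V)) hh
  have h2 : ∀ v : V, f₀ ((h : V ≃ₗ[F] V).symm ((h' : V ≃ₗ[F] V) v)) = f₀ v := by
    intro v
    have h3 := LinearMap.congr_fun h1 ((h' : V ≃ₗ[F] V) v)
    simpa using h3
  apply Subgroup.subset_closure
  by_contra hcon
  apply hf₀ne
  have hcon' : ∀ v : V, v ≠ 0 → (h : V ≃ₗ[F] V).symm ((h' : V ≃ₗ[F] V) v) ≠ v := by
    intro v hv hfix
    exact hcon ⟨v, hv, hfix⟩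
  have hinj : Function.Injective
      ((((h' : V ≃ₗ[F] V).trans (h : V ≃ₗ[F] V).symm : V ≃ₗ[F] V) : V →ₗ[F] V) -
        (LinearMap.id : V →ₗ[F] V)) := by
    rw [← LinearMap.ker_eq_bot, LinearMap.ker_eq_bot']
    intro v hv
    by_contra hv0
    apply hcon' v hv0
    have h4 : (h : V ≃ₗ[F] V).symm ((h' : V ≃ₗ[F] V) v) - v = 0 := by simpa using hv
    exact sub_eq_zero.mp h4
  have hsurj := LinearMap.injective_iff_surjective.mp hinj
  ext u
  obtain ⟨v, rfl⟩ := hsurj u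
  have h5 : ((((h' : V ≃ₗ[F] V).trans (h : V ≃ₗ[F] V).symm : V ≃ₗ[F] V) : V →ₗ[F] V) -
      (LinearMap.id : V →ₗ[F] V)) v = (h : V ≃ₗ[F] V).symm ((h' : V ≃ₗ[F] V) v) - v := rfl
  rw [h5, map_sub, h2, sub_self]
  rfl

/-- Let F be a finite field with q elements, V a non-zero finite-dimensional F-space of dimension d, H a group of invertible linear maps of V, and R the subgroup of H generated by the elements of H that fix some non-zero vector (have eigenvalue 1). Then the index of R in H is at most q^d − 1; and if H leaves invariant some proper non-zero subspace, the index is at most q^(d/2) − 1. -/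
theorem result {F V : Type*} [Field F] [Fintype F] [AddCommGroup V] [Module F V] [FiniteDimensional F V] [Nontrivial V]
    (H : Subgroup (V ≃ₗ[F] V)) :
    (Subgroup.closure {h : ↥H | ∃ v : V, v ≠ 0 ∧ (h : V ≃ₗ[F] V) v = v}).index ≤ Fintype.card F ^ Module.finrank F V - 1 ∧
    ((∃ W : Submodule F V, W ≠ ⊥ ∧ W ≠ ⊤ ∧ ∀ h ∈ H, ∀ w ∈ W, h w ∈ W) →
      ((Subgroup.closure {h : ↥H | ∃ v : V, v ≠ 0 ∧ (h : V ≃ₗ[F] V) v = v}).index : ℝ) ≤ Real.sqrt ((Fintype.card F : ℝ) ^ Module.finrank F V) - 1) := by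
  constructor
  · have h1 := index_le_of_invariant H ⊤ top_ne_bot (fun h _ w _ => Submodule.mem_top)
    rwa [finrank_top] at h1
  · rintro ⟨W, hW0, hWtop, hinv⟩
    have hq : 1 ≤ Fintype.card F := Fintype.card_pos
    have key : ∃ k : ℕ, 2 * k ≤ Module.finrank F V ∧
        (Subgroup.closure {h : ↥H | ∃ v : V, v ≠ 0 ∧ (h : V ≃ₗ[F] V) v = v}).index ≤
          Fintype.card F ^ k - 1 := by
      by_cases hk : 2 * Module.finrank F W ≤ Module.finrank F V
      · exact ⟨_, hk, index_le_of_invariant H W hW0 hinv⟩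
      · refine ⟨Module.finrank F V - Module.finrank F W, ?_, index_le_of_invariant_dual H W hWtop hinv⟩
        have := Submodule.finrank_le W
        omega
    obtain ⟨k, hk, hidx⟩ := key
    have h1 : 1 ≤ Fintype.card F ^ k := Nat.one_le_pow _ _ hq
    have h2 : (Subgroup.closure {h : ↥H | ∃ v : V, v ≠ 0 ∧ (h : V ≃ₗ[F] V) v = v}).index + 1 ≤
        Fintype.card F ^ k := by omega
    have h3 : (((Subgroup.closure {h : ↥H | ∃ v : V, v ≠ 0 ∧ (h : V ≃ₗ[F] V) v = v}).index : ℝ)) + 1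
        ≤ (Fintype.card F : ℝ) ^ k := by exact_mod_cast h2
    have h4 : (Fintype.card F : ℝ) ^ k ≤ Real.sqrt ((Fintype.card F : ℝ) ^ Module.finrank F V) := by
      apply Real.le_sqrt_of_sq_le
      rw [← pow_mul, mul_comm]
      apply pow_le_pow_right₀
      · exact_mod_cast hq
      · exact hk
    linarith

end Cfsg.Agent.S4178
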