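import Cfsg.Statements.S4186
import Mathlib

set_option autoImplicit false
open Cfsg

namespace Cfsg.Agent.S4186

theorem aux {G : Type*} [Group G] (T X : Subgroup G)
    (hTN : T ≤ Subgroup.normalizer (X : Set G)) :
    ∀ k : ℕ, ∀ t ∈ T, t ^ (2 ^ k) = 1 → t ∉ Subgroup.centralizer (X : Set G) →
      ∃ t ∈ T, ∃ x ∈ X, x ≠ 1 ∧ t * x * t⁻¹ = x⁻¹ := by
  intro k
  induction k with
  | zero =>
    intro t ht h1 hc
    simp at h1
    subst h1
    exact absurd (Subgroup.one_mem _) hc
  | succ k ih =>
    intro t ht h1 hc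
    by_cases h2 : t ^ 2 ∈ Subgroup.centralizer (X : Set G)
    · -- t^2 centralizes X
      rw [Subgroup.mem_centralizer_iff] at hc
      push Not at hc
      obtain ⟨x, hx, hxt⟩ := hc
      have hx' : x ∈ X := hx
      have htx : t * x * t⁻¹ ∈ X := by
        have := hTN ht
        rw [Subgroup.mem_normalizer_iff] at this
        exact (this x).1 hx'
      refine ⟨t, ht, x⁻¹ * (t * x * t⁻¹), X.mul_mem (X.inv_mem hx') htx, ?_, ?_⟩
      · intro h
        apply hxt
        have : t * x * t⁻¹ = x := by
          have := congrArg (fun z => x * z) h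
          simpa using this
        calc x * t = (t * x * t⁻¹) * t := by rw [this]
          _ = t * x := by group
      · rw [Subgroup.mem_centralizer_iff] at h2
        have h3 := h2 x hx
        -- h3 : x * t^2 = t^2 * x
        have h3' : x * (t * t) = t * t * x := by simpa [pow_two] using h3
        have h4 : t * (t * x * t⁻¹) * t⁻¹ = x := by
          calc t * (t * x * t⁻¹) * t⁻¹ = (t * t * x) * t⁻¹ * t⁻¹ := by group
            _ = (x * (t * t)) * t⁻¹ * t⁻¹ := by rw [h3']
            _ = x := by group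
        calc t * (x⁻¹ * (t * x * t⁻¹)) * t⁻¹
            = (t * x * t⁻¹)⁻¹ * (t * (t * x * t⁻¹) * t⁻¹) := by group
          _ = (t * x * t⁻¹)⁻¹ * x := by rw [h4]
          _ = (x⁻¹ * (t * x * t⁻¹))⁻¹ := by group
    · apply ih (t ^ 2) (T.pow_mem ht 2) _ h2
      rw [← pow_mul, ← pow_succ']
      exact h1

/-- Let T and X be subgroups of a group with T a finite 2-group normalizing X but not centralizing it. Then some element of T inverts some non-identity element of X under conjugation. -/
theorem result {G : Type*} [Group G] (T X : Subgroup G) [Finite ↥T] (hT : IsPGroup 2 ↥T) (hTN : T ≤ Subgroup.normalizer (X : Set G)) (hTC : ¬ T ≤ Subgroup.centralizer (X : Set G)) : ∃ t ∈ T, ∃ x ∈ X, x ≠ 1 ∧ t * x * t⁻¹ = x⁻¹ := by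
  rw [SetLike.not_le_iff_exists] at hTC
  obtain ⟨t, ht, hc⟩ := hTC
  obtain ⟨k, hk⟩ := hT ⟨t, ht⟩
  have hk' : t ^ (2 ^ k) = 1 := by
    have := congrArg Subtype.val hk
    simpa using this
  exact aux T X hTN k t ht hk' hc

end Cfsg.Agent.S4186
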