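import Cfsg.Statements.S4195
import Mathlib

set_option autoImplicit false
open Cfsg

namespace Cfsg.Agent.S4195

/-- The subgroup of elements conjugating `x` to `x` or `x⁻¹`. -/
def extCentralizer {G : Type*} [Group G] (x : G) : Subgroup G where
  carrier := {g | g * x * g⁻¹ = x ∨ g * x * g⁻¹ = x⁻¹}
  one_mem' := by left; simp
  mul_mem' := by
    intro a b ha hb
    have key : a * b * x * (a * b)⁻¹ = a * (b * x * b⁻¹) * a⁻¹ := by group
    show a * b * x * (a * b)⁻¹ = x ∨ a * b * x * (a * b)⁻¹ = x⁻¹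
    rw [key]
    rcases hb with hb | hb <;> rcases ha with ha | ha
    · left; rw [hb, ha]
    · right; rw [hb, ha]
    · right; rw [hb]
      have : a * x⁻¹ * a⁻¹ = (a * x * a⁻¹)⁻¹ := by group
      rw [this, ha]
    · left; rw [hb]
      have : a * x⁻¹ * a⁻¹ = (a * x * a⁻¹)⁻¹ := by group
      rw [this, ha, inv_inv]
  inv_mem' := by
    intro a ha
    show a⁻¹ * x * a⁻¹⁻¹ = x ∨ a⁻¹ * x * a⁻¹⁻¹ = x⁻¹
    rcases ha with ha | ha
    · left
      calc a⁻¹ * x * a⁻¹⁻¹ = a⁻¹ * (a * x * a⁻¹) * a := by rw [ha, inv_inv]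
        _ = x := by group
    · right
      have h2 : a * x⁻¹ * a⁻¹ = x := by
        have : a * x⁻¹ * a⁻¹ = (a * x * a⁻¹)⁻¹ := by group
        rw [this, ha, inv_inv]
      calc a⁻¹ * x * a⁻¹⁻¹ = a⁻¹ * (a * x⁻¹ * a⁻¹) * a := by rw [h2, inv_inv]
        _ = x⁻¹ := by group

theorem inv_eq_self_of_real {G : Type*} [Group G] [Finite G] (x : G) (P : Sylow 2 G)
    (hP : (P : Subgroup G) ≤ Subgroup.centralizer ({x} : Set G)) (hreal : IsConj x x⁻¹) : x⁻¹ = x := by
  by_contra hne
  rw [isConj_iff] at hreal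
  obtain ⟨c, hc⟩ := hreal
  have hle : Subgroup.centralizer ({x} : Set G) ≤ extCentralizer x := by
    intro g hg
    rw [Subgroup.mem_centralizer_singleton_iff] at hg
    left
    rw [hg]; group
  have hmemC : ∀ g : G, g ∈ Subgroup.centralizer ({x} : Set G) ↔ g * x * g⁻¹ = x := by
    intro g
    rw [Subgroup.mem_centralizer_singleton_iff]
    constructor
    · intro h; rw [h]; group
    · intro h
      calc g * x = (g * x * g⁻¹) * g := by group
        _ = x * g := by rw [h]
  have h2 : (Subgroup.centralizer ({x} : Set G)).relIndex (extCentralizer x) = 2 := by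
    rw [Subgroup.relIndex_eq_two_iff]
    refine ⟨c, Or.inr hc, ?_⟩
    intro b hb
    have key : b * c * x * (b * c)⁻¹ = b * (c * x * c⁻¹) * b⁻¹ := by group
    rw [hmemC, hmemC, key, hc]
    have key2 : b * x⁻¹ * b⁻¹ = (b * x * b⁻¹)⁻¹ := by group
    rw [key2]
    rcases hb with hb | hb
    · right
      refine ⟨hb, ?_⟩
      rw [hb]; exact hne
    · left
      refine ⟨?_, ?_⟩
      · rw [hb, inv_inv]
      · rw [hb]; exact hne
  have h3 : (2 : ℕ) ∣ (P : Subgroup G).index := by
    have h4 := Subgroup.relIndex_dvd_index_of_le hle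
    rw [h2] at h4
    exact h4.trans (Subgroup.index_dvd_of_le hP)
  exact P.not_dvd_index h3

/-- Let x be a non-identity element of a finite group G whose centralizer contains a Sylow 2-subgroup of G. If x is conjugate to its inverse, then x has order 2. -/
theorem result {G : Type*} [Group G] [Finite G] (x : G) (hx : x ≠ 1) (P : Sylow 2 G) (hP : (P : Subgroup G) ≤ Subgroup.centralizer ({x} : Set G)) (hreal : IsConj x x⁻¹) : orderOf x = 2 := by
  have h := inv_eq_self_of_real x P hP hreal
  apply orderOf_eq_prime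
  · rw [pow_two]
    calc x * x = x⁻¹ * x := by rw [h]
      _ = 1 := by group
  · exact hx

end Cfsg.Agent.S4195
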