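import Cfsg.Statements.S4196
import Mathlib
import Cfsg.Agent.S4195

set_option autoImplicit false
open Cfsg

namespace Cfsg.Agent.S4196

open scoped Pointwise

/-- A finite group G has elementary abelian Sylow 2-subgroups (commutative with every element squaring to the identity) if and only if every 2-element of G has a Sylow 2-subgroup in its centralizer and is conjugate to its inverse. -/
theorem result {G : Type*} [Group G] [Finite G] (P : Sylow 2 G) :
    (IsMulCommutative (P : Subgroup G) ∧ ∀ x ∈ (P : Subgroup G), x ^ 2 = 1) ↔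
      ∀ x : G, (∃ k : ℕ, orderOf x = 2 ^ k) → (∃ Q : Sylow 2 G, (Q : Subgroup G) ≤ Subgroup.centralizer ({x} : Set G)) ∧ IsConj x x⁻¹ := by
  constructor
  · rintro ⟨hcomm, hexp⟩ x ⟨k, hk⟩
    rw [isMulCommutative_iff] at hcomm
    have hpg : IsPGroup 2 (Subgroup.zpowers x) := by
      rw [IsPGroup.iff_card]
      exact ⟨k, by rw [Nat.card_zpowers, hk]⟩
    obtain ⟨Q, hQ⟩ := hpg.exists_le_sylow
    obtain ⟨g, hg⟩ := MulAction.exists_smul_eq G P Q
    have hxQ : x ∈ (Q : Subgroup G) := hQ (Subgroup.mem_zpowers x)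
    have hmem : ∀ y : G, y ∈ (Q : Subgroup G) ↔ g⁻¹ * y * g ∈ (P : Subgroup G) := by
      intro y
      rw [← hg, Sylow.coe_subgroup_smul, Subgroup.mem_pointwise_smul_iff_inv_smul_mem]
      have : (MulAut.conj g)⁻¹ • y = g⁻¹ * y * g := by
        rw [MulAut.smul_def, MulAut.conj_inv_apply]
      rw [this]
    have hxP := (hmem x).1 hxQ
    refine ⟨⟨Q, ?_⟩, ?_⟩
    · intro y hy
      rw [Subgroup.mem_centralizer_singleton_iff]
      have hyP := (hmem y).1 hy
      have h1 := hcomm ⟨g⁻¹ * y * g, hyP⟩ ⟨g⁻¹ * x * g, hxP⟩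
      have h2 := congrArg Subtype.val h1
      simp only [Subgroup.coe_mul] at h2
      calc y * x = g * ((g⁻¹ * y * g) * (g⁻¹ * x * g)) * g⁻¹ := by group
        _ = g * ((g⁻¹ * x * g) * (g⁻¹ * y * g)) * g⁻¹ := by rw [h2]
        _ = x * y := by group
    · have h1 := hexp _ hxP
      have h2 : x ^ 2 = 1 := by
        have : x ^ 2 = g * (g⁻¹ * x * g) ^ 2 * g⁻¹ := by
          rw [pow_two, pow_two]; group
        rw [this, h1]; group
      have h3 : x⁻¹ = x := by
        rw [inv_eq_iff_mul_eq_one, ← pow_two]; exact h2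
      rw [h3]
  · intro h
    have hexp : ∀ x ∈ (P : Subgroup G), x ^ 2 = 1 := by
      intro x hx
      obtain ⟨k, hk⟩ := IsPGroup.iff_orderOf.mp P.isPGroup' ⟨x, hx⟩
      rw [Subgroup.orderOf_mk] at hk
      obtain ⟨⟨Q, hQ⟩, hreal⟩ := h x ⟨k, hk⟩
      have h3 := Cfsg.Agent.S4195.inv_eq_self_of_real x Q hQ hreal
      rw [pow_two]
      calc x * x = x⁻¹ * x := by rw [h3]
        _ = 1 := by group
    refine ⟨?_, hexp⟩
    rw [isMulCommutative_iff]
    rintro ⟨a, ha⟩ ⟨b, hb⟩
    apply Subtype.ext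
    simp only [Subgroup.coe_mul]
    have h1 := hexp a ha
    have h2 := hexp b hb
    have h3 := hexp (a * b) ((P : Subgroup G).mul_mem ha hb)
    rw [pow_two] at h1 h2 h3
    calc a * b = a * (a * b * (a * b)) * b := by rw [h3]; group
      _ = (a * a) * b * a * (b * b) := by group
      _ = b * a := by rw [h1, h2]; group

end Cfsg.Agent.S4196
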