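import Cfsg.Statements.S4370
import Mathlib
import Cfsg.Agent.Lib.Lead.UniqueSub
import Cfsg.Agent.Lib.Lead.PNilp3

set_option autoImplicit false
open Cfsg

namespace Cfsg.Agent.S4370

/-- Two subgroups of the same order `p` inside a cyclic subgroup coincide. -/
theorem eq_of_le_cyclic {G : Type*} [Group G] [Finite G] (p : ℕ) (hp : 0 < p)
    (C E1 E2 : Subgroup G) (hC : IsCyclic C) (h1 : E1 ≤ C) (h2 : E2 ≤ C)
    (hc1 : Nat.card E1 = p) (hc2 : Nat.card E2 = p) : E1 = E2 := by
  classical
  haveI := Fintype.ofFinite C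
  have key : ∀ E : Subgroup G, E ≤ C → Nat.card E = p →
      (Finset.univ.filter (fun a : C => (a : G) ∈ E)) =
        Finset.univ.filter (fun a : C => a ^ p = 1) := by
    intro E hE hcE
    apply Finset.eq_of_subset_of_card_le
    · intro a ha
      rw [Finset.mem_filter] at ha ⊢
      refine ⟨Finset.mem_univ _, ?_⟩
      apply Subtype.ext
      have h3 : (⟨(a : G), ha.2⟩ : E) ^ Nat.card E = 1 := pow_card_eq_one'
      rw [hcE] at h3
      have h4 := congrArg Subtype.val h3
      rw [Subgroup.coe_pow] at h4
      rw [Subgroup.coe_pow]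
      exact h4
    · calc (Finset.univ.filter (fun a : C => a ^ p = 1)).card ≤ p :=
            IsCyclic.card_pow_eq_one_le hp
        _ = Nat.card E := hcE.symm
        _ = Nat.card (E.subgroupOf C) :=
            (Nat.card_congr (Subgroup.subgroupOfEquivOfLe hE).toEquiv).symm
        _ = (Finset.univ.filter (fun a : C => (a : G) ∈ E)).card := by
            rw [Nat.card_eq_fintype_card]
            exact Fintype.card_of_subtype _ (fun a => by simp [Subgroup.mem_subgroupOf])
  have e := (key E1 h1 hc1).trans (key E2 h2 hc2).symm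
  ext y
  constructor
  · intro hy
    have h3 : (⟨y, h1 hy⟩ : C) ∈ Finset.univ.filter (fun a : C => (a : G) ∈ E1) := by
      simp [hy]
    rw [e] at h3
    simpa using h3
  · intro hy
    have h3 : (⟨y, h2 hy⟩ : C) ∈ Finset.univ.filter (fun a : C => (a : G) ∈ E2) := by
      simp [hy]
    rw [← e] at h3
    simpa using h3

theorem forward {G : Type*} [Group G] [Finite G] (hG : Group.IsNilpotent G)
    (hna : ¬ IsMulCommutative G)
    (hyp : ∀ x : G, x ∉ Subgroup.center G → IsCyclic (Subgroup.centralizer ({x} : Set G))) :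
    ∃ (k m : ℕ), 1 ≤ k ∧ Odd m ∧
      Nonempty (G ≃* QuaternionGroup (2 ^ k) × Multiplicative (ZMod m)) := by
  haveI := hG
  -- a nonabelian Sylow subgroup
  obtain ⟨p, hp, P, hPna⟩ : ∃ (p : ℕ) (_ : Fact p.Prime) (P : Sylow p G),
      ¬ IsMulCommutative (P : Subgroup G) := by
    by_contra hcon
    push Not at hcon
    obtain ⟨e⟩ := ((Group.isNilpotent_of_finite_tfae (G := G)).out 0 4).mp hG
    apply hna
    refine ⟨⟨fun a b => ?_⟩⟩
    apply e.symm.injective
    rw [map_mul, map_mul]
    funext q Q
    have h1 := hcon q.1 ⟨Nat.prime_of_mem_primeFactors q.2⟩ Q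
    exact h1.is_comm.comm _ _
  haveI := hp
  have hpp : p.Prime := hp.out
  haveI hPn : (P : Subgroup G).Normal := inferInstance
  obtain ⟨P', H, hHn, hHc⟩ := Cfsg.Agent.Lib.Lead.nilpotent_hasNormalPComplement p hG
  haveI : Subsingleton (Sylow p G) := (Sylow.unique_of_normal P hPn).instSubsingleton
  obtain rfl : P' = P := Subsingleton.elim _ _
  have hdisj : Disjoint H (P' : Subgroup G) := hHc.disjoint
  have hcomm : ∀ h ∈ H, ∀ u ∈ (P' : Subgroup G), h * u = u * h := by
    intro h hh u hu
    exact Subgroup.commute_of_normal_of_disjoint H P' hHn hPn hdisj h u hh hu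
  obtain ⟨a, ha, b, hb, hab⟩ : ∃ a ∈ (P' : Subgroup G), ∃ b ∈ (P' : Subgroup G),
      a * b ≠ b * a := by
    by_contra hcon
    push Not at hcon
    exact hPna ⟨⟨fun a b => Subtype.ext (hcon a a.2 b b.2)⟩⟩
  have haZ : a ∉ Subgroup.center G := fun h => hab (Subgroup.mem_center_iff.mp h b).symm
  have hHle : H ≤ Subgroup.centralizer ({a} : Set G) := by
    intro h hh
    rw [Subgroup.mem_centralizer_singleton_iff]
    exact hcomm h hh a ha
  haveI hHcyc : IsCyclic H := by
    haveI := hyp a haZ
    exact Subgroup.isCyclic_of_le hHle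
  have hPp : IsPGroup p (P' : Subgroup G) := P'.isPGroup'
  haveI : Nontrivial (P' : Subgroup G) :=
    ⟨⟨⟨a, ha⟩, ⟨b, hb⟩, fun h => hab (by rw [show a = b from congrArg Subtype.val h])⟩⟩
  obtain ⟨z, hzP, hzo, hzc⟩ : ∃ z ∈ (P' : Subgroup G), orderOf z = p ∧
      ∀ u ∈ (P' : Subgroup G), u * z = z * u := by
    obtain ⟨n, hn⟩ := IsPGroup.iff_card.mp hPp
    have hn0 : 0 < n := by
      rcases Nat.eq_zero_or_pos n with h0 | h0
      · exfalso
        rw [h0, pow_zero] at hn
        have : 1 < Nat.card (P' : Subgroup G) := Finite.one_lt_card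
        omega
      · exact h0
    obtain ⟨k, hk0, hk⟩ := IsPGroup.card_center_eq_prime_pow hn hn0
    have hdvd : p ∣ Nat.card (Subgroup.center (P' : Subgroup G)) := by
      rw [hk]; exact dvd_pow_self p (by omega)
    obtain ⟨c, hc⟩ := exists_prime_orderOf_dvd_card' (G := Subgroup.center (P' : Subgroup G)) p hdvd
    refine ⟨((c : (P' : Subgroup G)) : G), (c : (P' : Subgroup G)).2, ?_, ?_⟩
    · rw [Subgroup.orderOf_coe, Subgroup.orderOf_coe, hc]
    · intro u hu
      exact congrArg Subtype.val (Subgroup.mem_center_iff.mp c.2 ⟨u, hu⟩)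
  have hZ0card : Nat.card (Subgroup.zpowers z) = p := by rw [Nat.card_zpowers, hzo]
  have huniq : ∀ E : Subgroup G, E ≤ (P' : Subgroup G) → Nat.card E = p →
      E = Subgroup.zpowers z := by
    intro E hEP hEc
    haveI : IsCyclic E := isCyclic_of_prime_card hEc
    obtain ⟨e, he⟩ := IsCyclic.exists_generator (α := E)
    have hEle : ∀ x : G, (e : G) * x = x * (e : G) →
        E ≤ Subgroup.centralizer ({x} : Set G) := by
      intro x hx y hy
      rw [Subgroup.mem_centralizer_singleton_iff]
      obtain ⟨k, hk⟩ := Subgroup.mem_zpowers_iff.mp (he ⟨y, hy⟩)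
      have hy' : y = (e : G) ^ k := by
        have := congrArg Subtype.val hk
        rw [Subgroup.coe_zpow] at this
        exact this.symm
      rw [hy']
      exact (Commute.zpow_left (show Commute (e : G) x from hx) k)
    by_cases hec : (e : G) ∈ Subgroup.center G
    · apply eq_of_le_cyclic p hpp.pos (Subgroup.centralizer ({a} : Set G)) E _ (hyp a haZ)
        (hEle a (Subgroup.mem_center_iff.mp hec a).symm) ?_ hEc hZ0card
      rw [Subgroup.zpowers_le, Subgroup.mem_centralizer_singleton_iff]
      exact (hzc a ha).symm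
    · apply eq_of_le_cyclic p hpp.pos (Subgroup.centralizer ({(e : G)} : Set G)) E _
        (hyp _ hec) (hEle _ rfl) ?_ hEc hZ0card
      rw [Subgroup.zpowers_le, Subgroup.mem_centralizer_singleton_iff]
      exact (hzc _ (hEP e.2)).symm
  have huniq' : ∀ H1 K1 : Subgroup (P' : Subgroup G), Nat.card H1 = p → Nat.card K1 = p →
      H1 = K1 := by
    intro H1 K1 h1 k1
    have e1 : H1.map (P' : Subgroup G).subtype = Subgroup.zpowers z := huniq _ (by
        rintro _ ⟨y, -, rfl⟩; exact y.2) (by
        rw [Subgroup.card_map_of_injective (Subgroup.subtype_injective _)]; exact h1)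
    have e2 : K1.map (P' : Subgroup G).subtype = Subgroup.zpowers z := huniq _ (by
        rintro _ ⟨y, -, rfl⟩; exact y.2) (by
        rw [Subgroup.card_map_of_injective (Subgroup.subtype_injective _)]; exact k1)
    exact Subgroup.map_injective (Subgroup.subtype_injective _) (e1.trans e2.symm)
  rcases Cfsg.Agent.Lib.Lead.unique_sub_cyclic_or_quat p hPp huniq' with hcyc | ⟨hp2, n, ⟨eQ⟩⟩
  · exfalso
    apply hab
    haveI := hcyc
    have := (IsCyclic.commGroup (α := (P' : Subgroup G))).mul_comm ⟨a, ha⟩ ⟨b, hb⟩
    exact congrArg Subtype.val this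
  · subst hp2
    have hn1 : 1 ≤ n := by
      by_contra hlt
      have hn0 : n = 0 := by omega
      subst hn0
      haveI : IsCyclic (QuaternionGroup (2 ^ 0)) := by
        rw [pow_zero]; exact QuaternionGroup.quaternionGroup_one_isCyclic
      haveI : IsCyclic (P' : Subgroup G) :=
        isCyclic_of_surjective eQ.symm.toMonoidHom eQ.symm.surjective
      apply hab
      have := (IsCyclic.commGroup (α := (P' : Subgroup G))).mul_comm ⟨a, ha⟩ ⟨b, hb⟩
      exact congrArg Subtype.val this
    have hodd : Odd (Nat.card H) := by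
      have h1 : ¬ 2 ∣ (P' : Subgroup G).index := P'.not_dvd_index
      rw [hHc.index_eq_card] at h1
      rcases Nat.even_or_odd (Nat.card H) with h | h
      · exact absurd (even_iff_two_dvd.mp h) h1
      · exact h
    have hcm : ∀ (u : (P' : Subgroup G)) (h : H),
        Commute ((P' : Subgroup G).subtype u) (H.subtype h) := by
      intro u h
      exact (hcomm h.1 h.2 u.1 u.2).symm
    have hbij : Function.Bijective
        (MonoidHom.noncommCoprod (P' : Subgroup G).subtype H.subtype hcm) := by
      rw [Nat.bijective_iff_injective_and_card]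
      constructor
      · rw [injective_iff_map_eq_one]
        rintro ⟨u, h⟩ huh
        rw [MonoidHom.noncommCoprod_apply] at huh
        have h1 : (u : G) * (h : G) = 1 := huh
        have h2 : (u : G) ∈ H ⊓ (P' : Subgroup G) := by
          refine Subgroup.mem_inf.mpr ⟨?_, u.2⟩
          have e : (u : G) = (h : G)⁻¹ := eq_inv_of_mul_eq_one_left h1
          rw [e]; exact H.inv_mem h.2
        rw [hdisj.eq_bot, Subgroup.mem_bot] at h2
        have h3 : (h : G) = 1 := by rw [h2, one_mul] at h1; exact h1
        ext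
        · exact h2
        · exact h3
      · rw [Nat.card_prod, mul_comm]
        exact hHc.card_mul_card
    let e1 : G ≃* ↥(P' : Subgroup G) × ↥H := (MulEquiv.ofBijective _ hbij).symm
    exact ⟨n, Nat.card H, hn1, hodd,
      ⟨e1.trans (MulEquiv.prodCongr eQ (zmodCyclicMulEquiv hHcyc).symm)⟩⟩

theorem two_mul_eq_zero_cases (n : ℕ) [NeZero n] (j : ZMod (2 * n)) (h : j + j = 0) :
    j = 0 ∨ j = (n : ZMod (2 * n)) := by
  haveI : NeZero (2 * n) := ⟨by have := NeZero.ne n; omega⟩
  have h1 : ((j.val + j.val : ℕ) : ZMod (2 * n)) = 0 := by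
    push_cast
    rw [ZMod.natCast_zmod_val]
    exact h
  have h2 : 2 * n ∣ j.val + j.val := (ZMod.natCast_eq_zero_iff _ _).mp h1
  have h3 : j.val < 2 * n := ZMod.val_lt j
  obtain ⟨t, ht⟩ := h2
  have hj : j = ((j.val : ℕ) : ZMod (2 * n)) := (ZMod.natCast_zmod_val j).symm
  rcases t with _ | _ | t
  · left
    have h4 : j.val = 0 := by omega
    rw [hj, h4]; simp
  · right
    have h4 : j.val = n := by omega
    rw [hj, h4]
  · exfalso
    have e : 2 * n * (t + 1 + 1) = 2 * n * t + 4 * n := by ring
    rw [e] at ht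
    omega

open QuaternionGroup in
theorem quat_centralizer_cyclic (n : ℕ) [NeZero n] (q : QuaternionGroup n)
    (hq : q ∉ Subgroup.center (QuaternionGroup n)) :
    IsCyclic (Subgroup.centralizer ({q} : Set (QuaternionGroup n))) := by
  haveI : NeZero (2 * n) := ⟨by have := NeZero.ne n; omega⟩
  have hnn : (n : ZMod (2 * n)) + n = 0 := by
    have h0 : ((2 * n : ℕ) : ZMod (2 * n)) = 0 := ZMod.natCast_self _
    rw [← h0]; push_cast; ring
  cases q with
  | a i =>
    have hi : i + i ≠ 0 := by
      intro h
      apply hq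
      rw [Subgroup.mem_center_iff]
      intro g
      cases g with
      | a j => rw [a_mul_a, a_mul_a, add_comm]
      | xa j =>
        rw [xa_mul_a, a_mul_xa]
        congr 1
        linear_combination h
    have hmem : (a 1 : QuaternionGroup n) ∈
        Subgroup.centralizer ({a i} : Set (QuaternionGroup n)) := by
      rw [Subgroup.mem_centralizer_singleton_iff, a_mul_a, a_mul_a, add_comm]
    refine ⟨⟨⟨a 1, hmem⟩, fun y => ?_⟩⟩
    obtain ⟨y, hy⟩ := y
    rw [Subgroup.mem_centralizer_singleton_iff] at hy
    cases y with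
    | a j =>
      refine ⟨(j.val : ℤ), ?_⟩
      beta_reduce
      apply Subtype.ext
      rw [zpow_natCast, Subgroup.coe_pow]
      show (a 1 : QuaternionGroup n) ^ j.val = a j
      rw [a_one_pow, ZMod.natCast_zmod_val]
    | xa j =>
      exfalso
      rw [xa_mul_a, a_mul_xa] at hy
      injection hy with h1
      apply hi
      linear_combination h1
  | xa i =>
    have hmem : (xa i : QuaternionGroup n) ∈
        Subgroup.centralizer ({xa i} : Set (QuaternionGroup n)) := by
      rw [Subgroup.mem_centralizer_singleton_iff]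
    refine ⟨⟨⟨xa i, hmem⟩, fun y => ?_⟩⟩
    obtain ⟨y, hy⟩ := y
    rw [Subgroup.mem_centralizer_singleton_iff] at hy
    cases y with
    | a j =>
      rw [a_mul_xa, xa_mul_a] at hy
      injection hy with h1
      have h2 : j + j = 0 := by linear_combination (-1 : ZMod (2 * n)) * h1
      rcases two_mul_eq_zero_cases n j h2 with h | h
      · refine ⟨((0 : ℕ) : ℤ), ?_⟩
        beta_reduce
        apply Subtype.ext
        rw [zpow_natCast, pow_zero]
        show (1 : QuaternionGroup n) = a j
        rw [h]; exact one_def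
      · refine ⟨((2 : ℕ) : ℤ), ?_⟩
        beta_reduce
        apply Subtype.ext
        rw [zpow_natCast, Subgroup.coe_pow]
        show (xa i : QuaternionGroup n) ^ 2 = a j
        rw [xa_sq, h]
    | xa j =>
      rw [xa_mul_xa, xa_mul_xa] at hy
      injection hy with h1
      have h2 : (j - i) + (j - i) = 0 := by linear_combination (-1 : ZMod (2 * n)) * h1
      rcases two_mul_eq_zero_cases n (j - i) h2 with h | h
      · have hji : j = i := sub_eq_zero.mp h
        refine ⟨((1 : ℕ) : ℤ), ?_⟩
        beta_reduce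
        apply Subtype.ext
        rw [zpow_natCast, pow_one]
        show (xa i : QuaternionGroup n) = xa j
        rw [hji]
      · have hji : j = i - n := by linear_combination h + hnn
        refine ⟨((3 : ℕ) : ℤ), ?_⟩
        beta_reduce
        apply Subtype.ext
        rw [zpow_natCast, Subgroup.coe_pow]
        show (xa i : QuaternionGroup n) ^ 3 = xa j
        rw [hji, pow_succ, xa_sq, a_mul_xa]

theorem backward {G : Type*} [Group G] [Finite G] (k m : ℕ) (hm : Odd m)
    (e : G ≃* QuaternionGroup (2 ^ k) × Multiplicative (ZMod m)) (x : G)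
    (hx : x ∉ Subgroup.center G) :
    IsCyclic (Subgroup.centralizer ({x} : Set G)) := by
  haveI : NeZero (2 ^ k) := ⟨by positivity⟩
  haveI : NeZero m := ⟨by rintro rfl; exact (by decide : ¬ Odd 0) hm⟩
  have hqc : (e x).1 ∉ Subgroup.center (QuaternionGroup (2 ^ k)) := by
    intro h
    apply hx
    rw [Subgroup.mem_center_iff]
    intro g
    apply e.injective
    rw [map_mul, map_mul]
    ext
    · exact Subgroup.mem_center_iff.mp h (e g).1
    · exact mul_comm (e g).2 (e x).2
  haveI hcq := quat_centralizer_cyclic (2 ^ k) (e x).1 hqc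
  haveI hT : IsCyclic ((Subgroup.centralizer ({(e x).1} : Set (QuaternionGroup (2 ^ k)))) ×
      Multiplicative (ZMod m)) := by
    rw [Group.isCyclic_prod_iff]
    refine ⟨hcq, inferInstance, ?_⟩
    have h1 : Nat.card (Multiplicative (ZMod m)) = m := Nat.card_zmod m
    rw [h1]
    have h2 : Nat.card (Subgroup.centralizer ({(e x).1} : Set (QuaternionGroup (2 ^ k)))) ∣
        4 * 2 ^ k := by
      have := Subgroup.card_subgroup_dvd_card
        (Subgroup.centralizer ({(e x).1} : Set (QuaternionGroup (2 ^ k))))
      rw [Nat.card_eq_fintype_card (α := QuaternionGroup (2 ^ k)), QuaternionGroup.card] at this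
      exact this
    have h3 : Nat.Coprime 2 m := Nat.coprime_two_left.mpr hm
    have h4 : Nat.Coprime (4 * 2 ^ k) m := by
      have e4 : (4 : ℕ) = 2 ^ 2 := by norm_num
      rw [e4]
      exact Nat.Coprime.mul_left (Nat.Coprime.pow_left 2 h3) (Nat.Coprime.pow_left k h3)
    exact Nat.Coprime.coprime_dvd_left h2 h4
  have hmemf : ∀ g : Subgroup.centralizer ({x} : Set G),
      (e (g : G)).1 ∈ Subgroup.centralizer ({(e x).1} : Set (QuaternionGroup (2 ^ k))) := by
    intro g
    have hg := Subgroup.mem_centralizer_singleton_iff.mp g.2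
    rw [Subgroup.mem_centralizer_singleton_iff]
    have h1 := congrArg (fun t => (e t).1) hg
    simp only [map_mul, Prod.fst_mul] at h1
    exact h1
  let f : Subgroup.centralizer ({x} : Set G) →*
      (Subgroup.centralizer ({(e x).1} : Set (QuaternionGroup (2 ^ k)))) ×
        Multiplicative (ZMod m) :=
    { toFun := fun g => (⟨(e (g : G)).1, hmemf g⟩, (e (g : G)).2)
      map_one' := by
        ext
        · simp
        · simp
      map_mul' := by
        intro g h
        ext
        · simp
        · simp }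
  have hf : Function.Injective f := by
    intro g h hgh
    apply Subtype.ext
    apply e.injective
    have h1 : (e (g : G)).1 = (e (h : G)).1 := congrArg (fun t => (t.1 : QuaternionGroup (2 ^ k))) hgh
    have h2 : (e (g : G)).2 = (e (h : G)).2 := congrArg (fun t => t.2) hgh
    exact Prod.ext h1 h2
  exact isCyclic_of_injective f hf

theorem result {G : Type*} [Group G] [Finite G] (hG : Group.IsNilpotent G)
    (hna : ¬ IsMulCommutative G) :
    (∀ x : G, x ∉ Subgroup.center G → IsCyclic (Subgroup.centralizer ({x} : Set G))) ↔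
      ∃ (k m : ℕ), 1 ≤ k ∧ Odd m ∧ Nonempty (G ≃* QuaternionGroup (2 ^ k) × Multiplicative (ZMod m)) := by
  constructor
  · exact forward hG hna
  · rintro ⟨k, m, _, hm, ⟨e⟩⟩ x hx
    exact backward k m hm e x hx

end Cfsg.Agent.S4370
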