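import Cfsg.Statements.S4211
import Mathlib
import Cfsg.Agent.Lib.Lead.UniqueSub
import Cfsg.Agent.Lib.Lead.Class2
import Cfsg.Agent.Lib.Helper6.PParts
import Cfsg.Agent.S4370

set_option autoImplicit false
open Cfsg
open scoped Pointwise

namespace Cfsg.Agent.S4211

theorem pow_rule {G : Type*} [Group G] {x y c : G} (hc : y * x = c * x * y) (hcx : Commute c x)
    (k : ℕ) : y * x ^ k = c ^ k * x ^ k * y := by
  induction k with
  | zero => simp
  | succ k ih =>
    calc y * x ^ (k + 1) = (y * x ^ k) * x := by rw [pow_succ, mul_assoc]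
      _ = c ^ k * x ^ k * (y * x) := by rw [ih]; simp only [mul_assoc]
      _ = c ^ k * x ^ k * (c * x * y) := by rw [hc]
      _ = c ^ k * (x ^ k * c) * x * y := by simp only [mul_assoc]
      _ = c ^ k * (c * x ^ k) * x * y := by rw [(hcx.pow_right k).eq]
      _ = c ^ (k + 1) * x ^ (k + 1) * y := by rw [pow_succ c, pow_succ x]; simp only [mul_assoc]

theorem eq_of_mem_zpowers_two {G : Type*} [Group G] [Finite G] {c z : G} (hc : c ^ 2 = 1)
    (hz : z ∈ Subgroup.zpowers c) (hz1 : z ≠ 1) : z = c := by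
  obtain ⟨j, rfl⟩ := (Submonoid.mem_powers_iff _ _).1 (mem_powers_iff_mem_zpowers.2 hz)
  rw [pow_eq_pow_mod j hc] at hz1 ⊢
  have : j % 2 = 0 ∨ j % 2 = 1 := by omega
  rcases this with h | h
  · rw [h, pow_zero] at hz1; exact absurd rfl hz1
  · rw [h, pow_one]

theorem exists_quat_pair {G : Type*} [Group G] [Finite G] (hn : ∀ H : Subgroup G, H.Normal)
    (C : Subgroup G) (hna : ∃ x ∈ C, ∃ y ∈ C, x * y ≠ y * x) :
    ∃ a ∈ C, ∃ b ∈ C, orderOf a = 4 ∧ b * b = a ^ 2 ∧ b⁻¹ * a * b = a⁻¹ ∧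
      b ∉ Subgroup.zpowers a := by
  classical
  have hex : ∃ m, ∃ x ∈ C, ∃ y ∈ C, x * y ≠ y * x ∧ orderOf x + orderOf y = m := by
    obtain ⟨x, hx, y, hy, h⟩ := hna
    exact ⟨_, x, hx, y, hy, h, rfl⟩
  obtain ⟨x, hxC, y, hyC, hxy, hm⟩ := Nat.find_spec hex
  have hmin : ∀ x' ∈ C, ∀ y' ∈ C, x' * y' ≠ y' * x' →
      orderOf x + orderOf y ≤ orderOf x' + orderOf y' := by
    intro x' hx' y' hy' h
    rw [hm]
    exact Nat.find_min' hex ⟨x', hx', y', hy', h, rfl⟩
  clear hm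
  wlog hle : orderOf y ≤ orderOf x generalizing x y with H
  · exact H y hyC x hxC (fun h => hxy h.symm)
      (fun x' hx' y' hy' h => by have := hmin x' hx' y' hy' h; omega) (by omega)
  have hox : 0 < orderOf x := orderOf_pos x
  have hoy : 0 < orderOf y := orderOf_pos y
  obtain ⟨c, hcdef⟩ : ∃ c, c = y * x * y⁻¹ * x⁻¹ := ⟨_, rfl⟩
  have hc : y * x = c * x * y := by rw [hcdef]; group
  have hc1 : c ≠ 1 := by
    intro h
    rw [h, one_mul] at hc
    exact hxy hc.symm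
  have hcx_mem : c ∈ Subgroup.zpowers x := by
    have h1 : y * x * y⁻¹ ∈ Subgroup.zpowers x :=
      (hn (Subgroup.zpowers x)).conj_mem x (Subgroup.mem_zpowers x) y
    rw [hcdef]
    exact Subgroup.mul_mem _ h1 (Subgroup.inv_mem _ (Subgroup.mem_zpowers x))
  have hcy_mem : c ∈ Subgroup.zpowers y := by
    have h1 : x * y⁻¹ * x⁻¹ ∈ Subgroup.zpowers y :=
      (hn (Subgroup.zpowers y)).conj_mem y⁻¹ (Subgroup.inv_mem _ (Subgroup.mem_zpowers y)) x
    have : c = y * (x * y⁻¹ * x⁻¹) := by rw [hcdef]; group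
    rw [this]
    exact Subgroup.mul_mem _ (Subgroup.mem_zpowers y) h1
  have hcx : Commute c x := by
    obtain ⟨k, hk⟩ := Subgroup.mem_zpowers_iff.1 hcx_mem
    rw [← hk]
    exact (Commute.refl x).zpow_left k
  have hcy : Commute c y := by
    obtain ⟨k, hk⟩ := Subgroup.mem_zpowers_iff.1 hcy_mem
    rw [← hk]
    exact (Commute.refl y).zpow_left k
  have hpx : ∀ p : ℕ, p.Prime → p ∣ orderOf x → c ^ p = 1 := by
    intro p hp hpd
    have h1 : orderOf (x ^ p) < orderOf x := by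
      rw [orderOf_pow, Nat.gcd_eq_right hpd]
      exact Nat.div_lt_self hox hp.one_lt
    have h2 : x ^ p * y = y * x ^ p := by
      by_contra h
      have := hmin (x ^ p) (C.pow_mem hxC p) y hyC h
      omega
    have h3 := pow_rule hc hcx p
    rw [← h2] at h3
    have h4 : x ^ p = c ^ p * x ^ p := mul_right_cancel h3
    have h5 : 1 * x ^ p = c ^ p * x ^ p := by rw [one_mul]; exact h4
    exact (mul_right_cancel h5).symm
  have hpy : ∀ p : ℕ, p.Prime → p ∣ orderOf y → c ^ p = 1 := by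
    intro p hp hpd
    have h1 : orderOf (y ^ p) < orderOf y := by
      rw [orderOf_pow, Nat.gcd_eq_right hpd]
      exact Nat.div_lt_self hoy hp.one_lt
    have h2 : x * y ^ p = y ^ p * x := by
      by_contra h
      have := hmin x hxC (y ^ p) (C.pow_mem hyC p) h
      omega
    have h3 := Lib.Lead.class2_pow_left hc hcy p
    rw [← h2] at h3
    have h4 : x = c ^ p * x := mul_right_cancel h3
    have h5 : 1 * x = c ^ p * x := by rw [one_mul]; exact h4
    exact (mul_right_cancel h5).symm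
  have hx1 : x ≠ 1 := by rintro rfl; exact hxy (by simp)
  have hy1 : y ≠ 1 := by rintro rfl; exact hxy (by simp)
  have hox1 : orderOf x ≠ 1 := fun h => hx1 (orderOf_eq_one_iff.1 h)
  have hoy1 : orderOf y ≠ 1 := fun h => hy1 (orderOf_eq_one_iff.1 h)
  obtain ⟨p, hp, hpc⟩ : ∃ p : ℕ, p.Prime ∧ orderOf c = p := by
    obtain ⟨q, hq, hqd⟩ := Nat.exists_prime_and_dvd hox1
    have h1 := orderOf_dvd_of_pow_eq_one (hpx q hq hqd)
    rcases (Nat.dvd_prime hq).1 h1 with h | h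
    · exact absurd (orderOf_eq_one_iff.1 h) hc1
    · exact ⟨q, hq, h⟩
  have hux : ∀ {d : ℕ}, d.Prime → d ∣ orderOf x → d = p := by
    intro d hd hdd
    have h1 := orderOf_dvd_of_pow_eq_one (hpx d hd hdd)
    rw [hpc] at h1
    exact ((Nat.prime_dvd_prime_iff_eq hp hd).1 h1).symm
  have huy : ∀ {d : ℕ}, d.Prime → d ∣ orderOf y → d = p := by
    intro d hd hdd
    have h1 := orderOf_dvd_of_pow_eq_one (hpy d hd hdd)
    rw [hpc] at h1
    exact ((Nat.prime_dvd_prime_iff_eq hp hd).1 h1).symm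
  obtain ⟨α, hα⟩ : ∃ α, orderOf x = p ^ α :=
    ⟨_, Nat.eq_prime_pow_of_unique_prime_dvd hox.ne' hux⟩
  obtain ⟨β, hβ⟩ : ∃ β, orderOf y = p ^ β :=
    ⟨_, Nat.eq_prime_pow_of_unique_prime_dvd hoy.ne' huy⟩
  have hα1 : 1 ≤ α := by
    rcases Nat.eq_zero_or_pos α with h | h
    · rw [h, pow_zero] at hα; exact absurd hα hox1
    · exact h
  have hβ1 : 1 ≤ β := by
    rcases Nat.eq_zero_or_pos β with h | h
    · rw [h, pow_zero] at hβ; exact absurd hβ hoy1
    · exact h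
  have hβα : β ≤ α := by
    rw [hα, hβ] at hle
    exact (Nat.pow_le_pow_iff_right hp.one_lt).1 hle
  have hu_ord : orderOf (x ^ (p ^ (α - 1))) = p := by
    have h1 : p ^ (α - 1) ∣ orderOf x := by rw [hα]; exact pow_dvd_pow p (by omega)
    rw [orderOf_pow, Nat.gcd_eq_right h1, hα]
    have : p ^ α = p ^ (α - 1) * p := by rw [← pow_succ]; congr 1; omega
    rw [this, Nat.mul_div_cancel_left _ (pow_pos hp.pos _)]
  have hv_ord : orderOf (y ^ (p ^ (β - 1))) = p := by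
    have h1 : p ^ (β - 1) ∣ orderOf y := by rw [hβ]; exact pow_dvd_pow p (by omega)
    rw [orderOf_pow, Nat.gcd_eq_right h1, hβ]
    have : p ^ β = p ^ (β - 1) * p := by rw [← pow_succ]; congr 1; omega
    rw [this, Nat.mul_div_cancel_left _ (pow_pos hp.pos _)]
  have huc : Subgroup.zpowers (x ^ (p ^ (α - 1))) = Subgroup.zpowers c := by
    refine S4370.eq_of_le_cyclic p hp.pos (Subgroup.zpowers x) _ _ inferInstance ?_ ?_ ?_ ?_
    · rw [Subgroup.zpowers_le]; exact Subgroup.pow_mem _ (Subgroup.mem_zpowers x) _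
    · rw [Subgroup.zpowers_le]; exact hcx_mem
    · rw [Nat.card_zpowers, hu_ord]
    · rw [Nat.card_zpowers, hpc]
  have hvc : Subgroup.zpowers (y ^ (p ^ (β - 1))) = Subgroup.zpowers c := by
    refine S4370.eq_of_le_cyclic p hp.pos (Subgroup.zpowers y) _ _ inferInstance ?_ ?_ ?_ ?_
    · rw [Subgroup.zpowers_le]; exact Subgroup.pow_mem _ (Subgroup.mem_zpowers y) _
    · rw [Subgroup.zpowers_le]; exact hcy_mem
    · rw [Nat.card_zpowers, hv_ord]
    · rw [Nat.card_zpowers, hpc]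
  obtain ⟨k', hk'⟩ : ∃ k' : ℕ, (x ^ (p ^ (α - 1))) ^ k' = (y ^ (p ^ (β - 1)))⁻¹ := by
    have : (y ^ (p ^ (β - 1)))⁻¹ ∈ Subgroup.zpowers (x ^ (p ^ (α - 1))) := by
      rw [huc, ← hvc]; exact Subgroup.inv_mem _ (Subgroup.mem_zpowers _)
    exact (Submonoid.mem_powers_iff _ _).1 (mem_powers_iff_mem_zpowers.2 this)
  obtain ⟨k, hk⟩ : ∃ k, k = p ^ (α - β) * k' := ⟨_, rfl⟩
  have hxk_pow : (x ^ k) ^ (p ^ (β - 1)) = (y ^ (p ^ (β - 1)))⁻¹ := by
    rw [← hk', ← pow_mul, ← pow_mul, hk]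
    congr 1
    have : p ^ (α - 1) = p ^ (α - β) * p ^ (β - 1) := by rw [← pow_add]; congr 1; omega
    rw [this]; ring
  have hnc : x * (x ^ k * y) ≠ x ^ k * y * x := by
    intro h
    apply hxy
    have h2 : x * x ^ k = x ^ k * x := by rw [← pow_succ', ← pow_succ]
    have h3 : x ^ k * (x * y) = x ^ k * (y * x) := by
      rw [← mul_assoc, ← h2, mul_assoc, h, mul_assoc]
    exact mul_left_cancel h3
  have h1 := hmin x hxC (x ^ k * y) (C.mul_mem (C.pow_mem hxC k) hyC) hnc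
  have hot : orderOf y ≤ orderOf (x ^ k * y) := by omega
  have htn : (x ^ k * y) ^ (p ^ (β - 1)) ≠ 1 := by
    intro h
    have h2 := orderOf_dvd_of_pow_eq_one h
    have h3 := Nat.le_of_dvd (pow_pos hp.pos _) h2
    have h4 : p ^ (β - 1) < p ^ β := Nat.pow_lt_pow_right hp.one_lt (by omega)
    rw [hβ] at hot
    omega
  have hform := Lib.Lead.class2_mul_pow (pow_rule hc hcx k) ((hcx.pow_right k).pow_left k)
    (hcy.pow_left k) (p ^ (β - 1))
  rw [hxk_pow, inv_mul_cancel, one_mul, ← pow_mul] at hform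
  rw [hform] at htn
  have hnd : ¬ p ∣ k * (p ^ (β - 1)).choose 2 := by
    intro hd
    apply htn
    have hd' : orderOf c ∣ k * (p ^ (β - 1)).choose 2 := by rw [hpc]; exact hd
    exact orderOf_dvd_iff_pow_eq_one.1 hd'
  have hαβ : α = β := by
    by_contra hne
    apply hnd
    have : p ∣ p ^ (α - β) := dvd_pow_self p (by omega)
    rw [hk]
    exact Dvd.dvd.mul_right (Dvd.dvd.mul_right this _) _
  have hnd2 : ¬ p ∣ (p ^ (β - 1)).choose 2 := fun h => hnd (Dvd.dvd.mul_left h _)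
  have hβ2 : 2 ≤ β := by
    by_contra hlt
    have : β = 1 := by omega
    rw [this] at hnd2
    simp at hnd2
  have h2c : 2 * (p ^ (β - 1)).choose 2 = p ^ (β - 1) * (p ^ (β - 1) - 1) := by
    rw [Nat.choose_two_right]
    exact Nat.two_mul_div_two_of_even (Nat.even_mul_pred_self _)
  have hp2 : p = 2 := by
    by_contra hne
    apply hnd2
    have h1 : p ∣ 2 * (p ^ (β - 1)).choose 2 := by
      rw [h2c]; exact Dvd.dvd.mul_right (dvd_pow_self p (by omega)) _
    exact (Nat.Coprime.dvd_mul_left ((Nat.coprime_primes hp Nat.prime_two).2 hne)).1 h1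
  subst hp2
  have hβeq : β = 2 := by
    by_contra hne
    apply hnd2
    have h4 : 4 ∣ 2 ^ (β - 1) := by
      have : (4 : ℕ) = 2 ^ 2 := by norm_num
      rw [this]; exact pow_dvd_pow 2 (by omega)
    have h5 : 4 ∣ 2 * (2 ^ (β - 1)).choose 2 := by rw [h2c]; exact Dvd.dvd.mul_right h4 _
    omega
  subst hαβ
  subst hβeq
  have hx4 : orderOf x = 4 := by rw [hα]; norm_num
  have hc2 : c ^ 2 = 1 := by rw [← hpc]; exact pow_orderOf_eq_one c
  have hx2 : x ^ 2 = c := by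
    refine eq_of_mem_zpowers_two hc2 ?_ ?_
    · rw [← huc]; norm_num
    · intro h
      have := orderOf_dvd_of_pow_eq_one h
      rw [hx4] at this
      omega
  have hy2 : y ^ 2 = c := by
    refine eq_of_mem_zpowers_two hc2 ?_ ?_
    · rw [← hvc]; norm_num
    · intro h
      have := orderOf_dvd_of_pow_eq_one h
      rw [hβ] at this
      norm_num at this
  refine ⟨x, hxC, y, hyC, hx4, ?_, ?_, ?_⟩
  · rw [← pow_two, hy2, hx2]
  · have hx4' : x ^ 4 = 1 := by rw [← hx4]; exact pow_orderOf_eq_one x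
    have h1 : y * x = x⁻¹ * y := by
      rw [hc, ← hx2]
      have : x ^ 2 * x = x⁻¹ := by
        rw [eq_inv_iff_mul_eq_one, ← pow_succ, ← pow_succ]; exact hx4'
      rw [this]
    have h2 : x * y = y * x⁻¹ := by
      have : x * (y * x) = y := by rw [h1]; group
      calc x * y = x * (y * x) * x⁻¹ := by group
        _ = y * x⁻¹ := by rw [this]
    rw [mul_assoc, h2]; group
  · intro hmem
    obtain ⟨j, hj⟩ := Subgroup.mem_zpowers_iff.1 hmem
    apply hxy
    rw [← hj]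
    exact ((Commute.refl x).zpow_right j).eq

theorem conj_cases {G : Type*} [Group G] [Finite G] (hn : ∀ H : Subgroup G, H.Normal) (a : G)
    (ha : orderOf a = 4) (g : G) : g * a * g⁻¹ = a ∨ g * a * g⁻¹ = a⁻¹ := by
  have ha4 : a ^ 4 = 1 := by rw [← ha]; exact pow_orderOf_eq_one a
  have h1 : g * a * g⁻¹ ∈ Subgroup.zpowers a :=
    (hn (Subgroup.zpowers a)).conj_mem a (Subgroup.mem_zpowers a) g
  obtain ⟨j, hj⟩ := (Submonoid.mem_powers_iff _ _).1 (mem_powers_iff_mem_zpowers.2 h1)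
  rw [pow_eq_pow_mod j ha4] at hj
  have ho : orderOf (g * a * g⁻¹) = 4 := by rw [Lib.Helper7.orderOf_conj_eq, ha]
  have hcases : j % 4 = 0 ∨ j % 4 = 1 ∨ j % 4 = 2 ∨ j % 4 = 3 := by omega
  rcases hcases with h | h | h | h
  · rw [h, pow_zero] at hj
    rw [← hj, orderOf_one] at ho; omega
  · rw [h, pow_one] at hj; exact Or.inl hj.symm
  · rw [h] at hj
    have h2 : (g * a * g⁻¹) ^ 2 = 1 := by rw [← hj, ← pow_mul]; exact ha4
    have h3 := orderOf_dvd_of_pow_eq_one h2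
    rw [ho] at h3; omega
  · rw [h] at hj
    right
    rw [← hj, eq_inv_iff_mul_eq_one, ← pow_succ]; exact ha4

theorem sq_eq_one_of_comm {G : Type*} [Group G] [Finite G] (hn : ∀ H : Subgroup G, H.Normal)
    {a b : G} (ha : orderOf a = 4) (hab : b⁻¹ * a * b = a⁻¹) {t : G} (hta : t * a = a * t)
    (htb : t * b = b * t) (ht4 : t ^ 4 = 1) : t ^ 2 = 1 := by
  have ha4 : a ^ 4 = 1 := by rw [← ha]; exact pow_orderOf_eq_one a
  have ha2 : a ^ 2 ≠ 1 := by
    intro h
    have := orderOf_dvd_of_pow_eq_one h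
    rw [ha] at this; omega
  have hnc : a * b ≠ b * a := by
    intro h
    apply ha2
    have h1 : b⁻¹ * a * b = a := by rw [mul_assoc, h]; group
    rw [hab] at h1
    calc a ^ 2 = a * a := pow_two a
      _ = a⁻¹ * a := by rw [h1]
      _ = 1 := inv_mul_cancel a
  have hbab : b * a * b⁻¹ = a⁻¹ := by
    have h1 : a = b * a⁻¹ * b⁻¹ := by rw [← hab]; group
    calc b * a * b⁻¹ = (b * a⁻¹ * b⁻¹)⁻¹ := by group
      _ = a⁻¹ := by rw [← h1]
  have hconj : b * (a * t) * b⁻¹ = a⁻¹ * t := by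
    have htb' : t * b⁻¹ = b⁻¹ * t := by
      calc t * b⁻¹ = b⁻¹ * (b * t) * b⁻¹ := by group
        _ = b⁻¹ * (t * b) * b⁻¹ := by rw [htb]
        _ = b⁻¹ * t := by group
    calc b * (a * t) * b⁻¹ = b * a * (t * b⁻¹) := by group
      _ = b * a * (b⁻¹ * t) := by rw [htb']
      _ = (b * a * b⁻¹) * t := by group
      _ = a⁻¹ * t := by rw [hbab]
  have hmem : b * (a * t) * b⁻¹ ∈ Subgroup.zpowers (a * t) :=
    (hn _).conj_mem _ (Subgroup.mem_zpowers _) b
  have hcat : Commute a t := hta.symm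
  have hat4 : (a * t) ^ 4 = 1 := by
    rw [hcat.mul_pow, ha4, ht4, one_mul]
  obtain ⟨j, hj⟩ := (Submonoid.mem_powers_iff _ _).1 (mem_powers_iff_mem_zpowers.2 hmem)
  rw [pow_eq_pow_mod j hat4, hconj, hcat.mul_pow] at hj
  have hta_ne : t ≠ a := by
    intro h
    rw [h] at htb
    exact hnc htb
  have hcases : j % 4 = 0 ∨ j % 4 = 1 ∨ j % 4 = 2 ∨ j % 4 = 3 := by omega
  rcases hcases with h | h | h | h
  · rw [h, pow_zero, pow_zero, one_mul] at hj
    exact absurd (eq_of_inv_mul_eq_one hj.symm).symm hta_ne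
  · rw [h, pow_one, pow_one] at hj
    have h1 : a = a⁻¹ := mul_right_cancel hj
    exfalso
    apply ha2
    calc a ^ 2 = a * a := pow_two a
      _ = a * a⁻¹ := congrArg (a * ·) h1
      _ = 1 := mul_inv_cancel a
  · rw [h] at hj
    have h1 : a ^ 2 * t = a⁻¹ :=
      mul_right_cancel (b := t) (by rw [mul_assoc, ← pow_two]; exact hj)
    have h2 : a ^ 3 * t = 1 := by rw [pow_succ', mul_assoc, h1, mul_inv_cancel]
    have h3 : a ^ 3 * a = 1 := by rw [← pow_succ]; exact ha4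
    exact absurd (mul_left_cancel (h2.trans h3.symm)) hta_ne
  · have h3 : a ^ 3 = a⁻¹ := eq_inv_of_mul_eq_one_left (by rw [← pow_succ]; exact ha4)
    rw [h, h3] at hj
    have h4 : t ^ 3 = t := mul_left_cancel hj
    have h5 : t ^ 2 * t = 1 * t := by rw [← pow_succ, one_mul]; exact h4
    exact mul_right_cancel h5

theorem sq_eq_one_of_two_pow {G : Type*} [Group G] [Finite G] (hn : ∀ H : Subgroup G, H.Normal)
    {a b : G} (ha : orderOf a = 4) (hab : b⁻¹ * a * b = a⁻¹) :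
    ∀ (k : ℕ) (t : G), t * a = a * t → t * b = b * t → t ^ (2 ^ k) = 1 → t ^ 2 = 1 := by
  intro k
  induction k with
  | zero => intro t _ _ h; rw [pow_zero, pow_one] at h; rw [h, one_pow]
  | succ k ih =>
    intro t hta htb h
    rcases Nat.eq_zero_or_pos k with hk | hk
    · subst hk; simpa using h
    · apply ih t hta htb
      have hs : (t ^ (2 ^ (k - 1))) ^ 4 = 1 := by
        rw [← pow_mul]
        have h1 : 2 ^ (k - 1) * 4 = 2 ^ (k + 1) := by
          have h2 : (4 : ℕ) = 2 ^ 2 := by norm_num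
          rw [h2, ← pow_add]; congr 1; omega
        rw [h1]; exact h
      have h3 := sq_eq_one_of_comm hn ha hab (t := t ^ (2 ^ (k - 1)))
        ((Commute.pow_left (show Commute t a from hta) _).eq)
        ((Commute.pow_left (show Commute t b from htb) _).eq) hs
      rw [← pow_mul] at h3
      have h2 : 2 ^ (k - 1) * 2 = 2 ^ k := by rw [← pow_succ]; congr 1; omega
      rwa [h2] at h3

theorem conj_to_comm {G : Type*} [Group G] {g a w : G} (h : g * a * g⁻¹ = w) : g * a = w * g := by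
  rw [← h]; group

theorem odd_two_eq_one {G : Type*} [Group G] (x : G) (h2 : x ^ 2 = 1) (m : ℕ) (hm : Odd m)
    (h : x ^ m = 1) : x = 1 := by
  obtain ⟨k, rfl⟩ := hm
  rw [pow_succ, pow_mul, h2, one_pow, one_mul] at h
  exact h

/-- A finite non-abelian group in which every subgroup is normal is the internal direct product of a subgroup isomorphic to the quaternion group of order `8`, an elementary abelian `2`-subgroup and an abelian subgroup of odd order. -/
theorem result {G : Type*} [Group G] [Finite G] (hna : ¬ IsMulCommutative G) (hn : ∀ H : Subgroup G, H.Normal) : ∃ Q E A : Subgroup G, Nonempty (Q ≃* QuaternionGroup 2) ∧ Cfsg.IsElementaryAbelian 2 E ∧ IsMulCommutative A ∧ Odd (Nat.card A) ∧ E ⊓ A = ⊥ ∧ Q ⊓ (E ⊔ A) = ⊥ ∧ Q ⊔ (E ⊔ A) = ⊤ := by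
  classical
  have hna' : ∃ x ∈ (⊤ : Subgroup G), ∃ y ∈ (⊤ : Subgroup G), x * y ≠ y * x := by
    by_contra h
    push Not at h
    exact hna ⟨⟨fun x y => h x (Subgroup.mem_top x) y (Subgroup.mem_top y)⟩⟩
  obtain ⟨a, -, b, -, ha, hbb, hab, hbna⟩ := exists_quat_pair hn ⊤ hna'
  have ha4 : a ^ 4 = 1 := by rw [← ha]; exact pow_orderOf_eq_one a
  have ha2 : a ^ 2 ≠ 1 := by
    intro h
    have := orderOf_dvd_of_pow_eq_one h
    rw [ha] at this; omega
  have hnc : a * b ≠ b * a := by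
    intro h
    apply ha2
    have h1 : b⁻¹ * a * b = a := by rw [mul_assoc, h]; group
    rw [hab] at h1
    calc a ^ 2 = a * a := pow_two a
      _ = a⁻¹ * a := by rw [h1]
      _ = 1 := inv_mul_cancel a
  have hb4 : orderOf b = 4 := by
    have hb2 : b ^ 2 = a ^ 2 := by rw [pow_two, hbb]
    have h1 := orderOf_eq_prime_pow (p := 2) (n := 1) (x := b)
      (by rw [pow_one, hb2]; exact ha2)
      (by
        have h22 : (2 : ℕ) ^ (1 + 1) = 2 * 2 := by norm_num
        rw [h22, pow_mul, hb2, ← pow_mul]; exact ha4)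
    rw [h1]; norm_num
  -- identities
  have hab1 : a * b = b * a⁻¹ := by rw [← hab]; group
  have hI2 : a * b * (b * a) = 1 := by
    calc a * b * (b * a) = a * (b * b) * a := by group
      _ = a * a ^ 2 * a := by rw [hbb]
      _ = a ^ 4 := by group
      _ = 1 := ha4
  have hK1 : a⁻¹ * b⁻¹ = b * a⁻¹ := by
    rw [← mul_inv_rev, inv_eq_of_mul_eq_one_left hI2, hab1]
  have hK2 : b⁻¹ * a⁻¹ = a * b⁻¹ := by
    have h : (b⁻¹ * a * b)⁻¹ = a := by rw [hab, inv_inv]
    calc b⁻¹ * a⁻¹ = (b⁻¹ * a * b)⁻¹ * b⁻¹ := by group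
      _ = a * b⁻¹ := by rw [h]
  -- Q
  have ha4' : a ^ (2 * 2) = 1 := ha4
  have hord : orderOf a = 2 * 2 := ha
  obtain ⟨f, hf, hfa, hfxa⟩ : ∃ f : QuaternionGroup 2 →* G, Function.Injective f ∧
      (∀ i : ZMod (2 * 2), f (QuaternionGroup.a i) = a ^ i.val) ∧
      (∀ i : ZMod (2 * 2), f (QuaternionGroup.xa i) = b * a ^ i.val) :=
    ⟨Lib.Lead.quaternionLift 2 a b ha4' hbb hab,
      Lib.Lead.quaternionLift_injective ha4' hbb hab hord hbna, fun _ => rfl, fun _ => rfl⟩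
  have haQ : a ∈ f.range := by
    refine ⟨QuaternionGroup.a 1, ?_⟩
    rw [hfa, show (1 : ZMod (2 * 2)).val = 1 from rfl, pow_one]
  have hbQ : b ∈ f.range := by
    refine ⟨QuaternionGroup.xa 0, ?_⟩
    rw [hfxa, ZMod.val_zero, pow_zero, mul_one]
  have hQform : ∀ q ∈ f.range, ∃ i : ℕ, q = a ^ i ∨ q = b * a ^ i := by
    rintro q ⟨(i | i), rfl⟩
    · exact ⟨i.val, Or.inl (hfa i)⟩
    · exact ⟨i.val, Or.inr (hfxa i)⟩
  -- C
  obtain ⟨C, hCdef⟩ : ∃ C : Subgroup G,
      C = Subgroup.centralizer {a} ⊓ Subgroup.centralizer {b} := ⟨_, rfl⟩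
  have hCmem : ∀ t, t ∈ C ↔ t * a = a * t ∧ t * b = b * t := by
    intro t
    rw [hCdef, Subgroup.mem_inf, Subgroup.mem_centralizer_singleton_iff,
      Subgroup.mem_centralizer_singleton_iff]
  have hCcomm : ∀ s ∈ C, ∀ t ∈ C, s * t = t * s := by
    by_contra h
    push Not at h
    obtain ⟨a', ha'C, b', hb'C, ha', -, -, -⟩ := exists_quat_pair hn C h
    have h1 := sq_eq_one_of_comm hn ha hab ((hCmem a').1 ha'C).1 ((hCmem a').1 ha'C).2
      (by rw [← ha']; exact pow_orderOf_eq_one a')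
    have h2 := orderOf_dvd_of_pow_eq_one h1
    rw [ha'] at h2; omega
  have h2el : ∀ t ∈ C, ∀ k : ℕ, t ^ (2 ^ k) = 1 → t ^ 2 = 1 := fun t ht k h =>
    sq_eq_one_of_two_pow hn ha hab k t ((hCmem t).1 ht).1 ((hCmem t).1 ht).2 h
  obtain ⟨E', hE'mem⟩ : ∃ E' : Subgroup G, ∀ t, t ∈ E' ↔ t ∈ C ∧ t ^ 2 = 1 :=
    ⟨{ carrier := {t | t ∈ C ∧ t ^ 2 = 1}
       mul_mem' := by
         rintro s t ⟨hs, hs2⟩ ⟨ht, ht2⟩
         refine ⟨C.mul_mem hs ht, ?_⟩
         rw [(show Commute s t from hCcomm s hs t ht).mul_pow, hs2, ht2, one_mul]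
       one_mem' := ⟨C.one_mem, one_pow 2⟩
       inv_mem' := by
         rintro s ⟨hs, hs2⟩
         exact ⟨C.inv_mem hs, by rw [inv_pow, hs2, inv_one]⟩ }, fun t => Iff.rfl⟩
  obtain ⟨A, hAmem⟩ : ∃ A : Subgroup G, ∀ t, t ∈ A ↔ t ∈ C ∧ ∃ m : ℕ, Odd m ∧ t ^ m = 1 :=
    ⟨{ carrier := {t | t ∈ C ∧ ∃ m : ℕ, Odd m ∧ t ^ m = 1}
       mul_mem' := by
         rintro s t ⟨hs, m1, hm1, hs1⟩ ⟨ht, m2, hm2, ht1⟩
         refine ⟨C.mul_mem hs ht, m1 * m2, hm1.mul hm2, ?_⟩
         rw [(show Commute s t from hCcomm s hs t ht).mul_pow, pow_mul, hs1, one_pow,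
           mul_comm m1 m2, pow_mul, ht1, one_pow, one_mul]
       one_mem' := ⟨C.one_mem, 1, odd_one, one_pow 1⟩
       inv_mem' := by
         rintro s ⟨hs, m, hm, hs1⟩
         exact ⟨C.inv_mem hs, m, hm, by rw [inv_pow, hs1, inv_one]⟩ }, fun t => Iff.rfl⟩
  obtain ⟨c, hcdef⟩ : ∃ c, c = a ^ 2 := ⟨_, rfl⟩
  have hc1 : c ≠ 1 := by rw [hcdef]; exact ha2
  have hcc : c * c = 1 := by rw [hcdef, ← pow_add]; exact ha4
  have hcC : c ∈ C := by
    rw [hCmem]
    refine ⟨?_, ?_⟩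
    · rw [hcdef, ← pow_succ, ← pow_succ']
    · rw [hcdef, ← hbb, mul_assoc]
  have hcE' : c ∈ E' := (hE'mem c).2 ⟨hcC, by rw [pow_two]; exact hcc⟩
  have hcQ : c ∈ f.range := by rw [hcdef]; exact f.range.pow_mem haQ 2
  obtain ⟨E, ⟨hEle, hcE⟩, hEmax⟩ := (wellFounded_gt (α := Subgroup G)).has_min
    {E | E ≤ E' ∧ c ∉ E} ⟨⊥, bot_le, fun h => hc1 (Subgroup.mem_bot.1 h)⟩
  have hEC : ∀ x ∈ E, x ∈ C := fun x hx => ((hE'mem x).1 (hEle hx)).1
  have hAC : ∀ x ∈ A, x ∈ C := fun x hx => ((hAmem x).1 hx).1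
  have hEdich : ∀ x ∈ E', x ∈ E ∨ x * c ∈ E := by
    intro x hx
    by_cases hxE : x ∈ E
    · exact Or.inl hxE
    right
    have hlt : E < E ⊔ Subgroup.zpowers x := by
      refine lt_of_le_of_ne le_sup_left ?_
      intro h
      apply hxE
      rw [h]
      exact Subgroup.mem_sup_right (Subgroup.mem_zpowers x)
    have hle : E ⊔ Subgroup.zpowers x ≤ E' :=
      sup_le hEle (by rw [Subgroup.zpowers_le]; exact hx)
    have hcin : c ∈ E ⊔ Subgroup.zpowers x := by
      by_contra hc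
      exact hEmax _ ⟨hle, hc⟩ hlt
    haveI := hn (Subgroup.zpowers x)
    have hcin' : c ∈ (E : Set G) * (Subgroup.zpowers x : Set G) := by
      rw [← Subgroup.mul_normal]; exact hcin
    obtain ⟨e, he, z, hz, hez⟩ := Set.mem_mul.1 hcin'
    have hx2 : x ^ 2 = 1 := ((hE'mem x).1 hx).2
    have hz' : z = 1 ∨ z = x := by
      by_cases h1 : z = 1
      · exact Or.inl h1
      · exact Or.inr (eq_of_mem_zpowers_two hx2 hz h1)
    rcases hz' with h | h
    · rw [h, mul_one] at hez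
      rw [hez] at he
      exact absurd he hcE
    · rw [h] at hez
      rw [← hez]
      have hcomm : x * e = e * x := hCcomm x ((hE'mem x).1 hx).1 e (hEC e he)
      have h3 : x * (e * x) = e := by
        rw [← mul_assoc, hcomm, mul_assoc, ← pow_two, hx2, mul_one]
      rw [h3]; exact he
  have hsplit : ∀ t ∈ C, ∃ y ∈ E', ∃ z ∈ A, t = y * z := by
    intro t ht
    obtain ⟨y, z, hyz, -, ⟨k, hk⟩, hz, hyt, hzt⟩ := Lib.Helper6.exists_p_decomp 2 t
    have hyC : y ∈ C := (Subgroup.zpowers_le.2 ht) hyt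
    have hzC : z ∈ C := (Subgroup.zpowers_le.2 ht) hzt
    refine ⟨y, (hE'mem y).2 ⟨hyC, h2el y hyC k (by rw [← hk]; exact pow_orderOf_eq_one y)⟩, z,
      (hAmem z).2 ⟨hzC, orderOf z, Nat.Coprime.odd_of_right hz, pow_orderOf_eq_one z⟩, hyz⟩
  have hdecomp : ∀ g : G, ∃ q ∈ f.range, ∃ t ∈ C, g = q * t := by
    intro g
    rcases conj_cases hn a ha g with h1 | h1 <;> rcases conj_cases hn b hb4 g with h2 | h2
    · have h1' : g * a = a * g := conj_to_comm h1
      have h2' : g * b = b * g := conj_to_comm h2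
      exact ⟨1, f.range.one_mem, g, (hCmem g).2 ⟨h1', h2'⟩, (one_mul g).symm⟩
    · have h1' : g * a = a * g := conj_to_comm h1
      have h2' : g * b = b⁻¹ * g := conj_to_comm h2
      refine ⟨a, haQ, a⁻¹ * g, (hCmem _).2 ⟨?_, ?_⟩, by group⟩
      · calc a⁻¹ * g * a = a⁻¹ * (g * a) := mul_assoc _ _ _
          _ = a⁻¹ * (a * g) := by rw [h1']
          _ = a * (a⁻¹ * g) := by group
      · calc a⁻¹ * g * b = a⁻¹ * (g * b) := mul_assoc _ _ _
          _ = a⁻¹ * (b⁻¹ * g) := by rw [h2']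
          _ = (a⁻¹ * b⁻¹) * g := by group
          _ = (b * a⁻¹) * g := by rw [hK1]
          _ = b * (a⁻¹ * g) := by group
    · have h1' : g * a = a⁻¹ * g := conj_to_comm h1
      have h2' : g * b = b * g := conj_to_comm h2
      refine ⟨b, hbQ, b⁻¹ * g, (hCmem _).2 ⟨?_, ?_⟩, by group⟩
      · calc b⁻¹ * g * a = b⁻¹ * (g * a) := mul_assoc _ _ _
          _ = b⁻¹ * (a⁻¹ * g) := by rw [h1']
          _ = (b⁻¹ * a⁻¹) * g := by group
          _ = (a * b⁻¹) * g := by rw [hK2]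
          _ = a * (b⁻¹ * g) := by group
      · calc b⁻¹ * g * b = b⁻¹ * (g * b) := mul_assoc _ _ _
          _ = b⁻¹ * (b * g) := by rw [h2']
          _ = b * (b⁻¹ * g) := by group
    · have h1' : g * a = a⁻¹ * g := conj_to_comm h1
      have h2' : g * b = b⁻¹ * g := conj_to_comm h2
      refine ⟨a * b, f.range.mul_mem haQ hbQ, (a * b)⁻¹ * g, (hCmem _).2 ⟨?_, ?_⟩, by group⟩
      · calc (a * b)⁻¹ * g * a = (a * b)⁻¹ * (g * a) := mul_assoc _ _ _
          _ = (a * b)⁻¹ * (a⁻¹ * g) := by rw [h1']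
          _ = (b⁻¹ * a⁻¹) * a⁻¹ * g := by group
          _ = (a * b⁻¹) * a⁻¹ * g := by rw [hK2]
          _ = a * ((a * b)⁻¹ * g) := by group
      · calc (a * b)⁻¹ * g * b = (a * b)⁻¹ * (g * b) := mul_assoc _ _ _
          _ = (a * b)⁻¹ * (b⁻¹ * g) := by rw [h2']
          _ = b⁻¹ * (a⁻¹ * b⁻¹) * g := by group
          _ = b⁻¹ * (b * a⁻¹) * g := by rw [hK1]
          _ = b * ((a * b)⁻¹ * g) := by group
  have hsupC : E ⊔ A ≤ C := sup_le hEC hAC
  refine ⟨f.range, E, A, ⟨(MonoidHom.ofInjective hf).symm⟩, ⟨?_, ?_⟩, ?_, ?_, ?_, ?_, ?_⟩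
  · exact ⟨⟨fun x y => Subtype.ext (hCcomm _ (hEC _ x.2) _ (hEC _ y.2))⟩⟩
  · intro x hx
    exact ((hE'mem x).1 (hEle hx)).2
  · exact ⟨⟨fun x y => Subtype.ext (hCcomm _ (hAC _ x.2) _ (hAC _ y.2))⟩⟩
  · by_contra hodd
    rw [Nat.not_odd_iff_even] at hodd
    obtain ⟨x, hx⟩ := exists_prime_orderOf_dvd_card' (G := A) 2 hodd.two_dvd
    obtain ⟨-, m, hm, hxm⟩ := (hAmem (x : G)).1 x.2
    have h1 := orderOf_dvd_of_pow_eq_one hxm
    rw [Subgroup.orderOf_coe, hx] at h1
    exact (Nat.not_even_iff_odd.2 hm) (even_iff_two_dvd.2 h1)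
  · refine (Subgroup.eq_bot_iff_forall _).2 fun x hx => ?_
    obtain ⟨hxE, hxA⟩ := Subgroup.mem_inf.1 hx
    obtain ⟨-, m, hm, hxm⟩ := (hAmem x).1 hxA
    exact odd_two_eq_one x ((hE'mem x).1 (hEle hxE)).2 m hm hxm
  · refine (Subgroup.eq_bot_iff_forall _).2 fun x hx => ?_
    obtain ⟨hxQ, hxS⟩ := Subgroup.mem_inf.1 hx
    have hxC : x ∈ C := hsupC hxS
    obtain ⟨hxa, hxb⟩ := (hCmem x).1 hxC
    obtain ⟨i, hi | hi⟩ := hQform x hxQ
    · rw [pow_eq_pow_mod i ha4] at hi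
      have hcases : i % 4 = 0 ∨ i % 4 = 1 ∨ i % 4 = 2 ∨ i % 4 = 3 := by omega
      rcases hcases with h | h | h | h
      · rw [hi, h, pow_zero]
      · rw [h, pow_one] at hi
        rw [hi] at hxb
        exact absurd hxb hnc
      · rw [h, ← hcdef] at hi
        exfalso
        haveI := hn A
        have hxS' : x ∈ (E : Set G) * (A : Set G) := by
          rw [← Subgroup.mul_normal]; exact hxS
        obtain ⟨e, he, o, ho, heo⟩ := Set.mem_mul.1 hxS'
        have ho' : o = e⁻¹ * c := by rw [← hi, ← heo]; group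
        have hoE' : o ∈ E' := by
          rw [ho']; exact E'.mul_mem (E'.inv_mem (hEle he)) hcE'
        obtain ⟨-, m, hm, hom⟩ := (hAmem o).1 ho
        have ho1 : o = 1 := odd_two_eq_one o ((hE'mem o).1 hoE').2 m hm hom
        rw [ho1, mul_one] at heo
        rw [heo, hi] at he
        exact hcE he
      · have h3 : a ^ 3 = a⁻¹ := eq_inv_of_mul_eq_one_left (by rw [← pow_succ]; exact ha4)
        rw [h, h3] at hi
        rw [hi] at hxb
        exfalso
        apply hnc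
        calc a * b = a * (b * a⁻¹) * a := by group
          _ = a * (a⁻¹ * b) * a := by rw [hxb]
          _ = b * a := by group
    · exfalso
      rw [hi] at hxa
      have h' : b * a * a ^ i = a * b * a ^ i := by
        calc b * a * a ^ i = b * a ^ i * a := by group
          _ = a * (b * a ^ i) := hxa
          _ = a * b * a ^ i := by group
      exact hnc (mul_right_cancel h').symm
  · refine eq_top_iff.2 fun g _ => ?_
    obtain ⟨q, hq, t, ht, hg⟩ := hdecomp g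
    obtain ⟨y, hy, z, hz, hyz⟩ := hsplit t ht
    rcases hEdich y hy with hyE | hyE
    · rw [hg, hyz]
      exact Subgroup.mul_mem_sup hq (Subgroup.mul_mem_sup hyE hz)
    · have hcy : c * y = y * c := hCcomm c hcC y ((hE'mem y).1 hy).1
      have hg' : g = (q * c) * ((y * c) * z) := by
        rw [hg, hyz]
        symm
        calc (q * c) * ((y * c) * z) = q * (c * y) * c * z := by group
          _ = q * (y * c) * c * z := by rw [hcy]
          _ = q * y * (c * c) * z := by group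
          _ = q * (y * z) := by rw [hcc]; group
      rw [hg']
      exact Subgroup.mul_mem_sup (f.range.mul_mem hq hcQ) (Subgroup.mul_mem_sup hyE hz)

end Cfsg.Agent.S4211
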