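import Cfsg.Statements.S4230
import Mathlib

set_option autoImplicit false
open Cfsg

namespace Cfsg.Agent.S4230

open Polynomial

theorem dvd_iff_isRoot (p q f : ℕ) :
    ((p : ℤ) ∣ (Polynomial.cyclotomic f ℤ).eval (q : ℤ)) ↔
      (Polynomial.cyclotomic f (ZMod p)).IsRoot (q : ZMod p) := by
  rw [← ZMod.intCast_zmod_eq_zero_iff_dvd, Polynomial.IsRoot.def, ← Polynomial.map_cyclotomic_int f (ZMod p)]
  have h := Polynomial.eval_intCast_map (Int.castRingHom (ZMod p)) (Polynomial.cyclotomic f ℤ) (q : ℤ)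
  simp only [Int.cast_natCast, eq_intCast] at h
  rw [h]

theorem isRoot_iff_of_not_dvd (p : ℕ) [Fact p.Prime] (m : ℕ) (hm : ¬ p ∣ m) (a : ZMod p) :
    (Polynomial.cyclotomic m (ZMod p)).IsRoot a ↔ m = orderOf a := by
  have : NeZero ((m : ℕ) : ZMod p) := ⟨by
    intro h0
    exact hm ((ZMod.natCast_eq_zero_iff m p).mp h0)⟩
  rw [Polynomial.isRoot_cyclotomic_iff]
  constructor
  · intro h; exact h.eq_orderOf
  · intro h; rw [h]; exact IsPrimitiveRoot.orderOf a

theorem isRoot_pow_mul_iff (p : ℕ) [Fact p.Prime] (m j : ℕ) (hm : ¬ p ∣ m) (a : ZMod p) :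
    (Polynomial.cyclotomic (p ^ j * m) (ZMod p)).IsRoot a ↔ m = orderOf a := by
  have hp : p.Prime := Fact.out
  rcases Nat.eq_zero_or_pos j with rfl | hj
  · rw [pow_zero, one_mul]; exact isRoot_iff_of_not_dvd p m hm a
  · rw [Polynomial.cyclotomic_mul_prime_pow_eq (ZMod p) hm hj, ← isRoot_iff_of_not_dvd p m hm a,
      Polynomial.IsRoot.def, Polynomial.IsRoot.def, Polynomial.eval_pow]
    have hpos : p ^ j - p ^ (j - 1) ≠ 0 := by
      have : p ^ (j - 1) < p ^ j := Nat.pow_lt_pow_right hp.one_lt (by omega)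
      omega
    exact pow_eq_zero_iff hpos

/-- Let p be an odd prime, q a natural number not divisible by p, and e the multiplicative order of q modulo p. For a natural number f, p divides the value at q of the f-th cyclotomic polynomial if and only if f = e·p^j for some j ≥ 0. -/
theorem result (p q f : ℕ) (hp : p.Prime) (hp2 : p ≠ 2) (hpq : ¬ p ∣ q) :
    ((p : ℤ) ∣ (Polynomial.cyclotomic f ℤ).eval (q : ℤ)) ↔ ∃ j : ℕ, f = orderOf (q : ZMod p) * p ^ j := by
  have : Fact p.Prime := ⟨hp⟩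
  rw [dvd_iff_isRoot]
  have hq0 : (q : ZMod p) ≠ 0 := fun h0 => hpq ((ZMod.natCast_eq_zero_iff q p).mp h0)
  have he : ¬ p ∣ orderOf (q : ZMod p) := by
    intro hdvd
    have h1 := hdvd.trans (ZMod.orderOf_dvd_card_sub_one hq0)
    have h2 : p ≤ p - 1 := Nat.le_of_dvd (by have := hp.two_le; omega) h1
    have := hp.two_le
    omega
  constructor
  · intro hroot
    have hf : f ≠ 0 := by
      rintro rfl
      rw [Polynomial.cyclotomic_zero, Polynomial.IsRoot.def, Polynomial.eval_one] at hroot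
      exact one_ne_zero hroot
    obtain ⟨j, m, hm, hfm⟩ := Nat.exists_eq_pow_mul_and_not_dvd hf p hp.ne_one
    rw [hfm, isRoot_pow_mul_iff p m j hm] at hroot
    exact ⟨j, by rw [hfm, hroot, mul_comm]⟩
  · rintro ⟨j, rfl⟩
    rw [mul_comm, isRoot_pow_mul_iff p _ j he]

end Cfsg.Agent.S4230
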