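import Mathlib
import Cfsg.Statements.S4238
import Cfsg.Agent.Lib.Lead.PNilp
import Cfsg.Agent.Lib.Lead.PNilp2
import Cfsg.Agent.Lib.Helper5.CoprimeAB
import Cfsg.Agent.Lib.Helper3.PPrimeCore
import Cfsg.Agent.Lib.Helper3.PiCore
import Cfsg.Agent.Lib.Helper7.SylowAux

set_option autoImplicit false
open Cfsg

namespace Cfsg.Agent.S4238

open Subgroup Cfsg.Agent.Lib.Helper7

/-- A group `V ⋊ C_q` with `V` a nontrivial normal `p`-subgroup on which an element `c` of order
`q` acts without fixed points has trivial `O_{p'}` and no element of order the exponent. -/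
theorem frob_section {K : Type*} [Group K] [Finite K] (p q : ℕ) [Fact p.Prime] [Fact q.Prime]
    (hpq : p ≠ q) (V : Subgroup K) [hVn : V.Normal] (hV : IsPGroup p V) (hVne : V ≠ ⊥) (c : K)
    (hcq : c ^ q = 1) (hcV : c ∉ V)
    (hgen : ∀ k : K, ∃ v ∈ V, ∃ i : ℤ, k = v * c ^ i)
    (hfix : ∀ v ∈ V, c * v = v * c → v = 1) :
    Cfsg.pPrimeCore p K = ⊥ ∧ ∀ k : K, orderOf k ≠ Monoid.exponent K := by
  have hp : p.Prime := Fact.out
  have hq : q.Prime := Fact.out
  have hc1 : c ≠ 1 := fun h => hcV (h ▸ V.one_mem)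
  have hco : orderOf c = q := orderOf_eq_prime hcq hc1
  have hidx : V.index = q := by
    have h1 : ∀ k : K ⧸ V, k ∈ zpowers ((c : K) : K ⧸ V) := by
      intro k
      induction k using QuotientGroup.induction_on with
      | H k =>
        obtain ⟨v, hv, i, rfl⟩ := hgen k
        refine ⟨i, ?_⟩
        show ((c : K) : K ⧸ V) ^ i = ((v * c ^ i : K) : K ⧸ V)
        rw [QuotientGroup.mk_mul, (QuotientGroup.eq_one_iff v).mpr hv, one_mul, QuotientGroup.mk_zpow]
    have h2 : orderOf ((c : K) : K ⧸ V) = Nat.card (K ⧸ V) := orderOf_eq_card_of_forall_mem_zpowers h1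
    have h3 : ((c : K) : K ⧸ V) ^ q = 1 := by rw [← QuotientGroup.mk_pow, hcq]; rfl
    have h4 : ((c : K) : K ⧸ V) ≠ 1 := fun h => hcV ((QuotientGroup.eq_one_iff c).mp h)
    show Nat.card (K ⧸ V) = q
    rw [← h2]
    exact orderOf_eq_prime h3 h4
  obtain ⟨a, ha⟩ := IsPGroup.iff_card.mp hV
  have hK : Nat.card K = p ^ a * q := by rw [← Subgroup.card_mul_index V, ha, hidx]
  have ha1 : 1 ≤ a := by
    by_contra h
    have h0 : a = 0 := by omega
    rw [h0, pow_zero] at ha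
    exact hVne (Subgroup.card_eq_one.mp ha)
  have hcop : Nat.Coprime q p := (Nat.coprime_primes hq hp).mpr (Ne.symm hpq)
  have hsyl : ∀ Q : Sylow q K, Nat.card Q = q := by
    intro Q
    obtain ⟨b, hb⟩ := IsPGroup.iff_card.mp Q.2
    have h1 : q ^ b ∣ p ^ a * q := by rw [← hb, ← hK]; exact Subgroup.card_subgroup_dvd_card _
    have h2 : q ^ b ∣ q := (Nat.Coprime.dvd_mul_left (Nat.Coprime.pow b a hcop)).mp h1
    have h3 : q ∣ Nat.card Q := by
      have h4 := Q.card_eq_multiplicity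
      have h5 : q ∣ Nat.card K := by rw [hK]; exact dvd_mul_left q _
      have h6 : 0 < (Nat.card K).factorization q :=
        Nat.Prime.factorization_pos_of_dvd hq Nat.card_pos.ne' h5
      rw [h4]
      exact dvd_pow_self q (by omega)
    rw [hb] at h3 ⊢
    exact Nat.dvd_antisymm h2 h3
  have KC : ∀ y : K, orderOf y = q → ∀ v ∈ V, y * v = v * y → v = 1 := by
    intro y hy v hv hyv
    have hpc : IsPGroup q (zpowers c) :=
      IsPGroup.of_card (n := 1) (by rw [Nat.card_zpowers, hco, pow_one])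
    have hpy : IsPGroup q (zpowers y) :=
      IsPGroup.of_card (n := 1) (by rw [Nat.card_zpowers, hy, pow_one])
    obtain ⟨Qc, hQc⟩ := hpc.exists_le_sylow
    obtain ⟨Qy, hQy⟩ := hpy.exists_le_sylow
    have e1 : zpowers c = (Qc : Subgroup K) :=
      Subgroup.eq_of_le_of_card_ge hQc (by rw [hsyl, Nat.card_zpowers, hco])
    obtain ⟨t, ht⟩ := MulAction.exists_smul_eq K Qc Qy
    have h1 : y ∈ (t • Qc : Sylow q K) := by rw [ht]; exact hQy (mem_zpowers y)
    rw [mem_sylow_smul_iff] at h1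
    have h2 : t⁻¹ * y * t ∈ zpowers c := by rw [e1]; exact h1
    obtain ⟨i, hi⟩ := Subgroup.mem_zpowers_iff.mp h2
    have h3 : orderOf (c ^ i) = q := by
      rw [hi]
      have := orderOf_conj_eq t⁻¹ y
      rw [inv_inv] at this
      rw [this, hy]
    have h4 : zpowers (c ^ i) = zpowers c :=
      Subgroup.eq_of_le_of_card_ge (zpowers_le.mpr ⟨i, rfl⟩)
        (by rw [Nat.card_zpowers, Nat.card_zpowers, h3, hco])
    have h5 : c ∈ zpowers (c ^ i) := by rw [h4]; exact mem_zpowers c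
    obtain ⟨j, hj⟩ := Subgroup.mem_zpowers_iff.mp h5
    have hv' : t⁻¹ * v * t ∈ V := by
      have := hVn.conj_mem v hv t⁻¹
      simpa using this
    have h6 : Commute (c ^ i) (t⁻¹ * v * t) := by
      show (c ^ i) * (t⁻¹ * v * t) = (t⁻¹ * v * t) * (c ^ i)
      rw [hi]
      calc t⁻¹ * y * t * (t⁻¹ * v * t) = t⁻¹ * (y * v) * t := by group
        _ = t⁻¹ * (v * y) * t := by rw [hyv]
        _ = t⁻¹ * v * t * (t⁻¹ * y * t) := by group
    have h7 : c * (t⁻¹ * v * t) = (t⁻¹ * v * t) * c := by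
      rw [← hj]
      exact (h6.zpow_left j).eq
    have h8 := hfix _ hv' h7
    have h9 : v = t * (t⁻¹ * v * t) * t⁻¹ := by group
    rw [h9, h8]; group
  constructor
  · by_contra hne
    haveI hMn := Cfsg.Agent.Lib.Helper3.pPrimeCore_normal p K
    have hMc := Cfsg.Agent.Lib.Helper3.pPrimeCore_coprime hp K
    set M := Cfsg.pPrimeCore p K with hM
    obtain ⟨y, hyM⟩ := (Subgroup.ne_bot_iff_exists_ne_one).mp hne
    have hyM' : (y : K) ∈ M := y.2
    have hy1' : (y : K) ≠ 1 := fun h => hyM (Subtype.ext h)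
    have h1 : orderOf (y : K) ∣ Nat.card M := by
      have := orderOf_dvd_natCard y
      rwa [Subgroup.orderOf_coe]
    have h2 : Nat.card M ∣ p ^ a * q := by rw [← hK]; exact Subgroup.card_subgroup_dvd_card M
    have h3 : orderOf (y : K) ∣ q := by
      have h4 : orderOf (y : K) ∣ p ^ a * q := dvd_trans h1 h2
      have h5 : (orderOf (y : K)).Coprime (p ^ a) :=
        Nat.Coprime.pow_right a (Nat.Coprime.coprime_dvd_left h1 hMc)
      exact h5.dvd_of_dvd_mul_left h4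
    have h6 : orderOf (y : K) = q := by
      rcases (Nat.dvd_prime hq).mp h3 with h | h
      · exact absurd (orderOf_eq_one_iff.mp h) hy1'
      · exact h
    apply hVne
    rw [eq_bot_iff]
    intro v hv
    have h7 : v * (y : K) * v⁻¹ * (y : K)⁻¹ ∈ M := M.mul_mem (hMn.conj_mem _ hyM' v) (M.inv_mem hyM')
    have h8 : v * (y : K) * v⁻¹ * (y : K)⁻¹ ∈ V := by
      have : v * (y : K) * v⁻¹ * (y : K)⁻¹ = v * ((y : K) * v⁻¹ * (y : K)⁻¹) := by group
      rw [this]; exact V.mul_mem hv (hVn.conj_mem _ (V.inv_mem hv) _)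
    have h9 : v * (y : K) * v⁻¹ * (y : K)⁻¹ = 1 := by
      set w := v * (y : K) * v⁻¹ * (y : K)⁻¹
      have o1 : orderOf w ∣ Nat.card M := by
        have := orderOf_dvd_natCard (⟨w, h7⟩ : M)
        rwa [Subgroup.orderOf_mk] at this
      have o2 : orderOf w ∣ p ^ a := by
        rw [← ha]
        have := orderOf_dvd_natCard (⟨w, h8⟩ : V)
        rwa [Subgroup.orderOf_mk] at this
      have o3 : orderOf w = 1 := Nat.eq_one_of_dvd_coprimes (Nat.Coprime.pow_right a hMc) o1 o2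
      exact orderOf_eq_one_iff.mp o3
    have h10 : (y : K) * v = v * (y : K) := by
      have : v * (y : K) = (v * (y : K) * v⁻¹ * (y : K)⁻¹) * ((y : K) * v) := by group
      rw [this, h9, one_mul]
    exact Subgroup.mem_bot.mpr (KC _ h6 v hv h10)
  · intro k hk
    have hpV : p ∣ Nat.card V := by rw [ha]; exact dvd_pow_self p (by omega)
    obtain ⟨v, hv⟩ := exists_prime_orderOf_dvd_card' p hpV
    have e1 : p ∣ Monoid.exponent K := by
      have := Monoid.order_dvd_exponent (v : K)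
      rwa [Subgroup.orderOf_coe, hv] at this
    have e2 : q ∣ Monoid.exponent K := by
      have := Monoid.order_dvd_exponent c
      rwa [hco] at this
    rw [← hk] at e1 e2
    have hn0 : orderOf k ≠ 0 := (orderOf_pos k).ne'
    have o1 : orderOf (k ^ (orderOf k / p)) = p := orderOf_pow_orderOf_div hn0 e1
    have o2 : orderOf (k ^ (orderOf k / q)) = q := orderOf_pow_orderOf_div hn0 e2
    have hcomm : k ^ (orderOf k / q) * k ^ (orderOf k / p) = k ^ (orderOf k / p) * k ^ (orderOf k / q) := by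
      rw [← pow_add, ← pow_add, add_comm]
    have hmem : k ^ (orderOf k / p) ∈ V := by
      rw [← QuotientGroup.eq_one_iff]
      have a1 : ((k ^ (orderOf k / p) : K) : K ⧸ V) ^ p = 1 := by
        rw [← QuotientGroup.mk_pow]
        have : (k ^ (orderOf k / p)) ^ p = 1 := by
          have := pow_orderOf_eq_one (k ^ (orderOf k / p))
          rwa [o1] at this
        rw [this]; rfl
      have a2 : ((k ^ (orderOf k / p) : K) : K ⧸ V) ^ q = 1 := by
        have := pow_card_eq_one' (G := K ⧸ V) (x := ((k ^ (orderOf k / p) : K) : K ⧸ V))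
        rwa [show Nat.card (K ⧸ V) = q from hidx] at this
      have a3 : orderOf ((k ^ (orderOf k / p) : K) : K ⧸ V) = 1 :=
        Nat.eq_one_of_dvd_coprimes ((Nat.coprime_primes hp hq).mpr hpq)
          (orderOf_dvd_of_pow_eq_one a1) (orderOf_dvd_of_pow_eq_one a2)
      exact orderOf_eq_one_iff.mp a3
    have h11 := KC _ o2 _ hmem hcomm
    rw [h11, orderOf_one] at o1
    exact hp.one_lt.ne o1

universe u

theorem exists_min_pair {G : Type u} [Group G] [Finite G] (p : ℕ) [Fact p.Prime]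
    (h : ¬ Cfsg.HasNormalPComplement p G) :
    ∃ (Q : Subgroup G) (g : G), IsPGroup p Q ∧ g ∈ normalizer (Q : Set G) ∧
      (orderOf g).Coprime p ∧ g ∉ centralizer (Q : Set G) ∧
      (∀ Q0 : Subgroup G, Q0 ≤ Q → Q0 ≠ Q → g ∈ normalizer (Q0 : Set G) →
        g ∈ centralizer (Q0 : Set G)) ∧
      (∀ ℓ : ℕ, ℓ.Prime → ℓ ∣ orderOf g → g ^ ℓ ∈ centralizer (Q : Set G)) := by
  classical
  let S : ℕ → Prop := fun n => ∃ (Q : Subgroup G) (g : G), IsPGroup p Q ∧
    g ∈ normalizer (Q : Set G) ∧ (orderOf g).Coprime p ∧ g ∉ centralizer (Q : Set G) ∧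
    Nat.card Q + orderOf g = n
  have hex : ∃ n, S n := by
    obtain ⟨P⟩ : Nonempty (Sylow p G) := inferInstance
    by_contra hcon
    apply h
    have hF : ∀ Q : Subgroup G, Q ≤ (P : Subgroup G) → ∀ g ∈ normalizer (Q : Set G),
        Nat.Coprime (orderOf g) p → g ∈ centralizer (Q : Set G) := by
      intro Q hQ g hg hgc
      by_contra hgn
      exact hcon ⟨_, Q, g, P.2.to_le hQ, hg, hgc, hgn, rfl⟩
    obtain ⟨N, hNn, hNc⟩ := (Cfsg.Agent.Lib.Lead.frobenius_pnilpotent P).mpr hF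
    exact ⟨P, N, hNn, hNc⟩
  obtain ⟨Q, g, hQ, hgN, hgc, hgC, hn⟩ := Nat.find_spec hex
  have hmin : ∀ m, m < Nat.find hex → ¬ S m := fun m hm => Nat.find_min hex hm
  refine ⟨Q, g, hQ, hgN, hgc, hgC, ?_, ?_⟩
  · intro Q0 hle hne hN0
    by_contra hC0
    have hlt : Nat.card Q0 < Nat.card Q := by
      by_contra hh
      push Not at hh
      exact hne (Subgroup.eq_of_le_of_card_ge hle hh)
    exact hmin (Nat.card Q0 + orderOf g) (by omega) ⟨Q0, g, hQ.to_le hle, hN0, hgc, hC0, rfl⟩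
  · intro ℓ hℓ hdvd
    by_contra hC0
    have ho : orderOf (g ^ ℓ) = orderOf g / ℓ := orderOf_pow_of_dvd hℓ.ne_zero hdvd
    have hlt : orderOf (g ^ ℓ) < orderOf g := by
      rw [ho]; exact Nat.div_lt_self (orderOf_pos g) hℓ.one_lt
    have hcop : (orderOf (g ^ ℓ)).Coprime p :=
      Nat.Coprime.coprime_dvd_left (orderOf_pow_dvd ℓ) hgc
    exact hmin (Nat.card Q + orderOf (g ^ ℓ)) (by omega)
      ⟨Q, g ^ ℓ, hQ, Subgroup.pow_mem _ hgN ℓ, hcop, hC0, rfl⟩

theorem backward {G : Type*} [Group G] [Finite G] (p : ℕ) [Fact p.Prime]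
    (h : ∀ (H : Subgroup G) (N : Subgroup H) [N.Normal], Cfsg.pPrimeCore p (H ⧸ N) = ⊥ →
      ∃ k : H ⧸ N, orderOf k = Monoid.exponent (H ⧸ N)) :
    Cfsg.HasNormalPComplement p G := by
  by_contra hno
  have hp : p.Prime := Fact.out
  obtain ⟨Q, g, hQ, hgN, hgc, hgC, hminQ, hminG⟩ := exists_min_pair p hno
  have hg1 : g ≠ 1 := by rintro rfl; exact hgC (one_mem _)
  have hn1 : orderOf g ≠ 1 := fun h1 => hg1 (orderOf_eq_one_iff.mp h1)
  obtain ⟨q, hq, hqdvd⟩ := Nat.exists_prime_and_dvd hn1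
  haveI : Fact q.Prime := ⟨hq⟩
  have hpq : p ≠ q := by
    rintro rfl
    exact hp.one_lt.ne' (Nat.Coprime.eq_one_of_dvd hgc.symm hqdvd)
  have hgq := hminG q hq hqdvd
  have hconj : ∀ x ∈ Q, g * x * g⁻¹ ∈ Q := fun x hx => (mem_normalizer_iff.mp hgN x).mp hx
  have hconj' : ∀ x ∈ Q, g⁻¹ * x * g ∈ Q := by
    intro x hx
    apply (mem_normalizer_iff.mp hgN (g⁻¹ * x * g)).mpr
    have e : g * (g⁻¹ * x * g) * g⁻¹ = x := by group
    rw [e]; exact hx
  have L2 : ∀ y ∈ zpowers g, y ∈ Q → y = 1 := by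
    intro y hy hyQ
    have o1 : orderOf y ∣ orderOf g := orderOf_dvd_of_mem_zpowers hy
    obtain ⟨j, hj⟩ := (IsPGroup.iff_orderOf.mp hQ) ⟨y, hyQ⟩
    rw [Subgroup.orderOf_mk] at hj
    have o3 : orderOf y = 1 :=
      Nat.eq_one_of_dvd_coprimes (Nat.Coprime.pow_right j hgc) o1 (by rw [hj])
    exact orderOf_eq_one_iff.mp o3
  have L1 : ∀ x ∈ Q, g * (x⁻¹ * (g * x * g⁻¹)) = (x⁻¹ * (g * x * g⁻¹)) * g →
      g * x * g⁻¹ = x := by
    intro x hx hc
    set c := x⁻¹ * (g * x * g⁻¹) with hcdef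
    have hcQ : c ∈ Q := Q.mul_mem (Q.inv_mem hx) (hconj x hx)
    have hgx : g * x * g⁻¹ = x * c := by rw [hcdef]; group
    have hgc' : g * c * g⁻¹ = c := by rw [hc]; group
    have key : ∀ k : ℕ, g ^ k * x * (g ^ k)⁻¹ = x * c ^ k := by
      intro k
      induction k with
      | zero => simp
      | succ k ih =>
        calc g ^ (k + 1) * x * (g ^ (k + 1))⁻¹ = g * (g ^ k * x * (g ^ k)⁻¹) * g⁻¹ := by
              rw [pow_succ']; group
          _ = g * (x * c ^ k) * g⁻¹ := by rw [ih]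
          _ = (g * x * g⁻¹) * (g * c * g⁻¹) ^ k := by rw [conj_pow]; group
          _ = x * c * c ^ k := by rw [hgx, hgc']
          _ = x * c ^ (k + 1) := by rw [pow_succ']; group
    have h1 := key (orderOf g)
    rw [pow_orderOf_eq_one] at h1
    have h2 : c ^ orderOf g = 1 := by
      have h3 : x * c ^ orderOf g = x * 1 := by rw [← h1]; group
      exact mul_left_cancel h3
    have o1 : orderOf c ∣ orderOf g := orderOf_dvd_of_pow_eq_one h2
    obtain ⟨j, hj⟩ := (IsPGroup.iff_orderOf.mp hQ) ⟨c, hcQ⟩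
    rw [Subgroup.orderOf_mk] at hj
    have o3 : orderOf c = 1 :=
      Nat.eq_one_of_dvd_coprimes (Nat.Coprime.pow_right j hgc) o1 (by rw [hj])
    have hc1 : c = 1 := orderOf_eq_one_iff.mp o3
    rw [hgx, hc1, mul_one]
  set D : Subgroup G := Q ⊓ centralizer ({g} : Set G) with hD
  have hDmem : ∀ d, d ∈ D ↔ d ∈ Q ∧ g * d = d * g := by
    intro d
    rw [hD, Subgroup.mem_inf, Subgroup.mem_centralizer_iff]
    constructor
    · rintro ⟨h1, h2⟩; exact ⟨h1, h2 g (Set.mem_singleton g)⟩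
    · rintro ⟨h1, h2⟩
      refine ⟨h1, fun w hw => ?_⟩
      rw [Set.mem_singleton_iff] at hw
      rw [hw]; exact h2
  have hDZ : ∀ d ∈ D, ∀ x ∈ Q, d * x = x * d := by
    intro d hd x hx
    obtain ⟨hdQ, hdg⟩ := (hDmem d).mp hd
    set Q0 : Subgroup G := Q ⊓ centralizer ({d} : Set G) with hQ0
    have hQ0mem : ∀ e, e ∈ Q0 ↔ e ∈ Q ∧ d * e = e * d := by
      intro e
      rw [hQ0, Subgroup.mem_inf, Subgroup.mem_centralizer_iff]
      constructor
      · rintro ⟨h1, h2⟩; exact ⟨h1, h2 d (Set.mem_singleton d)⟩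
      · rintro ⟨h1, h2⟩
        refine ⟨h1, fun w hw => ?_⟩
        rw [Set.mem_singleton_iff] at hw
        rw [hw]; exact h2
    by_cases hQ0Q : Q0 = Q
    · have hx0 : x ∈ Q0 := by rw [hQ0Q]; exact hx
      exact ((hQ0mem x).mp hx0).2
    · exfalso
      have hcd : Commute g d := hdg
      have hgN0 : g ∈ normalizer (Q0 : Set G) := by
        rw [mem_normalizer_iff]
        intro e
        rw [hQ0mem, hQ0mem]
        constructor
        · rintro ⟨h1, h2⟩
          refine ⟨hconj e h1, ?_⟩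
          have hde : Commute d e := h2
          have : Commute d (g * e * g⁻¹) := (hcd.symm.mul_right hde).mul_right hcd.symm.inv_right
          exact this.eq
        · rintro ⟨h1, h2⟩
          have he : e = g⁻¹ * (g * e * g⁻¹) * g := by group
          refine ⟨by rw [he]; exact hconj' _ h1, ?_⟩
          have hde : Commute d (g * e * g⁻¹) := h2
          have : Commute d (g⁻¹ * (g * e * g⁻¹) * g) :=
            (hcd.symm.inv_right.mul_right hde).mul_right hcd.symm
          rw [← he] at this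
          exact this.eq
      have hgC0 := hminQ Q0 inf_le_left hQ0Q hgN0
      apply hgC
      have hB : IsPGroup p (zpowers d) := hQ.to_le (zpowers_le.mpr hdQ)
      have hAB := Cfsg.Agent.Lib.Helper5.thompson_AB5 Q (zpowers d) hQ hB
        ((zpowers_le.mpr hdQ).trans le_normalizer) g hgN
        (by
          intro b hb
          obtain ⟨n, rfl⟩ := mem_zpowers_iff.mp hb
          exact (hcd.zpow_right n).eq)
        hgc
        (by
          intro e he hfix
          have he0 : e ∈ Q0 := (hQ0mem e).mpr ⟨he, hfix d (mem_zpowers d)⟩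
          have h3 := Subgroup.mem_centralizer_iff.mp hgC0 e he0
          rw [← h3]; group)
      rw [Subgroup.mem_centralizer_iff]
      intro e he
      have h4 := hAB e he
      calc e * g = (g * e * g⁻¹) * g := by rw [h4]
        _ = g * e := by group
  set H : Subgroup G := Q ⊔ zpowers g with hH
  have hQH : Q ≤ H := le_sup_left
  have hgH : g ∈ H := (le_sup_right : zpowers g ≤ H) (mem_zpowers g)
  have hzn : zpowers g ≤ normalizer (Q : Set G) := zpowers_le.mpr hgN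
  have hHel : ∀ h ∈ H, ∃ u ∈ Q, ∃ i : ℤ, h = u * g ^ i := by
    intro h hh
    have hh' : h ∈ zpowers g ⊔ Q := by rw [sup_comm]; exact hh
    obtain ⟨k, hk, u, hu, rfl⟩ :=
      Cfsg.Agent.Lib.Helper3.exists_mul_of_mem_sup_of_le_normalizer (zpowers g) Q hzn hh'
    obtain ⟨i, rfl⟩ := mem_zpowers_iff.mp hk
    refine ⟨g ^ i * u * (g ^ i)⁻¹, ?_, i, by group⟩
    exact (mem_normalizer_iff.mp (hzn hk) u).mp hu
  set N0 : Subgroup G := D ⊔ zpowers (g ^ q) with hN0
  have hDk : ∀ d ∈ D, ∀ k ∈ zpowers (g ^ q), Commute d k := by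
    intro d hd k hk
    obtain ⟨-, hdg⟩ := (hDmem d).mp hd
    obtain ⟨n, rfl⟩ := mem_zpowers_iff.mp hk
    exact ((show Commute d g from (show Commute g d from hdg).symm).pow_right q).zpow_right n
  have hN0el : ∀ w ∈ N0, ∃ d ∈ D, ∃ k ∈ zpowers (g ^ q), w = d * k := by
    intro w hw
    apply Cfsg.Agent.Lib.Helper3.exists_mul_of_mem_sup_of_le_normalizer D (zpowers (g ^ q)) ?_ hw
    apply Cfsg.Agent.Lib.Lead.le_normalizer_of_conj_mem
    intro d hd k hk
    have := hDk d hd k hk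
    rw [this.eq]
    have e : k * d * d⁻¹ = k := by group
    rw [e]; exact hk
  have hzq : zpowers (g ^ q) ≤ zpowers g := zpowers_le.mpr (Subgroup.pow_mem _ (mem_zpowers g) q)
  have L3 : ∀ w ∈ Q, w ∈ N0 → w ∈ D := by
    intro w hwQ hwN
    obtain ⟨d, hd, k, hk, rfl⟩ := hN0el w hwN
    have hdQ := ((hDmem d).mp hd).1
    have hkQ : k ∈ Q := by
      have : k = d⁻¹ * (d * k) := by group
      rw [this]; exact Q.mul_mem (Q.inv_mem hdQ) hwQ
    rw [L2 k (hzq hk) hkQ, mul_one]; exact hd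
  have hN0c : ∀ w ∈ N0, ∀ h ∈ H, h * w = w * h := by
    intro w hw h hh
    obtain ⟨d, hd, k, hk, rfl⟩ := hN0el w hw
    obtain ⟨u, hu, i, rfl⟩ := hHel h hh
    obtain ⟨hdQ, hdg⟩ := (hDmem d).mp hd
    obtain ⟨n, rfl⟩ := mem_zpowers_iff.mp hk
    have c1 : Commute u d := (hDZ d hd u hu).symm
    have c2 : Commute (g ^ i) d := (show Commute g d from hdg).zpow_left i
    have c3 : Commute u ((g ^ q) ^ n) := by
      have : Commute u (g ^ q) := Subgroup.mem_centralizer_iff.mp hgq u hu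
      exact this.zpow_right n
    have c4 : Commute (g ^ i) ((g ^ q) ^ n) :=
      (((Commute.refl g).zpow_left i).pow_right q).zpow_right n
    exact ((c1.mul_left c2).mul_right (c3.mul_left c4)).eq
  -- the quotient
  let NN : Subgroup H := N0.subgroupOf H
  haveI hNN : NN.Normal := by
    constructor
    intro n hn h
    have hn' : (n : G) ∈ N0 := Subgroup.mem_subgroupOf.mp hn
    apply Subgroup.mem_subgroupOf.mpr
    have h1 := hN0c _ hn' h h.2
    have e : ((h * n * h⁻¹ : H) : G) = (n : G) := by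
      push_cast
      rw [h1]; group
    rw [e]; exact hn'
  haveI hQn : (Q.subgroupOf H).Normal := by
    apply (Subgroup.normal_subgroupOf_iff_le_normalizer hQH).mpr
    exact sup_le le_normalizer hzn
  let V : Subgroup (H ⧸ NN) := (Q.subgroupOf H).map (QuotientGroup.mk' NN)
  haveI hVn : V.Normal := Subgroup.Normal.map hQn _ (QuotientGroup.mk'_surjective NN)
  have hVp : IsPGroup p V := (hQ.comap_subtype).map _
  let c : H ⧸ NN := QuotientGroup.mk (⟨g, hgH⟩ : H)
  have hmk1 : ∀ (w : G) (hw : w ∈ H), (QuotientGroup.mk (⟨w, hw⟩ : H) : H ⧸ NN) = 1 ↔ w ∈ N0 := by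
    intro w hw
    rw [QuotientGroup.eq_one_iff]; exact Subgroup.mem_subgroupOf
  have hVmem : ∀ k : H ⧸ NN, k ∈ V ↔
      ∃ x, ∃ hx : x ∈ Q, k = QuotientGroup.mk (⟨x, hQH hx⟩ : H) := by
    intro k
    constructor
    · rintro ⟨⟨x, hxH⟩, hx, rfl⟩
      exact ⟨x, Subgroup.mem_subgroupOf.mp hx, rfl⟩
    · rintro ⟨x, hx, rfl⟩
      exact ⟨⟨x, hQH hx⟩, Subgroup.mem_subgroupOf.mpr hx, rfl⟩
  have hVne : V ≠ ⊥ := by
    intro hVb
    apply hgC
    rw [Subgroup.mem_centralizer_iff]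
    intro x hx
    have h1 : (QuotientGroup.mk (⟨x, hQH hx⟩ : H) : H ⧸ NN) ∈ V := (hVmem _).mpr ⟨x, hx, rfl⟩
    rw [hVb, Subgroup.mem_bot, hmk1] at h1
    exact (((hDmem x).mp (L3 x hx h1)).2).symm
  have hcq : c ^ q = 1 := by
    show (QuotientGroup.mk (⟨g, hgH⟩ : H) : H ⧸ NN) ^ q = 1
    rw [← QuotientGroup.mk_pow, QuotientGroup.eq_one_iff]
    apply Subgroup.mem_subgroupOf.mpr
    show ((⟨g, hgH⟩ : H) ^ q : H).1 ∈ N0
    rw [Subgroup.coe_pow]
    exact (le_sup_right : zpowers (g ^ q) ≤ N0) (mem_zpowers _)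
  have hcV : c ∉ V := by
    intro hc
    obtain ⟨x, hx, hk⟩ := (hVmem c).mp hc
    have h1 : (⟨g, hgH⟩ : H)⁻¹ * (⟨x, hQH hx⟩ : H) ∈ NN := QuotientGroup.eq.mp hk
    have h2 : g⁻¹ * x ∈ N0 := Subgroup.mem_subgroupOf.mp h1
    obtain ⟨d, hd, k, hkz, e⟩ := hN0el _ h2
    have hdk := hDk d hd k hkz
    have hdQ := ((hDmem d).mp hd).1
    have h3 : k⁻¹ * g⁻¹ = d * x⁻¹ := by
      have : k⁻¹ * g⁻¹ = k⁻¹ * (g⁻¹ * x) * x⁻¹ := by group
      rw [this, e, hdk.eq]; group
    have h4 : k⁻¹ * g⁻¹ ∈ Q := by rw [h3]; exact Q.mul_mem hdQ (Q.inv_mem hx)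
    have h5 : k⁻¹ * g⁻¹ ∈ zpowers g :=
      (zpowers g).mul_mem ((zpowers g).inv_mem (hzq hkz)) ((zpowers g).inv_mem (mem_zpowers g))
    have h6 := L2 _ h5 h4
    have h7 : g = k⁻¹ := by
      have : g = (k⁻¹ * g⁻¹)⁻¹ * k⁻¹ := by group
      rw [this, h6]; group
    apply hgC
    rw [h7]
    have hle : zpowers (g ^ q) ≤ centralizer (Q : Set G) := zpowers_le.mpr hgq
    exact (centralizer (Q : Set G)).inv_mem (hle hkz)
  have hgen : ∀ k : H ⧸ NN, ∃ v ∈ V, ∃ i : ℤ, k = v * c ^ i := by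
    intro k
    induction k using QuotientGroup.induction_on with
    | H k =>
      obtain ⟨u, hu, i, e⟩ := hHel k.1 k.2
      refine ⟨QuotientGroup.mk (⟨u, hQH hu⟩ : H), (hVmem _).mpr ⟨u, hu, rfl⟩, i, ?_⟩
      show (QuotientGroup.mk k : H ⧸ NN) =
        QuotientGroup.mk (⟨u, hQH hu⟩ : H) * (QuotientGroup.mk (⟨g, hgH⟩ : H)) ^ i
      rw [← QuotientGroup.mk_zpow, ← QuotientGroup.mk_mul]
      congr 1
      apply Subtype.ext
      rw [Subgroup.coe_mul, Subgroup.coe_zpow]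
      exact e
  have hfix : ∀ v ∈ V, c * v = v * c → v = 1 := by
    intro v hv hcv
    obtain ⟨x, hx, rfl⟩ := (hVmem v).mp hv
    have h0 : (QuotientGroup.mk ((⟨g, hgH⟩ : H) * (⟨x, hQH hx⟩ : H)) : H ⧸ NN) =
        QuotientGroup.mk ((⟨x, hQH hx⟩ : H) * (⟨g, hgH⟩ : H)) := hcv
    have h1 := QuotientGroup.eq.mp h0
    have h2 : (g * x)⁻¹ * (x * g) ∈ N0 := Subgroup.mem_subgroupOf.mp h1
    have h3 : (g * x)⁻¹ * (x * g) ∈ Q := by
      have : (g * x)⁻¹ * (x * g) = x⁻¹ * (g⁻¹ * x * g) := by group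
      rw [this]; exact Q.mul_mem (Q.inv_mem hx) (hconj' x hx)
    have h4 := L3 _ h3 h2
    have h5 := ((hDmem _).mp h4).2
    -- apply L1 to x' = g⁻¹ x g
    have h6 : (g⁻¹ * x * g)⁻¹ * (g * (g⁻¹ * x * g) * g⁻¹) = ((g * x)⁻¹ * (x * g))⁻¹ := by group
    have h7 : g * ((g⁻¹ * x * g)⁻¹ * (g * (g⁻¹ * x * g) * g⁻¹)) =
        ((g⁻¹ * x * g)⁻¹ * (g * (g⁻¹ * x * g) * g⁻¹)) * g := by
      rw [h6]
      exact ((show Commute g ((g * x)⁻¹ * (x * g)) from h5).inv_right).eq
    have h8 := L1 _ (hconj' x hx) h7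
    have h9 : g * x = x * g := by
      have e1 : g * (g⁻¹ * x * g) * g⁻¹ = x := by group
      rw [e1] at h8
      calc g * x = g * (g⁻¹ * x * g) := by rw [← h8]
        _ = x * g := by group
    rw [hmk1]
    exact (le_sup_left : D ≤ N0) ((hDmem x).mpr ⟨hx, h9⟩)
  obtain ⟨hpc, hno'⟩ := frob_section p q hpq V hVp hVne c hcq hcV hgen hfix
  obtain ⟨k, hk⟩ := h H NN hpc
  exact hno' k hk

theorem forward {G : Type*} [Group G] [Finite G] (p : ℕ) [Fact p.Prime]
    (hG : Cfsg.HasNormalPComplement p G)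
    (H : Subgroup G) (N : Subgroup H) [N.Normal] (hpc : Cfsg.pPrimeCore p (H ⧸ N) = ⊥) :
    ∃ k : H ⧸ N, orderOf k = Monoid.exponent (H ⧸ N) := by
  have hp : p.Prime := Fact.out
  obtain ⟨P, M, hMn, hMc⟩ := Cfsg.Agent.Lib.Lead.hasNormalPComplement_subgroup hG H
  have hf : Function.Surjective (QuotientGroup.mk' N) := QuotientGroup.mk'_surjective N
  haveI hMfn : (M.map (QuotientGroup.mk' N)).Normal := Subgroup.Normal.map hMn _ hf
  have hMcard : (Nat.card M).Coprime p := by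
    have h2 : (P : Subgroup H).index = Nat.card M := hMc.index_eq_card
    rw [← h2]
    exact ((Nat.Prime.coprime_iff_not_dvd hp).mpr P.not_dvd_index).symm
  have h1 : (Nat.card (M.map (QuotientGroup.mk' N))).Coprime p :=
    Nat.Coprime.coprime_dvd_left (Subgroup.card_map_dvd M _) hMcard
  have h2 : M.map (QuotientGroup.mk' N) ≤ Cfsg.pPrimeCore p (H ⧸ N) :=
    Cfsg.Agent.Lib.Helper3.le_pPrimeCore hMfn h1
  rw [hpc, le_bot_iff] at h2
  have h3 : (M.map (QuotientGroup.mk' N)).index ∣ M.index := Subgroup.index_map_dvd M hf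
  rw [h2, Subgroup.index_bot] at h3
  have h4 : M.index = Nat.card (P : Subgroup H) := hMc.symm.index_eq_card
  obtain ⟨n, hn⟩ := IsPGroup.iff_card.mp P.2
  rw [h4, hn] at h3
  have h5 : Monoid.exponent (H ⧸ N) ∣ p ^ n := dvd_trans Group.exponent_dvd_nat_card h3
  obtain ⟨e, -, he⟩ := (Nat.dvd_prime_pow hp).mp h5
  by_contra hcon
  push Not at hcon
  rcases Nat.eq_zero_or_pos e with h0 | hpos
  · apply hcon 1
    rw [orderOf_one, he, h0, pow_zero]
  · have h6 : ∀ k : H ⧸ N, k ^ (p ^ (e - 1)) = 1 := by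
      intro k
      have h7 : orderOf k ∣ p ^ e := by rw [← he]; exact Monoid.order_dvd_exponent k
      obtain ⟨i, hi, hio⟩ := (Nat.dvd_prime_pow hp).mp h7
      have h8 : i ≠ e := by rintro rfl; exact hcon k (by rw [hio, he])
      have h9 : orderOf k ∣ p ^ (e - 1) := by rw [hio]; exact pow_dvd_pow p (by omega)
      exact orderOf_dvd_iff_pow_eq_one.mp h9
    have h10 : Monoid.exponent (H ⧸ N) ∣ p ^ (e - 1) := Monoid.exponent_dvd_of_forall_pow_eq_one h6
    rw [he] at h10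
    have := (Nat.pow_dvd_pow_iff_le_right hp.one_lt).mp h10
    omega

theorem result {G : Type*} [Group G] [Finite G] (p : ℕ) [Fact p.Prime] :
    Cfsg.HasNormalPComplement p G ↔
      ∀ (H : Subgroup G) (N : Subgroup H) [N.Normal], Cfsg.pPrimeCore p (H ⧸ N) = ⊥ →
        ∃ k : H ⧸ N, orderOf k = Monoid.exponent (H ⧸ N) := by
  constructor
  · intro hG H N _ hpc
    exact forward p hG H N hpc
  · exact backward p

end Cfsg.Agent.S4238
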