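import Cfsg.Statements.S4250
import Mathlib
import Cfsg.Agent.Lib.Helper3.AlperinP
import Cfsg.Agent.Lib.Helper3.CtrlTransfer

set_option autoImplicit false
open Cfsg

namespace Cfsg.Agent.S4250

open Cfsg.Agent.Lib.Helper3
open scoped commutatorElement

theorem commutator_le_of_le_normalizer {G : Type*} [Group G] (H K : Subgroup G)
    (hK : K ≤ Subgroup.normalizer (H : Set G)) : ⁅H, K⁆ ≤ H := by
  rw [Subgroup.commutator_le]
  intro a ha n hn
  have h1 : n * a⁻¹ * n⁻¹ ∈ H := (Subgroup.mem_normalizer_iff.mp (hK hn) a⁻¹).mp (inv_mem ha)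
  have : ⁅a, n⁆ = a * (n * a⁻¹ * n⁻¹) := by rw [commutatorElement_def]; group
  rw [this]
  exact mul_mem ha h1

/-- Let P be a Sylow p-subgroup of a finite group G. Call an intersection H = P ∩ Q with a Sylow p-subgroup Q tame when N_P(H) and N_Q(H) are Sylow p-subgroups of N_G(H). Then P ∩ G′ is generated by [P, N_G(P)] together with the commutator subgroups [P ∩ Q, ⟨x⟩] for all tame intersections P ∩ Q and all p-elements x of N_G(P ∩ Q). -/
theorem result {G : Type*} [Group G] [Finite G] (p : ℕ) [Fact p.Prime] (P : Sylow p G) :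
    (P : Subgroup G) ⊓ commutator G =
      ⁅(P : Subgroup G), Subgroup.normalizer ((P : Subgroup G) : Set G)⁆ ⊔
        ⨆ (Q : Sylow p G) (_ : (¬ p ∣ ((P : Subgroup G) ⊓ Subgroup.normalizer (((P : Subgroup G) ⊓ (Q : Subgroup G) : Subgroup G) : Set G)).relIndex (Subgroup.normalizer (((P : Subgroup G) ⊓ (Q : Subgroup G) : Subgroup G) : Set G)) ∧ ¬ p ∣ ((Q : Subgroup G) ⊓ Subgroup.normalizer (((P : Subgroup G) ⊓ (Q : Subgroup G) : Subgroup G) : Set G)).relIndex (Subgroup.normalizer (((P : Subgroup G) ⊓ (Q : Subgroup G) : Subgroup G) : Set G))))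
          (x : G) (_ : x ∈ Subgroup.normalizer (((P : Subgroup G) ⊓ (Q : Subgroup G) : Subgroup G) : Set G) ∧ ∃ k : ℕ, orderOf x = p ^ k),
          ⁅(P : Subgroup G) ⊓ (Q : Subgroup G), Subgroup.zpowers x⁆ := by
  classical
  have hp : p.Prime := Fact.out
  set F : Subgroup G := ⁅(P : Subgroup G), Subgroup.normalizer ((P : Subgroup G) : Set G)⁆ ⊔
        ⨆ (Q : Sylow p G) (_ : (¬ p ∣ ((P : Subgroup G) ⊓ Subgroup.normalizer (((P : Subgroup G) ⊓ (Q : Subgroup G) : Subgroup G) : Set G)).relIndex (Subgroup.normalizer (((P : Subgroup G) ⊓ (Q : Subgroup G) : Subgroup G) : Set G)) ∧ ¬ p ∣ ((Q : Subgroup G) ⊓ Subgroup.normalizer (((P : Subgroup G) ⊓ (Q : Subgroup G) : Subgroup G) : Set G)).relIndex (Subgroup.normalizer (((P : Subgroup G) ⊓ (Q : Subgroup G) : Subgroup G) : Set G))))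
          (x : G) (_ : x ∈ Subgroup.normalizer (((P : Subgroup G) ⊓ (Q : Subgroup G) : Subgroup G) : Set G) ∧ ∃ k : ℕ, orderOf x = p ^ k),
          ⁅(P : Subgroup G) ⊓ (Q : Subgroup G), Subgroup.zpowers x⁆ with hF
  have key : ∀ (A : Set G) (g : G), TameChain P A g → ∀ a ∈ A, a⁻¹ * (g⁻¹ * a * g) ∈ F := by
    intro A g hch
    induction hch with
    | nil A =>
      intro a _
      have : a⁻¹ * ((1 : G)⁻¹ * a * 1) = 1 := by group
      rw [this]; exact one_mem _
    | cons A Q x g hstep hA _ ih =>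
      intro a ha
      have h2 := ih (x⁻¹ * a * x) ⟨a, ha, rfl⟩
      have h1 : a⁻¹ * (x⁻¹ * a * x) ∈ F := by
        have hc : a⁻¹ * (x⁻¹ * a * x) = ⁅a⁻¹, x⁻¹⁆ := by
          rw [commutatorElement_def]; group
        rw [hc]
        obtain ⟨hxN, ht1, ht2, hor⟩ := hstep
        have haPQ : a ∈ (P : Subgroup G) ⊓ (Q : Subgroup G) := hA ha
        rcases hor with hQP | hxp
        · have hxN' : x ∈ Subgroup.normalizer ((P : Subgroup G) : Set G) := by
            rw [hQP, inf_idem] at hxN; exact hxN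
          have : ⁅a⁻¹, x⁻¹⁆ ∈ ⁅(P : Subgroup G), Subgroup.normalizer ((P : Subgroup G) : Set G)⁆ :=
            Subgroup.commutator_mem_commutator (inv_mem (Subgroup.mem_inf.mp haPQ).1) (inv_mem hxN')
          exact (le_sup_left : _ ≤ F) this
        · have : ⁅a⁻¹, x⁻¹⁆ ∈ ⁅(P : Subgroup G) ⊓ (Q : Subgroup G), Subgroup.zpowers x⁆ :=
            Subgroup.commutator_mem_commutator (inv_mem haPQ)
              (inv_mem (Subgroup.mem_zpowers x))
          refine (le_sup_right : _ ≤ F) ?_
          refine (?_ : ⁅(P : Subgroup G) ⊓ (Q : Subgroup G), Subgroup.zpowers x⁆ ≤ _) this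
          apply le_iSup_of_le Q
          apply le_iSup_of_le ⟨ht1, ht2⟩
          apply le_iSup_of_le x
          apply le_iSup_of_le ⟨hxN, hxp⟩
          exact le_rfl
      have : a⁻¹ * ((x * g)⁻¹ * a * (x * g))
          = (a⁻¹ * (x⁻¹ * a * x)) * ((x⁻¹ * a * x)⁻¹ * (g⁻¹ * (x⁻¹ * a * x) * g)) := by group
      rw [this]
      exact mul_mem h1 h2
  apply le_antisymm
  · rw [commutator_def]
    apply sylow_inf_commutator_le_of_focal P F
    intro a ha g hg
    have hch := alperin_tame P {a} g (by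
      intro b hb
      rw [Set.mem_singleton_iff] at hb
      rw [hb]; exact ha) (by
      rintro _ ⟨b, hb, rfl⟩
      rw [Set.mem_singleton_iff] at hb
      rw [hb]
      exact hg)
    exact key _ _ hch a (Set.mem_singleton a)
  · rw [hF]
    apply sup_le
    · apply le_inf
      · exact commutator_le_of_le_normalizer _ _ le_rfl
      · rw [commutator_def]
        exact Subgroup.commutator_mono le_top le_top
    · apply iSup_le; intro Q
      apply iSup_le; intro _
      apply iSup_le; intro x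
      apply iSup_le; intro hx
      apply le_inf
      · refine (commutator_le_of_le_normalizer _ _ ?_).trans inf_le_left
        rw [Subgroup.zpowers_le]; exact hx.1
      · rw [commutator_def]
        exact Subgroup.commutator_mono le_top le_top

end Cfsg.Agent.S4250
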