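import Cfsg.Statements.S4260
import Mathlib

set_option autoImplicit false
open Cfsg

namespace Cfsg.Agent.S4260

/-- Let H be a Hall subgroup of a finite group G (the order of H is coprime to its index) such that x^[G : H] lies in H for every x in G. Then H is normal in G. -/
theorem result {G : Type*} [Group G] [Finite G] (H : Subgroup G) (hHall : (Nat.card H).Coprime H.index)
    (hexp : ∀ x : G, x ^ H.index ∈ H) : H.Normal := by
  have key : ∀ x : G, x ∈ H ↔ x ^ (Nat.card H) = 1 := by
    intro x
    constructor
    · intro hx
      have h1 : (⟨x, hx⟩ : H) ^ (Nat.card H) = 1 := pow_card_eq_one'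
      have h2 := congrArg Subtype.val h1
      rw [Subgroup.coe_pow] at h2
      exact h2
    · intro hx
      have h1 := Nat.gcd_eq_gcd_ab (Nat.card H) H.index
      rw [Nat.Coprime] at hHall
      rw [hHall] at h1
      have h2 : x = (x ^ (Nat.card H)) ^ (Nat.gcdA (Nat.card H) H.index) * (x ^ H.index) ^ (Nat.gcdB (Nat.card H) H.index) := by
        rw [← zpow_natCast x (Nat.card H), ← zpow_natCast x H.index, ← zpow_mul, ← zpow_mul, ← zpow_add, ← h1]
        simp
      rw [h2, hx, one_zpow, one_mul]
      exact H.zpow_mem (hexp x) _
  constructor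
  intro n hn g
  rw [key] at hn ⊢
  rw [conj_pow, hn]
  group

end Cfsg.Agent.S4260
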