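import Cfsg.Statements.S4261
import Mathlib
import Cfsg.Agent.Lib.Helper5.ElemAbNormal

set_option autoImplicit false
open Cfsg

namespace Cfsg.Agent.S4261

universe u

/-- The statement for groups of order at most `n`. -/
def Stmt (n : ℕ) : Prop :=
  ∀ (G : Type u) [Group G] [Finite G], Nat.card G ≤ n → Group.IsSolvable G →
    ∀ M : Subgroup G, IsCoatom M → (∀ x : G, x ^ M.index ∈ M) → M.Normal

/-- Reduction to a quotient by a nontrivial normal subgroup contained in `M`. -/
theorem quot_step (n : ℕ) (ih : Stmt.{u} n)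
    (G : Type u) [Group G] [Finite G] (hn : Nat.card G ≤ n + 1) (hG : Group.IsSolvable G)
    (M : Subgroup G) (hM : IsCoatom M) (hexp : ∀ x : G, x ^ M.index ∈ M)
    (N : Subgroup G) [N.Normal] (hNM : N ≤ M) (hN : N ≠ ⊥) : M.Normal := by
  have hcard : Nat.card (G ⧸ N) ≤ n := by
    have h1 := Subgroup.card_eq_card_quotient_mul_card_subgroup N
    have h2 : 1 < Nat.card N := (Subgroup.one_lt_card_iff_ne_bot N).mpr hN
    have h3 : 0 < Nat.card (G ⧸ N) := Nat.card_pos
    nlinarith
  have hker : (QuotientGroup.mk' N).ker ≤ M := by rw [QuotientGroup.ker_mk']; exact hNM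
  have hsurj : Function.Surjective (QuotientGroup.mk' N) := QuotientGroup.mk'_surjective N
  have hidx : (M.map (QuotientGroup.mk' N)).index = M.index := Subgroup.index_map_eq M hsurj hker
  have hcomap : (M.map (QuotientGroup.mk' N)).comap (QuotientGroup.mk' N) = M := Subgroup.comap_map_eq_self hker
  have hco : IsCoatom (M.map (QuotientGroup.mk' N)) := by
    refine ⟨?_, ?_⟩
    · intro h
      apply hM.1
      rw [← hcomap, h, Subgroup.comap_top]
    · intro b hb
      have h1 : M ≤ b.comap (QuotientGroup.mk' N) := Subgroup.map_le_iff_le_comap.mp hb.le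
      have h2 : M ≠ b.comap (QuotientGroup.mk' N) := by
        intro h
        apply hb.ne
        rw [h, Subgroup.map_comap_eq_self_of_surjective hsurj]
      have h3 := hM.2 _ (lt_of_le_of_ne h1 h2)
      rw [← Subgroup.map_comap_eq_self_of_surjective hsurj b, h3, ← MonoidHom.range_eq_map,
        MonoidHom.range_eq_top]
      exact hsurj
  haveI := hG
  have h4 := ih (G ⧸ N) hcard inferInstance (M.map (QuotientGroup.mk' N)) hco (by
    intro x
    obtain ⟨y, rfl⟩ := hsurj x
    rw [hidx, ← map_pow]
    exact Subgroup.mem_map_of_mem _ (hexp y))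
  rw [← hcomap]
  exact h4.comap _

theorem main (n : ℕ) : Stmt.{u} n := by
  induction n with
  | zero =>
    intro G _ _ hn
    have : 0 < Nat.card G := Nat.card_pos
    omega
  | succ n ih =>
    intro G _ _ hn hG M hM hexp
    haveI := hG
    have htop : (⊤ : Subgroup G) ≠ ⊥ := by
      intro h
      apply hM.1
      rw [eq_top_iff, h]
      exact bot_le
    obtain ⟨V, p, hVn, hp, -, hV1, hVab, hVexp⟩ :=
      Cfsg.Agent.Lib.Helper5.exists_normal_exponent_prime_of_solvable (⊤ : Subgroup G) htop inferInstance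
    haveI := hVn
    haveI := Fact.mk hp
    by_cases h1 : V ≤ M
    · exact quot_step n ih G hn hG M hM hexp V h1 hV1
    have hsup : M ⊔ V = ⊤ := by
      apply hM.2
      apply lt_of_le_of_ne le_sup_left
      intro h
      apply h1
      rw [h]
      exact le_sup_right
    have hdec : ∀ g : G, ∃ m ∈ M, ∃ v ∈ V, g = m * v := by
      intro g
      have hg : g ∈ ((M ⊔ V : Subgroup G) : Set G) := by rw [hsup]; trivial
      rw [Subgroup.mul_normal] at hg
      obtain ⟨m, hm, v, hv, e⟩ := Set.mem_mul.mp hg
      exact ⟨m, hm, v, hv, e.symm⟩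
    -- V ⊓ M is normal
    have hVMn : (V ⊓ M).Normal := by
      refine ⟨fun x hx g => ⟨hVn.conj_mem x hx.1 g, ?_⟩⟩
      obtain ⟨m, hm, v, hv, rfl⟩ := hdec g
      have h2 : v * x * v⁻¹ = x := by
        rw [hVab v hv x hx.1]; group
      have h3 : m * v * x * (m * v)⁻¹ = m * (v * x * v⁻¹) * m⁻¹ := by group
      rw [h3, h2]
      exact M.mul_mem (M.mul_mem hm hx.2) (M.inv_mem hm)
    by_cases h2 : V ⊓ M = ⊥
    swap
    · exact quot_step n ih G hn hG M hM hexp (V ⊓ M) inf_le_right h2
    -- complement
    have hcompl : Subgroup.IsComplement' V M := by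
      apply Subgroup.isComplement'_of_disjoint_and_mul_eq_univ (disjoint_iff.mpr h2)
      rw [← Subgroup.normal_mul, sup_comm, hsup]
      rfl
    have hcards : Nat.card V * Nat.card M = Nat.card G := hcompl.card_mul_card
    have hidx : M.index = Nat.card V := by
      have h3 := Subgroup.card_mul_index M
      have h4 : 0 < Nat.card M := Nat.card_pos
      have h5 : Nat.card M * M.index = Nat.card M * Nat.card V := by rw [h3, ← hcards, mul_comm]
      exact Nat.eq_of_mul_eq_mul_left h4 h5
    have hVp : IsPGroup p V := by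
      rintro ⟨x, hx⟩
      refine ⟨1, ?_⟩
      apply Subtype.ext
      rw [pow_one, Subgroup.coe_pow]
      exact hVexp x hx
    obtain ⟨k, hk⟩ := IsPGroup.iff_card.mp hVp
    -- p'-elements of M centralize V
    have hC : ∀ m ∈ M, Nat.Coprime (orderOf m) p → ∀ v ∈ V, m * v = v * m := by
      intro m hm hcop v hv
      have hy : (v * m) ^ M.index ∈ M := hexp _
      have hw : (v * m) ^ M.index * (m ^ M.index)⁻¹ ∈ V := by
        rw [← QuotientGroup.eq_one_iff]
        have h3 : ((v : G) : G ⧸ V) = 1 := (QuotientGroup.eq_one_iff v).mpr hv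
        rw [QuotientGroup.mk_mul, QuotientGroup.mk_pow, QuotientGroup.mk_mul, h3, one_mul, QuotientGroup.mk_inv,
          QuotientGroup.mk_pow, mul_inv_cancel]
      have hw2 : (v * m) ^ M.index * (m ^ M.index)⁻¹ ∈ V ⊓ M :=
        ⟨hw, M.mul_mem hy (M.inv_mem (M.pow_mem hm _))⟩
      rw [h2, Subgroup.mem_bot] at hw2
      have hw3 : (v * m) ^ M.index = m ^ M.index := mul_inv_eq_one.mp hw2
      have hcop2 : (M.index).Coprime (orderOf m) := by
        rw [hidx, hk]
        exact Nat.Coprime.pow_left k hcop.symm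
      obtain ⟨s, hs⟩ := exists_pow_eq_self_of_coprime hcop2
      rw [← hw3, ← pow_mul] at hs
      have hcomm : Commute ((v * m) ^ (M.index * s)) (v * m) := (Commute.refl (v * m)).pow_left _
      rw [hs] at hcomm
      have h4 : m * (v * m) = v * m * m := hcomm
      rw [← mul_assoc] at h4
      exact mul_right_cancel h4
    -- C = M ⊓ C(V)
    have hCn : (M ⊓ Subgroup.centralizer (V : Set G)).Normal := by
      refine ⟨fun x hx g => ?_⟩
      obtain ⟨m, hm, v, hv, rfl⟩ := hdec g
      have h3 : v * x * v⁻¹ = x := by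
        have := hx.2 v hv
        rw [this]; group
      have h4 : m * v * x * (m * v)⁻¹ = m * (v * x * v⁻¹) * m⁻¹ := by group
      rw [h4, h3]
      exact ⟨M.mul_mem (M.mul_mem hm hx.1) (M.inv_mem hm),
        (Subgroup.normal_centralizer (H := V)).conj_mem x hx.2 m⟩
    by_cases h3 : M ⊓ Subgroup.centralizer (V : Set G) = ⊥
    swap
    · exact quot_step n ih G hn hG M hM hexp (M ⊓ Subgroup.centralizer (V : Set G)) inf_le_left h3
    -- now M is a p-group
    have hMp : IsPGroup p M := by
      rintro ⟨m, hm⟩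
      refine ⟨(orderOf m).factorization p, ?_⟩
      apply Subtype.ext
      rw [Subgroup.coe_pow]
      show m ^ p ^ (orderOf m).factorization p = 1
      have h4 : (m ^ (ordProj[p] (orderOf m))) ^ (ordCompl[p] (orderOf m)) = 1 := by
        rw [← pow_mul, Nat.ordProj_mul_ordCompl_eq_self, pow_orderOf_eq_one]
      have h5 : Nat.Coprime (orderOf (m ^ (ordProj[p] (orderOf m)))) p :=
        Nat.Coprime.coprime_dvd_left (orderOf_dvd_of_pow_eq_one h4)
          (Nat.coprime_ordCompl hp (orderOf_pos m).ne').symm
      have h6 : m ^ (ordProj[p] (orderOf m)) ∈ M ⊓ Subgroup.centralizer (V : Set G) := by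
        refine ⟨M.pow_mem hm _, ?_⟩
        intro v hv
        exact (hC _ (M.pow_mem hm _) h5 v hv).symm
      rw [h3, Subgroup.mem_bot] at h6
      exact h6
    obtain ⟨j, hj⟩ := IsPGroup.iff_card.mp hMp
    have hGp : IsPGroup p G := by
      apply IsPGroup.of_card (n := k + j)
      rw [← hcards, hk, hj, pow_add]
    haveI := hGp.isNilpotent
    exact Subgroup.NormalizerCondition.normal_of_coatom M Group.normalizerCondition_of_isNilpotent hM

/-- Let M be a maximal subgroup of a finite solvable group G such that x^[G : M] lies in M for every x in G. Then M is normal in G. -/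
theorem result {G : Type*} [Group G] [Finite G] (hG : Group.IsSolvable G) (M : Subgroup G) (hM : IsCoatom M)
    (hexp : ∀ x : G, x ^ M.index ∈ M) : M.Normal :=
  main (Nat.card G) G le_rfl hG M hM hexp

end Cfsg.Agent.S4261
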