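import Mathlib
import Cfsg.Statements.S4263
import Cfsg.Agent.Lib.Helper2.Fit
import Cfsg.Agent.Lib.Helper2.Nilp
import Cfsg.Agent.Lib.Helper7.SylowIndex
import Cfsg.Agent.Lib.Helper7.SylowAux

set_option autoImplicit false
open Cfsg

namespace Cfsg.Agent.S4263

open Subgroup
open Cfsg.Agent.Lib.Helper7

/-- If `D` is normal in `E`, then `y ^ [E : D] ∈ D` for `y ∈ E`. -/
theorem pow_relIndex_mem_of_normal {G : Type*} [Group G] [Finite G] (D E : Subgroup G)
    (hDE : D ≤ E) (hn : E ≤ normalizer (D : Set G)) (y : G) (hy : y ∈ E) :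
    y ^ D.relIndex E ∈ D := by
  haveI : (D.subgroupOf E).Normal := Subgroup.normal_subgroupOf_of_le_normalizer hn
  have h1 : (QuotientGroup.mk (⟨y, hy⟩ : ↥E) : ↥E ⧸ D.subgroupOf E) ^
      Nat.card (↥E ⧸ D.subgroupOf E) = 1 := pow_card_eq_one'
  rw [← QuotientGroup.mk_pow, QuotientGroup.eq_one_iff] at h1
  exact h1

/-- In a nilpotent subgroup `F`, `x ^ [F : D] ∈ D` for every subgroup `D ≤ F`. -/
theorem pow_relIndex_mem {G : Type*} [Group G] [Finite G] (F : Subgroup G)
    [hF : Group.IsNilpotent F] :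
    ∀ (n : ℕ) (D : Subgroup G), D ≤ F → D.relIndex F = n → ∀ x ∈ F, x ^ n ∈ D := by
  intro n
  induction n using Nat.strong_induction_on with
  | _ n ih =>
  intro D hDF hn x hx
  by_cases hD : D = F
  · rw [hD]; exact Subgroup.pow_mem _ hx _
  have hlt : D.subgroupOf F < ⊤ := by
    rw [lt_top_iff_ne_top]
    intro h
    apply hD
    exact le_antisymm hDF (Subgroup.subgroupOf_eq_top.mp h)
  have hnc := Group.normalizerCondition_of_isNilpotent (G := ↥F) (D.subgroupOf F) hlt
  rw [← Subgroup.subgroupOf_normalizer_eq hDF] at hnc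
  obtain ⟨E, hE⟩ : ∃ E, E = normalizer (D : Set G) ⊓ F := ⟨_, rfl⟩
  have hEF : E ≤ F := by rw [hE]; exact inf_le_right
  have hDE : D ≤ E := by rw [hE]; exact le_inf le_normalizer hDF
  have hEn : E ≤ normalizer (D : Set G) := by rw [hE]; exact inf_le_left
  have hne : ¬ E ≤ D := by
    intro hED
    apply hnc.not_ge
    intro y hy
    rw [Subgroup.mem_subgroupOf] at hy ⊢
    exact hED (by rw [hE]; exact Subgroup.mem_inf.mpr ⟨hy, y.2⟩)
  have hmul : D.relIndex E * E.relIndex F = D.relIndex F :=
    Subgroup.relIndex_mul_relIndex D E F hDE hEF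
  have h1 : D.relIndex E ≠ 1 := fun h => hne (Subgroup.relIndex_eq_one.mp h)
  have h0 : D.relIndex E ≠ 0 :=
    (Nat.pos_of_dvd_of_pos (Subgroup.relIndex_dvd_card D E) Nat.card_pos).ne'
  have h0' : E.relIndex F ≠ 0 :=
    (Nat.pos_of_dvd_of_pos (Subgroup.relIndex_dvd_card E F) Nat.card_pos).ne'
  have hlt' : E.relIndex F < n := by
    rw [← hn, ← hmul]
    have : 2 ≤ D.relIndex E := by omega
    have h3 : 0 < E.relIndex F := Nat.pos_of_ne_zero h0'
    nlinarith
  have h2 := ih (E.relIndex F) hlt' E hEF rfl x hx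
  have h3 := pow_relIndex_mem_of_normal D E hDE hEn _ h2
  rw [← hn, ← hmul, mul_comm, pow_mul]
  exact h3

/-- Let G be a finite group. An element x lies in the Fitting subgroup F(G) if and only if, for every subgroup H of G, the power x^[G : H] lies in H. -/
theorem result {G : Type*} [Group G] [Finite G] (x : G) :
    x ∈ Cfsg.fittingSubgroup G ↔ ∀ H : Subgroup G, x ^ H.index ∈ H := by
  haveI hFn : (Cfsg.fittingSubgroup G).Normal := Cfsg.Agent.Lib.Helper2.fitting_normal G
  haveI hFnil : Group.IsNilpotent ↥(Cfsg.fittingSubgroup G) :=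
    Cfsg.Agent.Lib.Helper2.fitting_isNilpotent G
  constructor
  · intro hx H
    have h1 := pow_relIndex_mem (Cfsg.fittingSubgroup G) _ (H ⊓ Cfsg.fittingSubgroup G)
      inf_le_right rfl x hx
    rw [Subgroup.inf_relIndex_right] at h1
    have h2 : H.relIndex (Cfsg.fittingSubgroup G) ∣ H.index := by
      rw [← relIndex_sup_eq_of_le_normalizer H _ Subgroup.le_normalizer_of_normal]
      exact Subgroup.relIndex_dvd_index_of_le le_sup_left
    obtain ⟨k, hk⟩ := h2
    rw [hk, pow_mul]
    exact Subgroup.pow_mem _ (Subgroup.mem_inf.mp h1).1 _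
  · intro h
    have key : ∀ p : ℕ, p.Prime →
        ¬ p ∣ orderOf (QuotientGroup.mk' (Cfsg.fittingSubgroup G) x) := by
      intro p hp
      haveI : Fact p.Prime := ⟨hp⟩
      obtain ⟨P⟩ : Nonempty (Sylow p G) := inferInstance
      have hidx : ∀ Q : Sylow p G, (Q : Subgroup G).index = (P : Subgroup G).index := by
        intro Q
        have hc : Nat.card (Q : Subgroup G) = Nat.card (P : Subgroup G) := by
          rw [Q.card_eq_multiplicity, P.card_eq_multiplicity]
        have h1 := Subgroup.card_mul_index (Q : Subgroup G)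
        have h2 := Subgroup.card_mul_index (P : Subgroup G)
        rw [hc] at h1
        exact Nat.eq_of_mul_eq_mul_left Nat.card_pos (h1.trans h2.symm)
      have hall : ∀ Q : Sylow p G, x ^ (P : Subgroup G).index ∈ (Q : Subgroup G) := by
        intro Q
        rw [← hidx Q]; exact h _
      obtain ⟨N, hN⟩ : ∃ N : Subgroup G, N = ⨅ Q : Sylow p G, (Q : Subgroup G) := ⟨_, rfl⟩
      have hNmem : ∀ y, y ∈ N ↔ ∀ Q : Sylow p G, y ∈ (Q : Subgroup G) := by
        intro y; rw [hN, Subgroup.mem_iInf]
      have hNn : N.Normal := by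
        constructor
        intro y hy g
        rw [hNmem] at hy ⊢
        intro Q
        have h1 : g * y * g⁻¹ ∈ (g • (g⁻¹ • Q) : Sylow p G) := by
          rw [mem_sylow_smul_iff]
          have e : g⁻¹ * (g * y * g⁻¹) * g = y := by group
          rw [e]; exact hy _
        rw [smul_inv_smul] at h1
        exact h1
      have hNp : IsPGroup p N := P.2.to_le (by
        intro y hy; exact (hNmem y).mp hy P)
      have hNF : N ≤ Cfsg.fittingSubgroup G :=
        le_trans (le_sSup (show N ∈ {N : Subgroup G | N.Normal ∧ IsPGroup p N} from ⟨hNn, hNp⟩))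
          (Cfsg.Agent.Lib.Helper2.pCore_le_fitting p G)
      have h1 : (QuotientGroup.mk' (Cfsg.fittingSubgroup G) x) ^ (P : Subgroup G).index = 1 := by
        rw [← map_pow]
        exact (QuotientGroup.eq_one_iff _).mpr (hNF ((hNmem _).mpr hall))
      intro hdvd
      exact P.not_dvd_index (hdvd.trans (orderOf_dvd_of_pow_eq_one h1))
    have h1 : orderOf (QuotientGroup.mk' (Cfsg.fittingSubgroup G) x) = 1 :=
      Nat.eq_one_iff_not_exists_prime_dvd.mpr key
    rw [orderOf_eq_one_iff] at h1
    exact (QuotientGroup.eq_one_iff x).mp h1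

end Cfsg.Agent.S4263
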