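import Cfsg.Statements.S4269
import Mathlib
import Cfsg.Agent.Lib.Helper7.MapConj

set_option autoImplicit false
open Cfsg

namespace Cfsg.Agent.S4269

open Cfsg.Agent.Lib.Helper7
open scoped commutatorElement Pointwise

theorem map_conj_eq_iff {G : Type*} [Group G] (H : Subgroup G) (a b : G) :
    H.map (MulAut.conj a).toMonoidHom = H.map (MulAut.conj b).toMonoidHom ↔
      b⁻¹ * a ∈ Subgroup.normalizer (H : Set G) := by
  rw [Subgroup.mem_normalizer_iff]
  constructor
  · intro h y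
    have h1 : a * y * a⁻¹ ∈ H.map (MulAut.conj a).toMonoidHom ↔
        a * y * a⁻¹ ∈ H.map (MulAut.conj b).toMonoidHom := by rw [h]
    rw [mem_map_conj, mem_map_conj] at h1
    have e1 : a⁻¹ * (a * y * a⁻¹) * a = y := by group
    have e2 : b⁻¹ * (a * y * a⁻¹) * b = b⁻¹ * a * y * (b⁻¹ * a)⁻¹ := by group
    rw [e1, e2] at h1
    exact h1
  · intro h
    ext z
    rw [mem_map_conj, mem_map_conj]
    have h1 := h (a⁻¹ * z * a)
    have e2 : b⁻¹ * a * (a⁻¹ * z * a) * (b⁻¹ * a)⁻¹ = b⁻¹ * z * b := by group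
    rw [e2] at h1
    exact h1

theorem le_normalizer_commutator' {G : Type*} [Group G] (H K : Subgroup G) :
    H ≤ Subgroup.normalizer ((⁅H, K⁆ : Subgroup G) : Set G) := by
  have key : ∀ e ∈ H, ∀ x ∈ ⁅H, K⁆, e * x * e⁻¹ ∈ ⁅H, K⁆ := by
    intro e he x hx
    have h1 : (⁅H, K⁆).map (MulAut.conj e).toMonoidHom ≤ ⁅H, K⁆ := by
      rw [Subgroup.commutator_def, MonoidHom.map_closure, Subgroup.closure_le]
      rintro _ ⟨_, ⟨h, hh, k, hk, rfl⟩, rfl⟩
      show (MulAut.conj e) ⁅h, k⁆ ∈ ⁅H, K⁆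
      have h2 : (MulAut.conj e) ⁅h, k⁆ = ⁅e * h, k⁆ * ⁅e, k⁆⁻¹ := by
        simp only [MulAut.conj_apply, commutatorElement_def]
        group
      rw [h2]
      exact mul_mem (Subgroup.commutator_mem_commutator (H.mul_mem he hh) hk)
        (inv_mem (Subgroup.commutator_mem_commutator he hk))
    have h3 := h1 (Subgroup.mem_map_of_mem (MulAut.conj e).toMonoidHom hx)
    simpa using h3
  intro e he
  rw [Subgroup.mem_normalizer_iff]
  intro x
  constructor
  · exact key e he x
  · intro hx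
    have := key e⁻¹ (H.inv_mem he) _ hx
    simpa [mul_assoc] using this

theorem comm_le_of_invariant {G : Type*} [Group G] (H U : Subgroup G)
    (hUinv : ∀ h ∈ H, U.map (MulAut.conj h).toMonoidHom = U) : ⁅H, U⁆ ≤ U := by
  rw [Subgroup.commutator_le]
  intro h hh u hu
  rw [commutatorElement_def]
  have h1 : h * u * h⁻¹ ∈ U := by
    have h2 : h * u * h⁻¹ ∈ U.map (MulAut.conj h).toMonoidHom := by
      rw [mem_map_conj]
      have e : h⁻¹ * (h * u * h⁻¹) * h = u := by group
      rw [e]; exact hu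
    rw [hUinv h hh] at h2
    exact h2
  exact U.mul_mem h1 (U.inv_mem hu)

/-- Let G be a finite group, V an abelian normal subgroup and H a subgroup with HV = G. Then H is pronormal in G (H and gHg⁻¹ are conjugate inside the subgroup they generate, for every g) if and only if every H-invariant subgroup U of V satisfies U = N_U(H)·[H, U], that is, U is the join of U ∩ N_G(H) and the commutator subgroup [H, U]. -/
theorem result {G : Type*} [Group G] [Finite G]
    (V : Subgroup G) [V.Normal] (hV : IsMulCommutative ↥V) (H : Subgroup G) (hHV : H ⊔ V = ⊤) :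
    Cfsg.IsPronormal H ↔
      ∀ U : Subgroup G, U ≤ V → (∀ h ∈ H, U.map (MulAut.conj h).toMonoidHom = U) →
        U = (U ⊓ Subgroup.normalizer (H : Set G)) ⊔ ⁅H, U⁆ := by
  have hcomm : ∀ a ∈ V, ∀ b ∈ V, a * b = b * a := by
    intro a ha b hb
    have := hV.is_comm.comm ⟨a, ha⟩ ⟨b, hb⟩
    exact congrArg Subtype.val this
  constructor
  · intro hpro U hUV hUinv
    have hcomU : ⁅H, U⁆ ≤ U := comm_le_of_invariant H U hUinv
    apply le_antisymm
    · intro u hu
      obtain ⟨x, hx, hxeq⟩ := hpro u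
      have hnorm := le_normalizer_commutator' H U
      have hL : H ⊔ H.map (MulAut.conj u).toMonoidHom ≤ ⁅H, U⁆ ⊔ H := by
        apply sup_le le_sup_right
        intro y hy
        rw [mem_map_conj] at hy
        have h1 : ⁅u⁻¹ * y * u, u⁆ ∈ ⁅H, U⁆ := Subgroup.commutator_mem_commutator hy hu
        have h2 : y = (⁅u⁻¹ * y * u, u⁆)⁻¹ * (u⁻¹ * y * u) := by
          rw [commutatorElement_def]; group
        rw [h2]
        exact Subgroup.mul_mem _ (Subgroup.mem_sup_left (Subgroup.inv_mem _ h1))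
          (Subgroup.mem_sup_right hy)
      have hx' : x ∈ ((⁅H, U⁆ ⊔ H : Subgroup G) : Set G) := hL hx
      rw [Subgroup.coe_mul_of_right_le_normalizer_left _ _ hnorm] at hx'
      obtain ⟨w, hw, h, hh, rfl⟩ := hx'
      have h1 := (map_conj_eq_iff H u (w * h)).mp hxeq
      have h2 : w⁻¹ * u ∈ Subgroup.normalizer (H : Set G) := by
        have h3 := (Subgroup.normalizer (H : Set G)).mul_mem (Subgroup.le_normalizer hh) h1
        have e : h * ((w * h)⁻¹ * u) = w⁻¹ * u := by group
        rw [e] at h3; exact h3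
      have h3 : w⁻¹ * u ∈ U := U.mul_mem (U.inv_mem (hcomU hw)) hu
      have e : u = w * (w⁻¹ * u) := by group
      rw [e]
      exact Subgroup.mul_mem _ (Subgroup.mem_sup_right hw) (Subgroup.mem_sup_left ⟨h3, h2⟩)
    · exact sup_le inf_le_left hcomU
  · intro hcond g
    have hg : g ∈ V ⊔ H := by rw [sup_comm, hHV]; trivial
    obtain ⟨v, hv, h, hh, rfl⟩ := Subgroup.mem_sup_of_normal_left.mp hg
    have hUV : Subgroup.closure {y | ∃ a ∈ H, y = a * v * a⁻¹} ≤ V := by
      rw [Subgroup.closure_le]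
      rintro _ ⟨a, ha, rfl⟩
      exact ‹V.Normal›.conj_mem v hv a
    have hvU : v ∈ Subgroup.closure {y | ∃ a ∈ H, y = a * v * a⁻¹} :=
      Subgroup.subset_closure ⟨1, H.one_mem, by simp⟩
    have hle : ∀ a ∈ H, (Subgroup.closure {y | ∃ a ∈ H, y = a * v * a⁻¹}).map
        (MulAut.conj a).toMonoidHom ≤ Subgroup.closure {y | ∃ a ∈ H, y = a * v * a⁻¹} := by
      intro a ha
      rw [MonoidHom.map_closure, Subgroup.closure_le]
      rintro _ ⟨_, ⟨b, hb, rfl⟩, rfl⟩
      apply Subgroup.subset_closure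
      refine ⟨a * b, H.mul_mem ha hb, ?_⟩
      show (MulAut.conj a) (b * v * b⁻¹) = a * b * v * (a * b)⁻¹
      rw [MulAut.conj_apply]; group
    have hUinv : ∀ a ∈ H, (Subgroup.closure {y | ∃ a ∈ H, y = a * v * a⁻¹}).map
        (MulAut.conj a).toMonoidHom = Subgroup.closure {y | ∃ a ∈ H, y = a * v * a⁻¹} := by
      intro a ha
      apply le_antisymm (hle a ha)
      intro y hy
      rw [mem_map_conj]
      have h1 := hle a⁻¹ (H.inv_mem ha) (Subgroup.mem_map_of_mem _ hy)
      have e : (MulAut.conj a⁻¹).toMonoidHom y = a⁻¹ * y * a := by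
        show (MulAut.conj a⁻¹) y = a⁻¹ * y * a
        rw [MulAut.conj_apply, inv_inv]
      rw [e] at h1; exact h1
    have hdec := hcond _ hUV hUinv
    have hcomU := comm_le_of_invariant H _ hUinv
    have hv2 : v ∈ (((Subgroup.closure {y | ∃ a ∈ H, y = a * v * a⁻¹} ⊓
        Subgroup.normalizer (H : Set G)) ⊔
        ⁅H, Subgroup.closure {y | ∃ a ∈ H, y = a * v * a⁻¹}⁆ : Subgroup G) : Set G) := by
      show v ∈ (Subgroup.closure {y | ∃ a ∈ H, y = a * v * a⁻¹} ⊓
        Subgroup.normalizer (H : Set G)) ⊔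
        ⁅H, Subgroup.closure {y | ∃ a ∈ H, y = a * v * a⁻¹}⁆
      rw [← hdec]; exact hvU
    have hnorm2 : (Subgroup.closure {y | ∃ a ∈ H, y = a * v * a⁻¹} ⊓
        Subgroup.normalizer (H : Set G)) ≤ Subgroup.normalizer
          ((⁅H, Subgroup.closure {y | ∃ a ∈ H, y = a * v * a⁻¹}⁆ : Subgroup G) : Set G) := by
      intro n hn
      have hnV : n ∈ V := hUV hn.1
      rw [Subgroup.mem_normalizer_iff]
      intro y
      constructor
      · intro hy
        have e : n * y * n⁻¹ = y := by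
          rw [hcomm n hnV y (hUV (hcomU hy)), mul_inv_cancel_right]
        rw [e]; exact hy
      · intro hy
        have hz := hUV (hcomU hy)
        have e : y = n * y * n⁻¹ := by
          have h1 := hcomm n⁻¹ (V.inv_mem hnV) (n * y * n⁻¹) hz
          calc y = n⁻¹ * (n * y * n⁻¹) * n := by group
            _ = (n * y * n⁻¹) * n⁻¹ * n := by rw [h1]
            _ = n * y * n⁻¹ := by group
        rw [e]; exact hy
    rw [Subgroup.coe_mul_of_left_le_normalizer_right _ _ hnorm2] at hv2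
    obtain ⟨n, hn, w, hw, hnw⟩ := hv2
    have hnV : n ∈ V := hUV hn.1
    have hwV : w ∈ V := hUV (hcomU hw)
    -- key: commutators with U lie in J
    have hav : ∀ a ∈ H, ⁅a, v⁆ ∈ H ⊔ H.map (MulAut.conj (v * h)).toMonoidHom := by
      intro a ha
      have h1 : v * a⁻¹ * v⁻¹ ∈ H.map (MulAut.conj (v * h)).toMonoidHom := by
        rw [mem_map_conj]
        have e : (v * h)⁻¹ * (v * a⁻¹ * v⁻¹) * (v * h) = h⁻¹ * a⁻¹ * h := by group
        rw [e]
        exact H.mul_mem (H.mul_mem (H.inv_mem hh) (H.inv_mem ha)) hh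
      have e : ⁅a, v⁆ = a * (v * a⁻¹ * v⁻¹) := by rw [commutatorElement_def]; group
      rw [e]
      exact Subgroup.mul_mem _ (Subgroup.mem_sup_left ha) (Subgroup.mem_sup_right h1)
    have hJ : ∀ u ∈ Subgroup.closure {y | ∃ a ∈ H, y = a * v * a⁻¹},
        u ∈ V ∧ ∀ a ∈ H, ⁅a, u⁆ ∈ H ⊔ H.map (MulAut.conj (v * h)).toMonoidHom := by
      intro u hu
      induction hu using Subgroup.closure_induction with
      | mem y hy =>
        obtain ⟨b, hb, rfl⟩ := hy
        refine ⟨‹V.Normal›.conj_mem v hv b, ?_⟩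
        intro a ha
        have e : ⁅a, b * v * b⁻¹⁆ = b * ⁅b⁻¹ * a * b, v⁆ * b⁻¹ := by
          simp only [commutatorElement_def]; group
        rw [e]
        have hb' : b ∈ H ⊔ H.map (MulAut.conj (v * h)).toMonoidHom := Subgroup.mem_sup_left hb
        exact Subgroup.mul_mem _ (Subgroup.mul_mem _ hb'
          (hav _ (H.mul_mem (H.mul_mem (H.inv_mem hb) ha) hb))) (Subgroup.inv_mem _ hb')
      | one =>
        refine ⟨V.one_mem, ?_⟩
        intro a ha
        rw [commutatorElement_def]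
        simp
      | mul x y hx hy ihx ihy =>
        refine ⟨V.mul_mem ihx.1 ihy.1, ?_⟩
        intro a ha
        have hc1 : ⁅a, y⁆ ∈ V := by
          rw [commutatorElement_def]
          exact V.mul_mem (‹V.Normal›.conj_mem y ihy.1 a) (V.inv_mem ihy.1)
        have e : ⁅a, x * y⁆ = ⁅a, x⁆ * ⁅a, y⁆ := by
          have h1 := hcomm x⁻¹ (V.inv_mem ihx.1) ⁅a, y⁆ hc1
          calc ⁅a, x * y⁆ = a * x * a⁻¹ * ⁅a, y⁆ * x⁻¹ := by
                simp only [commutatorElement_def]; group
            _ = a * x * a⁻¹ * (⁅a, y⁆ * x⁻¹) := by group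
            _ = a * x * a⁻¹ * (x⁻¹ * ⁅a, y⁆) := by rw [h1]
            _ = ⁅a, x⁆ * ⁅a, y⁆ := by simp only [commutatorElement_def]; group
        rw [e]
        exact Subgroup.mul_mem _ (ihx.2 a ha) (ihy.2 a ha)
      | inv x hx ihx =>
        refine ⟨V.inv_mem ihx.1, ?_⟩
        intro a ha
        have hc1 : a * x⁻¹ * a⁻¹ ∈ V := ‹V.Normal›.conj_mem x⁻¹ (V.inv_mem ihx.1) a
        have e : ⁅a, x⁻¹⁆ = (⁅a, x⁆)⁻¹ := by
          have h1 := hcomm (a * x⁻¹ * a⁻¹) hc1 x ihx.1
          calc ⁅a, x⁻¹⁆ = (a * x⁻¹ * a⁻¹) * x := by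
                simp only [commutatorElement_def]; group
            _ = x * (a * x⁻¹ * a⁻¹) := h1
            _ = (⁅a, x⁆)⁻¹ := by simp only [commutatorElement_def]; group
        rw [e]
        exact Subgroup.inv_mem _ (ihx.2 a ha)
    have hJ' : ⁅H, Subgroup.closure {y | ∃ a ∈ H, y = a * v * a⁻¹}⁆ ≤
        H ⊔ H.map (MulAut.conj (v * h)).toMonoidHom := by
      rw [Subgroup.commutator_le]
      intro a ha u hu
      exact (hJ u hu).2 a ha
    refine ⟨w, hJ' hw, ?_⟩
    rw [map_conj_eq_iff]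
    have e : w⁻¹ * (v * h) = n * h := by
      rw [← hnw]
      have h1 := hcomm n hnV w hwV
      calc w⁻¹ * (n * w * h) = w⁻¹ * (n * w) * h := by group
        _ = w⁻¹ * (w * n) * h := by rw [h1]
        _ = n * h := by group
    rw [e]
    exact Subgroup.mul_mem _ hn.2 (Subgroup.le_normalizer hh)

end Cfsg.Agent.S4269
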