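import Cfsg.Statements.S4332
import Mathlib
import Cfsg.Agent.Lib.Helper7.Basic

set_option autoImplicit false
open Cfsg
open Pointwise

namespace Cfsg.Agent.S4332

open Cfsg.Agent.Lib.Helper7
open Equiv

theorem swap3_eq {α : Type*} [DecidableEq α] (a b d : α) (hab : a ≠ b) (had : a ≠ d) (hbd : b ≠ d) :
    swap b d * swap b a = swap a b * swap a d := by
  ext w
  simp only [Perm.mul_apply, swap_apply_def]
  split_ifs <;> simp_all

theorem swap3_disj {α : Type*} [DecidableEq α] (a b d a' b' d' : α)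
    (h1 : a' ≠ a) (h2 : a' ≠ b) (h3 : a' ≠ d) (h4 : b' ≠ a) (h5 : b' ≠ b) (h6 : b' ≠ d)
    (h7 : d' ≠ a) (h8 : d' ≠ b) (h9 : d' ≠ d) :
    Commute (swap a' b' * swap a' d') (swap a b * swap a d) := by
  apply Perm.Disjoint.commute
  intro w
  by_cases hw : w = a ∨ w = b ∨ w = d
  · left
    rcases hw with rfl | rfl | rfl
    · rw [Perm.mul_apply, swap_apply_of_ne_of_ne (Ne.symm h1) (Ne.symm h7), swap_apply_of_ne_of_ne (Ne.symm h1) (Ne.symm h4)]
    · rw [Perm.mul_apply, swap_apply_of_ne_of_ne (Ne.symm h2) (Ne.symm h8), swap_apply_of_ne_of_ne (Ne.symm h2) (Ne.symm h5)]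
    · rw [Perm.mul_apply, swap_apply_of_ne_of_ne (Ne.symm h3) (Ne.symm h9), swap_apply_of_ne_of_ne (Ne.symm h3) (Ne.symm h6)]
  · right
    push Not at hw
    rw [Perm.mul_apply, swap_apply_of_ne_of_ne hw.1 hw.2.2, swap_apply_of_ne_of_ne hw.1 hw.2.1]

/-- The combinatorial core: every permutation of 8 points has a 3-set which is either a 3-cycle
of it, pointwise fixed, or mapped off itself. -/
theorem triple (c : Perm (Fin 8)) : ∃ a b d : Fin 8, a ≠ b ∧ a ≠ d ∧ b ≠ d ∧
    ((c a = b ∧ c b = d ∧ c d = a) ∨ (c a = a ∧ c b = b ∧ c d = d) ∨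
     (c a ≠ a ∧ c a ≠ b ∧ c a ≠ d ∧ c b ≠ a ∧ c b ≠ b ∧ c b ≠ d ∧ c d ≠ a ∧ c d ≠ b ∧ c d ≠ d)) := by
  by_cases hA : ∃ x, c x ≠ x ∧ c (c (c x)) = x
  · obtain ⟨x, hx1, hx3⟩ := hA
    refine ⟨x, c x, c (c x), ?_, ?_, ?_, Or.inl ⟨rfl, rfl, hx3⟩⟩
    · exact fun h => hx1 h.symm
    · intro h
      apply hx1
      have h2 := congrArg c h
      rw [hx3] at h2
      exact h2
    · intro h
      exact hx1 (c.injective h).symm
  push Not at hA
  by_cases hB : 2 < (Finset.univ.filter (fun x => c x = x)).card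
  · obtain ⟨a, ha, b, hb, d, hd, hab, had, hbd⟩ := Finset.two_lt_card.mp hB
    simp only [Finset.mem_filter, Finset.mem_univ, true_and] at ha hb hd
    exact ⟨a, b, d, hab, had, hbd, Or.inr (Or.inl ⟨ha, hb, hd⟩)⟩
  have hM : 6 ≤ (Finset.univ.filter (fun x => ¬ c x = x)).card := by
    have h1 := Finset.card_filter_add_card_filter_not (s := (Finset.univ : Finset (Fin 8))) (fun x => c x = x)
    rw [Finset.card_univ, Fintype.card_fin] at h1
    omega
  by_cases hC : ∃ x, c x ≠ x ∧ c (c x) ≠ x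
  · obtain ⟨x, hx1, hx2⟩ := hC
    have hx3 := hA x hx1
    have hU : ({c.symm x, x, c x, c (c x), c (c (c x))} : Finset (Fin 8)).card <
        (Finset.univ.filter (fun x => ¬ c x = x)).card := by
      have : ({c.symm x, x, c x, c (c x), c (c (c x))} : Finset (Fin 8)).card ≤ 5 := Finset.card_le_five
      omega
    obtain ⟨d, hdM, hdU⟩ := Finset.exists_mem_notMem_of_card_lt_card hU
    simp only [Finset.mem_filter, Finset.mem_univ, true_and] at hdM
    simp only [Finset.mem_insert, Finset.mem_singleton, not_or] at hdU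
    obtain ⟨hd1, hd2, hd3, hd4, hd5⟩ := hdU
    refine ⟨x, c (c x), d, fun h => hx2 h.symm, Ne.symm hd2, Ne.symm hd4,
      Or.inr (Or.inr ⟨hx1, ?_, Ne.symm hd3, hx3, ?_, Ne.symm hd5, ?_, ?_, hdM⟩)⟩
    · exact fun h => hx1 (c.injective h).symm
    · exact fun h => hx1 (c.injective (c.injective h))
    · intro h
      apply hd1
      rw [← h]
      simp
    · intro h
      exact hd3 (c.injective h)
  · push Not at hC
    have hne : (Finset.univ.filter (fun x => ¬ c x = x)).Nonempty := Finset.card_pos.mp (by omega)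
    obtain ⟨a, ha⟩ := hne
    simp only [Finset.mem_filter, Finset.mem_univ, true_and] at ha
    have hU1 : ({a, c a} : Finset (Fin 8)).card < (Finset.univ.filter (fun x => ¬ c x = x)).card := by
      have : ({a, c a} : Finset (Fin 8)).card ≤ 2 := Finset.card_le_two
      omega
    obtain ⟨b, hbM, hbU⟩ := Finset.exists_mem_notMem_of_card_lt_card hU1
    simp only [Finset.mem_filter, Finset.mem_univ, true_and] at hbM
    simp only [Finset.mem_insert, Finset.mem_singleton, not_or] at hbU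
    obtain ⟨hb1, hb2⟩ := hbU
    have hU2 : ({a, c a, b, c b} : Finset (Fin 8)).card < (Finset.univ.filter (fun x => ¬ c x = x)).card := by
      have : ({a, c a, b, c b} : Finset (Fin 8)).card ≤ 4 := Finset.card_le_four
      omega
    obtain ⟨d, hdM, hdU⟩ := Finset.exists_mem_notMem_of_card_lt_card hU2
    simp only [Finset.mem_filter, Finset.mem_univ, true_and] at hdM
    simp only [Finset.mem_insert, Finset.mem_singleton, not_or] at hdU
    obtain ⟨hd1, hd2, hd3, hd4⟩ := hdU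
    refine ⟨a, b, d, Ne.symm hb1, Ne.symm hd1, Ne.symm hd3,
      Or.inr (Or.inr ⟨ha, Ne.symm hb2, Ne.symm hd2, ?_, hbM, Ne.symm hd4, ?_, ?_, hdM⟩)⟩
    · intro h
      apply hb2
      rw [← h, hC b hbM]
    · intro h
      apply hd2
      rw [← h, hC d hdM]
    · intro h
      apply hd4
      rw [← h, hC d hdM]

theorem star (c : Perm (Fin 8)) : ∃ τ : Perm (Fin 8), τ.IsThreeCycle ∧ Commute (c * τ * c⁻¹) τ := by
  obtain ⟨a, b, d, hab, had, hbd, h⟩ := triple c
  refine ⟨swap a b * swap a d, Perm.isThreeCycle_swap_mul_swap_same hab had hbd, ?_⟩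
  have hconj : c * (swap a b * swap a d) * c⁻¹ = swap (c a) (c b) * swap (c a) (c d) := by
    rw [swap_apply_apply, swap_apply_apply]; group
  rw [hconj]
  rcases h with ⟨h1, h2, h3⟩ | ⟨h1, h2, h3⟩ | h
  · rw [h1, h2, h3, swap3_eq a b d hab had hbd]
  · rw [h1, h2, h3]
  · exact swap3_disj a b d (c a) (c b) (c d) h.1 h.2.1 h.2.2.1 h.2.2.2.1 h.2.2.2.2.1 h.2.2.2.2.2.1
      h.2.2.2.2.2.2.1 h.2.2.2.2.2.2.2.1 h.2.2.2.2.2.2.2.2

/-- In the symmetric group of degree 8, let A be the subgroup generated by a 3-cycle. Then every conjugacy class contains an element g for which A is subnormal in the subgroup generated by A and its conjugate by g, although O_3 of the symmetric group of degree 8 is trivial. -/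
theorem result
    (σ : Equiv.Perm (Fin 8)) (hσ : σ.IsThreeCycle) :
    (∀ c : Equiv.Perm (Fin 8), ∃ g : Equiv.Perm (Fin 8), IsConj c g ∧
      ((Subgroup.zpowers σ).subgroupOf (Subgroup.zpowers σ ⊔ MulAut.conj g • Subgroup.zpowers σ)).IsSubnormal) ∧
    Cfsg.pCore 3 (Equiv.Perm (Fin 8)) = ⊥ := by
  constructor
  · intro c
    obtain ⟨τ, hτ, hcomm⟩ := star c
    have hconj : IsConj τ σ := Perm.isConj_iff_cycleType_eq.mpr (hτ.trans hσ.symm)
    obtain ⟨x, hx⟩ := isConj_iff.mp hconj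
    refine ⟨x * c * x⁻¹, isConj_iff.mpr ⟨x, rfl⟩, ?_⟩
    -- g σ g⁻¹ commutes with σ
    have hc2 : Commute ((x * c * x⁻¹) * σ * (x * c * x⁻¹)⁻¹) σ := by
      have e1 : (x * c * x⁻¹) * σ * (x * c * x⁻¹)⁻¹ = x * (c * τ * c⁻¹) * x⁻¹ := by
        rw [← hx]; group
      rw [e1]
      have e2 : x * (c * τ * c⁻¹) * x⁻¹ * σ = σ * (x * (c * τ * c⁻¹) * x⁻¹) := by
        rw [← hx]
        have h3 : (c * τ * c⁻¹) * τ = τ * (c * τ * c⁻¹) := hcomm
        calc x * (c * τ * c⁻¹) * x⁻¹ * (x * τ * x⁻¹) = x * ((c * τ * c⁻¹) * τ) * x⁻¹ := by group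
          _ = x * (τ * (c * τ * c⁻¹)) * x⁻¹ := by rw [h3]
          _ = x * τ * x⁻¹ * (x * (c * τ * c⁻¹) * x⁻¹) := by group
      exact e2
    -- the join centralizes σ
    have hle : Subgroup.zpowers σ ⊔ MulAut.conj (x * c * x⁻¹) • Subgroup.zpowers σ ≤ Subgroup.centralizer ({σ} : Set (Perm (Fin 8))) := by
      apply sup_le
      · rw [Subgroup.zpowers_le, Subgroup.mem_centralizer_singleton_iff]
      · intro y hy
        rw [mem_conj_smul] at hy
        obtain ⟨k, hk⟩ := Subgroup.mem_zpowers_iff.mp hy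
        rw [Subgroup.mem_centralizer_singleton_iff]
        have e3 : y = ((x * c * x⁻¹) * σ * (x * c * x⁻¹)⁻¹) ^ k := by
          rw [conj_zpow, hk]; group
        rw [e3]
        exact (hc2.zpow_left k)
    apply Subgroup.Normal.isSubnormal
    refine ⟨fun n hn ℓ => ?_⟩
    rw [Subgroup.mem_subgroupOf] at hn ⊢
    obtain ⟨k, hk⟩ := Subgroup.mem_zpowers_iff.mp hn
    have h4 := Subgroup.mem_centralizer_singleton_iff.mp (hle ℓ.2)
    have h5 : Commute (ℓ : Perm (Fin 8)) σ := h4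
    have h6 : (ℓ : Perm (Fin 8)) * (n : Perm (Fin 8)) = (n : Perm (Fin 8)) * (ℓ : Perm (Fin 8)) := by
      rw [← hk]
      exact h5.zpow_right k
    have h7 : ((ℓ * n * ℓ⁻¹ : _) : Perm (Fin 8)) = (n : Perm (Fin 8)) := by
      push_cast
      rw [h6]; group
    rw [h7]
    exact hn
  · -- O_3(S_8) = 1
    rw [Cfsg.pCore, eq_bot_iff]
    apply sSup_le
    rintro N ⟨hNn, hNp⟩
    by_contra hN
    have hNne : N ≠ ⊥ := fun h => hN (by rw [h])
    haveI : Nontrivial N := (Subgroup.nontrivial_iff_ne_bot N).mpr hNne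
    haveI := hNn
    have hA := Equiv.Perm.alternatingGroup_le_of_normal (α := Fin 8) (by simp) (N := N) inferInstance
    have ht : (swap (0 : Fin 8) 1 * swap (2 : Fin 8) 3) ∈ alternatingGroup (Fin 8) := by
      rw [Equiv.Perm.mem_alternatingGroup]
      decide
    have htN := hA ht
    obtain ⟨k, hk⟩ := hNp ⟨_, htN⟩
    have hk' : (swap (0 : Fin 8) 1 * swap (2 : Fin 8) 3) ^ 3 ^ k = 1 := by
      have := congrArg Subtype.val hk
      simpa using this
    have ho : orderOf (swap (0 : Fin 8) 1 * swap (2 : Fin 8) 3) = 2 := by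
      apply orderOf_eq_prime
      · decide
      · decide
    have hdvd : 2 ∣ 3 ^ k := by
      rw [← ho]
      exact orderOf_dvd_of_pow_eq_one hk'
    have h2 : 2 ∣ 3 := Nat.Prime.dvd_of_dvd_pow Nat.prime_two hdvd
    omega

end Cfsg.Agent.S4332
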