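import Cfsg.Statements.S4333
import Mathlib
import Cfsg.Agent.Lib.Lead.Wielandt

set_option autoImplicit false
open Cfsg

namespace Cfsg.Agent.S4333

open Pointwise
open Cfsg.Agent.Lib.Lead

theorem conj_smul_self {G : Type*} [Group G] {N : Subgroup G} {x : G} (hx : x ∈ N) :
    MulAut.conj x • N = N := by
  ext y
  rw [mem_conj_smul]
  constructor
  · intro h
    have e : y = x * (x⁻¹ * y * x) * x⁻¹ := by group
    rw [e]; exact N.mul_mem (N.mul_mem hx h) (N.inv_mem hx)
  · intro h
    exact N.mul_mem (N.mul_mem (N.inv_mem hx) h) hx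

theorem isMaxIn_conj {G : Type*} [Group G] {M N : Subgroup G} (h : IsMaxIn M N) (x : G)
    (hx : x ∈ N) : IsMaxIn (MulAut.conj x • M) N := by
  obtain ⟨h1, h2, h3⟩ := h
  have hN : MulAut.conj x • N = N := conj_smul_self hx
  refine ⟨?_, ?_, ?_⟩
  · rw [← hN]; exact Subgroup.pointwise_smul_le_pointwise_smul_iff.mpr h1
  · intro h4
    apply h2
    rw [← hN] at h4
    exact smul_left_cancel _ h4
  · intro L hL1 hL2
    have h5 : M ≤ (MulAut.conj x)⁻¹ • L := Subgroup.pointwise_smul_subset_iff.mp hL1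
    have h6 : (MulAut.conj x)⁻¹ • L ≤ N := by
      rw [← Subgroup.pointwise_smul_le_pointwise_smul_iff (a := MulAut.conj x), smul_inv_smul, hN]
      exact hL2
    rcases h3 _ h5 h6 with h7 | h7
    · left
      rw [← h7, smul_inv_smul]
    · right
      rw [← hN, ← h7, smul_inv_smul]

/-- Relative form of the sharpened Wielandt criterion. -/
theorem wielandt_rel' {G : Type*} [Group G] [Finite G] :
    ∀ (n : ℕ) (N A : Subgroup G), Nat.card N = n → A ≤ N →
      (∀ a ∈ A, ∀ g ∈ N, (A.subgroupOf (A ⊔ MulAut.conj (g⁻¹ * a * g) • A)).IsSubnormal) →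
      (A.subgroupOf N).IsSubnormal := by
  intro n
  induction n using Nat.strong_induction_on with
  | _ n ih =>
  intro N A hn hAN hpair
  by_contra hnot
  have hprop : ∀ H : Subgroup G, A ≤ H → H ≤ N → H ≠ N → (A.subgroupOf H).IsSubnormal := by
    intro H hAH hHN hHne
    exact ih (Nat.card H) (by rw [← hn]; exact card_lt_of_lt hHN hHne) H A rfl hAH
      (fun a ha g hg => hpair a ha g (hHN hg))
  have hAne : A ≠ N := by
    intro h
    apply hnot
    have h1 : A.subgroupOf N = ⊤ := Subgroup.subgroupOf_eq_top.mpr h.ge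
    rw [h1]; exact Subgroup.IsSubnormal.top
  obtain ⟨M, hAM, hMmax⟩ := exists_isMaxIn A N hAN hAne
  have hkey : ∀ a ∈ A, ∀ g ∈ N, g⁻¹ * a * g ∈ Subgroup.normalizer (M : Set G) := by
    intro a ha g hg
    have hxN : g⁻¹ * a * g ∈ N := N.mul_mem (N.mul_mem (N.inv_mem hg) (hAN ha)) hg
    have hgA : MulAut.conj (g⁻¹ * a * g) • A ≤ N := by
      rw [← conj_smul_self hxN]
      exact Subgroup.pointwise_smul_le_pointwise_smul_iff.mpr hAN
    have hJN : A ⊔ MulAut.conj (g⁻¹ * a * g) • A ≤ N := sup_le hAN hgA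
    have hJne : A ⊔ MulAut.conj (g⁻¹ * a * g) • A ≠ N := by
      intro h
      apply hnot
      have h1 := hpair a ha g hg
      rw [h] at h1; exact h1
    obtain ⟨M', hJM', hM'max⟩ := exists_isMaxIn _ N hJN hJne
    have h2 := zipper _ N A rfl hAN hnot hprop M M' hAM hMmax (le_sup_left.trans hJM') hM'max
    have hxAM : MulAut.conj (g⁻¹ * a * g) • A ≤ M := by rw [h2]; exact le_sup_right.trans hJM'
    have hA' : A ≤ MulAut.conj (g⁻¹ * a * g)⁻¹ • M := by
      rw [map_inv]
      exact Subgroup.pointwise_smul_subset_iff.mp hxAM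
    have hmax' : IsMaxIn (MulAut.conj (g⁻¹ * a * g)⁻¹ • M) N :=
      isMaxIn_conj hMmax _ (N.inv_mem hxN)
    have h3 := zipper _ N A rfl hAN hnot hprop M _ hAM hMmax hA' hmax'
    have h4 : (g⁻¹ * a * g)⁻¹ ∈ Subgroup.normalizer (M : Set G) :=
      mem_normalizer_of_conj_smul_eq h3.symm
    have h5 := (Subgroup.normalizer (M : Set G)).inv_mem h4
    rwa [inv_inv] at h5
  have hCM : Subgroup.closure {y : G | ∃ g ∈ N, ∃ a ∈ A, y = g⁻¹ * a * g} ≤
      Subgroup.normalizer (M : Set G) := by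
    rw [Subgroup.closure_le]
    rintro y ⟨g, hg, a, ha, rfl⟩
    exact hkey a ha g hg
  have hCN : Subgroup.closure {y : G | ∃ g ∈ N, ∃ a ∈ A, y = g⁻¹ * a * g} ≤ N := by
    rw [Subgroup.closure_le]
    rintro y ⟨g, hg, a, ha, rfl⟩
    exact N.mul_mem (N.mul_mem (N.inv_mem hg) (hAN ha)) hg
  have hCn : N ≤ Subgroup.normalizer
      ((Subgroup.closure {y : G | ∃ g ∈ N, ∃ a ∈ A, y = g⁻¹ * a * g} : Subgroup G) :
        Set G) := by
    intro x hx
    apply mem_normalizer_of_conj_mem
    apply conj_mem_closure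
    rintro y ⟨g, hg, a, ha, rfl⟩
    apply Subgroup.subset_closure
    refine ⟨g * x⁻¹, N.mul_mem hg (N.inv_mem hx), a, ha, ?_⟩
    group
  have hAC : A ≤ Subgroup.closure {y : G | ∃ g ∈ N, ∃ a ∈ A, y = g⁻¹ * a * g} := by
    intro a ha
    apply Subgroup.subset_closure
    exact ⟨1, N.one_mem, a, ha, by group⟩
  apply hnot
  by_cases hCeq : Subgroup.closure {y : G | ∃ g ∈ N, ∃ a ∈ A, y = g⁻¹ * a * g} = N
  · have hNM : N ≤ Subgroup.normalizer (M : Set G) := by rw [← hCeq]; exact hCM
    exact subnormal_trans hAM hMmax.1 (hprop M hAM hMmax.1 hMmax.2.1)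
      (subnormal_of_le_normalizer hMmax.1 hNM)
  · exact subnormal_trans hAC hCN (hprop _ hAC hCN hCeq) (subnormal_of_le_normalizer hCN hCn)

/-- Let A be a subgroup of a finite group G. If A is subnormal in the subgroup generated by A and its conjugate by g⁻¹ a g, for every a ∈ A and every g ∈ G, then A is subnormal in G. (A sharpening of Wielandt's subnormality criterion: only conjugates of A by conjugates of elements of A are needed.) -/
theorem result {G : Type*} [Group G] [Finite G]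
    (A : Subgroup G)
    (h : ∀ a ∈ A, ∀ g : G, (A.subgroupOf (A ⊔ MulAut.conj (g⁻¹ * a * g) • A)).IsSubnormal) :
    A.IsSubnormal := by
  exact subnormal_of_subgroupOf_top (wielandt_rel' _ ⊤ A rfl le_top (fun a ha g _ => h a ha g))

end Cfsg.Agent.S4333
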