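import Cfsg.Statements.S4337
import Mathlib
import Cfsg.Agent.Lib.Helper7.PermSolvable

set_option autoImplicit false
open Cfsg

namespace Cfsg.Agent.S4337

open Cfsg.Agent.Lib.Helper7

theorem inter_nonempty_of_not_commute {α : Type*} [Fintype α] [DecidableEq α] (σ τ : Equiv.Perm α)
    (h : ¬ Commute σ τ) : (σ.support ∩ τ.support).Nonempty := by
  by_contra hne
  rw [Finset.not_nonempty_iff_eq_empty, ← Finset.disjoint_iff_inter_eq_empty,
    ← Equiv.Perm.disjoint_iff_disjoint_support] at hne
  exact h hne.commute

theorem card_union_succ_le {α : Type*} [DecidableEq α] (A B : Finset α) (h : (A ∩ B).Nonempty) :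
    (A ∪ B).card + 1 ≤ A.card + B.card := by
  have h1 := Finset.card_union_add_card_inter A B
  have h2 : 0 < (A ∩ B).card := Finset.card_pos.mpr h
  omega

/-- The case where `c` commutes with `a` and `b`. -/
theorem case1 (n : ℕ) (a b c : Equiv.Perm (Fin n)) (ha : a.IsSwap) (hb : b.IsSwap)
    (h1 : Commute a c) (h2 : Commute b c) :
    Group.IsSolvable (Subgroup.closure ({a, b, c} : Set (Equiv.Perm (Fin n)))) := by
  have hcard_a : a.support.card = 2 := Equiv.Perm.card_support_eq_two.mpr ha
  have hcard_b : b.support.card = 2 := Equiv.Perm.card_support_eq_two.mpr hb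
  have hL : Group.IsSolvable (Subgroup.closure ({a, b} : Set (Equiv.Perm (Fin n)))) := by
    apply isSolvable_closure_of_support_subset _ (a.support ∪ b.support)
    · have := Finset.card_union_le a.support b.support
      omega
    · intro σ hσ
      rcases hσ with rfl | rfl
      · exact Finset.subset_union_left
      · exact Finset.subset_union_right
  have hcomm : ∀ l ∈ Subgroup.closure ({a, b} : Set (Equiv.Perm (Fin n))), Commute l c := by
    have hle : Subgroup.closure ({a, b} : Set (Equiv.Perm (Fin n))) ≤ Subgroup.centralizer {c} := by
      rw [Subgroup.closure_le]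
      intro σ hσ
      rw [SetLike.mem_coe, Subgroup.mem_centralizer_singleton_iff]
      rcases hσ with rfl | rfl
      · exact h1.eq
      · exact h2.eq
    intro l hl
    have := hle hl
    rw [Subgroup.mem_centralizer_singleton_iff] at this
    exact this
  have hsup := isSolvable_sup_zpowers _ c hcomm hL
  have hle : Subgroup.closure ({a, b, c} : Set (Equiv.Perm (Fin n))) ≤
      Subgroup.closure ({a, b} : Set (Equiv.Perm (Fin n))) ⊔ Subgroup.zpowers c := by
    rw [Subgroup.closure_le]
    intro σ hσ
    rcases hσ with rfl | rfl | rfl
    · exact (le_sup_left : Subgroup.closure ({σ, b} : Set (Equiv.Perm (Fin n))) ≤ _)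
        (Subgroup.subset_closure (by simp))
    · exact (le_sup_left : Subgroup.closure ({a, σ} : Set (Equiv.Perm (Fin n))) ≤ _)
        (Subgroup.subset_closure (by simp))
    · exact (le_sup_right : Subgroup.zpowers σ ≤ _) (Subgroup.mem_zpowers σ)
  exact Group.isSolvable_of_isSolvable_injective (Subgroup.inclusion_injective hle)

/-- In a finite symmetric group, any three transpositions generate a solvable subgroup. -/
theorem result (n : ℕ) (a b c : Equiv.Perm (Fin n))
    (ha : a.IsSwap) (hb : b.IsSwap) (hc : c.IsSwap) :
    Group.IsSolvable (Subgroup.closure ({a, b, c} : Set (Equiv.Perm (Fin n)))) := by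
  have hcard_a : a.support.card = 2 := Equiv.Perm.card_support_eq_two.mpr ha
  have hcard_b : b.support.card = 2 := Equiv.Perm.card_support_eq_two.mpr hb
  have hcard_c : c.support.card = 2 := Equiv.Perm.card_support_eq_two.mpr hc
  by_cases hC : Commute a c ∧ Commute b c
  · exact case1 n a b c ha hb hC.1 hC.2
  by_cases hA : Commute b a ∧ Commute c a
  · have hset : ({a, b, c} : Set (Equiv.Perm (Fin n))) = {b, c, a} := by
      ext x; simp only [Set.mem_insert_iff, Set.mem_singleton_iff]; tauto
    rw [hset]
    exact case1 n b c a hb hc hA.1 hA.2
  by_cases hB : Commute a b ∧ Commute c b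
  · have hset : ({a, b, c} : Set (Equiv.Perm (Fin n))) = {a, c, b} := by
      ext x; simp only [Set.mem_insert_iff, Set.mem_singleton_iff]; tauto
    rw [hset]
    exact case1 n a c b ha hc hB.1 hB.2
  -- connected case: supports lie in a set of at most 4 points
  by_cases hab : Commute a b
  · have hac : ¬ Commute a c := fun h => hA ⟨hab.symm, h.symm⟩
    have hbc : ¬ Commute b c := fun h => hB ⟨hab, h.symm⟩
    apply isSolvable_closure_of_support_subset _ ((a.support ∪ c.support) ∪ b.support)
    · have h1 := card_union_succ_le a.support c.support (inter_nonempty_of_not_commute a c hac)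
      obtain ⟨x, hx⟩ := inter_nonempty_of_not_commute b c hbc
      have h2 := card_union_succ_le (a.support ∪ c.support) b.support ⟨x, by
        rw [Finset.mem_inter] at hx ⊢
        exact ⟨Finset.mem_union_right _ hx.2, hx.1⟩⟩
      omega
    · intro σ hσ
      rcases hσ with rfl | rfl | rfl
      · exact Finset.subset_union_left.trans Finset.subset_union_left
      · exact Finset.subset_union_right
      · exact Finset.subset_union_right.trans Finset.subset_union_left
  · have hc' : ¬ Commute a c ∨ ¬ Commute b c := by
      by_contra h
      push Not at h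
      exact hC h
    apply isSolvable_closure_of_support_subset _ ((a.support ∪ b.support) ∪ c.support)
    · have h1 := card_union_succ_le a.support b.support (inter_nonempty_of_not_commute a b hab)
      have h2 : ((a.support ∪ b.support) ∩ c.support).Nonempty := by
        rcases hc' with h | h
        · obtain ⟨x, hx⟩ := inter_nonempty_of_not_commute a c h
          rw [Finset.mem_inter] at hx
          exact ⟨x, Finset.mem_inter.mpr ⟨Finset.mem_union_left _ hx.1, hx.2⟩⟩
        · obtain ⟨x, hx⟩ := inter_nonempty_of_not_commute b c h
          rw [Finset.mem_inter] at hx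
          exact ⟨x, Finset.mem_inter.mpr ⟨Finset.mem_union_right _ hx.1, hx.2⟩⟩
      have h3 := card_union_succ_le (a.support ∪ b.support) c.support h2
      omega
    · intro σ hσ
      rcases hσ with rfl | rfl | rfl
      · exact Finset.subset_union_left.trans Finset.subset_union_left
      · exact Finset.subset_union_right.trans Finset.subset_union_left
      · exact Finset.subset_union_right

end Cfsg.Agent.S4337
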