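import Cfsg.Statements.S4341
import Mathlib
import Cfsg.Agent.Lib.Helper7.SylowIndex

set_option autoImplicit false
open Cfsg

namespace Cfsg.Agent.S4341

open Cfsg.Agent.Lib.Helper7

theorem normalizer_le_normalizer_inf {G : Type*} [Group G] (A K : Subgroup G) [K.Normal] :
    Subgroup.normalizer (A : Set G) ≤ Subgroup.normalizer ((A ⊓ K : Subgroup G) : Set G) := by
  intro n hn
  rw [Subgroup.mem_normalizer_iff] at hn ⊢
  intro y
  rw [Subgroup.mem_inf, Subgroup.mem_inf, ← hn y]
  have h1 : y ∈ K ↔ n * y * n⁻¹ ∈ K := by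
    constructor
    · intro h; exact ‹K.Normal›.conj_mem y h n
    · intro h
      have h2 := ‹K.Normal›.conj_mem _ h n⁻¹
      have e : n⁻¹ * (n * y * n⁻¹) * n⁻¹⁻¹ = y := by group
      rw [e] at h2; exact h2
  rw [h1]

/-- Let K be a normal subgroup of a finite group G, p a prime and P a Sylow p-subgroup of G; let N be the normalizer of P ∩ K inside the subgroup PK. Then the number of Sylow p-subgroups of G equals the product of the numbers of Sylow p-subgroups of G/K, of K, and of N/(P ∩ K). (The normality of P ∩ K in N, which always holds, is assumed as a hypothesis so that the quotient can be formed.) -/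
theorem result {G : Type*} [Group G] [Finite G]
    (p : ℕ) [Fact p.Prime] (K : Subgroup G) [K.Normal] (P : Sylow p G) (N : Subgroup G)
    (hN : N = ((P : Subgroup G) ⊔ K) ⊓ Subgroup.normalizer (((P : Subgroup G) ⊓ K : Subgroup G) : Set G))
    [hn : (((P : Subgroup G) ⊓ K).subgroupOf N).Normal] :
    Nat.card (Sylow p G) =
      Nat.card (Sylow p (G ⧸ K)) * Nat.card (Sylow p K) * Nat.card (Sylow p (N ⧸ ((P : Subgroup G) ⊓ K).subgroupOf N)) := by
  -- notation
  have hNPQ : Subgroup.normalizer ((P : Subgroup G) : Set G) ≤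
      Subgroup.normalizer (((P : Subgroup G) ⊓ K : Subgroup G) : Set G) :=
    normalizer_le_normalizer_inf (P : Subgroup G) K
  have hPNP : (P : Subgroup G) ≤ Subgroup.normalizer ((P : Subgroup G) : Set G) :=
    Subgroup.le_normalizer
  have hPN : (P : Subgroup G) ≤ N := by
    rw [hN]; exact le_inf le_sup_left (hPNP.trans hNPQ)
  have hNNQ : N ≤ Subgroup.normalizer (((P : Subgroup G) ⊓ K : Subgroup G) : Set G) := by
    rw [hN]; exact inf_le_right
  -- step 1
  have step1 := card_sylow_eq_quotient_mul P K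
  -- step 2a: n_p(K)
  have hQp : IsPGroup p ((P : Subgroup G) ⊓ K : Subgroup G) := P.2.to_le inf_le_left
  have hQidx : ¬ p ∣ ((P : Subgroup G) ⊓ K : Subgroup G).relIndex K := by
    rw [Subgroup.inf_relIndex_right]
    intro hdvd
    apply P.not_dvd_index
    have h1 := relIndex_sup_eq_of_le_normalizer (P : Subgroup G) K
      Subgroup.le_normalizer_of_normal
    have h2 := Subgroup.relIndex_mul_index (le_sup_left : (P : Subgroup G) ≤ (P : Subgroup G) ⊔ K)
    rw [h1] at h2
    rw [← h2]
    exact Dvd.dvd.mul_right hdvd _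
  have step2a := card_sylow_subgroup_eq_relIndex p K ((P : Subgroup G) ⊓ K) inf_le_right hQp hQidx
  -- K₁
  have hK1N : Subgroup.normalizer (((P : Subgroup G) ⊓ K : Subgroup G) : Set G) ⊓ K ≤ N := by
    rw [hN]; exact le_inf (inf_le_right.trans le_sup_right) inf_le_left
  -- step 2c
  have step2c := Subgroup.relIndex_mul_relIndex
    (H := Subgroup.normalizer ((P : Subgroup G) : Set G) ⊓ K)
    (K := Subgroup.normalizer (((P : Subgroup G) ⊓ K : Subgroup G) : Set G) ⊓ K) (L := K)
    (inf_le_inf_right K hNPQ) inf_le_right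
  rw [Subgroup.inf_relIndex_right, Subgroup.inf_relIndex_right] at step2c
  -- step 2d
  have step2d : (Subgroup.normalizer ((P : Subgroup G) : Set G) ⊓ K).relIndex
      (Subgroup.normalizer (((P : Subgroup G) ⊓ K : Subgroup G) : Set G) ⊓ K) =
      (Subgroup.normalizer ((P : Subgroup G) : Set G)).relIndex
      (Subgroup.normalizer (((P : Subgroup G) ⊓ K : Subgroup G) : Set G) ⊓ K) := by
    rw [← Subgroup.inf_relIndex_right (H := Subgroup.normalizer ((P : Subgroup G) : Set G) ⊓ K),
      ← Subgroup.inf_relIndex_right (H := Subgroup.normalizer ((P : Subgroup G) : Set G))]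
    congr 1
    rw [inf_assoc]
    congr 1
    exact inf_of_le_right inf_le_right
  -- step 2e
  have step2e : Nat.card (Sylow p (N ⧸ ((P : Subgroup G) ⊓ K).subgroupOf N)) =
      (Subgroup.normalizer ((P : Subgroup G) : Set G)).relIndex N := by
    rw [card_sylow_quotient (P.subtype hPN) (((P : Subgroup G) ⊓ K).subgroupOf N)]
    have h1 : ((P.subtype hPN : Sylow p N) : Subgroup N) ⊔ ((P : Subgroup G) ⊓ K).subgroupOf N =
        (P : Subgroup G).subgroupOf N := by
      rw [Sylow.coe_subtype]
      apply sup_of_le_left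
      intro x hx
      rw [Subgroup.mem_subgroupOf] at hx ⊢
      exact hx.1
    rw [h1, ← Subgroup.subgroupOf_normalizer_eq hPN]
    rfl
  -- step 2f
  have hA : Subgroup.normalizer ((P : Subgroup G) : Set G) ⊓ N ≤ Subgroup.normalizer
      ((Subgroup.normalizer (((P : Subgroup G) ⊓ K : Subgroup G) : Set G) ⊓ K : Subgroup G) :
        Set G) := by
    intro x hx
    have hx1 : x ∈ Subgroup.normalizer (((P : Subgroup G) ⊓ K : Subgroup G) : Set G) :=
      hNNQ hx.2
    have h2 := normalizer_le_normalizer_inf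
      (Subgroup.normalizer (((P : Subgroup G) ⊓ K : Subgroup G) : Set G)) K
    exact h2 (Subgroup.le_normalizer hx1)
  have hsup : (Subgroup.normalizer ((P : Subgroup G) : Set G) ⊓ N) ⊔
      (Subgroup.normalizer (((P : Subgroup G) ⊓ K : Subgroup G) : Set G) ⊓ K) = N := by
    apply le_antisymm
    · exact sup_le inf_le_right hK1N
    · intro g hg
      have hg' := hg
      rw [hN] at hg'
      obtain ⟨a, ha, b, hb, rfl⟩ := Subgroup.mem_sup_of_normal_right.mp hg'.1
      have hb' : b ∈ Subgroup.normalizer (((P : Subgroup G) ⊓ K : Subgroup G) : Set G) := by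
        have h1 := Subgroup.mul_mem _ (Subgroup.inv_mem _ ((hPNP.trans hNPQ) ha)) hg'.2
        rwa [inv_mul_cancel_left] at h1
      exact Subgroup.mul_mem_sup ⟨hPNP ha, hPN ha⟩ ⟨hb', hb⟩
  have step2f := relIndex_sup_eq_of_le_normalizer _ _ hA
  rw [hsup, Subgroup.inf_relIndex_right] at step2f
  have step2g : (Subgroup.normalizer ((P : Subgroup G) : Set G) ⊓ N).relIndex
      (Subgroup.normalizer (((P : Subgroup G) ⊓ K : Subgroup G) : Set G) ⊓ K) =
      (Subgroup.normalizer ((P : Subgroup G) : Set G)).relIndex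
      (Subgroup.normalizer (((P : Subgroup G) ⊓ K : Subgroup G) : Set G) ⊓ K) := by
    rw [← Subgroup.inf_relIndex_right (H := Subgroup.normalizer ((P : Subgroup G) : Set G) ⊓ N),
      ← Subgroup.inf_relIndex_right (H := Subgroup.normalizer ((P : Subgroup G) : Set G))]
    congr 1
    rw [inf_assoc]
    congr 1
    exact inf_of_le_right hK1N
  rw [step1, step2e, step2f, step2g, ← step2d, step2a, ← step2c]
  ring

end Cfsg.Agent.S4341
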