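import Cfsg.Statements.S4342
import Mathlib

set_option autoImplicit false
open Cfsg

namespace Cfsg.Agent.S4342

/-- A central `p`-element lies in every Sylow `p`-subgroup. -/
theorem central_mem_sylow {H : Type*} [Group H] (p : ℕ) [Fact p.Prime] (P : Sylow p H)
    (z : H) (hz : z ∈ Subgroup.center H) (k : ℕ) (hk : z ^ p ^ k = 1) : z ∈ (P : Subgroup H) := by
  have hle : Subgroup.zpowers z ≤ Subgroup.center H := Subgroup.zpowers_le.mpr hz
  have hnormal : (Subgroup.zpowers z).Normal := by
    refine ⟨fun n hn g => ?_⟩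
    have h1 : g * n * g⁻¹ = n := by
      have := Subgroup.mem_center_iff.mp (hle hn) g
      rw [this]; group
    rw [h1]; exact hn
  have hpg : IsPGroup p (Subgroup.zpowers z) := by
    rintro ⟨y, hy⟩
    obtain ⟨m, rfl⟩ := Subgroup.mem_zpowers_iff.mp hy
    refine ⟨k, ?_⟩
    apply Subtype.ext
    rw [Subgroup.coe_pow]
    show (z ^ m) ^ p ^ k = 1
    rw [← zpow_natCast, ← zpow_mul, mul_comm, zpow_mul, zpow_natCast, hk, one_zpow]
  exact (hpg.le_sylow_of_normal P) (Subgroup.mem_zpowers z)

/-- The number of Sylow `p`-subgroups is unchanged modulo the center. -/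
theorem card_sylow_quotient_center {H : Type*} [Group H] [Finite H] (p : ℕ) [Fact p.Prime] :
    Nat.card (Sylow p (H ⧸ Subgroup.center H)) = Nat.card (Sylow p H) := by
  have hsurj : Function.Surjective (QuotientGroup.mk' (Subgroup.center H)) := QuotientGroup.mk'_surjective _
  symm
  apply Nat.card_eq_of_bijective (Sylow.mapSurjective hsurj)
  refine ⟨?_, Sylow.mapSurjective_surjective hsurj p⟩
  intro P Q hPQ
  have h1 : (P : Subgroup H).map (QuotientGroup.mk' (Subgroup.center H)) =
      (Q : Subgroup H).map (QuotientGroup.mk' (Subgroup.center H)) := by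
    have := congrArg (fun S : Sylow p (H ⧸ Subgroup.center H) => (S : Subgroup (H ⧸ Subgroup.center H))) hPQ
    simpa using this
  -- show Q ≤ P
  have hle : (Q : Subgroup H) ≤ P := by
    intro q hq
    have h2 : QuotientGroup.mk' (Subgroup.center H) q ∈ (P : Subgroup H).map (QuotientGroup.mk' (Subgroup.center H)) := by
      rw [h1]; exact Subgroup.mem_map_of_mem _ hq
    obtain ⟨x, hx, hxq⟩ := Subgroup.mem_map.mp h2
    have h3 : x⁻¹ * q ∈ Subgroup.center H := by
      have := QuotientGroup.eq.mp hxq
      exact this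
    -- x⁻¹ q is a p-element
    obtain ⟨a, ha⟩ := P.isPGroup' ⟨x, hx⟩
    obtain ⟨b, hb⟩ := Q.isPGroup' ⟨q, hq⟩
    have ha' : x ^ p ^ a = 1 := by
      have := congrArg Subtype.val ha
      simpa using this
    have hb' : q ^ p ^ b = 1 := by
      have := congrArg Subtype.val hb
      simpa using this
    have hcomm : Commute x⁻¹ q := by
      have h4 := Subgroup.mem_center_iff.mp h3 x
      -- x * (x⁻¹ q) = (x⁻¹ q) * x
      have h5 : x⁻¹ * q = q * x⁻¹ := by
        have h6 : q = x⁻¹ * q * x := by
          rw [← h4]; group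
        calc x⁻¹ * q = x⁻¹ * q * x * x⁻¹ := by group
          _ = q * x⁻¹ := by rw [← h6]
      exact h5
    have h7 : (x⁻¹ * q) ^ p ^ (a + b) = 1 := by
      rw [hcomm.mul_pow, inv_pow, pow_add, pow_mul, ha', one_pow, inv_one, one_mul, mul_comm (p ^ a), pow_mul,
        hb', one_pow]
    have h8 := central_mem_sylow p P _ h3 _ h7
    have h9 := (P : Subgroup H).mul_mem hx h8
    have h10 : x * (x⁻¹ * q) = q := by group
    rw [h10] at h9
    exact h9
  apply Sylow.ext
  exact (Q.is_maximal' P.isPGroup' hle)

/-- Let H be a normal subgroup of a finite group G and p a prime not dividing the index of H. Then the number of Sylow p-subgroups of H/Z(H) equals the number of Sylow p-subgroups of G. -/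
theorem result {G : Type*} [Group G] [Finite G]
    (p : ℕ) [Fact p.Prime] (H : Subgroup G) [H.Normal] (hp : ¬ p ∣ H.index) :
    Nat.card (Sylow p (H ⧸ Subgroup.center H)) = Nat.card (Sylow p G) := by
  rw [card_sylow_quotient_center]
  -- every Sylow p-subgroup of G lies in H
  have hle : ∀ P : Sylow p G, (P : Subgroup G) ≤ H := by
    intro P x hx
    obtain ⟨a, ha⟩ := P.isPGroup' ⟨x, hx⟩
    have ha' : x ^ p ^ a = 1 := by
      have := congrArg Subtype.val ha
      simpa using this
    have h1 : orderOf (QuotientGroup.mk' H x) ∣ p ^ a := by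
      apply orderOf_dvd_of_pow_eq_one
      rw [← map_pow, ha', map_one]
    have h2 : orderOf (QuotientGroup.mk' H x) ∣ H.index := by
      rw [Subgroup.index_eq_card]
      exact orderOf_dvd_natCard _
    have h3 : Nat.Coprime (p ^ a) H.index :=
      Nat.Coprime.pow_left a ((Nat.Prime.coprime_iff_not_dvd Fact.out).mpr hp)
    have h4 : orderOf (QuotientGroup.mk' H x) = 1 := Nat.eq_one_of_dvd_coprimes h3 h1 h2
    have h5 := orderOf_eq_one_iff.mp h4
    exact (QuotientGroup.eq_one_iff x).mp h5
  symm
  apply Nat.card_eq_of_bijective (fun P : Sylow p G => P.subtype (hle P))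
  constructor
  · intro P Q hPQ
    exact Sylow.subtype_injective hPQ
  · intro Q
    obtain ⟨P, hP⟩ := (Q.isPGroup'.map H.subtype).exists_le_sylow
    refine ⟨P, ?_⟩
    apply Sylow.ext
    rw [Sylow.coe_subtype]
    symm
    apply (Q.is_maximal' (P.subtype (hle P)).isPGroup' ?_).symm.trans
    · rw [Sylow.coe_subtype]
    · rw [Sylow.coe_subtype]
      intro y hy
      rw [Subgroup.mem_subgroupOf]
      exact hP (Subgroup.mem_map_of_mem _ hy)

end Cfsg.Agent.S4342
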