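import Cfsg.Statements.S4343
import Mathlib
import Cfsg.Agent.Lib.Helper7.Basic
import Cfsg.Agent.Lib.Helper7.SylowAux
import Cfsg.Agent.Lib.Helper7.ClassCount

set_option autoImplicit false
open Cfsg

namespace Cfsg.Agent.S4343

open Cfsg.Agent.Lib.Helper7

/-- Let S be a finite non-abelian simple group and p a prime dividing its order. If S has fewer than p² Sylow p-subgroups, then its Sylow p-subgroups have order p. -/
theorem result {S : Type*} [Group S] [Finite S]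
    [IsSimpleGroup S] (hS : ¬ IsMulCommutative S) (p : ℕ) [Fact p.Prime] (hp : p ∣ Nat.card S)
    (hn : Nat.card (Sylow p S) < p ^ 2) (P : Sylow p S) : Nat.card P = p := by
  have hpp : p.Prime := Fact.out
  have hcard : ∀ Q : Sylow p S, Nat.card (Q : Subgroup S) = p ^ (Nat.card S).factorization p :=
    fun Q => Sylow.card_eq_multiplicity Q
  have hk : (Nat.card S).factorization p ≠ 0 := by
    intro h0
    rcases (Nat.factorization_eq_zero_iff _ _).mp h0 with h | h | h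
    · exact h hpp
    · exact h hp
    · exact Nat.card_pos.ne' h
  -- (a)
  have ha : ∀ Q₁ Q₂ : Sylow p S, Nat.card (Q₁ : Subgroup S) ≤
      Nat.card (Sylow p S) * Nat.card ((Q₁ : Subgroup S) ⊓ (Q₂ : Subgroup S) : Subgroup S) := by
    intro Q₁ Q₂
    have h1 := card_le_index_mul_card_inf (Q₁ : Subgroup S) (Subgroup.normalizer ((Q₂ : Subgroup S) : Set S))
    have h2 : (Q₁ : Subgroup S) ⊓ Subgroup.normalizer ((Q₂ : Subgroup S) : Set S) = (Q₁ : Subgroup S) ⊓ (Q₂ : Subgroup S) :=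
      Q₁.isPGroup'.inf_normalizer_sylow Q₂
    have h3 : Nat.card (Sylow p S) = (Subgroup.normalizer ((Q₂ : Subgroup S) : Set S)).index :=
      Sylow.card_eq_index_normalizer Q₂
    rw [h2, ← h3] at h1
    exact h1
  -- (b)
  have hb : ∀ Q₁ Q₂ : Sylow p S, (Q₁ : Subgroup S) ≤
      Subgroup.normalizer (((Q₁ : Subgroup S) ⊓ (Q₂ : Subgroup S) : Subgroup S) : Set S) := by
    intro Q₁ Q₂
    rw [← Subgroup.normal_subgroupOf_iff_le_normalizer inf_le_left]
    have h1 : Nat.card (((Q₁ : Subgroup S) ⊓ (Q₂ : Subgroup S)).subgroupOf (Q₁ : Subgroup S)) *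
        (((Q₁ : Subgroup S) ⊓ (Q₂ : Subgroup S)).subgroupOf (Q₁ : Subgroup S)).index = Nat.card (Q₁ : Subgroup S) :=
      Subgroup.card_mul_index _
    have h2 : Nat.card (((Q₁ : Subgroup S) ⊓ (Q₂ : Subgroup S)).subgroupOf (Q₁ : Subgroup S)) =
        Nat.card ((Q₁ : Subgroup S) ⊓ (Q₂ : Subgroup S) : Subgroup S) :=
      Nat.card_congr (Subgroup.subgroupOfEquivOfLe inf_le_left).toEquiv
    have h3 := ha Q₁ Q₂
    have h4 : (((Q₁ : Subgroup S) ⊓ (Q₂ : Subgroup S)).subgroupOf (Q₁ : Subgroup S)).index ≤ Nat.card (Sylow p S) := by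
      have hRpos : 0 < Nat.card (((Q₁ : Subgroup S) ⊓ (Q₂ : Subgroup S)).subgroupOf (Q₁ : Subgroup S)) := Nat.card_pos
      rw [← h2, ← h1, mul_comm (Nat.card (Sylow p S))] at h3
      exact Nat.le_of_mul_le_mul_left h3 hRpos
    have h5 : (((Q₁ : Subgroup S) ⊓ (Q₂ : Subgroup S)).subgroupOf (Q₁ : Subgroup S)).index ∣ p ^ (Nat.card S).factorization p := by
      rw [← hcard Q₁, ← h1]; exact dvd_mul_left _ _
    obtain ⟨j, hj, hjeq⟩ := (Nat.dvd_prime_pow hpp).mp h5
    have hj2 : j < 2 := by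
      have : p ^ j < p ^ 2 := by rw [← hjeq]; exact lt_of_le_of_lt h4 hn
      exact (Nat.pow_lt_pow_iff_right hpp.one_lt).mp this
    interval_cases j
    · rw [pow_zero] at hjeq
      rw [Subgroup.index_eq_one.mp hjeq]; infer_instance
    · rw [pow_one] at hjeq
      apply Subgroup.normal_of_index_eq_minFac_card
      rw [hjeq, hcard Q₁, Nat.pow_minFac hk, hpp.minFac_eq]
  -- (c)
  obtain ⟨⟨S₀, T₀⟩, hmin⟩ := Finite.exists_min
    (fun x : Sylow p S × Sylow p S => Nat.card ((x.1 : Subgroup S) ⊓ (x.2 : Subgroup S) : Subgroup S))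
  -- (e)
  have he : ∀ R : Sylow p S, (S₀ : Subgroup S) ⊓ (T₀ : Subgroup S) ≤ R := by
    intro R
    have hS₀N : (S₀ : Subgroup S) ≤ Subgroup.normalizer (((S₀ : Subgroup S) ⊓ (T₀ : Subgroup S) : Subgroup S) : Set S) := hb S₀ T₀
    have hT₀N : (T₀ : Subgroup S) ≤ Subgroup.normalizer (((S₀ : Subgroup S) ⊓ (T₀ : Subgroup S) : Subgroup S) : Set S) := by
      have := hb T₀ S₀
      rwa [inf_comm] at this
    have hpg : IsPGroup p (((R : Subgroup S) ⊓ Subgroup.normalizer (((S₀ : Subgroup S) ⊓ (T₀ : Subgroup S) : Subgroup S) : Set S)).subgroupOf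
        (Subgroup.normalizer (((S₀ : Subgroup S) ⊓ (T₀ : Subgroup S) : Subgroup S) : Set S))) :=
      (R.isPGroup'.to_le inf_le_left).comap_subtype
    obtain ⟨Q', hQ'⟩ := hpg.exists_le_sylow
    obtain ⟨x, hx⟩ := MulAction.exists_smul_eq
      (Subgroup.normalizer (((S₀ : Subgroup S) ⊓ (T₀ : Subgroup S) : Subgroup S) : Set S)) (S₀.subtype hS₀N) Q'
    have h1 : ∀ y ∈ (R : Subgroup S),
        y ∈ Subgroup.normalizer (((S₀ : Subgroup S) ⊓ (T₀ : Subgroup S) : Subgroup S) : Set S) →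
        (x : S)⁻¹ * y * (x : S) ∈ (S₀ : Subgroup S) := by
      intro y hyR hyN
      have h2 : (⟨y, hyN⟩ : Subgroup.normalizer (((S₀ : Subgroup S) ⊓ (T₀ : Subgroup S) : Subgroup S) : Set S)) ∈ Q' :=
        hQ' (by rw [Subgroup.mem_subgroupOf]; exact ⟨hyR, hyN⟩)
      rw [← hx] at h2
      have h3 := (mem_sylow_smul_iff x ⟨y, hyN⟩ (S₀.subtype hS₀N)).mp h2
      exact h3
    have hle : (R : Subgroup S) ⊓ (((x : S) • T₀ : Sylow p S) : Subgroup S) ≤ (S₀ : Subgroup S) ⊓ (T₀ : Subgroup S) := by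
      rintro y ⟨hyR, hyT⟩
      have hyT' : (x : S)⁻¹ * y * (x : S) ∈ (T₀ : Subgroup S) := (mem_sylow_smul_iff (x : S) y T₀).mp hyT
      have hyN : y ∈ Subgroup.normalizer (((S₀ : Subgroup S) ⊓ (T₀ : Subgroup S) : Subgroup S) : Set S) := by
        have h4 := Subgroup.mul_mem _ (Subgroup.mul_mem _ x.2 (hT₀N hyT')) (Subgroup.inv_mem _ x.2)
        have h5 : (x : S) * ((x : S)⁻¹ * y * (x : S)) * (x : S)⁻¹ = y := by group
        rw [h5] at h4
        exact h4
      have hyS := h1 y hyR hyN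
      have hxD : (x : S)⁻¹ * y * (x : S) ∈ (S₀ : Subgroup S) ⊓ (T₀ : Subgroup S) := ⟨hyS, hyT'⟩
      have h6 := (Subgroup.mem_normalizer_iff.mp x.2 ((x : S)⁻¹ * y * (x : S))).mp hxD
      have h5 : (x : S) * ((x : S)⁻¹ * y * (x : S)) * (x : S)⁻¹ = y := by group
      rw [h5] at h6
      exact h6
    have hcardle := hmin (R, (x : S) • T₀)
    have heq : (R : Subgroup S) ⊓ (((x : S) • T₀ : Sylow p S) : Subgroup S) = (S₀ : Subgroup S) ⊓ (T₀ : Subgroup S) :=
      Subgroup.eq_of_le_of_card_ge hle hcardle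
    rw [← heq]; exact inf_le_left
  -- (f)
  have hMn : (⨅ R : Sylow p S, (R : Subgroup S)).Normal := by
    refine ⟨fun y hy g => ?_⟩
    rw [Subgroup.mem_iInf] at hy ⊢
    intro R
    have h1 := hy (g⁻¹ • R)
    have h2 := (mem_sylow_smul_iff g⁻¹ y R).mp h1
    rw [inv_inv] at h2
    exact h2
  rcases hMn.eq_bot_or_eq_top with hM | hM
  · have hD : (S₀ : Subgroup S) ⊓ (T₀ : Subgroup S) = ⊥ := by
      rw [eq_bot_iff, ← hM]; exact le_iInf he
    have h1 := ha S₀ T₀
    rw [hD, Subgroup.card_bot, mul_one, hcard S₀] at h1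
    have h2 : p ^ (Nat.card S).factorization p < p ^ 2 := lt_of_le_of_lt h1 hn
    have hk2 := (Nat.pow_lt_pow_iff_right hpp.one_lt).mp h2
    have hk1 : (Nat.card S).factorization p = 1 := by omega
    have h3 := hcard P
    rw [hk1, pow_one] at h3
    exact h3
  · exfalso
    have hPtop : (P : Subgroup S) = ⊤ := by
      rw [eq_top_iff, ← hM]; exact iInf_le _ P
    have hSp : IsPGroup p S := by
      have h1 := P.isPGroup'
      rw [hPtop] at h1
      exact h1.of_equiv Subgroup.topEquiv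
    haveI := hSp.isNilpotent
    have hsol : Group.IsSolvable S := inferInstance
    have hcomm := IsSimpleGroup.comm_iff_isSolvable.mpr hsol
    exact hS ⟨⟨hcomm⟩⟩

end Cfsg.Agent.S4343
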