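import Cfsg.Statements.S4344
import Mathlib
import Cfsg.Agent.Lib.Helper7.Basic

set_option autoImplicit false
open Cfsg

namespace Cfsg.Agent.S4344

open Cfsg.Agent.Lib.Helper7

/-- Let S be a finite non-abelian simple group, M a maximal subgroup of S and C a cyclic normal subgroup of M. If a Sylow p-subgroup P of S (for a prime p dividing the order of S) is contained in C, then the number of Sylow p-subgroups of S equals the index of M. -/
theorem result {S : Type*} [Group S] [Finite S]
    [IsSimpleGroup S] (hS : ¬ IsMulCommutative S) (p : ℕ) [Fact p.Prime] (hp : p ∣ Nat.card S)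
    (M : Subgroup S) (hM : IsCoatom M) (C : Subgroup S) (hCM : C ≤ M) (hCn : (C.subgroupOf M).Normal)
    (hC : IsCyclic C) (P : Sylow p S) (hP : (P : Subgroup S) ≤ C) :
    Nat.card (Sylow p S) = M.index := by
  rw [Sylow.card_eq_index_normalizer P]
  have hMN : M ≤ Subgroup.normalizer ((P : Subgroup S) : Set S) := by
    intro m hm
    apply Subgroup.mem_normalizer_fintype
    intro n hn
    have hnC : n ∈ C := hP hn
    have h1 : m * n * m⁻¹ ∈ C := by
      have := hCn.conj_mem ⟨n, hCM hnC⟩ (by rw [Subgroup.mem_subgroupOf]; exact hnC) ⟨m, hm⟩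
      rw [Subgroup.mem_subgroupOf] at this
      simpa using this
    apply mem_of_pow_card_eq_one' C (P : Subgroup S) hP _ h1
    rw [conj_pow]
    have h3 : (⟨n, hn⟩ : (P : Subgroup S)) ^ Nat.card (P : Subgroup S) = 1 := pow_card_eq_one'
    have h4 := congrArg Subtype.val h3
    rw [Subgroup.coe_pow] at h4
    simp only [Subgroup.coe_one] at h4
    rw [h4]; simp
  rcases eq_or_lt_of_le hMN with h | h
  · rw [h]; rfl
  · exfalso
    have htop := hM.2 _ h
    rw [Subgroup.normalizer_eq_top_iff] at htop
    rcases htop.eq_bot_or_eq_top with h0 | h0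
    · have h5 := P.card_eq_multiplicity
      rw [h0] at h5
      have hpos : 0 < (Nat.card S).factorization p :=
        (Fact.out : p.Prime).factorization_pos_of_dvd Nat.card_pos.ne' hp
      have : 1 < p ^ (Nat.card S).factorization p := Nat.one_lt_pow hpos.ne' (Fact.out : p.Prime).one_lt
      simp at h5
      omega
    · apply hS
      have hCtop : C = ⊤ := by rw [eq_top_iff, ← h0]; exact hP
      rw [isMulCommutative_iff]
      intro a b
      have ha : a ∈ C := by rw [hCtop]; trivial
      have hb : b ∈ C := by rw [hCtop]; trivial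
      obtain ⟨g, hg⟩ := hC.exists_generator
      obtain ⟨i, hi⟩ := Subgroup.mem_zpowers_iff.mp (hg ⟨a, ha⟩)
      obtain ⟨j, hj⟩ := Subgroup.mem_zpowers_iff.mp (hg ⟨b, hb⟩)
      have hi' : a = (g : S) ^ i := by
        have := congrArg Subtype.val hi; simpa using this.symm
      have hj' : b = (g : S) ^ j := by
        have := congrArg Subtype.val hj; simpa using this.symm
      rw [hi', hj', ← zpow_add, ← zpow_add, add_comm]

end Cfsg.Agent.S4344
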