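import Cfsg.Statements.S4345
import Mathlib
import Cfsg.Agent.Lib.Helper7.SylowIndex
import Cfsg.Agent.Lib.Lead.SZ

set_option autoImplicit false
open Cfsg

namespace Cfsg.Agent.S4345

open Cfsg.Agent.Lib.Helper7

universe u

/-- For a normal `r`-subgroup `M` with `r ≠ p`, the index `[M : N_M(P)]` is `≡ 1 mod p`. -/
theorem relIndex_modEq_one {G : Type*} [Group G] [Finite G] {p r : ℕ} [Fact p.Prime]
    [Fact r.Prime] (hrp : r ≠ p) (P : Sylow p G) (M : Subgroup G) [M.Normal]
    (hM : IsPGroup r M) :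
    (Subgroup.normalizer ((P : Subgroup G) : Set G)).relIndex M ≡ 1 [MOD p] := by
  letI : MulAction (P : Subgroup G) M :=
    MulAction.compHom M ((MulAut.conjNormal : G →* MulAut M).comp (P : Subgroup G).subtype)
  have hsm : ∀ (u : (P : Subgroup G)) (m : M), ((u • m : M) : G) = u * m * (u : G)⁻¹ :=
    fun u m => rfl
  have h1 := P.2.card_modEq_card_fixedPoints M
  have hdisj : Disjoint (P : Subgroup G) M := IsPGroup.disjoint_of_ne p r (Ne.symm hrp) _ _ P.2 hM
  have h2 : Nat.card (MulAction.fixedPoints (P : Subgroup G) M) =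
      Nat.card ((Subgroup.normalizer ((P : Subgroup G) : Set G)) ⊓ M : Subgroup G) := by
    apply Nat.card_congr
    refine
      { toFun := fun m => ⟨((m : M) : G), ?_, (m : M).2⟩
        invFun := fun c => ⟨⟨(c : G), c.2.2⟩, ?_⟩
        left_inv := fun m => rfl
        right_inv := fun c => rfl }
    · apply Subgroup.centralizer_le_normalizer
      rw [Subgroup.mem_centralizer_iff]
      intro u hu
      have h3 := m.2 ⟨u, hu⟩
      have h4 : (u : G) * (m : M) * (u : G)⁻¹ = ((m : M) : G) := by
        rw [← hsm ⟨u, hu⟩ (m : M), h3]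
      calc u * ((m : M) : G) = (u * ((m : M) : G) * u⁻¹) * u := by group
        _ = ((m : M) : G) * u := by rw [h4]
    · intro u
      apply Subtype.ext
      rw [hsm]
      have hc1 : (u : G) * (c : G) * (u : G)⁻¹ * (c : G)⁻¹ ∈ (P : Subgroup G) := by
        have h3 : (c : G) * (u : G)⁻¹ * (c : G)⁻¹ ∈ (P : Subgroup G) :=
          (Subgroup.mem_normalizer_iff.mp c.2.1 _).mp ((P : Subgroup G).inv_mem u.2)
        have e : (u : G) * (c : G) * (u : G)⁻¹ * (c : G)⁻¹ =
            (u : G) * ((c : G) * (u : G)⁻¹ * (c : G)⁻¹) := by group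
        rw [e]; exact (P : Subgroup G).mul_mem u.2 h3
      have hc2 : (u : G) * (c : G) * (u : G)⁻¹ * (c : G)⁻¹ ∈ M :=
        M.mul_mem (‹M.Normal›.conj_mem _ c.2.2 _) (M.inv_mem c.2.2)
      have h5 := Subgroup.disjoint_def.mp hdisj hc1 hc2
      calc (u : G) * (c : G) * (u : G)⁻¹ = ((u : G) * (c : G) * (u : G)⁻¹ * (c : G)⁻¹) * c := by
            group
        _ = c := by rw [h5, one_mul]
  rw [h2] at h1
  have h3 := card_inf_mul_relIndex (Subgroup.normalizer ((P : Subgroup G) : Set G)) M
  have hcop : Nat.Coprime p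
      (Nat.card ((Subgroup.normalizer ((P : Subgroup G) : Set G)) ⊓ M : Subgroup G)) := by
    obtain ⟨a, ha⟩ := IsPGroup.iff_card.mp hM
    have h4 : Nat.card ((Subgroup.normalizer ((P : Subgroup G) : Set G)) ⊓ M : Subgroup G) ∣
        r ^ a := by
      rw [← ha]; exact Subgroup.card_dvd_of_le inf_le_right
    have h5 : Nat.Coprime p (r ^ a) :=
      Nat.Coprime.pow_right a ((Nat.coprime_primes Fact.out Fact.out).mpr (Ne.symm hrp))
    exact Nat.Coprime.coprime_dvd_right h4 h5
  have h6 : Nat.card ((Subgroup.normalizer ((P : Subgroup G) : Set G)) ⊓ M : Subgroup G) *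
      (Subgroup.normalizer ((P : Subgroup G) : Set G)).relIndex M ≡
      Nat.card ((Subgroup.normalizer ((P : Subgroup G) : Set G)) ⊓ M : Subgroup G) * 1
        [MOD p] := by
    rw [h3, mul_one]; exact h1
  exact Nat.ModEq.cancel_left_of_coprime hcop h6

theorem aux : ∀ (n : ℕ) (G : Type u) [Group G] [Finite G], Nat.card G = n →
    Group.IsSolvable G → ∀ (p ℓ : ℕ) [Fact p.Prime], ℓ.Prime →
    ℓ ^ (Nat.card (Sylow p G)).factorization ℓ ≡ 1 [MOD p] := by
  intro n
  induction n using Nat.strong_induction_on with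
  | _ n ih =>
  intro G _ _ hn hG p ℓ _ hℓ
  obtain P : Sylow p G := default
  by_cases hnt : Nontrivial G
  · haveI := hG
    obtain ⟨r, hr, M, hMn, hMr, hMbot⟩ := Cfsg.Agent.Lib.Lead.exists_normal_pSubgroup_of_solvable G
    haveI := hMn
    haveI : Fact r.Prime := ⟨hr⟩
    have hcard : Nat.card (G ⧸ M) < n := by
      rw [← hn, Subgroup.card_eq_card_quotient_mul_card_subgroup M]
      have h1 : 1 < Nat.card M := (Subgroup.one_lt_card_iff_ne_bot M).mpr hMbot
      have h2 : 0 < Nat.card (G ⧸ M) := Nat.card_pos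
      nlinarith
    have hIH := ih (Nat.card (G ⧸ M)) hcard (G ⧸ M) rfl inferInstance p ℓ hℓ
    have key := card_sylow_eq_quotient_mul P M
    by_cases hrp : r = p
    · subst hrp
      have h1 : M ≤ (P : Subgroup G) := normal_pGroup_le_sylow M hMr P
      have h2 : (Subgroup.normalizer ((P : Subgroup G) : Set G)).relIndex M = 1 :=
        Subgroup.relIndex_eq_one.mpr (h1.trans Subgroup.le_normalizer)
      rw [key, h2, mul_one]
      exact hIH
    · have ht := relIndex_modEq_one hrp P M hMr
      have htd : (Subgroup.normalizer ((P : Subgroup G) : Set G)).relIndex M ∣ Nat.card M :=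
        Subgroup.relIndex_dvd_card _ _
      obtain ⟨a, ha⟩ := IsPGroup.iff_card.mp hMr
      rw [ha] at htd
      obtain ⟨b, -, hb⟩ := (Nat.dvd_prime_pow hr).mp htd
      have hpos1 : Nat.card (Sylow p (G ⧸ M)) ≠ 0 := Nat.card_pos.ne'
      have hpos2 : (Subgroup.normalizer ((P : Subgroup G) : Set G)).relIndex M ≠ 0 := by
        rw [hb]; exact pow_ne_zero _ hr.ne_zero
      rw [key, Nat.factorization_mul hpos1 hpos2, Finsupp.add_apply, pow_add]
      have h2 : ℓ ^ ((Subgroup.normalizer ((P : Subgroup G) : Set G)).relIndex M).factorization ℓ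
          ≡ 1 [MOD p] := by
        by_cases hlr : ℓ = r
        · subst hlr
          rw [hb, Nat.Prime.factorization_pow hr, Finsupp.single_eq_same, ← hb]
          exact ht
        · rw [hb, Nat.Prime.factorization_pow hr, Finsupp.single_eq_of_ne hlr, pow_zero]
      have h3 := Nat.ModEq.mul hIH h2
      rwa [mul_one] at h3
  · rw [not_nontrivial_iff_subsingleton] at hnt
    have h1 : Nat.card G = 1 := by
      have := Finite.card_le_one_iff_subsingleton.mpr hnt
      have h2 : 0 < Nat.card G := Nat.card_pos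
      omega
    have h2 : Nat.card (Sylow p G) ∣ 1 := by
      rw [← h1]
      exact (P.card_dvd_index).trans (Subgroup.index_dvd_card _)
    rw [Nat.dvd_one.mp h2]
    simp [Nat.ModEq]

/-- Let G be a finite solvable group and p, ℓ primes. Then the largest power of ℓ dividing the number of Sylow p-subgroups of G is congruent to 1 modulo p. -/
theorem result {G : Type*} [Group G] [Finite G]
    (hG : Group.IsSolvable G) (p ℓ : ℕ) [Fact p.Prime] (hℓ : ℓ.Prime) :
    ℓ ^ (Nat.card (Sylow p G)).factorization ℓ ≡ 1 [MOD p] := by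
  exact aux _ G rfl hG p ℓ hℓ

end Cfsg.Agent.S4345
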