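import Cfsg.Statements.S4377
import Mathlib

set_option autoImplicit false
open Cfsg

namespace Cfsg.Agent.S4377

theorem card_pow_eq_one_eq_sum {G : Type*} [Group G] [Finite G] (n : ℕ) (hn : n ≠ 0) :
    Nat.card {g : G // g ^ n = 1} = ∑ d ∈ n.divisors, Nat.card {g : G // orderOf g = d} := by
  classical
  have : Fintype G := Fintype.ofFinite G
  have h1 : Nat.card {g : G // g ^ n = 1} = (Finset.univ.filter (fun g : G => g ^ n = 1)).card := by
    rw [Nat.card_eq_fintype_card, Fintype.card_subtype]
  have h2 : ∀ d, Nat.card {g : G // orderOf g = d} = (Finset.univ.filter (fun g : G => orderOf g = d)).card := by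
    intro d
    rw [Nat.card_eq_fintype_card, Fintype.card_subtype]
  rw [h1]
  simp_rw [h2]
  rw [Finset.card_eq_sum_card_fiberwise (f := fun g : G => orderOf g) (t := n.divisors)]
  · apply Finset.sum_congr rfl
    intro d hd
    congr 1
    ext g
    simp only [Finset.mem_filter, Finset.mem_univ, true_and]
    constructor
    · rintro ⟨_, h⟩; exact h
    · intro h
      refine ⟨?_, h⟩
      rw [← orderOf_dvd_iff_pow_eq_one, h]
      exact Nat.dvd_of_mem_divisors hd
  · intro g hg
    have hg' : g ^ n = 1 := by simpa using hg
    show orderOf g ∈ ((n.divisors : Finset ℕ) : Set ℕ)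
    rw [Finset.mem_coe, Nat.mem_divisors]
    exact ⟨orderOf_dvd_of_pow_eq_one hg', hn⟩

theorem card_pow_card_mul {G : Type*} [Group G] [Finite G] (m : ℕ) :
    Nat.card {g : G // g ^ (Nat.card G * m) = 1} = Nat.card G := by
  have : ∀ g : G, g ^ (Nat.card G * m) = 1 := by
    intro g
    rw [pow_mul, pow_card_eq_one', one_pow]
  exact Nat.card_congr (Equiv.subtypeUnivEquiv this)

/-- Two finite groups have the same number of elements of each order if and only if, for every n, they have the same number of elements g with gⁿ = 1. -/
theorem result {G H : Type*} [Group G] [Finite G] [Group H] [Finite H] :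
    (∀ n : ℕ, Nat.card {g : G // orderOf g = n} = Nat.card {h : H // orderOf h = n}) ↔
      ∀ n : ℕ, Nat.card {g : G // g ^ n = 1} = Nat.card {h : H // h ^ n = 1} := by
  constructor
  · intro h n
    have key : ∀ n : ℕ, n ≠ 0 → Nat.card {g : G // g ^ n = 1} = Nat.card {h : H // h ^ n = 1} := by
      intro n hn
      rw [card_pow_eq_one_eq_sum n hn, card_pow_eq_one_eq_sum n hn]
      exact Finset.sum_congr rfl (fun d _ => h d)
    rcases Nat.eq_zero_or_pos n with rfl | hn
    · have h1 := key (Nat.card G * Nat.card H) (Nat.mul_ne_zero Nat.card_pos.ne' Nat.card_pos.ne')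
      rw [card_pow_card_mul] at h1
      have h2 : Nat.card {h : H // h ^ (Nat.card G * Nat.card H) = 1} = Nat.card H := by
        rw [mul_comm]; exact card_pow_card_mul _
      rw [h2] at h1
      have h3 := card_pow_card_mul (G := G) 0
      have h4 := card_pow_card_mul (G := H) 0
      simp only [mul_zero] at h3 h4
      rw [h3, h4, h1]
    · exact key n hn.ne'
  · intro h n
    induction n using Nat.strong_induction_on with
    | _ n ih =>
      rcases Nat.eq_zero_or_pos n with rfl | hn
      · have h1 : IsEmpty {g : G // orderOf g = 0} := ⟨fun g => (orderOf_pos g.1).ne' g.2⟩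
        have h2 : IsEmpty {g : H // orderOf g = 0} := ⟨fun g => (orderOf_pos g.1).ne' g.2⟩
        rw [Nat.card_of_isEmpty, Nat.card_of_isEmpty]
      · have h1 := card_pow_eq_one_eq_sum (G := G) n hn.ne'
        have h2 := card_pow_eq_one_eq_sum (G := H) n hn.ne'
        rw [← Nat.cons_self_properDivisors hn.ne', Finset.sum_cons] at h1 h2
        have h3 : ∑ d ∈ n.properDivisors, Nat.card {g : G // orderOf g = d}
            = ∑ d ∈ n.properDivisors, Nat.card {g : H // orderOf g = d} := by
          apply Finset.sum_congr rfl
          intro d hd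
          exact ih d (Nat.mem_properDivisors.mp hd).2
        have h4 := h n
        omega

end Cfsg.Agent.S4377
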