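import Mathlib
import Cfsg.Statements.S4378
import Cfsg.Agent.Lib.Helper2.MaxPNilp
import Cfsg.Agent.Lib.Helper2.PSolvOfSolv

set_option autoImplicit false
open Cfsg

namespace Cfsg.Agent.S4378

/-- Let G be a finite solvable group in which every maximal subgroup either has a normal 2-complement or has prime index. Then G has a chain of normal subgroups 1 ≤ A ≤ B ≤ C ≤ G in which A and C/B have odd order and B/A and G/C are 2-groups (so the 2-length of G is at most 2). -/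
theorem result {G : Type*} [Group G] [Finite G]
    (hG : Group.IsSolvable G)
    (hmax : ∀ M : Subgroup G, IsCoatom M → (∃ K : Subgroup ↥M, K.Normal ∧ ¬ 2 ∣ Nat.card K ∧ ∃ k : ℕ, K.index = 2 ^ k) ∨ (M.index).Prime) :
    ∃ A B C : Subgroup G, A.Normal ∧ B.Normal ∧ C.Normal ∧ A ≤ B ∧ B ≤ C ∧ Odd (Nat.card A) ∧
      (∃ k : ℕ, A.relIndex B = 2 ^ k) ∧ Odd (B.relIndex C) ∧ ∃ k : ℕ, C.index = 2 ^ k := by
  haveI : Fact (Nat.Prime 2) := ⟨Nat.prime_two⟩
  have hsol : Cfsg.IsPSolvable 2 G := Cfsg.Agent.Lib.Helper2.isPSolvable_of_isSolvable 2 hG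
  have hU4 := Cfsg.Agent.Lib.Helper2.upperPSeries_four_of_maxPNilp 2 _ G rfl hsol hmax
  obtain ⟨h1, h12, h23, h34, l12, l23, l34⟩ :=
    Cfsg.Agent.Lib.Helper2.upper_series_data (G := G) 2
  refine ⟨(Cfsg.upperPSeries 2 G 1).1, (Cfsg.upperPSeries 2 G 2).1, (Cfsg.upperPSeries 2 G 3).1,
    inferInstance, inferInstance, inferInstance, l12, l23, Nat.coprime_two_right.mp h1, h12,
    Nat.coprime_two_right.mp h23, ?_⟩
  obtain ⟨k, hk⟩ := h34
  refine ⟨k, ?_⟩
  rw [hU4, Subgroup.relIndex_top_right] at hk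
  exact hk

end Cfsg.Agent.S4378
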