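import Cfsg.Statements.S4387
import Mathlib
import Cfsg.Agent.Lib.Helper7.Basic
import Cfsg.Agent.Lib.Helper7.Jordan

set_option autoImplicit false
open Cfsg

namespace Cfsg.Agent.S4387

open Pointwise
open Cfsg.Agent.Lib.Helper7

/-- Let G be a non-trivial finite group in which any two maximal subgroups are conjugate. Then G is cyclic of prime-power order. -/
theorem result {G : Type*} [Group G] [Finite G] [Nontrivial G]
    (h : ∀ M N : Subgroup G, IsCoatom M → IsCoatom N → ∃ g : G, N = MulAut.conj g • M) :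
    IsCyclic G ∧ IsPrimePow (Nat.card G) := by
  obtain ⟨M, hM, -⟩ := (eq_top_or_exists_le_coatom (⊥ : Subgroup G)).resolve_left bot_ne_top
  obtain ⟨x, hx⟩ := exists_not_mem_conj M hM.1
  have hxtop : Subgroup.zpowers x = ⊤ := by
    by_contra hne
    obtain ⟨N, hN, hxN⟩ := (eq_top_or_exists_le_coatom (Subgroup.zpowers x)).resolve_left hne
    obtain ⟨g, hg⟩ := h M N hM hN
    have h1 : x ∈ N := hxN (Subgroup.mem_zpowers x)
    rw [hg, mem_conj_smul] at h1
    exact hx g h1
  have hgen : ∀ y : G, y ∈ Subgroup.zpowers x := fun y => by rw [hxtop]; trivial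
  have hcyc : IsCyclic G := ⟨⟨x, hgen⟩⟩
  refine ⟨hcyc, ?_⟩
  have hcomm : ∀ a b : G, a * b = b * a := by
    intro a b
    obtain ⟨i, rfl⟩ := Subgroup.mem_zpowers_iff.mp (hgen a)
    obtain ⟨j, rfl⟩ := Subgroup.mem_zpowers_iff.mp (hgen b)
    rw [← zpow_add, ← zpow_add, add_comm]
  have huniq : ∀ N : Subgroup G, IsCoatom N → N = M := by
    intro N hN
    obtain ⟨g, hg⟩ := h M N hM hN
    rw [hg]
    ext y
    rw [mem_conj_smul]
    have : g⁻¹ * y * g = y := by rw [hcomm g⁻¹ y, mul_assoc, inv_mul_cancel, mul_one]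
    rw [this]
  have hord : orderOf x = Nat.card G := orderOf_eq_card_of_forall_mem_zpowers hgen
  have hpM : ∀ p : ℕ, p.Prime → p ∣ Nat.card G → x ^ p ∈ M := by
    intro p hp hpn
    have hne : Subgroup.zpowers (x ^ p) ≠ ⊤ := by
      intro htop
      have h1 : x ∈ Subgroup.zpowers (x ^ p) := by rw [htop]; trivial
      obtain ⟨k, hk⟩ := Subgroup.mem_zpowers_iff.mp h1
      have h2 : x ^ ((p : ℤ) * k - 1) = 1 := by
        rw [zpow_sub, zpow_mul, zpow_natCast, hk, zpow_one, mul_inv_cancel]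
      have h3 : (orderOf x : ℤ) ∣ (p : ℤ) * k - 1 := orderOf_dvd_iff_zpow_eq_one.mpr h2
      rw [hord] at h3
      have h4 : (p : ℤ) ∣ (p : ℤ) * k - 1 := (Int.natCast_dvd_natCast.mpr hpn).trans h3
      have h5 : (p : ℤ) ∣ 1 := by
        have h6 : (p : ℤ) ∣ (p : ℤ) * k := dvd_mul_right _ _
        have := dvd_sub h6 h4
        simpa using this
      have h7 : p ∣ 1 := Int.natCast_dvd_natCast.mp (by simpa using h5)
      exact hp.one_lt.ne' (Nat.dvd_one.mp h7)
    obtain ⟨N, hN, hxN⟩ := (eq_top_or_exists_le_coatom (Subgroup.zpowers (x ^ p))).resolve_left hne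
    rw [huniq N hN] at hxN
    exact hxN (Subgroup.mem_zpowers _)
  have hcard : Nat.card G ≠ 1 := (Finite.one_lt_card (α := G)).ne'
  have hpr : (Nat.card G).minFac.Prime := Nat.minFac_prime hcard
  have hunique : ∀ {q : ℕ}, q.Prime → q ∣ Nat.card G → q = (Nat.card G).minFac := by
    intro q hq hqn
    by_contra hne
    have hcop : Nat.Coprime q (Nat.card G).minFac := (Nat.coprime_primes hq hpr).mpr hne
    have h1 := hpM q hq hqn
    have h2 := hpM _ hpr (Nat.minFac_dvd _)
    have h3 : x ∈ M := by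
      have hb := Nat.gcd_eq_gcd_ab q (Nat.card G).minFac
      rw [hcop] at hb
      have h4 : x = (x ^ q) ^ (Nat.gcdA q (Nat.card G).minFac) * (x ^ (Nat.card G).minFac) ^ (Nat.gcdB q (Nat.card G).minFac) := by
        rw [← zpow_natCast, ← zpow_natCast, ← zpow_mul, ← zpow_mul, ← zpow_add, ← hb]
        simp
      rw [h4]
      exact M.mul_mem (M.zpow_mem h1 _) (M.zpow_mem h2 _)
    apply hx 1
    simpa using h3
  have hpow := Nat.eq_prime_pow_of_unique_prime_dvd Nat.card_pos.ne' hunique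
  rw [isPrimePow_nat_iff]
  refine ⟨(Nat.card G).minFac, (Nat.card G).primeFactorsList.length, hpr, ?_, hpow.symm⟩
  rw [Nat.pos_iff_ne_zero]
  intro h0
  rw [h0, pow_zero] at hpow
  exact hcard hpow

end Cfsg.Agent.S4387
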