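import Mathlib
import Cfsg.Statements.S4403
import Cfsg.Agent.Lib.Helper7.CyclicSylow2
import Cfsg.Agent.Lib.Helper7.SylowIndex
import Cfsg.Agent.Lib.Helper2.PQLayer2
import Cfsg.Agent.Lib.Helper2.FStar
import Cfsg.Agent.Lib.Helper2.PComp
import Cfsg.Agent.Lib.Lead.SylowAux

set_option autoImplicit false
open Cfsg

namespace Cfsg.Agent.S4403

open Cfsg.Agent.Lib.Helper7
open Subgroup

/-- A quasisimple group with cyclic Sylow `p`-subgroups has no central element of order `p`. -/
lemma no_central_order_p {L : Type*} [Group L] [Finite L] (p : ℕ) [Fact p.Prime]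
    (hq : Cfsg.IsQuasisimple L) (PL : Sylow p L) (hc : IsCyclic (PL : Subgroup L))
    (z : L) (hz : z ∈ Subgroup.center L) (hzo : orderOf z = p) : False := by
  have hp : p.Prime := Fact.out
  have hzc : ∀ g : L, g * z = z * g := fun g => Subgroup.mem_center_iff.mp hz g
  have hzP : z ∈ (PL : Subgroup L) := by
    haveI hn : (zpowers z).Normal := by
      constructor
      intro y hy g
      obtain ⟨i, rfl⟩ := mem_zpowers_iff.mp hy
      have : g * z ^ i * g⁻¹ = z ^ i := by
        rw [← conj_zpow, hzc g, mul_assoc, mul_inv_cancel, mul_one]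
      rw [this]; exact zpow_mem (mem_zpowers z) i
    have hpg : IsPGroup p (zpowers z) :=
      IsPGroup.of_card (n := 1) (by rw [Nat.card_zpowers, hzo, pow_one])
    exact normal_pGroup_le_sylow (zpowers z) hpg PL (mem_zpowers z)
  have hcond : ∀ g ∈ normalizer ((PL : Subgroup L) : Set L), ∀ t ∈ (PL : Subgroup L), ∀ k : ℤ,
      zpowers t = (PL : Subgroup L) → g * t * g⁻¹ = t ^ k → t ∉ zpowers (t ^ (k - 1)) := by
    intro g _ t ht k hzp hk hmem
    obtain ⟨i, hi⟩ := mem_zpowers_iff.mp hmem
    have hzz : z ∈ zpowers t := by rw [hzp]; exact hzP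
    obtain ⟨j, hj⟩ := mem_zpowers_iff.mp hzz
    have e1 : g * t ^ j * g⁻¹ * (t ^ j)⁻¹ = t ^ ((k - 1) * j) := by
      rw [← conj_zpow, hk, ← zpow_mul, ← zpow_neg, ← zpow_add]
      congr 1; ring
    have e2 : g * t ^ j * g⁻¹ * (t ^ j)⁻¹ = 1 := by
      rw [hj, hzc g]; group
    have e3 : t ^ j = 1 := by
      calc t ^ j = ((t ^ (k - 1)) ^ i) ^ j := by rw [hi]
        _ = (t ^ ((k - 1) * j)) ^ i := by
            rw [← zpow_mul, ← zpow_mul, ← zpow_mul]; congr 1; ring
        _ = 1 := by rw [← e1, e2, one_zpow]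
    rw [hj] at e3
    rw [e3, orderOf_one] at hzo
    exact hp.one_lt.ne hzo
  obtain ⟨N, hNn, hNc, hNcomm⟩ := burnside_cyclic PL hc hcond
  have hNtop : N = ⊤ := by
    rw [eq_top_iff, ← hq.1.commutator_eq_top, commutator_def, Subgroup.commutator_le]
    intro a _ b _
    rw [commutatorElement_def]; exact hNcomm a b
  have hPbot : (PL : Subgroup L) = ⊥ := by
    have h1 := hNc.disjoint
    rw [hNtop] at h1
    exact top_disjoint.mp h1
  rw [hPbot, mem_bot] at hzP
  rw [hzP, orderOf_one] at hzo
  exact hp.one_lt.ne hzo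

/-- `p`-groups embedding into a group with cyclic Sylow `p`-subgroups are cyclic. -/
lemma isCyclic_of_isPGroup {K : Type*} [Group K] [Finite K] {p : ℕ} [Fact p.Prime]
    (P : Sylow p K) (hP : IsCyclic ↥(P : Subgroup K)) {S : Type*} [Group S] (f : S →* K)
    (hf : Function.Injective f) (hS : IsPGroup p S) : IsCyclic S := by
  have hr : IsPGroup p f.range := hS.of_surjective f.rangeRestrict f.rangeRestrict_surjective
  obtain ⟨g, hg⟩ := Cfsg.Agent.Lib.Lead.sylow_conj_mem P f.range hr
  let φ : S →* ↥(P : Subgroup K) :=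
    ((MulAut.conj g).toMonoidHom.comp f).codRestrict (P : Subgroup K)
      (fun x => hg (f x) ⟨x, rfl⟩)
  have hφ : Function.Injective φ := by
    intro x y hxy
    have h1 := congrArg Subtype.val hxy
    have h2 : g * f x * g⁻¹ = g * f y * g⁻¹ := by simpa [φ] using h1
    apply hf
    have h3 : f x = g⁻¹ * (g * f x * g⁻¹) * g := by group
    rw [h3, h2]; group
  exact isCyclic_of_injective φ hφ

lemma exists_mul_of_mem_sup {G : Type*} [Group G] {A B : Subgroup G}
    (h : B ≤ Subgroup.normalizer (A : Set G)) {w : G} (hw : w ∈ A ⊔ B) :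
    ∃ a ∈ A, ∃ b ∈ B, w = a * b := by
  let S : Subgroup G :=
    { carrier := {w | ∃ a ∈ A, ∃ b ∈ B, w = a * b}
      one_mem' := ⟨1, A.one_mem, 1, B.one_mem, by simp⟩
      mul_mem' := by
        rintro _ _ ⟨a, ha, b, hb, rfl⟩ ⟨a', ha', b', hb', rfl⟩
        refine ⟨a * (b * a' * b⁻¹), A.mul_mem ha ((mem_normalizer_iff.mp (h hb) a').mp ha'),
          b * b', B.mul_mem hb hb', by group⟩
      inv_mem' := by
        rintro _ ⟨a, ha, b, hb, rfl⟩
        refine ⟨b⁻¹ * a⁻¹ * b⁻¹⁻¹,
          (mem_normalizer_iff.mp (h (B.inv_mem hb)) a⁻¹).mp (A.inv_mem ha), b⁻¹, B.inv_mem hb,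
          by group⟩ }
  have hA : A ≤ S := fun a ha => ⟨a, ha, 1, B.one_mem, by simp⟩
  have hB : B ≤ S := fun b hb => ⟨1, A.one_mem, b, hb, by simp⟩
  exact (sup_le hA hB) hw

section main
universe u
variable {K : Type u} [Group K] [Finite K] (p : ℕ) [Fact p.Prime]

/-- every component has order divisible by `p` when `O_{p'}(K) = 1` -/
lemma component_dvd (hO : Cfsg.pPrimeCore p K = ⊥) (L : Subgroup K) (hL : Cfsg.IsComponent L) :
    p ∣ Nat.card L := by
  have hp : p.Prime := Fact.out
  by_contra hnd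
  have hcop : (Nat.card L).Coprime p := ((Nat.Prime.coprime_iff_not_dvd hp).mpr hnd).symm
  have h1 := Cfsg.Agent.Lib.Helper2.subnormal_pprime_le p L hL.1 hcop
  rw [hO] at h1
  have h2 := Cfsg.Agent.Lib.Helper2.quasisimple_nontrivial hL.2
  rw [Subgroup.nontrivial_iff_ne_bot] at h2
  exact h2 (le_bot_iff.mp h1)

/-- every component has trivial center when `O_{p'}(K) = 1` and Sylow `p`-subgroups are cyclic -/
lemma component_center (hO : Cfsg.pPrimeCore p K = ⊥) (P : Sylow p K)
    (hP : IsCyclic ↥(P : Subgroup K)) (L : Subgroup K) (hL : Cfsg.IsComponent L) :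
    Subgroup.center ↥L = ⊥ := by
  have hp : p.Prime := Fact.out
  by_contra hne
  have hdvd : p ∣ Nat.card (Subgroup.center ↥L) := by
    by_contra hnd
    have hcop : (Nat.card ((Subgroup.center ↥L).map L.subtype)).Coprime p := by
      rw [← Nat.card_congr ((Subgroup.center ↥L).equivMapOfInjective L.subtype
        L.subtype_injective).toEquiv]
      exact ((Nat.Prime.coprime_iff_not_dvd hp).mpr hnd).symm
    have hsn : ((Subgroup.center ↥L).map L.subtype).IsSubnormal :=
      Subgroup.IsSubnormal.trans' (Subgroup.Normal.isSubnormal inferInstance) hL.1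
    have h1 := Cfsg.Agent.Lib.Helper2.subnormal_pprime_le p _ hsn hcop
    rw [hO, le_bot_iff] at h1
    exact hne ((Subgroup.map_eq_bot_iff_of_injective _ L.subtype_injective).mp h1)
  obtain ⟨z, hz⟩ := exists_prime_orderOf_dvd_card' p hdvd
  obtain ⟨PL⟩ : Nonempty (Sylow p ↥L) := inferInstance
  have hcyc : IsCyclic ↥(PL : Subgroup ↥L) :=
    isCyclic_of_isPGroup P hP (L.subtype.comp (PL : Subgroup ↥L).subtype)
      (fun a b hab => Subtype.ext (Subtype.ext hab)) PL.2
  exact no_central_order_p p hL.2 PL hcyc (z : ↥L) z.2 (by rw [Subgroup.orderOf_coe]; exact hz)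

/-- an element of order `p` centralizing `P` lies in `P` -/
lemma mem_sylow_of_centralizes (P : Sylow p K) (v : K) (hv : orderOf v = p)
    (hc : ∀ x ∈ (P : Subgroup K), v * x = x * v) : v ∈ (P : Subgroup K) := by
  have hpg : IsPGroup p (zpowers v) :=
    IsPGroup.of_card (n := 1) (by rw [Nat.card_zpowers, hv, pow_one])
  refine Cfsg.Agent.Lib.Lead.mem_sylow_of_normalizes P hpg ?_
  show v ∈ Subgroup.normalizer ((P : Subgroup K) : Set K)
  rw [mem_normalizer_iff]
  intro h
  constructor
  · intro hh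
    have : v * h * v⁻¹ = h := by rw [hc h hh]; group
    rw [this]; exact hh
  · intro hh
    have h1 := hc _ hh
    have h2 : h = v * h * v⁻¹ := by
      have : v * h = v * (v * h * v⁻¹) := by rw [h1]; group
      exact mul_left_cancel this
    rw [h2]; exact hh

theorem main_case_A (hp : p ∣ Nat.card K) (hO : Cfsg.pPrimeCore p K = ⊥)
    (P : Sylow p K) (hP : IsCyclic ↥(P : Subgroup K))
    (hno : ∀ L : Subgroup K, ¬ Cfsg.IsComponent L) :
    ((P : Subgroup K).Normal ∧ Subgroup.centralizer ((P : Subgroup K) : Set K) = (P : Subgroup K) ∧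
      (∀ (_ : (P : Subgroup K).Normal), IsCyclic (K ⧸ (P : Subgroup K))) ∧
      (P : Subgroup K).index ∣ p - 1) := by
  have hpp : p.Prime := Fact.out
  have hPcomm : ∀ a ∈ (P : Subgroup K), ∀ b ∈ (P : Subgroup K), a * b = b * a := by
    intro a ha b hb
    haveI := hP
    have := (IsCyclic.isMulCommutative (α := ↥(P : Subgroup K))).is_comm.comm ⟨a, ha⟩ ⟨b, hb⟩
    exact congrArg Subtype.val this
  have hF := Cfsg.Agent.Lib.Helper2.genFitting_eq_pCore_of_no_comp p hO hno
  have hOle : Cfsg.pCore p K ≤ (P : Subgroup K) :=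
    normal_pGroup_le_sylow (Cfsg.pCore p K) (Cfsg.Agent.Lib.Helper2.pCore_isPGroup' p K) P
  have hCle : Subgroup.centralizer ((Cfsg.pCore p K : Subgroup K) : Set K) ≤ Cfsg.pCore p K := by
    have := Cfsg.Agent.Lib.Helper2.centralizer_genFitting_le K
    rw [hF] at this
    exact this
  have hPO : (P : Subgroup K) ≤ Cfsg.pCore p K := by
    intro x hx
    apply hCle
    rw [Subgroup.mem_centralizer_iff]
    intro y hy
    exact hPcomm y (hOle hy) x hx
  have hPeq : (P : Subgroup K) = Cfsg.pCore p K := le_antisymm hPO hOle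
  have hPn : (P : Subgroup K).Normal := by rw [hPeq]; infer_instance
  have hcent : Subgroup.centralizer ((P : Subgroup K) : Set K) = (P : Subgroup K) := by
    apply le_antisymm
    · have h1 := hCle
      rw [← hPeq] at h1
      exact h1
    · intro x hx
      rw [Subgroup.mem_centralizer_iff]
      intro y hy
      exact hPcomm y hy x hx
  -- the conjugation action
  haveI := hPn
  let ψ : K →* MulAut ↥(P : Subgroup K) := MulAut.conjNormal
  have hker : ψ.ker = (P : Subgroup K) := by
    refine Eq.trans ?_ hcent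
    ext x
    rw [MonoidHom.mem_ker, Subgroup.mem_centralizer_iff]
    constructor
    · intro hx y hy
      have h1 : ψ x ⟨y, hy⟩ = ⟨y, hy⟩ := by rw [hx]; rfl
      have h2 := congrArg Subtype.val h1
      rw [MulAut.conjNormal_apply] at h2
      have h3 : x * y = (x * y * x⁻¹) * x := by group
      rw [h3, h2]
    · intro hx
      ext y
      rw [MulAut.conjNormal_apply]
      have := hx y y.2
      simp only [MulAut.one_apply]
      rw [← this]; group
  have hidx : (P : Subgroup K).index = Nat.card ψ.range := by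
    have := Subgroup.index_ker ψ
    rw [hker] at this
    exact this
  haveI := hP
  have hcardaut : Nat.card (MulAut ↥(P : Subgroup K)) = Nat.totient (Nat.card ↥(P : Subgroup K)) :=
    IsCyclic.card_mulAut _
  obtain ⟨e, he⟩ := IsPGroup.iff_card.mp P.2
  have he0 : e ≠ 0 := by
    intro h0
    rw [h0, pow_zero] at he
    have h1 : p ∣ Nat.card ↥(P : Subgroup K) := by
      have := P.card_eq_multiplicity
      rw [this]
      have hK : Nat.card K ≠ 0 := Nat.card_pos.ne'
      exact dvd_pow_self p (by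
        have := (Nat.Prime.factorization_pos_of_dvd hpp hK hp)
        omega)
    rw [he] at h1
    exact hpp.one_lt.ne' (Nat.dvd_one.mp h1)
  have hdvd1 : (P : Subgroup K).index ∣ p ^ (e - 1) * (p - 1) := by
    rw [hidx]
    have h1 : Nat.card ψ.range ∣ Nat.card (MulAut ↥(P : Subgroup K)) := Subgroup.card_subgroup_dvd_card _
    rw [hcardaut, he, Nat.totient_prime_pow hpp (Nat.pos_of_ne_zero he0)] at h1
    exact h1
  have hnd : ¬ p ∣ (P : Subgroup K).index := P.not_dvd_index
  have hcop : ((P : Subgroup K).index).Coprime (p ^ (e - 1)) :=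
    Nat.Coprime.pow_right _ ((Nat.Prime.coprime_iff_not_dvd hpp).mpr hnd).symm
  have hdvd : (P : Subgroup K).index ∣ p - 1 := hcop.dvd_of_dvd_mul_left hdvd1
  refine ⟨hPn, hcent, ?_, hdvd⟩
  intro _
  by_cases hp2 : p = 2
  · have h1 : (P : Subgroup K).index = 1 := by
      have h21 : p - 1 = 1 := by omega
      rw [h21] at hdvd
      exact Nat.dvd_one.mp hdvd
    have h2 : Nat.card (K ⧸ (P : Subgroup K)) = 1 := h1
    haveI : Subsingleton (K ⧸ (P : Subgroup K)) := (Nat.card_eq_one_iff_unique.mp h2).1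
    infer_instance
  · have hcycU : IsCyclic (ZMod (Nat.card ↥(P : Subgroup K)))ˣ := by
      rw [he]; exact ZMod.isCyclic_units_of_prime_pow p hpp hp2 e
    have hcycA : IsCyclic (MulAut ↥(P : Subgroup K)) :=
      isCyclic_of_injective (IsCyclic.mulAutMulEquiv ↥(P : Subgroup K)).toMonoidHom
        (IsCyclic.mulAutMulEquiv ↥(P : Subgroup K)).injective
    let φ : K ⧸ (P : Subgroup K) →* MulAut ↥(P : Subgroup K) :=
      QuotientGroup.lift (P : Subgroup K) ψ (by rw [hker])
    have hφ : Function.Injective φ := by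
      rw [← MonoidHom.ker_eq_bot_iff, eq_bot_iff]
      intro x hx
      induction x using QuotientGroup.induction_on with
      | H x =>
        rw [MonoidHom.mem_ker] at hx
        have h1 : ψ x = 1 := hx
        rw [← MonoidHom.mem_ker, hker] at h1
        rw [Subgroup.mem_bot]
        exact (QuotientGroup.eq_one_iff x).mpr h1
    exact isCyclic_of_injective φ hφ

theorem main_case_B (hO : Cfsg.pPrimeCore p K = ⊥)
    (P : Sylow p K) (hP : IsCyclic ↥(P : Subgroup K))
    (L₀ : Subgroup K) (hL₀ : Cfsg.IsComponent L₀) :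
    (IsSimpleGroup ↥(Cfsg.generalizedFittingSubgroup K) ∧
      ¬ IsMulCommutative ↥(Cfsg.generalizedFittingSubgroup K) ∧
      ¬ p ∣ (Cfsg.generalizedFittingSubgroup K).index) := by
  have hpp : p.Prime := Fact.out
  have hPcomm : ∀ a ∈ (P : Subgroup K), ∀ b ∈ (P : Subgroup K), a * b = b * a := by
    intro a ha b hb
    haveI := hP
    have := (IsCyclic.isMulCommutative (α := ↥(P : Subgroup K))).is_comm.comm ⟨a, ha⟩ ⟨b, hb⟩
    exact congrArg Subtype.val this
  -- (B1) an element of order p in a conjugate of L₀ lying in P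
  obtain ⟨y, hy⟩ := exists_prime_orderOf_dvd_card' p (component_dvd p hO L₀ hL₀)
  have hyo : orderOf (y : K) = p := by rw [Subgroup.orderOf_coe]; exact hy
  have hpg : IsPGroup p (zpowers (y : K)) :=
    IsPGroup.of_card (n := 1) (by rw [Nat.card_zpowers, hyo, pow_one])
  obtain ⟨g, hg⟩ := Cfsg.Agent.Lib.Lead.sylow_conj_mem P (zpowers (y : K)) hpg
  obtain ⟨L, hLdef⟩ : ∃ L, L = L₀.map (MulAut.conj g).toMonoidHom := ⟨_, rfl⟩
  have hL : Cfsg.IsComponent L := by
    rw [hLdef]; exact Cfsg.Agent.Lib.Helper2.isComponent_conj L₀ hL₀ g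
  obtain ⟨u, hudef⟩ : ∃ u, u = g * (y : K) * g⁻¹ := ⟨_, rfl⟩
  have huP : u ∈ (P : Subgroup K) := by rw [hudef]; exact hg _ (mem_zpowers _)
  have huL : u ∈ L := by
    rw [hLdef, hudef]
    exact ⟨(y : K), y.2, by simp [MulAut.conj_apply]⟩
  have huo : orderOf u = p := by
    rw [hudef, Cfsg.Agent.Lib.Lead.orderOf_conj_eq]; exact hyo
  have hu1 : u ≠ 1 := by
    intro h; rw [h, orderOf_one] at huo; exact hpp.one_lt.ne huo
  have hcenter : ∀ L' : Subgroup K, Cfsg.IsComponent L' → ∀ v ∈ L',
      (∀ w ∈ L', v * w = w * v) → v = 1 := by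
    intro L' hL' v hv hvw
    have h1 := component_center p hO P hP L' hL'
    have h2 : (⟨v, hv⟩ : ↥L') ∈ Subgroup.center ↥L' := by
      rw [Subgroup.mem_center_iff]
      intro w
      exact Subtype.ext (hvw w w.2).symm
    rw [h1, Subgroup.mem_bot] at h2
    exact congrArg Subtype.val h2
  -- (B3) P normalizes L
  have hPN : (P : Subgroup K) ≤ Subgroup.normalizer (L : Set K) := by
    intro x hx
    have hL' : Cfsg.IsComponent (L.map (MulAut.conj x).toMonoidHom) :=
      Cfsg.Agent.Lib.Helper2.isComponent_conj L hL x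
    have heq : L.map (MulAut.conj x).toMonoidHom = L := by
      by_contra hne
      have hcomm := Cfsg.Agent.Lib.Helper2.components_commute L _ hL hL' (Ne.symm hne)
      have huL' : u ∈ L.map (MulAut.conj x).toMonoidHom := by
        rw [Cfsg.Agent.Lib.Helper2.mem_map_conj_iff]
        have : x⁻¹ * u * x = u := by
          have := hPcomm u huP x hx
          calc x⁻¹ * u * x = x⁻¹ * (u * x) := by group
            _ = x⁻¹ * (x * u) := by rw [this]
            _ = u := by group
        rw [this]; exact huL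
      apply hu1
      apply hcenter L hL u huL
      intro w hw
      have := hcomm hw
      rw [Subgroup.mem_centralizer_iff] at this
      exact this u huL'
    rw [mem_normalizer_iff]
    intro h
    constructor
    · intro hh
      rw [← heq]
      exact ⟨h, hh, by simp [MulAut.conj_apply]⟩
    · intro hh
      rw [← heq, Cfsg.Agent.Lib.Helper2.mem_map_conj_iff] at hh
      have : x⁻¹ * (x * h * x⁻¹) * x = h := by group
      rw [this] at hh
      exact hh
  -- (B4) P ≤ L
  have hPL : (P : Subgroup K) ≤ L := by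
    by_contra hnot
    have hcond : ∀ g ∈ L ⊔ (P : Subgroup K), ∀ t ∈ (P : Subgroup K), ∀ k : ℤ,
        zpowers t = (P : Subgroup K) → g * t * g⁻¹ = t ^ k → t ∉ zpowers (t ^ (k - 1)) := by
      intro g hgY t ht k hzp hk hmem
      obtain ⟨l, hl, x, hx, rfl⟩ := exists_mul_of_mem_sup hPN hgY
      have h1 : l * t * l⁻¹ = t ^ k := by
        rw [← hk]
        have := hPcomm x hx t ht
        calc l * t * l⁻¹ = l * (t * x) * x⁻¹ * l⁻¹ := by group
          _ = l * (x * t) * x⁻¹ * l⁻¹ := by rw [this]
          _ = l * x * t * (l * x)⁻¹ := by group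
      have h2 : t ^ (k - 1) = l * (t * l⁻¹ * t⁻¹) := by
        rw [zpow_sub_one, ← h1]; group
      have h3 : t ^ (k - 1) ∈ L := by
        rw [h2]
        exact L.mul_mem hl ((mem_normalizer_iff.mp (hPN ht) l⁻¹).mp (L.inv_mem hl))
      apply hnot
      rw [← hzp]
      rw [Subgroup.zpowers_le]
      exact (Subgroup.zpowers_le.mpr h3) hmem
    obtain ⟨T, hTY, hTn, hTcop, hTcomm, -, -, -⟩ :=
      burnside_cyclic_sub P hP (L ⊔ (P : Subgroup K)) le_sup_right hcond
    have hLT : L ≤ T := by
      have hperf : ⁅L, L⁆ = L := Subgroup.isPerfect_iff.mp hL.2.1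
      rw [← hperf, Subgroup.commutator_le]
      intro a ha b hb
      rw [commutatorElement_def]
      exact hTcomm a (le_sup_left (a := L) ha) b (le_sup_left (a := L) hb)
    have h1 : p ∣ Nat.card T := (component_dvd p hO L hL).trans (Subgroup.card_dvd_of_le hLT)
    exact (Nat.Prime.coprime_iff_not_dvd hpp).mp hTcop.symm h1
  -- (B5a) L is the only component
  have huniq : ∀ L' : Subgroup K, Cfsg.IsComponent L' → L' = L := by
    intro L' hL'
    by_contra hne
    have hc1 := Cfsg.Agent.Lib.Helper2.components_commute L' L hL' hL hne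
    obtain ⟨v, hv⟩ := exists_prime_orderOf_dvd_card' p (component_dvd p hO L' hL')
    have hvo : orderOf (v : K) = p := by rw [Subgroup.orderOf_coe]; exact hv
    have hvP : (v : K) ∈ (P : Subgroup K) := by
      apply mem_sylow_of_centralizes p P (v : K) hvo
      intro x hx
      have := hc1 v.2
      rw [Subgroup.mem_centralizer_iff] at this
      exact (this x (hPL hx)).symm
    have hv1 : (v : K) = 1 := by
      apply hcenter L' hL' (v : K) v.2
      intro w hw
      have := hc1 hw
      rw [Subgroup.mem_centralizer_iff] at this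
      exact this (v : K) (hPL hvP)
    rw [hv1, orderOf_one] at hvo
    exact hpp.one_lt.ne hvo
  have hlayer : Cfsg.layer K = L := by
    apply le_antisymm
    · refine sSup_le ?_
      intro L' hL'
      exact (huniq L' hL').le
    · exact Cfsg.Agent.Lib.Helper2.component_le_layer L hL
  -- (B5b) the Fitting subgroup is trivial
  have hfit : Cfsg.fittingSubgroup K = ⊥ := by
    have hFn : (Cfsg.fittingSubgroup K).Normal := Cfsg.Agent.Lib.Helper2.fitting_normal K
    have hLc : L ≤ Subgroup.centralizer ((Cfsg.fittingSubgroup K : Subgroup K) : Set K) := by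
      rw [← hlayer]; exact Cfsg.Agent.Lib.Helper2.layer_le_centralizer_fitting K
    have hnd : ¬ p ∣ Nat.card ↥(Cfsg.fittingSubgroup K) := by
      intro hdvd
      obtain ⟨v, hv⟩ := exists_prime_orderOf_dvd_card' p hdvd
      have hvo : orderOf (v : K) = p := by rw [Subgroup.orderOf_coe]; exact hv
      have hvP : (v : K) ∈ (P : Subgroup K) := by
        apply mem_sylow_of_centralizes p P (v : K) hvo
        intro x hx
        have := hLc (hPL hx)
        rw [Subgroup.mem_centralizer_iff] at this
        exact this (v : K) v.2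
      have hv1 : (v : K) = 1 := by
        apply hcenter L hL (v : K) (hPL hvP)
        intro w hw
        have := hLc hw
        rw [Subgroup.mem_centralizer_iff] at this
        exact this (v : K) v.2
      rw [hv1, orderOf_one] at hvo
      exact hpp.one_lt.ne hvo
    have hcop : (Nat.card ↥(Cfsg.fittingSubgroup K)).Coprime p :=
      ((Nat.Prime.coprime_iff_not_dvd hpp).mpr hnd).symm
    have hle : Cfsg.fittingSubgroup K ≤ Cfsg.pPrimeCore p K := le_sSup ⟨hFn, hcop⟩
    rw [hO] at hle
    exact le_bot_iff.mp hle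
  have hFL : Cfsg.generalizedFittingSubgroup K = L := by
    unfold Cfsg.generalizedFittingSubgroup
    rw [hlayer, hfit, sup_bot_eq]
  rw [hFL]
  have hcb := component_center p hO P hP L hL
  haveI hnt : Nontrivial ↥L := Cfsg.Agent.Lib.Helper2.quasisimple_nontrivial hL.2
  refine ⟨?_, ?_, ?_⟩
  · haveI : IsSimpleGroup (↥L ⧸ Subgroup.center ↥L) := hL.2.2
    let e : ↥L ⧸ Subgroup.center ↥L ≃* ↥L :=
      (QuotientGroup.quotientMulEquivOfEq hcb).trans QuotientGroup.quotientBot
    exact e.symm.isSimpleGroup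
  · intro hcomm
    have htop : Subgroup.center ↥L = ⊤ := by
      rw [eq_top_iff]
      intro x _
      rw [Subgroup.mem_center_iff]
      intro w
      exact hcomm.is_comm.comm w x
    rw [hcb] at htop
    exact bot_ne_top htop
  · intro hdvd
    exact P.not_dvd_index (hdvd.trans (Subgroup.index_dvd_of_le hPL))

end main

theorem result {K : Type*} [Group K] [Finite K] (p : ℕ) [Fact p.Prime] (hp : p ∣ Nat.card K) (hO : Cfsg.pPrimeCore p K = ⊥)
    (P : Sylow p K) (hP : IsCyclic ↥(P : Subgroup K)) :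
    ((P : Subgroup K).Normal ∧ Subgroup.centralizer ((P : Subgroup K) : Set K) = (P : Subgroup K) ∧
      (∀ (_ : (P : Subgroup K).Normal), IsCyclic (K ⧸ (P : Subgroup K))) ∧ (P : Subgroup K).index ∣ p - 1) ∨
    (IsSimpleGroup ↥(Cfsg.generalizedFittingSubgroup K) ∧ ¬ IsMulCommutative ↥(Cfsg.generalizedFittingSubgroup K) ∧
      ¬ p ∣ (Cfsg.generalizedFittingSubgroup K).index) := by
  by_cases hno : ∀ L : Subgroup K, ¬ Cfsg.IsComponent L
  · exact Or.inl (main_case_A p hp hO P hP hno)
  · rw [not_forall] at hno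
    obtain ⟨L₀, hL₀⟩ := hno
    rw [not_not] at hL₀
    exact Or.inr (main_case_B p hO P hP L₀ hL₀)

end Cfsg.Agent.S4403
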