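import Cfsg.Statements.S4405
import Mathlib
import Cfsg.Agent.Lib.Helper6.Ex32
-- import your own Cfsg.Agent.* helpers here

set_option autoImplicit false
open Cfsg

namespace Cfsg.Agent.S4405

open Cfsg.Agent.Lib.Helper6.Ex32

theorem main {G : Type*} [Group G] [Finite G] (hG : Nat.card G = 320) (H : Subgroup G)
    (hHp : H = Cfsg.pCore 2 G) (hHF : H = Cfsg.fittingSubgroup G)
    (hex : Cfsg.IsExtraspecial 2 ↥H) (h32 : Nat.card ↥H = 32)
    (hminus : ∀ A : Subgroup G, A ≤ H → Cfsg.IsElementaryAbelian 2 A → Nat.card ↥A ≤ 4)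
    (T : G) (hT : orderOf T = 2) (hTH : T ∉ H)
    (V : Subgroup G) (hV : V ≤ H ⊓ Subgroup.centralizer ({T} : Set G)) (hV4 : Nat.card ↥V = 4)
    (hVe : Cfsg.IsElementaryAbelian 2 V) :
    Nat.card ↥(H ⊓ Subgroup.centralizer ({T} : Set G)) = 4 := by
  classical
  haveI : Fact (Nat.Prime 2) := ⟨Nat.prime_two⟩
  haveI : Fact (Nat.Prime 5) := ⟨by norm_num⟩
  have hn : H.Normal := by rw [hHp]; exact Cfsg.Agent.Lib.Helper4.pCore_normal 2 G
  obtain ⟨z, A⟩ := amb32_of H hn hex
  have hTT : T * T = 1 := by rw [← pow_two, ← hT]; exact pow_orderOf_eq_one T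
  have hTinv : T⁻¹ = T := inv_eq_of_mul_eq_one_right hTT
  obtain ⟨C, hC⟩ : ∃ C : Subgroup G, C = H ⊓ Subgroup.centralizer ({T} : Set G) := ⟨_, rfl⟩
  rw [← hC] at hV ⊢
  have hCmem : ∀ y, y ∈ C ↔ y ∈ H ∧ T * y * T⁻¹ = y := by
    intro y
    rw [hC, Subgroup.mem_inf, Subgroup.mem_centralizer_iff]
    constructor
    · rintro ⟨h1, h2⟩
      refine ⟨h1, ?_⟩
      rw [h2 T (Set.mem_singleton T)]; group
    · rintro ⟨h1, h2⟩
      refine ⟨h1, ?_⟩
      intro g hg
      rw [Set.mem_singleton_iff] at hg
      rw [hg]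
      calc T * y = (T * y * T⁻¹) * T := by group
        _ = y * T := by rw [h2]
  have hCK : C ≤ Kof A T := by
    intro y hy
    obtain ⟨h1, h2⟩ := (hCmem y).mp hy
    refine ⟨h1, ?_⟩
    rw [h2, inv_mul_cancel]
    exact Subgroup.one_mem _
  have hCH : C ≤ H := by rw [hC]; exact inf_le_left
  have hVH : V ≤ H := le_trans hV hCH
  by_contra hne
  have hC8 : 8 ≤ Nat.card C := by
    have hd1 : Nat.card C ∣ 2 ^ 5 := by
      have := Subgroup.card_dvd_of_le hCH; rw [h32] at this; exact this
    have hd2 : 4 ∣ Nat.card C := by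
      have := Subgroup.card_dvd_of_le hV; rw [hV4] at this; exact this
    obtain ⟨i, hi_le, hi⟩ := (Nat.dvd_prime_pow Nat.prime_two).mp hd1
    rw [hi] at hd2 hne ⊢
    have hi3 : 3 ≤ i := by
      by_contra hcon
      have hi2 : i ≤ 2 := by omega
      interval_cases i
      · norm_num at hd2
      · norm_num at hd2
      · norm_num at hne
    calc 8 = 2 ^ 3 := by norm_num
      _ ≤ 2 ^ i := Nat.pow_le_pow_right (by norm_num) hi3
  have hK8 : 8 ≤ Nat.card (Kof A T) := le_trans hC8 (Subgroup.card_le_of_le hCK)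
  have hKH : ∀ g, Kof A g ≤ H := fun g y hy => hy.1
  obtain ⟨f, hf⟩ := exists_prime_orderOf_dvd_card' (G := G) 5 (by rw [hG]; norm_num)
  have hf5 : f ^ 5 = 1 := by rw [← hf]; exact pow_orderOf_eq_one f
  have hf1 : f ≠ 1 := by intro h; rw [h, orderOf_one] at hf; omega
  have hB : ∀ f' : G, f' ^ 5 = 1 → f' ≠ 1 → ∀ y ∈ Kof A f', y ∈ Zs z A.hzz :=
    fun f' h5 h1 y hy => stepB hG A h32 hHF f' h5 h1 hy
  have hZ2 := card_Zs A.hzz A.hz1
  by_cases hg : T * f * T⁻¹ * f⁻¹ ∈ H
  · -- the commuting case: `T` acts trivially on `H / Z`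
    have hinv : ∀ y ∈ Kof A T, f * y * f⁻¹ ∈ Kof A T := by
      intro y hy
      have h1 := Kof_conj A hy f
      have h2 := Kof_of_mem A hg h1.1
      have h3 := Kof_mul A h2 h1
      have e : T * f * T⁻¹ * f⁻¹ * (f * T * f⁻¹) = T := by group
      rw [e] at h3
      exact h3
    have hmod := card_modEq_fixed (Kof A T) f 5 hf5 hinv
    have hfix : Nat.card (Kof A T ⊓ Subgroup.centralizer {f} : Subgroup G) = 2 := by
      have heq : Kof A T ⊓ Subgroup.centralizer {f} = Zs z A.hzz := by
        apply le_antisymm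
        · intro y hy
          apply hB f hf5 hf1
          refine ⟨hy.1.1, ?_⟩
          have hy2 : y ∈ Subgroup.centralizer {f} := hy.2
          have hyf := Subgroup.mem_centralizer_iff.mp hy2 f (Set.mem_singleton f)
          rw [hyf]
          have e : y⁻¹ * (y * f * f⁻¹) = 1 := by group
          rw [e]; exact Subgroup.one_mem _
        · intro c hc
          refine ⟨?_, ?_⟩
          · refine ⟨A.zs_le hc, ?_⟩
            rw [A.zs_conj hc T, inv_mul_cancel]; exact Subgroup.one_mem _
          · show c ∈ Subgroup.centralizer {f}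
            rw [Subgroup.mem_centralizer_iff]
            intro g hg'
            rw [Set.mem_singleton_iff] at hg'
            rw [hg']
            have := A.zs_conj hc f
            calc f * c = (f * c * f⁻¹) * f := by group
              _ = c * f := by rw [this]
      rw [heq, hZ2]
    rw [hfix] at hmod
    have hKd : Nat.card (Kof A T) ∣ 2 ^ 5 := by
      have := Subgroup.card_dvd_of_le (hKH T); rw [h32] at this; exact this
    obtain ⟨i, hi_le, hi⟩ := (Nat.dvd_prime_pow Nat.prime_two).mp hKd
    have hK32 : Nat.card (Kof A T) = 32 := by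
      rw [hi] at hmod hK8 ⊢
      interval_cases i
      · norm_num at hK8
      · norm_num at hK8
      · norm_num at hK8
      · exact absurd hmod (by decide)
      · exact absurd hmod (by decide)
      · norm_num
    have hKeq : Kof A T = H := Subgroup.eq_of_le_of_card_ge (hKH T) (by rw [hK32, h32])
    have hTX : T ∈ Xker A := by
      show ∀ y ∈ H, y ∈ Kof A T
      intro y hy
      rw [hKeq]
      exact hy
    have hXp : IsPGroup 2 (Xker A) := by
      have hXd : Nat.card (Xker A) ∣ 2 ^ 6 * 5 := by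
        have := Subgroup.card_subgroup_dvd_card (Xker A)
        rw [hG] at this
        exact this
      have h5 : ¬ 5 ∣ Nat.card (Xker A) := by
        intro h5
        obtain ⟨x, hx⟩ := exists_prime_orderOf_dvd_card' (G := Xker A) 5 h5
        have hx5 : (x : G) ^ 5 = 1 := by
          have : x ^ 5 = 1 := by rw [← hx]; exact pow_orderOf_eq_one x
          simpa using congrArg Subtype.val this
        have hx1 : (x : G) ≠ 1 := by
          intro h
          have : x = 1 := Subtype.ext h
          rw [this, orderOf_one] at hx; omega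
        have hall : H ≤ Zs z A.hzz := fun y hy => hB x hx5 hx1 y (x.2 y hy)
        have := Subgroup.card_le_of_le hall
        rw [h32, hZ2] at this; omega
      have hcop : Nat.Coprime (Nat.card (Xker A)) 5 :=
        ((Nat.Prime.coprime_iff_not_dvd (by norm_num : Nat.Prime 5)).mpr h5).symm
      have hd64 : Nat.card (Xker A) ∣ 2 ^ 6 := hcop.dvd_of_dvd_mul_right hXd
      obtain ⟨j, _, hj⟩ := (Nat.dvd_prime_pow Nat.prime_two).mp hd64
      exact IsPGroup.of_card hj
    have hXH : Xker A ≤ H :=
      calc Xker A ≤ Cfsg.pCore 2 G := Cfsg.Agent.Lib.Helper4.le_pCore (Xker_normal A) hXp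
        _ = H := hHp.symm
    exact hTH (hXH hTX)
  · -- the non-commuting case
    obtain ⟨g, hgdef⟩ : ∃ g, g = T * f * T⁻¹ * f⁻¹ := ⟨_, rfl⟩
    rw [← hgdef] at hg
    have hg5 : g ^ 5 ∈ H := by
      haveI := hn
      have hQcard : Nat.card (G ⧸ H) = 10 := by
        have h1 := Subgroup.card_mul_index H
        rw [h32, hG, Subgroup.index_eq_card] at h1
        omega
      obtain ⟨q₀, hq₀⟩ := exists_prime_orderOf_dvd_card' (G := G ⧸ H) 5 (by rw [hQcard]; norm_num)
      have hS5 : Nat.card (Subgroup.zpowers q₀) = 5 := by rw [Nat.card_zpowers, hq₀]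
      have hSidx : (Subgroup.zpowers q₀).index = 2 := by
        have h1 := Subgroup.card_mul_index (Subgroup.zpowers q₀)
        rw [hS5, hQcard] at h1
        omega
      have hmemS : ∀ q : G ⧸ H, q ^ 5 = 1 → q ∈ Subgroup.zpowers q₀ := by
        intro q hq
        have h2 := Subgroup.sq_mem_of_index_two hSidx q
        rw [pow_two] at h2
        have e : q = q ^ 5 * ((q * q) * (q * q))⁻¹ := by group
        rw [e, hq, one_mul]
        exact Subgroup.inv_mem _ (Subgroup.mul_mem _ h2 h2)
      have ha : ((T * f * T⁻¹ : G) : G ⧸ H) ^ 5 = 1 := by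
        rw [← QuotientGroup.mk_pow, conj_pow, hf5, mul_one, mul_inv_cancel]; rfl
      have hb : ((f⁻¹ : G) : G ⧸ H) ^ 5 = 1 := by
        rw [← QuotientGroup.mk_pow, inv_pow, hf5, inv_one]; rfl
      have hgS : ((g : G) : G ⧸ H) ∈ Subgroup.zpowers q₀ := by
        rw [hgdef, QuotientGroup.mk_mul]
        exact Subgroup.mul_mem _ (hmemS _ ha) (hmemS _ hb)
      have hg5' : ((g : G) : G ⧸ H) ^ 5 = 1 := by
        have := pow_card_eq_one' (G := Subgroup.zpowers q₀) (x := ⟨_, hgS⟩)
        rw [hS5] at this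
        simpa using congrArg Subtype.val this
      rw [← QuotientGroup.mk_pow] at hg5'
      exact (QuotientGroup.eq_one_iff _).mp hg5'
    have h32' : ∀ h ∈ H, h ^ 32 = 1 := by
      intro h hh
      have := pow_card_eq_one' (G := H) (x := ⟨h, hh⟩)
      rw [h32] at this
      simpa using congrArg Subtype.val this
    have hf'5 : (g ^ 32) ^ 5 = 1 := by
      rw [← pow_mul, mul_comm, pow_mul]
      exact h32' _ hg5
    have hf'1 : g ^ 32 ≠ 1 := by
      intro h
      apply hg
      have e : g = (g ^ 5) ^ 13 * ((g ^ 32) ^ 2)⁻¹ := by group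
      rw [e, h, one_pow, inv_one, mul_one]
      exact Subgroup.pow_mem _ hg5 13
    obtain ⟨T₁, hT₁⟩ : ∃ T₁, T₁ = f * T * f⁻¹ := ⟨_, rfl⟩
    have hgT : g = T * T₁ := by
      rw [hgdef, hT₁, hTinv]; group
    have hinter : ∀ y, y ∈ Kof A T → y ∈ Kof A T₁ → y ∈ Zs z A.hzz := by
      intro y h1 h2
      have h3 := Kof_mul A h1 h2
      rw [← hgT] at h3
      exact hB (g ^ 32) hf'5 hf'1 y (Kof_pow A h3 32)
    have hK1 : Nat.card (Kof A T) ≤ Nat.card (Kof A T₁) := by
      have hinj : Function.Injective (fun y : Kof A T =>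
          (⟨f * y * f⁻¹, by rw [hT₁]; exact Kof_conj A y.2 f⟩ : Kof A T₁)) := by
        intro a b hab
        have h' : f * (a : G) * f⁻¹ = f * (b : G) * f⁻¹ := congrArg Subtype.val hab
        apply Subtype.ext
        have := congrArg (fun t => f⁻¹ * t * f) h'
        simpa [mul_assoc] using this
      exact Nat.card_le_card_of_injective _ hinj
    have hr := Subgroup.relIndex_inf_le (H := Kof A T) (K := Kof A T₁) (L := H)
    have hmA := Subgroup.relIndex_mul_relIndex (⊥ : Subgroup G) (Kof A T) H bot_le (hKH T)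
    have hmB := Subgroup.relIndex_mul_relIndex (⊥ : Subgroup G) (Kof A T₁) H bot_le (hKH T₁)
    have hmI := Subgroup.relIndex_mul_relIndex (⊥ : Subgroup G) (Kof A T ⊓ Kof A T₁) H bot_le
      (le_trans inf_le_left (hKH T))
    rw [Subgroup.relIndex_bot_left, Subgroup.relIndex_bot_left, h32] at hmA hmB hmI
    have hI2 : Nat.card (Kof A T ⊓ Kof A T₁ : Subgroup G) ≤ 2 := by
      rw [← hZ2]
      exact Subgroup.card_le_of_le (fun y hy => hinter y hy.1 hy.2)
    have hK8' : 8 ≤ Nat.card (Kof A T₁) := le_trans hK8 hK1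
    have hrA : (Kof A T).relIndex H ≤ 4 := by
      by_contra hc
      push_neg at hc
      have := Nat.mul_le_mul hK8 hc
      omega
    have hrB : (Kof A T₁).relIndex H ≤ 4 := by
      by_contra hc
      push_neg at hc
      have := Nat.mul_le_mul hK8' hc
      omega
    have hrI : 16 ≤ (Kof A T ⊓ Kof A T₁).relIndex H := by
      by_contra hc
      push_neg at hc
      have := Nat.mul_le_mul hI2 (Nat.le_of_lt_succ hc)
      omega
    have hrA4 : (Kof A T).relIndex H = 4 := by
      by_contra hc
      have h3 : (Kof A T).relIndex H ≤ 3 := by omega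
      have := Nat.mul_le_mul h3 hrB
      omega
    have hK8eq : Nat.card (Kof A T) = 8 := by
      rw [hrA4] at hmA
      omega
    have hKC : C = Kof A T := Subgroup.eq_of_le_of_card_ge hCK (by rw [hK8eq]; exact hC8)
    have hCcard : Nat.card C = 8 := by rw [hKC, hK8eq]
    have hzV : z ∈ V := mem_of_adjoin H V hVH hVe hV4 hminus z A.hzH A.hzz
      (fun v hv => (A.hzc v (hVH hv)).symm)
    have hω : ∀ y ∈ H, (y⁻¹ * (T * y * T⁻¹)) ∈ V := by
      intro y hy
      obtain ⟨w, hw⟩ : ∃ w, w = y⁻¹ * (T * y * T⁻¹) := ⟨_, rfl⟩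
      rw [← hw]
      have hwH : w ∈ H := by
        rw [hw]; exact H.mul_mem (H.inv_mem hy) (hn.conj_mem y hy T)
      have hTw : T * w * T⁻¹ = w⁻¹ := by
        rw [hw]
        have e : T * (y⁻¹ * (T * y * T⁻¹)) * T⁻¹ =
            (T * y * T⁻¹)⁻¹ * ((T * T) * y * (T * T)⁻¹) := by group
        rw [e, hTT]; group
      have hwK : w ∈ Kof A T := by
        refine ⟨hwH, ?_⟩
        rw [hTw, mem_Zs]
        rcases A.hsq w hwH with h | h
        · left; rw [← mul_inv_rev, h, inv_one]
        · right; rw [← mul_inv_rev, h]; exact inv_eq_of_mul_eq_one_right A.hzz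
      have hwC : w ∈ C := by rw [hKC]; exact hwK
      have hTw' := ((hCmem w).mp hwC).2
      have hww : w * w = 1 := by
        have hwi : w⁻¹ = w := by rw [← hTw, hTw']
        calc w * w = w⁻¹ * w := by rw [hwi]
          _ = 1 := inv_mul_cancel w
      have hyw : T * y * T⁻¹ = y * w := by rw [hw]; group
      have hwV : ∀ v ∈ V, w * v = v * w := by
        intro v hv
        obtain ⟨hvH, hTv⟩ := (hCmem v).mp (hV hv)
        rcases A.hcomm v hvH y hy with h | h
        · have h2 : (T * v * T⁻¹) * (T * y * T⁻¹) = (T * y * T⁻¹) * (T * v * T⁻¹) := by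
            have e1 : (T * v * T⁻¹) * (T * y * T⁻¹) = T * (v * y) * T⁻¹ := by group
            have e2 : (T * y * T⁻¹) * (T * v * T⁻¹) = T * (y * v) * T⁻¹ := by group
            rw [e1, e2, h]
          rw [hTv, hyw] at h2
          have h3 : y * (v * w) = y * (w * v) := by
            calc y * (v * w) = (y * v) * w := (mul_assoc _ _ _).symm
              _ = (v * y) * w := by rw [h]
              _ = v * (y * w) := mul_assoc _ _ _
              _ = y * w * v := h2
              _ = y * (w * v) := mul_assoc _ _ _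
          exact (mul_left_cancel h3).symm
        · have hz := A.conj_z T
          have h2 : (T * v * T⁻¹) * (T * y * T⁻¹) =
              (T * y * T⁻¹) * (T * v * T⁻¹) * (T * z * T⁻¹) := by
            have e1 : (T * v * T⁻¹) * (T * y * T⁻¹) = T * (v * y) * T⁻¹ := by group
            have e2 : (T * y * T⁻¹) * (T * v * T⁻¹) * (T * z * T⁻¹) =
                T * (y * v * z) * T⁻¹ := by group
            rw [e1, e2, h]
          rw [hTv, hyw, hz] at h2
          have hwz := A.hzc w hwH
          have h3 : y * (v * w * z) = y * (w * v * z) := by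
            calc y * (v * w * z) = y * v * (w * z) := by simp only [mul_assoc]
              _ = y * v * (z * w) := by rw [hwz]
              _ = (y * v * z) * w := by simp only [mul_assoc]
              _ = (v * y) * w := by rw [h]
              _ = v * (y * w) := mul_assoc _ _ _
              _ = y * w * v * z := h2
              _ = y * (w * v * z) := by simp only [mul_assoc]
          exact (mul_right_cancel (mul_left_cancel h3)).symm
      exact mem_of_adjoin H V hVH hVe hV4 hminus w hwH hww hwV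
    have hZV : Zs z A.hzz ≤ V := by
      intro c hc
      rcases hc with h | h
      · rw [h]; exact V.one_mem
      · rw [h]; exact hzV
    have hidx : ((Zs z A.hzz).subgroupOf V).index = 2 := by
      have hri := Subgroup.relIndex_mul_relIndex (⊥ : Subgroup G) (Zs z A.hzz) V bot_le hZV
      rw [Subgroup.relIndex_bot_left, Subgroup.relIndex_bot_left, hZ2, hV4] at hri
      have : (Zs z A.hzz).relIndex V = 2 := by omega
      exact this
    have hfinal : Nat.card H ≤ 2 * Nat.card C := by
      apply card_le_two_mul C H hCH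
      intro a ha b hb haC hbC
      have hwa := hω a ha
      have hwb := hω b hb
      have hwa' : a⁻¹ * (T * a * T⁻¹) ∉ Zs z A.hzz := by
        intro h; apply haC; rw [hKC]; exact ⟨ha, h⟩
      have hwb' : b⁻¹ * (T * b * T⁻¹) ∉ Zs z A.hzz := by
        intro h; apply hbC; rw [hKC]; exact ⟨hb, h⟩
      have hwb'' : (b⁻¹ * (T * b * T⁻¹))⁻¹ ∉ Zs z A.hzz := by
        intro h
        apply hwb'
        have := Subgroup.inv_mem _ h
        rw [inv_inv] at this
        exact this
      have hprod : (a⁻¹ * (T * a * T⁻¹)) * (b⁻¹ * (T * b * T⁻¹))⁻¹ ∈ Zs z A.hzz := by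
        have := (Subgroup.mul_mem_iff_of_index_two hidx (a := ⟨_, hwa⟩)
          (b := ⟨_, V.inv_mem hwb⟩)).mpr
          ⟨fun h => absurd (Subgroup.mem_subgroupOf.mp h) hwa',
            fun h => absurd (Subgroup.mem_subgroupOf.mp h) hwb''⟩
        exact Subgroup.mem_subgroupOf.mp this
      rw [hKC]
      refine ⟨H.mul_mem ha (H.inv_mem hb), ?_⟩
      have e : (a * b⁻¹)⁻¹ * (T * (a * b⁻¹) * T⁻¹) =
          b * ((a⁻¹ * (T * a * T⁻¹)) * (b⁻¹ * (T * b * T⁻¹))⁻¹) * b⁻¹ := by group
      have hc := A.zs_central hprod hb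
      have e2 : b * ((a⁻¹ * (T * a * T⁻¹)) * (b⁻¹ * (T * b * T⁻¹))⁻¹) * b⁻¹ =
          (a⁻¹ * (T * a * T⁻¹)) * (b⁻¹ * (T * b * T⁻¹))⁻¹ := by
        rw [hc]; group
      rw [e, e2]
      exact hprod
    rw [h32, hCcard] at hfinal
    omega

/-- Let G be a finite group of order 320 = 64·5 whose largest normal 2-subgroup H = O₂(G) equals the Fitting subgroup F(G) and is extraspecial of order 32 containing no elementary abelian subgroup of order 8 (so H is the central product of a quaternion group and a dihedral group of order 8). If T is an involution of G outside H whose centralizer in H contains an elementary abelian subgroup of order 4, then C_H(T) itself is elementary abelian of order 4. -/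
theorem result {G : Type*} [Group G] [Finite G]
    (hG : Nat.card G = 320) (hHF : Cfsg.pCore 2 G = Cfsg.fittingSubgroup G)
    (hex : Cfsg.IsExtraspecial 2 ↥(Cfsg.pCore 2 G)) (h32 : Nat.card ↥(Cfsg.pCore 2 G) = 32)
    (hminus : ∀ A : Subgroup G, A ≤ Cfsg.pCore 2 G → Cfsg.IsElementaryAbelian 2 A → Nat.card ↥A ≤ 4)
    (T : G) (hT : orderOf T = 2) (hTH : T ∉ Cfsg.pCore 2 G)
    (V : Subgroup G) (hV : V ≤ Cfsg.pCore 2 G ⊓ Subgroup.centralizer ({T} : Set G)) (hV4 : Nat.card ↥V = 4) (hVe : Cfsg.IsElementaryAbelian 2 V) :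
    Nat.card ↥(Cfsg.pCore 2 G ⊓ Subgroup.centralizer ({T} : Set G)) = 4 ∧
      Cfsg.IsElementaryAbelian 2 (Cfsg.pCore 2 G ⊓ Subgroup.centralizer ({T} : Set G)) := by
  classical
  obtain ⟨H, hH⟩ : ∃ H : Subgroup G, H = Cfsg.pCore 2 G := ⟨_, rfl⟩
  rw [← hH] at hHF hex h32 hminus hTH hV ⊢
  have hcard4 := main hG H hH hHF hex h32 hminus T hT hTH V hV hV4 hVe
  have hVC : V = H ⊓ Subgroup.centralizer ({T} : Set G) :=
    Subgroup.eq_of_le_of_card_ge hV (by rw [hcard4, hV4])
  refine ⟨hcard4, ?_⟩
  rw [← hVC]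
  exact hVe

end Cfsg.Agent.S4405
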