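import Cfsg.Statements.S4406
import Mathlib
-- import your own Cfsg.Agent.* helpers here

set_option autoImplicit false
open Cfsg

namespace Cfsg.Agent.S4406

abbrev A4 := ↥(alternatingGroup (Fin 4))
abbrev G44 := A4 × A4

set_option maxRecDepth 100000 in
theorem D1 : ∀ u : A4, (u^2)^2 = 1 → u^2 = 1 := by decide +kernel

set_option maxRecDepth 100000 in
theorem D2 : Fintype.card {u : A4 // u^2 = 1} = 4 := by decide +kernel

set_option maxRecDepth 100000 in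
theorem D5 : ∃ a : A4, a^3 = 1 ∧ a ≠ 1 := by decide +kernel

set_option maxRecDepth 100000 in
theorem F1 : ∀ a x u : A4, a^3 = 1 → a ≠ 1 → x^2 = 1 → x ≠ 1 → u^2 = 1 →
    u = 1 ∨ u = x ∨ u = a*x*a⁻¹ ∨ u = x * (a*x*a⁻¹) := by decide +kernel

set_option maxRecDepth 100000 in
theorem F2 : ∀ a x : A4, a^3 = 1 → a ≠ 1 → x^2 = 1 → x ≠ 1 →
    a * x * a⁻¹ ≠ x ∧ a * x * a⁻¹ ≠ 1 ∧ (a * x * a⁻¹)^2 = 1 ∧ a * (a * x * a⁻¹) * a⁻¹ = x * (a * x * a⁻¹)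
      ∧ a * (x * (a * x * a⁻¹)) * a⁻¹ = x := by decide +kernel

theorem pow2_sq (k : ℕ) : ∀ u : A4, u ^ (2 ^ k) = 1 → u ^ 2 = 1 := by
  induction k with
  | zero =>
    intro u h
    rw [pow_zero, pow_one] at h
    rw [h]; exact one_pow 2
  | succ k ih =>
    intro u h
    rw [pow_succ, mul_comm, pow_mul] at h
    exact D1 u (ih (u^2) h)

theorem zp3 (a u : A4) (ha : a ^ 3 = 1) (hu : u ∈ Subgroup.zpowers a) : u ^ 3 = 1 := by
  obtain ⟨i, rfl⟩ := Subgroup.mem_zpowers_iff.1 hu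
  calc (a ^ i) ^ 3 = (a ^ 3) ^ i := by
        rw [← zpow_natCast, ← zpow_natCast, ← zpow_mul, ← zpow_mul, mul_comm]
    _ = 1 := by rw [ha, one_zpow]

theorem main_case (B : Subgroup G44)
    (hsq : ∀ h ∈ B, h.1 ^ 2 = 1 ∧ h.2 ^ 2 = 1)
    (hinj1 : ∀ h ∈ B, h.1 = 1 → h.2 = 1)
    (a b : A4) (ha : a ^ 3 = 1) (ha1 : a ≠ 1) (hb : b ^ 3 = 1) (hb1 : b ≠ 1)
    (x y : A4) (hx1 : x ≠ 1) (hy1 : y ≠ 1) (hxy : ((x, y) : G44) ∈ B)
    (hxy' : ((a * x * a⁻¹, b * y * b⁻¹) : G44) ∈ B) :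
    ((a, b) : G44) ∈ Subgroup.normalizer (B : Set G44) := by
  have hx2 := (hsq _ hxy).1
  have hy2 := (hsq _ hxy).2
  obtain ⟨fa1, fa2, fa3, fa4, fa5⟩ := F2 a x ha ha1 hx2 hx1
  obtain ⟨fb1, fb2, fb3, fb4, fb5⟩ := F2 b y hb hb1 hy2 hy1
  have same : ∀ h ∈ B, ∀ h' ∈ B, h.1 = h'.1 → h = h' := by
    intro h hh h' hh' e1
    have hm : h * h'⁻¹ ∈ B := B.mul_mem hh (B.inv_mem hh')
    have e2 := hinj1 _ hm (by show h.1 * h'.1⁻¹ = 1; rw [e1]; exact mul_inv_cancel _)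
    have e3 : h.2 * h'.2⁻¹ = 1 := e2
    exact Prod.ext e1 (mul_inv_eq_one.mp e3)
  have hprod : ((x * (a * x * a⁻¹), y * (b * y * b⁻¹)) : G44) ∈ B := B.mul_mem hxy hxy'
  have key : ∀ h ∈ B, ((a, b) : G44) * h * ((a, b) : G44)⁻¹ ∈ B := by
    intro h hh
    rcases F1 a x h.1 ha ha1 hx2 hx1 (hsq _ hh).1 with e | e | e | e
    · have : h = 1 := same h hh 1 B.one_mem e
      rw [this]
      have e2 : ((a, b) : G44) * 1 * ((a, b) : G44)⁻¹ = 1 := by group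
      rw [e2]; exact B.one_mem
    · have : h = ((x, y) : G44) := same h hh _ hxy e
      rw [this]
      exact hxy'
    · have : h = ((a * x * a⁻¹, b * y * b⁻¹) : G44) := same h hh _ hxy' e
      rw [this]
      have e2 : ((a, b) : G44) * ((a * x * a⁻¹, b * y * b⁻¹) : G44) * ((a, b) : G44)⁻¹
          = ((x * (a * x * a⁻¹), y * (b * y * b⁻¹)) : G44) := Prod.ext fa4 fb4
      rw [e2]; exact hprod
    · have : h = ((x * (a * x * a⁻¹), y * (b * y * b⁻¹)) : G44) := same h hh _ hprod e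
      rw [this]
      have e2 : ((a, b) : G44) * ((x * (a * x * a⁻¹), y * (b * y * b⁻¹)) : G44) * ((a, b) : G44)⁻¹
          = ((x, y) : G44) := Prod.ext fa5 fb5
      rw [e2]; exact hxy
  have hc3 : ((a, b) : G44) * (a, b) * (a, b) = 1 := by
    apply Prod.ext
    · show a * a * a = 1
      rw [← ha, pow_succ, pow_succ, pow_one]
    · show b * b * b = 1
      rw [← hb, pow_succ, pow_succ, pow_one]
  rw [Subgroup.mem_normalizer_iff]
  intro h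
  constructor
  · exact key h
  · intro hh
    have h2 := key _ (key _ hh)
    have e : ((a, b) : G44) * ((a, b) * ((a, b) * h * ((a, b) : G44)⁻¹) * ((a, b) : G44)⁻¹)
          * ((a, b) : G44)⁻¹
        = ((a, b) * (a, b) * (a, b)) * h * (((a, b) : G44) * (a, b) * (a, b))⁻¹ := by group
    rw [e, hc3] at h2
    simpa using h2

theorem final (Q B : Subgroup G44) (a b : A4) (ha : a ^ 3 = 1) (ha1 : a ≠ 1) (hb : b ^ 3 = 1)
    (hb1 : b ≠ 1) (hQ : ((a, b) : G44) ∈ Q)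
    (hN : ((a, b) : G44) ∈ Subgroup.normalizer (B : Set G44)) :
    ∃ R : Subgroup G44, R ≤ Q ∧ Nat.card R = 3 ∧ R ≠ Q ⊓ Subgroup.prod ⊤ ⊥ ∧
      R ≠ Q ⊓ Subgroup.prod ⊥ ⊤ ∧ R ≤ Subgroup.normalizer (B : Set G44) := by
  refine ⟨Subgroup.zpowers (a, b), Subgroup.zpowers_le.2 hQ, ?_, ?_, ?_, Subgroup.zpowers_le.2 hN⟩
  · rw [Nat.card_zpowers]
    haveI : Fact (Nat.Prime 3) := ⟨by norm_num⟩
    apply orderOf_eq_prime
    · exact Prod.ext ha hb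
    · intro h; exact ha1 (congrArg Prod.fst h)
  · intro h
    have : ((a, b) : G44) ∈ Q ⊓ Subgroup.prod ⊤ ⊥ := by rw [← h]; exact Subgroup.mem_zpowers _
    have h2 : ((a, b) : G44) ∈ Subgroup.prod (⊤ : Subgroup A4) (⊥ : Subgroup A4) := this.2
    rw [Subgroup.mem_prod] at h2
    exact hb1 (Subgroup.mem_bot.1 h2.2)
  · intro h
    have : ((a, b) : G44) ∈ Q ⊓ Subgroup.prod ⊥ ⊤ := by rw [← h]; exact Subgroup.mem_zpowers _
    have h2 : ((a, b) : G44) ∈ Subgroup.prod (⊥ : Subgroup A4) (⊤ : Subgroup A4) := this.2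
    rw [Subgroup.mem_prod] at h2
    exact ha1 (Subgroup.mem_bot.1 h2.1)

/-- In the direct product P = A₄ × A₄, let X be the Sylow 2-subgroup, X₁ and X₂ its intersections with the two direct factors, Q a Sylow 3-subgroup and Q₁, Q₂ its intersections with the two factors. Then every subgroup B of X of order 4 either meets X₁ or X₂ nontrivially, or is normalized by one of the two subgroups of Q of order 3 other than Q₁ and Q₂. -/
theorem result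
    (X : Sylow 2 (↥(alternatingGroup (Fin 4)) × ↥(alternatingGroup (Fin 4))))
    (Q : Sylow 3 (↥(alternatingGroup (Fin 4)) × ↥(alternatingGroup (Fin 4))))
    (B : Subgroup (↥(alternatingGroup (Fin 4)) × ↥(alternatingGroup (Fin 4)))) (hBX : B ≤ (X : Subgroup _)) (hB4 : Nat.card ↥B = 4) :
    B ⊓ ((X : Subgroup _) ⊓ Subgroup.prod ⊤ ⊥) ≠ ⊥ ∨ B ⊓ ((X : Subgroup _) ⊓ Subgroup.prod ⊥ ⊤) ≠ ⊥ ∨
      ∃ R : Subgroup (↥(alternatingGroup (Fin 4)) × ↥(alternatingGroup (Fin 4))), R ≤ (Q : Subgroup _) ∧ Nat.card ↥R = 3 ∧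
        R ≠ (Q : Subgroup _) ⊓ Subgroup.prod ⊤ ⊥ ∧ R ≠ (Q : Subgroup _) ⊓ Subgroup.prod ⊥ ⊤ ∧ R ≤ Subgroup.normalizer (B : Set _) := by
  classical
  by_cases h1 : B ⊓ ((X : Subgroup G44) ⊓ Subgroup.prod ⊤ ⊥) = ⊥
  swap
  · exact Or.inl h1
  by_cases h2 : B ⊓ ((X : Subgroup G44) ⊓ Subgroup.prod ⊥ ⊤) = ⊥
  swap
  · exact Or.inr (Or.inl h2)
  right; right
  have hsq : ∀ h ∈ B, h.1 ^ 2 = 1 ∧ h.2 ^ 2 = 1 := by
    intro h hh
    obtain ⟨k, hk⟩ := X.isPGroup' ⟨h, hBX hh⟩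
    have hk' : h ^ 2 ^ k = 1 := congrArg Subtype.val hk
    have h1' : h.1 ^ 2 ^ k = 1 := congrArg Prod.fst hk'
    have h2' : h.2 ^ 2 ^ k = 1 := congrArg Prod.snd hk'
    exact ⟨pow2_sq k _ h1', pow2_sq k _ h2'⟩
  have hinj1 : ∀ h ∈ B, h.1 = 1 → h.2 = 1 := by
    intro h hh h1'
    have : h ∈ B ⊓ ((X : Subgroup G44) ⊓ Subgroup.prod ⊥ ⊤) := by
      refine ⟨hh, hBX hh, ?_⟩
      show h ∈ Subgroup.prod (⊥ : Subgroup A4) (⊤ : Subgroup A4)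
      rw [Subgroup.mem_prod]
      exact ⟨Subgroup.mem_bot.2 h1', Subgroup.mem_top _⟩
    rw [h2, Subgroup.mem_bot] at this
    rw [this]; rfl
  have hinj2 : ∀ h ∈ B, h.2 = 1 → h.1 = 1 := by
    intro h hh h1'
    have : h ∈ B ⊓ ((X : Subgroup G44) ⊓ Subgroup.prod ⊤ ⊥) := by
      refine ⟨hh, hBX hh, ?_⟩
      show h ∈ Subgroup.prod (⊤ : Subgroup A4) (⊥ : Subgroup A4)
      rw [Subgroup.mem_prod]
      exact ⟨Subgroup.mem_top _, Subgroup.mem_bot.2 h1'⟩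
    rw [h1, Subgroup.mem_bot] at this
    rw [this]; rfl
  let f : B → {u : A4 // u ^ 2 = 1} := fun h => ⟨h.1.1, (hsq h.1 h.2).1⟩
  have hf : Function.Injective f := by
    intro h h' hff
    have e1 : h.1.1 = h'.1.1 := congrArg Subtype.val hff
    have hm : h.1 * h'.1⁻¹ ∈ B := B.mul_mem h.2 (B.inv_mem h'.2)
    have e2 := hinj1 _ hm (by show h.1.1 * (h'.1.1)⁻¹ = 1; rw [e1]; exact mul_inv_cancel _)
    have e3 : h.1.2 * (h'.1.2)⁻¹ = 1 := e2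
    exact Subtype.ext (Prod.ext e1 (mul_inv_eq_one.mp e3))
  have hfb : Function.Bijective f :=
    hf.bijective_of_nat_card_le (by rw [hB4, Nat.card_eq_fintype_card, D2])
  obtain ⟨a₀, ha₀, ha₀1⟩ := D5
  obtain ⟨P₀, hP₀def⟩ : ∃ P₀ : Subgroup G44,
      P₀ = Subgroup.prod (Subgroup.zpowers a₀) (Subgroup.zpowers a₀) := ⟨_, rfl⟩
  have hP₀ : IsPGroup 3 P₀ := by
    intro g
    refine ⟨1, ?_⟩
    have hle : P₀ ≤ Subgroup.prod (Subgroup.zpowers a₀) (Subgroup.zpowers a₀) := le_of_eq hP₀def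
    have hg := hle g.2
    rw [Subgroup.mem_prod] at hg
    apply Subtype.ext
    apply Prod.ext
    · show g.1.1 ^ 3 ^ 1 = 1
      rw [pow_one]; exact zp3 a₀ _ ha₀ hg.1
    · show g.1.2 ^ 3 ^ 1 = 1
      rw [pow_one]; exact zp3 a₀ _ ha₀ hg.2
  obtain ⟨Q₀, hQ₀⟩ := hP₀.exists_le_sylow
  obtain ⟨g, hg⟩ := MulAction.exists_smul_eq G44 Q₀ Q
  have hconj : ∀ s ∈ P₀, g * s * g⁻¹ ∈ (Q : Subgroup G44) := by
    intro s hs
    rw [← hg, Sylow.coe_subgroup_smul, Subgroup.mem_pointwise_smul_iff_inv_smul_mem]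
    have : (MulAut.conj g)⁻¹ • (g * s * g⁻¹) = s := by
      simp [MulAut.smul_def]
      group
    rw [this]; exact hQ₀ hs
  obtain ⟨a, ha_def⟩ : ∃ a : A4, a = g.1 * a₀ * g.1⁻¹ := ⟨_, rfl⟩
  obtain ⟨b, hb_def⟩ : ∃ b : A4, b = g.2 * a₀ * g.2⁻¹ := ⟨_, rfl⟩
  have ha : a ^ 3 = 1 := by rw [ha_def, conj_pow, ha₀]; group
  have hb : b ^ 3 = 1 := by rw [hb_def, conj_pow, ha₀]; group
  have ha1 : a ≠ 1 := by
    intro h; apply ha₀1
    have : a₀ = g.1⁻¹ * a * g.1 := by rw [ha_def]; group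
    rw [this, h]; group
  have hb1 : b ≠ 1 := by
    intro h; apply ha₀1
    have : a₀ = g.2⁻¹ * b * g.2 := by rw [hb_def]; group
    rw [this, h]; group
  have hab : ((a, b) : G44) ∈ (Q : Subgroup G44) := by
    have := hconj (a₀, a₀) (by
      rw [hP₀def, Subgroup.mem_prod]; exact ⟨Subgroup.mem_zpowers _, Subgroup.mem_zpowers _⟩)
    rw [ha_def, hb_def]
    exact this
  have hab' : ((a, b⁻¹) : G44) ∈ (Q : Subgroup G44) := by
    have := hconj (a₀, a₀⁻¹) (by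
      rw [hP₀def, Subgroup.mem_prod]
      exact ⟨Subgroup.mem_zpowers _, inv_mem (Subgroup.mem_zpowers _)⟩)
    have e : g * ((a₀, a₀⁻¹) : G44) * g⁻¹ = ((a, b⁻¹) : G44) := by
      apply Prod.ext
      · show g.1 * a₀ * g.1⁻¹ = a
        rw [ha_def]
      · show g.2 * a₀⁻¹ * g.2⁻¹ = b⁻¹
        rw [hb_def]; group
    rw [e] at this; exact this
  obtain ⟨h0, hh0, hh01⟩ : ∃ h ∈ B, h ≠ 1 := by
    rcases B.bot_or_exists_ne_one with hbot | h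
    · rw [hbot, Subgroup.card_bot] at hB4; omega
    · exact h
  obtain ⟨x, y⟩ := h0
  have hx1 : x ≠ 1 := by
    intro hx
    apply hh01
    have := hinj1 _ hh0 hx
    exact Prod.ext hx this
  have hy1 : y ≠ 1 := by
    intro hy
    exact hx1 (hinj2 _ hh0 hy)
  have hx2 : x ^ 2 = 1 := (hsq _ hh0).1
  have hy2 : y ^ 2 = 1 := (hsq _ hh0).2
  obtain ⟨hF2a1, hF2a2, hF2a3, hF2a4, hF2a5⟩ := F2 a x ha ha1 hx2 hx1
  obtain ⟨⟨h', hh'⟩, hfh'⟩ := hfb.2 ⟨a * x * a⁻¹, hF2a3⟩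
  have hh'1 : h'.1 = a * x * a⁻¹ := congrArg Subtype.val hfh'
  have hy'2 : h'.2 ^ 2 = 1 := (hsq _ hh').2
  have hy'ne : h'.2 ≠ y := by
    intro hy'
    have hm : h' * ((x, y) : G44)⁻¹ ∈ B := B.mul_mem hh' (B.inv_mem hh0)
    have := hinj2 _ hm (by show h'.2 * y⁻¹ = 1; rw [hy']; exact mul_inv_cancel _)
    have e : h'.1 * x⁻¹ = 1 := this
    rw [hh'1] at e
    exact hF2a1 (mul_inv_eq_one.mp e)
  have hy'1 : h'.2 ≠ 1 := by
    intro hy'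
    have := hinj2 _ hh' hy'
    rw [hh'1] at this
    exact hF2a2 this
  rcases F1 b y h'.2 hb hb1 hy2 hy1 hy'2 with e | e | e | e
  · exact absurd e hy'1
  · exact absurd e hy'ne
  · have hmem : ((a * x * a⁻¹, b * y * b⁻¹) : G44) ∈ B := by
      have : h' = ((a * x * a⁻¹, b * y * b⁻¹) : G44) := Prod.ext hh'1 e
      rw [← this]; exact hh'
    have hN := main_case B hsq hinj1 a b ha ha1 hb hb1 x y hx1 hy1 hh0 hmem
    exact final _ B a b ha ha1 hb hb1 hab hN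
  · have e' : h'.2 = b⁻¹ * y * b⁻¹⁻¹ := by
      rw [e]
      have h5 := (F2 b y hb hb1 hy2 hy1).2.2.2.2
      calc y * (b * y * b⁻¹) = b⁻¹ * (b * (y * (b * y * b⁻¹)) * b⁻¹) * b⁻¹⁻¹ := by group
        _ = b⁻¹ * y * b⁻¹⁻¹ := by rw [h5]
    have hmem : ((a * x * a⁻¹, b⁻¹ * y * b⁻¹⁻¹) : G44) ∈ B := by
      have : h' = ((a * x * a⁻¹, b⁻¹ * y * b⁻¹⁻¹) : G44) := Prod.ext hh'1 e'
      rw [← this]; exact hh'
    have hb3 : b⁻¹ ^ 3 = 1 := by rw [inv_pow, hb, inv_one]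
    have hN := main_case B hsq hinj1 a b⁻¹ ha ha1 hb3 (inv_ne_one.mpr hb1) x y hx1 hy1 hh0 hmem
    exact final _ B a b⁻¹ ha ha1 hb3 (inv_ne_one.mpr hb1) hab' hN

end Cfsg.Agent.S4406
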