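import Cfsg.Statements.S4420
import Mathlib

set_option autoImplicit false
open Cfsg

namespace Cfsg.Agent.S4420

/-- Structure of groups in which every element outside some proper subgroup has square 1. Let H be a finite group with a proper subgroup A such that every element outside A has square 1. Then H has an abelian normal subgroup B of index 2 such that every element outside B is an involution inverting every element of B; and if H is not an elementary abelian 2-group, B is the only abelian normal subgroup of index 2 with this property. -/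
theorem result {H : Type*} [Group H] [Finite H] (A : Subgroup H) (hA : A ≠ ⊤) (hD : ∀ x : H, x ∉ A → x ^ 2 = 1) :
    ∃ B : Subgroup H, B.Normal ∧ IsMulCommutative ↥B ∧ B.index = 2 ∧
      (∀ x : H, x ∉ B → x ^ 2 = 1 ∧ ∀ b ∈ B, x * b * x⁻¹ = b⁻¹) ∧
      (¬ (IsMulCommutative H ∧ ∀ x : H, x ^ 2 = 1) →
        ∀ B' : Subgroup H, B'.Normal → IsMulCommutative ↥B' → B'.index = 2 →
          (∀ x : H, x ∉ B' → x ^ 2 = 1 ∧ ∀ b ∈ B', x * b * x⁻¹ = b⁻¹) → B' = B) := by
  have hex : ∃ t : H, t ∉ A := by
    by_contra hcon
    push Not at hcon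
    exact hA (eq_top_iff.mpr (fun x _ => hcon x))
  obtain ⟨t, ht⟩ := hex
  by_cases hexp : ∀ x : H, x ^ 2 = 1
  · -- elementary abelian case
    have hcomm : ∀ a b : H, a * b = b * a := by
      intro a b
      have h1 := hexp (a * b)
      have h2 := hexp a
      have h3 := hexp b
      have ha : a⁻¹ = a := by rw [inv_eq_iff_mul_eq_one, ← sq]; exact h2
      have hb : b⁻¹ = b := by rw [inv_eq_iff_mul_eq_one, ← sq]; exact h3
      have hab : (a * b)⁻¹ = a * b := by rw [inv_eq_iff_mul_eq_one, ← sq]; exact h1
      rw [mul_inv_rev, ha, hb] at hab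
      exact hab.symm
    have hinv : ∀ a : H, a⁻¹ = a := fun a => by rw [inv_eq_iff_mul_eq_one, ← sq]; exact hexp a
    have hpg : IsPGroup 2 H := fun g => ⟨1, by rw [pow_one]; exact hexp g⟩
    obtain ⟨k, hk⟩ := IsPGroup.iff_card.mp hpg
    have hk0 : k ≠ 0 := by
      rintro rfl
      rw [pow_zero] at hk
      have : Subsingleton H := (Nat.card_eq_one_iff_unique.mp hk).1
      exact ht (by rw [Subsingleton.elim t 1]; exact A.one_mem)
    haveI : Fact (Nat.Prime 2) := ⟨Nat.prime_two⟩
    obtain ⟨B, hB⟩ := Sylow.exists_subgroup_card_pow_prime 2 (G := H) (n := k - 1) (by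
      rw [hk]; exact pow_dvd_pow 2 (by omega))
    have hidx : B.index = 2 := by
      have h1 := Subgroup.card_mul_index B
      rw [hB, hk] at h1
      have h2 : (2 : ℕ) ^ k = 2 ^ (k - 1) * 2 := by
        rw [← pow_succ]; congr 1; omega
      rw [h2] at h1
      exact Nat.eq_of_mul_eq_mul_left (by positivity) h1
    refine ⟨B, ⟨fun n hn g => ?_⟩, ⟨⟨fun a b => Subtype.ext (hcomm a b)⟩⟩, hidx, ?_, ?_⟩
    · rw [hcomm g n, mul_inv_cancel_right]; exact hn
    · intro x _
      refine ⟨hexp x, fun b _ => ?_⟩
      rw [hcomm x b, mul_inv_cancel_right, hinv]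
    · intro hne
      exact absurd ⟨⟨⟨hcomm⟩⟩, hexp⟩ hne
  · push Not at hexp
    obtain ⟨c, hc⟩ := hexp
    have hcA : c ∈ A := by
      by_contra h
      exact hc (hD c h)
    have hinvOut : ∀ s : H, s ∉ A → s⁻¹ = s := fun s hs => by
      rw [inv_eq_iff_mul_eq_one, ← sq]; exact hD s hs
    have hinvert : ∀ s : H, s ∉ A → ∀ b ∈ A, s * b * s⁻¹ = b⁻¹ := by
      intro s hs b hb
      have h1 : s * b ∉ A := fun h => hs (by
        have := A.mul_mem h (A.inv_mem hb)
        simpa using this)
      have h2 := hD (s * b) h1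
      rw [hinvOut s hs]
      rw [sq] at h2
      rw [eq_inv_iff_mul_eq_one]
      rw [← h2]; group
    have hprod : ∀ s u : H, s ∉ A → u ∉ A → s * u ∈ A := by
      intro s u hs hu
      by_contra hsu
      have h1 := hinvert (s * u) hsu c hcA
      have h2 : s * u * c * (s * u)⁻¹ = s * (u * c * u⁻¹) * s⁻¹ := by group
      rw [h2, hinvert u hu c hcA, hinvert s hs c⁻¹ (A.inv_mem hcA), inv_inv] at h1
      apply hc
      rw [sq]
      exact eq_inv_iff_mul_eq_one.mp h1
    have hidx : A.index = 2 := by
      rw [Subgroup.index_eq_two_iff]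
      refine ⟨t, fun b => ?_⟩
      by_cases hb : b ∈ A
      · right
        refine ⟨hb, fun h => ht ?_⟩
        have := A.mul_mem (A.inv_mem hb) h
        simpa using this
      · left
        exact ⟨hprod b t hb ht, hb⟩
    have hcommA : ∀ a b : H, a ∈ A → b ∈ A → a * b = b * a := by
      intro a b ha hb
      have h1 := hinvert t ht (a * b) (A.mul_mem ha hb)
      have h2 : t * (a * b) * t⁻¹ = (t * a * t⁻¹) * (t * b * t⁻¹) := by group
      rw [h2, hinvert t ht a ha, hinvert t ht b hb, mul_inv_rev] at h1
      have h3 := congrArg (fun z => z⁻¹) h1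
      simp only [mul_inv_rev, inv_inv] at h3
      exact h3.symm
    refine ⟨A, Subgroup.normal_of_index_eq_two hidx, ⟨⟨fun a b => Subtype.ext (hcommA a b a.2 b.2)⟩⟩, hidx, ?_, ?_⟩
    · intro x hx
      exact ⟨hD x hx, hinvert x hx⟩
    · intro _ B' hB'n hB'c hB'i hB'
      have hcB' : c ∈ B' := by
        by_contra h
        exact hc (hB' c h).1
      have hle : B' ≤ A := by
        intro x hx
        by_contra hxA
        have h1 := hinvert x hxA c hcA
        have h2 : x * c = c * x := by
          have := (isMulCommutative_iff.mp hB'c) ⟨x, hx⟩ ⟨c, hcB'⟩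
          exact congrArg Subtype.val this
        rw [h2, mul_inv_cancel_right] at h1
        apply hc
        rw [sq]
        exact eq_inv_iff_mul_eq_one.mp h1
      -- equal index ⇒ equal
      by_contra hne
      have hlt : B' < A := lt_of_le_of_ne hle hne
      have h1 := Subgroup.relIndex_mul_index hle
      rw [hidx, hB'i] at h1
      have h2 : B'.relIndex A = 1 := by omega
      rw [Subgroup.relIndex_eq_one] at h2
      exact hne (le_antisymm hle h2)

end Cfsg.Agent.S4420
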