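import Cfsg.Statements.S4496
import Mathlib
import Cfsg.Agent.Lib.Helper7.Basic
import Cfsg.Agent.Lib.Helper7.SylowAux
import Cfsg.Agent.S4244

set_option autoImplicit false
open Cfsg

namespace Cfsg.Agent.S4496

open Cfsg.Agent.Lib.Helper7

/-- A nontrivial element of a group of prime order generates it. -/
theorem mem_zpowers_of_ne_one {G : Type*} [Group G] (p : ℕ) (hp : p.Prime) (x : G) (hx : orderOf x = p)
    (z : G) (hz : z ∈ Subgroup.zpowers x) (hz1 : z ≠ 1) : x ∈ Subgroup.zpowers z := by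
  have hle : Subgroup.zpowers z ≤ Subgroup.zpowers x := Subgroup.zpowers_le.mpr hz
  have hfin : Finite (Subgroup.zpowers x) := by
    have : Nat.card (Subgroup.zpowers x) ≠ 0 := by rw [Nat.card_zpowers, hx]; exact hp.ne_zero
    exact Nat.finite_of_card_ne_zero this
  have h1 : orderOf z ∣ p := by
    rw [← hx, ← Nat.card_zpowers x, ← Nat.card_zpowers z]
    exact Subgroup.card_dvd_of_le hle
  have h2 : orderOf z = p := by
    rcases (Nat.dvd_prime hp).mp h1 with h | h
    · exact absurd (orderOf_eq_one_iff.mp h) hz1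
    · exact h
  have h3 : Subgroup.zpowers z = Subgroup.zpowers x := by
    apply Subgroup.eq_of_le_of_card_ge hle
    rw [Nat.card_zpowers, Nat.card_zpowers, h2, hx]
  rw [h3]
  exact Subgroup.mem_zpowers x

/-- A subgroup of order prime to `p` meets `⟨x⟩` trivially. -/
theorem eq_one_of_mem {G : Type*} [Group G] [Finite G] (p : ℕ) (hp : p.Prime) (x : G) (hx : orderOf x = p)
    (S : Subgroup G) (hS : ¬ p ∣ Nat.card S) (y : G) (hy : y ∈ S) (hyx : y ∈ Subgroup.zpowers x) : y = 1 := by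
  by_contra h1
  have h2 := mem_zpowers_of_ne_one p hp x hx y hyx h1
  have h3 : x ∈ S := (Subgroup.zpowers_le.mpr hy) h2
  apply hS
  rw [← hx]
  exact Subgroup.orderOf_dvd_natCard S h3

/-- `⟨x⟩` is a Sylow `p`-subgroup. -/
theorem exists_sylow {G : Type*} [Group G] [Finite G] (p : ℕ) [Fact p.Prime] (x : G) (hx : orderOf x = p)
    (hC : Subgroup.centralizer ({x} : Set G) = Subgroup.zpowers x) :
    ∃ P : Sylow p G, (P : Subgroup G) = Subgroup.zpowers x := by
  have hp : p.Prime := Fact.out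
  have hpg : IsPGroup p (Subgroup.zpowers x) := by
    apply IsPGroup.of_card (n := 1)
    rw [Nat.card_zpowers, hx, pow_one]
  refine ⟨⟨Subgroup.zpowers x, hpg, ?_⟩, rfl⟩
  intro Q hQ hle
  apply le_antisymm _ hle
  rw [← hC]
  have hxQ : x ∈ Q := hle (Subgroup.mem_zpowers x)
  haveI : Nontrivial Q := by
    refine ⟨⟨⟨x, hxQ⟩, 1, ?_⟩⟩
    intro h
    have h1 : x = 1 := congrArg Subtype.val h
    rw [h1, orderOf_one] at hx
    exact hp.one_lt.ne hx
  haveI := hQ.center_nontrivial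
  obtain ⟨⟨z, hz⟩, hz1⟩ := exists_ne (1 : Subgroup.center Q)
  have hz1' : (z : G) ≠ 1 := by
    intro h
    apply hz1
    apply Subtype.ext
    apply Subtype.ext
    exact h
  have hzx : (z : G) ∈ Subgroup.zpowers x := by
    rw [← hC, Subgroup.mem_centralizer_singleton_iff]
    have := Subgroup.mem_center_iff.mp hz ⟨x, hxQ⟩
    have h2 := congrArg Subtype.val this
    simpa using h2.symm
  have hxz := mem_zpowers_of_ne_one p hp x hx z hzx hz1'
  obtain ⟨i, hi⟩ := Subgroup.mem_zpowers_iff.mp hxz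
  intro q hq
  rw [Subgroup.mem_centralizer_singleton_iff]
  have h3 : (⟨q, hq⟩ : Q) * z = z * ⟨q, hq⟩ := Subgroup.mem_center_iff.mp hz ⟨q, hq⟩
  have h4 : q * (z : G) = (z : G) * q := congrArg Subtype.val h3
  have h5 : Commute q (z : G) := h4
  rw [← hi]
  exact (h5.zpow_right i)

/-- Conjugation of an integer power. -/
theorem conj_zpow' {G : Type*} [Group G] (n y : G) (i : ℤ) : n⁻¹ * y ^ i * n = (n⁻¹ * y * n) ^ i := by
  have := map_zpow (MulAut.conj n⁻¹) y i
  simpa [MulAut.conj_apply] using this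

/-- Commutators of elements normalizing `⟨x⟩` centralize `x`. -/
theorem comm_mem_centralizer {G : Type*} [Group G] (x n₁ n₂ : G)
    (h1 : n₁⁻¹ * x * n₁ ∈ Subgroup.zpowers x) (h2 : n₂⁻¹ * x * n₂ ∈ Subgroup.zpowers x) :
    n₂ * n₁ * n₂⁻¹ * n₁⁻¹ ∈ Subgroup.centralizer ({x} : Set G) := by
  obtain ⟨a, ha⟩ := Subgroup.mem_zpowers_iff.mp h1
  obtain ⟨b, hb⟩ := Subgroup.mem_zpowers_iff.mp h2
  have e1 : (n₁ * n₂)⁻¹ * x * (n₁ * n₂) = x ^ (b * a) := by
    have : (n₁ * n₂)⁻¹ * x * (n₁ * n₂) = n₂⁻¹ * (n₁⁻¹ * x * n₁) * n₂ := by group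
    rw [this, ← ha, conj_zpow', ← hb, ← zpow_mul]
  have e2 : (n₂ * n₁)⁻¹ * x * (n₂ * n₁) = x ^ (a * b) := by
    have : (n₂ * n₁)⁻¹ * x * (n₂ * n₁) = n₁⁻¹ * (n₂⁻¹ * x * n₂) * n₁ := by group
    rw [this, ← hb, conj_zpow', ← ha, ← zpow_mul]
  rw [Subgroup.mem_centralizer_singleton_iff]
  have e3 : (n₁ * n₂)⁻¹ * x * (n₁ * n₂) = (n₂ * n₁)⁻¹ * x * (n₂ * n₁) := by
    rw [e1, e2, mul_comm]
  calc n₂ * n₁ * n₂⁻¹ * n₁⁻¹ * x = (n₂ * n₁) * ((n₁ * n₂)⁻¹ * x * (n₁ * n₂)) * (n₁ * n₂)⁻¹ := by group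
    _ = (n₂ * n₁) * ((n₂ * n₁)⁻¹ * x * (n₂ * n₁)) * (n₁ * n₂)⁻¹ := by rw [e3]
    _ = x * (n₂ * n₁ * n₂⁻¹ * n₁⁻¹) := by group

/-- Part (a). -/
theorem part_a {G : Type*} [Group G] [Finite G] (p : ℕ) [Fact p.Prime] (x : G) (hx : orderOf x = p)
    (hC : Subgroup.centralizer ({x} : Set G) = Subgroup.zpowers x) (S : Subgroup G) [S.Normal]
    (hdvd : p ∣ Nat.card S) : commutator G ≤ S := by
  have hp : p.Prime := Fact.out
  obtain ⟨P, hP⟩ := exists_sylow p x hx hC
  -- x ∈ S
  obtain ⟨y, hy⟩ := exists_prime_orderOf_dvd_card' p hdvd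
  have hy' : orderOf (y : G) = p := by rw [Subgroup.orderOf_coe]; exact hy
  obtain ⟨Q, hQ⟩ := exists_mem_sylow_of_orderOf (p := p) (y : G) ⟨1, by rw [hy', pow_one]⟩
  obtain ⟨g, hg⟩ := MulAction.exists_smul_eq G P Q
  have h1 : g⁻¹ * (y : G) * g ∈ (P : Subgroup G) := by
    rw [← hg] at hQ
    exact (mem_sylow_smul_iff g y P).mp hQ
  rw [hP] at h1
  have h2 : g⁻¹ * (y : G) * g ≠ 1 := by
    intro h
    have h3 : (y : G) = 1 := by
      have : (y : G) = g * (g⁻¹ * (y : G) * g) * g⁻¹ := by group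
      rw [this, h]; group
    rw [h3, orderOf_one] at hy'
    exact hp.one_lt.ne hy'
  have h3 : g⁻¹ * (y : G) * g ∈ S := by
    have := Subgroup.Normal.conj_mem (inferInstance : S.Normal) _ y.2 g⁻¹
    simpa using this
  have hxS : x ∈ S := (Subgroup.zpowers_le.mpr h3) (mem_zpowers_of_ne_one p hp x hx _ h1 h2)
  have hPS : (P : Subgroup G) ≤ S := by rw [hP]; exact Subgroup.zpowers_le.mpr hxS
  have hfr : Subgroup.normalizer ((Subgroup.zpowers x : Subgroup G) : Set G) ⊔ S = ⊤ := by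
    rw [← hP]
    exact Sylow.normalizer_sup_eq_top' P hPS
  -- commutators of normalizer elements lie in S
  have hnorm : ∀ n ∈ Subgroup.normalizer ((Subgroup.zpowers x : Subgroup G) : Set G), n⁻¹ * x * n ∈ Subgroup.zpowers x := by
    intro n hn
    have := (Subgroup.mem_normalizer_iff''.mp hn x).mp (Subgroup.mem_zpowers x)
    exact this
  have hcomm : ∀ n₁ ∈ Subgroup.normalizer ((Subgroup.zpowers x : Subgroup G) : Set G),
      ∀ n₂ ∈ Subgroup.normalizer ((Subgroup.zpowers x : Subgroup G) : Set G), n₂ * n₁ * n₂⁻¹ * n₁⁻¹ ∈ S := by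
    intro n₁ hn₁ n₂ hn₂
    have := comm_mem_centralizer x n₁ n₂ (hnorm n₁ hn₁) (hnorm n₂ hn₂)
    rw [hC] at this
    exact (Subgroup.zpowers_le.mpr hxS) this
  have hdec : ∀ g : G, ∃ n ∈ Subgroup.normalizer ((Subgroup.zpowers x : Subgroup G) : Set G), ∃ s ∈ S, g = n * s := by
    intro g
    have hg : g ∈ ((Subgroup.normalizer ((Subgroup.zpowers x : Subgroup G) : Set G) ⊔ S : Subgroup G) : Set G) := by
      rw [hfr]; trivial
    rw [Subgroup.mul_normal] at hg
    obtain ⟨n, hn, s, hs, e⟩ := Set.mem_mul.mp hg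
    exact ⟨n, hn, s, hs, e.symm⟩
  rw [commutator_def, Subgroup.commutator_le]
  intro g₁ _ g₂ _
  obtain ⟨n₁, hn₁, s₁, hs₁, rfl⟩ := hdec g₁
  obtain ⟨n₂, hn₂, s₂, hs₂, rfl⟩ := hdec g₂
  rw [← QuotientGroup.eq_one_iff]
  have e1 : ((s₁ : G) : G ⧸ S) = 1 := (QuotientGroup.eq_one_iff _).mpr hs₁
  have e2 : ((s₂ : G) : G ⧸ S) = 1 := (QuotientGroup.eq_one_iff _).mpr hs₂
  have e3 : ((n₁ * n₂ * n₁⁻¹ * n₂⁻¹ : G) : G ⧸ S) = 1 := (QuotientGroup.eq_one_iff _).mpr (hcomm n₂ hn₂ n₁ hn₁)
  rw [commutatorElement_def]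
  simp only [QuotientGroup.mk_mul, QuotientGroup.mk_inv, e1, e2, mul_one] at e3 ⊢
  exact e3

/-- Part (b), the numerical statements. -/
theorem part_b1 {G : Type*} [Group G] [Finite G] (p : ℕ) [Fact p.Prime] (x : G) (hx : orderOf x = p)
    (hC : Subgroup.centralizer ({x} : Set G) = Subgroup.zpowers x) (S : Subgroup G) [S.Normal]
    (hS : ¬ p ∣ Nat.card S) : Nat.card S ∣ Nat.card {H : Subgroup G // Nat.card H = p} := by
  have hp : p.Prime := Fact.out
  obtain ⟨P, hP⟩ := exists_sylow p x hx hC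
  have hPcard : Nat.card (P : Subgroup G) = p := by rw [hP, Nat.card_zpowers, hx]
  have hcardQ : ∀ Q : Sylow p G, Nat.card (Q : Subgroup G) = p := by
    intro Q
    rw [Sylow.card_eq_multiplicity, ← Sylow.card_eq_multiplicity P]
    exact hPcard
  -- bijection
  have hX : Nat.card {H : Subgroup G // Nat.card H = p} = Nat.card (Sylow p G) := by
    symm
    apply Nat.card_eq_of_bijective (fun Q : Sylow p G => (⟨(Q : Subgroup G), hcardQ Q⟩ : {H : Subgroup G // Nat.card H = p}))
    constructor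
    · intro Q Q' h
      apply Sylow.ext
      exact congrArg Subtype.val h
    · rintro ⟨H, hH⟩
      have hpg : IsPGroup p H := IsPGroup.of_card (n := 1) (by rw [hH, pow_one])
      obtain ⟨Q, hQ⟩ := hpg.exists_le_sylow
      refine ⟨Q, ?_⟩
      apply Subtype.ext
      symm
      apply Subgroup.eq_of_le_of_card_ge hQ
      rw [hH]
      exact (hcardQ Q).le
  have hidx : Nat.card (Sylow p G) = (Subgroup.normalizer ((Subgroup.zpowers x : Subgroup G) : Set G)).index := by
    rw [← hP]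
    exact Sylow.card_eq_index_normalizer P
  rw [hX, hidx]
  -- S ∩ N(⟨x⟩) = 1
  have hdisj : Disjoint (Subgroup.normalizer ((Subgroup.zpowers x : Subgroup G) : Set G)) S := by
    rw [Subgroup.disjoint_def]
    intro s hsN hsS
    have h1 : s * x * s⁻¹ ∈ Subgroup.zpowers x :=
      (Subgroup.mem_normalizer_iff.mp hsN x).mp (Subgroup.mem_zpowers x)
    have h2 : s * x * s⁻¹ * x⁻¹ ∈ Subgroup.zpowers x :=
      Subgroup.mul_mem _ h1 (Subgroup.inv_mem _ (Subgroup.mem_zpowers x))
    have h3 : s * x * s⁻¹ * x⁻¹ ∈ S := by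
      have h4 : x * s⁻¹ * x⁻¹ ∈ S := Subgroup.Normal.conj_mem inferInstance _ (S.inv_mem hsS) x
      have h5 := S.mul_mem hsS h4
      have h6 : s * (x * s⁻¹ * x⁻¹) = s * x * s⁻¹ * x⁻¹ := by group
      rw [h6] at h5
      exact h5
    have h7 := eq_one_of_mem p hp x hx S hS _ h3 h2
    have h8 : s ∈ Subgroup.centralizer ({x} : Set G) := by
      rw [Subgroup.mem_centralizer_singleton_iff]
      have h9 : s * x * s⁻¹ = x := by
        have := mul_inv_eq_one.mp h7
        exact this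
      calc s * x = s * x * s⁻¹ * s := by group
        _ = x * s := by rw [h9]
    rw [hC] at h8
    exact eq_one_of_mem p hp x hx S hS s hsS h8
  have h1 : (Subgroup.normalizer ((Subgroup.zpowers x : Subgroup G) : Set G)).relIndex S = Nat.card S := by
    rw [Subgroup.relIndex, Subgroup.subgroupOf_eq_bot.mpr hdisj, Subgroup.index_bot]
  rw [← h1]
  exact Cfsg.Agent.S4244.relIndex_normal_dvd_index S _

theorem part_b2 {G : Type*} [Group G] [Finite G] (p : ℕ) [Fact p.Prime] (x : G) (hx : orderOf x = p)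
    (hC : Subgroup.centralizer ({x} : Set G) = Subgroup.zpowers x) (S : Subgroup G) [S.Normal]
    (hS : ¬ p ∣ Nat.card S) : Nat.card S % p = 1 := by
  have hp : p.Prime := Fact.out
  have hpg : IsPGroup p (Subgroup.zpowers x) := by
    apply IsPGroup.of_card (n := 1)
    rw [Nat.card_zpowers, hx, pow_one]
  letI : MulAction (Subgroup.zpowers x) S :=
    MulAction.compHom S ((MulAut.conjNormal (H := S)).comp (Subgroup.zpowers x).subtype)
  have hsmul : ∀ (g : Subgroup.zpowers x) (m : S), ((g • m : S) : G) = (g : G) * (m : G) * (g : G)⁻¹ := by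
    intro g m
    rfl
  have hmod := hpg.card_modEq_card_fixedPoints S
  have hfix : MulAction.fixedPoints (Subgroup.zpowers x) S = {1} := by
    ext s
    rw [Set.mem_singleton_iff]
    constructor
    · intro hs
      have h1 := hs ⟨x, Subgroup.mem_zpowers x⟩
      have h2 := congrArg Subtype.val h1
      rw [hsmul] at h2
      have h3 : x * (s : G) * x⁻¹ = (s : G) := h2
      have h4 : (s : G) ∈ Subgroup.centralizer ({x} : Set G) := by
        rw [Subgroup.mem_centralizer_singleton_iff]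
        calc (s : G) * x = x * (s : G) * x⁻¹ * x := by rw [h3]
          _ = x * (s : G) := by group
      rw [hC] at h4
      apply Subtype.ext
      exact eq_one_of_mem p hp x hx S hS s s.2 h4
    · rintro rfl
      intro g
      apply Subtype.ext
      rw [hsmul]
      simp
  rw [hfix] at hmod
  have h5 : Nat.card (({1} : Set S)) = 1 := by simp
  rw [h5] at hmod
  have h6 : Nat.card S % p = 1 % p := hmod
  rw [h6]
  exact Nat.mod_eq_of_lt hp.one_lt

/-- Let the finite group G contain an element x of prime order p with C_G(x) = ⟨x⟩. Then: (a) every normal subgroup of order divisible by p contains the commutator subgroup; (b) every normal subgroup S of order prime to p has order dividing the number of subgroups of order p of G and congruent to 1 modulo p, and in G/S the image of x again has prime order p and commutes only with its own powers. -/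
theorem result {G : Type*} [Group G] [Finite G] (p : ℕ) (hp : p.Prime) (x : G) (hx : orderOf x = p) (hC : Subgroup.centralizer ({x} : Set G) = Subgroup.zpowers x) (S : Subgroup G) [S.Normal] : (p ∣ Nat.card S → commutator G ≤ S) ∧ (¬ p ∣ Nat.card S → Nat.card S ∣ Nat.card {H : Subgroup G // Nat.card H = p} ∧ Nat.card S % p = 1 ∧ orderOf (QuotientGroup.mk x : G ⧸ S) = p ∧ Subgroup.centralizer ({(QuotientGroup.mk x : G ⧸ S)} : Set (G ⧸ S)) = Subgroup.zpowers (QuotientGroup.mk x : G ⧸ S)) := by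
  haveI := Fact.mk hp
  refine ⟨part_a p x hx hC S, fun hS => ⟨part_b1 p x hx hC S hS, part_b2 p x hx hC S hS, ?_, ?_⟩⟩
  · apply orderOf_eq_prime
    · rw [← QuotientGroup.mk_pow, ← hx, pow_orderOf_eq_one]
      rfl
    · intro h
      have h1 : x ∈ S := (QuotientGroup.eq_one_iff x).mp h
      have h2 := eq_one_of_mem p hp x hx S hS x h1 (Subgroup.mem_zpowers x)
      rw [h2, orderOf_one] at hx
      exact hp.one_lt.ne hx
  · apply le_antisymm
    · intro gbar hg
      obtain ⟨g, rfl⟩ := QuotientGroup.mk_surjective gbar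
      rw [Subgroup.mem_centralizer_singleton_iff] at hg
      have h1 : g * x * g⁻¹ * x⁻¹ ∈ S := by
        rw [← QuotientGroup.eq_one_iff]
        simp only [QuotientGroup.mk_mul, QuotientGroup.mk_inv]
        rw [hg]
        group
      -- the map s ↦ s x s⁻¹ x⁻¹ on S
      have hmap : ∀ s : S, (s : G) * x * (s : G)⁻¹ * x⁻¹ ∈ S := by
        intro s
        have h4 : x * (s : G)⁻¹ * x⁻¹ ∈ S := Subgroup.Normal.conj_mem inferInstance _ (S.inv_mem s.2) x
        have h5 := S.mul_mem s.2 h4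
        have h6 : (s : G) * (x * (s : G)⁻¹ * x⁻¹) = (s : G) * x * (s : G)⁻¹ * x⁻¹ := by group
        rw [h6] at h5
        exact h5
      let φ : S → S := fun s => ⟨(s : G) * x * (s : G)⁻¹ * x⁻¹, hmap s⟩
      have hinj : Function.Injective φ := by
        intro s s' hss
        have e1 : (s : G) * x * (s : G)⁻¹ * x⁻¹ = (s' : G) * x * (s' : G)⁻¹ * x⁻¹ := congrArg Subtype.val hss
        have e2 : (s : G) * x * (s : G)⁻¹ = (s' : G) * x * (s' : G)⁻¹ := mul_right_cancel e1
        have e3 : (s' : G)⁻¹ * (s : G) ∈ Subgroup.centralizer ({x} : Set G) := by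
          rw [Subgroup.mem_centralizer_singleton_iff]
          calc (s' : G)⁻¹ * (s : G) * x = (s' : G)⁻¹ * ((s : G) * x * (s : G)⁻¹) * (s : G) := by group
            _ = (s' : G)⁻¹ * ((s' : G) * x * (s' : G)⁻¹) * (s : G) := by rw [e2]
            _ = x * ((s' : G)⁻¹ * (s : G)) := by group
        rw [hC] at e3
        have e4 := eq_one_of_mem p hp x hx S hS _ (S.mul_mem (S.inv_mem s'.2) s.2) e3
        apply Subtype.ext
        have e5 : (s : G) = (s' : G) * ((s' : G)⁻¹ * (s : G)) := by group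
        rw [e5, e4, mul_one]
      have hsurj : Function.Surjective φ := Finite.injective_iff_surjective.mp hinj
      obtain ⟨s, hs⟩ := hsurj ⟨_, h1⟩
      have e1 : (s : G) * x * (s : G)⁻¹ * x⁻¹ = g * x * g⁻¹ * x⁻¹ := congrArg Subtype.val hs
      have e2 : (s : G) * x * (s : G)⁻¹ = g * x * g⁻¹ := mul_right_cancel e1
      have e3 : (s : G)⁻¹ * g ∈ Subgroup.centralizer ({x} : Set G) := by
        rw [Subgroup.mem_centralizer_singleton_iff]
        calc (s : G)⁻¹ * g * x = (s : G)⁻¹ * (g * x * g⁻¹) * g := by group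
          _ = (s : G)⁻¹ * ((s : G) * x * (s : G)⁻¹) * g := by rw [e2]
          _ = x * ((s : G)⁻¹ * g) := by group
      rw [hC] at e3
      obtain ⟨i, hi⟩ := Subgroup.mem_zpowers_iff.mp e3
      rw [Subgroup.mem_zpowers_iff]
      refine ⟨i, ?_⟩
      have e4 : g = (s : G) * x ^ i := by rw [hi]; group
      rw [e4, QuotientGroup.mk_mul, QuotientGroup.mk_zpow, (QuotientGroup.eq_one_iff _).mpr s.2, one_mul]
    · rw [Subgroup.zpowers_le, Subgroup.mem_centralizer_singleton_iff]

end Cfsg.Agent.S4496
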