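import Mathlib
import Cfsg.Prelude.Def_Solvable
import Cfsg.Agent.Lib.Helper7.SelfCent
import Cfsg.Agent.Lib.Helper3.PPrimeCore
import Cfsg.Agent.Lib.Helper2.PComp
import Cfsg.Agent.S4495
import Cfsg.Agent.S4496

set_option autoImplicit false

namespace Cfsg.Agent.S4497

open Cfsg.Agent.Lib.Helper7

/-- A normal subgroup meeting `⟨x⟩` trivially consists of commutators. -/
theorem le_commutator_of_disjoint {G : Type*} [Group G] [Finite G] (p : ℕ) (hp : p.Prime) (x : G)
    (hx : orderOf x = p) (hC : Subgroup.centralizer ({x} : Set G) = Subgroup.zpowers x)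
    (K : Subgroup G) [hKn : K.Normal]
    (hdisj : ∀ g, g ∈ K → g ∈ Subgroup.zpowers x → g = 1) : K ≤ commutator G := by
  have hx1 : x ≠ 1 := by
    intro h; rw [h, orderOf_one] at hx; exact hp.one_lt.ne' hx.symm
  let ψ : K → K := fun k => ⟨(k : G) * x * (k : G)⁻¹ * x⁻¹, by
    have : (k : G) * x * (k : G)⁻¹ * x⁻¹ = (k : G) * (x * (k : G)⁻¹ * x⁻¹) := by group
    rw [this]
    exact mul_mem k.2 (hKn.conj_mem _ (inv_mem k.2) x)⟩
  have hψ : Function.Injective ψ := by
    intro k k' h
    have h1 : (k : G) * x * (k : G)⁻¹ * x⁻¹ = (k' : G) * x * (k' : G)⁻¹ * x⁻¹ :=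
      congrArg Subtype.val h
    have h2 : ((k' : G)⁻¹ * (k : G)) * x = x * ((k' : G)⁻¹ * (k : G)) := by
      have h3 : (k : G) * x * (k : G)⁻¹ = (k' : G) * x * (k' : G)⁻¹ := mul_right_cancel h1
      calc ((k' : G)⁻¹ * (k : G)) * x = (k' : G)⁻¹ * ((k : G) * x * (k : G)⁻¹) * (k : G) := by
            group
        _ = (k' : G)⁻¹ * ((k' : G) * x * (k' : G)⁻¹) * (k : G) := by rw [h3]
        _ = x * ((k' : G)⁻¹ * (k : G)) := by group
    have h4 := selfCent_mem hp hx hC (Subgroup.mem_zpowers x) hx1 h2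
    have h5 := hdisj _ (mul_mem (inv_mem k'.2) k.2) h4
    apply Subtype.ext
    exact (inv_mul_eq_one.mp h5).symm
  have hψs : Function.Surjective ψ := Finite.surjective_of_injective hψ
  intro k hk
  obtain ⟨k', hk'⟩ := hψs ⟨k, hk⟩
  have h6 : (k' : G) * x * (k' : G)⁻¹ * x⁻¹ = k := congrArg Subtype.val hk'
  rw [← h6, commutator_def]
  exact Subgroup.commutator_mem_commutator (Subgroup.mem_top _) (Subgroup.mem_top x)

/-- If `t ≠ p - 1` then `x ∈ G'` and `G = G' N(⟨x⟩)`. -/
theorem mem_commutator_of_ne {G : Type*} [Group G] [Finite G] (p : ℕ) (hp : p.Prime) (x : G)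
    (hx : orderOf x = p) (hC : Subgroup.centralizer ({x} : Set G) = Subgroup.zpowers x)
    (hne : Nat.card {C : ConjClasses G // ∃ g ∈ C.carrier, orderOf g = p} ≠ p - 1) :
    x ∈ commutator G ∧
      commutator G ⊔ Subgroup.normalizer ((Subgroup.zpowers x : Subgroup G) : Set G) = ⊤ := by
  classical
  haveI := Fact.mk hp
  obtain ⟨P, hP⟩ := selfCent_sylow hp x hx hC
  have hcount := selfCent_count hp x hx hC
  set N : Subgroup G := Subgroup.normalizer ((Subgroup.zpowers x : Subgroup G) : Set G) with hN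
  have he1 : (Subgroup.zpowers x).relIndex N ≠ 1 := by
    intro h; rw [h, mul_one] at hcount; exact hne hcount
  have hNP : ¬ N ≤ Subgroup.zpowers x := fun h => he1 (Subgroup.relIndex_eq_one.mpr h)
  obtain ⟨n, hnN, hnP⟩ := SetLike.not_le_iff_exists.mp hNP
  have hc : n * x * n⁻¹ * x⁻¹ ∈ Subgroup.zpowers x :=
    mul_mem ((Subgroup.mem_normalizer_iff.mp hnN x).mp (Subgroup.mem_zpowers x))
      (inv_mem (Subgroup.mem_zpowers x))
  have hc1 : n * x * n⁻¹ * x⁻¹ ≠ 1 := by
    intro h
    apply hnP
    rw [← hC, Subgroup.mem_centralizer_iff]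
    intro g hg
    rw [Set.mem_singleton_iff.mp hg]
    have h2 : n * x * n⁻¹ = x := by rw [← mul_inv_eq_one]; exact h
    calc x * n = n * x * n⁻¹ * n := by rw [h2]
      _ = n * x := by group
  have hcG : n * x * n⁻¹ * x⁻¹ ∈ commutator G := by
    rw [commutator_def]
    exact Subgroup.commutator_mem_commutator (Subgroup.mem_top n) (Subgroup.mem_top x)
  have hxG : x ∈ commutator G := by
    obtain ⟨k, hk⟩ := Subgroup.mem_zpowers_iff.mp
      (mem_zpowers_of_mem_zpowers_prime hp hx hc hc1)
    rw [← hk]; exact zpow_mem hcG k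
  have hPG : (P : Subgroup G) ≤ commutator G := by rw [hP, Subgroup.zpowers_le]; exact hxG
  have hfr0 := Sylow.normalizer_sup_eq_top' P hPG
  have hfr : N ⊔ commutator G = ⊤ := by rw [hN, ← hP]; exact hfr0
  exact ⟨hxG, by rw [sup_comm]; exact hfr⟩

/-- Let the finite group G contain an element x of prime order p with C_G(x) = ⟨x⟩, let t be the number of conjugacy classes of elements of order p, and let S* = O_{p′}(G) be the largest normal subgroup of order prime to p. Then S* ≤ G′; if t ≠ p − 1 the quotient G′/S* is simple (in particular non-trivial); if t = p − 1 then G′ = S*. -/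
theorem result {G : Type*} [Group G] [Finite G] (p : ℕ) (hp : p.Prime) (x : G) (hx : orderOf x = p) (hC : Subgroup.centralizer ({x} : Set G) = Subgroup.zpowers x) (t : ℕ) (ht : Nat.card {C : ConjClasses G // ∃ g ∈ C.carrier, orderOf g = p} = t) : Cfsg.pPrimeCore p G ≤ commutator G ∧ (t ≠ p - 1 → ∀ h : ((Cfsg.pPrimeCore p G).subgroupOf (commutator G)).Normal, IsSimpleGroup (↥(commutator G) ⧸ (Cfsg.pPrimeCore p G).subgroupOf (commutator G))) ∧ (t = p - 1 → commutator G = Cfsg.pPrimeCore p G) := by
  classical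
  haveI := Fact.mk hp
  obtain ⟨P, hP⟩ := selfCent_sylow hp x hx hC
  have hx1 : x ≠ 1 := by
    intro h; rw [h, orderOf_one] at hx; exact hp.one_lt.ne' hx.symm
  haveI hSn : (Cfsg.pPrimeCore p G).Normal := Cfsg.Agent.Lib.Helper3.pPrimeCore_normal p G
  have hScop : (Nat.card (Cfsg.pPrimeCore p G)).Coprime p :=
    Cfsg.Agent.Lib.Helper3.pPrimeCore_coprime hp G
  have hSnd : ¬ p ∣ Nat.card (Cfsg.pPrimeCore p G) := fun h =>
    (Nat.Prime.coprime_iff_not_dvd hp).mp (Nat.Coprime.symm hScop) h
  have hSdisj : ∀ g, g ∈ Cfsg.pPrimeCore p G → g ∈ Subgroup.zpowers x → g = 1 :=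
    fun g hg hgx => Cfsg.Agent.S4496.eq_one_of_mem p hp x hx _ hSnd g hg hgx
  have hSG : Cfsg.pPrimeCore p G ≤ commutator G :=
    le_commutator_of_disjoint p hp x hx hC _ hSdisj
  refine ⟨hSG, ?_, ?_⟩
  · intro hne hnorm
    rw [← ht] at hne
    obtain ⟨hxG, hsup⟩ := mem_commutator_of_ne p hp x hx hC hne
    set N : Subgroup G := Subgroup.normalizer ((Subgroup.zpowers x : Subgroup G) : Set G) with hN
    have hdecomp : ∀ h : G, ∃ c ∈ commutator G, ∃ n ∈ N, c * n = h := by
      intro h
      have : h ∈ commutator G ⊔ N := by rw [hsup]; trivial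
      exact Subgroup.mem_sup_of_normal_left.mp this
    have hnorm' : ∀ n ∈ N, ∀ y ∈ Subgroup.zpowers x, n * y * n⁻¹ ∈ Subgroup.zpowers x :=
      fun n hn y hy => (Subgroup.mem_normalizer_iff.mp hn y).mp hy
    have key : ∀ M₀ : Subgroup (commutator G), M₀.Normal → p ∣ Nat.card M₀ → M₀ = ⊤ := by
      intro M₀ hM₀ hdiv
      obtain ⟨y0, hy0⟩ := exists_prime_orderOf_dvd_card' p hdiv
      set M : Subgroup G := M₀.map (commutator G).subtype with hM
      have hMle : M ≤ commutator G := Subgroup.map_subtype_le _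
      have hMconj : ∀ c ∈ commutator G, ∀ m ∈ M, c * m * c⁻¹ ∈ M := by
        intro c hc m hm
        obtain ⟨m0, hm0, rfl⟩ := hm
        exact ⟨⟨c, hc⟩ * m0 * ⟨c, hc⟩⁻¹, hM₀.conj_mem m0 hm0 ⟨c, hc⟩, rfl⟩
      have hyM : ((y0 : commutator G) : G) ∈ M := ⟨(y0 : commutator G), y0.2, rfl⟩
      have hyo : orderOf ((y0 : commutator G) : G) = p := by
        rw [Subgroup.orderOf_coe, Subgroup.orderOf_coe]; exact hy0
      obtain ⟨Q, hQ⟩ := exists_mem_sylow_of_orderOf (p := p) ((y0 : commutator G) : G)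
        ⟨1, by rw [hyo, pow_one]⟩
      obtain ⟨g, hg⟩ := MulAction.exists_smul_eq G P Q
      have hw : g⁻¹ * ((y0 : commutator G) : G) * g ∈ Subgroup.zpowers x := by
        rw [← hP]
        have : ((y0 : commutator G) : G) ∈ g • P := by rw [hg]; exact hQ
        rw [mem_sylow_smul_iff] at this
        exact this
      have hw1 : g⁻¹ * ((y0 : commutator G) : G) * g ≠ 1 := by
        intro h
        have h2 : orderOf (g⁻¹ * ((y0 : commutator G) : G) * g) = p := by
          have := orderOf_conj_eq g⁻¹ ((y0 : commutator G) : G)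
          rw [inv_inv] at this
          rw [this, hyo]
        rw [h, orderOf_one] at h2
        exact hp.one_lt.ne' h2.symm
      obtain ⟨c, hc, n, hn, hcn⟩ := hdecomp g
      -- n w n⁻¹ ∈ M ∩ ⟨x⟩
      have h1 : n * (g⁻¹ * ((y0 : commutator G) : G) * g) * n⁻¹ ∈ M := by
        have : n * (g⁻¹ * ((y0 : commutator G) : G) * g) * n⁻¹ =
            c⁻¹ * ((y0 : commutator G) : G) * c⁻¹⁻¹ := by
          rw [← hcn]; group
        rw [this]
        exact hMconj _ (inv_mem hc) _ hyM
      have h2 : n * (g⁻¹ * ((y0 : commutator G) : G) * g) * n⁻¹ ∈ Subgroup.zpowers x :=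
        hnorm' n hn _ hw
      have h3 : n * (g⁻¹ * ((y0 : commutator G) : G) * g) * n⁻¹ ≠ 1 := by
        intro h
        apply hw1
        have : g⁻¹ * ((y0 : commutator G) : G) * g =
            n⁻¹ * (n * (g⁻¹ * ((y0 : commutator G) : G) * g) * n⁻¹) * n := by group
        rw [this, h]; group
      have hxM : x ∈ M := by
        obtain ⟨k, hk⟩ := Subgroup.mem_zpowers_iff.mp
          (mem_zpowers_of_mem_zpowers_prime hp hx h2 h3)
        rw [← hk]; exact zpow_mem h1 k
      have hPM : Subgroup.zpowers x ≤ M := Subgroup.zpowers_le.mpr hxM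
      have hxcore : x ∈ M.normalCore := by
        intro h
        obtain ⟨c', hc', n', hn', hcn'⟩ := hdecomp h
        have : h * x * h⁻¹ = c' * (n' * x * n'⁻¹) * c'⁻¹ := by rw [← hcn']; group
        rw [this]
        exact hMconj _ hc' _ (hPM (hnorm' n' hn' x (Subgroup.mem_zpowers x)))
      have hdivL : p ∣ Nat.card M.normalCore := by
        rw [← hx]; exact Subgroup.orderOf_dvd_natCard _ hxcore
      have hGL : commutator G ≤ M.normalCore :=
        (Cfsg.Agent.S4496.result p hp x hx hC M.normalCore).1 hdivL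
      have hGM : commutator G ≤ M := hGL.trans (Subgroup.normalCore_le M)
      rw [eq_top_iff]
      intro a _
      obtain ⟨b, hb, hba⟩ := hGM a.2
      have : b = a := Subtype.ext hba
      rw [← this]; exact hb
    have key2 : ∀ M₀ : Subgroup (commutator G), M₀.Normal → ¬ p ∣ Nat.card M₀ →
        M₀ ≤ (Cfsg.pPrimeCore p G).subgroupOf (commutator G) := by
      intro M₀ hM₀ hnd
      have h1 : M₀ ≤ Cfsg.pPrimeCore p (commutator G) :=
        Cfsg.Agent.Lib.Helper3.le_pPrimeCore hM₀
          (Nat.Coprime.symm ((Nat.Prime.coprime_iff_not_dvd hp).mpr hnd))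
      haveI := Cfsg.Agent.Lib.Helper2.pPrimeCore_characteristic' p (commutator G)
      have hn : ((Cfsg.pPrimeCore p (commutator G)).map (commutator G).subtype).Normal :=
        ConjAct.normal_of_characteristic_of_normal
      have hcard : (Nat.card ((Cfsg.pPrimeCore p (commutator G)).map
          (commutator G).subtype)).Coprime p := by
        rw [Subgroup.card_map_of_injective (Subgroup.subtype_injective _)]
        exact Cfsg.Agent.Lib.Helper3.pPrimeCore_coprime hp _
      have h2 := Cfsg.Agent.Lib.Helper3.le_pPrimeCore hn hcard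
      intro a ha
      rw [Subgroup.mem_subgroupOf]
      exact h2 ⟨a, h1 ha, rfl⟩
    have hnontriv : Nontrivial (↥(commutator G) ⧸ (Cfsg.pPrimeCore p G).subgroupOf (commutator G)) := by
      refine ⟨⟨QuotientGroup.mk ⟨x, hxG⟩, 1, fun h => ?_⟩⟩
      have h1 := (QuotientGroup.eq_one_iff _).mp h
      rw [Subgroup.mem_subgroupOf] at h1
      exact hx1 (hSdisj x h1 (Subgroup.mem_zpowers x))
    refine ⟨fun H hH => ?_⟩
    by_cases hdiv : p ∣ Nat.card (H.comap (QuotientGroup.mk' ((Cfsg.pPrimeCore p G).subgroupOf (commutator G))))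
    · right
      have h1 := key _ (hH.comap _) hdiv
      rw [eq_top_iff]
      intro q _
      obtain ⟨g, rfl⟩ := QuotientGroup.mk_surjective q
      have : g ∈ H.comap (QuotientGroup.mk' ((Cfsg.pPrimeCore p G).subgroupOf (commutator G))) := by
        rw [h1]; trivial
      exact this
    · left
      have h1 := key2 _ (hH.comap _) hdiv
      rw [eq_bot_iff]
      intro q hq
      obtain ⟨g, rfl⟩ := QuotientGroup.mk_surjective q
      have hg : g ∈ H.comap (QuotientGroup.mk' ((Cfsg.pPrimeCore p G).subgroupOf (commutator G))) := hq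
      rw [Subgroup.mem_bot]
      exact (QuotientGroup.eq_one_iff g).mpr (h1 hg)
  · intro hteq
    have hidx := (Cfsg.Agent.S4495.result p hp x hx hC t ht).2 hteq
    have h1 := Subgroup.card_mul_index (commutator G)
    have h2 := Subgroup.card_mul_index (P : Subgroup G)
    have h3 : Nat.card (P : Subgroup G) = p := by rw [hP, Nat.card_zpowers, hx]
    have h4 := P.not_dvd_index
    have h5 : p * Nat.card (commutator G) = p * (P : Subgroup G).index := by
      calc p * Nat.card (commutator G) = Nat.card (commutator G) * (commutator G).index := by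
            rw [hidx, mul_comm]
        _ = Nat.card G := h1
        _ = Nat.card (P : Subgroup G) * (P : Subgroup G).index := h2.symm
        _ = p * (P : Subgroup G).index := by rw [h3]
    have h6 : Nat.card (commutator G) = (P : Subgroup G).index :=
      Nat.eq_of_mul_eq_mul_left hp.pos h5
    have h7 : ¬ p ∣ Nat.card (commutator G) := by rw [h6]; exact h4
    have h8 : commutator G ≤ Cfsg.pPrimeCore p G :=
      Cfsg.Agent.Lib.Helper3.le_pPrimeCore inferInstance
        (Nat.Coprime.symm ((Nat.Prime.coprime_iff_not_dvd hp).mpr h7))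
    exact le_antisymm h8 hSG

end Cfsg.Agent.S4497
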