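import Mathlib
import Cfsg.Agent.Lib.Helper7.SelfCent
import Cfsg.Agent.Lib.Helper7.SylowIndex
import Cfsg.Agent.S4495
import Cfsg.Agent.S4496
import Cfsg.Agent.S4497

set_option autoImplicit false

namespace Cfsg.Agent.S4509

open Cfsg.Agent.Lib.Helper7

/-- The number of subgroups of order `p` is the index of `N(⟨x⟩)`. -/
theorem card_order_p {G : Type*} [Group G] [Finite G] (p : ℕ) (hp : p.Prime) (x : G)
    (hx : orderOf x = p) (hC : Subgroup.centralizer ({x} : Set G) = Subgroup.zpowers x) :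
    Nat.card {H : Subgroup G // Nat.card H = p} =
      (Subgroup.normalizer ((Subgroup.zpowers x : Subgroup G) : Set G)).index := by
  haveI := Fact.mk hp
  obtain ⟨P, hP⟩ := selfCent_sylow hp x hx hC
  have hPcard : Nat.card (P : Subgroup G) = p := by rw [hP, Nat.card_zpowers, hx]
  have hcardQ : ∀ Q : Sylow p G, Nat.card (Q : Subgroup G) = p := by
    intro Q
    rw [Sylow.card_eq_multiplicity, ← Sylow.card_eq_multiplicity P]
    exact hPcard
  have hX : Nat.card {H : Subgroup G // Nat.card H = p} = Nat.card (Sylow p G) := by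
    symm
    apply Nat.card_eq_of_bijective (fun Q : Sylow p G =>
      (⟨(Q : Subgroup G), hcardQ Q⟩ : {H : Subgroup G // Nat.card H = p}))
    constructor
    · intro Q Q' h
      apply Sylow.ext
      exact congrArg Subtype.val h
    · rintro ⟨H, hH⟩
      have hpg : IsPGroup p H := IsPGroup.of_card (n := 1) (by rw [hH, pow_one])
      obtain ⟨Q, hQ⟩ := hpg.exists_le_sylow
      refine ⟨Q, ?_⟩
      apply Subtype.ext
      symm
      apply Subgroup.eq_of_le_of_card_ge hQ
      rw [hH]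
      exact (hcardQ Q).le
  rw [hX, ← hP]
  exact Sylow.card_eq_index_normalizer P

/-- A normal subgroup meeting `⟨x⟩` trivially consists of commutators with `x`. -/
theorem exists_comm_of_disjoint {G : Type*} [Group G] [Finite G] (p : ℕ) (hp : p.Prime) (x : G)
    (hx : orderOf x = p) (hC : Subgroup.centralizer ({x} : Set G) = Subgroup.zpowers x)
    (K : Subgroup G) [hKn : K.Normal]
    (hdisj : ∀ g, g ∈ K → g ∈ Subgroup.zpowers x → g = 1) :
    ∀ k ∈ K, ∃ k' ∈ K, k' * x * k'⁻¹ * x⁻¹ = k := by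
  have hx1 : x ≠ 1 := by
    intro h; rw [h, orderOf_one] at hx; exact hp.one_lt.ne' hx.symm
  let ψ : K → K := fun k => ⟨(k : G) * x * (k : G)⁻¹ * x⁻¹, by
    have : (k : G) * x * (k : G)⁻¹ * x⁻¹ = (k : G) * (x * (k : G)⁻¹ * x⁻¹) := by group
    rw [this]
    exact mul_mem k.2 (hKn.conj_mem _ (inv_mem k.2) x)⟩
  have hψ : Function.Injective ψ := by
    intro k k' h
    have h1 : (k : G) * x * (k : G)⁻¹ * x⁻¹ = (k' : G) * x * (k' : G)⁻¹ * x⁻¹ :=
      congrArg Subtype.val h
    have h2 : ((k' : G)⁻¹ * (k : G)) * x = x * ((k' : G)⁻¹ * (k : G)) := by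
      have h3 : (k : G) * x * (k : G)⁻¹ = (k' : G) * x * (k' : G)⁻¹ := mul_right_cancel h1
      calc ((k' : G)⁻¹ * (k : G)) * x = (k' : G)⁻¹ * ((k : G) * x * (k : G)⁻¹) * (k : G) := by
            group
        _ = (k' : G)⁻¹ * ((k' : G) * x * (k' : G)⁻¹) * (k : G) := by rw [h3]
        _ = x * ((k' : G)⁻¹ * (k : G)) := by group
    have h4 := selfCent_mem hp hx hC (Subgroup.mem_zpowers x) hx1 h2
    have h5 := hdisj _ (mul_mem (inv_mem k'.2) k.2) h4
    apply Subtype.ext
    exact (inv_mul_eq_one.mp h5).symm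
  have hψs : Function.Surjective ψ := Finite.surjective_of_injective hψ
  intro k hk
  obtain ⟨k', hk'⟩ := hψs ⟨k, hk⟩
  exact ⟨k', k'.2, congrArg Subtype.val hk'⟩

/-- A normal `p'`-subgroup meets `N(⟨x⟩)` trivially. -/
theorem inf_normalizer_eq_bot {G : Type*} [Group G] [Finite G] (p : ℕ) (hp : p.Prime) (x : G)
    (hx : orderOf x = p) (hC : Subgroup.centralizer ({x} : Set G) = Subgroup.zpowers x)
    (S : Subgroup G) [hSn : S.Normal] (hS : ¬ p ∣ Nat.card S) :
    S ⊓ Subgroup.normalizer ((Subgroup.zpowers x : Subgroup G) : Set G) = ⊥ := by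
  have hx1 : x ≠ 1 := by
    intro h; rw [h, orderOf_one] at hx; exact hp.one_lt.ne' hx.symm
  rw [eq_bot_iff]
  rintro s ⟨hsS, hsN⟩
  rw [Subgroup.mem_bot]
  have hcP : s * x * s⁻¹ * x⁻¹ ∈ Subgroup.zpowers x :=
    mul_mem ((Subgroup.mem_normalizer_iff.mp hsN x).mp (Subgroup.mem_zpowers x))
      (inv_mem (Subgroup.mem_zpowers x))
  have hcS : s * x * s⁻¹ * x⁻¹ ∈ S := by
    have : s * x * s⁻¹ * x⁻¹ = s * (x * s⁻¹ * x⁻¹) := by group
    rw [this]
    exact mul_mem hsS (hSn.conj_mem _ (inv_mem hsS) x)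
  have hc1 := Cfsg.Agent.S4496.eq_one_of_mem p hp x hx S hS _ hcS hcP
  have h2 : s * x = x * s := by
    have h3 : s * x * s⁻¹ = x := by rw [← mul_inv_eq_one]; exact hc1
    calc s * x = s * x * s⁻¹ * s := by group
      _ = x * s := by rw [h3]
  have h4 := selfCent_mem hp hx hC (Subgroup.mem_zpowers x) hx1 h2
  exact Cfsg.Agent.S4496.eq_one_of_mem p hp x hx S hS _ hsS h4

/-- Order of a product with a normal subgroup meeting trivially. -/
theorem card_sup_of_inf_eq_bot {G : Type*} [Group G] [Finite G] (S H : Subgroup G) [S.Normal]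
    (h : S ⊓ H = ⊥) : Nat.card (H ⊔ S : Subgroup G) = Nat.card S * Nat.card H := by
  have h1 := card_inf_mul_relIndex S (H ⊔ S)
  have h2 := card_inf_mul_relIndex S H
  rw [h, Subgroup.card_bot, one_mul] at h2
  rw [inf_eq_left.mpr (le_sup_right : S ≤ H ⊔ S), Subgroup.relIndex_sup_right, h2] at h1
  exact h1.symm

/-- Let the finite group G contain an element x of prime order p with C_G(x) = ⟨x⟩; let t be the number of conjugacy classes of elements of order p and 1 + n·p the number of subgroups of order p. Then G has a normal subgroup of order 1 + n·p if and only if either t = p − 1, or t < p − 1 and G″ ≠ G′. Moreover, if t = p − 1 then G′ has order 1 + n·p and G/G′ is cyclic of order p; and if t < p − 1 and G″ ≠ G′ then G″ has order 1 + n·p and G′ has order p·(1 + n·p). -/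
theorem result {G : Type*} [Group G] [Finite G] (p : ℕ) (hp : p.Prime) (x : G) (hx : orderOf x = p) (hC : Subgroup.centralizer ({x} : Set G) = Subgroup.zpowers x) (t : ℕ) (ht : Nat.card {C : ConjClasses G // ∃ g ∈ C.carrier, orderOf g = p} = t) (n : ℕ) (hn : Nat.card {H : Subgroup G // Nat.card H = p} = 1 + n * p) : ((∃ S : Subgroup G, S.Normal ∧ Nat.card S = 1 + n * p) ↔ (t = p - 1 ∨ (t < p - 1 ∧ derivedSeries G 2 ≠ derivedSeries G 1))) ∧ (t = p - 1 → Nat.card (commutator G) = 1 + n * p ∧ IsCyclic (G ⧸ commutator G) ∧ (commutator G).index = p) ∧ (t < p - 1 → derivedSeries G 2 ≠ derivedSeries G 1 → Nat.card (derivedSeries G 2) = 1 + n * p ∧ Nat.card (commutator G) = p * (1 + n * p)) := by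
  classical
  haveI := Fact.mk hp
  obtain ⟨P, hP⟩ := selfCent_sylow hp x hx hC
  have hx1 : x ≠ 1 := by
    intro h; rw [h, orderOf_one] at hx; exact hp.one_lt.ne' hx.symm
  have hcount := selfCent_count hp x hx hC
  rw [ht] at hcount
  have hidxN0 := card_order_p p hp x hx hC
  rw [hn] at hidxN0
  have hidxN := hidxN0.symm
  set N : Subgroup G := Subgroup.normalizer ((Subgroup.zpowers x : Subgroup G) : Set G) with hN
  have hcardP : Nat.card (Subgroup.zpowers x) = p := by rw [Nat.card_zpowers, hx]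
  have hPN : Subgroup.zpowers x ≤ N := Subgroup.le_normalizer
  have hp1 : 1 ≤ p - 1 := by have := hp.two_le; omega
  have hD1 : derivedSeries G 1 = commutator G := derivedSeries_one G
  have hD2 : derivedSeries G 2 = ⁅commutator G, commutator G⁆ := by
    rw [derivedSeries_succ, hD1]
  have hcomm : ∀ a ∈ Subgroup.zpowers x, ∀ b ∈ Subgroup.zpowers x, a * b = b * a := by
    intro a ha b hb
    obtain ⟨i, rfl⟩ := Subgroup.mem_zpowers_iff.mp ha
    obtain ⟨j, rfl⟩ := Subgroup.mem_zpowers_iff.mp hb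
    exact (zpow_mul_comm x i j)
  -- Part B
  have partB : t = p - 1 → Nat.card (commutator G) = 1 + n * p ∧ IsCyclic (G ⧸ commutator G) ∧
      (commutator G).index = p := by
    intro hteq
    have hidx := (Cfsg.Agent.S4495.result p hp x hx hC t ht).2 hteq
    have he1 : (Subgroup.zpowers x).relIndex N = 1 := by
      rw [hteq] at hcount
      exact Nat.eq_of_mul_eq_mul_left (by omega : 0 < p - 1) (by rw [hcount, mul_one])
    have hNP : N ≤ Subgroup.zpowers x := Subgroup.relIndex_eq_one.mp he1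
    have hNeq : N = Subgroup.zpowers x := le_antisymm hNP hPN
    have hcardN : Nat.card N = p := by rw [hNeq]; exact hcardP
    have h1 := Subgroup.card_mul_index (commutator G)
    have h2 := Subgroup.card_mul_index N
    rw [hcardN] at h2
    have h3 : p * Nat.card (commutator G) = p * N.index := by
      rw [h2, ← h1, hidx, mul_comm]
    have h4 : Nat.card (commutator G) = N.index := Nat.eq_of_mul_eq_mul_left hp.pos h3
    refine ⟨by rw [h4, hidxN], ?_, hidx⟩
    exact isCyclic_of_prime_card (p := p) hidx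
  -- Part C
  have partC : t ≠ p - 1 → derivedSeries G 2 ≠ derivedSeries G 1 →
      Nat.card (derivedSeries G 2) = 1 + n * p ∧ Nat.card (commutator G) = p * (1 + n * p) := by
    intro hne hDD
    rw [hD1, hD2] at hDD
    rw [hD2]
    have hne' := hne
    rw [← ht] at hne'
    obtain ⟨hxG, hsup⟩ := Cfsg.Agent.S4497.mem_commutator_of_ne p hp x hx hC hne'
    haveI hSn : (Cfsg.pPrimeCore p G).Normal := Cfsg.Agent.Lib.Helper3.pPrimeCore_normal p G
    have hScop : (Nat.card (Cfsg.pPrimeCore p G)).Coprime p :=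
      Cfsg.Agent.Lib.Helper3.pPrimeCore_coprime hp G
    have hSnd : ¬ p ∣ Nat.card (Cfsg.pPrimeCore p G) := fun h =>
      (Nat.Prime.coprime_iff_not_dvd hp).mp (Nat.Coprime.symm hScop) h
    have hSdisj : ∀ g, g ∈ Cfsg.pPrimeCore p G → g ∈ Subgroup.zpowers x → g = 1 :=
      fun g hg hgx => Cfsg.Agent.S4496.eq_one_of_mem p hp x hx _ hSnd g hg hgx
    have hSG : Cfsg.pPrimeCore p G ≤ commutator G :=
      Cfsg.Agent.S4497.le_commutator_of_disjoint p hp x hx hC _ hSdisj
    have hDle : ⁅commutator G, commutator G⁆ ≤ commutator G := Subgroup.commutator_le_left _ _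
    have hDnd : ¬ p ∣ Nat.card (⁅commutator G, commutator G⁆ : Subgroup G) := by
      intro hdiv
      have := (Cfsg.Agent.S4496.result p hp x hx hC ⁅commutator G, commutator G⁆).1 hdiv
      exact hDD (le_antisymm hDle this)
    have hDS : ⁅commutator G, commutator G⁆ ≤ Cfsg.pPrimeCore p G :=
      Cfsg.Agent.Lib.Helper3.le_pPrimeCore inferInstance
        (Nat.Coprime.symm ((Nat.Prime.coprime_iff_not_dvd hp).mpr hDnd))
    have hSD : Cfsg.pPrimeCore p G ≤ ⁅commutator G, commutator G⁆ := by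
      intro k hk
      obtain ⟨k', hk', hkk⟩ := exists_comm_of_disjoint p hp x hx hC _ hSdisj k hk
      rw [← hkk]
      exact Subgroup.commutator_mem_commutator (hSG hk') hxG
    have hDeq : ⁅commutator G, commutator G⁆ = Cfsg.pPrimeCore p G := le_antisymm hDS hSD
    -- M = S* ⊔ P is normal
    have hdecomp : ∀ h : G, ∃ c ∈ commutator G, ∃ m ∈ N, c * m = h := by
      intro h
      have : h ∈ commutator G ⊔ N := by rw [hsup]; trivial
      exact Subgroup.mem_sup_of_normal_left.mp this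
    have hnorm' : ∀ m ∈ N, ∀ y ∈ Subgroup.zpowers x, m * y * m⁻¹ ∈ Subgroup.zpowers x :=
      fun m hm y hy => (Subgroup.mem_normalizer_iff.mp hm y).mp hy
    have hMn : (Subgroup.zpowers x ⊔ Cfsg.pPrimeCore p G).Normal := by
      have hconjx : ∀ g : G, g * x * g⁻¹ ∈ Subgroup.zpowers x ⊔ Cfsg.pPrimeCore p G := by
        intro g
        obtain ⟨c, hc, m, hm, rfl⟩ := hdecomp g
        have h1 : m * x * m⁻¹ ∈ Subgroup.zpowers x := hnorm' m hm x (Subgroup.mem_zpowers x)
        have h2 : c * (m * x * m⁻¹) * c⁻¹ * (m * x * m⁻¹)⁻¹ ∈ Cfsg.pPrimeCore p G := by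
          rw [← hDeq]
          exact Subgroup.commutator_mem_commutator hc
            ((Subgroup.zpowers_le.mpr hxG) h1)
        have h3 : c * m * x * (c * m)⁻¹ =
            (c * (m * x * m⁻¹) * c⁻¹ * (m * x * m⁻¹)⁻¹) * (m * x * m⁻¹) := by group
        rw [h3]
        exact mul_mem (Subgroup.mem_sup_right h2) (Subgroup.mem_sup_left h1)
      have hconj : ∀ g : G, ∀ y ∈ Subgroup.zpowers x, g * y * g⁻¹ ∈
          Subgroup.zpowers x ⊔ Cfsg.pPrimeCore p G := by
        intro g y hy
        obtain ⟨i, rfl⟩ := Subgroup.mem_zpowers_iff.mp hy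
        have : g * x ^ i * g⁻¹ = (g * x * g⁻¹) ^ i := by
          have := map_zpow (MulAut.conj g) x i
          simpa [MulAut.conj_apply] using this
        rw [this]
        exact zpow_mem (hconjx g) i
      refine ⟨fun a ha g => ?_⟩
      obtain ⟨u, hu, s, hs, rfl⟩ := Subgroup.mem_sup_of_normal_right.mp ha
      have : g * (u * s) * g⁻¹ = (g * u * g⁻¹) * (g * s * g⁻¹) := by group
      rw [this]
      exact mul_mem (hconj g u hu) (Subgroup.mem_sup_right (hSn.conj_mem s hs g))
    have hMdiv : p ∣ Nat.card (Subgroup.zpowers x ⊔ Cfsg.pPrimeCore p G : Subgroup G) := by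
      rw [← hx]
      exact Subgroup.orderOf_dvd_natCard _ (Subgroup.mem_sup_left (Subgroup.mem_zpowers x))
    have hGM : commutator G ≤ Subgroup.zpowers x ⊔ Cfsg.pPrimeCore p G :=
      (@Cfsg.Agent.S4496.result G _ _ p hp x hx hC _ hMn).1 hMdiv
    have hMG : Subgroup.zpowers x ⊔ Cfsg.pPrimeCore p G ≤ commutator G :=
      sup_le (Subgroup.zpowers_le.mpr hxG) hSG
    have hGeq : commutator G = Subgroup.zpowers x ⊔ Cfsg.pPrimeCore p G := le_antisymm hGM hMG
    have hSP : Cfsg.pPrimeCore p G ⊓ Subgroup.zpowers x = ⊥ := by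
      rw [eq_bot_iff]
      rintro s ⟨hs1, hs2⟩
      exact Subgroup.mem_bot.mpr (hSdisj s hs1 hs2)
    have hcardG' : Nat.card (commutator G) = Nat.card (Cfsg.pPrimeCore p G) * p := by
      rw [hGeq, card_sup_of_inf_eq_bot _ _ hSP, hcardP]
    -- S* ⊔ N = ⊤
    have hSN : N ⊔ Cfsg.pPrimeCore p G = ⊤ := by
      rw [eq_top_iff, ← hsup, hGeq]
      refine sup_le (sup_le (hPN.trans le_sup_left) le_sup_right) le_sup_left
    have hdisjN := inf_normalizer_eq_bot p hp x hx hC (Cfsg.pPrimeCore p G) hSnd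
    have h5 := card_sup_of_inf_eq_bot (Cfsg.pPrimeCore p G) N hdisjN
    rw [hSN, Subgroup.card_top] at h5
    have h6 := Subgroup.card_mul_index N
    have h7 : Nat.card (Cfsg.pPrimeCore p G) = N.index := by
      have : Nat.card N * Nat.card (Cfsg.pPrimeCore p G) = Nat.card N * N.index := by
        rw [h6, h5, mul_comm]
      exact Nat.eq_of_mul_eq_mul_left Nat.card_pos this
    rw [hDeq, hcardG', h7, hidxN]
    exact ⟨rfl, mul_comm _ _⟩
  have htle : t ≤ p - 1 := by
    have he0 : (Subgroup.zpowers x).relIndex N ≠ 0 := by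
      intro h; rw [h, mul_zero] at hcount; omega
    calc t = t * 1 := (mul_one t).symm
      _ ≤ t * (Subgroup.zpowers x).relIndex N := Nat.mul_le_mul_left t (Nat.pos_of_ne_zero he0)
      _ = p - 1 := hcount
  refine ⟨⟨?_, ?_⟩, partB, fun hlt => partC hlt.ne⟩
  · rintro ⟨S, hSn, hScard⟩
    by_cases hteq : t = p - 1
    · exact Or.inl hteq
    · right
      refine ⟨lt_of_le_of_ne htle hteq, ?_⟩
      have hne' := hteq
      rw [← ht] at hne'
      obtain ⟨hxG, hsup⟩ := Cfsg.Agent.S4497.mem_commutator_of_ne p hp x hx hC hne'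
      have hSnd : ¬ p ∣ Nat.card S := by
        rw [hScard]
        intro h
        have : p ∣ 1 := (Nat.dvd_add_left (Dvd.intro_left n rfl)).mp h
        exact hp.one_lt.ne' (Nat.dvd_one.mp this)
      have hdisjN := inf_normalizer_eq_bot p hp x hx hC S hSnd
      have h5 := card_sup_of_inf_eq_bot S N hdisjN
      have h6 := Subgroup.card_mul_index N
      have hSN : N ⊔ S = ⊤ := by
        rw [← Subgroup.card_eq_iff_eq_top, h5, hScard, ← hidxN, mul_comm]
        exact h6
      have hnormx : ∀ m ∈ N, m⁻¹ * x * m ∈ Subgroup.zpowers x := by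
        intro m hm
        exact (Subgroup.mem_normalizer_iff''.mp hm x).mp (Subgroup.mem_zpowers x)
      have hdec : ∀ g : G, ∃ m ∈ N, ∃ s ∈ S, m * s = g := by
        intro g
        have : g ∈ N ⊔ S := by rw [hSN]; trivial
        exact Subgroup.mem_sup_of_normal_right.mp this
      have hGle : commutator G ≤ Subgroup.zpowers x ⊔ S := by
        rw [commutator_def, Subgroup.commutator_le]
        intro g₁ _ g₂ _
        obtain ⟨m₁, hm₁, s₁, hs₁, rfl⟩ := hdec g₁
        obtain ⟨m₂, hm₂, s₂, hs₂, rfl⟩ := hdec g₂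
        have hc : m₁ * m₂ * m₁⁻¹ * m₂⁻¹ ∈ Subgroup.zpowers x := by
          have := Cfsg.Agent.S4496.comm_mem_centralizer x m₂ m₁ (hnormx m₂ hm₂) (hnormx m₁ hm₁)
          rw [hC] at this
          exact this
        have e1 : ((s₁ : G) : G ⧸ S) = 1 := (QuotientGroup.eq_one_iff _).mpr hs₁
        have e2 : ((s₂ : G) : G ⧸ S) = 1 := (QuotientGroup.eq_one_iff _).mpr hs₂
        rw [commutatorElement_def]
        have e3 : (((m₁ * m₂ * m₁⁻¹ * m₂⁻¹)⁻¹ *
            ((m₁ * s₁) * (m₂ * s₂) * (m₁ * s₁)⁻¹ * (m₂ * s₂)⁻¹) : G) : G ⧸ S) = 1 := by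
          simp only [QuotientGroup.mk_mul, QuotientGroup.mk_inv, e1, e2, mul_one]
          group
        have e4 := (QuotientGroup.eq_one_iff _).mp e3
        have e5 : (m₁ * s₁) * (m₂ * s₂) * (m₁ * s₁)⁻¹ * (m₂ * s₂)⁻¹ = (m₁ * m₂ * m₁⁻¹ * m₂⁻¹) *
            ((m₁ * m₂ * m₁⁻¹ * m₂⁻¹)⁻¹ *
              ((m₁ * s₁) * (m₂ * s₂) * (m₁ * s₁)⁻¹ * (m₂ * s₂)⁻¹)) := by group
        rw [e5]
        exact mul_mem (Subgroup.mem_sup_left hc) (Subgroup.mem_sup_right e4)
      have hDle : ⁅commutator G, commutator G⁆ ≤ S := by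
        rw [Subgroup.commutator_le]
        intro a ha b hb
        obtain ⟨u, hu, s, hs, rfl⟩ := Subgroup.mem_sup_of_normal_right.mp (hGle ha)
        obtain ⟨u', hu', s', hs', rfl⟩ := Subgroup.mem_sup_of_normal_right.mp (hGle hb)
        have e1 : ((s : G) : G ⧸ S) = 1 := (QuotientGroup.eq_one_iff _).mpr hs
        have e2 : ((s' : G) : G ⧸ S) = 1 := (QuotientGroup.eq_one_iff _).mpr hs'
        rw [← QuotientGroup.eq_one_iff, commutatorElement_def]
        simp only [QuotientGroup.mk_mul, QuotientGroup.mk_inv, e1, e2, mul_one]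
        have e3 : u * u' * u⁻¹ * u'⁻¹ = 1 := by
          rw [hcomm u hu u' hu']; group
        have e4 := congrArg (QuotientGroup.mk : G → G ⧸ S) e3
        simpa only [QuotientGroup.mk_mul, QuotientGroup.mk_inv, QuotientGroup.mk_one] using e4
      rw [hD1, hD2]
      intro hEq
      have hxS : x ∈ S := hDle (by rw [hEq]; exact hxG)
      exact hx1 (Cfsg.Agent.S4496.eq_one_of_mem p hp x hx S hSnd x hxS (Subgroup.mem_zpowers x))
  · rintro (hteq | ⟨hlt, hDD⟩)
    · exact ⟨commutator G, inferInstance, (partB hteq).1⟩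
    · exact ⟨derivedSeries G 2, derivedSeries_normal G 2, (partC hlt.ne hDD).1⟩

end Cfsg.Agent.S4509
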