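import Cfsg.Statements.S4517
import Mathlib
import Cfsg.Agent.Lib.Helper7.RealBlock
-- import your own Cfsg.Agent.* helpers here

set_option autoImplicit false
open Cfsg
open Cfsg.Agent.Lib.Helper7 Cfsg.Agent.Lib.Lead
open scoped ComplexConjugate

namespace Cfsg.Agent.S4517

/-- Let G be a finite group, M a maximal ideal of the algebraic integers containing 2, and k a natural number coprime to the order of G with g ^ k = g⁻¹ for every element g of odd order (so that g ↦ g ^ k induces a field automorphism of the character values inverting the roots of unity of odd order). If B is a 2-block of full defect (its defect equals the exponent of 2 in the order of G) that is stable under χ ↦ χ ∘ (· ^ k), then B is the principal 2-block. -/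
theorem result {G : Type*} [Group G] [Finite G] (M : Ideal Cfsg.AlgInt) (hM : Cfsg.IsPModular 2 M) (k : ℕ) (hk : Nat.Coprime k (Nat.card G)) (hk₂ : ∀ g : G, Odd (orderOf g) → g ^ k = g⁻¹) (B : Set (Cfsg.IrrCharacter G)) (hB : Cfsg.IsPBlock M B) (hdef : Cfsg.blockDefect 2 B = (Nat.card G).factorization 2) (hstab : ∀ χ ∈ B, ∃ ψ ∈ B, ∀ g : G, (ψ : G → ℂ) g = (χ : G → ℂ) (g ^ k)) : B = Cfsg.principalBlock M G := by
  classical
  haveI : Fintype G := Fintype.ofFinite _
  haveI : Fintype (Cfsg.IrrCharacter G) := Fintype.ofFinite _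
  haveI : Fintype (ConjClasses G) := Fintype.ofFinite _
  apply principal_of_sym_h7 M hM B hB hdef
  · intro g hodd
    choose! σ hσB hσ using hstab
    have hmaps : Set.MapsTo σ B B := fun χ hχ => hσB χ hχ
    have hinj : Set.InjOn σ B := by
      intro χ₁ h₁ χ₂ h₂ heq
      apply Subtype.ext
      funext x
      obtain ⟨y, rfl⟩ := (powCoprime hk.symm).surjective x
      show (χ₁ : G → ℂ) (y ^ k) = (χ₂ : G → ℂ) (y ^ k)
      rw [← hσ χ₁ h₁ y, ← hσ χ₂ h₂ y, heq]
    have hbij : Set.BijOn σ B B := ((Set.toFinite B).injOn_iff_bijOn_of_mapsTo hmaps).1 hinj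
    unfold Cfsg.blockCoeff
    congr 1
    apply finsum_mem_eq_of_bijOn σ hbij
    intro χ hχ
    rw [hσ χ hχ 1, one_pow, hσ χ hχ g, hk₂ g hodd]
  · intro χ hχ
    obtain ⟨ψ, hψB, hψ⟩ := hstab χ hχ
    exact ⟨ψ, hψB, fun g hodd => by rw [hψ g, hk₂ g hodd]⟩


end Cfsg.Agent.S4517
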