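import Cfsg.Statements.S4518
import Mathlib
import Cfsg.Agent.Lib.Lead.SylowAux2
import Cfsg.Agent.Lib.Helper7.GlaubCyc
import Cfsg.Agent.Lib.Lead.CharIto
import Cfsg.Agent.Lib.Lead.CharNormal
import Cfsg.Agent.Lib.Lead.CharRing
import Cfsg.Agent.Lib.Lead.CharInd3

set_option autoImplicit false
open Cfsg Cfsg.Agent.Lib.Lead

namespace Cfsg.Agent.S4518

open scoped Pointwise commutatorElement

theorem orbit_fixed_lead {G : Type*} [Group G] [Finite G] (p : ℕ) [Fact p.Prime] (N : Subgroup G)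
    [N.Normal] (hidx : ¬ p ∣ N.index) (lam : N → ℂ)
    (hcl : ∀ n a : N, lam (n * a * n⁻¹) = lam a)
    (k e : ℕ) (hke : k ^ (p ^ e) ≡ 1 [MOD Nat.card G])
    (g₀ : G) (hg₀ : (fun n : N => lam (n ^ k)) = lam ∘ conjHom N g₀) :
    ∀ n : N, lam (n ^ k) = lam n := by
  classical
  have hfin : Finite {ψ : N → ℂ // ∃ g : G, ψ = lam ∘ conjHom N g} :=
    Finite.of_surjective
      (fun g : G => (⟨lam ∘ conjHom N g, g, rfl⟩ : {ψ : N → ℂ // ∃ g : G, ψ = lam ∘ conjHom N g}))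
      (by
        rintro ⟨ψ, g, rfl⟩
        exact ⟨g, rfl⟩)
  haveI := hfin
  haveI : Fintype {ψ : N → ℂ // ∃ g : G, ψ = lam ∘ conjHom N g} := Fintype.ofFinite _
  have hdvd : Nat.card {ψ : N → ℂ // ∃ g : G, ψ = lam ∘ conjHom N g} ∣ N.index := by
    have h1 := card_orbit_mul_card_stab N lam
    have h2 : N ≤ stabChar N lam := by
      intro n hn
      rw [mem_stabChar]
      funext a
      show lam (conjHom N n a) = lam a
      have h3 : conjHom N n a = (⟨n, hn⟩ : N) * a * (⟨n, hn⟩ : N)⁻¹ := by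
        apply Subtype.ext
        rfl
      rw [h3]
      exact hcl _ _
    have h4 := Subgroup.card_mul_index N
    obtain ⟨c, hc⟩ := Subgroup.card_dvd_of_le h2
    refine ⟨c, ?_⟩
    have hNpos : 0 < Nat.card N := Nat.card_pos
    apply Nat.eq_of_mul_eq_mul_left hNpos
    rw [h4, ← h1, hc]
    ring
  have hmem : ∀ ψ : {ψ : N → ℂ // ∃ g : G, ψ = lam ∘ conjHom N g},
      ∃ g : G, (fun n : N => ψ.1 (n ^ k)) = lam ∘ conjHom N g := by
    rintro ⟨ψ, g, rfl⟩
    refine ⟨g₀ * g, ?_⟩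
    funext n
    show lam (conjHom N g (n ^ k)) = lam (conjHom N (g₀ * g) n)
    rw [map_pow, ← conjHom_mul]
    exact congrFun hg₀ (conjHom N g n)
  obtain ⟨f, hf⟩ : ∃ f : Function.End {ψ : N → ℂ // ∃ g : G, ψ = lam ∘ conjHom N g},
      ∀ ψ, (f ψ).1 = fun n : N => ψ.1 (n ^ k) :=
    ⟨fun ψ => ⟨fun n : N => ψ.1 (n ^ k), hmem ψ⟩, fun ψ => rfl⟩
  have hiter : ∀ (j : ℕ) (ψ : {ψ : N → ℂ // ∃ g : G, ψ = lam ∘ conjHom N g}),
      ((f ^ j) ψ).1 = fun n : N => ψ.1 (n ^ (k ^ j)) := by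
    intro j
    induction j with
    | zero =>
      intro ψ
      funext n
      show ψ.1 n = ψ.1 (n ^ (k ^ 0))
      rw [pow_zero, pow_one]
    | succ j ih =>
      intro ψ
      rw [pow_succ f j]
      show ((f ^ j) (f ψ)).1 = _
      rw [ih (f ψ), hf ψ]
      funext n
      show ψ.1 ((n ^ (k ^ j)) ^ k) = ψ.1 (n ^ (k ^ (j + 1)))
      rw [← pow_mul, ← pow_succ]
  have hall : ∀ ψ : {ψ : N → ℂ // ∃ g : G, ψ = lam ∘ conjHom N g}, (f ^ p ^ e) ψ = ψ := by
    intro ψ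
    apply Subtype.ext
    rw [hiter]
    funext n
    show ψ.1 (n ^ (k ^ (p ^ e))) = ψ.1 n
    have h1 : n ^ (k ^ (p ^ e)) = n := by
      have h2 : n ^ (k ^ (p ^ e)) = n ^ 1 := by
        rw [pow_eq_pow_iff_modEq]
        exact Nat.ModEq.of_dvd
          ((orderOf_dvd_natCard n).trans (Subgroup.card_subgroup_dvd_card N)) hke
      rw [h2, pow_one]
    rw [h1]
  have hfp : f ^ p ^ e = 1 := funext hall
  have hmod := Equiv.Perm.card_fixedPoints_modEq (f := f) (p := p) (n := e) hfp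
  rw [Fintype.card_eq_nat_card, Fintype.card_eq_nat_card] at hmod
  have hne : Nonempty (Function.fixedPoints f) := by
    by_contra hemp
    have h0 : Nat.card (Function.fixedPoints f) = 0 :=
      Nat.card_eq_zero.mpr (Or.inl (not_nonempty_iff.mp hemp))
    rw [h0] at hmod
    exact hidx (dvd_trans (Nat.modEq_zero_iff_dvd.mp hmod) hdvd)
  obtain ⟨⟨ψ₀, hfix⟩⟩ := hne
  have hfix' : f ψ₀ = ψ₀ := hfix
  obtain ⟨ψ, g, rfl⟩ := ψ₀
  intro n
  have h1 := congrArg Subtype.val hfix'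
  rw [hf] at h1
  have h2 := congrFun h1 (conjHom N g⁻¹ n)
  have h3 : conjHom N g (conjHom N g⁻¹ n) = n := by
    rw [conjHom_mul, mul_inv_cancel, conjHom_one]
  have h4 : lam (conjHom N g ((conjHom N g⁻¹ n) ^ k)) = lam (conjHom N g (conjHom N g⁻¹ n)) := h2
  rw [map_pow, h3] at h4
  exact h4

/-- Let N be a normal subgroup of the finite group G whose index is not divisible by the prime p, and let k be coprime to the order of G with k ^ (p ^ e) ≡ 1 modulo the order of G for some e (so g ↦ g ^ k induces a field automorphism of p-power order on character values). If an irreducible character χ of G satisfies χ (g ^ k) = χ g for all g, then every irreducible constituent θ of the restriction of χ to N satisfies θ (n ^ k) = θ n for all n. -/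
theorem result {G : Type*} [Group G] [Fintype G] (p : ℕ) [Fact p.Prime] (N : Subgroup G) [N.Normal] [Fintype N] (hidx : ¬ p ∣ N.index) (k e : ℕ) (hk : Nat.Coprime k (Nat.card G)) (hke : k ^ (p ^ e) ≡ 1 [MOD Nat.card G]) (χ : Cfsg.IrrCharacter G) (hχ : ∀ g : G, (χ : G → ℂ) (g ^ k) = (χ : G → ℂ) g) (θ : Cfsg.IrrCharacter N) (hθ : Cfsg.classInner (fun n : N => (χ : G → ℂ) n) (θ : N → ℂ) ≠ 0) : ∀ n : N, (θ : N → ℂ) (n ^ k) = (θ : N → ℂ) n := by
  classical
  intro n₀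
  haveI : Fintype (Cfsg.IrrCharacter G) := Fintype.ofFinite _
  have hχirr : Cfsg.IsIrrCharacter G (χ : G → ℂ) := χ.2
  have hχch := isCharacter_of_isIrrCharacter hχirr
  have hχcl := isClassFunction_of_isCharacter hχch
  have hθirr : Cfsg.IsIrrCharacter N (θ : N → ℂ) := θ.2
  have hθch := isCharacter_of_isIrrCharacter hθirr
  have hcardN : Nat.card N ∣ Nat.card G := Subgroup.card_subgroup_dvd_card N
  have hkN : k.Coprime (Nat.card N) := Nat.Coprime.coprime_dvd_right hcardN hk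
  obtain ⟨τ, hτ⟩ := Cfsg.Agent.Lib.Helper7.exists_tau (Nat.card G) k Nat.card_pos hk
  have hτN : ∀ η : ℂ, η ^ (Nat.card N) = 1 → τ η = η ^ k := by
    intro η hη
    apply hτ
    obtain ⟨c, hc⟩ := hcardN
    rw [hc, pow_mul, hη, one_pow]
  have htw : ∀ ψ : N → ℂ, Cfsg.IsIrrCharacter N ψ →
      Cfsg.IsIrrCharacter N (fun n : N => ψ (n ^ k)) := by
    intro ψ hψ
    have h1 := Cfsg.Agent.Lib.Helper7.isIrr_tau hψ τ k hkN hτN
    have h2 : (fun g : N => τ (ψ g)) = (fun n : N => ψ (n ^ k)) := by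
      funext g
      exact Cfsg.Agent.Lib.Helper7.tau_char_pow (isCharacter_of_isIrrCharacter hψ) τ k hτN g
    rw [h2] at h1
    exact h1
  have hinner : ∀ ψ : N → ℂ,
      Cfsg.classInner (fun n : N => (χ : G → ℂ) n) (fun n : N => ψ (n ^ k)) =
        Cfsg.classInner (fun n : N => (χ : G → ℂ) n) ψ := by
    intro ψ
    have e1 : ∀ ψ' : N → ℂ, Cfsg.classInner (fun n : N => (χ : G → ℂ) n) ψ' =
        (Nat.card N : ℂ)⁻¹ * ∑ g : N, (χ : G → ℂ) (g : G) * (starRingEnd ℂ) (ψ' g) :=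
      fun ψ' => rfl
    rw [e1, e1]
    congr 1
    refine (Finset.sum_congr rfl (fun g _ => ?_)).trans
      (Equiv.sum_comp (powCoprime hkN.symm)
        (fun x : N => (χ : G → ℂ) (x : G) * (starRingEnd ℂ) (ψ x)))
    show (χ : G → ℂ) (g : G) * (starRingEnd ℂ) (ψ (g ^ k)) =
      (χ : G → ℂ) ((g ^ k : N) : G) * (starRingEnd ℂ) (ψ (g ^ k))
    rw [Subgroup.coe_pow, hχ]
  have horb : ∀ θ' : N → ℂ, Cfsg.IsIrrCharacter N θ' →
      Cfsg.classInner (fun n : N => (χ : G → ℂ) n) θ' ≠ 0 →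
        ∃ g : G, θ' = (θ : N → ℂ) ∘ conjHom N g := by
    intro θ' hθ' hne
    have hθ'ch := isCharacter_of_isIrrCharacter hθ'
    obtain ⟨nn, hnn, hnn'⟩ := isCharacter_expansion (isCharacter_indFun N θ' hθ'ch)
    obtain ⟨mm, hmm, hmm'⟩ := isCharacter_expansion (isCharacter_indFun N (θ : N → ℂ) hθch)
    have h1 : (nn χ : ℂ) ≠ 0 := by
      rw [← hnn' χ, frobenius_reciprocity N θ' (χ : G → ℂ) hχcl, ← classInner_conj_symm]
      intro h0
      apply hne
      have h3 := congrArg (starRingEnd ℂ) h0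
      rw [Complex.conj_conj, map_zero] at h3
      exact h3
    have h2 : (mm χ : ℂ) ≠ 0 := by
      rw [← hmm' χ, frobenius_reciprocity N (θ : N → ℂ) (χ : G → ℂ) hχcl, ← classInner_conj_symm]
      intro h0
      apply hθ
      have h3 := congrArg (starRingEnd ℂ) h0
      rw [Complex.conj_conj, map_zero] at h3
      exact h3
    have h3 : Cfsg.classInner (Cfsg.indFun N θ') (Cfsg.indFun N (θ : N → ℂ)) =
        ((∑ ξ, nn ξ * mm ξ : ℕ) : ℂ) := by
      rw [hnn, hmm]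
      refine (classInner_comb (fun ξ : Cfsg.IrrCharacter G => (nn ξ : ℂ))
        (fun ξ : Cfsg.IrrCharacter G => (mm ξ : ℂ))).trans ?_
      rw [Nat.cast_sum]
      apply Finset.sum_congr rfl
      intro ξ _
      show (nn ξ : ℂ) * (starRingEnd ℂ) (mm ξ : ℂ) = ((nn ξ * mm ξ : ℕ) : ℂ)
      rw [map_natCast, Nat.cast_mul]
    have h7 : 0 < ∑ ξ, nn ξ * mm ξ := by
      have h8 : nn χ * mm χ ≤ ∑ ξ, nn ξ * mm ξ :=
        Finset.single_le_sum (f := fun ξ => nn ξ * mm ξ) (fun i _ => Nat.zero_le _)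
          (Finset.mem_univ χ)
      have h9 : 0 < nn χ * mm χ :=
        Nat.mul_pos (Nat.pos_of_ne_zero (by exact_mod_cast h1))
          (Nat.pos_of_ne_zero (by exact_mod_cast h2))
      omega
    have h10 := classInner_indFun_normal N θ' (θ : N → ℂ) hθ' hθirr
    rw [h3] at h10
    have h11 : Nat.card {g : G // θ' = (θ : N → ℂ) ∘ conjHom N g} ≠ 0 := by
      intro h0
      rw [h0, Nat.cast_zero] at h10
      have hN0 : (Nat.card N : ℂ) ≠ 0 := Nat.cast_ne_zero.mpr Nat.card_pos.ne'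
      have h12 : ((∑ ξ, nn ξ * mm ξ : ℕ) : ℂ) ≠ 0 := Nat.cast_ne_zero.mpr h7.ne'
      exact (mul_ne_zero hN0 h12) h10
    obtain ⟨⟨g, hg⟩⟩ := (Nat.card_ne_zero.mp h11).1
    exact ⟨g, hg⟩
  have h1 := htw (θ : N → ℂ) hθirr
  have h2 : Cfsg.classInner (fun n : N => (χ : G → ℂ) n) (fun n : N => (θ : N → ℂ) (n ^ k)) ≠ 0 := by
    rw [hinner]; exact hθ
  obtain ⟨g₀, hg₀⟩ := horb _ h1 h2
  exact orbit_fixed_lead p N hidx (θ : N → ℂ)
    (fun n a => isClassFunction_of_isCharacter hθch a n) k e hke g₀ hg₀ n₀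

end Cfsg.Agent.S4518
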