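import Cfsg.Statements.S4565
import Mathlib
import Cfsg.Agent.Lib.Helper7.FullyRam
-- import your own Cfsg.Agent.* helpers here

set_option autoImplicit false
open Cfsg

namespace Cfsg.Agent.S4565

/-- Let χ be an irreducible character of the finite group H that is fully ramified over the normal subgroup Z: the restriction of χ to Z is e times an irreducible character of Z with e ^ 2 equal to the index of Z. If Z ≠ H, then H/Z has no cyclic subgroup that is its own centralizer. -/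
theorem result {H : Type*} [Group H] [Finite H] (Z : Subgroup H) [Z.Normal] (χ : Cfsg.IrrCharacter H) (hfr : ∃ (θ : Cfsg.IrrCharacter ↥Z) (e : ℕ), e ^ 2 = Z.index ∧ ∀ z : ↥Z, (χ : H → ℂ) z = (e : ℂ) * (θ : ↥Z → ℂ) z) (hZ : Z ≠ ⊤) (C : Subgroup (H ⧸ Z)) (hC : IsCyclic C) : Subgroup.centralizer (C : Set (H ⧸ Z)) ≠ C := by
  intro hcen
  classical
  obtain ⟨θ, e, he, hχZ⟩ := hfr
  obtain ⟨E, instE, instEf, π, hπ, lam, β, hlaminv, hβ, hβD⟩ :=
    Cfsg.Agent.Lib.Helper7.fr_triple Z (χ : H → ℂ) χ.2 (θ : Z → ℂ) θ.2 e hχZ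
  obtain ⟨g₀, hg₀⟩ := hC.exists_generator
  obtain ⟨h₀, hh₀⟩ := QuotientGroup.mk_surjective (g₀ : H ⧸ Z)
  obtain ⟨c, hc⟩ := hπ h₀
  have hpow : ∀ y : H ⧸ Z, y ∈ C → ∃ k : ℤ, (g₀ : H ⧸ Z) ^ k = y := by
    intro y hy
    obtain ⟨k, hk⟩ := Subgroup.mem_zpowers_iff.mp (hg₀ ⟨y, hy⟩)
    refine ⟨k, ?_⟩
    have h1 := congrArg Subtype.val hk
    rw [Subgroup.coe_zpow] at h1
    exact h1
  by_cases hcD : c ∈ Z.comap π
  · apply hZ
    have h1 : (g₀ : H ⧸ Z) = 1 := by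
      rw [← hh₀, QuotientGroup.eq_one_iff, ← hc]
      exact hcD
    have hC1 : ∀ x : H ⧸ Z, x ∈ C → x = 1 := by
      intro x hx
      obtain ⟨k, hk⟩ := hpow x hx
      rw [h1, one_zpow] at hk
      exact hk.symm
    rw [eq_top_iff]
    intro h _
    have h2 : (h : H ⧸ Z) ∈ Subgroup.centralizer (C : Set (H ⧸ Z)) := by
      rw [Subgroup.mem_centralizer_iff]
      intro y hy
      rw [hC1 y hy, one_mul, mul_one]
    rw [hcen] at h2
    exact (QuotientGroup.eq_one_iff h).mp (hC1 _ h2)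
  · apply Cfsg.Agent.Lib.Helper7.fr_no_selfcent (Z.comap π) lam hlaminv β hβ e
      (he.trans (Subgroup.index_comap_of_surjective Z hπ).symm) hβD c hcD
    intro x hx
    have hcomm : ((π x : H) : H ⧸ Z) * (g₀ : H ⧸ Z) = (g₀ : H ⧸ Z) * ((π x : H) : H ⧸ Z) := by
      rw [← hh₀, ← hc]
      have h1 : (((π (x⁻¹ * c⁻¹ * x * c)) : H) : H ⧸ Z) = 1 :=
        (QuotientGroup.eq_one_iff _).mpr hx
      have e1 : x * c = c * x * (x⁻¹ * c⁻¹ * x * c) := by group
      have h2 : ((π (x * c) : H) : H ⧸ Z) = ((π (c * x) : H) : H ⧸ Z) := by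
        rw [e1, map_mul π (c * x), QuotientGroup.mk_mul, h1, mul_one]
      rw [map_mul, map_mul, QuotientGroup.mk_mul, QuotientGroup.mk_mul] at h2
      exact h2
    have hmem : ((π x : H) : H ⧸ Z) ∈ Subgroup.centralizer (C : Set (H ⧸ Z)) := by
      rw [Subgroup.mem_centralizer_iff]
      intro y hy
      obtain ⟨k, hk⟩ := hpow y hy
      rw [← hk]
      exact (Commute.zpow_left (show Commute (g₀ : H ⧸ Z) ((π x : H) : H ⧸ Z) from
        hcomm.symm) k).eq
    rw [hcen] at hmem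
    obtain ⟨i, hi⟩ := hpow _ hmem
    refine ⟨i, ?_⟩
    show π (c ^ (-i) * x) ∈ Z
    rw [← QuotientGroup.eq_one_iff, map_mul, map_zpow, QuotientGroup.mk_mul,
      QuotientGroup.mk_zpow, hc, hh₀, ← hi, zpow_neg, inv_mul_cancel]

end Cfsg.Agent.S4565
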