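import Mathlib
import Cfsg.Statements.S4582

set_option autoImplicit false
open Cfsg

namespace Cfsg.Agent.S4582

open Subgroup MulAction

/-- key lemma when `G = N P` -/
theorem key {G : Type*} [Group G] [Finite G] (N : Subgroup G) [hNn : N.Normal] (P : Subgroup G)
    (hP2 : IsPGroup 2 P) (hidx : Odd P.index)
    (hNP : ∀ g : G, ∃ n ∈ N, ∃ u ∈ P, g = n * u)
    (hP : ∀ x ∈ P, x ^ 2 ∈ (P ⊓ N) ⊔ ⁅P, P⁆)
    (hQ : ∀ x ∈ P ⊓ N, x ^ 2 ∈ ⁅P ⊓ N, P ⊓ N⁆)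
    (hodd : Odd (Nat.card (Abelianization N))) :
    ∀ x ∈ P, x ^ 2 ∈ ⁅P, P⁆ := by
  classical
  intro u hu
  let ϕ : ↥P →* Abelianization ↥P := Abelianization.of
  have hker : ∀ (y : G) (hy : y ∈ P), ϕ ⟨y, hy⟩ = 1 ↔ y ∈ ⁅P, P⁆ := by
    intro y hy
    rw [← MonoidHom.mem_ker, Abelianization.ker_of, ← Subgroup.map_subtype_commutator]
    constructor
    · intro h; exact ⟨⟨y, hy⟩, h, rfl⟩
    · rintro ⟨z, hz, hzy⟩
      have : z = ⟨y, hy⟩ := Subtype.ext hzy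
      rw [← this]; exact hz
  have hA2 : IsPGroup 2 (Abelianization ↥P) :=
    hP2.of_surjective ϕ (QuotientGroup.mk_surjective)
  have hcop2 : ∀ (a : Abelianization ↥P) (d : ℕ), Odd d → a ^ d = 1 → a = 1 := by
    intro a d hd had
    obtain ⟨j, hj⟩ := hA2 a
    have h3 : orderOf a ∣ d := orderOf_dvd_of_pow_eq_one had
    have h4 : orderOf a ∣ 2 ^ j := orderOf_dvd_of_pow_eq_one hj
    have h5 : d.Coprime (2 ^ j) := Nat.Coprime.pow_right _ (Nat.coprime_two_right.mpr hd)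
    exact orderOf_eq_one_iff.mp (Nat.eq_one_of_dvd_coprimes h5 h3 h4)
  let V : G →* Abelianization ↥P := MonoidHom.transfer ϕ
  have hVN : ∀ n ∈ N, V n = 1 := by
    intro n hn
    let f : ↥N →* Abelianization ↥P := V.comp N.subtype
    have h1 : V n = Abelianization.lift f (Abelianization.of ⟨n, hn⟩) := by
      rw [Abelianization.lift_apply_of]; rfl
    have h2 : (V n) ^ (Nat.card (Abelianization ↥N)) = 1 := by
      rw [h1, ← map_pow, pow_card_eq_one', map_one]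
    exact hcop2 _ _ hodd h2
  have hVc : ∀ c ∈ ⁅P, P⁆, V c = 1 := by
    intro c hc
    have h1 : ⁅P, P⁆ ≤ commutator G := Subgroup.commutator_mono le_top le_top
    exact MonoidHom.mem_ker.mp (Abelianization.commutator_subset_ker V (h1 hc))
  have hVu2 : V (u ^ 2) = 1 := by
    have h1 : (P ⊓ N) ⊔ ⁅P, P⁆ ≤ V.ker := by
      refine sup_le ?_ ?_
      · intro y hy; exact MonoidHom.mem_ker.mpr (hVN y hy.2)
      · intro y hy; exact MonoidHom.mem_ker.mpr (hVc y hy)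
    exact MonoidHom.mem_ker.mp (h1 (hP u hu))
  have hfactor : ∀ (g : G) (k : ℕ) (hmem : g⁻¹ * u ^ k * g ∈ P),
      (ϕ ⟨g⁻¹ * u ^ k * g, hmem⟩) ^ 2 = (ϕ ⟨u, hu⟩) ^ (2 * k) := by
    intro g k hmem
    obtain ⟨n, hn, w, hw, rfl⟩ := hNP g
    have hy : n⁻¹ * u ^ k * n ∈ P := by
      have : n⁻¹ * u ^ k * n = w * ((n * w)⁻¹ * u ^ k * (n * w)) * w⁻¹ := by group
      rw [this]; exact P.mul_mem (P.mul_mem hw hmem) (P.inv_mem hw)
    have huk : u ^ k ∈ P := P.pow_mem hu k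
    have hq1 : (u ^ k)⁻¹ * (n⁻¹ * u ^ k * n) ∈ P := P.mul_mem (P.inv_mem huk) hy
    have hq' : (u ^ k)⁻¹ * (n⁻¹ * u ^ k * n) ∈ P ⊓ N := by
      refine ⟨hq1, ?_⟩
      have : (u ^ k)⁻¹ * (n⁻¹ * u ^ k * n) = ((u ^ k)⁻¹ * n⁻¹ * (u ^ k)⁻¹⁻¹) * n := by group
      rw [this]
      exact N.mul_mem (hNn.conj_mem _ (N.inv_mem hn) _) hn
    have e1 : (⟨(n * w)⁻¹ * u ^ k * (n * w), hmem⟩ : ↥P) =
        ⟨w, hw⟩⁻¹ * (⟨u, hu⟩ ^ k * ⟨(u ^ k)⁻¹ * (n⁻¹ * u ^ k * n), hq1⟩) * ⟨w, hw⟩ := by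
      apply Subtype.ext
      show (n * w)⁻¹ * u ^ k * (n * w) = w⁻¹ * (u ^ k * ((u ^ k)⁻¹ * (n⁻¹ * u ^ k * n))) * w
      group
    have e2 : ϕ ⟨(u ^ k)⁻¹ * (n⁻¹ * u ^ k * n), hq1⟩ ^ 2 = 1 := by
      rw [← map_pow]
      have := hQ _ hq'
      have hle : ⁅P ⊓ N, P ⊓ N⁆ ≤ ⁅P, P⁆ := Subgroup.commutator_mono inf_le_left inf_le_left
      exact (hker _ (P.pow_mem hq1 2)).mpr (hle this)
    rw [e1, map_mul, map_mul, map_mul, map_inv, map_pow]
    have e3 : ∀ a b c : Abelianization ↥P, c ^ 2 = 1 →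
        (a⁻¹ * (b ^ k * c) * a) ^ 2 = b ^ (2 * k) := by
      intro a b c hc
      have : a⁻¹ * (b ^ k * c) * a = b ^ k * c := by
        rw [mul_comm a⁻¹, mul_assoc, mul_assoc, inv_mul_cancel, mul_one]
      rw [this, mul_pow, hc, mul_one, ← pow_mul, mul_comm]
    exact e3 _ _ _ e2
  have hV2 : (V u) ^ 2 = (ϕ ⟨u, hu⟩) ^ (2 * P.index) := by
    haveI : Fintype (Quotient (orbitRel (zpowers u) (G ⧸ P))) := Fintype.ofFinite _
    rw [show V u = _ from MonoidHom.transfer_eq_prod_quotient_orbitRel_zpowers_quot ϕ u,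
      ← Finset.prod_pow]
    rw [Finset.prod_congr rfl (fun q _ => hfactor _ _ _)]
    rw [Finset.prod_pow_eq_pow_sum, ← Finset.mul_sum, ← Subgroup.index_eq_sum_minimalPeriod]
  have h1 : (ϕ ⟨u, hu⟩) ^ (2 * P.index) = 1 := by rw [← hV2, ← map_pow, hVu2]
  have h2 : (ϕ ⟨u, hu⟩ ^ 2) ^ P.index = 1 := by rw [← pow_mul]; exact h1
  have h3 : ϕ ⟨u, hu⟩ ^ 2 = 1 := hcop2 _ _ hidx h2
  have h4 : ϕ ⟨u ^ 2, P.pow_mem hu 2⟩ = 1 := by
    rw [← h3, ← map_pow]; rfl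
  exact (hker (u ^ 2) (P.pow_mem hu 2)).mp h4

theorem result {G : Type*} [Group G] [Finite G] (N : Subgroup G) [N.Normal] (P : Sylow 2 G)
    (hP : ∀ x ∈ (P : Subgroup G), x ^ 2 ∈ ((P : Subgroup G) ⊓ N) ⊔ ⁅(P : Subgroup G), (P : Subgroup G)⁆)
    (hQ : ∀ x ∈ (P : Subgroup G) ⊓ N, x ^ 2 ∈ ⁅(P : Subgroup G) ⊓ N, (P : Subgroup G) ⊓ N⁆)
    (hodd : Odd (Nat.card (Abelianization N))) :
    ∀ x ∈ (P : Subgroup G), x ^ 2 ∈ ⁅(P : Subgroup G), (P : Subgroup G)⁆ := by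
  obtain ⟨H, hH⟩ : ∃ H : Subgroup G, H = N ⊔ (P : Subgroup G) := ⟨_, rfl⟩
  have hNH : N ≤ H := hH ▸ le_sup_left
  have hPH : (P : Subgroup G) ≤ H := hH ▸ le_sup_right
  have hmapP : ((P : Subgroup G).subgroupOf H).map H.subtype = (P : Subgroup G) :=
    Subgroup.map_subgroupOf_eq_of_le hPH
  have hmapN : (N.subgroupOf H).map H.subtype = N := Subgroup.map_subgroupOf_eq_of_le hNH
  have hinj := H.subtype_injective
  have hmapQ : (((P : Subgroup G).subgroupOf H) ⊓ (N.subgroupOf H)).map H.subtype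
      = (P : Subgroup G) ⊓ N := by
    rw [Subgroup.map_inf _ _ _ hinj, hmapP, hmapN]
  have hmapC : (⁅(P : Subgroup G).subgroupOf H, (P : Subgroup G).subgroupOf H⁆).map H.subtype
      = ⁅(P : Subgroup G), (P : Subgroup G)⁆ := by
    rw [Subgroup.map_commutator, hmapP]
  have hmapCQ : (⁅((P : Subgroup G).subgroupOf H) ⊓ (N.subgroupOf H),
      ((P : Subgroup G).subgroupOf H) ⊓ (N.subgroupOf H)⁆).map H.subtype
      = ⁅(P : Subgroup G) ⊓ N, (P : Subgroup G) ⊓ N⁆ := by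
    rw [Subgroup.map_commutator, hmapQ]
  haveI : (N.subgroupOf H).Normal := Subgroup.Normal.subgroupOf inferInstance H
  have key0 := key (N.subgroupOf H) ((P : Subgroup G).subgroupOf H) ?_ ?_ ?_ ?_ ?_ ?_
  · intro x hx
    have := key0 ⟨x, hPH hx⟩ (by rw [Subgroup.mem_subgroupOf]; exact hx)
    rw [← hmapC]
    exact ⟨_, this, rfl⟩
  · exact P.2.comap_subtype
  · have h1 : ((P : Subgroup G).subgroupOf H).index ∣ (P : Subgroup G).index :=
      Subgroup.relIndex_dvd_index_of_le hPH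
    have h2 : ¬ 2 ∣ (P : Subgroup G).index := P.not_dvd_index
    rw [← Nat.not_even_iff_odd, even_iff_two_dvd]
    exact fun h => h2 (h.trans h1)
  · intro g
    have hg : (g : G) ∈ ((N ⊔ (P : Subgroup G) : Subgroup G) : Set G) := by
      rw [← hH]; exact g.2
    rw [Subgroup.normal_mul] at hg
    obtain ⟨n, hn, u, hu, hnu⟩ := Set.mem_mul.mp hg
    refine ⟨⟨n, hNH hn⟩, by rw [Subgroup.mem_subgroupOf]; exact hn, ⟨u, hPH hu⟩,
      by rw [Subgroup.mem_subgroupOf]; exact hu, Subtype.ext hnu.symm⟩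
  · intro x hx
    have hx' : (x : G) ∈ (P : Subgroup G) := Subgroup.mem_subgroupOf.mp hx
    have h1 := hP _ hx'
    have h2 : (((P : Subgroup G).subgroupOf H ⊓ N.subgroupOf H) ⊔
        ⁅(P : Subgroup G).subgroupOf H, (P : Subgroup G).subgroupOf H⁆).map H.subtype
        = ((P : Subgroup G) ⊓ N) ⊔ ⁅(P : Subgroup G), (P : Subgroup G)⁆ := by
      rw [Subgroup.map_sup, hmapQ, hmapC]
    rw [← h2] at h1
    obtain ⟨z, hz, hzx⟩ := h1
    have : z = x ^ 2 := Subtype.ext hzx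
    rw [← this]; exact hz
  · intro x hx
    have hx' : (x : G) ∈ (P : Subgroup G) ⊓ N := by
      rw [← hmapQ]; exact ⟨x, hx, rfl⟩
    have h1 := hQ _ hx'
    rw [← hmapCQ] at h1
    obtain ⟨z, hz, hzx⟩ := h1
    have : z = x ^ 2 := Subtype.ext hzx
    rw [← this]; exact hz
  · have e : ↥(N.subgroupOf H) ≃* ↥N := Subgroup.subgroupOfEquivOfLe hNH
    rw [Nat.card_congr (MulEquiv.abelianizationCongr e).toEquiv]
    exact hodd

end Cfsg.Agent.S4582
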