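import Cfsg.Statements.S4584
import Mathlib
import Cfsg.Agent.Lib.Helper3.PGroup

set_option autoImplicit false
open Cfsg

namespace Cfsg.Agent.S4584

section
variable {P : Type*} [Group P]

/-- the homomorphism `g ↦ [g, h]` of a group of class at most two -/
def commHom (hZ : commutator P ≤ Subgroup.center P) (h : P) : P →* P where
  toFun g := g * h * g⁻¹ * h⁻¹
  map_one' := by group
  map_mul' := by
    intro a b
    obtain ⟨c, hcdef⟩ : ∃ c, c = b * h * b⁻¹ * h⁻¹ := ⟨_, rfl⟩
    have hc : c ∈ Subgroup.center P := hZ (by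
      rw [commutator_def, hcdef, ← commutatorElement_def]
      exact Subgroup.commutator_mem_commutator (Subgroup.mem_top b) (Subgroup.mem_top h))
    have hcomm : ∀ t : P, t * c = c * t := Subgroup.mem_center_iff.1 hc
    calc a * b * h * (a * b)⁻¹ * h⁻¹ = a * (b * h * b⁻¹ * h⁻¹) * (h * a⁻¹ * h⁻¹) := by group
      _ = a * c * (h * a⁻¹ * h⁻¹) := by rw [hcdef]
      _ = c * a * (h * a⁻¹ * h⁻¹) := by rw [hcomm a]
      _ = c * (a * h * a⁻¹ * h⁻¹) := by group
      _ = (a * h * a⁻¹ * h⁻¹) * c := (hcomm _).symm
      _ = (a * h * a⁻¹ * h⁻¹) * (b * h * b⁻¹ * h⁻¹) := by rw [hcdef]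

theorem commHom_apply (hZ : commutator P ≤ Subgroup.center P) (h g : P) :
    commHom hZ h g = g * h * g⁻¹ * h⁻¹ := rfl

theorem commHom_center (hZ : commutator P ≤ Subgroup.center P) (h z : P)
    (hz : z ∈ Subgroup.center P) : commHom hZ h z = 1 := by
  rw [commHom_apply, ← Subgroup.mem_center_iff.1 hz h]
  group

theorem commHom_swap (hZ : commutator P ≤ Subgroup.center P) (h g : P) :
    commHom hZ h g = (commHom hZ g h)⁻¹ := by
  rw [commHom_apply, commHom_apply]; group

theorem comm_le_zpowers (hZ : commutator P ≤ Subgroup.center P) (x y : P)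
    (hgen : ∀ K : Subgroup P, Subgroup.center P ≤ K → x ∈ K → y ∈ K → K = ⊤) :
    commutator P ≤ Subgroup.zpowers (x * y * x⁻¹ * y⁻¹) := by
  obtain ⟨D, hD⟩ : ∃ D : Subgroup P, D = Subgroup.zpowers (x * y * x⁻¹ * y⁻¹) := ⟨_, rfl⟩
  rw [← hD]
  have hxy : commHom hZ y x ∈ D := by
    rw [commHom_apply, hD]; exact Subgroup.mem_zpowers _
  have hself : ∀ h : P, commHom hZ h h = 1 := by
    intro h; rw [commHom_apply]; group
  have key : ∀ h : P, commHom hZ h x ∈ D → commHom hZ h y ∈ D → ∀ g, commHom hZ h g ∈ D := by
    intro h hx hy g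
    have htop : D.comap (commHom hZ h) = ⊤ :=
      hgen _ (fun z hz => by rw [Subgroup.mem_comap, commHom_center hZ h z hz]; exact D.one_mem)
        (by rw [Subgroup.mem_comap]; exact hx) (by rw [Subgroup.mem_comap]; exact hy)
    have hg : g ∈ D.comap (commHom hZ h) := by rw [htop]; exact Subgroup.mem_top g
    exact hg
  have h1 : ∀ g, commHom hZ y g ∈ D :=
    key y hxy (by rw [hself]; exact D.one_mem)
  have h2 : ∀ g, commHom hZ x g ∈ D :=
    key x (by rw [hself]; exact D.one_mem) (by rw [commHom_swap]; exact D.inv_mem hxy)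
  rw [commutator_def, Subgroup.commutator_le]
  intro g _ h _
  rw [commutatorElement_def, ← commHom_apply hZ h g]
  exact key h (by rw [commHom_swap]; exact D.inv_mem (h2 h))
    (by rw [commHom_swap]; exact D.inv_mem (h1 h)) g

theorem comm_pow (hZ : commutator P ≤ Subgroup.center P) (x y : P) (n : ℕ)
    (hx : x ^ n ∈ Subgroup.center P) : (x * y * x⁻¹ * y⁻¹) ^ n = 1 := by
  rw [← commHom_apply hZ y x, ← map_pow, commHom_center hZ y _ hx]

end

section
variable {P : Type*} [Group P] [Finite P] (p : ℕ) [Fact p.Prime]

theorem card_pow (hP : Nat.card P = p ^ 4) (H : Subgroup P) :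
    ∃ k, k ≤ 4 ∧ Nat.card H = p ^ k :=
  (Nat.dvd_prime_pow Fact.out).1 (hP ▸ Subgroup.card_subgroup_dvd_card H)

theorem card_lt_of_lt {H K : Subgroup P} (hle : H ≤ K) (hne : H ≠ K) :
    Nat.card H < Nat.card K := by
  by_contra hlt
  exact hne (Subgroup.eq_of_le_of_card_ge hle (by omega))

/-- a non-abelian group of order `p^4` has centre of index divisible by `p^2` -/
theorem two_le_of_center_ne_top (hP : Nat.card P = p ^ 4) (hZ : Subgroup.center P ≠ ⊤)
    (j : ℕ) (hj : (Subgroup.center P).index = p ^ j) : 2 ≤ j := by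
  have hp : p.Prime := Fact.out
  by_contra hlt
  apply hZ
  have hj' : j = 0 ∨ j = 1 := by omega
  rcases hj' with rfl | rfl
  · rw [pow_zero] at hj; exact Subgroup.index_eq_one.1 hj
  · rw [pow_one] at hj
    haveI : IsCyclic (P ⧸ Subgroup.center P) :=
      isCyclic_of_prime_card (p := p) (by rw [← Subgroup.index_eq_card]; exact hj)
    have hc := MonoidHom.isMulCommutative_of_isCyclic_of_ker_le_center
      (QuotientGroup.mk' (Subgroup.center P)) (by rw [QuotientGroup.ker_mk'])
    refine eq_top_iff.2 fun g _ => ?_
    rw [Subgroup.mem_center_iff]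
    intro t
    exact hc.is_comm.comm t g

theorem comm_le_center_of_card (hPg : IsPGroup p P) (hc : Nat.card (commutator P) = p) :
    commutator P ≤ Subgroup.center P := by
  have hp : p.Prime := Fact.out
  have hne : commutator P ≠ ⊥ := by
    intro h
    rw [h, Subgroup.card_bot] at hc
    exact hp.one_lt.ne hc
  obtain ⟨z, hz, hz1, hzc⟩ := Lib.Helper3.exists_ne_one_mem_center_of_normal hPg (commutator P) hne
  have hle : Subgroup.zpowers z ≤ commutator P := by rw [Subgroup.zpowers_le]; exact hz
  have hcard : Nat.card (Subgroup.zpowers z) = p := by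
    have h1 := Subgroup.card_dvd_of_le hle
    rw [hc] at h1
    rcases (Nat.dvd_prime hp).1 h1 with h | h
    · rw [Nat.card_zpowers] at h
      exact absurd (orderOf_eq_one_iff.1 h) hz1
    · exact h
  have heq : Subgroup.zpowers z = commutator P :=
    Subgroup.eq_of_le_of_card_ge hle (by rw [hc, hcard])
  rw [← heq, Subgroup.zpowers_le]
  exact hzc

/-- forward direction of the main statement, exported for later use -/
theorem card_comm_of_index_center (hP : Nat.card P = p ^ 4)
    (hidx : (Subgroup.center P).index = p ^ 2) : Nat.card (commutator P) = p := by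
  have hp : p.Prime := Fact.out
  have hZne : Subgroup.center P ≠ ⊤ := by
    intro h
    rw [h, Subgroup.index_top] at hidx
    have : 1 < p ^ 2 := Nat.one_lt_pow (by norm_num) hp.one_lt
    omega
  have hZcard : Nat.card (Subgroup.center P) = p ^ 2 := by
    have h1 := Subgroup.card_mul_index (Subgroup.center P)
    rw [hidx, hP] at h1
    have h2 : p ^ 4 = p ^ 2 * p ^ 2 := by ring
    rw [h2] at h1
    exact Nat.eq_of_mul_eq_mul_right (pow_pos hp.pos 2) h1
  have hPZ : commutator P ≤ Subgroup.center P := by
    have hcq : IsMulCommutative (P ⧸ Subgroup.center P) :=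
      IsPGroup.isMulCommutative_of_card_eq_prime_sq (p := p)
        (by rw [← Subgroup.index_eq_card]; exact hidx)
    rw [commutator_def, Subgroup.commutator_le]
    intro g _ h _
    rw [← QuotientGroup.eq_one_iff, commutatorElement_def]
    simp only [QuotientGroup.mk_mul, QuotientGroup.mk_inv]
    rw [hcq.is_comm.comm (g : P ⧸ Subgroup.center P) (h : P ⧸ Subgroup.center P)]
    group
  obtain ⟨x, hx⟩ : ∃ x : P, x ∉ Subgroup.center P := by
    by_contra h
    push Not at h
    exact hZne (eq_top_iff.2 fun g _ => h g)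
  obtain ⟨Z₁, hZ₁⟩ : ∃ Z₁ : Subgroup P, Z₁ = Subgroup.center P ⊔ Subgroup.zpowers x := ⟨_, rfl⟩
  have hZle : Subgroup.center P ≤ Z₁ := by rw [hZ₁]; exact le_sup_left
  have hxZ₁ : x ∈ Z₁ := by rw [hZ₁]; exact Subgroup.mem_sup_right (Subgroup.mem_zpowers x)
  have hZ₁cent : Z₁ ≤ Subgroup.centralizer {x} := by
    rw [hZ₁]
    refine sup_le (Subgroup.center_le_centralizer _) ?_
    rw [Subgroup.zpowers_le, Subgroup.mem_centralizer_singleton_iff]
  have hZ₁ne : Z₁ ≠ ⊤ := by
    intro h
    apply hx
    rw [Subgroup.mem_center_iff]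
    intro g
    have hg : g ∈ Subgroup.centralizer {x} := hZ₁cent (by rw [h]; exact Subgroup.mem_top g)
    exact Subgroup.mem_centralizer_singleton_iff.1 hg
  obtain ⟨k, hk4, hk⟩ := card_pow p hP Z₁
  have hk3 : k = 3 := by
    have h1 : Nat.card (Subgroup.center P) < Nat.card Z₁ :=
      card_lt_of_lt hZle (fun h => hx (by rw [h]; exact hxZ₁))
    rw [hZcard, hk] at h1
    have h2 : 2 < k := (Nat.pow_lt_pow_iff_right hp.one_lt).1 h1
    have h3 : k ≠ 4 := by
      intro h
      apply hZ₁ne
      exact Subgroup.eq_top_of_card_eq _ (by rw [hk, h, hP])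
    omega
  subst hk3
  obtain ⟨y, hy⟩ : ∃ y : P, y ∉ Z₁ := by
    by_contra h
    push Not at h
    exact hZ₁ne (eq_top_iff.2 fun g _ => h g)
  have hgen : ∀ K : Subgroup P, Subgroup.center P ≤ K → x ∈ K → y ∈ K → K = ⊤ := by
    intro K hZK hxK hyK
    have hle : Z₁ ≤ K := by
      rw [hZ₁]; exact sup_le hZK (by rw [Subgroup.zpowers_le]; exact hxK)
    have h1 : Nat.card Z₁ < Nat.card K :=
      card_lt_of_lt hle (fun h => hy (by rw [h]; exact hyK))
    obtain ⟨j, hj4, hj⟩ := card_pow p hP K
    rw [hk, hj] at h1
    have h2 : 3 < j := (Nat.pow_lt_pow_iff_right hp.one_lt).1 h1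
    have h3 : j = 4 := by omega
    exact Subgroup.eq_top_of_card_eq _ (by rw [hj, h3, hP])
  have hxp : x ^ p ∈ Subgroup.center P := by
    by_contra hxp
    apply hZ₁ne
    have hqcard : Nat.card (P ⧸ Subgroup.center P) = p ^ 2 := by
      rw [← Subgroup.index_eq_card]; exact hidx
    have ho : orderOf (x : P ⧸ Subgroup.center P) = p ^ 2 := by
      have h1 : orderOf (x : P ⧸ Subgroup.center P) ∣ p ^ 2 := by
        rw [← hqcard]; exact orderOf_dvd_natCard _
      obtain ⟨j, hj, hoj⟩ := (Nat.dvd_prime_pow hp).1 h1
      have hj2 : j = 2 := by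
        by_contra hne
        apply hxp
        rw [← QuotientGroup.eq_one_iff, QuotientGroup.mk_pow]
        apply orderOf_dvd_iff_pow_eq_one.1
        rw [hoj]
        have : j = 0 ∨ j = 1 := by omega
        rcases this with rfl | rfl
        · rw [pow_zero]; exact one_dvd p
        · rw [pow_one]
      rw [hoj, hj2]
    have htop : Subgroup.zpowers (x : P ⧸ Subgroup.center P) = ⊤ :=
      Subgroup.eq_top_of_card_eq _ (by rw [Nat.card_zpowers, ho, hqcard])
    refine eq_top_iff.2 fun g _ => ?_
    have hg : (g : P ⧸ Subgroup.center P) ∈ Subgroup.zpowers (x : P ⧸ Subgroup.center P) := by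
      rw [htop]; exact Subgroup.mem_top _
    obtain ⟨i, hi⟩ := Subgroup.mem_zpowers_iff.1 hg
    have h1 : ((x ^ i : P) : P ⧸ Subgroup.center P) = (g : P ⧸ Subgroup.center P) := by
      rw [QuotientGroup.mk_zpow]; exact hi
    have h2 : (x ^ i)⁻¹ * g ∈ Subgroup.center P := QuotientGroup.eq.1 h1
    have h3 : g = x ^ i * ((x ^ i)⁻¹ * g) := by group
    rw [h3]
    exact Z₁.mul_mem (Z₁.zpow_mem hxZ₁ i) (hZle h2)
  have hle := comm_le_zpowers hPZ x y hgen
  have hcp := comm_pow hPZ x y p hxp
  have h1 : Nat.card (commutator P) ∣ p := by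
    refine (Subgroup.card_dvd_of_le hle).trans ?_
    rw [Nat.card_zpowers]
    exact orderOf_dvd_of_pow_eq_one hcp
  rcases (Nat.dvd_prime hp).1 h1 with h | h
  · exfalso
    apply hZne
    rw [← commutator_eq_bot_iff_center_eq_top]
    exact Subgroup.card_eq_one.1 h
  · exact h

theorem index_centralizer (hPZ : commutator P ≤ Subgroup.center P)
    (hc : Nat.card (commutator P) = p) (x : P) (hx : x ∉ Subgroup.center P) :
    (Subgroup.centralizer {x}).index = p := by
  have hp : p.Prime := Fact.out
  have hker : (commHom hPZ x).ker = Subgroup.centralizer {x} := by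
    ext g
    rw [MonoidHom.mem_ker, commHom_apply, Subgroup.mem_centralizer_singleton_iff]
    constructor
    · intro h
      have : g * x = (g * x * g⁻¹ * x⁻¹) * x * g := by group
      rw [this, h, one_mul]
    · intro h
      rw [h]; group
  have hrange : (commHom hPZ x).range ≤ commutator P := by
    rintro _ ⟨g, rfl⟩
    rw [commHom_apply, commutator_def, ← commutatorElement_def]
    exact Subgroup.commutator_mem_commutator (Subgroup.mem_top g) (Subgroup.mem_top x)
  have h1 : (Subgroup.centralizer {x}).index ∣ p := by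
    rw [← hker, Subgroup.index_ker, ← hc]
    exact Subgroup.card_dvd_of_le hrange
  rcases (Nat.dvd_prime hp).1 h1 with h | h
  · exfalso
    apply hx
    rw [Subgroup.mem_center_iff]
    intro g
    have hg : g ∈ Subgroup.centralizer {x} := by
      rw [Subgroup.index_eq_one.1 h]; exact Subgroup.mem_top g
    exact Subgroup.mem_centralizer_singleton_iff.1 hg
  · exact h

end

/-- Let p be a prime and P a group of order p^4. Then the derived subgroup P' has order p if and only if the centre Z(P) has index p^2 in P. -/
theorem result {P : Type*} [Group P] [Finite P] (p : ℕ) [Fact p.Prime] (hP : Nat.card P = p ^ 4) :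
    Nat.card (commutator P) = p ↔ (Subgroup.center P).index = p ^ 2 := by
  have hp : p.Prime := Fact.out
  have hPg : IsPGroup p P := IsPGroup.of_card hP
  constructor
  · intro hc
    have hPZ := comm_le_center_of_card p hPg hc
    have hZne : Subgroup.center P ≠ ⊤ := by
      intro h
      rw [← commutator_eq_bot_iff_center_eq_top] at h
      rw [h, Subgroup.card_bot] at hc
      exact hp.one_lt.ne hc
    obtain ⟨j, hj4, hj⟩ : ∃ j, j ≤ 4 ∧ (Subgroup.center P).index = p ^ j :=
      (Nat.dvd_prime_pow hp).1 (hP ▸ Subgroup.index_dvd_card _)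
    have hj2 := two_le_of_center_ne_top p hP hZne j hj
    have hcm := Subgroup.card_mul_index (Subgroup.center P)
    rw [hj, hP] at hcm
    have hZcard : Nat.card (Subgroup.center P) = p ^ (4 - j) := by
      have h2 : p ^ 4 = p ^ (4 - j) * p ^ j := by rw [← pow_add]; congr 1; omega
      rw [h2] at hcm
      exact Nat.eq_of_mul_eq_mul_right (pow_pos hp.pos j) hcm
    have hj4' : j ≠ 4 := by
      intro h
      rw [h] at hZcard
      have h0 : Nat.card (Subgroup.center P) = 1 := by rw [hZcard]; norm_num
      have h1 := Subgroup.card_dvd_of_le hPZ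
      rw [hc, h0] at h1
      have := Nat.le_of_dvd (by norm_num) h1
      have := hp.one_lt
      omega
    have hj3 : j ≠ 3 := by
      intro h3
      rw [h3] at hZcard
      norm_num at hZcard
      -- |Z| = p
      obtain ⟨x, hx⟩ : ∃ x : P, x ∉ Subgroup.center P := by
        by_contra h
        push Not at h
        exact hZne (eq_top_iff.2 fun g _ => h g)
      have hMidx := index_centralizer p hPZ hc x hx
      obtain ⟨M, hM⟩ : ∃ M : Subgroup P, M = Subgroup.centralizer {x} := ⟨_, rfl⟩
      rw [← hM] at hMidx
      have hMcard : Nat.card M = p ^ 3 := by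
        have h1 := Subgroup.card_mul_index M
        rw [hMidx, hP] at h1
        have h2 : p ^ 4 = p ^ 3 * p := by ring
        rw [h2] at h1
        exact Nat.eq_of_mul_eq_mul_right hp.pos h1
      have hZM : Subgroup.center P ≤ M := by rw [hM]; exact Subgroup.center_le_centralizer _
      have hxM : x ∈ M := by rw [hM, Subgroup.mem_centralizer_singleton_iff]
      -- M is abelian
      have hMab : ∀ a ∈ M, ∀ b ∈ M, a * b = b * a := by
        by_contra hcon
        push Not at hcon
        obtain ⟨w, hwM, m, hmM, hwm⟩ := hcon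
        obtain ⟨K, hK⟩ : ∃ K : Subgroup P, K = Subgroup.center P ⊔ Subgroup.zpowers x := ⟨_, rfl⟩
        have hKM : K ≤ M := by
          rw [hK]; exact sup_le hZM (by rw [Subgroup.zpowers_le]; exact hxM)
        have hKc : ∀ k ∈ K, ∀ t ∈ M, t * k = k * t := by
          intro k hk t ht
          have h1 : K ≤ Subgroup.centralizer {t} := by
            rw [hK]
            refine sup_le (Subgroup.center_le_centralizer _) ?_
            rw [Subgroup.zpowers_le, Subgroup.mem_centralizer_singleton_iff]
            rw [hM, Subgroup.mem_centralizer_singleton_iff] at ht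
            exact ht.symm
          exact (Subgroup.mem_centralizer_singleton_iff.1 (h1 hk)).symm
        have hxK : x ∈ K := by rw [hK]; exact Subgroup.mem_sup_right (Subgroup.mem_zpowers x)
        have hwK : w ∉ K := fun h => hwm (hKc w h m hmM).symm
        obtain ⟨a, ha4, ha⟩ := card_pow p hP K
        have ha2 : 2 ≤ a := by
          have h1 : Nat.card (Subgroup.center P) < Nat.card K :=
            card_lt_of_lt (by rw [hK]; exact le_sup_left) (fun h => hx (by rw [h]; exact hxK))
          rw [hZcard, ha] at h1
          have h2 : 1 < a := (Nat.pow_lt_pow_iff_right hp.one_lt).1 (by rwa [pow_one])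
          omega
        obtain ⟨K', hK'⟩ : ∃ K' : Subgroup P, K' = K ⊔ Subgroup.zpowers w := ⟨_, rfl⟩
        have hK'M : K' ≤ M := by
          rw [hK']; exact sup_le hKM (by rw [Subgroup.zpowers_le]; exact hwM)
        have hwK' : w ∈ K' := by rw [hK']; exact Subgroup.mem_sup_right (Subgroup.mem_zpowers w)
        obtain ⟨b, hb4, hb⟩ := card_pow p hP K'
        have hab : a < b := by
          have h1 : Nat.card K < Nat.card K' :=
            card_lt_of_lt (by rw [hK']; exact le_sup_left) (fun h => hwK (by rw [h]; exact hwK'))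
          rw [ha, hb] at h1
          exact (Nat.pow_lt_pow_iff_right hp.one_lt).1 h1
        have hb3 : b ≤ 3 := by
          have h1 := Subgroup.card_le_of_le hK'M
          rw [hb, hMcard] at h1
          exact (Nat.pow_le_pow_iff_right hp.one_lt).1 h1
        have hK'eq : K' = M := Subgroup.eq_of_le_of_card_ge hK'M (by
          rw [hb, hMcard, show b = 3 by omega])
        have hcw : K' ≤ Subgroup.centralizer {w} := by
          rw [hK']
          refine sup_le ?_ ?_
          · intro k hk
            rw [Subgroup.mem_centralizer_singleton_iff]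
            exact (hKc k hk w hwM).symm
          · rw [Subgroup.zpowers_le, Subgroup.mem_centralizer_singleton_iff]
        have hm' : m ∈ Subgroup.centralizer {w} := hcw (by rw [hK'eq]; exact hmM)
        exact hwm (Subgroup.mem_centralizer_singleton_iff.1 hm').symm
      obtain ⟨y, hy⟩ : ∃ y : P, y ∉ M := by
        by_contra h
        push Not at h
        have : M = ⊤ := eq_top_iff.2 fun g _ => h g
        rw [this, Subgroup.index_top] at hMidx
        exact hp.one_lt.ne hMidx
      have hyZ : y ∉ Subgroup.center P := fun h => hy (hZM h)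
      have hM2idx := index_centralizer p hPZ hc y hyZ
      have hI : (M ⊓ Subgroup.centralizer {y}).index ≤ p * p := by
        have := Subgroup.index_inf_le (H := M) (K := Subgroup.centralizer {y})
        rwa [hMidx, hM2idx] at this
      have hIle : M ⊓ Subgroup.centralizer {y} ≤ Subgroup.center P := by
        intro t ht
        obtain ⟨htM, hty⟩ := Subgroup.mem_inf.1 ht
        have hMt : M ≤ Subgroup.centralizer {t} := by
          intro m hm
          rw [Subgroup.mem_centralizer_singleton_iff]
          exact hMab m hm t htM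
        have hyt : y ∈ Subgroup.centralizer {t} := by
          rw [Subgroup.mem_centralizer_singleton_iff]
          exact (Subgroup.mem_centralizer_singleton_iff.1 hty).symm
        have h1 : Nat.card M < Nat.card (Subgroup.centralizer {t}) :=
          card_lt_of_lt hMt (fun h => hy (by rw [h]; exact hyt))
        obtain ⟨a, ha4, ha⟩ := card_pow p hP (Subgroup.centralizer {t})
        rw [hMcard, ha] at h1
        have h2 : 3 < a := (Nat.pow_lt_pow_iff_right hp.one_lt).1 h1
        have htop : Subgroup.centralizer {t} = ⊤ :=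
          Subgroup.eq_top_of_card_eq _ (by rw [ha, show a = 4 by omega, hP])
        rw [Subgroup.mem_center_iff]
        intro g
        have hg : g ∈ Subgroup.centralizer {t} := by rw [htop]; exact Subgroup.mem_top g
        exact Subgroup.mem_centralizer_singleton_iff.1 hg
      have h5 := Subgroup.card_le_of_le hIle
      rw [hZcard] at h5
      have h6 := Subgroup.card_mul_index (M ⊓ Subgroup.centralizer {y})
      rw [hP] at h6
      have h7 : p ^ 4 ≤ p * (p * p) := by
        calc p ^ 4 = Nat.card ↥(M ⊓ Subgroup.centralizer {y}) *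
              (M ⊓ Subgroup.centralizer {y}).index := h6.symm
          _ ≤ p * (p * p) := Nat.mul_le_mul h5 hI
      have h8 : p * (p * p) = p ^ 3 := by ring
      rw [h8] at h7
      have := (Nat.pow_le_pow_iff_right hp.one_lt).1 h7
      omega
    have : j = 2 := by omega
    rw [hj, this]
  · intro hidx
    exact card_comm_of_index_center p hP hidx

end Cfsg.Agent.S4584
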