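import Cfsg.Statements.S4585
import Mathlib
import Cfsg.Agent.S4584
import Cfsg.Agent.Lib.Lead.NilpClass
import Cfsg.Agent.Lib.Lead.Class2

set_option autoImplicit false
open Cfsg

namespace Cfsg.Agent.S4585

/-- Let p be a prime and P a group of order p^4. Then P' has index p^2 in P if and only if P has maximal nilpotency class, that is, nilpotency class exactly 3. -/
theorem result {P : Type*} [Group P] [Finite P] (p : ℕ) [Fact p.Prime] (hP : Nat.card P = p ^ 4) :
    (commutator P).index = p ^ 2 ↔ Group.nilpotencyClass P = 3 := by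
  have hp : p.Prime := Fact.out
  have hPg : IsPGroup p P := IsPGroup.of_card hP
  haveI : Group.IsNilpotent P := hPg.isNilpotent
  have hle3 : Group.nilpotencyClass P ≤ 3 := by
    have := Lib.Lead.nilpotencyClass_le_of_card p 4 P hP
    simpa using this
  have hclass2 : Group.nilpotencyClass P ≤ 2 ↔ commutator P ≤ Subgroup.center P := by
    rw [← Subgroup.lowerCentralSeries_eq_bot_iff_nilpotencyClass_le]
    show (⊤ : Subgroup P).lowerCentralSeries (1 + 1) = ⊥ ↔ _
    rw [Subgroup.lowerCentralSeries_succ, Subgroup.top_lowerCentralSeries_one,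
      Subgroup.commutator_eq_bot_iff_le_centralizer, Subgroup.coe_top, Subgroup.centralizer_univ]
  obtain ⟨j, hj4, hj⟩ : ∃ j, j ≤ 4 ∧ (commutator P).index = p ^ j :=
    (Nat.dvd_prime_pow hp).1 (hP ▸ Subgroup.index_dvd_card _)
  have hcm := Subgroup.card_mul_index (commutator P)
  rw [hj, hP] at hcm
  have hccard : Nat.card (commutator P) = p ^ (4 - j) := by
    have h2 : p ^ 4 = p ^ (4 - j) * p ^ j := by rw [← pow_add]; congr 1; omega
    rw [h2] at hcm
    exact Nat.eq_of_mul_eq_mul_right (pow_pos hp.pos j) hcm
  constructor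
  · intro hidx
    have hj2 : j = 2 := by
      rw [hj] at hidx
      exact Nat.pow_right_injective hp.two_le hidx
    subst hj2
    by_contra hne
    have h2 : Group.nilpotencyClass P ≤ 2 := by omega
    have hPZ := hclass2.1 h2
    have hZne : Subgroup.center P ≠ ⊤ := by
      intro h
      rw [← commutator_eq_bot_iff_center_eq_top] at h
      rw [h, Subgroup.card_bot] at hccard
      have : 1 < p ^ (4 - 2) := Nat.one_lt_pow (by norm_num) hp.one_lt
      omega
    obtain ⟨i, hi4, hi⟩ : ∃ i, i ≤ 4 ∧ (Subgroup.center P).index = p ^ i :=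
      (Nat.dvd_prime_pow hp).1 (hP ▸ Subgroup.index_dvd_card _)
    have hi2 := S4584.two_le_of_center_ne_top p hP hZne i hi
    have hzm := Subgroup.card_mul_index (Subgroup.center P)
    rw [hi, hP] at hzm
    have hZcard : Nat.card (Subgroup.center P) = p ^ (4 - i) := by
      have h2 : p ^ 4 = p ^ (4 - i) * p ^ i := by rw [← pow_add]; congr 1; omega
      rw [h2] at hzm
      exact Nat.eq_of_mul_eq_mul_right (pow_pos hp.pos i) hzm
    have h3 := Subgroup.card_le_of_le hPZ
    rw [hccard, hZcard] at h3
    have h4 : 4 - 2 ≤ 4 - i := (Nat.pow_le_pow_iff_right hp.one_lt).1 h3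
    have hi2' : i = 2 := by omega
    rw [hi2'] at hi
    have h5 := S4584.card_comm_of_index_center p hP hi
    rw [hccard] at h5
    have h6 : p ^ (4 - 2) = p ^ 1 := by rw [h5, pow_one]
    have := Nat.pow_right_injective hp.two_le h6
    omega
  · intro hcl
    have hnPZ : ¬ commutator P ≤ Subgroup.center P := by
      intro h
      have := hclass2.2 h
      omega
    have hj2 : 2 ≤ j := by
      by_contra hlt
      apply hnPZ
      obtain ⟨x, hx⟩ : ∃ x : P, Subgroup.zpowers x ⊔ commutator P = ⊤ := by
        have hj' : j = 0 ∨ j = 1 := by omega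
        rcases hj' with rfl | rfl
        · rw [pow_zero] at hj
          refine ⟨1, ?_⟩
          rw [Subgroup.index_eq_one.1 hj]; exact sup_top_eq _
        · obtain ⟨x, hx⟩ : ∃ x : P, x ∉ commutator P := by
            by_contra h
            push Not at h
            have : commutator P = ⊤ := eq_top_iff.2 fun g _ => h g
            rw [this, Subgroup.index_top, pow_one] at hj
            exact hp.one_lt.ne hj
          refine ⟨x, ?_⟩
          have h1 : Nat.card (commutator P) < Nat.card ↥(Subgroup.zpowers x ⊔ commutator P) :=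
            S4584.card_lt_of_lt le_sup_right (fun h => hx (by
              rw [h]; exact Subgroup.mem_sup_left (Subgroup.mem_zpowers x)))
          obtain ⟨a, ha4, ha⟩ := S4584.card_pow p hP (Subgroup.zpowers x ⊔ commutator P)
          rw [hccard, ha] at h1
          have h2 : 4 - 1 < a := (Nat.pow_lt_pow_iff_right hp.one_lt).1 h1
          exact Subgroup.eq_top_of_card_eq _ (by rw [ha, show a = 4 by omega, hP])
      have hsup2 : Subgroup.zpowers x ⊔ frattini P = ⊤ := by
        refine eq_top_iff.2 ?_
        rw [← hx]
        exact sup_le_sup_left (Lib.Lead.commutator_le_frattini_of_pGroup hPg) _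
      have hxt := frattini_nongenerating hsup2
      have hbot : commutator P = ⊥ := by
        rw [eq_bot_iff, commutator_def, Subgroup.commutator_le]
        intro g₁ _ g₂ _
        rw [Subgroup.mem_bot, commutatorElement_eq_one_iff_mul_comm]
        have h1 : g₁ ∈ Subgroup.zpowers x := by rw [hxt]; exact Subgroup.mem_top _
        have h2 : g₂ ∈ Subgroup.zpowers x := by rw [hxt]; exact Subgroup.mem_top _
        obtain ⟨a, rfl⟩ := Subgroup.mem_zpowers_iff.1 h1
        obtain ⟨b, rfl⟩ := Subgroup.mem_zpowers_iff.1 h2
        exact (Commute.zpow_zpow_self x a b).eq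
      rw [hbot]; exact bot_le
    have hj2' : j ≤ 2 := by
      by_contra hlt
      apply hnPZ
      have hj' : j = 3 ∨ j = 4 := by omega
      rcases hj' with rfl | rfl
      · exact S4584.comm_le_center_of_card p hPg (by rw [hccard]; norm_num)
      · have : commutator P = ⊥ := Subgroup.card_eq_one.1 (by rw [hccard]; norm_num)
        rw [this]; exact bot_le
    rw [hj, show j = 2 by omega]

end Cfsg.Agent.S4585
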