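import Cfsg.Statements.S4586
import Mathlib

set_option autoImplicit false
open Cfsg
open scoped commutatorElement

namespace Cfsg.Agent.S4586

section
variable {Q : Type*} [Group Q]

/-- `m ↦ [x, m]` on an abelian normal subgroup -/
def phi (M : Subgroup Q) [hMn : M.Normal] (hab : ∀ a ∈ M, ∀ b ∈ M, a * b = b * a) (x : Q) :
    M →* Q where
  toFun m := x * m * x⁻¹ * (m : Q)⁻¹
  map_one' := by simp
  map_mul' := by
    intro a b
    obtain ⟨w, hw⟩ : ∃ w, w = x * (b : Q) * x⁻¹ * (b : Q)⁻¹ := ⟨_, rfl⟩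
    have h1 : w ∈ M := by
      rw [hw]; exact M.mul_mem (hMn.conj_mem _ b.2 x) (M.inv_mem b.2)
    have h2 : w * (a : Q)⁻¹ = (a : Q)⁻¹ * w := hab w h1 _ (M.inv_mem a.2)
    show x * ((a : Q) * b) * x⁻¹ * ((a : Q) * b)⁻¹ =
      (x * a * x⁻¹ * (a : Q)⁻¹) * (x * b * x⁻¹ * (b : Q)⁻¹)
    calc x * ((a : Q) * b) * x⁻¹ * ((a : Q) * b)⁻¹
        = x * a * x⁻¹ * ((x * b * x⁻¹ * (b : Q)⁻¹) * (a : Q)⁻¹) := by group
      _ = x * a * x⁻¹ * (w * (a : Q)⁻¹) := by rw [hw]
      _ = x * a * x⁻¹ * ((a : Q)⁻¹ * w) := by rw [h2]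
      _ = (x * a * x⁻¹ * (a : Q)⁻¹) * (x * b * x⁻¹ * (b : Q)⁻¹) := by rw [hw]; group

theorem phi_apply (M : Subgroup Q) [M.Normal] (hab : ∀ a ∈ M, ∀ b ∈ M, a * b = b * a) (x : Q)
    (m : M) : phi M hab x m = x * m * x⁻¹ * (m : Q)⁻¹ := rfl

theorem gen_top [Finite Q] (p : ℕ) [Fact p.Prime] (M : Subgroup Q) (hidx : M.index = p) (x : Q)
    (hx : x ∉ M) (K : Subgroup Q) (hMK : M ≤ K) (hxK : x ∈ K) : K = ⊤ := by
  have hp : p.Prime := Fact.out
  have h1 : K.index ∣ p := by rw [← hidx]; exact Subgroup.index_dvd_of_le hMK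
  rcases (Nat.dvd_prime hp).1 h1 with h | h
  · exact Subgroup.index_eq_one.1 h
  · exfalso
    apply hx
    have h2 := Subgroup.card_mul_index M
    have h3 := Subgroup.card_mul_index K
    rw [hidx] at h2
    rw [h, ← h2] at h3
    have h4 : Nat.card K = Nat.card M := Nat.eq_of_mul_eq_mul_right hp.pos h3
    have h5 : M = K := Subgroup.eq_of_le_of_card_ge hMK (by rw [h4])
    rw [h5]; exact hxK

theorem comm_card [Finite Q] (p : ℕ) [Fact p.Prime] (M : Subgroup Q) [hMn : M.Normal]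
    (hidx : M.index = p) (hab : ∀ a ∈ M, ∀ b ∈ M, a * b = b * a) (x : Q) (hx : x ∉ M) :
    Nat.card (commutator Q) * Nat.card ↥(M ⊓ Subgroup.centralizer {x}) = Nat.card M := by
  obtain ⟨D, hD⟩ : ∃ D : Subgroup Q, D = (phi M hab x).range := ⟨_, rfl⟩
  have hphiD : ∀ m : M, x * m * x⁻¹ * (m : Q)⁻¹ ∈ D := by
    intro m; rw [hD]; exact ⟨m, rfl⟩
  have hDM : D ≤ M := by
    rw [hD]
    rintro _ ⟨m, rfl⟩
    rw [phi_apply]
    exact M.mul_mem (hMn.conj_mem _ m.2 x) (M.inv_mem m.2)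
  -- D is normal
  have hDn : ∀ g : Q, ∀ d ∈ D, g * d * g⁻¹ ∈ D := by
    let S : Subgroup Q :=
      { carrier := {g | ∀ d ∈ D, g * d * g⁻¹ ∈ D ∧ g⁻¹ * d * g ∈ D}
        one_mem' := by intro d hd; simp [hd]
        mul_mem' := by
          intro a b ha hb d hd
          refine ⟨?_, ?_⟩
          · have := (ha _ (hb d hd).1).1
            have e : a * b * d * (a * b)⁻¹ = a * (b * d * b⁻¹) * a⁻¹ := by group
            rw [e]; exact this
          · have := (hb _ (ha d hd).2).2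
            have e : (a * b)⁻¹ * d * (a * b) = b⁻¹ * (a⁻¹ * d * a) * b := by group
            rw [e]; exact this
        inv_mem' := by
          intro a ha d hd
          refine ⟨?_, ?_⟩
          · have := (ha d hd).2
            rw [inv_inv]; exact this
          · have := (ha d hd).1
            rw [inv_inv]; exact this }
    have hS : S = ⊤ := by
      apply gen_top p M hidx x hx S
      · intro m hm d hd
        have h1 : m * d = d * m := hab m hm d (hDM hd)
        have e1 : m * d * m⁻¹ = d := by rw [h1]; group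
        have e2 : m⁻¹ * d * m = d := by rw [mul_assoc, ← h1]; group
        exact ⟨by rw [e1]; exact hd, by rw [e2]; exact hd⟩
      · intro d hd
        rw [hD] at hd
        obtain ⟨m, rfl⟩ := hd
        rw [phi_apply]
        refine ⟨?_, ?_⟩
        · have := hphiD ⟨x * m * x⁻¹, hMn.conj_mem _ m.2 x⟩
          have e : x * (x * ↑m * x⁻¹ * (↑m : Q)⁻¹) * x⁻¹ =
              x * (x * ↑m * x⁻¹) * x⁻¹ * (x * ↑m * x⁻¹)⁻¹ := by group
          rw [e]; exact this
        · have hm' : x⁻¹ * ↑m * x ∈ M := by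
            have := hMn.conj_mem _ m.2 x⁻¹
            rwa [inv_inv] at this
          have := hphiD ⟨x⁻¹ * m * x, hm'⟩
          have e : x⁻¹ * (x * ↑m * x⁻¹ * (↑m : Q)⁻¹) * x =
              x * (x⁻¹ * ↑m * x) * x⁻¹ * (x⁻¹ * ↑m * x)⁻¹ := by group
          rw [e]; exact this
    intro g d hd
    have hg : g ∈ S := by rw [hS]; exact Subgroup.mem_top g
    exact (hg d hd).1
  -- the subgroups C_h
  have key : ∀ h : Q, (∀ m ∈ M, m * h * m⁻¹ * h⁻¹ ∈ D) → x * h * x⁻¹ * h⁻¹ ∈ D →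
      ∀ g, g * h * g⁻¹ * h⁻¹ ∈ D := by
    intro h hM hxh
    let C : Subgroup Q :=
      { carrier := {g | g * h * g⁻¹ * h⁻¹ ∈ D}
        one_mem' := by
          show (1 : Q) * h * 1⁻¹ * h⁻¹ ∈ D
          have : (1 : Q) * h * 1⁻¹ * h⁻¹ = 1 := by group
          rw [this]; exact D.one_mem
        mul_mem' := by
          intro a b ha hb
          show a * b * h * (a * b)⁻¹ * h⁻¹ ∈ D
          have e : a * b * h * (a * b)⁻¹ * h⁻¹ =
              a * (b * h * b⁻¹ * h⁻¹) * a⁻¹ * (a * h * a⁻¹ * h⁻¹) := by group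
          rw [e]
          exact D.mul_mem (hDn a _ hb) ha
        inv_mem' := by
          intro a ha
          show a⁻¹ * h * a⁻¹⁻¹ * h⁻¹ ∈ D
          have e : a⁻¹ * h * a⁻¹⁻¹ * h⁻¹ = a⁻¹ * (a * h * a⁻¹ * h⁻¹)⁻¹ * a⁻¹⁻¹ := by group
          rw [e]
          exact hDn a⁻¹ _ (D.inv_mem ha) }
    have hC : C = ⊤ := gen_top p M hidx x hx C (fun m hm => hM m hm) hxh
    intro g
    have hg : g ∈ C := by rw [hC]; exact Subgroup.mem_top g
    exact hg
  have swap : ∀ g h : Q, g * h * g⁻¹ * h⁻¹ = (h * g * h⁻¹ * g⁻¹)⁻¹ := by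
    intro g h; group
  have h1 : ∀ g, g * x * g⁻¹ * x⁻¹ ∈ D := by
    apply key x
    · intro m hm
      rw [swap]; exact D.inv_mem (hphiD ⟨m, hm⟩)
    · have : x * x * x⁻¹ * x⁻¹ = 1 := by group
      rw [this]; exact D.one_mem
  have h2 : ∀ m ∈ M, ∀ g, g * m * g⁻¹ * m⁻¹ ∈ D := by
    intro m hm
    apply key m
    · intro m' hm'
      rw [hab m' hm' m hm]
      have : m * m' * m'⁻¹ * m⁻¹ = 1 := by group
      rw [this]; exact D.one_mem
    · exact hphiD ⟨m, hm⟩
  have hcomm : commutator Q = D := by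
    apply le_antisymm
    · rw [commutator_def, Subgroup.commutator_le]
      intro g _ h _
      rw [commutatorElement_def]
      apply key h
      · intro m hm
        rw [swap]; exact D.inv_mem (h2 m hm h)
      · rw [swap]; exact D.inv_mem (h1 h)
    · rw [hD]
      rintro _ ⟨m, rfl⟩
      rw [phi_apply, commutator_def, ← commutatorElement_def]
      exact Subgroup.commutator_mem_commutator (Subgroup.mem_top x) (Subgroup.mem_top _)
  have hker : (phi M hab x).ker.map M.subtype = M ⊓ Subgroup.centralizer {x} := by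
    ext g
    rw [Subgroup.mem_map, Subgroup.mem_inf, Subgroup.mem_centralizer_singleton_iff]
    constructor
    · rintro ⟨m, hm, rfl⟩
      rw [MonoidHom.mem_ker, phi_apply] at hm
      refine ⟨m.2, ?_⟩
      show (m : Q) * x = x * m
      have : x * (m : Q) = (x * m * x⁻¹ * (m : Q)⁻¹) * m * x := by group
      rw [this, hm, one_mul]
    · rintro ⟨hg, hc⟩
      refine ⟨⟨g, hg⟩, ?_, rfl⟩
      rw [MonoidHom.mem_ker, phi_apply]
      show x * g * x⁻¹ * g⁻¹ = 1
      rw [← hc]; group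
  have hkcard : Nat.card ↥(M ⊓ Subgroup.centralizer {x}) = Nat.card (phi M hab x).ker := by
    rw [← hker]
    exact Subgroup.card_map_of_injective M.subtype_injective
  rw [hcomm, hkcard, hD, ← Subgroup.index_ker, mul_comm]
  exact Subgroup.card_mul_index _

end

/-- Let p be a prime, P a finite p-group and N a normal subgroup of P of index p. For x ∈ P write c(x) for the number of elements n of N whose commutator x n x⁻¹ n⁻¹ lies in the derived subgroup N' (so c(x)/#N' is the order of the centralizer of x acting on N/N'). Then [P : P'] = p² if and only if c(x) = p·#N' for every x ∈ P outside N, and also if and only if c(x) = p·#N' for some x ∈ P outside N. -/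
theorem result {P : Type*} [Group P] [Finite P] (p : ℕ) [Fact p.Prime] (hP : IsPGroup p P) (N : Subgroup P) [N.Normal] (hN : N.index = p) :
    ((commutator P).index = p ^ 2 ↔ ∀ x : P, x ∉ N →
        Nat.card {n : N // x * n * x⁻¹ * (n : P)⁻¹ ∈ (commutator N).map N.subtype} = p * Nat.card (commutator N)) ∧
    ((commutator P).index = p ^ 2 ↔ ∃ x : P, x ∉ N ∧
        Nat.card {n : N // x * n * x⁻¹ * (n : P)⁻¹ ∈ (commutator N).map N.subtype} = p * Nat.card (commutator N)) := by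
  have hp : p.Prime := Fact.out
  -- N₂ = [N, N]
  have hN₂ : (commutator N).map N.subtype = ⁅N, N⁆ := by
    rw [commutator_def, Subgroup.map_commutator, ← MonoidHom.range_eq_map, Subgroup.range_subtype]
  have hN₂card : Nat.card (⁅N, N⁆ : Subgroup P) = Nat.card (commutator N) := by
    rw [← hN₂]; exact Subgroup.card_map_of_injective N.subtype_injective
  rw [hN₂, ← hN₂card]
  obtain ⟨N₂, hN₂def⟩ : ∃ N₂ : Subgroup P, N₂ = ⁅N, N⁆ := ⟨_, rfl⟩
  rw [← hN₂def]
  haveI hN₂n : N₂.Normal := by rw [hN₂def]; infer_instance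
  have hN₂N : N₂ ≤ N := by rw [hN₂def]; exact Subgroup.commutator_le_right N N
  have hN₂P : N₂ ≤ commutator P := by
    rw [hN₂def, commutator_def]; exact Subgroup.commutator_mono le_top le_top
  have hsurj : Function.Surjective (QuotientGroup.mk' N₂) := QuotientGroup.mk'_surjective N₂
  have hkerπ : (QuotientGroup.mk' N₂).ker = N₂ := QuotientGroup.ker_mk' N₂
  obtain ⟨M, hMdef⟩ : ∃ M : Subgroup (P ⧸ N₂), M = N.map (QuotientGroup.mk' N₂) := ⟨_, rfl⟩
  haveI hMn : M.Normal := by rw [hMdef]; exact Subgroup.Normal.map inferInstance _ hsurj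
  have hMidx : M.index = p := by
    rw [hMdef, Subgroup.index_map_eq N hsurj (by rw [hkerπ]; exact hN₂N), hN]
  have hmemM : ∀ g : P, (QuotientGroup.mk' N₂) g ∈ M ↔ g ∈ N := by
    intro g
    rw [hMdef]
    constructor
    · rintro ⟨n, hn, hng⟩
      have h1 : n⁻¹ * g ∈ N₂ := QuotientGroup.eq.1 hng
      have h2 : g = n * (n⁻¹ * g) := by group
      rw [h2]; exact N.mul_mem hn (hN₂N h1)
    · intro hg; exact Subgroup.mem_map_of_mem _ hg
  have hMab : ∀ a ∈ M, ∀ b ∈ M, a * b = b * a := by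
    intro a ha b hb
    rw [hMdef] at ha hb
    obtain ⟨n₁, hn₁, rfl⟩ := ha
    obtain ⟨n₂, hn₂, rfl⟩ := hb
    rw [← map_mul, ← map_mul]
    apply QuotientGroup.eq.2
    have e : (n₁ * n₂)⁻¹ * (n₂ * n₁) = ⁅n₂⁻¹, n₁⁻¹⁆ := by rw [commutatorElement_def]; group
    rw [e, hN₂def]
    exact Subgroup.commutator_mem_commutator (N.inv_mem hn₂) (N.inv_mem hn₁)
  have hQcomm : commutator (P ⧸ N₂) = (commutator P).map (QuotientGroup.mk' N₂) := by
    rw [commutator_def, commutator_def, Subgroup.map_commutator,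
      Subgroup.map_top_of_surjective _ hsurj]
  have hQidx : (commutator (P ⧸ N₂)).index = (commutator P).index := by
    rw [hQcomm, Subgroup.index_map_eq _ hsurj (by rw [hkerπ]; exact hN₂P)]
  have hcardPQ : Nat.card P = Nat.card (P ⧸ N₂) * Nat.card N₂ :=
    Subgroup.card_eq_card_quotient_mul_card_subgroup N₂
  have hN₂pos : 0 < Nat.card N₂ := Nat.card_pos
  -- the key equation
  have keyeq : ∀ x : P, x ∉ N → (commutator P).index * Nat.card N₂ =
      p * Nat.card {n : N // x * n * x⁻¹ * (n : P)⁻¹ ∈ N₂} := by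
    intro x hx
    have hxM : (QuotientGroup.mk' N₂) x ∉ M := fun h => hx ((hmemM x).1 h)
    have hcc := comm_card p M hMidx hMab _ hxM
    obtain ⟨Kq, hKq⟩ : ∃ Kq : Subgroup (P ⧸ N₂),
        Kq = M ⊓ Subgroup.centralizer {(QuotientGroup.mk' N₂) x} := ⟨_, rfl⟩
    rw [← hKq] at hcc
    obtain ⟨Dx, hDx⟩ : ∃ Dx : Subgroup P, Dx = Kq.comap (QuotientGroup.mk' N₂) := ⟨_, rfl⟩
    have hDxidx : Dx.index = Kq.index := by
      rw [hDx, Subgroup.index_comap_of_surjective _ hsurj]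
    have hDxcard : Nat.card Dx = Nat.card Kq * Nat.card N₂ := by
      have h1 := Subgroup.card_mul_index Dx
      have h2 := Subgroup.card_mul_index Kq
      rw [hDxidx, hcardPQ, ← h2] at h1
      have hpos : 0 < Kq.index := Nat.pos_of_ne_zero Subgroup.index_ne_zero_of_finite
      have h3 : Nat.card Dx * Kq.index = (Nat.card Kq * Nat.card N₂) * Kq.index := by
        rw [h1]; ring
      exact Nat.eq_of_mul_eq_mul_right hpos h3
    have hmemDx : ∀ g : P, g ∈ Dx ↔ g ∈ N ∧ x * g * x⁻¹ * g⁻¹ ∈ N₂ := by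
      intro g
      rw [hDx, Subgroup.mem_comap, hKq, Subgroup.mem_inf, hmemM,
        Subgroup.mem_centralizer_singleton_iff,
        ← QuotientGroup.eq_one_iff (N := N₂) (x * g * x⁻¹ * g⁻¹)]
      have e : ((x * g * x⁻¹ * g⁻¹ : P) : P ⧸ N₂) =
          (QuotientGroup.mk' N₂) x * (QuotientGroup.mk' N₂) g * ((QuotientGroup.mk' N₂) x)⁻¹ *
            ((QuotientGroup.mk' N₂) g)⁻¹ := rfl
      rw [e]
      constructor
      · rintro ⟨h1, h2⟩
        refine ⟨h1, ?_⟩
        rw [← h2]; group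
      · rintro ⟨h1, h2⟩
        refine ⟨h1, ?_⟩
        obtain ⟨a, ha⟩ : ∃ a, a = (QuotientGroup.mk' N₂) x := ⟨_, rfl⟩
        obtain ⟨b, hb⟩ : ∃ b, b = (QuotientGroup.mk' N₂) g := ⟨_, rfl⟩
        rw [← ha, ← hb] at h2 ⊢
        have : a * b = (a * b * a⁻¹ * b⁻¹) * b * a := by group
        rw [this, h2, one_mul]
    have hcx : Nat.card {n : N // x * n * x⁻¹ * (n : P)⁻¹ ∈ N₂} = Nat.card Dx := by
      apply Nat.card_congr
      exact
        { toFun := fun n => ⟨n.1.1, (hmemDx _).2 ⟨n.1.2, n.2⟩⟩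
          invFun := fun g => ⟨⟨g.1, ((hmemDx _).1 g.2).1⟩, ((hmemDx _).1 g.2).2⟩
          left_inv := fun _ => rfl
          right_inv := fun _ => rfl }
    rw [hcx, hDxcard, ← hQidx]
    have h4 := Subgroup.card_mul_index (commutator (P ⧸ N₂))
    have h5 := Subgroup.card_mul_index M
    rw [hMidx] at h5
    -- cQ * I = |Q| = |M| * p = cQ * |Kq| * p
    have h6 : Nat.card (commutator (P ⧸ N₂)) * (commutator (P ⧸ N₂)).index =
        Nat.card (commutator (P ⧸ N₂)) * (Nat.card Kq * p) := by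
      rw [h4, ← h5, ← hcc]; ring
    have hpos : 0 < Nat.card (commutator (P ⧸ N₂)) := Nat.card_pos
    have h7 : (commutator (P ⧸ N₂)).index = Nat.card Kq * p := Nat.eq_of_mul_eq_mul_left hpos h6
    rw [h7]; ring
  have iff1 : ∀ x : P, x ∉ N → ((commutator P).index = p ^ 2 ↔
      Nat.card {n : N // x * n * x⁻¹ * (n : P)⁻¹ ∈ N₂} = p * Nat.card N₂) := by
    intro x hx
    have h := keyeq x hx
    constructor
    · intro hi
      rw [hi] at h
      have h2 : p * (p * Nat.card N₂) = p * Nat.card {n : N // x * n * x⁻¹ * (n : P)⁻¹ ∈ N₂} := by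
        rw [← h]; ring
      exact (Nat.eq_of_mul_eq_mul_left hp.pos h2).symm
    · intro hc
      rw [hc] at h
      have h2 : (commutator P).index * Nat.card N₂ = p ^ 2 * Nat.card N₂ := by
        rw [h]; ring
      exact Nat.eq_of_mul_eq_mul_right hN₂pos h2
  obtain ⟨x₀, hx₀⟩ : ∃ x : P, x ∉ N := by
    by_contra h
    push Not at h
    have : N = ⊤ := eq_top_iff.2 fun g _ => h g
    rw [this, Subgroup.index_top] at hN
    exact hp.one_lt.ne hN
  refine ⟨⟨fun hi x hx => (iff1 x hx).1 hi, fun h => (iff1 x₀ hx₀).2 (h x₀ hx₀)⟩,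
    ⟨fun hi => ⟨x₀, hx₀, (iff1 x₀ hx₀).1 hi⟩, fun ⟨x, hx, hc⟩ => (iff1 x hx).2 hc⟩⟩

end Cfsg.Agent.S4586
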