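import Mathlib
import Cfsg.Statements.S4601
import Cfsg.Agent.Lib.Helper6.PSolv
import Cfsg.Agent.Lib.Helper7.SylowIndex
import Cfsg.Agent.Lib.Helper7.SylowAux
import Cfsg.Agent.S4602

set_option autoImplicit false
open Cfsg

namespace Cfsg.Agent.S4601

open Subgroup
open Cfsg.Agent.Lib.Helper7
open scoped Pointwise

universe u

/-- the class-size hypothesis -/
def Hyp (p q : ℕ) (G : Type*) [Group G] : Prop :=
  ∀ y : G, (∃ k : ℕ, orderOf y = q ^ k) → ¬ p ∣ (Subgroup.centralizer ({y} : Set G)).index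

theorem hyp_quotient {G : Type*} [Group G] [Finite G] (p q : ℕ) [Fact q.Prime]
    (N : Subgroup G) [N.Normal] (h : Hyp p q G) : Hyp p q (G ⧸ N) := by
  intro ybar hk
  obtain ⟨Qbar, hQbar⟩ := exists_mem_sylow_of_orderOf ybar hk
  obtain ⟨Q, rfl⟩ := Sylow.mapSurjective_surjective (QuotientGroup.mk'_surjective N) q Qbar
  have hmem : ybar ∈ (Q : Subgroup G).map (QuotientGroup.mk' N) := hQbar
  obtain ⟨y, hyQ, rfl⟩ := hmem
  have h1 := h y (orderOf_of_mem_sylow Q y hyQ)
  intro hdvd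
  apply h1
  have h2 : (centralizer ({y} : Set G)).map (QuotientGroup.mk' N) ≤
      centralizer ({QuotientGroup.mk' N y} : Set (G ⧸ N)) := by
    rintro _ ⟨c, hc0, rfl⟩
    have hc : c ∈ centralizer ({y} : Set G) := hc0
    rw [mem_centralizer_singleton_iff] at hc ⊢
    rw [← map_mul, ← map_mul, hc]
  exact hdvd.trans ((index_dvd_of_le h2).trans (index_map_dvd _ (QuotientGroup.mk'_surjective N)))

/-- a Sylow `p`-subgroup can be conjugated into any subgroup of index prime to `p` -/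
theorem sylow_conj_into {G : Type*} [Group G] [Finite G] {p : ℕ} [Fact p.Prime] (H : Subgroup G)
    (hidx : ¬ p ∣ H.index) (P : Sylow p G) :
    ∃ g : G, ∀ x ∈ (P : Subgroup G), g * x * g⁻¹ ∈ H := by
  obtain ⟨T⟩ : Nonempty (Sylow p ↥H) := inferInstance
  have hcard : Nat.card ((T : Subgroup ↥H).map H.subtype) = p ^ (Nat.card G).factorization p := by
    rw [← Nat.card_congr ((T : Subgroup ↥H).equivMapOfInjective H.subtype
      H.subtype_injective).toEquiv, T.card_eq_multiplicity, ← Subgroup.card_mul_index H,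
      Nat.factorization_mul Nat.card_pos.ne'
        (by intro h0; rw [h0] at hidx; exact hidx (dvd_zero p))]
    simp [Nat.factorization_eq_zero_of_not_dvd hidx]
  obtain ⟨g, hg⟩ := MulAction.exists_smul_eq G P (Sylow.ofCard _ hcard)
  refine ⟨g, fun x hx => ?_⟩
  have h1 : g * x * g⁻¹ ∈ (g • P : Sylow p G) := by
    rw [mem_sylow_smul_iff]
    have : g⁻¹ * (g * x * g⁻¹) * g = x := by group
    rw [this]; exact hx
  rw [hg] at h1
  have h2 : g * x * g⁻¹ ∈ (T : Subgroup ↥H).map H.subtype := h1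
  exact Subgroup.map_subtype_le _ h2

theorem crux {G : Type*} [Group G] (S : Subgroup G) (y n : G) (a b : ℕ) (hab : a.Coprime b)
    (hya : y ^ a = 1) (htb : (y⁻¹ * n⁻¹ * y * n) ^ b = 1)
    (hyS : ∀ s ∈ S, y * s * y⁻¹ ∈ S)
    (hn : ∀ s ∈ S, y * (n * s * n⁻¹) = (n * s * n⁻¹) * y) : ∀ s ∈ S, y * s = s * y := by
  obtain ⟨t, ht⟩ : ∃ t, t = y⁻¹ * n⁻¹ * y * n := ⟨_, rfl⟩
  rw [← ht] at htb
  have hy' : ∀ s ∈ S, (y * t) * s = s * (y * t) := by
    intro s hs
    have h1 := hn s hs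
    have e1 : y * t = n⁻¹ * y * n := by rw [ht]; group
    rw [e1]
    calc n⁻¹ * y * n * s = n⁻¹ * (y * (n * s * n⁻¹)) * n := by group
      _ = n⁻¹ * ((n * s * n⁻¹) * y) * n := by rw [h1]
      _ = s * (n⁻¹ * y * n) := by group
  have hts : ∀ s ∈ S, t⁻¹ * s * t = y * s * y⁻¹ := by
    intro s hs
    have h1 := hy' (y * s * y⁻¹) (hyS s hs)
    calc t⁻¹ * s * t = t⁻¹ * (y⁻¹ * (y * s * y⁻¹ * (y * t))) := by group
      _ = t⁻¹ * (y⁻¹ * (y * t * (y * s * y⁻¹))) := by rw [h1]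
      _ = y * s * y⁻¹ := by group
  have hpow : ∀ k : ℕ, ∀ s ∈ S, y ^ k * s * (y ^ k)⁻¹ ∈ S ∧
      (t ^ k)⁻¹ * s * t ^ k = y ^ k * s * (y ^ k)⁻¹ := by
    intro k
    induction k with
    | zero => intro s hs; simp [hs]
    | succ k ih =>
      intro s hs
      obtain ⟨h1, h2⟩ := ih s hs
      have h3 := hts _ h1
      constructor
      · have : y ^ (k + 1) * s * (y ^ (k + 1))⁻¹ = y * (y ^ k * s * (y ^ k)⁻¹) * y⁻¹ := by
          group
        rw [this]; exact hyS _ h1
      · calc (t ^ (k + 1))⁻¹ * s * t ^ (k + 1) = t⁻¹ * ((t ^ k)⁻¹ * s * t ^ k) * t := by group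
          _ = t⁻¹ * (y ^ k * s * (y ^ k)⁻¹) * t := by rw [h2]
          _ = y * (y ^ k * s * (y ^ k)⁻¹) * y⁻¹ := h3
          _ = y ^ (k + 1) * s * (y ^ (k + 1))⁻¹ := by group
  obtain ⟨k, hk1, hk0⟩ := Nat.chineseRemainder hab 1 0
  have hyk : y ^ k = y := by
    have : y ^ k = y ^ 1 := by
      rw [pow_eq_pow_iff_modEq]
      exact Nat.ModEq.of_dvd (orderOf_dvd_of_pow_eq_one hya) hk1
    rw [this, pow_one]
  have htk : t ^ k = 1 := by
    have : t ^ k = t ^ 0 := by
      rw [pow_eq_pow_iff_modEq]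
      exact Nat.ModEq.of_dvd (orderOf_dvd_of_pow_eq_one htb) hk0
    rw [this, pow_zero]
  intro s hs
  obtain ⟨-, h2⟩ := hpow k s hs
  rw [hyk, htk] at h2
  have h3 : s = y * s * y⁻¹ := by simpa using h2
  calc y * s = (y * s * y⁻¹) * y := by group
    _ = s * y := by rw [← h3]

section cases
variable {G : Type*} [Group G] [Finite G] (p q : ℕ) [Fact p.Prime] [Fact q.Prime]

theorem case_a (N : Subgroup G) (hN : (Nat.card N).Coprime p) (Q : Sylow q G) :
    ¬ p ∣ (normalizer ((Q : Subgroup G) : Set G)).relIndex N := by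
  intro hdvd
  exact (Nat.Prime.coprime_iff_not_dvd Fact.out).mp hN.symm (hdvd.trans (relIndex_dvd_card _ _))

theorem relIndex_centralizer_dvd (N : Subgroup G) [N.Normal] (y : G) :
    (centralizer ({y} : Set G)).relIndex N ∣ (centralizer ({y} : Set G)).index := by
  rw [← relIndex_sup_eq_of_le_normalizer _ N
    (le_of_le_of_eq le_top (normalizer_eq_top (H := N)).symm)]
  exact relIndex_dvd_index_of_le le_sup_left

theorem case_b (N : Subgroup G) [N.Normal] (hN : ∃ m : ℕ, Nat.card N = p ^ m) (h : Hyp p q G)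
    (Q : Sylow q G) : ¬ p ∣ (normalizer ((Q : Subgroup G) : Set G)).relIndex N := by
  have hp : p.Prime := Fact.out
  have hNp : IsPGroup p N := by obtain ⟨m, hm⟩ := hN; exact IsPGroup.of_card hm
  have hle : N ≤ normalizer ((Q : Subgroup G) : Set G) := by
    refine le_trans ?_ (centralizer_le_normalizer _)
    intro n hn
    rw [mem_centralizer_iff]
    intro y hy
    have hy' := orderOf_of_mem_sylow Q y hy
    have e1 := relIndex_centralizer_dvd N y
    obtain ⟨j, hj⟩ := hNp.index ((centralizer ({y} : Set G)).subgroupOf N)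
    have hj' : (centralizer ({y} : Set G)).relIndex N = p ^ j := hj
    have hj0 : j = 0 := by
      by_contra hne
      apply h y hy'
      rw [hj'] at e1
      exact (dvd_pow_self p hne).trans e1
    rw [hj0, pow_zero] at hj'
    have hNC : N ≤ centralizer ({y} : Set G) := relIndex_eq_one.mp hj'
    have := hNC hn
    rw [mem_centralizer_singleton_iff] at this
    exact this.symm
  rw [relIndex_eq_one.mpr hle]
  exact fun h1 => hp.one_lt.ne' (Nat.dvd_one.mp h1)

theorem case_c (N : Subgroup G) [N.Normal] (hN : ∃ m : ℕ, Nat.card N = q ^ m) (Q : Sylow q G) :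
    ¬ p ∣ (normalizer ((Q : Subgroup G) : Set G)).relIndex N := by
  have hp : p.Prime := Fact.out
  have hNq : IsPGroup q N := by obtain ⟨m, hm⟩ := hN; exact IsPGroup.of_card hm
  have hle : N ≤ normalizer ((Q : Subgroup G) : Set G) :=
    (normal_pGroup_le_sylow N hNq Q).trans le_normalizer
  rw [relIndex_eq_one.mpr hle]
  exact fun h1 => hp.one_lt.ne' (Nat.dvd_one.mp h1)

theorem case_d (N : Subgroup G) [hNn : N.Normal] (hN : (Nat.card N).Coprime q)
    (h : Hyp p q G) (Q : Sylow q G) :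
    ¬ p ∣ (normalizer ((Q : Subgroup G) : Set G)).relIndex N := by
  have hq : q.Prime := Fact.out
  let φ : ↥(Q : Subgroup G) →* MulAut ↥N :=
    (MulAut.conjNormal (H := N)).comp (Q : Subgroup G).subtype
  letI : MulAction ↥(Q : Subgroup G) (Sylow p ↥N) := MulAction.compHom (Sylow p ↥N) φ
  have hcard : ¬ q ∣ Nat.card (Sylow p ↥N) := by
    obtain ⟨S₁⟩ : Nonempty (Sylow p ↥N) := inferInstance
    intro hdvd
    have h1 := hdvd.trans ((S₁.card_dvd_index).trans (Subgroup.index_dvd_card _))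
    exact (Nat.Prime.coprime_iff_not_dvd hq).mp hN.symm h1
  obtain ⟨S₀, hS₀⟩ := Q.2.nonempty_fixed_point_of_prime_not_dvd_card (Sylow p ↥N) hcard
  obtain ⟨S, hSdef⟩ : ∃ S : Subgroup G, S = (S₀ : Subgroup ↥N).map N.subtype := ⟨_, rfl⟩
  have hmemS : ∀ s : G, s ∈ S ↔ ∃ hs : s ∈ N, (⟨s, hs⟩ : ↥N) ∈ (S₀ : Subgroup ↥N) := by
    intro s
    rw [hSdef]
    constructor
    · rintro ⟨s₀, hs₀, rfl⟩; exact ⟨s₀.2, hs₀⟩
    · rintro ⟨hs, hs₀⟩; exact ⟨⟨s, hs⟩, hs₀, rfl⟩
  have hQS : ∀ a ∈ (Q : Subgroup G), ∀ s ∈ S, a * s * a⁻¹ ∈ S := by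
    intro a ha s hs
    obtain ⟨hsN, hs₀⟩ := (hmemS s).mp hs
    have h1 : (⟨a, ha⟩ : ↥(Q : Subgroup G)) • S₀ = S₀ := hS₀ ⟨a, ha⟩
    have h2 : (MulAut.conjNormal a : MulAut ↥N) • S₀ = S₀ := h1
    have h3 : (MulAut.conjNormal a : MulAut ↥N) • (⟨s, hsN⟩ : ↥N) ∈
        (MulAut.conjNormal a : MulAut ↥N) • (S₀ : Subgroup ↥N) :=
      Subgroup.smul_mem_pointwise_smul _ _ _ hs₀
    rw [← Sylow.pointwise_smul_def, h2] at h3
    rw [hmemS]
    refine ⟨hNn.conj_mem s hsN a, ?_⟩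
    have e : (MulAut.conjNormal a : MulAut ↥N) • (⟨s, hsN⟩ : ↥N) =
        ⟨a * s * a⁻¹, hNn.conj_mem s hsN a⟩ := by
      apply Subtype.ext
      rw [MulAut.smul_def, MulAut.conjNormal_apply]
    rw [e] at h3
    exact h3
  have hcent : ∀ y ∈ (Q : Subgroup G), ∀ s ∈ S, y * s = s * y := by
    intro y hy
    obtain ⟨k, hk⟩ := orderOf_of_mem_sylow Q y hy
    have e1 := relIndex_centralizer_dvd N y
    have hidx : ¬ p ∣ ((centralizer ({y} : Set G)).subgroupOf N).index :=
      fun hd => h y ⟨k, hk⟩ (hd.trans e1)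
    obtain ⟨n, hn⟩ := sylow_conj_into _ hidx S₀
    have hn' : ∀ s ∈ S, y * ((n : G) * s * (n : G)⁻¹) = ((n : G) * s * (n : G)⁻¹) * y := by
      intro s hs
      obtain ⟨hsN, hs₀⟩ := (hmemS s).mp hs
      have h1 := hn ⟨s, hsN⟩ hs₀
      rw [mem_subgroupOf, mem_centralizer_singleton_iff] at h1
      exact h1.symm
    have htN : y⁻¹ * (n : G)⁻¹ * y * (n : G) ∈ N := by
      have : y⁻¹ * (n : G)⁻¹ * y * (n : G) = (y⁻¹ * (n : G)⁻¹ * y⁻¹⁻¹) * (n : G) := by group
      rw [this]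
      exact N.mul_mem (hNn.conj_mem _ (N.inv_mem n.2) _) n.2
    have htb : (y⁻¹ * (n : G)⁻¹ * y * (n : G)) ^ Nat.card N = 1 := by
      have := pow_card_eq_one' (G := ↥N) (x := ⟨_, htN⟩)
      exact congrArg Subtype.val this
    have hya : y ^ (q ^ k) = 1 := by rw [← hk]; exact pow_orderOf_eq_one y
    exact crux S y (n : G) (q ^ k) (Nat.card N) (Nat.Coprime.pow_left k hN.symm) hya htb
      (hQS y hy) hn'
  have hSle : S ≤ normalizer ((Q : Subgroup G) : Set G) := by
    refine le_trans ?_ (centralizer_le_normalizer _)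
    intro s hs
    rw [mem_centralizer_iff]
    intro y hy
    exact hcent y hy s hs
  intro hdvd
  have h1 : (normalizer ((Q : Subgroup G) : Set G)).relIndex N ∣ S.relIndex N :=
    relIndex_dvd_of_le_left N hSle
  have h2 : S.relIndex N = (S₀ : Subgroup ↥N).index := by
    rw [relIndex, hSdef]
    congr 1
    exact Subgroup.comap_map_eq_self_of_injective N.subtype_injective _
  rw [h2] at h1
  exact S₀.not_dvd_index (hdvd.trans h1)

end cases

theorem base_case {G : Type*} [Group G] [Finite G] (p q : ℕ) [Fact p.Prime] [Fact q.Prime]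
    (hsub : Subsingleton G) : ¬ p ∣ Nat.card (Sylow q G) := by
  have hp : p.Prime := Fact.out
  obtain ⟨Q⟩ : Nonempty (Sylow q G) := inferInstance
  intro hdvd
  have h1 := hdvd.trans ((Q.card_dvd_index).trans (Subgroup.index_dvd_card _))
  rw [Nat.card_of_subsingleton (1 : G)] at h1
  exact hp.one_lt.ne' (Nat.dvd_one.mp h1)

theorem claim_of_solv_p {G : Type u} [Group G] [Finite G] (p q : ℕ) [Fact p.Prime] [Fact q.Prime]
    (hsolv : Cfsg.IsPSolvable p G) : Hyp p q G → ¬ p ∣ Nat.card (Sylow q G) := by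
  have hp : p.Prime := Fact.out
  refine Cfsg.Agent.Lib.Helper6.isPSolvable_induction p
    (fun (G : Type u) [Group G] => Hyp p q G → ¬ p ∣ Nat.card (Sylow q G)) ?_ ?_ G hsolv
  · intro G _ _ hsub _
    exact base_case p q hsub
  · intro G _ _ N _ hN _ ih h hdvd
    obtain ⟨Q⟩ : Nonempty (Sylow q G) := inferInstance
    rw [card_sylow_eq_quotient_mul Q N] at hdvd
    rcases (Nat.Prime.dvd_mul hp).mp hdvd with h1 | h1
    · exact ih (hyp_quotient p q N h) h1
    · rcases hN with hN | hN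
      · exact case_b p q N hN h Q h1
      · exact case_a p q N hN Q h1

theorem claim_of_solv_q {G : Type u} [Group G] [Finite G] (p q : ℕ) [Fact p.Prime] [Fact q.Prime]
    (hsolv : Cfsg.IsPSolvable q G) : Hyp p q G → ¬ p ∣ Nat.card (Sylow q G) := by
  have hp : p.Prime := Fact.out
  refine Cfsg.Agent.Lib.Helper6.isPSolvable_induction q
    (fun (G : Type u) [Group G] => Hyp p q G → ¬ p ∣ Nat.card (Sylow q G)) ?_ ?_ G hsolv
  · intro G _ _ hsub _
    exact base_case p q hsub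
  · intro G _ _ N _ hN _ ih h hdvd
    obtain ⟨Q⟩ : Nonempty (Sylow q G) := inferInstance
    rw [card_sylow_eq_quotient_mul Q N] at hdvd
    rcases (Nat.Prime.dvd_mul hp).mp hdvd with h1 | h1
    · exact ih (hyp_quotient p q N h) h1
    · rcases hN with hN | hN
      · exact case_c p q N hN Q h1
      · exact case_d p q N hN h Q h1

theorem result {G : Type*} [Group G] [Finite G] (p q : ℕ) [Fact p.Prime] [Fact q.Prime] (hsolv : Cfsg.IsPSolvable p G ∨ Cfsg.IsPSolvable q G)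
    (h : ∀ y : G, (∃ k : ℕ, orderOf y = q ^ k) → ¬ p ∣ (Subgroup.centralizer ({y} : Set G)).index) :
    ∃ (P : Sylow p G) (Q : Sylow q G), (P : Subgroup G) ≤ Subgroup.normalizer ((Q : Subgroup G) : Set G) := by
  have hnd : ¬ p ∣ Nat.card (Sylow q G) := by
    rcases hsolv with hs | hs
    · exact claim_of_solv_p p q hs h
    · exact claim_of_solv_q p q hs h
  obtain ⟨P⟩ : Nonempty (Sylow p G) := inferInstance
  obtain ⟨Q, hQ⟩ := Cfsg.Agent.S4602.exists_normalizes_of_not_dvd p q hnd P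
  exact ⟨P, Q, hQ⟩

end Cfsg.Agent.S4601
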