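import Cfsg.Statements.S4604
import Mathlib
import Cfsg.Agent.Lib.Lead.SylowAux2
import Cfsg.Agent.Lib.Lead.BrauerR2

set_option autoImplicit false
open Cfsg Cfsg.Agent.Lib.Lead

namespace Cfsg.Agent.S4604

open scoped Pointwise commutatorElement

/-- Let G be a finite group, p a prime and p^a the p-part of the order of G. Let x, y ∈ G and let x′, y′ be their p-regular parts: x′ has order prime to p, commutes with x·x′⁻¹, and x·x′⁻¹ has p-power order (likewise for y). Then x′ and y′ are conjugate in G if and only if for every irreducible character χ of G the algebraic integer χ(x)^(p^a) − χ(y)^(p^a) is p times an algebraic integer. -/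
theorem result {G : Type*} [Group G] [Finite G] (p : ℕ) [Fact p.Prime] (x y x' y' : G)
    (hx : (∃ k : ℕ, orderOf (x * x'⁻¹) = p ^ k) ∧ Commute (x * x'⁻¹) x' ∧ ¬ p ∣ orderOf x')
    (hy : (∃ k : ℕ, orderOf (y * y'⁻¹) = p ^ k) ∧ Commute (y * y'⁻¹) y' ∧ ¬ p ∣ orderOf y') :
    IsConj x' y' ↔ ∀ χ : Cfsg.IrrCharacter G, ∃ γ : Cfsg.AlgInt,
      (χ : G → ℂ) x ^ (p ^ (Nat.card G).factorization p) - (χ : G → ℂ) y ^ (p ^ (Nat.card G).factorization p) = (p : ℂ) * (γ : ℂ) := by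
  classical
  haveI : Fintype G := Fintype.ofFinite _
  haveI : Fintype (Cfsg.IrrCharacter G) := Fintype.ofFinite _
  have hp : p.Prime := Fact.out
  have hGpos : Nat.card G ≠ 0 := Nat.card_pos.ne'
  obtain ⟨n, hndef⟩ : ∃ n : ℕ, n = Nat.card G / p ^ (Nat.card G).factorization p := ⟨_, rfl⟩
  obtain ⟨a, hadef⟩ : ∃ a : ℕ, a = (Nat.card G).factorization p := ⟨_, rfl⟩
  rw [← hadef]
  rw [← hadef] at hndef
  have hcardG : Nat.card G = p ^ a * n := by
    rw [hndef, hadef]; exact (Nat.ordProj_mul_ordCompl_eq_self (Nat.card G) p).symm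
  have hpn : ¬ p ∣ n := by rw [hndef, hadef]; exact Nat.not_dvd_ordCompl hp hGpos
  have hcop : Nat.Coprime (p ^ a) n :=
    Nat.Coprime.pow_left a ((Nat.Prime.coprime_iff_not_dvd hp).mpr hpn)
  have hpow : ∀ z z' : G, (∃ k : ℕ, orderOf (z * z'⁻¹) = p ^ k) → Commute (z * z'⁻¹) z' →
      z ^ p ^ a = z' ^ p ^ a := by
    intro z z' hk hcomm
    obtain ⟨k, hk⟩ := hk
    have h1 : p ^ k ∣ Nat.card G := by rw [← hk]; exact orderOf_dvd_natCard _
    have h2 : k ≤ a := by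
      rw [hadef]; exact (Nat.Prime.pow_dvd_iff_le_factorization hp hGpos).mp h1
    have h3 : (z * z'⁻¹) ^ p ^ a = 1 := by
      apply orderOf_dvd_iff_pow_eq_one.mp
      rw [hk]; exact pow_dvd_pow p h2
    have h4 : z = (z * z'⁻¹) * z' := by group
    calc z ^ p ^ a = ((z * z'⁻¹) * z') ^ p ^ a := by rw [← h4]
      _ = (z * z'⁻¹) ^ p ^ a * z' ^ p ^ a := hcomm.mul_pow _
      _ = z' ^ p ^ a := by rw [h3, one_mul]
  have hF : ∀ (χ : Cfsg.IrrCharacter G) (z : G), ∃ γ : Cfsg.AlgInt,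
      (χ : G → ℂ) z ^ p ^ a - (χ : G → ℂ) (z ^ p ^ a) = (p : ℂ) * (γ : ℂ) :=
    fun χ z => char_pow_prime_pow_lead (isCharacter_of_isIrrCharacter χ.2) p hp a z
  have hxp := hpow x x' hx.1 hx.2.1
  have hyp := hpow y y' hy.1 hy.2.1
  constructor
  · intro hconj χ
    obtain ⟨γ₁, h1⟩ := hF χ x
    obtain ⟨γ₂, h2⟩ := hF χ y
    have h3 : (χ : G → ℂ) (x ^ p ^ a) = (χ : G → ℂ) (y ^ p ^ a) := by
      rw [hxp, hyp]
      obtain ⟨w, hw⟩ := isConj_iff.mp (IsConj.pow (p ^ a) hconj)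
      rw [← hw]
      exact (isClassFunction_of_isCharacter (isCharacter_of_isIrrCharacter χ.2) _ w).symm
    refine ⟨γ₁ - γ₂, ?_⟩
    show (χ : G → ℂ) x ^ p ^ a - (χ : G → ℂ) y ^ p ^ a = (p : ℂ) * ((γ₁ : ℂ) - (γ₂ : ℂ))
    rw [h3] at h1
    linear_combination h1 - h2
  · intro hall
    obtain ⟨c, hc0, hc1⟩ := Nat.chineseRemainder hcop 0 1
    have hmc : p ^ a ∣ c := Nat.modEq_zero_iff_dvd.mp hc0
    obtain ⟨s, hs⟩ := hmc
    have hreg : ∀ z : G, ¬ p ∣ orderOf z → z ^ c = z := by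
      intro z hz
      have h1 : orderOf z ∣ n := by
        have h2 : orderOf z ∣ p ^ a * n := by rw [← hcardG]; exact orderOf_dvd_natCard z
        have h3 : Nat.Coprime (orderOf z) (p ^ a) :=
          Nat.Coprime.pow_right a ((Nat.Prime.coprime_iff_not_dvd hp).mpr hz).symm
        exact h3.dvd_of_dvd_mul_left h2
      have h6 : z ^ c = z ^ 1 := by
        rw [pow_eq_pow_iff_modEq]
        exact Nat.ModEq.of_dvd h1 hc1
      rw [h6, pow_one]
    obtain ⟨X, hXdef⟩ : ∃ X : G, X = x' ^ p ^ a := ⟨_, rfl⟩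
    obtain ⟨Y, hYdef⟩ : ∃ Y : G, Y = y' ^ p ^ a := ⟨_, rfl⟩
    have hXs : X ^ s = x' := by
      rw [hXdef, ← pow_mul, ← hs]; exact hreg x' hx.2.2
    have hYs : Y ^ s = y' := by
      rw [hYdef, ← pow_mul, ← hs]; exact hreg y' hy.2.2
    have hXreg : ¬ p ∣ orderOf X := by
      intro h
      apply hx.2.2
      rw [hXdef] at h
      exact dvd_trans h (orderOf_pow_dvd (p ^ a))
    have hYreg : ¬ p ∣ orderOf Y := by
      intro h
      apply hy.2.2
      rw [hYdef] at h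
      exact dvd_trans h (orderOf_pow_dvd (p ^ a))
    suffices hXY : IsConj X Y by
      have h1 := IsConj.pow s hXY
      rw [hXs, hYs] at h1
      exact h1
    by_contra hnot
    obtain ⟨ϑ, hϑdef⟩ : ∃ ϑ : G → ℂ, ϑ = fun z : G =>
        if IsConj (z ^ c) X then (n : ℂ) else 0 := ⟨_, rfl⟩
    have hϑ1 : ∀ z : G, IsConj (z ^ c) X → ϑ z = n := by
      intro z hz; rw [hϑdef]; exact if_pos hz
    have hϑ0 : ∀ z : G, ¬ IsConj (z ^ c) X → ϑ z = 0 := by
      intro z hz; rw [hϑdef]; exact if_neg hz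
    obtain ⟨hcl, hint⟩ := theta_rgen_lead (p ^ a) n c hcardG hcop ⟨s, hs⟩ hc1 X ϑ hϑ1 hϑ0
    have hXc : X ^ c = X := hreg X hXreg
    have hYc : Y ^ c = Y := hreg Y hYreg
    have hϑX : ϑ X = n :=
      hϑ1 X ((congrArg (fun t => IsConj t X) hXc).mpr (IsConj.refl X))
    have hϑY : ϑ Y = 0 :=
      hϑ0 Y (fun h => hnot ((congrArg (fun t => IsConj t X) hYc).mp h).symm)
    have hev := classFun_eval_sub_lead ϑ hcl X Y
    rw [hϑX, hϑY, sub_zero] at hev
    have hdiff : ∀ χ : Cfsg.IrrCharacter G, ∃ δ : Cfsg.AlgInt,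
        (χ : G → ℂ) X - (χ : G → ℂ) Y = (p : ℂ) * (δ : ℂ) := by
      intro χ
      obtain ⟨γ, hγ⟩ := hall χ
      obtain ⟨γ₁, h1⟩ := hF χ x
      obtain ⟨γ₂, h2⟩ := hF χ y
      rw [hxp, ← hXdef] at h1
      rw [hyp, ← hYdef] at h2
      refine ⟨γ - γ₁ + γ₂, ?_⟩
      show (χ : G → ℂ) X - (χ : G → ℂ) Y = (p : ℂ) * ((γ : ℂ) - (γ₁ : ℂ) + (γ₂ : ℂ))
      linear_combination hγ - h1 + h2
    choose δ hδ using hdiff
    have hn : (n : ℂ) = (p : ℂ) * ∑ χ : Cfsg.IrrCharacter G,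
        Cfsg.classInner ϑ (χ : G → ℂ) * (δ χ : ℂ) := by
      rw [hev, Finset.mul_sum]
      apply Finset.sum_congr rfl
      intro χ _
      rw [hδ χ]; ring
    have hint2 : IsIntegral ℤ ((n : ℂ) / (p : ℂ)) := by
      have hp0 : (p : ℂ) ≠ 0 := Nat.cast_ne_zero.mpr hp.pos.ne'
      rw [hn, mul_div_cancel_left₀ _ hp0]
      apply IsIntegral.sum
      intro χ _
      exact IsIntegral.mul (hint _ χ.2) (δ χ).2
    exact hpn (dvd_of_isIntegral_div n p hp.pos.ne' hint2)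

end Cfsg.Agent.S4604
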