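import Cfsg.Statements.S4611
import Mathlib
import Cfsg.Agent.Lib.Helper7.Fong
import Cfsg.Agent.Lib.Helper2.PSolvOfSolv
import Cfsg.Agent.Lib.Lead.CharCount
import Cfsg.Agent.Lib.Lead.CharOrtho
import Cfsg.Agent.Lib.Lead.CharBasic
-- import your own Cfsg.Agent.* helpers here

set_option autoImplicit false
open Cfsg
open Cfsg.Agent.Lib.Lead
open Cfsg.Agent.Lib.Helper7

namespace Cfsg.Agent.S4611

/-- Let G be a finite solvable group and π a nonempty set of primes, each dividing the order of G; fix for each p in π a maximal ideal M p of the algebraic integers containing p. Then the only irreducible character lying in the principal p-block for every p in π is the principal character if and only if G is generated by the subgroups O_{p'}(G), p in π (the largest normal subgroups of order prime to p). -/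
theorem result {G : Type*} [Group G] [Finite G] [Group.IsSolvable G] (π : Set ℕ) (hπ : ∀ p ∈ π, p.Prime ∧ p ∣ Nat.card G) (hne : π.Nonempty) (M : ℕ → Ideal Cfsg.AlgInt) (hM : ∀ p ∈ π, Cfsg.IsPModular p (M p)) :
    (∀ χ : Cfsg.IrrCharacter G, (∀ p ∈ π, χ ∈ Cfsg.principalBlock (M p) G) → (χ : G → ℂ) = fun _ => 1) ↔
      ⨆ p ∈ π, Cfsg.pPrimeCore p G = ⊤ := by
  classical
  haveI : Fintype G := Fintype.ofFinite G
  constructor
  · intro h
    by_contra hK
    obtain ⟨K, hKdef⟩ : ∃ K : Subgroup G, K = ⨆ p ∈ π, Cfsg.pPrimeCore p G := ⟨_, rfl⟩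
    rw [← hKdef] at hK
    haveI hKn : K.Normal := by
      rw [hKdef, ← sSup_image]
      apply Subgroup.sSup_normal
      rintro N ⟨p, -, rfl⟩
      exact Cfsg.Agent.Lib.Helper3.pPrimeCore_normal p G
    have hle : ∀ p ∈ π, Cfsg.pPrimeCore p G ≤ K := by
      intro p hp
      rw [hKdef]
      exact le_iSup₂ (f := fun p (_ : p ∈ π) => Cfsg.pPrimeCore p G) p hp
    have hsurj := QuotientGroup.mk'_surjective K
    -- a nontrivial irreducible character of G ⧸ K
    obtain ⟨g, hg⟩ : ∃ g : G, g ∉ K := by
      by_contra hcon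
      apply hK
      rw [Subgroup.eq_top_iff']
      intro g
      by_contra hg
      exact hcon ⟨g, hg⟩
    have hcard : 1 < Nat.card (Cfsg.IrrCharacter (G ⧸ K)) := by
      rw [card_irr]
      rw [Finite.one_lt_card_iff_nontrivial]
      refine ⟨⟨ConjClasses.mk (QuotientGroup.mk' K g), ConjClasses.mk 1, ?_⟩⟩
      intro heq
      rw [ConjClasses.mk_eq_mk_iff_isConj, isConj_one_left] at heq
      exact hg ((QuotientGroup.eq_one_iff g).1 heq)
    haveI : Finite (Cfsg.IrrCharacter (G ⧸ K)) := by
      apply Nat.finite_of_card_ne_zero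
      omega
    haveI := (Finite.one_lt_card_iff_nontrivial).1 hcard
    obtain ⟨φ, hφ⟩ := exists_ne (⟨fun _ => 1, isIrrCharacter_one (G ⧸ K)⟩ : Cfsg.IrrCharacter (G ⧸ K))
    have hχ := h (inflIrr (QuotientGroup.mk' K) hsurj φ) (by
      intro p hp
      haveI : Fact p.Prime := ⟨(hπ p hp).1⟩
      apply fong_mem p (M p) (hM p hp) (Cfsg.Agent.Lib.Helper2.isPSolvable_of_isSolvable p inferInstance)
      intro n hn
      show (φ : G ⧸ K → ℂ) (QuotientGroup.mk' K n) = (φ : G ⧸ K → ℂ) (QuotientGroup.mk' K 1)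
      have e : QuotientGroup.mk' K n = QuotientGroup.mk' K 1 := by
        rw [map_one]
        exact (QuotientGroup.eq_one_iff n).2 (hle p hp hn)
      rw [e])
    apply hφ
    apply Subtype.ext
    funext q
    obtain ⟨x, rfl⟩ := hsurj q
    exact congrFun hχ x
  · intro hsup χ hχ
    obtain ⟨n, ρ, hρ, hρχ⟩ := χ.2
    haveI := hρ
    have hker : ∀ g : G, g ∈ MonoidHom.ker ρ := by
      have hle : ⨆ p ∈ π, Cfsg.pPrimeCore p G ≤ MonoidHom.ker ρ := by
        apply iSup₂_le
        intro p hp x hx
        haveI : Fact p.Prime := ⟨(hπ p hp).1⟩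
        have h1 := fong_ker p (M p) (hM p hp) χ (hχ p hp) x hx
        rw [MonoidHom.mem_ker]
        rw [← hρχ, Representation.char_one] at h1
        exact (char_eq_finrank_iff ρ x).1 h1
      rw [hsup] at hle
      intro g
      exact hle (Subgroup.mem_top g)
    have hval : ∀ g : G, (χ : G → ℂ) g = (n : ℂ) := by
      intro g
      have h1 : ρ g = LinearMap.id := MonoidHom.mem_ker.1 (hker g)
      rw [← hρχ]
      have h2 := (char_eq_finrank_iff ρ g).2 h1
      rw [h2, Module.finrank_fin_fun]
    have hinner := classInner_irr_self χ.2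
    unfold Cfsg.classInner at hinner
    have hsum : ∑ g : G, (χ : G → ℂ) g * (starRingEnd ℂ) ((χ : G → ℂ) g) = (Nat.card G : ℂ) * ((n : ℂ) * (n : ℂ)) := by
      rw [Finset.sum_congr rfl (fun g _ => by rw [hval g, Complex.conj_natCast])]
      rw [Finset.sum_const, Finset.card_univ, nsmul_eq_mul, Nat.card_eq_fintype_card]
    rw [hsum] at hinner
    have hG0 : (Nat.card G : ℂ) ≠ 0 := by exact_mod_cast Nat.card_pos.ne'
    rw [← mul_assoc, inv_mul_cancel₀ hG0, one_mul] at hinner
    have hn1 : n * n = 1 := by exact_mod_cast hinner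
    have hn : n = 1 := Nat.eq_one_of_mul_eq_one_right hn1
    funext g
    rw [hval g, hn]; simp


end Cfsg.Agent.S4611
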