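import Cfsg.Statements.S4619
import Mathlib

set_option autoImplicit false
open Cfsg

namespace Cfsg.Agent.S4619

open scoped Pointwise

theorem mem_conj_smul {G : Type*} [Group G] (g y : G) (H : Subgroup G) :
    y ∈ MulAut.conj g • H ↔ g⁻¹ * y * g ∈ H := by
  rw [Subgroup.mem_pointwise_smul_iff_inv_smul_mem]
  have : (MulAut.conj g)⁻¹ • y = g⁻¹ * y * g := by
    rw [MulAut.smul_def, MulAut.conj_inv_apply]
  rw [this]

/-- Let P be a Sylow p-subgroup of the finite group G that is a trivial-intersection set: P meets each conjugate g P g⁻¹ with g outside N_G(P) trivially. Then for every nontrivial subgroup Q of P the normalizer of Q lies in the normalizer of P, and any g ∈ G conjugating Q into P lies in N_G(P). -/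
theorem result {G : Type*} [Group G] [Finite G] (p : ℕ) [Fact p.Prime] (P : Sylow p G) (hTI : (∀ g : G, g ∉ Subgroup.normalizer ((P : Subgroup G) : Set G) → (P : Subgroup G) ⊓ (MulAut.conj g • (P : Subgroup G)) = ⊥)) (Q : Subgroup G) (hQ : Q ≤ (P : Subgroup G)) (hQ1 : Q ≠ ⊥) :
    Subgroup.normalizer (Q : Set G) ≤ Subgroup.normalizer ((P : Subgroup G) : Set G) ∧
      ∀ g : G, MulAut.conj g • Q ≤ (P : Subgroup G) → g ∈ Subgroup.normalizer ((P : Subgroup G) : Set G) := by
  have part2 : ∀ g : G, MulAut.conj g • Q ≤ (P : Subgroup G) → g ∈ Subgroup.normalizer ((P : Subgroup G) : Set G) := by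
    intro g hg
    by_contra hn
    have h1 := hTI g hn
    apply hQ1
    rw [eq_bot_iff]
    intro q hq
    have h2 : g * q * g⁻¹ ∈ (P : Subgroup G) ⊓ (MulAut.conj g • (P : Subgroup G)) := by
      refine Subgroup.mem_inf.mpr ⟨?_, ?_⟩
      · apply hg
        rw [mem_conj_smul]
        have : g⁻¹ * (g * q * g⁻¹) * g = q := by group
        rw [this]; exact hq
      · rw [mem_conj_smul]
        have : g⁻¹ * (g * q * g⁻¹) * g = q := by group
        rw [this]; exact hQ hq
    rw [h1, Subgroup.mem_bot] at h2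
    rw [Subgroup.mem_bot]
    have : q = g⁻¹ * (g * q * g⁻¹) * g := by group
    rw [this, h2]; group
  refine ⟨?_, part2⟩
  intro g hg
  apply part2
  intro y hy
  rw [mem_conj_smul] at hy
  rw [Subgroup.mem_normalizer_iff] at hg
  have h1 := (hg (g⁻¹ * y * g)).1 hy
  have : g * (g⁻¹ * y * g) * g⁻¹ = y := by group
  rw [this] at h1
  exact hQ h1

end Cfsg.Agent.S4619
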