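import Mathlib
import Cfsg.Statements.S4620
import Cfsg.Agent.Lib.Helper7.Basic
import Cfsg.Agent.Lib.Helper7.SylowAux
import Cfsg.Agent.Lib.Helper2.Basic
import Cfsg.Agent.Lib.Helper2.Fit
import Cfsg.Agent.Lib.Helper2.PComp
import Cfsg.Agent.Lib.Lead.SylowAux

set_option autoImplicit false
open scoped Pointwise
open Cfsg

namespace Cfsg.Agent.S4620

open Subgroup
open Cfsg.Agent.Lib.Helper7

theorem le_normalizer_of_forall {H : Type*} [Group H] (A S : Subgroup H)
    (h : ∀ n ∈ A, ∀ x ∈ S, n * x * n⁻¹ ∈ S) : A ≤ normalizer (S : Set H) := by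
  intro n hn
  rw [mem_normalizer_iff]
  intro x
  constructor
  · exact h n hn x
  · intro hx
    have h1 := h n⁻¹ (A.inv_mem hn) _ hx
    have e : n⁻¹ * (n * x * n⁻¹) * n⁻¹⁻¹ = x := by group
    rw [e] at h1
    exact h1

section
universe u
variable {H : Type u} [Group H] [Finite H] (p : ℕ) [Fact p.Prime]

/-- TI property in element form for all Sylow `p`-subgroups. -/
def TI (H : Type u) [Group H] (p : ℕ) : Prop :=
  ∀ (P₁ : Sylow p H) (k y : H), y ≠ 1 → y ∈ (P₁ : Subgroup H) → k * y * k⁻¹ ∈ (P₁ : Subgroup H) →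
    k ∈ normalizer ((P₁ : Subgroup H) : Set H)

theorem ti_of_hTI (P : Sylow p H)
    (hTI : ∀ g : H, g ∉ Subgroup.normalizer ((P : Subgroup H) : Set H) →
      (P : Subgroup H) ⊓ (MulAut.conj g • (P : Subgroup H)) = ⊥) :
    TI H p := by
  have tiP : ∀ k y : H, y ≠ 1 → y ∈ (P : Subgroup H) → k * y * k⁻¹ ∈ (P : Subgroup H) →
      k ∈ normalizer ((P : Subgroup H) : Set H) := by
    intro k y hy1 hy hky
    by_contra hk
    have hk' : k⁻¹ ∉ normalizer ((P : Subgroup H) : Set H) := fun h => hk (by simpa using inv_mem h)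
    have h1 := hTI k⁻¹ hk'
    have h2 : y ∈ (P : Subgroup H) ⊓ (MulAut.conj k⁻¹ • (P : Subgroup H)) := by
      refine Subgroup.mem_inf.mpr ⟨hy, ?_⟩
      rw [mem_conj_smul]
      simpa using hky
    rw [h1, mem_bot] at h2
    exact hy1 h2
  intro P₁ k y hy1 hy hky
  obtain ⟨g, rfl⟩ := MulAction.exists_smul_eq H P P₁
  have hmem : ∀ x : H, x ∈ ((g • P : Sylow p H) : Subgroup H) ↔ g⁻¹ * x * g ∈ (P : Subgroup H) :=
    fun x => mem_sylow_smul_iff g x P
  rw [hmem] at hy hky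
  have h1 : g⁻¹ * k * g ∈ normalizer ((P : Subgroup H) : Set H) := by
    apply tiP (g⁻¹ * k * g) (g⁻¹ * y * g) _ hy
    · have : g⁻¹ * k * g * (g⁻¹ * y * g) * (g⁻¹ * k * g)⁻¹ = g⁻¹ * (k * y * k⁻¹) * g := by group
      rw [this]; exact hky
    · intro h; apply hy1
      have : y = g * (g⁻¹ * y * g) * g⁻¹ := by group
      rw [this, h]; group
  rw [mem_normalizer_iff] at h1 ⊢
  intro x
  rw [hmem, hmem, h1 (g⁻¹ * x * g)]
  have : g⁻¹ * k * g * (g⁻¹ * x * g) * (g⁻¹ * k * g)⁻¹ = g⁻¹ * (k * x * k⁻¹) * g := by group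
  rw [this]

theorem lemmaX (hOp : Cfsg.pCore p H = ⊥) (hti : TI H p) (A B : Subgroup H)
    (hcomm : ∀ a ∈ A, ∀ b ∈ B, a * b = b * a) (hA : p ∣ Nat.card A) (hB : p ∣ Nat.card B)
    (hBsn : B.IsSubnormal) : False := by
  have hp : p.Prime := Fact.out
  obtain ⟨y, hy⟩ := exists_prime_orderOf_dvd_card' p hA
  have hyo : orderOf (y : H) = p := by rw [Subgroup.orderOf_coe]; exact hy
  obtain ⟨P₁, hyP⟩ := exists_mem_sylow_of_orderOf (y : H) ⟨1, by rw [hyo, pow_one]⟩
  have hy1 : (y : H) ≠ 1 := by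
    intro h; rw [h, orderOf_one] at hyo; exact hp.one_lt.ne hyo
  have hBN : B ≤ normalizer ((P₁ : Subgroup H) : Set H) := by
    intro b hb
    apply hti P₁ b (y : H) hy1 hyP
    have : b * (y : H) * b⁻¹ = (y : H) := by
      have h1 := hcomm y y.2 b hb
      calc b * (y : H) * b⁻¹ = ((y : H) * b) * b⁻¹ := by rw [h1]
        _ = (y : H) := by group
    rw [this]; exact hyP
  obtain ⟨z, hz⟩ := exists_prime_orderOf_dvd_card' p hB
  have hzo : orderOf (z : H) = p := by rw [Subgroup.orderOf_coe]; exact hz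
  have hzP : (z : H) ∈ (P₁ : Subgroup H) := by
    have hpg : IsPGroup p (zpowers (z : H)) :=
      IsPGroup.of_card (n := 1) (by rw [Nat.card_zpowers, hzo, pow_one])
    exact Cfsg.Agent.Lib.Lead.mem_sylow_of_normalizes P₁ hpg (hBN z.2)
  have hRn : (((P₁ : Subgroup H) ⊓ B).subgroupOf B).Normal := by
    constructor
    intro r hr b
    rw [mem_subgroupOf] at hr ⊢
    refine Subgroup.mem_inf.mpr ⟨?_, (b * r * b⁻¹).2⟩
    exact (mem_normalizer_iff.mp (hBN b.2) r).mp (Subgroup.mem_inf.mp hr).1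
  have hRsn : ((P₁ : Subgroup H) ⊓ B).IsSubnormal := by
    have := Subgroup.IsSubnormal.trans' (Subgroup.Normal.isSubnormal hRn) hBsn
    rw [Subgroup.map_subgroupOf_eq_of_le inf_le_right] at this
    exact this
  have hRp : IsPGroup p ↥((P₁ : Subgroup H) ⊓ B) := P₁.2.to_le inf_le_left
  have hle := Cfsg.Agent.Lib.Helper2.subnormal_pgroup_le_pCore p _ hRsn hRp
  rw [hOp] at hle
  have hz1 : (z : H) = 1 := by
    have := hle (Subgroup.mem_inf.mpr ⟨hzP, z.2⟩)
    rwa [mem_bot] at this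
  rw [hz1, orderOf_one] at hzo
  exact hp.one_lt.ne hzo

theorem subnormal_dvd (hOp' : Cfsg.pPrimeCore p H = ⊥) (K : Subgroup H) (hKsn : K.IsSubnormal)
    (hK : K ≠ ⊥) : p ∣ Nat.card K := by
  have hp : p.Prime := Fact.out
  by_contra hnd
  have hcop : (Nat.card K).Coprime p := ((Nat.Prime.coprime_iff_not_dvd hp).mpr hnd).symm
  have h1 := Cfsg.Agent.Lib.Helper2.subnormal_pprime_le p K hKsn hcop
  rw [hOp'] at h1
  exact hK (le_bot_iff.mp h1)

/-- subgroups of a normal subgroup `N` normalized by `N` are subnormal -/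
theorem subnormal_of_normalized (N : Subgroup H) [hNn : N.Normal] (S : Subgroup H) (hSN : S ≤ N)
    (hNS : N ≤ normalizer (S : Set H)) : S.IsSubnormal := by
  haveI := Subgroup.normal_subgroupOf_of_le_normalizer hNS
  have := Subgroup.IsSubnormal.trans' (Subgroup.Normal.isSubnormal (inferInstance :
    (S.subgroupOf N).Normal)) hNn.isSubnormal
  rw [Subgroup.map_subgroupOf_eq_of_le hSN] at this
  exact this

/-- conjugates of subgroups of `N` normalized by `N` -/
theorem conj_props (N : Subgroup H) [hNn : N.Normal] (S : Subgroup H) (hSN : S ≤ N)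
    (hS1 : S ≠ ⊥) (hNS : N ≤ normalizer (S : Set H)) (h : H) :
    S.map (MulAut.conj h).toMonoidHom ≤ N ∧ S.map (MulAut.conj h).toMonoidHom ≠ ⊥ ∧
    N ≤ normalizer ((S.map (MulAut.conj h).toMonoidHom : Subgroup H) : Set H) ∧
    Nat.card (S.map (MulAut.conj h).toMonoidHom) = Nat.card S := by
  refine ⟨?_, ?_, ?_, ?_⟩
  · rintro _ ⟨s, hs, rfl⟩
    exact hNn.conj_mem s (hSN hs) h
  · intro hbot
    exact hS1 ((Subgroup.map_eq_bot_iff_of_injective S (MulAut.conj h).injective).mp hbot)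
  · apply le_normalizer_of_forall
    intro n hn x hx
    rw [Cfsg.Agent.Lib.Helper2.mem_map_conj_iff] at hx ⊢
    have hm : h⁻¹ * n * h ∈ N := by
      have := hNn.conj_mem n hn h⁻¹
      simpa using this
    have h1 := (mem_normalizer_iff.mp (hNS hm) (h⁻¹ * x * h)).mp hx
    have e : h⁻¹ * n * h * (h⁻¹ * x * h) * (h⁻¹ * n * h)⁻¹ = h⁻¹ * (n * x * n⁻¹) * h := by group
    rw [e] at h1
    exact h1
  · exact (Nat.card_congr (S.equivMapOfInjective (MulAut.conj h).toMonoidHom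
      (MulAut.conj h).injective).toEquiv).symm

theorem main (hOp : Cfsg.pCore p H = ⊥) (hOp' : Cfsg.pPrimeCore p H = ⊥) (P : Sylow p H)
    (hP1 : (P : Subgroup H) ≠ ⊥) (hti : TI H p) :
    ∃ N : Subgroup H, N.Normal ∧ N ≠ ⊥ ∧ (∀ K : Subgroup H, K.Normal → K ≠ ⊥ → N ≤ K) ∧
      IsSimpleGroup N ∧ ¬ IsMulCommutative N ∧ Subgroup.centralizer (N : Set H) = ⊥ ∧
      ∀ Q : Sylow p N, (Q : Subgroup N) ≠ ⊥ ∧
        ∀ n : N, n ∉ Subgroup.normalizer ((Q : Subgroup N) : Set N) →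
          (Q : Subgroup N) ⊓ (MulAut.conj n • (Q : Subgroup N)) = ⊥ := by
  have hp : p.Prime := Fact.out
  have hne : ({K : Subgroup H | K.Normal ∧ K ≠ ⊥}).Nonempty := by
    refine ⟨⊤, inferInstance, ?_⟩
    intro h
    apply hP1
    rw [eq_bot_iff, ← h]; exact le_top
  obtain ⟨N, ⟨hNn, hN1⟩, hNmin⟩ := Set.exists_min_image _ (fun K : Subgroup H => Nat.card K)
    (Set.toFinite _) hne
  haveI := hNn
  have hNdvd : p ∣ Nat.card N := subnormal_dvd p hOp' N hNn.isSubnormal hN1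
  have hNle : ∀ K : Subgroup H, K.Normal → K ≠ ⊥ → N ≤ K := by
    intro K hKn hK1
    haveI := hKn
    by_cases hI : N ⊓ K = ⊥
    · exfalso
      apply lemmaX p hOp hti N K _ hNdvd (subnormal_dvd p hOp' K hKn.isSubnormal hK1)
        hKn.isSubnormal
      intro a ha b hb
      exact Subgroup.commute_of_normal_of_disjoint N K hNn hKn (disjoint_iff.mpr hI) a b ha hb
    · have h1 : Nat.card N ≤ Nat.card (N ⊓ K : Subgroup H) := hNmin (N ⊓ K) ⟨inferInstance, hI⟩
      have h2 : N ⊓ K = N := Subgroup.eq_of_le_of_card_ge inf_le_left h1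
      rw [← h2]; exact inf_le_right
  have hcent : centralizer (N : Set H) = ⊥ := by
    by_contra hC
    have h1 := hNle (centralizer (N : Set H)) inferInstance hC
    apply lemmaX p hOp hti N N _ hNdvd hNdvd hNn.isSubnormal
    intro a ha b hb
    have := h1 hb
    rw [mem_centralizer_iff] at this
    exact this a ha
  -- the key fact for simplicity
  have key : ∀ S : Subgroup H, S ≤ N → S ≠ ⊥ → N ≤ normalizer (S : Set H) → S = N := by
    have hne2 : ({S : Subgroup H | S ≤ N ∧ S ≠ ⊥ ∧ N ≤ normalizer (S : Set H)}).Nonempty :=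
      ⟨N, le_rfl, hN1, le_normalizer⟩
    obtain ⟨S₀, ⟨hS₀N, hS₀1, hS₀n⟩, hS₀min⟩ := Set.exists_min_image _
      (fun K : Subgroup H => Nat.card K) (Set.toFinite _) hne2
    have hconj : ∀ h : H, S₀.map (MulAut.conj h).toMonoidHom = S₀ := by
      intro h
      by_contra hneq
      obtain ⟨hTN, hT1, hTn, hTcard⟩ := conj_props N S₀ hS₀N hS₀1 hS₀n h
      obtain ⟨T, hTdef⟩ : ∃ T, T = S₀.map (MulAut.conj h).toMonoidHom := ⟨_, rfl⟩
      rw [← hTdef] at hTN hT1 hTn hTcard hneq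
      have hIn : N ≤ normalizer ((S₀ ⊓ T : Subgroup H) : Set H) := by
        apply le_normalizer_of_forall
        intro n hn x hx
        exact Subgroup.mem_inf.mpr ⟨(mem_normalizer_iff.mp (hS₀n hn) x).mp (Subgroup.mem_inf.mp hx).1,
          (mem_normalizer_iff.mp (hTn hn) x).mp (Subgroup.mem_inf.mp hx).2⟩
      have hIbot : S₀ ⊓ T = ⊥ := by
        by_contra hI1
        have h1 : Nat.card S₀ ≤ Nat.card (S₀ ⊓ T : Subgroup H) :=
          hS₀min (S₀ ⊓ T) ⟨inf_le_left.trans hS₀N, hI1, hIn⟩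
        have h2 : S₀ ⊓ T = S₀ := Subgroup.eq_of_le_of_card_ge inf_le_left h1
        have h3 : S₀ ≤ T := by rw [← h2]; exact inf_le_right
        have h4 : S₀ = T := Subgroup.eq_of_le_of_card_ge h3 (le_of_eq hTcard)
        exact hneq h4.symm
      have hcomm : ∀ a ∈ S₀, ∀ b ∈ T, a * b = b * a := by
        intro a ha b hb
        have hc1 : a * b * a⁻¹ * b⁻¹ ∈ T :=
          T.mul_mem ((mem_normalizer_iff.mp (hTn (hS₀N ha)) b).mp hb) (T.inv_mem hb)
        have hc2 : a * b * a⁻¹ * b⁻¹ ∈ S₀ := by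
          have e : a * b * a⁻¹ * b⁻¹ = a * (b * a⁻¹ * b⁻¹) := by group
          rw [e]
          exact S₀.mul_mem ha ((mem_normalizer_iff.mp (hS₀n (hTN hb)) a⁻¹).mp (S₀.inv_mem ha))
        have hc3 : a * b * a⁻¹ * b⁻¹ ∈ S₀ ⊓ T := Subgroup.mem_inf.mpr ⟨hc2, hc1⟩
        rw [hIbot, mem_bot] at hc3
        calc a * b = (a * b * a⁻¹ * b⁻¹) * b * a := by group
          _ = b * a := by rw [hc3, one_mul]
      have hS₀sn := subnormal_of_normalized N S₀ hS₀N hS₀n
      have hTsn := subnormal_of_normalized N T hTN hTn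
      exact lemmaX p hOp hti S₀ T hcomm (subnormal_dvd p hOp' S₀ hS₀sn hS₀1)
        (subnormal_dvd p hOp' T hTsn hT1) hTsn
    have hS₀normal : S₀.Normal := by
      constructor
      intro x hx g
      rw [← hconj g]
      exact ⟨x, hx, by simp [MulAut.conj_apply]⟩
    have hS₀eq : S₀ = N := le_antisymm hS₀N (hNle S₀ hS₀normal hS₀1)
    intro S hSN hS1 hSn
    have h1 : Nat.card S₀ ≤ Nat.card S := hS₀min S ⟨hSN, hS1, hSn⟩
    rw [hS₀eq] at h1
    exact Subgroup.eq_of_le_of_card_ge hSN h1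
  refine ⟨N, hNn, hN1, hNle, ?_, ?_, hcent, ?_⟩
  · haveI : Nontrivial ↥N := (Subgroup.nontrivial_iff_ne_bot N).mpr hN1
    refine ⟨fun M hM => ?_⟩
    by_cases hM1 : M = ⊥
    · exact Or.inl hM1
    · right
      have hS := key (M.map N.subtype) (map_subtype_le M)
        (fun hb => hM1 ((Subgroup.map_eq_bot_iff_of_injective M N.subtype_injective).mp hb))
        (by
          apply le_normalizer_of_forall
          rintro n hn _ ⟨m, hm, rfl⟩
          exact ⟨⟨n, hn⟩ * m * ⟨n, hn⟩⁻¹, hM.conj_mem m hm ⟨n, hn⟩, rfl⟩)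
      rw [eq_top_iff]
      intro m _
      have hmN : (m : H) ∈ M.map N.subtype := by rw [hS]; exact m.2
      obtain ⟨m', hm', hmm⟩ := hmN
      have : m' = m := Subtype.ext hmm
      rw [← this]; exact hm'
  · intro hc
    apply hN1
    rw [eq_bot_iff, ← hcent]
    intro b hb
    rw [mem_centralizer_iff]
    intro a ha
    exact congrArg Subtype.val (hc.is_comm.comm ⟨a, ha⟩ ⟨b, hb⟩)
  · intro Q
    constructor
    · intro hQ
      have h1 := Q.not_dvd_index
      rw [hQ, Subgroup.index_bot] at h1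
      exact h1 hNdvd
    · intro n hn
      by_contra hne3
      obtain ⟨⟨x, hx⟩, hx1⟩ := (Subgroup.ne_bot_iff_exists_ne_one).mp hne3
      have hx1' : x ≠ 1 := fun h => hx1 (Subtype.ext h)
      obtain ⟨hxQ, hxc⟩ := Subgroup.mem_inf.mp hx
      rw [mem_conj_smul] at hxc
      obtain ⟨P₁, hP₁⟩ := (Q.2.map N.subtype).exists_le_sylow
      have hnN : (n : H) ∈ normalizer ((P₁ : Subgroup H) : Set H) := by
        apply hti P₁ (n : H) ((n⁻¹ * x * n : ↥N) : H)
        · intro h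
          apply hx1'
          have h' : n⁻¹ * x * n = 1 := Subtype.ext h
          calc x = n * (n⁻¹ * x * n) * n⁻¹ := by group
            _ = 1 := by rw [h']; group
        · exact hP₁ ⟨_, hxc, rfl⟩
        · have e : (n : H) * ((n⁻¹ * x * n : ↥N) : H) * (n : H)⁻¹ = (x : H) := by
            simp only [Subgroup.coe_mul, Subgroup.coe_inv]
            group
          rw [e]
          exact hP₁ ⟨x, hxQ, rfl⟩
      have hR : IsPGroup p ↥((P₁ : Subgroup H).subgroupOf N) := P₁.2.comap_subtype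
      have hQR : (Q : Subgroup ↥N) ≤ (P₁ : Subgroup H).subgroupOf N := by
        intro w hw
        rw [mem_subgroupOf]
        exact hP₁ ⟨w, hw, rfl⟩
      have hRQ : (P₁ : Subgroup H).subgroupOf N = (Q : Subgroup ↥N) := Q.is_maximal' hR hQR
      apply hn
      rw [mem_normalizer_iff]
      intro w
      rw [← hRQ, mem_subgroupOf, mem_subgroupOf]
      exact mem_normalizer_iff.mp hnN (w : H)

end

theorem result {H : Type*} [Group H] [Finite H] (p : ℕ) [Fact p.Prime] (hOp : Cfsg.pCore p H = ⊥) (hOp' : Cfsg.pPrimeCore p H = ⊥) (P : Sylow p H) (hP1 : (P : Subgroup H) ≠ ⊥)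
    (hTI : ∀ g : H, g ∉ Subgroup.normalizer ((P : Subgroup H) : Set H) → (P : Subgroup H) ⊓ (MulAut.conj g • (P : Subgroup H)) = ⊥) :
    ∃ N : Subgroup H, N.Normal ∧ N ≠ ⊥ ∧ (∀ K : Subgroup H, K.Normal → K ≠ ⊥ → N ≤ K) ∧
      IsSimpleGroup N ∧ ¬ IsMulCommutative N ∧ Subgroup.centralizer (N : Set H) = ⊥ ∧
      ∀ Q : Sylow p N, (Q : Subgroup N) ≠ ⊥ ∧
        ∀ n : N, n ∉ Subgroup.normalizer ((Q : Subgroup N) : Set N) → (Q : Subgroup N) ⊓ (MulAut.conj n • (Q : Subgroup N)) = ⊥ := by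
  exact main p hOp hOp' P hP1 (ti_of_hTI p P hTI)

end Cfsg.Agent.S4620
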