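import Cfsg.Statements.S4742
import Mathlib
import Cfsg.Agent.Lib.Helper8.ClassStruct
import Cfsg.Agent.Lib.Helper8.CharCodegreeSylow

set_option autoImplicit false
open Cfsg

namespace Cfsg.Agent.S4742

/-- Let p ≠ q be primes dividing the order of the finite group G, and suppose the centralizer of every non-identity p-element of G has order prime to q. Then either G has an irreducible character of p-defect zero, or for every non-identity q-element z of G there are conjugates g, h of z such that g h⁻¹ is a non-identity p-element. -/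
theorem result {G : Type*} [Group G] [Finite G] (p q : ℕ) [Fact p.Prime] [Fact q.Prime] (hppq : p ≠ q) (hpG : p ∣ Nat.card G) (hqG : q ∣ Nat.card G) (hC : ∀ g : G, g ≠ 1 → (∃ k : ℕ, orderOf g = p ^ k) → ¬ q ∣ Nat.card ↥(Subgroup.centralizer ({g} : Set G))) : (∃ χ : Cfsg.IrrCharacter G, (Cfsg.charDegree (χ : G → ℂ)).factorization p = (Nat.card G).factorization p) ∨ ∀ z : G, z ≠ 1 → (∃ k : ℕ, orderOf z = q ^ k) → ∃ g h : G, IsConj z g ∧ IsConj z h ∧ g * h⁻¹ ≠ 1 ∧ ∃ k : ℕ, orderOf (g * h⁻¹) = p ^ k := by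
  classical
  by_contra hcon
  rw [not_or] at hcon
  obtain ⟨h1, h2⟩ := hcon
  obtain ⟨z, hz⟩ := not_forall.mp h2
  obtain ⟨hz1, hz⟩ := Classical.not_imp.mp hz
  obtain ⟨hzq, hz⟩ := Classical.not_imp.mp hz
  have hpp : p.Prime := Fact.out
  have hqp : q.Prime := Fact.out
  let P : Sylow p G := default
  have hG0 : Nat.card G ≠ 0 := Nat.card_pos.ne'
  have hPc : Nat.card (P : Subgroup G) = p ^ (Nat.card G).factorization p :=
    P.card_eq_multiplicity
  have hc0 : (Nat.card G).factorization p ≠ 0 := by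
    have := hpp.factorization_pos_of_dvd hG0 hpG
    omega
  have hk : ∀ χ : Cfsg.IrrCharacter G,
      ¬ p ^ (Nat.card G).factorization p ∣ Cfsg.charDegree (χ : G → ℂ) := by
    intro χ hχ
    apply h1
    refine ⟨χ, ?_⟩
    have hd0 := (Cfsg.Agent.Lib.Helper8.irr_charDegree χ).2
    have hdd : Cfsg.charDegree (χ : G → ℂ) ∣ Nat.card G := by
      obtain ⟨N, -, -, -, hd⟩ := Cfsg.Agent.Lib.Helper8.irr_ker_data χ
      exact hd.trans (Subgroup.index_dvd_card N)
    have h3 : (Nat.card G).factorization p ≤ (Cfsg.charDegree (χ : G → ℂ)).factorization p :=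
      (hpp.pow_dvd_iff_le_factorization hd0).mp hχ
    have h4 : (Cfsg.charDegree (χ : G → ℂ)).factorization p ≤ (Nat.card G).factorization p :=
      (Nat.factorization_le_iff_dvd hd0 hG0).mpr hdd p
    omega
  have hCz : (Nat.card (Subgroup.centralizer ({z} : Set G))).factorization p = 0 := by
    apply Nat.factorization_eq_zero_of_not_dvd
    intro hdvd
    obtain ⟨g, hg⟩ := exists_prime_orderOf_dvd_card' p hdvd
    have hgo : orderOf (g : G) = p := by rw [Subgroup.orderOf_coe]; exact hg
    have hg1 : (g : G) ≠ 1 := by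
      intro h
      rw [h, orderOf_one] at hgo
      exact hpp.one_lt.ne hgo
    have hnq := hC (g : G) hg1 ⟨1, by rw [hgo, pow_one]⟩
    apply hnq
    have hzc : z ∈ Subgroup.centralizer ({(g : G)} : Set G) := by
      rw [Subgroup.mem_centralizer_singleton_iff]
      have := g.2
      rw [Subgroup.mem_centralizer_singleton_iff] at this
      exact this.symm
    obtain ⟨k, hk'⟩ := hzq
    have hk0 : k ≠ 0 := by
      intro h0
      rw [h0, pow_zero, orderOf_eq_one_iff] at hk'
      exact hz1 hk'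
    have hqz : q ∣ orderOf z := by rw [hk']; exact dvd_pow_self q hk0
    have ho : orderOf (⟨z, hzc⟩ : Subgroup.centralizer ({(g : G)} : Set G)) = orderOf z :=
      Subgroup.orderOf_mk _ _
    have := orderOf_dvd_natCard (⟨z, hzc⟩ : Subgroup.centralizer ({(g : G)} : Set G))
    rw [ho] at this
    exact hqz.trans this
  obtain ⟨w, hw, hw1, a', b', hab⟩ := Cfsg.Agent.Lib.Helper8.struct_exists8 p z (P : Subgroup G)
    ((Nat.card G).factorization p) ((Nat.card G).factorization p) hc0 hPc hk (by rw [hCz]; omega)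
  apply hz
  have hww : a' * z * a'⁻¹ * (b' * z * b'⁻¹)⁻¹ = w := by rw [← hab]; group
  refine ⟨a' * z * a'⁻¹, b' * z * b'⁻¹, isConj_iff.mpr ⟨a', rfl⟩, isConj_iff.mpr ⟨b', rfl⟩, ?_, ?_⟩
  · rw [hww]; exact hw1
  · rw [hww]
    obtain ⟨k, hk'⟩ := (IsPGroup.iff_orderOf.mp P.isPGroup') ⟨w, hw⟩
    exact ⟨k, by rw [← hk', Subgroup.orderOf_mk]⟩

end Cfsg.Agent.S4742
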