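import Cfsg.Statements.S5011
import Mathlib

set_option autoImplicit false
open Cfsg

namespace Cfsg.Agent.S5011

/-- Let G be a finite non-abelian simple group and ρ an irreducible complex representation of G on a space of dimension greater than one (irreducible in the sense that the only subspaces invariant under every ρ(x) are 0 and the whole space). Then for every non-identity element g of G, the centralizer of g does not act irreducibly: there is a non-zero proper subspace invariant under ρ(c) for every c commuting with g. -/
theorem result {G : Type*} [Group G] [Finite G] [IsSimpleGroup G]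
    (hG : ¬ IsMulCommutative G) {V : Type*} [AddCommGroup V] [Module ℂ V] [FiniteDimensional ℂ V]
    (ρ : Representation ℂ G V)
    (hirr : ∀ W : Submodule ℂ V, (∀ x : G, ∀ v ∈ W, ρ x v ∈ W) → W = ⊥ ∨ W = ⊤)
    (hdim : 1 < Module.finrank ℂ V) (g : G) (hg : g ≠ 1) :
    ∃ W : Submodule ℂ V, W ≠ ⊥ ∧ W ≠ ⊤ ∧ ∀ c ∈ Subgroup.centralizer ({g} : Set G), ∀ v ∈ W, ρ c v ∈ W := by
  have : Nontrivial V := Module.nontrivial_of_finrank_pos (R := ℂ) (by omega)
  obtain ⟨μ, hμ⟩ := Module.End.exists_eigenvalue (ρ g)
  refine ⟨Module.End.eigenspace (ρ g) μ, hμ, ?_, ?_⟩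
  · intro htop
    -- ρ g is the scalar μ
    have hscal : ∀ v : V, ρ g v = μ • v := fun v =>
      Module.End.mem_eigenspace_iff.mp (by rw [htop]; trivial)
    -- the kernel of ρ
    have hker : (MonoidHom.ker ρ) = ⊥ ∨ (MonoidHom.ker ρ) = ⊤ :=
      (MonoidHom.normal_ker ρ).eq_bot_or_eq_top
    rcases hker with hk | hk
    · -- ρ injective, so g central
      have hinj : Function.Injective ρ := (MonoidHom.ker_eq_bot_iff ρ).mp hk
      have hcent : g ∈ Subgroup.center G := by
        rw [Subgroup.mem_center_iff]
        intro x
        apply hinj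
        rw [map_mul, map_mul]
        ext v
        simp only [Module.End.mul_apply]
        rw [hscal, hscal, map_smul]
      rcases (inferInstance : (Subgroup.center G).Normal).eq_bot_or_eq_top with hc | hc
      · rw [hc, Subgroup.mem_bot] at hcent
        exact hg hcent
      · exact hG (Subgroup.center_eq_top_iff.mp hc)
    · -- ρ trivial: any line is invariant
      have htriv : ∀ x : G, ρ x = 1 := fun x => by
        have : x ∈ MonoidHom.ker ρ := by rw [hk]; trivial
        exact MonoidHom.mem_ker.mp this
      obtain ⟨v, hv⟩ := exists_ne (0 : V)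
      have h1 := hirr (Submodule.span ℂ {v}) (fun x w hw => by rw [htriv x]; simpa using hw)
      rcases h1 with h1 | h1
      · rw [Submodule.span_singleton_eq_bot] at h1
        exact hv h1
      · have h2 : Module.finrank ℂ (Submodule.span ℂ {v}) = 1 := finrank_span_singleton hv
        rw [h1, finrank_top] at h2
        omega
  · intro c hc v hv
    rw [Module.End.mem_eigenspace_iff] at hv ⊢
    have hcomm : c * g = g * c := by
      have := Subgroup.mem_centralizer_iff.mp hc g (Set.mem_singleton g)
      exact this.symm
    have h1 : ρ g (ρ c v) = (ρ (g * c)) v := by rw [map_mul]; rfl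
    rw [h1, ← hcomm, map_mul]
    show ρ c (ρ g v) = μ • ρ c v
    rw [hv, map_smul]

end Cfsg.Agent.S5011
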