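import Cfsg.Statements.S5135
import Mathlib
import Cfsg.Agent.Lib.Helper8.FusionFactor
import Cfsg.Agent.Lib.Helper8.GroupFusion2

set_option autoImplicit false
open Cfsg

namespace Cfsg.Agent.S5135

open Cfsg.Agent.Lib.Helper8 in
theorem exists_conj_le_sylow_in {G : Type*} [Group G] [Finite G] {p : ℕ} [Fact p.Prime]
    (S : Sylow p G) {M V : Subgroup G} (hSM : (S : Subgroup G) ≤ M) (hVM : V ≤ M)
    (hV : IsPGroup p V) : ∃ m ∈ M, conjSub m V ≤ S := by
  obtain ⟨m, hm⟩ := exists_conjSub_le_sylow (S.subtype hSM) (hV.comap_subtype (K := M))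
  refine ⟨m.1, m.2, ?_⟩
  rintro _ ⟨v, hv, rfl⟩
  have h1 : m * ⟨v, hVM hv⟩ * m⁻¹ ∈ conjSub m (V.subgroupOf M) := conj_mem_conjSub hv
  have h2 := hm h1
  rw [Sylow.coe_subtype] at h2
  exact h2

/-- Let G be a finite group, S a Sylow p-subgroup and H a normal subgroup of G. Then the fusion system of G/H on the image SH/H of S is the factor system of the fusion system of G on S modulo S ∩ H, read through the quotient map restricted to S: for each subgroup P' of SH/H, the conjugation maps by elements of G/H defined on P' with values in SH/H are exactly the homomorphisms induced by the conjugation maps by elements of G defined on the full preimage of P' in S with values in S. -/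
theorem result {G : Type*} [Group G] [Finite G] (p : ℕ) [Fact p.Prime] (S : Sylow p G) (H : Subgroup G) [H.Normal] : (Cfsg.groupFusionSystem (S : Subgroup G)).IsFactorSystem ((S : Subgroup G) ⊓ H) ((QuotientGroup.mk' H).comp (S : Subgroup G).subtype) (Cfsg.groupFusionSystem ((S : Subgroup G).map (QuotientGroup.mk' H))) := by
  classical
  refine ⟨inf_le_left, ?_, ?_, ?_⟩
  · intro s
    show (QuotientGroup.mk' H) (s : G) = 1 ↔ _
    rw [QuotientGroup.mk'_apply, QuotientGroup.eq_one_iff, Subgroup.mem_inf]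
    exact ⟨fun h => ⟨s.2, h⟩, fun h => h.2⟩
  · ext y
    constructor
    · rintro ⟨s, rfl⟩
      exact ⟨s, s.2, rfl⟩
    · rintro ⟨x, hx, rfl⟩
      exact ⟨⟨x, hx⟩, rfl⟩
  · intro P' φ'
    have hθ : ∀ s : (S : Subgroup G), ((QuotientGroup.mk' H).comp (S : Subgroup G).subtype) s =
        (QuotientGroup.mk' H) (s : G) := fun s => rfl
    constructor
    · rintro ⟨hP', hφ'S, gbar, hg⟩
      refine ⟨hP', ?_⟩
      obtain ⟨g, rfl⟩ := QuotientGroup.mk'_surjective H gbar
      -- the conjugate of the preimage lies in S ⊔ H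
      have hV : Cfsg.Agent.Lib.Helper8.conjSub g
          (FusionSystem.preimageAlong ((QuotientGroup.mk' H).comp (S : Subgroup G).subtype) P') ≤
          (S : Subgroup G) ⊔ H := by
        rintro _ ⟨x, hx, rfl⟩
        obtain ⟨hxS, hxP'⟩ := (Cfsg.Agent.Lib.Helper8.mem_preimageAlong _ P' x).1 hx
        have h1 := hφ'S ⟨_, hxP'⟩
        rw [hg] at h1
        obtain ⟨t, ht, hte⟩ := h1
        have h2 : (QuotientGroup.mk' H) t = (QuotientGroup.mk' H) (g * x * g⁻¹) := by
          rw [hte, map_mul, map_mul, map_inv]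
          rfl
        have h3 : t⁻¹ * (g * x * g⁻¹) ∈ H := by
          rw [← QuotientGroup.eq_one_iff, ← QuotientGroup.mk'_apply, map_mul, map_inv, h2,
            inv_mul_cancel]
        have h4 : g * x * g⁻¹ = t * (t⁻¹ * (g * x * g⁻¹)) := by group
        show g * x * g⁻¹ ∈ (S : Subgroup G) ⊔ H
        rw [h4]
        exact Subgroup.mul_mem _ (Subgroup.mem_sup_left ht) (Subgroup.mem_sup_right h3)
      have hVp : IsPGroup p (Cfsg.Agent.Lib.Helper8.conjSub g
          (FusionSystem.preimageAlong ((QuotientGroup.mk' H).comp (S : Subgroup G).subtype) P')) :=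
        (S.isPGroup'.to_le (Cfsg.Agent.Lib.Helper8.preimageAlong_le _ P')).map _
      obtain ⟨m, hm, hmV⟩ := exists_conj_le_sylow_in S le_sup_left hV hVp
      have hm' : m ∈ (((S : Subgroup G) ⊔ H : Subgroup G) : Set G) := hm
      rw [Subgroup.mul_normal] at hm'
      obtain ⟨s, hs, h, hh, rfl⟩ := Set.mem_mul.1 hm'
      have hconj : ∀ x ∈ FusionSystem.preimageAlong
          ((QuotientGroup.mk' H).comp (S : Subgroup G).subtype) P',
          (h * g) * x * (h * g)⁻¹ ∈ (S : Subgroup G) := by
        intro x hx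
        have h1 : (s * h) * (g * x * g⁻¹) * (s * h)⁻¹ ∈ (S : Subgroup G) :=
          hmV (Cfsg.Agent.Lib.Helper8.conj_mem_conjSub (Cfsg.Agent.Lib.Helper8.conj_mem_conjSub hx))
        have h2 : s⁻¹ * ((s * h) * (g * x * g⁻¹) * (s * h)⁻¹) * s ∈ (S : Subgroup G) :=
          Subgroup.mul_mem _ (Subgroup.mul_mem _ (Subgroup.inv_mem _ hs) h1) hs
        have e : s⁻¹ * ((s * h) * (g * x * g⁻¹) * (s * h)⁻¹) * s = (h * g) * x * (h * g)⁻¹ := by
          group
        rw [e] at h2
        exact h2
      refine ⟨conjHom _ (h * g), ⟨Cfsg.Agent.Lib.Helper8.preimageAlong_le _ P',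
        fun x => hconj x.1 x.2, h * g, fun x => rfl⟩,
        Cfsg.Agent.Lib.Helper8.preimageAlong_le _ P', fun x => hconj x.1 x.2,
        Cfsg.Agent.Lib.Helper8.preimageAlong_map_mem _ P', ?_⟩
      intro x
      rw [hg]
      show (QuotientGroup.mk' H) g * (QuotientGroup.mk' H) (x : G) * ((QuotientGroup.mk' H) g)⁻¹ =
        (QuotientGroup.mk' H) (h * g * x * (h * g)⁻¹)
      have hh1 : (QuotientGroup.mk' H) h = 1 := by
        rw [QuotientGroup.mk'_apply, QuotientGroup.eq_one_iff]
        exact hh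
      rw [map_mul, map_mul, map_inv, map_mul, hh1, one_mul]
    · rintro ⟨hP', φ, ⟨hPS, hφS, g, hg⟩, hP, hφS', hPP', hind⟩
      have hrep : ∀ y : P', ∃ x : FusionSystem.preimageAlong
          ((QuotientGroup.mk' H).comp (S : Subgroup G).subtype) P',
          (QuotientGroup.mk' H) (x : G) = y := by
        intro y
        obtain ⟨t, ht, hty⟩ := hP' y.2
        refine ⟨⟨t, (Cfsg.Agent.Lib.Helper8.mem_preimageAlong _ P' t).2 ⟨ht, ?_⟩⟩, hty⟩
        rw [hθ]
        show (QuotientGroup.mk' H) t ∈ P'
        rw [hty]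
        exact y.2
      have hval : ∀ y : P', ∃ x : FusionSystem.preimageAlong
          ((QuotientGroup.mk' H).comp (S : Subgroup G).subtype) P',
          (QuotientGroup.mk' H) (x : G) = y ∧ φ' y = (QuotientGroup.mk' H) (g * x * g⁻¹) := by
        intro y
        obtain ⟨x, hx⟩ := hrep y
        refine ⟨x, hx, ?_⟩
        have h1 := hind x
        have e : (⟨((QuotientGroup.mk' H).comp (S : Subgroup G).subtype) ⟨x, hP x.2⟩, hPP' x⟩ : P') = y :=
          Subtype.ext hx
        rw [e] at h1
        rw [h1]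
        show (QuotientGroup.mk' H) (φ x) = _
        rw [hg]
      refine ⟨hP', ?_, (QuotientGroup.mk' H) g, ?_⟩
      · intro y
        obtain ⟨x, hx, hy⟩ := hval y
        rw [hy]
        have h1 := hφS x
        rw [hg] at h1
        exact ⟨_, h1, rfl⟩
      · intro y
        obtain ⟨x, hx, hy⟩ := hval y
        rw [hy, map_mul, map_mul, map_inv, hx]

end Cfsg.Agent.S5135
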