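import Cfsg.Statements.S5521
import Mathlib
import Cfsg.Agent.Lib.Helper9.M24Fix

set_option autoImplicit false
open Cfsg

namespace Cfsg.Agent.S5521

/-- The Mathieu group M₂₄ in its natural action on the 24 coordinate positions of the binary Golay code has minimal base size exactly 7: every set of at most 6 positions is fixed pointwise by some non-identity element of M₂₄, while some set of 7 positions is fixed pointwise only by the identity. -/
theorem result :
    (∀ B : Finset Cfsg.GolayPt, B.card ≤ 6 → ∃ g ∈ Cfsg.M24, g ≠ 1 ∧ ∀ b ∈ B, g b = b) ∧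
    (∃ B : Finset Cfsg.GolayPt, B.card = 7 ∧ ∀ g ∈ Cfsg.M24, (∀ b ∈ B, g b = b) → g = 1) := by
  constructor
  · intro B hB
    obtain ⟨E, hBE, hE⟩ := Finset.exists_superset_card_eq hB
      (by rw [Cfsg.Agent.Lib.Helper9.card_golayPt']; norm_num)
    have h1 := Cfsg.Agent.Lib.Helper9.card_le_desc Cfsg.M24 E
    rw [hE, Cfsg.Agent.Lib.Helper9.card_M24] at h1
    have hd : Nat.descFactorial 24 6 = 96909120 := by decide
    rw [hd] at h1
    by_contra hcon
    push Not at hcon
    have hbot : Cfsg.M24 ⊓ Cfsg.Agent.Lib.Helper9.fixF E = ⊥ := by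
      rw [eq_bot_iff]
      intro g hg
      rw [Subgroup.mem_bot]
      by_contra hne
      obtain ⟨b, hb, hgb⟩ := hcon g hg.1 hne
      exact hgb (hg.2 b (hBE hb))
    rw [hbot, Subgroup.card_bot] at h1
    omega
  · refine ⟨Cfsg.Agent.Lib.Helper9.mset 8388671, ?_, fun g hg hfix =>
      Cfsg.Agent.Lib.Helper9.rigid_of_chk Cfsg.Agent.Lib.Helper9.rigidSteps 8388671
        Cfsg.Agent.Lib.Helper9.rigidSteps_ok g hg hfix⟩
    rw [Cfsg.Agent.Lib.Helper9.card_mset]
    decide

end Cfsg.Agent.S5521
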