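import Cfsg.Statements.S5562
import Mathlib

set_option autoImplicit false
open Cfsg

namespace Cfsg.Agent.S5562

theorem sq_eq_one_of_odd_inverts {G : Type*} [Group G] (w v : G) (h : w * v = v⁻¹ * w) (s : ℕ)
    (hs : Odd s) (hw : w ^ s = 1) : v * v = 1 := by
  have h2 : w * v⁻¹ = v * w := by
    calc w * v⁻¹ = v * (v⁻¹ * w) * v⁻¹ := by group
      _ = v * (w * v) * v⁻¹ := by rw [h]
      _ = v * w := by group
  have hc : Commute (w * w) v := by
    show w * w * v = v * (w * w)
    calc w * w * v = w * (w * v) := by group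
      _ = w * (v⁻¹ * w) := by rw [h]
      _ = (w * v⁻¹) * w := by group
      _ = v * w * w := by rw [h2]
      _ = v * (w * w) := by group
  obtain ⟨k, rfl⟩ := hs
  have e1 : w ^ (2 * k + 1) = (w * w) ^ k * w := by rw [pow_succ, pow_mul, sq]
  have hw' : w = ((w * w) ^ k)⁻¹ := by
    rw [e1] at hw
    exact eq_inv_of_mul_eq_one_right hw
  have hcw : Commute w v := by
    rw [hw']
    exact (hc.pow_left k).inv_left
  have e2 : v = v⁻¹ := by
    have := hcw.eq
    rw [h] at this
    exact (mul_right_cancel this).symm
  exact mul_eq_one_iff_eq_inv.mpr e2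

/-- Let G be a finite group, d an involution of G whose conjugates pairwise have products of odd order, and x any involution of G. Then the conjugacy class of d is the disjoint union, over the conjugates a of d commuting with x, of the sets of conjugates of d commuting with ax: every conjugate of d commutes with ax for exactly one conjugate a of d that commutes with x. -/
theorem result {G : Type*} [Group G] [Finite G] (d : G) (hd : orderOf d = 2)
    (hodd : ∀ a ∈ conjugatesOf d, ∀ b ∈ conjugatesOf d, Odd (orderOf (a * b)))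
    (x : G) (hx : orderOf x = 2) :
    ∀ e ∈ conjugatesOf d,
      ∃! a : G, a ∈ conjugatesOf d ∧ Commute a x ∧ Commute e (a * x) := by
  classical
  intro e he
  -- basic involution facts
  have hdd : d * d = 1 := by
    have := pow_orderOf_eq_one d
    rw [hd, sq] at this; exact this
  have hxx : x * x = 1 := by
    have := pow_orderOf_eq_one x
    rw [hx, sq] at this; exact this
  have hinvD : ∀ a ∈ conjugatesOf d, a * a = 1 := by
    intro a ha
    obtain ⟨c, rfl⟩ := isConj_iff.mp (show IsConj d a from ha)
    calc c * d * c⁻¹ * (c * d * c⁻¹) = c * (d * d) * c⁻¹ := by group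
      _ = 1 := by rw [hdd]; group
  have hconjD : ∀ a ∈ conjugatesOf d, ∀ g : G, g * a * g⁻¹ ∈ conjugatesOf d := by
    intro a ha g
    exact (show IsConj d a from ha).trans (isConj_iff.mpr ⟨g, rfl⟩)
  have hee := hinvD e he
  have he_inv : e⁻¹ = e := inv_eq_of_mul_eq_one_left hee
  have hx_inv : x⁻¹ = x := inv_eq_of_mul_eq_one_left hxx
  -- uniqueness
  have huniq : ∀ a a' : G, a ∈ conjugatesOf d → Commute a x → Commute e (a * x) →
      a' ∈ conjugatesOf d → Commute a' x → Commute e (a' * x) → a' = a := by
    intro a a' ha hax hea ha' ha'x hea'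
    have haa := hinvD a ha
    have ha'a' := hinvD a' ha'
    have ha_inv : a⁻¹ = a := inv_eq_of_mul_eq_one_left haa
    have ha'_inv : a'⁻¹ = a' := inv_eq_of_mul_eq_one_left ha'a'
    have hv : a * a' = (a * x) * (a' * x)⁻¹ := by
      rw [mul_inv_rev, ha'_inv]; group
    have hev : Commute e (a * a') := by
      rw [hv]; exact hea.mul_right hea'.inv_right
    have hvinv : (a * a')⁻¹ = a' * a := by rw [mul_inv_rev, ha_inv, ha'_inv]
    have hev' : Commute e (a' * a) := by rw [← hvinv]; exact hev.inv_right
    have hwv : (e * a) * (a * a') = (a * a')⁻¹ * (e * a) := by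
      rw [hvinv]
      calc e * a * (a * a') = e * (a * a) * a' := by group
        _ = e * a' := by rw [haa, mul_one]
        _ = e * a' * (a * a) := by rw [haa, mul_one]
        _ = e * (a' * a) * a := by group
        _ = (a' * a) * e * a := by rw [hev'.eq]
        _ = a' * a * (e * a) := by group
    have hsq := sq_eq_one_of_odd_inverts (e * a) (a * a') hwv (orderOf (e * a)) (hodd e he a ha)
      (pow_orderOf_eq_one _)
    have hvo := hodd a ha a' ha'
    have hdvd : orderOf (a * a') ∣ 2 := orderOf_dvd_of_pow_eq_one (by rw [sq]; exact hsq)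
    have h1 : orderOf (a * a') = 1 := by
      rcases (Nat.dvd_prime Nat.prime_two).mp hdvd with h | h
      · exact h
      · rw [h] at hvo; exact absurd hvo (by decide)
    have h2 : a * a' = 1 := orderOf_eq_one_iff.mp h1
    calc a' = a⁻¹ := (inv_eq_of_mul_eq_one_right h2).symm
      _ = a := ha_inv
  -- existence
  have hconj_u : e * (e * x) * e⁻¹ = (e * x)⁻¹ := by
    rw [mul_inv_rev, hx_inv, he_inv]
    calc e * (e * x) * e = (e * e) * x * e := by group
      _ = x * e := by rw [hee, one_mul]
  have heu : e * (e * x) = x := by rw [← mul_assoc, hee, one_mul]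
  generalize e * x = u at hconj_u heu
  have hF0 : ∀ k : ℕ, e * u ^ k = (u ^ k)⁻¹ * e := by
    intro k
    have := conj_pow (a := e) (b := u) (i := k)
    rw [hconj_u, inv_pow] at this
    rw [this]; group
  have hF : ∀ k : ℕ, e * u ^ (2 * k) ∈ conjugatesOf d := by
    intro k
    have : e * u ^ (2 * k) = (u ^ k)⁻¹ * e * ((u ^ k)⁻¹)⁻¹ := by
      rw [inv_inv, ← hF0, mul_assoc, ← pow_add, two_mul]
    rw [this]; exact hconjD e he _
  have hn : 0 < orderOf u := orderOf_pos u
  rcases Nat.even_or_odd (orderOf u) with hev | hodd'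
  · obtain ⟨m, hm⟩ := hev
    have hm0 : 0 < m := by omega
    have htt : u ^ m * u ^ m = 1 := by rw [← pow_add, ← hm, pow_orderOf_eq_one]
    have ht1 : u ^ m ≠ 1 := by
      intro h
      have := Nat.le_of_dvd hm0 (orderOf_dvd_of_pow_eq_one h)
      omega
    have hte : Commute e (u ^ m) := by
      show e * u ^ m = u ^ m * e
      rw [hF0 m, inv_eq_of_mul_eq_one_left htt]
    have htx : Commute x (u ^ m) := by
      rw [← heu]
      exact hte.mul_left ((Commute.refl u).pow_right m)
    rcases Nat.even_or_odd m with hme | hmo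
    · exfalso
      obtain ⟨j, hj⟩ := hme
      have h1 : e * u ^ m ∈ conjugatesOf d := by
        have := hF j
        rwa [two_mul, ← hj] at this
      have h2 := hodd e he (e * u ^ m) h1
      have h3 : e * (e * u ^ m) = u ^ m := by rw [← mul_assoc, hee, one_mul]
      rw [h3] at h2
      have h4 : orderOf (u ^ m) = 2 := orderOf_eq_prime (by rw [sq]; exact htt) ht1
      rw [h4] at h2
      exact absurd h2 (by decide)
    · obtain ⟨j, hj⟩ := hmo
      have ha : x * u ^ m ∈ conjugatesOf d := by
        have := hF (j + 1)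
        have e1 : 2 * (j + 1) = 1 + m := by omega
        rw [e1, pow_add, pow_one, ← mul_assoc, heu] at this
        exact this
      have hc1 : Commute (x * u ^ m) x := (Commute.refl x).mul_left htx.symm
      have hc2 : Commute e (x * u ^ m * x) := by
        have : x * u ^ m * x = u ^ m := by rw [htx.eq, mul_assoc, hxx, mul_one]
        rw [this]; exact hte
      refine ⟨x * u ^ m, ⟨ha, hc1, hc2⟩, ?_⟩
      rintro y ⟨hy1, hy2, hy3⟩
      exact huniq (x * u ^ m) y ha hc1 hc2 hy1 hy2 hy3
  · obtain ⟨k, hk⟩ := hodd'
    have hxD : x ∈ conjugatesOf d := by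
      have := hF (k + 1)
      have e1 : 2 * (k + 1) = orderOf u + 1 := by omega
      rw [e1, pow_add, pow_orderOf_eq_one, one_mul, pow_one, heu] at this
      exact this
    have hc2 : Commute e (x * x) := by rw [hxx]; exact Commute.one_right e
    refine ⟨x, ⟨hxD, Commute.refl x, hc2⟩, ?_⟩
    rintro y ⟨hy1, hy2, hy3⟩
    exact huniq x y hxD (Commute.refl x) hc2 hy1 hy2 hy3

end Cfsg.Agent.S5562
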