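import Cfsg.Statements.S5635
import Mathlib
import Cfsg.Agent.Lib.Helper9.Decomp

set_option autoImplicit false
open Cfsg

namespace Cfsg.Agent.S5635

open Cfsg.Agent.Lib.Helper9.Decomp
open scoped Matrix

section gen
variable {F : Type*} [Field F] {κ : Type} [Fintype κ] [DecidableEq κ]

/-- a general linear group element from a linear map with a two-sided inverse -/
noncomputable def mkGL (L L' : (κ → F) →ₗ[F] (κ → F)) (h1 : L ∘ₗ L' = LinearMap.id)
    (h2 : L' ∘ₗ L = LinearMap.id) : Matrix.GeneralLinearGroup κ F :=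
  ⟨LinearMap.toMatrix' L, LinearMap.toMatrix' L',
    by rw [← LinearMap.toMatrix'_comp, h1, LinearMap.toMatrix'_id],
    by rw [← LinearMap.toMatrix'_comp, h2, LinearMap.toMatrix'_id]⟩

theorem mkGL_mulVec (L L' : (κ → F) →ₗ[F] (κ → F)) (h1 : L ∘ₗ L' = LinearMap.id)
    (h2 : L' ∘ₗ L = LinearMap.id) (x : κ → F) :
    ((mkGL L L' h1 h2 : Matrix.GeneralLinearGroup κ F) : Matrix κ κ F) *ᵥ x = L x := by
  show LinearMap.toMatrix' L *ᵥ x = _
  rw [← Matrix.toLin'_apply, Matrix.toLin'_toMatrix']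

theorem mkGL_det (L L' : (κ → F) →ₗ[F] (κ → F)) (h1 : L ∘ₗ L' = LinearMap.id)
    (h2 : L' ∘ₗ L = LinearMap.id) :
    ((Matrix.GeneralLinearGroup.det (mkGL L L' h1 h2) : Fˣ) : F) = LinearMap.det L := by
  rw [Matrix.GeneralLinearGroup.val_det_apply]
  exact LinearMap.det_toMatrix' L

theorem tv_comp (f : Module.Dual F (κ → F)) (v : κ → F) (c : F) (hc : c * (1 + f v) = 1) :
    LinearMap.transvection f v ∘ₗ LinearMap.transvection (-(c • f)) v = LinearMap.id := by
  refine LinearMap.ext fun x => ?_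
  show x + (-(c • f)) x • v + f (x + (-(c • f)) x • v) • v = x
  rw [map_add, map_smul, LinearMap.neg_apply, LinearMap.smul_apply, smul_eq_mul, smul_eq_mul]
  have hc' : (c * (1 + f v)) • v = (1 : F) • v := by rw [hc]
  linear_combination (norm := module) (-(f x)) • hc'

theorem tv_comp' (f : Module.Dual F (κ → F)) (v : κ → F) (c : F) (hc : c * (1 + f v) = 1) :
    LinearMap.transvection (-(c • f)) v ∘ₗ LinearMap.transvection f v = LinearMap.id := by
  refine LinearMap.ext fun x => ?_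
  show x + f x • v + (-(c • f)) (x + f x • v) • v = x
  rw [map_add, map_smul, LinearMap.neg_apply, LinearMap.neg_apply, LinearMap.smul_apply,
    LinearMap.smul_apply, smul_eq_mul, smul_eq_mul]
  have hc' : (c * (1 + f v)) • v = (1 : F) • v := by rw [hc]
  linear_combination (norm := module) (-(f x)) • hc'

/-- the map `x ↦ x + f x • v` as an element of the general linear group -/
noncomputable def tvG (f : Module.Dual F (κ → F)) (v : κ → F) (hu : 1 + f v ≠ 0) :
    Matrix.GeneralLinearGroup κ F :=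
  mkGL (LinearMap.transvection f v) (LinearMap.transvection (-((1 + f v)⁻¹ • f)) v)
    (tv_comp f v _ (inv_mul_cancel₀ hu)) (tv_comp' f v _ (inv_mul_cancel₀ hu))

theorem tvG_mulVec (f : Module.Dual F (κ → F)) (v : κ → F) (hu : 1 + f v ≠ 0) (x : κ → F) :
    ((tvG f v hu : Matrix.GeneralLinearGroup κ F) : Matrix κ κ F) *ᵥ x = x + f x • v := by
  rw [tvG, mkGL_mulVec]
  rfl

theorem tvG_det (f : Module.Dual F (κ → F)) (v : κ → F) (hu : 1 + f v ≠ 0) :
    ((Matrix.GeneralLinearGroup.det (tvG f v hu) : Fˣ) : F) = 1 + f v := by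
  rw [tvG, mkGL_det, LinearMap.transvection.det]

/-- the matrices preserving the weight -/
noncomputable def wtGroup {t : ℕ} (D : Fin t → Submodule F (κ → F))
    (h : DirectSum.IsInternal D) : Subgroup (Matrix.GeneralLinearGroup κ F) where
  carrier := {g | ∀ v, wt D h ((g : Matrix κ κ F) *ᵥ v) = wt D h v}
  one_mem' := fun v => by simp
  mul_mem' := by
    intro a b ha hb v
    rw [Units.val_mul, ← Matrix.mulVec_mulVec, ha, hb]
  inv_mem' := by
    intro a ha v
    have h1 := ha (((a⁻¹ : Matrix.GeneralLinearGroup κ F) : Matrix κ κ F) *ᵥ v)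
    rw [Matrix.mulVec_mulVec, ← Units.val_mul, mul_inv_cancel, Units.val_one,
      Matrix.one_mulVec] at h1
    exact h1.symm

theorem stab_le {t : ℕ} (D : Fin t → Submodule F (κ → F)) (h : DirectSum.IsInternal D) :
    Cfsg.Geo.decompositionStabilizer D ≤ wtGroup D h := by
  rintro g ⟨σ, hσ⟩ v
  have h1 := wt_perm D h (Matrix.toLin' (g : Matrix κ κ F)) σ
    (fun i x hx => by
      rw [← hσ i]
      exact Submodule.mem_map_of_mem hx)
    (fun x hx0 => by
      rw [Matrix.toLin'_apply] at hx0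
      have h2 : x = (((g⁻¹ : Matrix.GeneralLinearGroup κ F) : Matrix κ κ F)
          * (g : Matrix κ κ F)) *ᵥ x := by
        rw [← Units.val_mul, inv_mul_cancel, Units.val_one, Matrix.one_mulVec]
      rw [h2, ← Matrix.mulVec_mulVec, hx0, Matrix.mulVec_zero]) v
  rw [Matrix.toLin'_apply] at h1
  exact h1

theorem not_stab {t : ℕ} (D : Fin t → Submodule F (κ → F)) (h : DirectSum.IsInternal D)
    (g : Matrix.GeneralLinearGroup κ F) (i₀ i₁ i₂ : Fin t) (h12 : i₁ ≠ i₂) (x : κ → F)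
    (hx : x ∈ D i₀) (h1 : comp D h i₁ ((g : Matrix κ κ F) *ᵥ x) ≠ 0)
    (h2 : comp D h i₂ ((g : Matrix κ κ F) *ᵥ x) ≠ 0) :
    g ∉ Cfsg.Geo.decompositionStabilizer D := by
  rintro ⟨σ, hσ⟩
  have hy : (g : Matrix κ κ F) *ᵥ x ∈ D (σ i₀) := by
    rw [← hσ i₀, ← Matrix.toLin'_apply]
    exact Submodule.mem_map_of_mem hx
  have e1 : i₁ = σ i₀ := by
    by_contra hne
    exact h1 (by rw [comp_of_mem D h hy, if_neg hne])
  have e2 : i₂ = σ i₀ := by
    by_contra hne
    exact h2 (by rw [comp_of_mem D h hy, if_neg hne])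
  exact h12 (e1.trans e2.symm)

section coords
variable {t m : ℕ} (D : Fin t → Submodule F (κ → F))
  (hfr : ∀ i, Module.finrank F (D i) = m) (h : DirectSum.IsInternal D)

/-- a basis of each member -/
noncomputable def bas (i : Fin t) : Module.Basis (Fin m) F (D i) :=
  Module.finBasisOfFinrankEq F (D i) (hfr i)

/-- the basis vectors -/
noncomputable def vec (i : Fin t) (k : Fin m) : κ → F := (bas D hfr i k : κ → F)

/-- the coordinate functionals -/
noncomputable def co (i : Fin t) (k : Fin m) : (κ → F) →ₗ[F] F :=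
  (bas D hfr i).coord k ∘ₗ (comp D h i).codRestrict (D i) (comp_mem D h i)

theorem vec_mem (i : Fin t) (k : Fin m) : vec D hfr i k ∈ D i := Subtype.property _

theorem vec_ne (i : Fin t) (k : Fin m) : vec D hfr i k ≠ 0 := by
  intro h0
  exact (bas D hfr i).ne_zero k (Subtype.ext h0)

theorem comp_eq (i : Fin t) (v : κ → F) :
    comp D h i v = ∑ k, co D hfr h i k v • vec D hfr i k := by
  have h1 := (bas D hfr i).sum_repr ((comp D h i).codRestrict (D i) (comp_mem D h i) v)
  have h2 := congrArg Subtype.val h1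
  rw [LinearMap.codRestrict_apply] at h2
  rw [← h2, Submodule.coe_sum]
  rfl

theorem co_vec (i j : Fin t) (k l : Fin m) :
    co D hfr h i k (vec D hfr j l) = if i = j ∧ k = l then 1 else 0 := by
  unfold co vec
  rw [LinearMap.comp_apply]
  by_cases hij : i = j
  · subst hij
    have h1 : (comp D h i).codRestrict (D i) (comp_mem D h i) (bas D hfr i l : κ → F)
        = bas D hfr i l := by
      apply Subtype.ext
      rw [LinearMap.codRestrict_apply, comp_of_mem D h (Subtype.property _), if_pos rfl]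
    rw [h1, Module.Basis.coord_apply, Module.Basis.repr_self, Finsupp.single_apply]
    by_cases hkl : l = k
    · simp [hkl]
    · have hkl' : ¬ k = l := fun h' => hkl h'.symm
      simp [hkl, hkl']
  · have h1 : (comp D h i).codRestrict (D i) (comp_mem D h i) (bas D hfr j l : κ → F) = 0 := by
      apply Subtype.ext
      rw [LinearMap.codRestrict_apply, comp_of_mem D h (Subtype.property _), if_neg hij]
      rfl
    rw [h1, map_zero]
    simp [hij]

theorem comp_zero_iff (i : Fin t) (v : κ → F) :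
    comp D h i v = 0 ↔ ∀ k, co D hfr h i k v = 0 := by
  constructor
  · intro h0 k
    unfold co
    rw [LinearMap.comp_apply]
    have h1 : (comp D h i).codRestrict (D i) (comp_mem D h i) v = 0 := by
      apply Subtype.ext
      rw [LinearMap.codRestrict_apply, h0]
      rfl
    rw [h1, map_zero]
  · intro h0
    rw [comp_eq D hfr h i v]
    exact Finset.sum_eq_zero (fun k _ => by rw [h0 k, zero_smul])

/-- the sum of the basis vectors with second index `k₀` over `S` -/
noncomputable def wS (S : Finset (Fin t)) (k₀ : Fin m) : κ → F := ∑ j ∈ S, vec D hfr j k₀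

/-- the functional `γ` times the sum of the coordinates with second index `k₁` over `S'` -/
noncomputable def fS (S' : Finset (Fin t)) (k₁ : Fin m) (γ : F) : Module.Dual F (κ → F) :=
  γ • ∑ j ∈ S', co D hfr h j k₁

theorem fS_apply (S' : Finset (Fin t)) (k₁ : Fin m) (γ : F) (x : κ → F) :
    fS D hfr h S' k₁ γ x = γ * ∑ j ∈ S', co D hfr h j k₁ x := by
  simp [fS, LinearMap.sum_apply]

theorem co_wS (i : Fin t) (k : Fin m) (S : Finset (Fin t)) (k₀ : Fin m) :
    co D hfr h i k (wS D hfr S k₀) = if i ∈ S ∧ k = k₀ then 1 else 0 := by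
  unfold wS
  rw [map_sum]
  simp only [co_vec]
  by_cases hk : k = k₀
  · simp [hk]
  · simp [hk]

theorem comp_wS (i : Fin t) (S : Finset (Fin t)) (k₀ : Fin m) :
    comp D h i (wS D hfr S k₀) = if i ∈ S then vec D hfr i k₀ else 0 := by
  unfold wS
  rw [map_sum, Finset.sum_congr rfl (fun j _ => comp_of_mem D h (vec_mem D hfr j k₀) i)]
  simp

theorem wt_wS (S : Finset (Fin t)) (k₀ : Fin m) : wt D h (wS D hfr S k₀) = (S.card : F) := by
  classical
  calc wt D h (wS D hfr S k₀) = ∑ i, (if i ∈ S then (1 : F) else 0) := by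
        unfold wt
        apply Finset.sum_congr rfl
        intro i _
        rw [comp_wS]
        by_cases hi : i ∈ S
        · simp [hi, vec_ne D hfr i k₀]
        · simp [hi]
    _ = (S.card : F) := by
        rw [Finset.sum_boole]
        congr 2
        ext i
        simp

theorem fS_wS (S S' : Finset (Fin t)) (k₀ k₁ : Fin m) (γ : F) :
    fS D hfr h S' k₁ γ (wS D hfr S k₀)
      = γ * ∑ j ∈ S', (if j ∈ S ∧ k₁ = k₀ then (1 : F) else 0) := by
  rw [fS_apply]
  simp only [co_wS]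

theorem fS_vec (S' : Finset (Fin t)) (k₁ : Fin m) (γ : F) (i : Fin t) (k : Fin m) :
    fS D hfr h S' k₁ γ (vec D hfr i k) = γ * (if i ∈ S' ∧ k₁ = k then 1 else 0) := by
  rw [fS_apply]
  simp only [co_vec]
  congr 1
  by_cases hk : k₁ = k
  · simp [hk, eq_comm]
  · simp [hk]

end coords

end gen

section elem
variable {F : Type*} [Field F] {κ : Type} [Fintype κ] [DecidableEq κ]
variable {t m : ℕ} (D : Fin t → Submodule F (κ → F))
  (hfr : ∀ i, Module.finrank F (D i) = m) (h : DirectSum.IsInternal D)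

theorem fS_wS_same (S : Finset (Fin t)) (k : Fin m) (γ : F) :
    fS D hfr h S k γ (wS D hfr S k) = γ * (S.card : F) := by
  rw [fS_wS, Finset.sum_congr rfl (fun j hj => if_pos ⟨hj, rfl⟩), Finset.sum_const,
    nsmul_eq_mul, mul_one]

theorem fS_wS_ne (S S' : Finset (Fin t)) (k₀ k₁ : Fin m) (γ : F) (hk : k₁ ≠ k₀) :
    fS D hfr h S' k₁ γ (wS D hfr S k₀) = 0 := by
  rw [fS_wS, Finset.sum_eq_zero (fun j _ => if_neg (fun hc => hk hc.2)), mul_zero]

theorem fS_wS_disj (S S' : Finset (Fin t)) (k₀ k₁ : Fin m) (γ : F) (hd : ∀ j ∈ S', j ∉ S) :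
    fS D hfr h S' k₁ γ (wS D hfr S k₀) = 0 := by
  rw [fS_wS, Finset.sum_eq_zero (fun j hj => if_neg (fun hc => hd j hj hc.1)), mul_zero]

/-- the element `x ↦ x + (γ Σ_{j∈S'} co j k₁ x) • wS S k₀` -/
noncomputable def el (S S' : Finset (Fin t)) (k₀ k₁ : Fin m) (γ : F)
    (hu : 1 + fS D hfr h S' k₁ γ (wS D hfr S k₀) ≠ 0) : Matrix.GeneralLinearGroup κ F :=
  tvG (fS D hfr h S' k₁ γ) (wS D hfr S k₀) hu

theorem el_mulVec (S S' : Finset (Fin t)) (k₀ k₁ : Fin m) (γ : F)
    (hu : 1 + fS D hfr h S' k₁ γ (wS D hfr S k₀) ≠ 0) (x : κ → F) :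
    ((el D hfr h S S' k₀ k₁ γ hu : Matrix.GeneralLinearGroup κ F) : Matrix κ κ F) *ᵥ x
      = x + fS D hfr h S' k₁ γ x • wS D hfr S k₀ :=
  tvG_mulVec _ _ _ _

theorem el_det (S S' : Finset (Fin t)) (k₀ k₁ : Fin m) (γ : F)
    (hu : 1 + fS D hfr h S' k₁ γ (wS D hfr S k₀) ≠ 0) :
    ((Matrix.GeneralLinearGroup.det (el D hfr h S S' k₀ k₁ γ hu) : Fˣ) : F)
      = 1 + fS D hfr h S' k₁ γ (wS D hfr S k₀) :=
  tvG_det _ _ _

theorem co_el (S S' : Finset (Fin t)) (k₀ k₁ : Fin m) (γ : F)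
    (hu : 1 + fS D hfr h S' k₁ γ (wS D hfr S k₀) ≠ 0) (i : Fin t) (k : Fin m) (x : κ → F) :
    co D hfr h i k (((el D hfr h S S' k₀ k₁ γ hu : Matrix.GeneralLinearGroup κ F) :
        Matrix κ κ F) *ᵥ x)
      = co D hfr h i k x + fS D hfr h S' k₁ γ x * (if i ∈ S ∧ k = k₀ then 1 else 0) := by
  rw [el_mulVec, map_add, map_smul, co_wS, smul_eq_mul]

theorem el_comp (S S' : Finset (Fin t)) (k₀ k₁ : Fin m) (γ : F)
    (hu : 1 + fS D hfr h S' k₁ γ (wS D hfr S k₀) ≠ 0) (i₀ i₁ : Fin t) (k : Fin m)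
    (hne : i₁ ≠ i₀) :
    comp D h i₁ (((el D hfr h S S' k₀ k₁ γ hu : Matrix.GeneralLinearGroup κ F) :
        Matrix κ κ F) *ᵥ vec D hfr i₀ k)
      = (γ * (if i₀ ∈ S' ∧ k₁ = k then 1 else 0)) •
          (if i₁ ∈ S then vec D hfr i₁ k₀ else 0) := by
  rw [el_mulVec, map_add, map_smul, comp_of_mem D h (vec_mem D hfr i₀ k), if_neg hne, zero_add,
    fS_vec, comp_wS]

theorem el_fix (S S' : Finset (Fin t)) (k₀ k₁ : Fin m) (γ : F)
    (hu : 1 + fS D hfr h S' k₁ γ (wS D hfr S k₀) ≠ 0) (i₀ : Fin t) (k : Fin m)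
    (hi : i₀ ∉ S') :
    ((el D hfr h S S' k₀ k₁ γ hu : Matrix.GeneralLinearGroup κ F) : Matrix κ κ F) *ᵥ
      vec D hfr i₀ k = vec D hfr i₀ k := by
  rw [el_mulVec, fS_vec, if_neg (fun hc => hi hc.1), mul_zero, zero_smul, add_zero]

end elem

theorem f2_cases {F : Type*} [Field F] [Fintype F] (hq : Fintype.card F = 2) (x : F) :
    x = 0 ∨ x = 1 := by
  classical
  have h : ({0, 1} : Finset F) = Finset.univ :=
    Finset.eq_univ_of_card _ (by rw [Finset.card_pair zero_ne_one, hq])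
  have hx : x ∈ ({0, 1} : Finset F) := by rw [h]; exact Finset.mem_univ x
  simpa using hx

section wtco
variable {F : Type*} [Field F] [Fintype F] {κ : Type} [Fintype κ] [DecidableEq κ] {t : ℕ}

theorem wt_eq_m1 (D : Fin t → Submodule F (κ → F)) (hfr : ∀ i, Module.finrank F (D i) = 1)
    (h : DirectSum.IsInternal D) (v : κ → F) :
    wt D h v = ∑ i, (co D hfr h i 0 v) ^ (Fintype.card F - 1) := by
  classical
  unfold wt
  apply Finset.sum_congr rfl
  intro i _
  by_cases h0 : co D hfr h i 0 v = 0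
  · have h1 : comp D h i v = 0 := (comp_zero_iff D hfr h i v).mpr (fun k => by
      have hk : k = 0 := Subsingleton.elim _ _
      rw [hk]
      exact h0)
    have h2 : Fintype.card F - 1 ≠ 0 := by
      have h3 := Fintype.one_lt_card (α := F)
      omega
    rw [if_pos h1, h0, zero_pow h2]
  · have h1 : comp D h i v ≠ 0 := fun hc => h0 ((comp_zero_iff D hfr h i v).mp hc 0)
    rw [if_neg h1, FiniteField.pow_card_sub_one_eq_one _ h0]

theorem wt_eq_m2 (hq : Fintype.card F = 2) (D : Fin t → Submodule F (κ → F))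
    (hfr : ∀ i, Module.finrank F (D i) = 2) (h : DirectSum.IsInternal D) (v : κ → F) :
    wt D h v = ∑ i, (co D hfr h i 0 v + co D hfr h i 1 v
      + co D hfr h i 0 v * co D hfr h i 1 v) := by
  classical
  have h2 : (2 : F) = 0 := by
    have h3 := Nat.cast_card_eq_zero F
    rw [hq] at h3
    exact_mod_cast h3
  unfold wt
  apply Finset.sum_congr rfl
  intro i _
  have hiff : comp D h i v = 0 ↔ (co D hfr h i 0 v = 0 ∧ co D hfr h i 1 v = 0) := by
    rw [comp_zero_iff D hfr h i v]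
    constructor
    · intro hk
      exact ⟨hk 0, hk 1⟩
    · rintro ⟨h0, h1⟩ k
      fin_cases k
      · exact h0
      · exact h1
  rcases f2_cases hq (co D hfr h i 0 v) with ha | ha <;>
    rcases f2_cases hq (co D hfr h i 1 v) with hb | hb
  · rw [if_pos (hiff.mpr ⟨ha, hb⟩), ha, hb]
    simp
  · have hne : ¬ comp D h i v = 0 := by
      intro hc
      have h3 := (hiff.mp hc).2
      rw [hb] at h3
      exact one_ne_zero h3
    rw [if_neg hne, ha, hb]
    simp
  · have hne : ¬ comp D h i v = 0 := by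
      intro hc
      have h3 := (hiff.mp hc).1
      rw [ha] at h3
      exact one_ne_zero h3
    rw [if_neg hne, ha, hb]
    simp
  · have hne : ¬ comp D h i v = 0 := by
      intro hc
      have h3 := (hiff.mp hc).1
      rw [ha] at h3
      exact one_ne_zero h3
    rw [if_neg hne, ha, hb]
    linear_combination (-1 : F) * h2

theorem el_wt_m1 (D : Fin t → Submodule F (κ → F)) (hfr : ∀ i, Module.finrank F (D i) = 1)
    (h : DirectSum.IsInternal D) (S : Finset (Fin t)) (γ : F)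
    (hu : 1 + fS D hfr h S 0 γ (wS D hfr S 0) ≠ 0)
    (Hinv : ∀ a : Fin t → F, ∑ i ∈ S, (a i + γ * ∑ j ∈ S, a j) ^ (Fintype.card F - 1)
      = ∑ i ∈ S, (a i) ^ (Fintype.card F - 1)) :
    el D hfr h S S 0 0 γ hu ∈ wtGroup D h := by
  intro v
  rw [wt_eq_m1 D hfr h, wt_eq_m1 D hfr h, ← Finset.sum_add_sum_compl S,
    ← Finset.sum_add_sum_compl S (fun i => (co D hfr h i 0 v) ^ (Fintype.card F - 1))]
  congr 1
  · rw [← Hinv (fun i => co D hfr h i 0 v)]
    apply Finset.sum_congr rfl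
    intro i hi
    rw [co_el, fS_apply, if_pos ⟨hi, rfl⟩, mul_one]
  · apply Finset.sum_congr rfl
    intro i hi
    rw [Finset.mem_compl] at hi
    rw [co_el, if_neg (fun hc => hi hc.1), mul_zero, add_zero]

theorem inv22 {ι : Type*} (h2 : (2 : F) = 0) (hsq : ∀ x : F, x * x = x) (S : Finset ι)
    (hS : (S.card : F) = 1) (a b : ι → F) :
    ∑ i ∈ S, ((a i + ∑ j ∈ S, b j) + b i + (a i + ∑ j ∈ S, b j) * b i)
      = ∑ i ∈ S, (a i + b i + a i * b i) := by
  have e : ∀ i, (a i + ∑ j ∈ S, b j) + b i + (a i + ∑ j ∈ S, b j) * b i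
      = (a i + b i + a i * b i) + ((∑ j ∈ S, b j) + (∑ j ∈ S, b j) * b i) := by
    intro i
    ring
  rw [Finset.sum_congr rfl (fun i _ => e i), Finset.sum_add_distrib]
  have e2 : ∑ i ∈ S, ((∑ j ∈ S, b j) + (∑ j ∈ S, b j) * b i)
      = (∑ j ∈ S, b j) + (∑ j ∈ S, b j) * (∑ j ∈ S, b j) := by
    rw [Finset.sum_add_distrib, Finset.sum_const, ← Finset.mul_sum, nsmul_eq_mul, hS, one_mul]
  rw [e2, hsq]
  linear_combination (∑ j ∈ S, b j) * h2

theorem el_wt_m2 (hq : Fintype.card F = 2) (D : Fin t → Submodule F (κ → F))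
    (hfr : ∀ i, Module.finrank F (D i) = 2)
    (h : DirectSum.IsInternal D) (S : Finset (Fin t))
    (hu : 1 + fS D hfr h S 1 1 (wS D hfr S 0) ≠ 0) (hS : (S.card : F) = 1) :
    el D hfr h S S 0 1 1 hu ∈ wtGroup D h := by
  have h2 : (2 : F) = 0 := by
    have h3 := Nat.cast_card_eq_zero F
    rw [hq] at h3
    exact_mod_cast h3
  have hsq : ∀ x : F, x * x = x := by
    intro x
    rcases f2_cases hq x with hx | hx <;> simp [hx]
  intro v
  rw [wt_eq_m2 hq D hfr h, wt_eq_m2 hq D hfr h, ← Finset.sum_add_sum_compl S,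
    ← Finset.sum_add_sum_compl S (fun i => co D hfr h i 0 v + co D hfr h i 1 v
      + co D hfr h i 0 v * co D hfr h i 1 v)]
  congr 1
  · rw [← inv22 h2 hsq S hS (fun i => co D hfr h i 0 v) (fun i => co D hfr h i 1 v)]
    apply Finset.sum_congr rfl
    intro i hi
    have hne : ¬ (i ∈ S ∧ (1 : Fin 2) = 0) := fun hc => by
      have := hc.2
      simp at this
    rw [co_el, co_el, fS_apply, if_pos ⟨hi, rfl⟩, if_neg hne, mul_one, mul_zero, add_zero,
      one_mul]
  · apply Finset.sum_congr rfl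
    intro i hi
    rw [Finset.mem_compl] at hi
    rw [co_el, co_el, if_neg (fun hc => hi hc.1), if_neg (fun hc => hi hc.1), mul_zero,
      add_zero, add_zero]

end wtco

section alg
variable {F : Type*} [Field F] {ι : Type*}

theorem sq_sum_char2 (h2 : (2 : F) = 0) (S : Finset ι) (a : ι → F) :
    (∑ i ∈ S, a i) ^ 2 = ∑ i ∈ S, (a i) ^ 2 := by
  classical
  induction S using Finset.induction_on with
  | empty => simp
  | insert i S hi ih =>
    rw [Finset.sum_insert hi, Finset.sum_insert hi, ← ih]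
    linear_combination (a i * ∑ j ∈ S, a j) * h2

theorem inv2 (S : Finset ι) (γ : F) (hS : (S.card : F) = 0) (a : ι → F) :
    ∑ i ∈ S, (a i + γ * ∑ j ∈ S, a j) ^ 1 = ∑ i ∈ S, (a i) ^ 1 := by
  simp only [pow_one]
  rw [Finset.sum_add_distrib, Finset.sum_const, nsmul_eq_mul, hS, zero_mul, add_zero]

theorem inv3 (h3 : (3 : F) = 0) (S : Finset ι) (hS : (S.card : F) = 1) (a : ι → F) :
    ∑ i ∈ S, (a i + 1 * ∑ j ∈ S, a j) ^ 2 = ∑ i ∈ S, (a i) ^ 2 := by
  have e : ∀ i, (a i + 1 * ∑ j ∈ S, a j) ^ 2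
      = (a i) ^ 2 + ((2 * ∑ j ∈ S, a j) * a i + (∑ j ∈ S, a j) ^ 2) := by
    intro i
    ring
  rw [Finset.sum_congr rfl (fun i _ => e i), Finset.sum_add_distrib, Finset.sum_add_distrib,
    ← Finset.mul_sum, Finset.sum_const, nsmul_eq_mul, hS, one_mul]
  linear_combination ((∑ j ∈ S, a j) ^ 2) * h3

theorem inv4 (h2 : (2 : F) = 0) (γ : F) (hγ : γ ^ 2 + γ + 1 = 0) (S : Finset ι)
    (hS : (S.card : F) = 1) (a : ι → F) :
    ∑ i ∈ S, (a i + γ * ∑ j ∈ S, a j) ^ 3 = ∑ i ∈ S, (a i) ^ 3 := by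
  have e : ∀ i, (a i + γ * ∑ j ∈ S, a j) ^ 3
      = (a i) ^ 3 + ((γ * ∑ j ∈ S, a j) * (a i) ^ 2
        + ((γ * ∑ j ∈ S, a j) ^ 2 * a i + (γ * ∑ j ∈ S, a j) ^ 3)) := by
    intro i
    linear_combination ((γ * ∑ j ∈ S, a j) * (a i) ^ 2 + (γ * ∑ j ∈ S, a j) ^ 2 * a i) * h2
  rw [Finset.sum_congr rfl (fun i _ => e i), Finset.sum_add_distrib, Finset.sum_add_distrib,
    Finset.sum_add_distrib, ← Finset.mul_sum, ← Finset.mul_sum, Finset.sum_const, nsmul_eq_mul,
    hS, one_mul, ← sq_sum_char2 h2 S a]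
  linear_combination ((∑ j ∈ S, a j) ^ 3 * γ) * hγ

end alg

theorem mem_sl_iff {F : Type*} [Field F] {κ : Type} [Fintype κ] [DecidableEq κ]
    (g : Matrix.GeneralLinearGroup κ F) :
    g ∈ Cfsg.Geo.specialLinear κ F ↔ ((Matrix.GeneralLinearGroup.det g : Fˣ) : F) = 1 := by
  rw [Cfsg.Geo.specialLinear, MonoidHom.mem_ker, Units.ext_iff]
  rfl

theorem finish {F : Type*} [Field F] {κ : Type} [Fintype κ] [DecidableEq κ] {t : ℕ}
    (D : Fin t → Submodule F (κ → F)) (h : DirectSum.IsInternal D)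
    (gB g : Matrix.GeneralLinearGroup κ F)
    (hB1 : gB ∈ Cfsg.Geo.specialLinear κ F) (hB2 : gB ∉ wtGroup D h)
    (hg1 : g ∈ Cfsg.Geo.specialLinear κ F) (hg2 : g ∈ wtGroup D h)
    (hg3 : g ∉ Cfsg.Geo.decompositionStabilizer D) :
    ∃ K : Subgroup (Matrix.GeneralLinearGroup κ F),
      Cfsg.Geo.decompositionStabilizer D ⊓ Cfsg.Geo.specialLinear κ F < K ∧
      K < Cfsg.Geo.specialLinear κ F := by
  refine ⟨wtGroup D h ⊓ Cfsg.Geo.specialLinear κ F,
    lt_of_le_of_ne (inf_le_inf_right _ (stab_le D h)) ?_, lt_of_le_of_ne inf_le_right ?_⟩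
  · intro hEq
    have h1 : g ∈ Cfsg.Geo.decompositionStabilizer D ⊓ Cfsg.Geo.specialLinear κ F := by
      rw [hEq]
      exact ⟨hg2, hg1⟩
    exact hg3 h1.1
  · intro hEq
    have h1 : gB ∈ wtGroup D h ⊓ Cfsg.Geo.specialLinear κ F := by
      rw [hEq]
      exact hB1
    exact hB2 h1.1

theorem main {F : Type*} [Field F] [Fintype F] (n : ℕ) (hn : 13 ≤ n) {t : ℕ} (m : ℕ)
    (D : Fin t → Submodule F (Fin n → F)) (hD : Cfsg.Geo.IsMDecomposition m D)
    (hcase : (m = 1 ∧ Fintype.card F ≤ 4) ∨ (m = 2 ∧ Fintype.card F = 2)) :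
    ∃ K : Subgroup (Matrix.GeneralLinearGroup (Fin n) F),
      Cfsg.Geo.decompositionStabilizer D ⊓ Cfsg.Geo.specialLinear (Fin n) F < K ∧
      K < Cfsg.Geo.specialLinear (Fin n) F := by
  classical
  have hint : DirectSum.IsInternal D :=
    DirectSum.isInternal_submodule_of_iSupIndep_of_iSup_eq_top hD.indep hD.iSup_eq_top
  have hfr := hD.finrank_eq
  have htm : n = t * m := by
    have h1 := Module.finrank_eq_card_basis (hint.collectedBasis (fun i => bas D hfr i))
    rw [Module.finrank_fintype_fun_eq_card] at h1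
    simpa using h1
  have ht : 7 ≤ t := by
    rcases hcase with ⟨hm, _⟩ | ⟨hm, _⟩ <;> subst hm <;> omega
  have hmpos := hD.pos
  obtain ⟨i₀, i₁, i₂, i₃, i₄, S3, S4, h01, h02, h12, h03, h04, hS3, hS4, m0_3, m1_3, m2_3,
      m0_4, m1_4, m2_4⟩ :
      ∃ (i₀ i₁ i₂ i₃ i₄ : Fin t) (S3 S4 : Finset (Fin t)), i₀ ≠ i₁ ∧ i₀ ≠ i₂ ∧ i₁ ≠ i₂ ∧
        i₀ ≠ i₃ ∧ i₀ ≠ i₄ ∧ S3.card = 3 ∧ S4.card = 4 ∧ i₀ ∈ S3 ∧ i₁ ∈ S3 ∧ i₂ ∈ S3 ∧
        i₀ ∈ S4 ∧ i₁ ∈ S4 ∧ i₂ ∈ S4 := by
    refine ⟨⟨0, by omega⟩, ⟨1, by omega⟩, ⟨2, by omega⟩, ⟨3, by omega⟩, ⟨4, by omega⟩,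
      Finset.image (Fin.castLE (by omega : 3 ≤ t)) Finset.univ,
      Finset.image (Fin.castLE (by omega : 4 ≤ t)) Finset.univ,
      ?_, ?_, ?_, ?_, ?_, ?_, ?_, ?_, ?_, ?_, ?_, ?_, ?_⟩
    · simp [Fin.ext_iff]
    · simp [Fin.ext_iff]
    · simp [Fin.ext_iff]
    · simp [Fin.ext_iff]
    · simp [Fin.ext_iff]
    · rw [Finset.card_image_of_injective _ (Fin.castLE_injective _), Finset.card_univ,
        Fintype.card_fin]
    · rw [Finset.card_image_of_injective _ (Fin.castLE_injective _), Finset.card_univ,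
        Fintype.card_fin]
    · exact Finset.mem_image.mpr ⟨0, Finset.mem_univ _, rfl⟩
    · exact Finset.mem_image.mpr ⟨1, Finset.mem_univ _, rfl⟩
    · exact Finset.mem_image.mpr ⟨2, Finset.mem_univ _, rfl⟩
    · exact Finset.mem_image.mpr ⟨0, Finset.mem_univ _, rfl⟩
    · exact Finset.mem_image.mpr ⟨1, Finset.mem_univ _, rfl⟩
    · exact Finset.mem_image.mpr ⟨2, Finset.mem_univ _, rfl⟩
  -- the element outside the weight group
  obtain ⟨k0, -⟩ : ∃ k : Fin m, k = k := ⟨⟨0, hmpos⟩, rfl⟩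
  have hdisj : ∀ j ∈ ({i₀} : Finset (Fin t)), j ∉ ({i₁} : Finset (Fin t)) := by
    intro j hj
    rw [Finset.mem_singleton] at hj ⊢
    rw [hj]
    exact h01
  have hfB : fS D hfr hint {i₀} k0 1 (wS D hfr {i₁} k0) = 0 :=
    fS_wS_disj D hfr hint {i₁} {i₀} k0 k0 1 hdisj
  have huB : 1 + fS D hfr hint {i₀} k0 1 (wS D hfr {i₁} k0) ≠ 0 := by
    rw [hfB, add_zero]
    exact one_ne_zero
  have hB1 : el D hfr hint {i₁} {i₀} k0 k0 1 huB ∈ Cfsg.Geo.specialLinear (Fin n) F := by
    rw [mem_sl_iff, el_det, hfB, add_zero]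
  have hB2 : el D hfr hint {i₁} {i₀} k0 k0 1 huB ∉ wtGroup D hint := by
    intro hmem
    have h1 := hmem (vec D hfr i₀ k0)
    rw [el_mulVec, fS_vec, if_pos ⟨Finset.mem_singleton_self _, rfl⟩, mul_one, one_smul,
      wt_of_mem D hint (vec_mem D hfr i₀ k0) (vec_ne D hfr i₀ k0)] at h1
    have h2 : vec D hfr i₀ k0 + wS D hfr {i₁} k0 = wS D hfr {i₀, i₁} k0 := by
      unfold wS
      rw [Finset.sum_singleton, Finset.sum_pair h01]
    rw [h2, wt_wS, Finset.card_pair h01] at h1
    have h3 : (1 : F) + 1 = 1 + 0 := by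
      have h5 : ((2 : ℕ) : F) = 1 + 1 := by norm_num
      rw [add_zero, ← h5]
      exact h1
    exact one_ne_zero (add_left_cancel h3)
  rcases hcase with ⟨hm, hq4⟩ | ⟨hm, hq⟩
  · subst hm
    have hq1 := Fintype.one_lt_card (α := F)
    have hq : Fintype.card F = 2 ∨ Fintype.card F = 3 ∨ Fintype.card F = 4 := by omega
    rcases hq with hq | hq | hq
    · have h2 : (2 : F) = 0 := by
        have h3 := Nat.cast_card_eq_zero F
        rw [hq] at h3
        exact_mod_cast h3
      have hcard : ((S4.card : ℕ) : F) = 0 := by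
        rw [hS4]
        push_cast
        linear_combination 2 * h2
      have hfw : fS D hfr hint S4 0 1 (wS D hfr S4 0) = 0 := by
        rw [fS_wS_same, hcard, mul_zero]
      have hu : 1 + fS D hfr hint S4 0 1 (wS D hfr S4 0) ≠ 0 := by
        rw [hfw, add_zero]
        exact one_ne_zero
      refine finish D hint _ (el D hfr hint S4 S4 0 0 1 hu) hB1 hB2 ?_ ?_ ?_
      · rw [mem_sl_iff, el_det, hfw, add_zero]
      · apply el_wt_m1
        intro a
        have he : Fintype.card F - 1 = 1 := by omega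
        rw [he]
        exact inv2 S4 1 hcard a
      · apply not_stab D hint _ i₀ i₁ i₂ h12 (vec D hfr i₀ 0) (vec_mem D hfr i₀ 0)
        · rw [el_comp D hfr hint S4 S4 0 0 1 hu i₀ i₁ 0 (Ne.symm h01), if_pos ⟨m0_4, rfl⟩,
            if_pos m1_4, mul_one, one_smul]
          exact vec_ne D hfr i₁ 0
        · rw [el_comp D hfr hint S4 S4 0 0 1 hu i₀ i₂ 0 (Ne.symm h02), if_pos ⟨m0_4, rfl⟩,
            if_pos m2_4, mul_one, one_smul]
          exact vec_ne D hfr i₂ 0
    · have h3 : (3 : F) = 0 := by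
        have h3' := Nat.cast_card_eq_zero F
        rw [hq] at h3'
        exact_mod_cast h3'
      have hcard4 : ((S4.card : ℕ) : F) = 1 := by
        rw [hS4]
        push_cast
        linear_combination h3
      have hcard1 : ((({i₄} : Finset (Fin t)).card : ℕ) : F) = 1 := by
        rw [Finset.card_singleton]
        norm_num
      have hfw4 : fS D hfr hint S4 0 1 (wS D hfr S4 0) = 1 := by
        rw [fS_wS_same, hcard4, mul_one]
      have hfw1 : fS D hfr hint {i₄} 0 1 (wS D hfr {i₄} 0) = 1 := by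
        rw [fS_wS_same, hcard1, mul_one]
      have h2ne : (1 : F) + 1 ≠ 0 := by
        intro h
        exact one_ne_zero (by linear_combination h3 - h : (1 : F) = 0)
      have hu4 : 1 + fS D hfr hint S4 0 1 (wS D hfr S4 0) ≠ 0 := by
        rw [hfw4]
        exact h2ne
      have hu1 : 1 + fS D hfr hint {i₄} 0 1 (wS D hfr {i₄} 0) ≠ 0 := by
        rw [hfw1]
        exact h2ne
      refine finish D hint _
        (el D hfr hint S4 S4 0 0 1 hu4 * el D hfr hint {i₄} {i₄} 0 0 1 hu1) hB1 hB2 ?_ ?_ ?_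
      · rw [mem_sl_iff, map_mul, Units.val_mul, el_det, el_det, hfw4, hfw1]
        linear_combination h3
      · have he : Fintype.card F - 1 = 2 := by omega
        apply Subgroup.mul_mem
        · apply el_wt_m1
          intro a
          rw [he]
          exact inv3 h3 S4 hcard4 a
        · apply el_wt_m1
          intro a
          rw [he]
          exact inv3 h3 {i₄} hcard1 a
      · have hfix := el_fix D hfr hint {i₄} {i₄} 0 0 1 hu1 i₀ 0
          (by rw [Finset.mem_singleton]; exact h04)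
        apply not_stab D hint _ i₀ i₁ i₂ h12 (vec D hfr i₀ 0) (vec_mem D hfr i₀ 0)
        · rw [Units.val_mul, ← Matrix.mulVec_mulVec, hfix,
            el_comp D hfr hint S4 S4 0 0 1 hu4 i₀ i₁ 0 (Ne.symm h01), if_pos ⟨m0_4, rfl⟩,
            if_pos m1_4, mul_one, one_smul]
          exact vec_ne D hfr i₁ 0
        · rw [Units.val_mul, ← Matrix.mulVec_mulVec, hfix,
            el_comp D hfr hint S4 S4 0 0 1 hu4 i₀ i₂ 0 (Ne.symm h02), if_pos ⟨m0_4, rfl⟩,
            if_pos m2_4, mul_one, one_smul]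
          exact vec_ne D hfr i₂ 0
    · have h4 : (4 : F) = 0 := by
        have h3' := Nat.cast_card_eq_zero F
        rw [hq] at h3'
        exact_mod_cast h3'
      have h2 : (2 : F) = 0 := by
        have h5 : (2 : F) * 2 = 0 := by linear_combination h4
        exact mul_self_eq_zero.mp h5
      obtain ⟨γ, hγ0, hγ1⟩ : ∃ γ : F, γ ≠ 0 ∧ γ ≠ 1 := by
        by_contra hcon
        have hsub : (Finset.univ : Finset F) ⊆ {0, 1} := by
          intro x _
          by_contra hx
          rw [Finset.mem_insert, Finset.mem_singleton, not_or] at hx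
          exact hcon ⟨x, hx.1, hx.2⟩
        have h5 := Finset.card_le_card hsub
        rw [Finset.card_univ, hq] at h5
        have h6 := Finset.card_le_two (a := (0 : F)) (b := 1)
        omega
      have hγ3 : γ ^ 3 = 1 := by
        have h5 := FiniteField.pow_card_sub_one_eq_one γ hγ0
        rw [hq] at h5
        exact h5
      have hγ : γ ^ 2 + γ + 1 = 0 := by
        have h5 : (γ - 1) * (γ ^ 2 + γ + 1) = 0 := by linear_combination hγ3
        rcases mul_eq_zero.mp h5 with h6 | h6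
        · exact absurd (sub_eq_zero.mp h6) hγ1
        · exact h6
      have hcard3 : ((S3.card : ℕ) : F) = 1 := by
        rw [hS3]
        push_cast
        linear_combination h2
      have hcard1 : ((({i₃} : Finset (Fin t)).card : ℕ) : F) = 1 := by
        rw [Finset.card_singleton]
        norm_num
      have hfw3 : fS D hfr hint S3 0 γ (wS D hfr S3 0) = γ := by
        rw [fS_wS_same, hcard3, mul_one]
      have hfw1 : fS D hfr hint {i₃} 0 γ (wS D hfr {i₃} 0) = γ := by
        rw [fS_wS_same, hcard1, mul_one]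
      have hgne : (1 : F) + γ ≠ 0 := by
        intro h
        apply hγ1
        linear_combination h - h2
      have hu3 : 1 + fS D hfr hint S3 0 γ (wS D hfr S3 0) ≠ 0 := by
        rw [hfw3]
        exact hgne
      have hu1 : 1 + fS D hfr hint {i₃} 0 γ (wS D hfr {i₃} 0) ≠ 0 := by
        rw [hfw1]
        exact hgne
      refine finish D hint _
        (el D hfr hint S3 S3 0 0 γ hu3 *
          (el D hfr hint {i₃} {i₃} 0 0 γ hu1 * el D hfr hint {i₃} {i₃} 0 0 γ hu1))
        hB1 hB2 ?_ ?_ ?_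
      · rw [mem_sl_iff, map_mul, map_mul, Units.val_mul, Units.val_mul, el_det, el_det, hfw3,
          hfw1]
        linear_combination (γ + 2) * hγ - h2
      · have he : Fintype.card F - 1 = 3 := by omega
        apply Subgroup.mul_mem
        · apply el_wt_m1
          intro a
          rw [he]
          exact inv4 h2 γ hγ S3 hcard3 a
        · apply Subgroup.mul_mem
          · apply el_wt_m1
            intro a
            rw [he]
            exact inv4 h2 γ hγ {i₃} hcard1 a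
          · apply el_wt_m1
            intro a
            rw [he]
            exact inv4 h2 γ hγ {i₃} hcard1 a
      · have hfix := el_fix D hfr hint {i₃} {i₃} 0 0 γ hu1 i₀ 0
          (by rw [Finset.mem_singleton]; exact h03)
        apply not_stab D hint _ i₀ i₁ i₂ h12 (vec D hfr i₀ 0) (vec_mem D hfr i₀ 0)
        · rw [Units.val_mul, Units.val_mul, ← Matrix.mulVec_mulVec, ← Matrix.mulVec_mulVec,
            hfix, hfix, el_comp D hfr hint S3 S3 0 0 γ hu3 i₀ i₁ 0 (Ne.symm h01),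
            if_pos ⟨m0_3, rfl⟩, if_pos m1_3, mul_one]
          exact smul_ne_zero hγ0 (vec_ne D hfr i₁ 0)
        · rw [Units.val_mul, Units.val_mul, ← Matrix.mulVec_mulVec, ← Matrix.mulVec_mulVec,
            hfix, hfix, el_comp D hfr hint S3 S3 0 0 γ hu3 i₀ i₂ 0 (Ne.symm h02),
            if_pos ⟨m0_3, rfl⟩, if_pos m2_3, mul_one]
          exact smul_ne_zero hγ0 (vec_ne D hfr i₂ 0)
  · subst hm
    have h2 : (2 : F) = 0 := by
      have h3 := Nat.cast_card_eq_zero F
      rw [hq] at h3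
      exact_mod_cast h3
    have hcard3 : ((S3.card : ℕ) : F) = 1 := by
      rw [hS3]
      push_cast
      linear_combination h2
    have hfw : fS D hfr hint S3 1 1 (wS D hfr S3 0) = 0 :=
      fS_wS_ne D hfr hint S3 S3 0 1 1 (by decide)
    have hu : 1 + fS D hfr hint S3 1 1 (wS D hfr S3 0) ≠ 0 := by
      rw [hfw, add_zero]
      exact one_ne_zero
    refine finish D hint _ (el D hfr hint S3 S3 0 1 1 hu) hB1 hB2 ?_ ?_ ?_
    · rw [mem_sl_iff, el_det, hfw, add_zero]
    · exact el_wt_m2 hq D hfr hint S3 hu hcard3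
    · apply not_stab D hint _ i₀ i₁ i₂ h12 (vec D hfr i₀ 1) (vec_mem D hfr i₀ 1)
      · rw [el_comp D hfr hint S3 S3 0 1 1 hu i₀ i₁ 1 (Ne.symm h01), if_pos ⟨m0_3, rfl⟩,
          if_pos m1_3, mul_one, one_smul]
        exact vec_ne D hfr i₁ 0
      · rw [el_comp D hfr hint S3 S3 0 1 1 hu i₀ i₂ 1 (Ne.symm h02), if_pos ⟨m0_3, rfl⟩,
          if_pos m2_3, mul_one, one_smul]
        exact vec_ne D hfr i₂ 0

/-- For a finite field F with q elements and n ≥ 13, let D be a decomposition of F^n into t ≥ 2 independent subspaces of equal dimension m spanning F^n, where m = 1 and q ≤ 4, or m = 2 and q = 2. Then the elements of SL_n(F) permuting the members of D form a subgroup that is not maximal: some subgroup lies strictly between it and SL_n(F). -/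
theorem result {F : Type*} [Field F] [Fintype F] (n : ℕ) (hn : 13 ≤ n) {t : ℕ} (m : ℕ) (D : Fin t → Submodule F (Fin n → F)) (hD : Cfsg.Geo.IsMDecomposition m D) (h : (m = 1 ∧ Fintype.card F ≤ 4) ∨ (m = 2 ∧ Fintype.card F = 2)) : ∃ K : Subgroup (Matrix.GeneralLinearGroup (Fin n) F), Cfsg.Geo.decompositionStabilizer D ⊓ Cfsg.Geo.specialLinear (Fin n) F < K ∧ K < Cfsg.Geo.specialLinear (Fin n) F := by
  exact main n hn m D hD h

end Cfsg.Agent.S5635
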