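import Cfsg.Statements.S5729
import Mathlib

set_option autoImplicit false
open Cfsg

namespace Cfsg.Agent.S5729

/-- Let a finite group G act faithfully and transitively on a set with n ≥ 3 points. Then either G is a Frobenius permutation group (Frobenius as a permutation group: transitive, some non-identity element fixes a point, and no non-identity element fixes two points) of order n(n − 1) and exactly |G|/n of its elements are derangements (fix no point), or the number of derangements is greater than |G|/n. -/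
theorem result {G Ω : Type*} [Group G] [Finite G] [MulAction G Ω] [FaithfulSMul G Ω] [Fintype Ω] (htr : MulAction.IsPretransitive G Ω) (hn : 3 ≤ Fintype.card Ω) :
    ((MulAction.IsPretransitive G Ω ∧ (∃ g : G, g ≠ 1 ∧ ∃ ω : Ω, g • ω = ω) ∧ ∀ g : G, g ≠ 1 → Nat.card (MulAction.fixedBy Ω g) ≤ 1) ∧ Nat.card G = Fintype.card Ω * (Fintype.card Ω - 1) ∧ Fintype.card Ω * Nat.card {g : G // ∀ ω : Ω, g • ω ≠ ω} = Nat.card G) ∨
    Nat.card G < Fintype.card Ω * Nat.card {g : G // ∀ ω : Ω, g • ω ≠ ω} := by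
  classical
  haveI : Fintype G := Fintype.ofFinite G
  have hΩne : Nonempty Ω := Fintype.card_pos_iff.mp (by omega)
  -- Burnside on Ω
  have hB1 : ∑ g : G, Fintype.card (MulAction.fixedBy Ω g) = Fintype.card G := by
    have h := MulAction.sum_card_fixedBy_eq_card_orbits_mul_card_group G Ω
    have h1 : Fintype.card (Quotient (MulAction.orbitRel G Ω)) = 1 := by
      rw [Fintype.card_eq_one_iff]
      obtain ⟨ω0⟩ := hΩne
      refine ⟨⟦ω0⟧, fun q => ?_⟩
      induction q using Quotient.inductionOn with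
      | h a => exact Quotient.sound (MulAction.exists_smul_eq G ω0 a)
    rw [h, h1, one_mul]
  -- Burnside on Ω × Ω
  have hfix2 : ∀ g : G, Fintype.card (MulAction.fixedBy (Ω × Ω) g)
      = Fintype.card (MulAction.fixedBy Ω g) ^ 2 := by
    intro g
    rw [sq, ← Fintype.card_prod]
    apply Fintype.card_congr
    exact
      { toFun := fun x => (⟨x.1.1, congrArg Prod.fst x.2⟩, ⟨x.1.2, congrArg Prod.snd x.2⟩)
        invFun := fun y => ⟨(y.1.1, y.2.1), Prod.ext y.1.2 y.2.2⟩
        left_inv := fun x => rfl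
        right_inv := fun y => rfl }
  have hB2 : ∑ g : G, Fintype.card (MulAction.fixedBy Ω g) ^ 2
      = Fintype.card (Quotient (MulAction.orbitRel G (Ω × Ω))) * Fintype.card G := by
    rw [← MulAction.sum_card_fixedBy_eq_card_orbits_mul_card_group G (Ω × Ω)]
    exact Finset.sum_congr rfl (fun g _ => (hfix2 g).symm)
  have hc2 : 2 ≤ Fintype.card (Quotient (MulAction.orbitRel G (Ω × Ω))) := by
    obtain ⟨a, b, hab⟩ : ∃ a b : Ω, a ≠ b := Fintype.one_lt_card_iff.mp (by omega)
    have : (⟦(a, a)⟧ : Quotient (MulAction.orbitRel G (Ω × Ω))) ≠ ⟦(a, b)⟧ := by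
      intro h
      obtain ⟨g, hg⟩ := Quotient.exact h
      have h1 : g • a = a := congrArg Prod.fst hg
      have h2 : g • b = a := congrArg Prod.snd hg
      exact hab (MulAction.injective g (h1.trans h2.symm))
    exact Fintype.one_lt_card_iff.mpr ⟨_, _, this⟩
  -- derangements
  have hD : Nat.card {g : G // ∀ ω : Ω, g • ω ≠ ω}
      = ∑ g : G, (if ∀ ω : Ω, g • ω ≠ ω then 1 else 0) := by
    rw [Nat.card_eq_fintype_card, Fintype.card_subtype, Finset.card_filter]
  have hfix0 : ∀ g : G, (∀ ω : Ω, g • ω ≠ ω) ↔ Fintype.card (MulAction.fixedBy Ω g) = 0 := by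
    intro g
    rw [Fintype.card_eq_zero_iff]
    constructor
    · intro h; exact ⟨fun x => h x.1 x.2⟩
    · intro h ω hω; exact h.elim ⟨ω, hω⟩
  have hfixle : ∀ g : G, Fintype.card (MulAction.fixedBy Ω g) ≤ Fintype.card Ω :=
    fun g => Fintype.card_subtype_le _
  -- termwise inequality in ℤ
  have hterm : ∀ g : G, ((Fintype.card (MulAction.fixedBy Ω g) : ℤ) - 1)
      * ((Fintype.card (MulAction.fixedBy Ω g) : ℤ) - Fintype.card Ω)
      ≤ (Fintype.card Ω : ℤ) * (if ∀ ω : Ω, g • ω ≠ ω then 1 else 0) := by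
    intro g
    by_cases hg : ∀ ω : Ω, g • ω ≠ ω
    · rw [if_pos hg, (hfix0 g).mp hg]; simp
    · rw [if_neg hg]
      have h1 : 1 ≤ Fintype.card (MulAction.fixedBy Ω g) := by
        by_contra h; exact hg ((hfix0 g).mpr (by omega))
      have h2 := hfixle g
      have h1' : (1 : ℤ) ≤ (Fintype.card (MulAction.fixedBy Ω g) : ℤ) := by exact_mod_cast h1
      have h2' : (Fintype.card (MulAction.fixedBy Ω g) : ℤ) ≤ Fintype.card Ω := by exact_mod_cast h2
      have : ((Fintype.card (MulAction.fixedBy Ω g) : ℤ) - 1)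
          * ((Fintype.card (MulAction.fixedBy Ω g) : ℤ) - Fintype.card Ω) ≤ 0 :=
        mul_nonpos_of_nonneg_of_nonpos (by linarith) (by linarith)
      simpa using this
  -- the sum identity
  have hsum : ∑ g : G, (((Fintype.card (MulAction.fixedBy Ω g) : ℤ) - 1)
      * ((Fintype.card (MulAction.fixedBy Ω g) : ℤ) - Fintype.card Ω))
      = ((Fintype.card (Quotient (MulAction.orbitRel G (Ω × Ω))) : ℤ) - 1) * Fintype.card G := by
    have e : ∀ g : G, ((Fintype.card (MulAction.fixedBy Ω g) : ℤ) - 1)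
        * ((Fintype.card (MulAction.fixedBy Ω g) : ℤ) - Fintype.card Ω)
        = ((Fintype.card (MulAction.fixedBy Ω g) ^ 2 : ℕ) : ℤ)
          - ((Fintype.card Ω : ℤ) + 1) * ((Fintype.card (MulAction.fixedBy Ω g) : ℕ) : ℤ)
          + (Fintype.card Ω : ℤ) := by
      intro g; push_cast; ring
    simp_rw [e]
    rw [Finset.sum_add_distrib, Finset.sum_sub_distrib, ← Nat.cast_sum, hB2, ← Finset.mul_sum,
      ← Nat.cast_sum, hB1]
    simp only [Finset.sum_const, Finset.card_univ, nsmul_eq_mul]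
    push_cast
    ring
  have hDsum : ∑ g : G, ((Fintype.card Ω : ℤ) * (if ∀ ω : Ω, g • ω ≠ ω then 1 else 0))
      = (Fintype.card Ω : ℤ) * (Nat.card {g : G // ∀ ω : Ω, g • ω ≠ ω} : ℤ) := by
    rw [← Finset.mul_sum, hD]
    push_cast
    rfl
  have hmain : ((Fintype.card (Quotient (MulAction.orbitRel G (Ω × Ω))) : ℤ) - 1) * Fintype.card G
      ≤ (Fintype.card Ω : ℤ) * (Nat.card {g : G // ∀ ω : Ω, g • ω ≠ ω} : ℤ) := by
    rw [← hsum, ← hDsum]
    exact Finset.sum_le_sum (fun g _ => hterm g)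
  have hc2' : (2 : ℤ) ≤ (Fintype.card (Quotient (MulAction.orbitRel G (Ω × Ω))) : ℤ) := by
    exact_mod_cast hc2
  have hGpos : (0 : ℤ) < (Fintype.card G : ℤ) := by exact_mod_cast Fintype.card_pos
  have hle : (Fintype.card G : ℤ)
      ≤ (Fintype.card Ω : ℤ) * (Nat.card {g : G // ∀ ω : Ω, g • ω ≠ ω} : ℤ) := by
    nlinarith
  rw [Nat.card_eq_fintype_card (α := G)]
  by_cases hlt : Fintype.card G < Fintype.card Ω * Nat.card {g : G // ∀ ω : Ω, g • ω ≠ ω}
  · exact Or.inr hlt
  left
  have heq : Fintype.card Ω * Nat.card {g : G // ∀ ω : Ω, g • ω ≠ ω} = Fintype.card G := by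
    have : Fintype.card G ≤ Fintype.card Ω * Nat.card {g : G // ∀ ω : Ω, g • ω ≠ ω} := by
      exact_mod_cast hle
    omega
  have hzero : ∀ g : G, ((Fintype.card (MulAction.fixedBy Ω g) : ℤ) - 1)
      * ((Fintype.card (MulAction.fixedBy Ω g) : ℤ) - Fintype.card Ω)
      = (Fintype.card Ω : ℤ) * (if ∀ ω : Ω, g • ω ≠ ω then 1 else 0) := by
    have hs : ∑ g : G, ((Fintype.card Ω : ℤ) * (if ∀ ω : Ω, g • ω ≠ ω then 1 else 0)
        - ((Fintype.card (MulAction.fixedBy Ω g) : ℤ) - 1)
          * ((Fintype.card (MulAction.fixedBy Ω g) : ℤ) - Fintype.card Ω)) = 0 := by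
      apply le_antisymm
      · rw [Finset.sum_sub_distrib, hDsum, hsum]
        have : ((Fintype.card Ω * Nat.card {g : G // ∀ ω : Ω, g • ω ≠ ω} : ℕ) : ℤ)
            = (Fintype.card G : ℤ) := by exact_mod_cast heq
        push_cast at this
        nlinarith
      · exact Finset.sum_nonneg (fun g _ => sub_nonneg.mpr (hterm g))
    intro g
    have := (Finset.sum_eq_zero_iff_of_nonneg (fun g _ => sub_nonneg.mpr (hterm g))).mp hs g
      (Finset.mem_univ g)
    linarith
  have hfix1 : ∀ g : G, g ≠ 1 → Fintype.card (MulAction.fixedBy Ω g) ≤ 1 := by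
    intro g hg1
    by_cases hg : ∀ ω : Ω, g • ω ≠ ω
    · rw [(hfix0 g).mp hg]; omega
    · have h := hzero g
      rw [if_neg hg, mul_zero] at h
      rcases mul_eq_zero.mp h with h1 | h1
      · have : (Fintype.card (MulAction.fixedBy Ω g) : ℤ) = 1 := by linarith
        exact_mod_cast this.le
      · exfalso
        apply hg1
        have hcard : Fintype.card (MulAction.fixedBy Ω g) = Fintype.card Ω := by
          have : (Fintype.card (MulAction.fixedBy Ω g) : ℤ) = Fintype.card Ω := by linarith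
          exact_mod_cast this
        have huniv : MulAction.fixedBy Ω g = Set.univ := by
          rw [Set.eq_univ_iff_ncard, ← Nat.card_coe_set_eq, Nat.card_eq_fintype_card,
            Nat.card_eq_fintype_card, hcard]
        apply FaithfulSMul.eq_of_smul_eq_smul (α := Ω)
        intro ω
        rw [one_smul]
        have : ω ∈ MulAction.fixedBy Ω g := by rw [huniv]; trivial
        exact this
  have hpt : ∀ g : G, (Fintype.card (MulAction.fixedBy Ω g) : ℤ)
      = 1 - (if ∀ ω : Ω, g • ω ≠ ω then 1 else 0)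
        + (if g = 1 then (Fintype.card Ω : ℤ) - 1 else 0) := by
    intro g
    by_cases hg1 : g = 1
    · subst hg1
      have hnd : ¬ ∀ ω : Ω, (1 : G) • ω ≠ ω := by
        intro h
        obtain ⟨ω⟩ := hΩne
        exact h ω (one_smul _ _)
      have hc : Fintype.card (MulAction.fixedBy Ω (1 : G)) = Fintype.card Ω :=
        Fintype.card_congr (Equiv.subtypeUnivEquiv (fun ω => one_smul G ω))
      rw [if_neg hnd, if_pos rfl, hc]
      ring
    · rw [if_neg hg1]
      by_cases hg : ∀ ω : Ω, g • ω ≠ ω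
      · rw [if_pos hg, (hfix0 g).mp hg]; simp
      · rw [if_neg hg]
        have h1 : 1 ≤ Fintype.card (MulAction.fixedBy Ω g) := by
          by_contra h; exact hg ((hfix0 g).mpr (by omega))
        have h2 := hfix1 g hg1
        have : Fintype.card (MulAction.fixedBy Ω g) = 1 := by omega
        rw [this]; simp
  have h2 : (∑ g : G, (if ∀ ω : Ω, g • ω ≠ ω then (1 : ℤ) else 0))
      = (Nat.card {g : G // ∀ ω : Ω, g • ω ≠ ω} : ℤ) := by
    rw [hD]; push_cast; rfl
  have hDeq : (Nat.card {g : G // ∀ ω : Ω, g • ω ≠ ω} : ℤ) = (Fintype.card Ω : ℤ) - 1 := by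
    have h1 : ((∑ g : G, Fintype.card (MulAction.fixedBy Ω g) : ℕ) : ℤ) = (Fintype.card G : ℤ) := by
      exact_mod_cast hB1
    rw [Nat.cast_sum] at h1
    simp_rw [hpt] at h1
    rw [Finset.sum_add_distrib, Finset.sum_sub_distrib, h2] at h1
    simp only [Finset.sum_const, Finset.card_univ, nsmul_eq_mul, mul_one, Finset.sum_ite_eq',
      Finset.mem_univ, if_true] at h1
    linarith
  have hDnat : Nat.card {g : G // ∀ ω : Ω, g • ω ≠ ω} = Fintype.card Ω - 1 := by
    have : (Nat.card {g : G // ∀ ω : Ω, g • ω ≠ ω} : ℤ) = ((Fintype.card Ω - 1 : ℕ) : ℤ) := by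
      rw [hDeq]; push_cast [Nat.cast_sub (by omega : 1 ≤ Fintype.card Ω)]; ring
    exact_mod_cast this
  have hcardG : Fintype.card G = Fintype.card Ω * (Fintype.card Ω - 1) := by
    rw [← heq, hDnat]
  refine ⟨⟨htr, ?_, ?_⟩, hcardG, heq⟩
  · by_contra hcon
    push Not at hcon
    have hall : ∀ g : G, (if ∀ ω : Ω, g • ω ≠ ω then (1 : ℤ) else 0) = 1 - (if g = 1 then 1 else 0) := by
      intro g
      by_cases hg1 : g = 1
      · subst hg1
        have hnd : ¬ ∀ ω : Ω, (1 : G) • ω ≠ ω := by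
          intro h
          obtain ⟨ω⟩ := hΩne
          exact h ω (one_smul _ _)
        rw [if_neg hnd, if_pos rfl]; ring
      · rw [if_pos (hcon g hg1), if_neg hg1]; ring
    have h3 := h2
    simp_rw [hall] at h3
    rw [Finset.sum_sub_distrib] at h3
    simp only [Finset.sum_const, Finset.card_univ, nsmul_eq_mul, mul_one, Finset.sum_ite_eq',
      Finset.mem_univ, if_true] at h3
    rw [hDeq] at h3
    have h4 : (Fintype.card G : ℤ) = (Fintype.card Ω : ℤ) * ((Fintype.card Ω : ℤ) - 1) := by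
      rw [hcardG]; push_cast [Nat.cast_sub (by omega : 1 ≤ Fintype.card Ω)]; ring
    have h5 : (3 : ℤ) ≤ (Fintype.card Ω : ℤ) := by exact_mod_cast hn
    nlinarith
  · intro g hg1
    rw [Nat.card_eq_fintype_card]
    exact hfix1 g hg1

end Cfsg.Agent.S5729
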