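import Cfsg.Statements.S5738
import Mathlib

set_option autoImplicit false
open Cfsg

namespace Cfsg.Agent.S5738

/-- Let F ⊆ K be finite fields with |F| = q and [K : F] = n ≥ 2, so |K| = q^n. Regard K as an n-dimensional F-vector space; the multiplications by non-zero elements of K form a cyclic subgroup of GL_F(K) of order q^n − 1 acting regularly on the non-zero vectors (a Singer group). Its normaliser in GL_F(K) has order n·(q^n − 1). -/
theorem result {F K : Type*} [Field F] [Fintype F] [Field K] [Fintype K] [Algebra F K] (n : ℕ) (hn : 2 ≤ n) (hdim : Module.finrank F K = n) :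
    Nat.card (Subgroup.normalizer (((Units.map ((Algebra.lmul F K : K →ₐ[F] Module.End F K) : K →* Module.End F K)).range : Subgroup (Module.End F K)ˣ) : Set (Module.End F K)ˣ)) = n * (Fintype.card K - 1) := by
  classical
  haveI : Finite (Module.End F K) :=
    Finite.of_injective (fun f : Module.End F K => (f : K → K)) DFunLike.coe_injective
  set lm : K →* Module.End F K := ((Algebra.lmul F K : K →ₐ[F] Module.End F K) : K →* Module.End F K)
    with hlm
  have lm_apply : ∀ a x : K, lm a x = a * x := fun a x => rfl
  let su : (K ≃ₐ[F] K) → (Module.End F K)ˣ :=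
    fun σ => LinearMap.GeneralLinearGroup.ofLinearEquiv σ.toLinearEquiv
  have su_apply : ∀ (σ : K ≃ₐ[F] K) (x : K), ((su σ : (Module.End F K)ˣ) : Module.End F K) x = σ x :=
    fun σ x => rfl
  let Ψ : Kˣ × (K ≃ₐ[F] K) → (Module.End F K)ˣ := fun p => Units.map lm p.1 * su p.2
  have Ψ_apply : ∀ (p : Kˣ × (K ≃ₐ[F] K)) (x : K),
      ((Ψ p : (Module.End F K)ˣ) : Module.End F K) x = (p.1 : K) * p.2 x := fun p x => rfl
  have hcomm : ∀ (p : Kˣ × (K ≃ₐ[F] K)) (a : Kˣ),
      Ψ p * Units.map lm a = Units.map lm (Units.map (p.2 : K →* K) a) * Ψ p := by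
    intro p a
    apply Units.ext
    apply LinearMap.ext
    intro x
    show ((Ψ p : (Module.End F K)ˣ) : Module.End F K) (lm (a : K) x) =
      lm (p.2 (a : K)) (((Ψ p : (Module.End F K)ˣ) : Module.End F K) x)
    rw [Ψ_apply, Ψ_apply, lm_apply, lm_apply, map_mul]
    ring
  have hmem : ∀ p, Ψ p ∈ Subgroup.normalizer (((Units.map lm).range : Subgroup (Module.End F K)ˣ) :
      Set (Module.End F K)ˣ) := by
    intro p
    rw [Subgroup.mem_normalizer_iff]
    intro h
    constructor
    · rintro ⟨a, rfl⟩
      rw [hcomm, mul_inv_cancel_right]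
      exact ⟨_, rfl⟩
    · rintro ⟨c, hc⟩
      refine ⟨Units.map ((p.2.symm : K ≃ₐ[F] K) : K →* K) c, ?_⟩
      have h1 := hcomm p (Units.map ((p.2.symm : K ≃ₐ[F] K) : K →* K) c)
      have h2 : Units.map (p.2 : K →* K) (Units.map ((p.2.symm : K ≃ₐ[F] K) : K →* K) c) = c := by
        apply Units.ext
        show p.2 (p.2.symm (c : K)) = c
        exact p.2.apply_symm_apply _
      rw [h2, hc] at h1
      have h3 : Ψ p * Units.map lm (Units.map ((p.2.symm : K ≃ₐ[F] K) : K →* K) c) = Ψ p * h := by
        rw [h1]; group
      exact mul_left_cancel h3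
  have hinj : Function.Injective Ψ := by
    rintro ⟨b, σ⟩ ⟨b', σ'⟩ h
    have h1 : ∀ x : K, (b : K) * σ x = (b' : K) * σ' x := by
      intro x
      have := congrArg (fun u : (Module.End F K)ˣ => (u : Module.End F K) x) h
      exact this
    have hb : (b : K) = b' := by
      have := h1 1
      rwa [map_one, map_one, mul_one, mul_one] at this
    have hb' : b = b' := Units.ext hb
    subst hb'
    have hσ : σ = σ' := by
      apply AlgEquiv.ext
      intro x
      exact mul_left_cancel₀ b.ne_zero (h1 x)
    rw [hσ]
  have hsurj : ∀ g ∈ Subgroup.normalizer (((Units.map lm).range : Subgroup (Module.End F K)ˣ) :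
      Set (Module.End F K)ˣ), ∃ p, Ψ p = g := by
    intro g hg
    rw [Subgroup.mem_normalizer_iff] at hg
    have hginj : Function.Injective (g : Module.End F K) := by
      intro x y hxy
      have h1 : ((g⁻¹ : (Module.End F K)ˣ) : Module.End F K) ((g : Module.End F K) x) = x := by
        rw [← Module.End.mul_apply, Units.inv_mul]; rfl
      have h2 : ((g⁻¹ : (Module.End F K)ˣ) : Module.End F K) ((g : Module.End F K) y) = y := by
        rw [← Module.End.mul_apply, Units.inv_mul]; rfl
      rw [← h1, ← h2, hxy]
    have hc : (g : Module.End F K) 1 ≠ 0 := by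
      intro h0
      have : (g : Module.End F K) 1 = (g : Module.End F K) 0 := by rw [h0, map_zero]
      exact one_ne_zero (hginj this)
    set c : K := (g : Module.End F K) 1 with hcdef
    have hkey : ∀ (a : Kˣ) (x : K), (g : Module.End F K) ((a : K) * x) =
        (g : Module.End F K) (a : K) / c * (g : Module.End F K) x := by
      intro a x
      obtain ⟨a', ha'⟩ := (hg (Units.map lm a)).1 ⟨a, rfl⟩
      have h1 : g * Units.map lm a = Units.map lm a' * g := by
        rw [ha']; group
      have h2 : ∀ y : K, (g : Module.End F K) ((a : K) * y) = (a' : K) * (g : Module.End F K) y := by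
        intro y
        have := congrArg (fun u : (Module.End F K)ˣ => (u : Module.End F K) y) h1
        exact this
      have h3 := h2 1
      rw [mul_one] at h3
      rw [h2 x, h3, ← hcdef, mul_div_assoc, div_self hc, mul_one]
    let hlin : K →ₗ[F] K := Algebra.lmul F K c⁻¹ * (g : Module.End F K)
    have hlin_apply : ∀ x, hlin x = c⁻¹ * (g : Module.End F K) x := fun x => rfl
    have hone : hlin 1 = 1 := by
      rw [hlin_apply, ← hcdef, inv_mul_cancel₀ hc]
    have hmul : ∀ x y : K, hlin (x * y) = hlin x * hlin y := by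
      intro x y
      by_cases hx : x = 0
      · subst hx
        rw [zero_mul, map_zero, zero_mul]
      · have := hkey (Units.mk0 x hx) y
        rw [Units.val_mk0] at this
        rw [hlin_apply, hlin_apply, hlin_apply, this]
        field_simp
    have hbij : Function.Bijective (AlgHom.ofLinearMap hlin hone hmul) := by
      apply Function.Injective.bijective_of_finite
      intro x y hxy
      have h1 : c⁻¹ * (g : Module.End F K) x = c⁻¹ * (g : Module.End F K) y := hxy
      exact hginj (mul_left_cancel₀ (inv_ne_zero hc) h1)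
    refine ⟨(Units.mk0 c hc, AlgEquiv.ofBijective (AlgHom.ofLinearMap hlin hone hmul) hbij), ?_⟩
    apply Units.ext
    apply LinearMap.ext
    intro x
    rw [Ψ_apply]
    show c * (c⁻¹ * (g : Module.End F K) x) = _
    rw [← mul_assoc, mul_inv_cancel₀ hc, one_mul]
  have hset : ((Subgroup.normalizer (((Units.map lm).range : Subgroup (Module.End F K)ˣ) :
      Set (Module.End F K)ˣ) : Subgroup (Module.End F K)ˣ) : Set (Module.End F K)ˣ) = Set.range Ψ := by
    ext g
    constructor
    · intro hg
      obtain ⟨p, hp⟩ := hsurj g hg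
      exact ⟨p, hp⟩
    · rintro ⟨p, rfl⟩
      exact hmem p
  have h1 : Nat.card ↥(Subgroup.normalizer (((Units.map lm).range : Subgroup (Module.End F K)ˣ) :
      Set (Module.End F K)ˣ)) = Nat.card ↥(Set.range Ψ) := by
    rw [← hset]; rfl
  rw [h1, Nat.card_range_of_injective hinj, Nat.card_prod, Nat.card_units,
    IsGalois.card_aut_eq_finrank, hdim, Nat.card_eq_fintype_card, mul_comm]

end Cfsg.Agent.S5738
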