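import Cfsg.Statements.S5739
import Mathlib

set_option autoImplicit false
open Cfsg

namespace Cfsg.Agent.S5739

/-- The elements `a` of `K` whose multiplication map lies in the conjugate of the algebra of
multiplication maps. -/
def Lfield {F K : Type*} [Field F] [Field K] [Algebra F K] (g : (Module.End F K)ˣ) :
    IntermediateField F K where
  carrier := {a | ∃ b : K, Algebra.lmul F K a =
    (g : Module.End F K) * Algebra.lmul F K b * ((g⁻¹ : (Module.End F K)ˣ) : Module.End F K)}
  mul_mem' := by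
    rintro a a' ⟨b, hb⟩ ⟨b', hb'⟩
    refine ⟨b * b', ?_⟩
    rw [map_mul, map_mul, hb, hb']
    simp only [mul_assoc]
    rw [← mul_assoc (((g⁻¹ : (Module.End F K)ˣ) : Module.End F K)) (g : Module.End F K),
      Units.inv_mul, one_mul]
  one_mem' := ⟨1, by rw [map_one, mul_one, Units.mul_inv]⟩
  add_mem' := by
    rintro a a' ⟨b, hb⟩ ⟨b', hb'⟩
    exact ⟨b + b', by rw [map_add, map_add, hb, hb', mul_add, add_mul]⟩
  zero_mem' := ⟨0, by rw [map_zero, mul_zero, zero_mul]⟩
  algebraMap_mem' := by
    intro c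
    refine ⟨algebraMap F K c, ?_⟩
    rw [AlgHom.commutes, ← Algebra.commutes, mul_assoc, Units.mul_inv, mul_one]
  inv_mem' := by
    rintro a ⟨b, hb⟩
    by_cases ha : a = 0
    · subst ha
      exact ⟨0, by rw [inv_zero, map_zero, mul_zero, zero_mul]⟩
    · have hb0 : b ≠ 0 := by
        rintro rfl
        rw [map_zero, mul_zero, zero_mul] at hb
        apply ha
        apply Algebra.lmul_injective (R := F)
        rw [hb, map_zero]
      refine ⟨b⁻¹, ?_⟩
      have h2 : Algebra.lmul F K a * ((g : Module.End F K) * Algebra.lmul F K b⁻¹ *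
          ((g⁻¹ : (Module.End F K)ˣ) : Module.End F K)) = 1 := by
        rw [hb]
        simp only [mul_assoc]
        rw [← mul_assoc (((g⁻¹ : (Module.End F K)ˣ) : Module.End F K)) (g : Module.End F K),
          Units.inv_mul, one_mul, ← mul_assoc (Algebra.lmul F K b), ← map_mul,
          mul_inv_cancel₀ hb0, map_one, one_mul, Units.mul_inv]
      have h3 : Algebra.lmul F K a⁻¹ * Algebra.lmul F K a = 1 := by
        rw [← map_mul, inv_mul_cancel₀ ha, map_one]
      calc Algebra.lmul F K a⁻¹ = Algebra.lmul F K a⁻¹ * (Algebra.lmul F K a *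
            ((g : Module.End F K) * Algebra.lmul F K b⁻¹ *
            ((g⁻¹ : (Module.End F K)ˣ) : Module.End F K))) := by rw [h2, mul_one]
        _ = (g : Module.End F K) * Algebra.lmul F K b⁻¹ *
            ((g⁻¹ : (Module.End F K)ˣ) : Module.End F K) := by
          rw [← mul_assoc (Algebra.lmul F K a⁻¹), h3, one_mul]

theorem mem_Lfield {F K : Type*} [Field F] [Field K] [Algebra F K] (g : (Module.End F K)ˣ)
    (a : K) : a ∈ Lfield g ↔ ∃ b : K, Algebra.lmul F K a =
    (g : Module.End F K) * Algebra.lmul F K b * ((g⁻¹ : (Module.End F K)ˣ) : Module.End F K) :=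
  Iff.rfl

/-- Let F ⊆ K be finite fields with |F| = q and [K : F] = n ≥ 2, and let M ≤ GL_F(K) be the Singer group of multiplications by non-zero elements of K. If g ∈ GL_F(K) does not normalise M, then the order of M ∩ gMg⁻¹ divides q^r − 1 for some proper divisor r of n. In particular, when n is prime, that order divides q − 1. -/
theorem result {F K : Type*} [Field F] [Fintype F] [Field K] [Fintype K] [Algebra F K] (n : ℕ) (hn : 2 ≤ n) (hdim : Module.finrank F K = n)
    (g : (Module.End F K)ˣ) (hg : ((Units.map ((Algebra.lmul F K : K →ₐ[F] Module.End F K) : K →* Module.End F K)).range).map (MulAut.conj g).toMonoidHom ≠ (Units.map ((Algebra.lmul F K : K →ₐ[F] Module.End F K) : K →* Module.End F K)).range) :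
    ∃ r : ℕ, 1 ≤ r ∧ r ∣ n ∧ r < n ∧ Nat.card ↥(((Units.map ((Algebra.lmul F K : K →ₐ[F] Module.End F K) : K →* Module.End F K)).range).map (MulAut.conj g).toMonoidHom ⊓ (Units.map ((Algebra.lmul F K : K →ₐ[F] Module.End F K) : K →* Module.End F K)).range) ∣ Fintype.card F ^ r - 1 := by
  classical
  haveI : Finite (Module.End F K) :=
    Finite.of_injective (fun f : Module.End F K => (f : K → K)) DFunLike.coe_injective
  set M := (Units.map ((Algebra.lmul F K : K →ₐ[F] Module.End F K) : K →* Module.End F K)).range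
    with hM
  have hmemM : ∀ x : (Module.End F K)ˣ, x ∈ M ↔
      ∃ v : Kˣ, (x : Module.End F K) = Algebra.lmul F K (v : K) := by
    intro x
    rw [hM, MonoidHom.mem_range]
    constructor
    · rintro ⟨v, rfl⟩
      exact ⟨v, rfl⟩
    · rintro ⟨v, hv⟩
      exact ⟨v, Units.ext hv.symm⟩
  have hmemC : ∀ x : (Module.End F K)ˣ, x ∈ M.map (MulAut.conj g).toMonoidHom ↔
      ∃ w : Kˣ, (x : Module.End F K) = (g : Module.End F K) * Algebra.lmul F K (w : K) *
        ((g⁻¹ : (Module.End F K)ˣ) : Module.End F K) := by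
    intro x
    rw [Subgroup.mem_map]
    constructor
    · rintro ⟨y, hy, rfl⟩
      obtain ⟨w, hw⟩ := (hmemM y).1 hy
      refine ⟨w, ?_⟩
      show ((g * y * g⁻¹ : (Module.End F K)ˣ) : Module.End F K) = _
      rw [Units.val_mul, Units.val_mul, hw]
    · rintro ⟨w, hw⟩
      refine ⟨Units.map ((Algebra.lmul F K : K →ₐ[F] Module.End F K) : K →* Module.End F K) w,
        ⟨w, rfl⟩, ?_⟩
      apply Units.ext
      show ((g * _ * g⁻¹ : (Module.End F K)ˣ) : Module.End F K) = _
      rw [Units.val_mul, Units.val_mul, hw]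
      rfl
  -- a nonzero element of the field gives a unit
  have hunit : ∀ (a : K) (b : K), a ≠ 0 → Algebra.lmul F K a =
      (g : Module.End F K) * Algebra.lmul F K b * ((g⁻¹ : (Module.End F K)ˣ) : Module.End F K) →
      b ≠ 0 := by
    intro a b ha hb
    rintro rfl
    rw [map_zero, mul_zero, zero_mul] at hb
    apply ha
    apply Algebra.lmul_injective (R := F)
    rw [hb, map_zero]
  let φ : (↥(Lfield g))ˣ →* (Module.End F K)ˣ :=
    (Units.map ((Algebra.lmul F K : K →ₐ[F] Module.End F K) : K →* Module.End F K)).comp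
      (Units.map (((Lfield g).val : ↥(Lfield g) →ₐ[F] K) : ↥(Lfield g) →* K))
  have hφval : ∀ u : (↥(Lfield g))ˣ, ((φ u : (Module.End F K)ˣ) : Module.End F K) =
      Algebra.lmul F K ((u : ↥(Lfield g)) : K) := fun u => rfl
  have hφinj : Function.Injective φ := by
    intro u u' h
    have h1 : Algebra.lmul F K ((u : ↥(Lfield g)) : K) = Algebra.lmul F K ((u' : ↥(Lfield g)) : K) := by
      rw [← hφval, ← hφval, h]
    have h2 := Algebra.lmul_injective (R := F) h1
    exact Units.ext (Subtype.ext h2)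
  have hrange : φ.range = M.map (MulAut.conj g).toMonoidHom ⊓ M := by
    ext x
    rw [MonoidHom.mem_range, Subgroup.mem_inf, hmemC, hmemM]
    constructor
    · rintro ⟨u, rfl⟩
      obtain ⟨b, hb⟩ := (mem_Lfield g _).1 (u : ↥(Lfield g)).2
      have hu0 : ((u : ↥(Lfield g)) : K) ≠ 0 := by
        intro h0
        exact u.ne_zero (Subtype.ext h0)
      refine ⟨⟨Units.mk0 b (hunit _ b hu0 hb), ?_⟩, ⟨Units.mk0 _ hu0, ?_⟩⟩
      · rw [hφval, hb]; rfl
      · rw [hφval]; rfl
    · rintro ⟨⟨w, hw⟩, ⟨v, hv⟩⟩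
      have hvL : (v : K) ∈ Lfield g := by
        rw [mem_Lfield]
        exact ⟨w, by rw [← hv, hw]⟩
      have hv0 : (⟨(v : K), hvL⟩ : ↥(Lfield g)) ≠ 0 := by
        intro h0
        exact v.ne_zero (congrArg Subtype.val h0)
      refine ⟨Units.mk0 ⟨(v : K), hvL⟩ hv0, ?_⟩
      apply Units.ext
      rw [hφval, hv]
      rfl
  have hcard : Nat.card ↥(M.map (MulAut.conj g).toMonoidHom ⊓ M) =
      Fintype.card F ^ Module.finrank F ↥(Lfield g) - 1 := by
    rw [← hrange, Nat.card_congr (MonoidHom.ofInjective hφinj).toEquiv.symm, Nat.card_units,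
      Module.natCard_eq_pow_finrank (K := F) (V := ↥(Lfield g)), Nat.card_eq_fintype_card]
  have hmul := Module.finrank_mul_finrank F ↥(Lfield g) K
  rw [hdim] at hmul
  have hpos : 0 < Module.finrank F ↥(Lfield g) := Module.finrank_pos
  have hdvd : Module.finrank F ↥(Lfield g) ∣ n := Dvd.intro _ hmul
  refine ⟨Module.finrank F ↥(Lfield g), hpos, hdvd, ?_, by rw [hcard]⟩
  have hle : Module.finrank F ↥(Lfield g) ≤ n := Nat.le_of_dvd (by omega) hdvd
  rcases Nat.lt_or_eq_of_le hle with h | h
  · exact h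
  · exfalso
    have htop : Lfield g = ⊤ := by
      apply IntermediateField.eq_of_le_of_finrank_eq le_top
      rw [IntermediateField.finrank_top', h, hdim]
    have hle2 : M ≤ M.map (MulAut.conj g).toMonoidHom := by
      intro x hx
      obtain ⟨v, hv⟩ := (hmemM x).1 hx
      have hvL : (v : K) ∈ Lfield g := by rw [htop]; exact IntermediateField.mem_top
      obtain ⟨b, hb⟩ := (mem_Lfield g _).1 hvL
      rw [hmemC]
      exact ⟨Units.mk0 b (hunit _ b v.ne_zero hb), by rw [hv, hb]; rfl⟩
    have hcm : Nat.card ↥(M.map (MulAut.conj g).toMonoidHom) = Nat.card ↥M :=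
      Subgroup.card_map_of_injective (MulAut.conj g).injective
    exact hg (Subgroup.eq_of_le_of_card_ge hle2 (le_of_eq hcm)).symm

end Cfsg.Agent.S5739
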