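import Cfsg.Statements.S5747
import Mathlib

set_option autoImplicit false
open Cfsg

namespace Cfsg.Agent.S5747

section
variable {G : Type*} {Ω : Type*} [Group G] [MulAction G Ω]

/-- `g` fixes every point of the list. -/
def Fx (l : List Ω) (g : G) : Prop := ∀ y ∈ l, g • y = y

theorem Fx_append (l₁ l₂ : List Ω) (g : G) : Fx (l₁ ++ l₂) g ↔ Fx l₁ g ∧ Fx l₂ g := by
  simp only [Fx, List.mem_append]
  constructor
  · intro h
    exact ⟨fun y hy => h y (Or.inl hy), fun y hy => h y (Or.inr hy)⟩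
  · rintro ⟨h1, h2⟩ y (hy | hy)
    · exact h1 y hy
    · exact h2 y hy

theorem Fx_singleton (x : Ω) (g : G) : Fx [x] g ↔ g • x = x := by simp [Fx]

theorem Fx_nil (g : G) : Fx ([] : List Ω) g := by simp [Fx]

end

section
variable (G : Type*) {Ω : Type*} [Group G] [MulAction G Ω]

/-- Irredundancy of a list relative to a prefix. -/
def IrrFrom : List Ω → List Ω → Prop
  | _, [] => True
  | pre, x :: l => (∃ g : G, Fx pre g ∧ g • x ≠ x) ∧ IrrFrom (pre ++ [x]) l

/-- An irredundant base, as a list. -/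
def LIB (l : List Ω) : Prop := (∀ g : G, Fx l g → g = 1) ∧ IrrFrom G [] l

/-- An irredundant base, in the indexed form of the statement. -/
def FinIB (t : ℕ) (f : Fin t → Ω) : Prop :=
  (∀ g : G, (∀ i : Fin t, g • f i = f i) → g = 1) ∧
    ∀ i : Fin t, ∃ g : G, (∀ j : Fin t, j < i → g • f j = f j) ∧ g • f i ≠ f i

theorem irr_append (pre l₁ l₂ : List Ω) :
    IrrFrom G pre (l₁ ++ l₂) ↔ IrrFrom G pre l₁ ∧ IrrFrom G (pre ++ l₁) l₂ := by
  induction l₁ generalizing pre with
  | nil => simp [IrrFrom]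
  | cons x l ih =>
    simp only [List.cons_append, IrrFrom]
    rw [ih]
    simp [and_assoc]

open Classical in
/-- Delete the redundant points of a list (relative to a prefix). -/
noncomputable def ext : List Ω → List Ω → List Ω
  | _, [] => []
  | pre, x :: l => if ∃ g : G, Fx pre g ∧ g • x ≠ x then x :: ext (pre ++ [x]) l else ext pre l

theorem ext_sublist (pre l : List Ω) : (ext G pre l).Sublist l := by
  induction l generalizing pre with
  | nil => simp [ext]
  | cons x l ih =>
    simp only [ext]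
    split_ifs with h
    · exact (ih _).cons₂ x
    · exact (ih _).cons x

theorem ext_irr (pre l : List Ω) : IrrFrom G pre (ext G pre l) := by
  induction l generalizing pre with
  | nil => simp [ext, IrrFrom]
  | cons x l ih =>
    simp only [ext]
    split_ifs with h
    · exact ⟨h, ih _⟩
    · exact ih _

theorem ext_fx (pre l : List Ω) (g : G) (h : Fx (pre ++ ext G pre l) g) : Fx (pre ++ l) g := by
  induction l generalizing pre with
  | nil => simpa [ext] using h
  | cons x l ih =>
    simp only [ext] at h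
    split_ifs at h with hc
    · have h' : Fx ((pre ++ [x]) ++ ext G (pre ++ [x]) l) g := by simpa using h
      have h2 := ih _ h'
      simpa using h2
    · have h1 := ih _ h
      rw [Fx_append] at h1 ⊢
      refine ⟨h1.1, ?_⟩
      intro y hy
      rcases List.mem_cons.mp hy with rfl | hy
      · by_contra hne
        exact hc ⟨g, h1.1, hne⟩
      · exact h1.2 y hy

theorem irr_ofFn : ∀ (t : ℕ) (f : Fin t → Ω) (pre : List Ω), IrrFrom G pre (List.ofFn f) ↔
    ∀ i : Fin t, ∃ g : G, Fx pre g ∧ (∀ j : Fin t, j < i → g • f j = f j) ∧ g • f i ≠ f i := by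
  intro t
  induction t with
  | zero =>
    intro f pre
    simp [IrrFrom]
  | succ t ih =>
    intro f pre
    rw [List.ofFn_succ]
    simp only [IrrFrom]
    rw [ih]
    constructor
    · rintro ⟨⟨g0, hg0, hg0'⟩, h⟩ i
      refine Fin.cases ?_ ?_ i
      · exact ⟨g0, hg0, fun j hj => absurd hj (Fin.not_lt_zero j), hg0'⟩
      · intro i
        obtain ⟨g, hg1, hg2, hg3⟩ := h i
        rw [Fx_append, Fx_singleton] at hg1
        refine ⟨g, hg1.1, ?_, hg3⟩
        intro j
        refine Fin.cases ?_ ?_ j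
        · intro _
          exact hg1.2
        · intro j hj
          exact hg2 j (Fin.succ_lt_succ_iff.mp hj)
    · intro h
      refine ⟨?_, ?_⟩
      · obtain ⟨g, hg1, _, hg3⟩ := h 0
        exact ⟨g, hg1, hg3⟩
      · intro i
        obtain ⟨g, hg1, hg2, hg3⟩ := h i.succ
        refine ⟨g, ?_, ?_, hg3⟩
        · rw [Fx_append, Fx_singleton]
          exact ⟨hg1, hg2 0 (Fin.succ_pos i)⟩
        · intro j hj
          exact hg2 j.succ (Fin.succ_lt_succ_iff.mpr hj)

theorem finIB_iff (t : ℕ) (f : Fin t → Ω) : FinIB G t f ↔ LIB G (List.ofFn f) := by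
  unfold FinIB LIB
  rw [irr_ofFn]
  constructor
  · rintro ⟨h1, h2⟩
    refine ⟨fun g hg => h1 g (fun i => hg _ ?_), fun i => ?_⟩
    · simp [List.mem_ofFn]
    · obtain ⟨g, hg1, hg2⟩ := h2 i
      exact ⟨g, Fx_nil g, hg1, hg2⟩
  · rintro ⟨h1, h2⟩
    refine ⟨fun g hg => h1 g (fun y hy => ?_), fun i => ?_⟩
    · obtain ⟨i, rfl⟩ : ∃ i, f i = y := by simpa [List.mem_ofFn] using hy
      exact hg i
    · obtain ⟨g, _, hg1, hg2⟩ := h2 i
      exact ⟨g, hg1, hg2⟩

theorem finIB_get (l : List Ω) : FinIB G l.length l.get ↔ LIB G l := by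
  rw [finIB_iff, List.ofFn_get]

theorem A_imp_B
    (hA : ∀ (t t' : ℕ) (f : Fin t → Ω) (f' : Fin t' → Ω), FinIB G t f → FinIB G t' f' → t = t')
    (t : ℕ) (f : Fin t → Ω) (σ : Equiv.Perm (Fin t)) (hf : FinIB G t f) : FinIB G t (f ∘ σ) := by
  rw [finIB_iff]
  have hbase : ∀ g : G, Fx (List.ofFn (f ∘ σ)) g → g = 1 := by
    intro g hg
    apply hf.1 g
    intro i
    have hmem : f i ∈ List.ofFn (f ∘ σ) := by
      rw [List.mem_ofFn]
      exact ⟨σ.symm i, by simp⟩
    exact hg _ hmem
  have hl'IB : LIB G (ext G [] (List.ofFn (f ∘ σ))) := by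
    refine ⟨fun g hg => hbase g ?_, ext_irr G [] _⟩
    have h1 := ext_fx G [] (List.ofFn (f ∘ σ)) g (by simpa using hg)
    simpa using h1
  have h1 : FinIB G _ (ext G [] (List.ofFn (f ∘ σ))).get := (finIB_get G _).mpr hl'IB
  have hlen : (ext G [] (List.ofFn (f ∘ σ))).length = t := hA _ _ _ _ h1 hf
  have hsub := ext_sublist G [] (List.ofFn (f ∘ σ))
  have hlen2 : (List.ofFn (f ∘ σ)).length = t := List.length_ofFn
  have heq : ext G [] (List.ofFn (f ∘ σ)) = List.ofFn (f ∘ σ) :=
    hsub.eq_of_length (by rw [hlen, hlen2])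
  rw [← heq]
  exact hl'IB

theorem K1
    (hB : ∀ (t : ℕ) (f : Fin t → Ω) (σ : Equiv.Perm (Fin t)), FinIB G t f → FinIB G t (f ∘ σ))
    (t : ℕ) (f : Fin t → Ω) (hf : FinIB G t f) (i : Fin t) :
    ∃ g : G, (∀ j : Fin t, j ≠ i → g • f j = f j) ∧ g • f i ≠ f i := by
  obtain ⟨n, rfl⟩ : ∃ n, t = n + 1 := ⟨t - 1, by have := i.isLt; omega⟩
  obtain ⟨g, hg1, hg2⟩ := (hB _ f (Equiv.swap i (Fin.last n)) hf).2 (Fin.last n)
  simp only [Function.comp_apply, Equiv.swap_apply_right] at hg2
  refine ⟨g, fun j hj => ?_, hg2⟩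
  have hk : Equiv.swap i (Fin.last n) j ≠ Fin.last n := by
    intro h
    have h2 := congrArg (Equiv.swap i (Fin.last n)) h
    simp only [Equiv.swap_apply_self, Equiv.swap_apply_right] at h2
    exact hj h2
  have h3 := hg1 (Equiv.swap i (Fin.last n) j) (lt_of_le_of_ne (Fin.le_last _) hk)
  simpa using h3

theorem K1_list
    (hB : ∀ (t : ℕ) (f : Fin t → Ω) (σ : Equiv.Perm (Fin t)), FinIB G t f → FinIB G t (f ∘ σ))
    (u v : List Ω) (x : Ω) (h : LIB G (u ++ x :: v)) :
    ∃ g : G, Fx u g ∧ Fx v g ∧ g • x ≠ x := by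
  have hfin := (finIB_get G _).mpr h
  have hi : u.length < (u ++ x :: v).length := by simp
  obtain ⟨g, hg1, hg2⟩ := K1 G hB _ _ hfin ⟨u.length, hi⟩
  refine ⟨g, ?_, ?_, ?_⟩
  · intro y hy
    obtain ⟨n, hn, rfl⟩ := List.mem_iff_getElem.mp hy
    have hn' : n < (u ++ x :: v).length := by simp; omega
    have h3 := hg1 ⟨n, hn'⟩ (by
      intro h
      have h' : n = u.length := Fin.val_eq_of_eq h
      omega)
    simpa [List.getElem_append_left hn] using h3
  · intro y hy
    obtain ⟨n, hn, rfl⟩ := List.mem_iff_getElem.mp hy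
    have hn' : u.length + (n + 1) < (u ++ x :: v).length := by simp; omega
    have h3 := hg1 ⟨u.length + (n + 1), hn'⟩ (by
      intro h
      have h' : u.length + (n + 1) = u.length := Fin.val_eq_of_eq h
      omega)
    have e : (u ++ x :: v)[u.length + (n + 1)] = v[n] := by
      rw [List.getElem_append_right (by omega)]
      simp
    simpa [e] using h3
  · simpa using hg2

theorem chain
    (hB : ∀ (t : ℕ) (f : Fin t → Ω) (σ : Equiv.Perm (Fin t)), FinIB G t f → FinIB G t (f ∘ σ))
    (la lb : List Ω) (ha : LIB G la) (hb : LIB G lb) :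
    ∀ n, n ≤ lb.length → ∃ r : List Ω, LIB G (lb.take n ++ r) ∧ n + r.length ≤ la.length := by
  intro n
  induction n with
  | zero =>
    intro _
    exact ⟨la, by simpa using ha, by simp⟩
  | succ n ih =>
    intro hn
    obtain ⟨r, hr, hlen⟩ := ih (by omega)
    have hn' : n < lb.length := by omega
    have htake : lb.take (n + 1) = lb.take n ++ [lb[n]] := by
      rw [List.take_succ_eq_append_getElem hn']
    have hlb : lb = lb.take n ++ lb[n] :: lb.drop (n + 1) := by
      rw [List.getElem_cons_drop_succ_eq_drop, List.take_append_drop]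
    have hx_irr : ∃ g : G, Fx (lb.take n) g ∧ g • lb[n] ≠ lb[n] := by
      have h1 := hb.2
      rw [hlb, irr_append] at h1
      have h2 := h1.2
      simp only [List.nil_append, IrrFrom] at h2
      exact h2.1
    have hsub : (ext G (lb.take n ++ [lb[n]]) r).Sublist r := ext_sublist G _ _
    have hLIB : LIB G (lb.take n ++ [lb[n]] ++ ext G (lb.take n ++ [lb[n]]) r) := by
      refine ⟨?_, ?_⟩
      · intro g hg
        have h1 := ext_fx G (lb.take n ++ [lb[n]]) r g hg
        apply hr.1 g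
        rw [Fx_append] at h1 ⊢
        rw [Fx_append] at h1
        exact ⟨h1.1.1, h1.2⟩
      · rw [irr_append, irr_append]
        refine ⟨⟨?_, ?_⟩, ?_⟩
        · have h3 := hr.2
          rw [irr_append] at h3
          exact h3.1
        · simp only [List.nil_append, IrrFrom]
          exact ⟨hx_irr, trivial⟩
        · rw [List.nil_append]
          exact ext_irr G (lb.take n ++ [lb[n]]) r
    have hlt : (ext G (lb.take n ++ [lb[n]]) r).length < r.length := by
      rcases Nat.lt_or_ge (ext G (lb.take n ++ [lb[n]]) r).length r.length with h | h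
      · exact h
      · exfalso
        have heq : ext G (lb.take n ++ [lb[n]]) r = r :=
          hsub.eq_of_length (le_antisymm hsub.length_le h)
        rw [heq] at hLIB
        have e2 : lb.take n ++ [lb[n]] ++ r = lb.take n ++ lb[n] :: r := by
          rw [List.append_assoc]
          rfl
        rw [e2] at hLIB
        have hLIB' : LIB G (lb.take n ++ lb[n] :: r) := hLIB
        obtain ⟨g, hg1, hg2, hg3⟩ := K1_list G hB (lb.take n) r lb[n] hLIB'
        have hg : g = 1 := hr.1 g (by rw [Fx_append]; exact ⟨hg1, hg2⟩)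
        rw [hg, one_smul] at hg3
        exact hg3 rfl
    exact ⟨ext G (lb.take n ++ [lb[n]]) r, by rw [htake]; exact hLIB, by omega⟩

theorem B_imp_le
    (hB : ∀ (t : ℕ) (f : Fin t → Ω) (σ : Equiv.Perm (Fin t)), FinIB G t f → FinIB G t (f ∘ σ))
    (t s : ℕ) (a : Fin t → Ω) (b : Fin s → Ω) (ha : FinIB G t a) (hb : FinIB G s b) : s ≤ t := by
  have ha' := (finIB_iff G t a).mp ha
  have hb' := (finIB_iff G s b).mp hb
  obtain ⟨r, _, hlen⟩ := chain G hB _ _ ha' hb' (List.ofFn b).length le_rfl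
  simp only [List.length_ofFn] at hlen
  omega

end

/-- Let a finite group G act on a finite set Ω. An irredundant base is a sequence of points ω₁, …, ω_t whose pointwise stabiliser is trivial and in which each ω_i is moved by some element fixing ω₁, …, ω_{i−1}. Then all irredundant bases have the same length if and only if every reordering of an irredundant base is again an irredundant base. -/
theorem result {G Ω : Type*} [Group G] [Finite G] [MulAction G Ω] [Fintype Ω] :
    (∀ (t t' : ℕ) (f : Fin t → Ω) (f' : Fin t' → Ω), ((∀ g : G, (∀ i : Fin t, g • f i = f i) → g = 1) ∧ ∀ i : Fin t, ∃ g : G, (∀ j : Fin t, j < i → g • f j = f j) ∧ g • f i ≠ f i) → ((∀ g : G, (∀ i : Fin t', g • f' i = f' i) → g = 1) ∧ ∀ i : Fin t', ∃ g : G, (∀ j : Fin t', j < i → g • f' j = f' j) ∧ g • f' i ≠ f' i) → t = t') ↔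
    (∀ (t : ℕ) (f : Fin t → Ω) (σ : Equiv.Perm (Fin t)), ((∀ g : G, (∀ i : Fin t, g • f i = f i) → g = 1) ∧ ∀ i : Fin t, ∃ g : G, (∀ j : Fin t, j < i → g • f j = f j) ∧ g • f i ≠ f i) → ((∀ g : G, (∀ i : Fin t, g • (f ∘ σ) i = (f ∘ σ) i) → g = 1) ∧ ∀ i : Fin t, ∃ g : G, (∀ j : Fin t, j < i → g • (f ∘ σ) j = (f ∘ σ) j) ∧ g • (f ∘ σ) i ≠ (f ∘ σ) i)) := by
  constructor
  · intro hA t f σ hf
    exact A_imp_B G hA t f σ hf
  · intro hB t t' f f' hf hf'
    exact le_antisymm (B_imp_le G hB t' t f' f hf' hf) (B_imp_le G hB t t' f f' hf hf')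

end Cfsg.Agent.S5747
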