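import Cfsg.Statements.S5754
import Mathlib

set_option autoImplicit false
open Cfsg

namespace Cfsg.Agent.S5754

section
variable {F V : Type*} [Field F] [AddCommGroup V] [Module F V] (Q : QuadraticForm F V)

/-- The reflection in the vector `a`, as a linear map. -/
def reflMap (a : V) : V →ₗ[F] V where
  toFun x := x - (QuadraticMap.polar Q x a / Q a) • a
  map_add' x y := by
    rw [QuadraticMap.polar_add_left, add_div, add_smul]
    abel
  map_smul' c x := by
    simp only [RingHom.id_apply]
    rw [QuadraticMap.polar_smul_left, smul_sub, smul_smul, smul_eq_mul, mul_div_assoc]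

theorem reflMap_apply (a x : V) :
    reflMap Q a x = x - (QuadraticMap.polar Q x a / Q a) • a := rfl

theorem polar_reflMap (a : V) (ha : Q a ≠ 0) (x : V) :
    QuadraticMap.polar Q (reflMap Q a x) a = - QuadraticMap.polar Q x a := by
  rw [reflMap_apply, sub_eq_add_neg, QuadraticMap.polar_add_left, ← neg_smul,
    QuadraticMap.polar_smul_left, QuadraticMap.polar_self]
  simp only [smul_eq_mul, nsmul_eq_mul]
  field_simp
  ring

theorem reflMap_reflMap (a : V) (ha : Q a ≠ 0) (x : V) : reflMap Q a (reflMap Q a x) = x := by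
  rw [reflMap_apply Q a (reflMap Q a x), polar_reflMap Q a ha, reflMap_apply, neg_div, neg_smul]
  abel

theorem Q_reflMap (a : V) (ha : Q a ≠ 0) (x : V) : Q (reflMap Q a x) = Q x := by
  rw [reflMap_apply, sub_eq_add_neg, ← neg_smul, QuadraticMap.map_add (⇑Q), QuadraticMap.map_smul,
    QuadraticMap.polar_smul_right]
  simp only [smul_eq_mul]
  field_simp
  ring

/-- The reflection in an anisotropic vector, as an isometry. -/
def reflEquiv (a : V) (ha : Q a ≠ 0) : Q.IsometryEquiv Q :=
  { LinearEquiv.ofInvolutive (reflMap Q a) (reflMap_reflMap Q a ha) with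
    map_app' := Q_reflMap Q a ha }

theorem reflEquiv_apply (a : V) (ha : Q a ≠ 0) (x : V) : reflEquiv Q a ha x = reflMap Q a x := rfl

theorem Q_sub (x y : V) : Q (x - y) = Q x + Q y - QuadraticMap.polar Q x y := by
  rw [sub_eq_add_neg, QuadraticMap.map_add (⇑Q), QuadraticMap.map_neg, QuadraticMap.polar_neg_right]
  ring

theorem extend (hQ : Q.Anisotropic) {ι : Type*} (d d' : ι → V)
    (hq : ∀ i, Q (d i) = Q (d' i))
    (hp : ∀ i j, QuadraticMap.polar Q (d i) (d j) = QuadraticMap.polar Q (d' i) (d' j))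
    (S : Finset ι) : ∃ φ : Q.IsometryEquiv Q, ∀ i ∈ S, φ (d i) = d' i := by
  classical
  induction S using Finset.induction_on with
  | empty => exact ⟨QuadraticMap.IsometryEquiv.refl Q, by simp⟩
  | insert i0 S hi0 ih =>
    obtain ⟨φ, hφ⟩ := ih
    by_cases he : φ (d i0) = d' i0
    · refine ⟨φ, ?_⟩
      intro i hi
      rcases Finset.mem_insert.1 hi with rfl | h
      · exact he
      · exact hφ i h
    · have ha : Q (φ (d i0) - d' i0) ≠ 0 := fun h => he (sub_eq_zero.1 (hQ _ h))
      have hpolφ : ∀ x y, QuadraticMap.polar Q (φ x) (φ y) = QuadraticMap.polar Q x y := by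
        intro x y
        unfold QuadraticMap.polar
        rw [← map_add, φ.map_app, φ.map_app, φ.map_app]
      refine ⟨φ.trans (reflEquiv Q _ ha), ?_⟩
      intro i hi
      show reflEquiv Q _ ha (φ (d i)) = d' i
      rw [reflEquiv_apply, reflMap_apply]
      rcases Finset.mem_insert.1 hi with rfl | h
      · have h1 : QuadraticMap.polar Q (φ (d i)) (φ (d i) - d' i) = Q (φ (d i) - d' i) := by
          rw [Q_sub, QuadraticMap.polar_sub_right, QuadraticMap.polar_self, φ.map_app, hq i]
          simp only [nsmul_eq_mul]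
          push_cast
          ring
        rw [h1, div_self ha, one_smul]
        abel
      · rw [hφ i h]
        have h1 : QuadraticMap.polar Q (d' i) (φ (d i0) - d' i0) = 0 := by
          rw [QuadraticMap.polar_sub_right, ← hφ i h, hpolφ, hφ i h, hp i i0, sub_self]
        rw [h1, zero_div, zero_smul, sub_zero]

end

/-- Let V be a finite-dimensional vector space over a finite field F carrying an anisotropic quadratic form Q (Q(v) = 0 only for v = 0). Then the group of all maps v ↦ φ(v) + c, with φ an isometry of Q and c ∈ V, acts on V as a binary permutation group: given n ≥ 2 and two n-tuples u, u' of vectors such that every pair of corresponding entries of u is carried to that of u' by such a map, one such map carries u to u'. -/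
theorem result {F V : Type*} [Field F] [Finite F] [AddCommGroup V] [Module F V] [Module.Finite F V]
    (Q : QuadraticForm F V) (hQ : Q.Anisotropic) (n : ℕ) (hn : 2 ≤ n) (u u' : Fin n → V)
    (h2 : ∀ i j : Fin n, i ≠ j → ∃ (φ : Q.IsometryEquiv Q) (c : V), φ (u i) + c = u' i ∧ φ (u j) + c = u' j) :
    ∃ (φ : Q.IsometryEquiv Q) (c : V), ∀ i, φ (u i) + c = u' i := by
  have h0 : 0 < n := by omega
  have hdist : ∀ i j, Q (u i - u j) = Q (u' i - u' j) := by
    intro i j
    by_cases hij : i = j
    · subst hij; simp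
    · obtain ⟨φ, c, h1, h2⟩ := h2 i j hij
      rw [← h1, ← h2]
      have : φ (u i) + c - (φ (u j) + c) = φ (u i - u j) := by rw [map_sub]; abel
      rw [this, φ.map_app]
  have hq : ∀ i, Q (u i - u ⟨0, h0⟩) = Q (u' i - u' ⟨0, h0⟩) := fun i => hdist i ⟨0, h0⟩
  have hp : ∀ i j, QuadraticMap.polar Q (u i - u ⟨0, h0⟩) (u j - u ⟨0, h0⟩) =
      QuadraticMap.polar Q (u' i - u' ⟨0, h0⟩) (u' j - u' ⟨0, h0⟩) := by
    intro i j
    have e1 := Q_sub Q (u i - u ⟨0, h0⟩) (u j - u ⟨0, h0⟩)
    have e2 := Q_sub Q (u' i - u' ⟨0, h0⟩) (u' j - u' ⟨0, h0⟩)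
    have e3 : u i - u ⟨0, h0⟩ - (u j - u ⟨0, h0⟩) = u i - u j := by abel
    have e4 : u' i - u' ⟨0, h0⟩ - (u' j - u' ⟨0, h0⟩) = u' i - u' j := by abel
    rw [e3, hdist i j, hq i, hq j] at e1
    rw [e4] at e2
    linear_combination e1 - e2
  obtain ⟨φ, hφ⟩ := extend Q hQ (fun i => u i - u ⟨0, h0⟩) (fun i => u' i - u' ⟨0, h0⟩) hq hp
    Finset.univ
  refine ⟨φ, u' ⟨0, h0⟩ - φ (u ⟨0, h0⟩), fun i => ?_⟩
  have := hφ i (Finset.mem_univ i)
  simp only [map_sub] at this
  have h3 : φ (u i) = u' i - u' ⟨0, h0⟩ + φ (u ⟨0, h0⟩) := by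
    rw [← this]; abel
  rw [h3]
  abel

end Cfsg.Agent.S5754
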