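import Cfsg.Statements.S5763
import Mathlib
import Cfsg.Agent.Lib.Helper9.Wreath

set_option autoImplicit false
open Cfsg

namespace Cfsg.Agent.S5763

open Cfsg.Agent.Lib.Helper9

def f2 : Fin 8 → Fin 4 := fun x => ⟨x.val / 2, by omega⟩
def f4 : Fin 8 → Fin 2 := fun x => ⟨x.val / 4, by omega⟩

def P0 : Subgroup (Equiv.Perm (Fin 8)) := blockStab f2 ⊓ blockStab f4

def partner : Fin 8 → Fin 8 := ![1, 0, 3, 2, 5, 4, 7, 6]

def Ft (t : Fin 8 × Fin 8 × Fin 8 × Fin 8) : Fin 8 → Fin 8 :=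
  ![t.1, partner t.1, t.2.1, partner t.2.1, t.2.2.1, partner t.2.2.1, t.2.2.2, partner t.2.2.2]

def okF (h : Fin 8 → Fin 8) : Prop :=
  Function.Injective h ∧ (∀ x y, f2 x = f2 y ↔ f2 (h x) = f2 (h y)) ∧
    (∀ x y, f4 x = f4 y ↔ f4 (h x) = f4 (h y))

instance : DecidablePred okF := by
  intro h; unfold okF; infer_instance

theorem cardV : (Finset.univ.filter (fun t : Fin 8 × Fin 8 × Fin 8 × Fin 8 => okF (Ft t))).card = 128 := by
  decide +kernel

theorem partner_spec : ∀ u v : Fin 8, f2 u = f2 v → u ≠ v → partner u = v := by decide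

theorem Ft_eq (g : Equiv.Perm (Fin 8)) (hg : g ∈ blockStab f2) :
    Ft (g 0, g 2, g 4, g 6) = ⇑g := by
  have key : ∀ u v : Fin 8, f2 u = f2 v → u ≠ v → partner (g u) = g v := by
    intro u v huv hne
    exact partner_spec _ _ ((hg u v).mp huv) (fun h => hne (g.injective h))
  funext x
  fin_cases x
  · rfl
  · exact key 0 1 (by decide) (by decide)
  · rfl
  · exact key 2 3 (by decide) (by decide)
  · rfl
  · exact key 4 5 (by decide) (by decide)
  · rfl
  · exact key 6 7 (by decide) (by decide)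

theorem card_P0 : Nat.card P0 = 128 := by
  classical
  have e : P0 ≃ {t : Fin 8 × Fin 8 × Fin 8 × Fin 8 // okF (Ft t)} :=
    { toFun := fun g => ⟨(g.1 0, g.1 2, g.1 4, g.1 6), by
        rw [Ft_eq g.1 g.2.1]
        exact ⟨g.1.injective, g.2.1, g.2.2⟩⟩
      invFun := fun t => ⟨Equiv.ofBijective (Ft t.1) (Finite.injective_iff_bijective.mp t.2.1),
        ⟨t.2.2.1, t.2.2.2⟩⟩
      left_inv := by
        intro g
        apply Subtype.ext
        apply Equiv.ext
        intro x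
        show Ft (g.1 0, g.1 2, g.1 4, g.1 6) x = g.1 x
        rw [Ft_eq g.1 g.2.1]
      right_inv := by
        intro t
        apply Subtype.ext
        rfl }
  rw [Nat.card_congr e, Nat.card_eq_fintype_card, Fintype.card_subtype]
  exact cardV

/-- base-4 digit -/
def dg (c i : ℕ) : ℕ := (c / 4 ^ i) % 4

def validC (c : ℕ) : Bool :=
  16 ^ dg c 0 + 16 ^ dg c 1 + 16 ^ dg c 2 + 16 ^ dg c 3 + 16 ^ dg c 4 + 16 ^ dg c 5 + 16 ^ dg c 6
    + 16 ^ dg c 7 == 8738

def gl (l : List ℕ) (x : ℕ) : ℕ := l.getD x 0 % 8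

def presC (l : List ℕ) (c : ℕ) : Bool :=
  (List.range 8).all fun x => (List.range 8).all fun y =>
    (decide (dg c x = dg c y) == decide (dg c (gl l x) = dg c (gl l y))) &&
    (decide (dg c x / 2 = dg c y / 2) == decide (dg c (gl l x) / 2 = dg c (gl l y) / 2))

def candsL : List (List ℕ) :=
  [[1, 0, 3, 2, 5, 4, 7, 6], [1, 0, 3, 2, 6, 7, 4, 5], [1, 0, 3, 2, 7, 6, 5, 4],
   [0, 1, 2, 3, 4, 5, 7, 6], [0, 1, 2, 3, 5, 4, 6, 7], [0, 1, 3, 2, 4, 5, 6, 7],
   [1, 0, 2, 3, 4, 5, 6, 7], [4, 5, 6, 7, 0, 1, 2, 3], [4, 5, 7, 6, 0, 1, 3, 2],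
   [5, 4, 6, 7, 1, 0, 2, 3], [5, 4, 7, 6, 1, 0, 3, 2], [6, 7, 4, 5, 2, 3, 0, 1],
   [6, 7, 5, 4, 3, 2, 0, 1], [7, 6, 4, 5, 2, 3, 1, 0], [7, 6, 5, 4, 3, 2, 1, 0]]

def chk (c : ℕ) : Bool := !validC c || candsL.any (fun l => presC l c)

def allB (p : ℕ → Bool) : ℕ → Bool
  | 0 => true
  | k + 1 => p k && allB p k

theorem allB_spec (p : ℕ → Bool) (k : ℕ) (h : allB p k = true) :
    ∀ n, n < k → p n = true := by
  induction k with
  | zero => intro n hn; omega
  | succ k ih =>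
    intro n hn
    rw [allB, Bool.and_eq_true] at h
    rcases Nat.lt_succ_iff_lt_or_eq.mp hn with h1 | h1
    · exact ih h.2 n h1
    · rw [h1]; exact h.1

theorem chk_all : allB chk 65536 = true := by decide +kernel

def lf (l : List ℕ) (x : Fin 8) : Fin 8 := ⟨gl l x.val, Nat.mod_lt _ (by norm_num)⟩

theorem cands_invol : ∀ l ∈ candsL, ∀ x : Fin 8, lf l (lf l x) = x := by decide +kernel

/-- code of the identity labelling -/
theorem cands_P0 : ∀ l ∈ candsL, presC l 64080 = true ∧ lf l ≠ id := by decide +kernel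

theorem dg_code (a : Fin 8 → Fin 4) (i : Fin 8) :
    dg ((a 0).val + 4 * (a 1).val + 16 * (a 2).val + 64 * (a 3).val + 256 * (a 4).val
      + 1024 * (a 5).val + 4096 * (a 6).val + 16384 * (a 7).val) i.val = (a i).val := by
  have h0 := (a 0).2; have h1 := (a 1).2; have h2 := (a 2).2; have h3 := (a 3).2
  have h4 := (a 4).2; have h5 := (a 5).2; have h6 := (a 6).2; have h7 := (a 7).2
  unfold dg
  fin_cases i <;> simp <;> omega

theorem presC_spec (l : List ℕ) (c : ℕ) (a : Fin 8 → Fin 4)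
    (ha : ∀ i : Fin 8, dg c i.val = (a i).val) (h : presC l c = true) (x y : Fin 8) :
    (a x = a y ↔ a (lf l x) = a (lf l y)) ∧
    ((a x).val / 2 = (a y).val / 2 ↔ (a (lf l x)).val / 2 = (a (lf l y)).val / 2) := by
  unfold presC at h
  rw [List.all_eq_true] at h
  have h1 := h x.val (List.mem_range.mpr x.2)
  rw [List.all_eq_true] at h1
  have h2 := h1 y.val (List.mem_range.mpr y.2)
  rw [Bool.and_eq_true] at h2
  have e1 : dg c (gl l x.val) = (a (lf l x)).val := ha (lf l x)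
  have e2 : dg c (gl l y.val) = (a (lf l y)).val := ha (lf l y)
  rw [ha x, ha y, e1, e2] at h2
  obtain ⟨h3, h4⟩ := h2
  simp only [beq_iff_eq, decide_eq_decide] at h3 h4
  refine ⟨?_, h4⟩
  rw [← Fin.val_inj, ← Fin.val_inj (a := a (lf l x))]
  exact h3

theorem f4_iff (u v : Fin 8) : f4 u = f4 v ↔ (f2 u).val / 2 = (f2 v).val / 2 := by
  revert u v; decide

theorem good (w : Equiv.Perm (Fin 8)) : ∃ g ∈ P0, g ≠ 1 ∧ w⁻¹ * g * w ∈ P0 := by
  classical
  let a : Fin 8 → Fin 4 := fun i => f2 (w⁻¹ i)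
  let c : ℕ := (a 0).val + 4 * (a 1).val + 16 * (a 2).val + 64 * (a 3).val + 256 * (a 4).val
      + 1024 * (a 5).val + 4096 * (a 6).val + 16384 * (a 7).val
  have ha : ∀ i : Fin 8, dg c i.val = (a i).val := dg_code a
  have hc : c < 65536 := by
    have h0 := (a 0).2; have h1 := (a 1).2; have h2 := (a 2).2; have h3 := (a 3).2
    have h4 := (a 4).2; have h5 := (a 5).2; have h6 := (a 6).2; have h7 := (a 7).2
    show (a 0).val + 4 * (a 1).val + 16 * (a 2).val + 64 * (a 3).val + 256 * (a 4).val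
      + 1024 * (a 5).val + 4096 * (a 6).val + 16384 * (a 7).val < 65536
    omega
  have hvalid : validC c = true := by
    unfold validC
    have e : ∀ i : Fin 8, dg c i.val = (a i).val := ha
    have h0 := e 0; have h1 := e 1; have h2 := e 2; have h3 := e 3
    have h4 := e 4; have h5 := e 5; have h6 := e 6; have h7 := e 7
    simp only [Fin.val_zero, Fin.val_one] at h0 h1
    have e2 : (2 : Fin 8).val = 2 := rfl
    have e3 : (3 : Fin 8).val = 3 := rfl
    have e4 : (4 : Fin 8).val = 4 := rfl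
    have e5 : (5 : Fin 8).val = 5 := rfl
    have e6 : (6 : Fin 8).val = 6 := rfl
    have e7 : (7 : Fin 8).val = 7 := rfl
    rw [e2] at h2; rw [e3] at h3; rw [e4] at h4; rw [e5] at h5; rw [e6] at h6; rw [e7] at h7
    rw [h0, h1, h2, h3, h4, h5, h6, h7]
    have hsum : ∑ i : Fin 8, 16 ^ (a i).val = ∑ i : Fin 8, 16 ^ (f2 i).val :=
      Equiv.sum_comp (w⁻¹ : Equiv.Perm (Fin 8)) (fun i => 16 ^ (f2 i).val)
    have hsum2 : ∑ i : Fin 8, 16 ^ (f2 i).val = 8738 := by decide
    rw [hsum2, Fin.sum_univ_eight] at hsum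
    rw [beq_iff_eq]
    exact hsum
  have hchk := allB_spec chk 65536 chk_all c hc
  unfold chk at hchk
  rw [hvalid] at hchk
  simp only [Bool.not_true, Bool.false_or, List.any_eq_true] at hchk
  obtain ⟨l, hl, hpres⟩ := hchk
  have hinv := cands_invol l hl
  let g : Equiv.Perm (Fin 8) := ⟨lf l, lf l, hinv, hinv⟩
  have hgP0 : g ∈ P0 := by
    have ha0 : ∀ i : Fin 8, dg 64080 i.val = (f2 i).val := by decide
    have := presC_spec l 64080 f2 ha0 (cands_P0 l hl).1
    constructor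
    · intro x y; exact (this x y).1
    · intro x y
      rw [f4_iff, f4_iff]
      exact (this x y).2
  have hg1 : g ≠ 1 := by
    intro h
    apply (cands_P0 l hl).2
    funext x
    have := congrArg (fun σ : Equiv.Perm (Fin 8) => σ x) h
    exact this
  refine ⟨g, hgP0, hg1, ?_⟩
  have key := presC_spec l c a ha hpres
  have haw : ∀ x : Fin 8, a (w x) = f2 x := by
    intro x
    show f2 (w⁻¹ (w x)) = f2 x
    simp
  constructor
  · intro x y
    have := (key (w x) (w y)).1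
    rw [haw, haw] at this
    exact this
  · intro x y
    rw [f4_iff, f4_iff]
    have := (key (w x) (w y)).2
    rw [haw, haw] at this
    exact this

/-- In the symmetric group on 8 letters any two Sylow 2-subgroups have non-trivial intersection: for a Sylow 2-subgroup H and every element x, H ∩ xHx⁻¹ ≠ 1. -/
theorem result (H : Sylow 2 (Equiv.Perm (Fin 8))) (x : Equiv.Perm (Fin 8)) :
    (H : Subgroup (Equiv.Perm (Fin 8))) ⊓ (H : Subgroup (Equiv.Perm (Fin 8))).map (MulAut.conj x).toMonoidHom ≠ ⊥ := by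
  classical
  haveI : Fact (Nat.Prime 2) := ⟨Nat.prime_two⟩
  have hcardG : Nat.card (Equiv.Perm (Fin 8)) = 2 ^ 7 * 315 := by
    rw [Nat.card_eq_fintype_card, Fintype.card_perm, Fintype.card_fin]; rfl
  have hfact : (Nat.card (Equiv.Perm (Fin 8))).factorization 2 = 7 := by
    rw [hcardG, Nat.factorization_mul (by norm_num) (by norm_num), Nat.factorization_pow]
    have h1 : (Nat.factorization 315) 2 = 0 := Nat.factorization_eq_zero_of_not_dvd (by norm_num)
    simp [h1, Nat.Prime.factorization_self Nat.prime_two]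
  let Q : Sylow 2 (Equiv.Perm (Fin 8)) := Sylow.ofCard P0 (by rw [card_P0, hfact]; norm_num)
  have hQ : (Q : Subgroup (Equiv.Perm (Fin 8))) = P0 := Sylow.coe_ofCard P0 _
  obtain ⟨y, hy⟩ := MulAction.exists_smul_eq (Equiv.Perm (Fin 8)) Q H
  have hH : ∀ z : Equiv.Perm (Fin 8), z ∈ (H : Subgroup (Equiv.Perm (Fin 8))) ↔ y⁻¹ * z * y ∈ P0 := by
    intro z
    rw [← hy, Sylow.coe_subgroup_smul, hQ, Subgroup.mem_pointwise_smul_iff_inv_smul_mem]
    simp [MulAut.smul_def, mul_assoc]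
  obtain ⟨g, hg, hg1, hgw⟩ := good (y⁻¹ * x * y)
  intro hbot
  have hmem : y * g * y⁻¹ ∈ (H : Subgroup (Equiv.Perm (Fin 8))) ⊓
      (H : Subgroup (Equiv.Perm (Fin 8))).map (MulAut.conj x).toMonoidHom := by
    refine Subgroup.mem_inf.mpr ⟨?_, ?_⟩
    · refine (hH _).mpr ?_
      have : y⁻¹ * (y * g * y⁻¹) * y = g := by group
      rw [this]; exact hg
    · refine Subgroup.mem_map.mpr ⟨x⁻¹ * (y * g * y⁻¹) * x, ?_, ?_⟩
      · refine (hH _).mpr ?_
        have : y⁻¹ * (x⁻¹ * (y * g * y⁻¹) * x) * y = (y⁻¹ * x * y)⁻¹ * g * (y⁻¹ * x * y) := by group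
        rw [this]; exact hgw
      · show x * (x⁻¹ * (y * g * y⁻¹) * x) * x⁻¹ = y * g * y⁻¹
        group
  rw [hbot, Subgroup.mem_bot] at hmem
  apply hg1
  have : g = y⁻¹ * (y * g * y⁻¹) * y := by group
  rw [this, hmem]; group

end Cfsg.Agent.S5763
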