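import Cfsg.Statements.S5887
import Mathlib
import Cfsg.Agent.S5635

set_option autoImplicit false
open Cfsg

namespace Cfsg.Agent.S5887

open Cfsg.Agent.S5635 (tvG tvG_mulVec tvG_det mem_sl_iff mkGL mkGL_mulVec mkGL_det)
open scoped Matrix

section
variable {F : Type*} [Field F] [Fintype F] {n : ℕ}

/-- the stabiliser of a set of matrices under conjugation -/
def setNorm (S : Set (Matrix (Fin n) (Fin n) F)) :
    Subgroup (Matrix.GeneralLinearGroup (Fin n) F) where
  carrier := {g | ∀ k : Matrix (Fin n) (Fin n) F, k ∈ S ↔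
    (g : Matrix (Fin n) (Fin n) F) * k *
      ((g⁻¹ : Matrix.GeneralLinearGroup (Fin n) F) : Matrix (Fin n) (Fin n) F) ∈ S}
  mul_mem' {a b} ha hb := by
    intro k
    rw [hb k, ha, Units.val_mul, mul_inv_rev, Units.val_mul]
    constructor <;> intro h <;> simpa [mul_assoc] using h
  one_mem' := by
    intro k
    simp
  inv_mem' {a} ha := by
    intro k
    have h := ha (((a⁻¹ : Matrix.GeneralLinearGroup (Fin n) F) : Matrix (Fin n) (Fin n) F) * k *
      (a : Matrix (Fin n) (Fin n) F))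
    rw [inv_inv]
    rw [h]
    constructor <;> intro h' <;>
      simpa [mul_assoc, ← Units.val_mul] using h'

theorem mat_ext (A B : Matrix (Fin n) (Fin n) F) (h : ∀ x, A *ᵥ x = B *ᵥ x) : A = B := by
  apply Matrix.toLin'.injective
  apply LinearMap.ext
  intro x
  rw [Matrix.toLin'_apply, Matrix.toLin'_apply]
  exact h x

theorem conj_cancel (g : Matrix.GeneralLinearGroup (Fin n) F) (X : Matrix (Fin n) (Fin n) F) :
    ((g⁻¹ : Matrix.GeneralLinearGroup (Fin n) F) : Matrix (Fin n) (Fin n) F) *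
      ((g : Matrix (Fin n) (Fin n) F) * X *
        ((g⁻¹ : Matrix.GeneralLinearGroup (Fin n) F) : Matrix (Fin n) (Fin n) F)) *
      (g : Matrix (Fin n) (Fin n) F) = X := by
  rw [mul_assoc, mul_assoc, Units.inv_mul, mul_one, ← mul_assoc, Units.inv_mul, one_mul]

variable {L : Type*} [Field L] [Fintype L] [Algebra F L]

/-- the vector space structure on `F^n` over a field of matrices -/
@[reducible] def modL (ι : L →ₐ[F] Matrix (Fin n) (Fin n) F) : Module L (Fin n → F) where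
  smul l v := (ι l) *ᵥ v
  one_smul v := by
    show (ι 1) *ᵥ v = v
    rw [map_one, Matrix.one_mulVec]
  mul_smul a b v := by
    show (ι (a * b)) *ᵥ v = ι a *ᵥ (ι b *ᵥ v)
    rw [map_mul, Matrix.mulVec_mulVec]
  smul_zero a := Matrix.mulVec_zero _
  smul_add a v w := Matrix.mulVec_add _ _ _
  add_smul a b v := by
    show (ι (a + b)) *ᵥ v = ι a *ᵥ v + ι b *ᵥ v
    rw [map_add, Matrix.add_mulVec]
  zero_smul v := by
    show (ι 0) *ᵥ v = 0
    rw [map_zero, Matrix.zero_mulVec]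

/-- a non-scalar element fixed by the power map, and the numerology -/
theorem exists_fixed (q r r₁ : ℕ) (hq : Fintype.card F = q) (hr : Module.finrank F L = r)
    (h1 : 1 < r₁) (hlt : r₁ < r) (hd : r₁ ∣ r) :
    ∃ s : L, s ^ (q ^ r₁) = s ∧ ∀ c : F, s ≠ algebraMap F L c := by
  classical
  have hq2 : 1 < q := hq ▸ Fintype.one_lt_card
  have hcardL : Fintype.card L = q ^ r := by
    rw [← hr, ← hq]
    exact Module.card_eq_pow_finrank
  obtain ⟨γ, hγ⟩ := IsCyclic.exists_generator (α := Lˣ)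
  have hord : orderOf γ = q ^ r - 1 := by
    rw [orderOf_eq_card_of_forall_mem_zpowers hγ, Nat.card_eq_fintype_card, Fintype.card_units,
      hcardL]
  obtain ⟨m, hm⟩ := hd
  have hdiv : (q ^ r₁ - 1) ∣ (q ^ r - 1) := by
    have h := Nat.sub_dvd_pow_sub_pow (q ^ r₁) 1 m
    rwa [one_pow, ← pow_mul, ← hm] at h
  have hQq : q < q ^ r₁ := by
    calc q = q ^ 1 := (pow_one q).symm
      _ < q ^ r₁ := Nat.pow_lt_pow_right hq2 h1
  have hqr : q ^ r₁ < q ^ r := Nat.pow_lt_pow_right hq2 hlt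
  obtain ⟨e, he⟩ : ∃ e, e = (q ^ r - 1) / (q ^ r₁ - 1) := ⟨_, rfl⟩
  have hemul : e * (q ^ r₁ - 1) = q ^ r - 1 := by
    rw [he]
    exact Nat.div_mul_cancel hdiv
  have he0 : 0 < e := by
    rcases Nat.eq_zero_or_pos e with h0 | h0
    · rw [h0, zero_mul] at hemul
      omega
    · exact h0
  refine ⟨((γ ^ e : Lˣ) : L), ?_, ?_⟩
  · have h2 : (γ ^ e) ^ (q ^ r₁ - 1) = 1 := by
      rw [← pow_mul, hemul, ← hord]
      exact pow_orderOf_eq_one γ
    have h3 : (((γ ^ e : Lˣ) : L)) ^ (q ^ r₁ - 1) = 1 := by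
      rw [← Units.val_pow_eq_pow_val, h2, Units.val_one]
    have hQs : q ^ r₁ = (q ^ r₁ - 1) + 1 := by omega
    calc (((γ ^ e : Lˣ) : L)) ^ (q ^ r₁) = (((γ ^ e : Lˣ) : L)) ^ ((q ^ r₁ - 1) + 1) := by
          rw [← hQs]
      _ = ((γ ^ e : Lˣ) : L) := by rw [pow_succ, h3, one_mul]
  · intro c hc
    have hc0 : c ≠ 0 := by
      rintro rfl
      rw [map_zero] at hc
      exact Units.ne_zero _ hc
    have h4 : (((γ ^ e : Lˣ) : L)) ^ (q - 1) = 1 := by
      rw [hc, ← map_pow, ← hq, FiniteField.pow_card_sub_one_eq_one c hc0, map_one]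
    have h5 : (γ ^ e) ^ (q - 1) = 1 := by
      apply Units.ext
      rw [Units.val_pow_eq_pow_val, h4, Units.val_one]
    rw [← pow_mul] at h5
    have h6 := orderOf_dvd_of_pow_eq_one h5
    rw [hord, ← hemul] at h6
    have h7 : (q ^ r₁ - 1) ∣ (q - 1) := Nat.dvd_of_mul_dvd_mul_left he0 h6
    have h8 := Nat.le_of_dvd (by omega) h7
    omega

end

section
variable {F : Type*} [Field F] [Fintype F] {n : ℕ} {L : Type*} [Field L] [Fintype L] [Algebra F L]

theorem core (r r₁ : ℕ) (ι : L →ₐ[F] Matrix (Fin n) (Fin n) F) (hr : Module.finrank F L = r)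
    (h1 : 1 < r₁) (hlt : r₁ < r) (hd : r₁ ∣ r) (hrn : r ∣ n) (hn : r < n)
    (K : Subalgebra F (Matrix (Fin n) (Fin n) F)) (hK : ∀ m, m ∈ K ↔ ∃ l, ι l = m) :
    ∃ M : Subgroup (Matrix.GeneralLinearGroup (Fin n) F),
      Cfsg.Geo.subalgebraNormalizer K ≤ M ∧
      (∃ g, g ∈ M ∧ g ∈ Cfsg.Geo.specialLinear (Fin n) F ∧
        g ∉ Cfsg.Geo.subalgebraNormalizer K) ∧
      (∃ g, g ∈ Cfsg.Geo.specialLinear (Fin n) F ∧ g ∉ M) := by
  classical
  have hn0 : 0 < n := by omega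
  haveI : Nonempty (Fin n) := ⟨⟨0, hn0⟩⟩
  have hιinj : Function.Injective ι := (ι : L →+* Matrix (Fin n) (Fin n) F).injective
  obtain ⟨q, hq⟩ : ∃ q, Fintype.card F = q := ⟨_, rfl⟩
  obtain ⟨s, hsQ, hsF⟩ := exists_fixed (F := F) (L := L) q r r₁ hq hr h1 hlt hd
  let σ : L →ₐ[F] L := (FiniteField.frobeniusAlgHom F L) ^ r₁
  have hσ : ∀ l : L, σ l = l ^ (q ^ r₁) := by
    intro l
    show ((FiniteField.frobeniusAlgHom F L) ^ r₁) l = l ^ (q ^ r₁)
    rw [AlgHom.coe_pow, FiniteField.coe_frobeniusAlgHom, pow_iterate, hq]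
  obtain ⟨y, hy⟩ : ∃ y : L, σ y ≠ y := by
    by_contra hcon
    push_neg at hcon
    have h1' : (FiniteField.frobeniusAlgHom F L) ^ r₁ = 1 := AlgHom.ext (fun l => hcon l)
    exact pow_ne_one_of_lt_orderOf (x := FiniteField.frobeniusAlgHom F L) (n := r₁) (by omega)
      (by rw [FiniteField.orderOf_frobeniusAlgHom, hr]; exact hlt) h1'
  let S : Set (Matrix (Fin n) (Fin n) F) := {m | m ∈ K ∧ m ^ (q ^ r₁) = m}
  have hS : ∀ m, m ∈ S → ∃ l : L, ι l = m ∧ σ l = l := by
    intro m hm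
    obtain ⟨l, hl⟩ := (hK m).mp hm.1
    refine ⟨l, hl, ?_⟩
    apply hιinj
    rw [hσ, map_pow, hl]
    exact hm.2
  have hSι : ∀ l : L, σ l = l → ι l ∈ S := by
    intro l hl
    refine ⟨(hK _).mpr ⟨l, rfl⟩, ?_⟩
    rw [← map_pow, ← hσ, hl]
  have hN0 : Cfsg.Geo.subalgebraNormalizer K ≤ setNorm S := by
    intro g hg k
    have hgk := hg k
    have hpow : ((g : Matrix (Fin n) (Fin n) F) * k *
        ((g⁻¹ : Matrix.GeneralLinearGroup (Fin n) F) : Matrix (Fin n) (Fin n) F)) ^ (q ^ r₁) =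
        (g : Matrix (Fin n) (Fin n) F) * k ^ (q ^ r₁) *
        ((g⁻¹ : Matrix.GeneralLinearGroup (Fin n) F) : Matrix (Fin n) (Fin n) F) :=
      Units.conj_pow g k _
    constructor
    · rintro ⟨hk1, hk2⟩
      exact ⟨hgk.mp hk1, by rw [hpow, hk2]⟩
    · rintro ⟨hk1, hk2⟩
      refine ⟨hgk.mpr hk1, ?_⟩
      rw [hpow] at hk2
      have h3 := congrArg (fun X => ((g⁻¹ : Matrix.GeneralLinearGroup (Fin n) F) :
        Matrix (Fin n) (Fin n) F) * X * (g : Matrix (Fin n) (Fin n) F)) hk2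
      simp only [conj_cancel] at h3
      exact h3
  letI : Module L (Fin n → F) := modL ι
  have smul_def : ∀ (l : L) (v : Fin n → F), l • v = ι l *ᵥ v := fun _ _ => rfl
  haveI : IsScalarTower F L (Fin n → F) := ⟨fun c l v => by
    rw [smul_def, smul_def, map_smul, Matrix.smul_mulVec]⟩
  have hfin : Module.finrank F L * Module.finrank L (Fin n → F) =
      Module.finrank F (Fin n → F) := Module.finrank_mul_finrank F L (Fin n → F)
  rw [hr, Module.finrank_fin_fun] at hfin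
  have hd2 : 2 ≤ Module.finrank L (Fin n → F) := by
    by_contra hcon
    have h' : Module.finrank L (Fin n → F) ≤ 1 := by omega
    have h'' : r * Module.finrank L (Fin n → F) ≤ r * 1 := Nat.mul_le_mul_left r h'
    omega
  let b : Module.Basis (Fin (Module.finrank L (Fin n → F))) L (Fin n → F) :=
    Module.finBasis L (Fin n → F)
  let i₁ : Fin (Module.finrank L (Fin n → F)) := ⟨0, by omega⟩
  let i₂ : Fin (Module.finrank L (Fin n → F)) := ⟨1, by omega⟩
  have hi : i₁ ≠ i₂ := by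
    intro h
    have h' : (0 : ℕ) = 1 := congrArg Fin.val h
    omega
  obtain ⟨v₁, hv₁⟩ : ∃ v, v = b i₁ := ⟨_, rfl⟩
  obtain ⟨v₂, hv₂⟩ : ∃ v, v = b i₂ := ⟨_, rfl⟩
  let π : (Fin n → F) →ₗ[L] L := b.coord i₂
  have hπ1 : π v₁ = 0 := by
    rw [hv₁]
    show b.coord i₂ (b i₁) = 0
    rw [Module.Basis.coord_apply, Module.Basis.repr_self, Finsupp.single_apply, if_neg hi]
  have hπ2 : π v₂ = 1 := by
    rw [hv₂]
    show b.coord i₂ (b i₂) = 1
    rw [Module.Basis.coord_apply, Module.Basis.repr_self, Finsupp.single_apply, if_pos rfl]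
  have hv₁0 : v₁ ≠ 0 := hv₁ ▸ b.ne_zero i₁
  let Nl : (Fin n → F) →ₗ[F] (Fin n → F) :=
    { toFun := fun v => σ (π v) • v₁
      map_add' := fun v w => by rw [map_add, map_add, add_smul]
      map_smul' := fun c v => by
        rw [RingHom.id_apply, LinearMap.map_smul_of_tower, map_smul, smul_assoc] }
  have hNl : ∀ v, Nl v = σ (π v) • v₁ := fun v => rfl
  let Pl : (Fin n → F) →ₗ[F] (Fin n → F) :=
    { toFun := fun v => π v • v₂
      map_add' := fun v w => by rw [map_add, add_smul]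
      map_smul' := fun c v => by
        rw [RingHom.id_apply, LinearMap.map_smul_of_tower, smul_assoc] }
  have hPl : ∀ v, Pl v = π v • v₂ := fun v => rfl
  have hNN : ∀ v, Nl (Nl v) = 0 := fun v => by
    rw [hNl, hNl, map_smul, hπ1, smul_eq_mul, mul_zero, map_zero, zero_smul]
  have hPN : ∀ v, Pl (Nl v) = 0 := fun v => by
    rw [hPl, hNl, map_smul, hπ1, smul_eq_mul, mul_zero, zero_smul]
  have hNP : ∀ v, Nl (Pl v) = Nl v := fun v => by
    rw [hNl, hNl, hPl, map_smul, hπ2, smul_eq_mul, mul_one]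
  have hNv₁ : Nl v₁ = 0 := by rw [hNl, hπ1, map_zero, zero_smul]
  have hNv₂ : Nl v₂ = v₁ := by rw [hNl, hπ2, map_one, one_smul]
  have hsemi : ∀ (l : L) (v : Fin n → F), Nl (ι l *ᵥ v) = ι (σ l) *ᵥ Nl v := by
    intro l v
    rw [hNl, hNl, ← smul_def, ← smul_def, map_smul, smul_eq_mul, map_mul, mul_smul]
  have hc1 : ((LinearMap.id : (Fin n → F) →ₗ[F] (Fin n → F)) + Nl) ∘ₗ
      ((LinearMap.id : (Fin n → F) →ₗ[F] (Fin n → F)) - Nl) = LinearMap.id := by
    apply LinearMap.ext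
    intro v
    show v - Nl v + Nl (v - Nl v) = v
    rw [map_sub, hNN]
    abel
  have hc2 : ((LinearMap.id : (Fin n → F) →ₗ[F] (Fin n → F)) - Nl) ∘ₗ
      ((LinearMap.id : (Fin n → F) →ₗ[F] (Fin n → F)) + Nl) = LinearMap.id := by
    apply LinearMap.ext
    intro v
    show v + Nl v - Nl (v + Nl v) = v
    rw [map_add, hNN]
    abel
  obtain ⟨g, hgdef⟩ : ∃ g : Matrix.GeneralLinearGroup (Fin n) F,
      g = mkGL ((LinearMap.id : (Fin n → F) →ₗ[F] (Fin n → F)) + Nl)
        ((LinearMap.id : (Fin n → F) →ₗ[F] (Fin n → F)) - Nl) hc1 hc2 := ⟨_, rfl⟩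
  have hg : ∀ v, (g : Matrix (Fin n) (Fin n) F) *ᵥ v = v + Nl v := fun v => by
    rw [hgdef, mkGL_mulVec]
    rfl
  have hgdet : g ∈ Cfsg.Geo.specialLinear (Fin n) F := by
    rw [mem_sl_iff, hgdef, mkGL_det, ← LinearMap.det_toMatrix']
    have e1 : Nl = Nl ∘ₗ Pl := LinearMap.ext (fun v => (hNP v).symm)
    have e2 : Pl ∘ₗ Nl = 0 := LinearMap.ext (fun v => hPN v)
    rw [map_add, LinearMap.toMatrix'_id]
    conv_lhs => rw [e1]
    rw [LinearMap.toMatrix'_comp, Matrix.det_one_add_mul_comm, ← LinearMap.toMatrix'_comp, e2,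
      map_zero, add_zero, Matrix.det_one]
  have hgS : ∀ m ∈ S, (g : Matrix (Fin n) (Fin n) F) * m = m * (g : Matrix (Fin n) (Fin n) F) := by
    intro m hm
    obtain ⟨l, rfl, hl⟩ := hS m hm
    apply mat_ext
    intro v
    rw [← Matrix.mulVec_mulVec, ← Matrix.mulVec_mulVec, hg, hg, hsemi, hl, Matrix.mulVec_add]
  have hgconj : ∀ m ∈ S, (g : Matrix (Fin n) (Fin n) F) * m *
      ((g⁻¹ : Matrix.GeneralLinearGroup (Fin n) F) : Matrix (Fin n) (Fin n) F) = m := by
    intro m hm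
    rw [hgS m hm, mul_assoc, Units.mul_inv, mul_one]
  have hgM : g ∈ setNorm S := by
    intro k
    constructor
    · intro hk
      rw [hgconj k hk]
      exact hk
    · intro hk
      have h3 := hgconj _ hk
      have h4 := congrArg (fun X => ((g⁻¹ : Matrix.GeneralLinearGroup (Fin n) F) :
        Matrix (Fin n) (Fin n) F) * X * (g : Matrix (Fin n) (Fin n) F)) h3
      simp only [conj_cancel] at h4
      rw [← h4]
      exact hk
  have hgN : g ∉ Cfsg.Geo.subalgebraNormalizer K := by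
    intro hgK
    have h5 : (g : Matrix (Fin n) (Fin n) F) * ι y *
        ((g⁻¹ : Matrix.GeneralLinearGroup (Fin n) F) : Matrix (Fin n) (Fin n) F) ∈ K :=
      (hgK (ι y)).mp ((hK _).mpr ⟨y, rfl⟩)
    obtain ⟨l, hl⟩ := (hK _).mp h5
    have h6 : ι l * (g : Matrix (Fin n) (Fin n) F) = (g : Matrix (Fin n) (Fin n) F) * ι y := by
      rw [hl, mul_assoc, Units.inv_mul, mul_one]
    have h7 : ι l *ᵥ v₁ = ι y *ᵥ v₁ := by
      have h := congrArg (fun X => X *ᵥ v₁) h6
      simp only [← Matrix.mulVec_mulVec] at h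
      rw [hg, hg, hNv₁, add_zero, hsemi, hNv₁, Matrix.mulVec_zero, add_zero] at h
      exact h
    have hly : l = y := by
      have h : (l - y) • v₁ = 0 := by
        rw [sub_smul, smul_def, smul_def, h7, sub_self]
      rcases smul_eq_zero.mp h with h' | h'
      · exact sub_eq_zero.mp h'
      · exact absurd h' hv₁0
    have h8 : ι l *ᵥ v₂ + ι l *ᵥ v₁ = ι y *ᵥ v₂ + ι (σ y) *ᵥ v₁ := by
      have h := congrArg (fun X => X *ᵥ v₂) h6
      simp only [← Matrix.mulVec_mulVec] at h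
      rw [hg, hg, hNv₂, hsemi, hNv₂, Matrix.mulVec_add] at h
      exact h
    rw [hly] at h8
    have h9 : (y - σ y) • v₁ = 0 := by
      rw [sub_smul, smul_def, smul_def, add_left_cancel h8, sub_self]
    rcases smul_eq_zero.mp h9 with h' | h'
    · exact hy (sub_eq_zero.mp h').symm
    · exact hv₁0 h'
  have hsv : s • v₁ ∉ Submodule.span F {v₁} := by
    intro hmem
    obtain ⟨c, hc⟩ := Submodule.mem_span_singleton.mp hmem
    have h : (s - algebraMap F L c) • v₁ = 0 := by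
      rw [sub_smul, algebraMap_smul, hc, sub_self]
    rcases smul_eq_zero.mp h with h' | h'
    · exact hsF c (sub_eq_zero.mp h')
    · exact hv₁0 h'
  obtain ⟨φ, hφ1, hφ2⟩ := Submodule.exists_dual_map_eq_bot_of_notMem hsv inferInstance
  have hφv : φ v₁ = 0 := by
    have h : φ v₁ ∈ (Submodule.span F {v₁}).map φ :=
      Submodule.mem_map_of_mem (Submodule.mem_span_singleton_self v₁)
    rw [hφ2] at h
    exact (Submodule.mem_bot F).mp h
  have hu : 1 + φ v₁ ≠ 0 := by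
    rw [hφv, add_zero]
    exact one_ne_zero
  have htSL : tvG φ v₁ hu ∈ Cfsg.Geo.specialLinear (Fin n) F := by
    rw [mem_sl_iff, tvG_det, hφv, add_zero]
  have htM : tvG φ v₁ hu ∉ setNorm S := by
    intro ht
    have hxS : ι s ∈ S := hSι s (by rw [hσ]; exact hsQ)
    have h5 := (ht (ι s)).mp hxS
    obtain ⟨l, hl⟩ := (hK _).mp h5.1
    have h6 : ι l * (tvG φ v₁ hu : Matrix (Fin n) (Fin n) F) =
        (tvG φ v₁ hu : Matrix (Fin n) (Fin n) F) * ι s := by
      rw [hl, mul_assoc, Units.inv_mul, mul_one]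
    have ht' : ∀ v, (tvG φ v₁ hu : Matrix (Fin n) (Fin n) F) *ᵥ v = v + φ v • v₁ :=
      fun v => tvG_mulVec φ v₁ hu v
    have h7 : ι l *ᵥ v₁ = ι s *ᵥ v₁ + φ (ι s *ᵥ v₁) • v₁ := by
      have h := congrArg (fun X => X *ᵥ v₁) h6
      simp only [← Matrix.mulVec_mulVec] at h
      rw [ht', ht', hφv, zero_smul, add_zero] at h
      exact h
    have hls : l ≠ s := by
      intro hls
      rw [hls] at h7
      have h : ι s *ᵥ v₁ + 0 = ι s *ᵥ v₁ + φ (ι s *ᵥ v₁) • v₁ := by
        rw [add_zero]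
        exact h7
      rcases smul_eq_zero.mp (add_left_cancel h).symm with h' | h'
      · exact hφ1 h'
      · exact hv₁0 h'
    obtain ⟨w, hw0, hw1, hw2⟩ : ∃ w : Fin n → F, w ≠ 0 ∧ φ w = 0 ∧ φ (ι s *ᵥ w) = 0 := by
      let Ψ : (Fin n → F) →ₗ[F] F × F := LinearMap.prod φ (φ ∘ₗ Matrix.toLin' (ι s))
      have hker : LinearMap.ker Ψ ≠ ⊥ := by
        apply LinearMap.ker_ne_bot_of_finrank_lt
        rw [Module.finrank_prod, Module.finrank_self, Module.finrank_fin_fun]
        omega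
      obtain ⟨w, hwk, hw0⟩ := Submodule.exists_mem_ne_zero_of_ne_bot hker
      have hΨ : Ψ w = 0 := LinearMap.mem_ker.mp hwk
      exact ⟨w, hw0, congrArg Prod.fst hΨ, congrArg Prod.snd hΨ⟩
    have h8 : ι l *ᵥ w = ι s *ᵥ w := by
      have h := congrArg (fun X => X *ᵥ w) h6
      simp only [← Matrix.mulVec_mulVec] at h
      rw [ht', ht', hw1, zero_smul, add_zero, hw2, zero_smul, add_zero] at h
      exact h
    have h9 : (l - s) • w = 0 := by
      rw [sub_smul, smul_def, smul_def, h8, sub_self]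
    rcases smul_eq_zero.mp h9 with h' | h'
    · exact hls (sub_eq_zero.mp h')
    · exact hw0 h'
  exact ⟨setNorm S, hN0, ⟨g, hgM, hgdet, hgN⟩, ⟨tvG φ v₁ hu, htSL, htM⟩⟩

end

/-- Let F be a finite field, n a positive integer and r a composite number (r > 1, not prime) that divides n with r < n. Let K be a subalgebra of the algebra of n × n matrices over F which is a field of degree r over F (commutative, every non-zero element invertible, of dimension r over F). Then the normaliser N of K in GL_n(F) (a group of type ΓL_{n/r}(F_{q^r})) is not a maximal subgroup of GL_n(F), and N ∩ SL_n(F) is not a maximal subgroup of SL_n(F): both lie properly inside the normaliser of an intermediate subfield of prime degree over F. -/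
theorem result {F : Type*} [Field F]
    [Fintype F] (n r : ℕ) (hr1 : 1 < r) (hrp : ¬ r.Prime) (hrn : r ∣ n) (hlt : r < n)
    (K : Subalgebra F (Matrix (Fin n) (Fin n) F)) (hK : Cfsg.Geo.IsFieldSubalgebra r K) :
    ¬ IsCoatom (Cfsg.Geo.subalgebraNormalizer K) ∧
      ¬ Cfsg.Geo.IsMaximalIn (Cfsg.Geo.specialLinear (Fin n) F)
        (Cfsg.Geo.subalgebraNormalizer K ⊓ Cfsg.Geo.specialLinear (Fin n) F) := by
  classical
  obtain ⟨r₁, hr₁d, hr₁2, hr₁lt⟩ := Nat.exists_dvd_of_not_prime2 (by omega) hrp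
  have hn0 : 0 < n := by omega
  haveI : Nonempty (Fin n) := ⟨⟨0, hn0⟩⟩
  have hfield : IsField ↥K :=
    { exists_pair_ne := ⟨0, 1, fun h =>
        zero_ne_one (α := Matrix (Fin n) (Fin n) F) (congrArg Subtype.val h)⟩
      mul_comm := fun x y => Subtype.ext (hK.comm x x.2 y y.2)
      mul_inv_cancel := fun {a} ha => by
        obtain ⟨y, hy, hxy⟩ := hK.inv a a.2 (fun h => ha (Subtype.ext h))
        exact ⟨⟨y, hy⟩, Subtype.ext hxy⟩ }
  obtain ⟨M, hM, ⟨g₁, hg₁M, hg₁S, hg₁N⟩, ⟨g₂, hg₂S, hg₂M⟩⟩ :=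
    @core F _ _ n ↥K hfield.toField (Fintype.ofFinite _) (inferInstanceAs (Algebra F ↥K)) r r₁
      K.val hK.finrank_eq (by omega) hr₁lt hr₁d hrn hlt K
      (fun m => ⟨fun h => ⟨⟨m, h⟩, rfl⟩, fun ⟨l, hl⟩ => hl ▸ l.2⟩)
  constructor
  · intro hco
    have hlt' : Cfsg.Geo.subalgebraNormalizer K < M :=
      lt_of_le_of_ne hM (fun h => hg₁N (by rw [h]; exact hg₁M))
    have h := hco.2 M hlt'
    rw [h] at hg₂M
    exact hg₂M (Subgroup.mem_top _)
  · rintro ⟨_, hmax⟩
    rcases hmax (M ⊓ Cfsg.Geo.specialLinear (Fin n) F) (inf_le_inf_right _ hM) inf_le_right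
      with h | h
    · have h' : g₁ ∈ M ⊓ Cfsg.Geo.specialLinear (Fin n) F := ⟨hg₁M, hg₁S⟩
      rw [h] at h'
      exact hg₁N h'.1
    · have h' : g₂ ∈ M ⊓ Cfsg.Geo.specialLinear (Fin n) F := by
        rw [h]
        exact hg₂S
      exact hg₂M h'.1

end Cfsg.Agent.S5887
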