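import Cfsg.Statements.S5894
import Mathlib
import Cfsg.Agent.Lib.Helper9.Wreath

set_option autoImplicit false
open Cfsg

namespace Cfsg.Agent.S5894

/-- For every m ≥ 2 the symmetric group on 2m letters has a maximal subgroup M of index 2m together with a maximal subgroup H of M that is not second maximal: some maximal subgroup K of the symmetric group contains H without H being maximal in K. (One may take M the stabiliser of a letter, H ≅ S_m × S_{m−1} inside it, and K ≅ S_m ≀ S₂ the stabiliser of a partition into two m-sets, with H < S_m × S_m < K.) So the prime-index hypothesis in the second-maximality criterion cannot be relaxed to any even index ≥ 4. -/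
theorem result (m : ℕ) (hm : 2 ≤ m) :
    ∃ M H K : Subgroup (Equiv.Perm (Fin (2 * m))), IsCoatom M ∧ M.index = 2 * m ∧ H ≤ M ∧ IsCoatom (H.subgroupOf M) ∧
      IsCoatom K ∧ H ≤ K ∧ ¬ IsCoatom (H.subgroupOf K) := by
  classical
  have h2m : 2 ≤ 2 * m := by omega
  let p0 : Fin (2*m) := ⟨0, by omega⟩
  let p1 : Fin (2*m) := ⟨1, by omega⟩
  let pm : Fin (2*m) := ⟨m, by omega⟩
  let f : Fin (2*m) → Fin 2 := fun x => if x.val < m then 0 else 1
  have hf0 : ∀ x, f x = 0 ↔ x.val < m := by
    intro x; show (if x.val < m then (0 : Fin 2) else 1) = 0 ↔ _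
    split_ifs with h <;> simp [h]
  have hf1 : ∀ x, f x = 1 ↔ m ≤ x.val := by
    intro x; show (if x.val < m then (0 : Fin 2) else 1) = 1 ↔ _
    split_ifs with h <;> simp [h]; omega
  have fin2 : ∀ a b c : Fin 2, a ≠ b → c ≠ b → c = a := by decide
  have fin2' : ∀ a : Fin 2, a = 0 ∨ a = 1 := by decide
  have hfp0 : f p0 = 0 := (hf0 p0).mpr (by show 0 < m; omega)
  have hfp1 : f p1 = 0 := (hf0 p1).mpr (by show 1 < m; omega)
  have hfpm : f pm = 1 := (hf1 pm).mpr (by show m ≤ m; omega)
  have hp01 : p0 ≠ p1 := by intro h; have := congrArg Fin.val h; simp [p0, p1] at this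
  have hp0m : p0 ≠ pm := by intro h; have := congrArg Fin.val h; simp [p0, pm] at this; omega
  have hp1m : p1 ≠ pm := by intro h; have := congrArg Fin.val h; simp [p1, pm] at this; omega
  have frev : ∀ x, f (Fin.rev x) ≠ f x := by
    intro x h
    rcases fin2' (f x) with h0 | h1
    · have h2 := (hf0 x).mp h0
      have h3 := (hf0 (Fin.rev x)).mp (h.trans h0)
      rw [Fin.val_rev] at h3; omega
    · have h2 := (hf1 x).mp h1
      have h3 := (hf1 (Fin.rev x)).mp (h.trans h1)
      rw [Fin.val_rev] at h3; have := x.2; omega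
  have hcard : ∀ i j : Fin 2, Nat.card {x : Fin (2*m) // f x = i} = Nat.card {x : Fin (2*m) // f x = j} := by
    intro i j
    by_cases hij : i = j
    · rw [hij]
    · refine Nat.card_congr (Fin.revPerm.subtypeEquiv (fun x => ?_))
      have h1 := frev x
      show f x = i ↔ f (Fin.rev x) = j
      constructor
      · intro h; exact fin2 j i _ (Ne.symm hij) (by rw [← h]; exact h1)
      · intro h; exact fin2 i j _ hij (by rw [← h]; exact Ne.symm h1)
  let S0 : Finset (Fin (2*m)) := Finset.univ.filter (fun x => f x = 0)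
  let S1 : Finset (Fin (2*m)) := Finset.univ.filter (fun x => f x = 1)
  have hS01 : S0.card = S1.card := by
    have := hcard 0 1
    rw [Nat.card_eq_fintype_card, Nat.card_eq_fintype_card, Fintype.card_subtype, Fintype.card_subtype] at this
    exact this
  have hS0S1 : S0.card + S1.card = 2 * m := by
    have h1 : S1 = Finset.univ.filter (fun x => ¬ f x = 0) := by
      apply Finset.filter_congr
      intro x _
      rcases fin2' (f x) with h | h <;> simp [h]
    rw [h1]
    have := Finset.card_filter_add_card_filter_not (s := (Finset.univ : Finset (Fin (2*m)))) (fun x => f x = 0)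
    rw [this]; simp
  have hS1 : S1.card = m := by omega
  have hS0 : S0.card = m := by omega
  -- the groups
  let M : Subgroup (Equiv.Perm (Fin (2*m))) := MulAction.stabilizer (Equiv.Perm (Fin (2*m))) p0
  let K : Subgroup (Equiv.Perm (Fin (2*m))) := Cfsg.Agent.Lib.Helper9.blockStab f
  let K0 : Subgroup (Equiv.Perm (Fin (2*m))) :=
    { carrier := {g | ∀ x, f (g x) = f x}
      one_mem' := fun x => rfl
      mul_mem' := by
        intro g h hg hh x
        show f (g (h x)) = f x
        rw [hg, hh]
      inv_mem' := by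
        intro g hg x
        have := hg (g⁻¹ x)
        have e : g (g⁻¹ x) = x := by simp
        rw [e] at this
        exact this.symm }
  have hK0K : K0 ≤ K := by
    intro g hg x y
    rw [hg x, hg y]
  have hswapK0 : ∀ x y, f x = f y → Equiv.swap x y ∈ K0 := by
    intro x y hxy z
    by_cases hzx : z = x
    · rw [hzx, Equiv.swap_apply_left, hxy]
    · by_cases hzy : z = y
      · rw [hzy, Equiv.swap_apply_right, hxy]
      · rw [Equiv.swap_apply_of_ne_of_ne hzx hzy]
  have hswapM : ∀ x y, x ≠ p0 → y ≠ p0 → Equiv.swap x y ∈ M := by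
    intro x y hx hy
    show Equiv.swap x y • p0 = p0
    exact Equiv.swap_apply_of_ne_of_ne (Ne.symm hx) (Ne.symm hy)
  have hMmem : ∀ g : Equiv.Perm (Fin (2*m)), g ∈ M ↔ g p0 = p0 := fun g => Iff.rfl
  let H : Subgroup (Equiv.Perm (Fin (2*m))) := M ⊓ K0
  have hnt : Nontrivial (Fin (2*m)) := Fin.nontrivial_iff_two_le.mpr h2m
  refine ⟨M, H, K, ?_, ?_, inf_le_left, ?_, ?_, inf_le_right.trans hK0K, ?_⟩
  · exact (MulAction.isCoatom_stabilizer_iff_preprimitive (G := Equiv.Perm (Fin (2*m))) p0).mpr inferInstance
  · show (MulAction.stabilizer (Equiv.Perm (Fin (2*m))) p0).index = 2 * m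
    rw [MulAction.index_stabilizer, MulAction.orbit_eq_univ, Set.ncard_univ, Nat.card_fin]
  · -- H is a coatom of M
    constructor
    · rw [Ne, Subgroup.subgroupOf_eq_top]
      intro hle
      have h1 : Equiv.swap p1 pm ∈ M := hswapM p1 pm (Ne.symm hp01) (Ne.symm hp0m)
      have h2 := (hle h1).2 p1
      rw [Equiv.swap_apply_left, hfp1, hfpm] at h2
      exact absurd h2 (by decide)
    · intro L' hL'
      let L : Subgroup (Equiv.Perm (Fin (2*m))) := L'.map M.subtype
      have hLM : L ≤ M := by
        rintro _ ⟨x, -, rfl⟩; exact x.2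
      have hHL : H ≤ L := by
        intro h hh
        exact ⟨⟨h, hh.1⟩, hL'.le (Subgroup.mem_subgroupOf.mpr hh), rfl⟩
      obtain ⟨x', hx'L, hx'H⟩ := SetLike.exists_of_lt hL'
      let g : Equiv.Perm (Fin (2*m)) := x'.1
      have hgL : g ∈ L := ⟨x', hx'L, rfl⟩
      have hgM : g p0 = p0 := x'.2
      have hgK0 : g ∉ K0 := fun h => hx'H (Subgroup.mem_subgroupOf.mpr ⟨x'.2, h⟩)
      have hg0 : ∀ x, x ≠ p0 → g x ≠ p0 := by
        intro x hx h
        rw [← hgM] at h
        exact hx (g.injective h)
      -- a crossing swap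
      have hcross : ∃ u v, u ≠ p0 ∧ v ≠ p0 ∧ f u ≠ f v ∧ Equiv.swap u v ∈ L := by
        by_contra hno
        have hsame : ∀ x y, x ≠ p0 → y ≠ p0 → f x = f y → f (g x) = f (g y) := by
          intro x y hx hy hxy
          by_contra hne
          apply hno
          refine ⟨g x, g y, hg0 x hx, hg0 y hy, hne, ?_⟩
          rw [Equiv.swap_apply_apply]
          exact L.mul_mem (L.mul_mem hgL (hHL ⟨hswapM x y hx hy, hswapK0 x y hxy⟩)) (L.inv_mem hgL)
        have hS1p0 : ∀ y, f y = 1 → y ≠ p0 := by
          intro y hy h; rw [h, hfp0] at hy; exact absurd hy (by decide)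
        have hc1 : f (g pm) = 1 := by
          by_contra hc
          have hc0 : f (g pm) = 0 := by
            rcases fin2' (f (g pm)) with h | h
            · exact h
            · exact absurd h hc
          have hsub : S1.image g ⊆ S0.erase p0 := by
            intro z hz
            obtain ⟨y, hy, rfl⟩ := Finset.mem_image.mp hz
            have hy1 : f y = 1 := (Finset.mem_filter.mp hy).2
            refine Finset.mem_erase.mpr ⟨hg0 y (hS1p0 y hy1), Finset.mem_filter.mpr ⟨Finset.mem_univ _, ?_⟩⟩
            rw [hsame y pm (hS1p0 y hy1) (Ne.symm hp0m) (hy1.trans hfpm.symm)]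
            exact hc0
          have h1 := Finset.card_le_card hsub
          have hp0S0 : p0 ∈ S0 := Finset.mem_filter.mpr ⟨Finset.mem_univ _, hfp0⟩
          rw [Finset.card_image_of_injective _ g.injective, Finset.card_erase_of_mem hp0S0] at h1
          omega
        have himg : S1.image g = S1 := by
          apply Finset.eq_of_subset_of_card_le
          · intro z hz
            obtain ⟨y, hy, rfl⟩ := Finset.mem_image.mp hz
            have hy1 : f y = 1 := (Finset.mem_filter.mp hy).2
            refine Finset.mem_filter.mpr ⟨Finset.mem_univ _, ?_⟩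
            rw [hsame y pm (hS1p0 y hy1) (Ne.symm hp0m) (hy1.trans hfpm.symm)]
            exact hc1
          · rw [Finset.card_image_of_injective _ g.injective]
        apply hgK0
        intro x
        rcases fin2' (f x) with h0 | h1
        · rw [h0]
          rcases fin2' (f (g x)) with h | h
          · exact h
          · exfalso
            have : g x ∈ S1.image g := by
              rw [himg]; exact Finset.mem_filter.mpr ⟨Finset.mem_univ _, h⟩
            obtain ⟨y, hy, hyx⟩ := Finset.mem_image.mp this
            have hy1 : f y = 1 := (Finset.mem_filter.mp hy).2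
            rw [g.injective hyx, h0] at hy1
            exact absurd hy1 (by decide)
        · rw [h1]
          have : g x ∈ S1 := by
            rw [← himg]; exact Finset.mem_image.mpr ⟨x, Finset.mem_filter.mpr ⟨Finset.mem_univ _, h1⟩, rfl⟩
          exact (Finset.mem_filter.mp this).2
      obtain ⟨u, v, hu, hv, huv, hswL⟩ := hcross
      have key : ∀ p q, p ≠ p0 → q ≠ p0 → f p = f u → f q = f v → Equiv.swap p q ∈ L := by
        intro p q hp hq hpu hqv
        have huv' : u ≠ v := fun h => huv (by rw [h])
        have huq : u ≠ q := fun h => huv (by rw [h, hqv])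
        have hqp : q ≠ p := fun h => huv (by rw [← hpu, ← hqv, h])
        let h : Equiv.Perm (Fin (2*m)) := Equiv.swap u p * Equiv.swap v q
        have hh : h ∈ L := hHL (H.mul_mem ⟨hswapM u p hu hp, hswapK0 u p hpu.symm⟩
          ⟨hswapM v q hv hq, hswapK0 v q hqv.symm⟩)
        have h1 : h u = p := by
          show Equiv.swap u p (Equiv.swap v q u) = p
          rw [Equiv.swap_apply_of_ne_of_ne huv' huq, Equiv.swap_apply_left]
        have h2 : h v = q := by
          show Equiv.swap u p (Equiv.swap v q v) = q
          rw [Equiv.swap_apply_left, Equiv.swap_apply_of_ne_of_ne (Ne.symm huq) hqp]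
        have : Equiv.swap p q = h * Equiv.swap u v * h⁻¹ := by
          rw [← Equiv.swap_apply_apply, h1, h2]
        rw [this]
        exact L.mul_mem (L.mul_mem hh hswL) (L.inv_mem hh)
      have hswap : ∀ p q, p ≠ p0 → q ≠ p0 → Equiv.swap p q ∈ L := by
        intro p q hp hq
        by_cases hpq : f p = f q
        · exact hHL ⟨hswapM p q hp hq, hswapK0 p q hpq⟩
        · by_cases hpu : f p = f u
          · exact key p q hp hq hpu (fin2 (f v) (f u) (f q) (Ne.symm huv) (by rw [← hpu]; exact Ne.symm hpq))
          · have hpv : f p = f v := fin2 (f v) (f u) (f p) (Ne.symm huv) hpu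
            have hqu : f q = f u := fin2 (f u) (f v) (f q) huv (by rw [← hpv]; exact Ne.symm hpq)
            rw [Equiv.swap_comm]
            exact key q p hq hp hqu hpv
      have hall : ∀ τ : Equiv.Perm {x : Fin (2*m) // x ≠ p0}, Equiv.Perm.ofSubtype τ ∈ L := by
        intro τ
        have hτ : τ ∈ Subgroup.closure {σ : Equiv.Perm {x : Fin (2*m) // x ≠ p0} | σ.IsSwap} := by
          rw [Equiv.Perm.closure_isSwap]; trivial
        induction hτ using Subgroup.closure_induction with
        | mem x hx =>
          obtain ⟨a, b, hab, rfl⟩ := hx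
          rw [Equiv.Perm.ofSubtype_swap_eq]
          exact hswap a b a.2 b.2
        | one => rw [map_one]; exact L.one_mem
        | mul x y _ _ hx hy => rw [map_mul]; exact L.mul_mem hx hy
        | inv x _ hx => rw [map_inv]; exact L.inv_mem hx
      rw [eq_top_iff]
      intro y _
      have hy0 : (y : Equiv.Perm (Fin (2*m))) p0 = p0 := y.2
      have h1 : ∀ x, (y : Equiv.Perm (Fin (2*m))) x ≠ p0 ↔ x ≠ p0 := by
        intro x
        rw [not_iff_not]
        constructor
        · intro h; rw [← hy0] at h; exact (y : Equiv.Perm (Fin (2*m))).injective h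
        · intro h; rw [h]; exact hy0
      have h2 : ∀ x, (y : Equiv.Perm (Fin (2*m))) x ≠ x → x ≠ p0 := by
        intro x hx h; rw [h] at hx; exact hx hy0
      have h3 := hall ((y : Equiv.Perm (Fin (2*m))).subtypePerm h1)
      rw [Equiv.Perm.ofSubtype_subtypePerm h1 h2] at h3
      obtain ⟨z, hz, hzy⟩ := h3
      have : z = y := Subtype.ext hzy
      rw [← this]; exact hz
  · exact ⟨Cfsg.Agent.Lib.Helper9.blockStab_ne_top f p0 p1 pm hp01 (hfp0.trans hfp1.symm)
      (by rw [hfp0, hfpm]; decide),
      fun L hL => Cfsg.Agent.Lib.Helper9.eq_top_of_blockStab_lt f hcard L hL⟩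
  · intro hco
    have hlt : H.subgroupOf K < K0.subgroupOf K := by
      rw [SetLike.lt_iff_le_and_exists]
      constructor
      · intro x hx
        exact Subgroup.mem_subgroupOf.mpr (Subgroup.mem_subgroupOf.mp hx).2
      · have hs : Equiv.swap p0 p1 ∈ K0 := hswapK0 p0 p1 (hfp0.trans hfp1.symm)
        refine ⟨⟨Equiv.swap p0 p1, hK0K hs⟩, Subgroup.mem_subgroupOf.mpr hs, ?_⟩
        intro h
        have h1 : Equiv.swap p0 p1 p0 = p0 := (Subgroup.mem_subgroupOf.mp h).1
        rw [Equiv.swap_apply_left] at h1
        exact hp01 h1.symm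
    have htop := hco.2 _ hlt
    rw [Subgroup.subgroupOf_eq_top] at htop
    obtain ⟨τ, hτ, hfτ, -⟩ := Cfsg.Agent.Lib.Helper9.exists_blockSwap f 0 1 (by decide) (hcard 0 1)
    have h1 := htop hτ p0
    rw [hfτ, hfp0, Equiv.swap_apply_left] at h1
    exact absurd h1 (by decide)

end Cfsg.Agent.S5894
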