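import Cfsg.Statements.S5895
import Mathlib

set_option autoImplicit false
open Cfsg

namespace Cfsg.Agent.S5895

structure Aff (F : Type) [Field F] (L : Subgroup Fˣ) where
  a : L
  b : F

namespace Aff
variable {F : Type} [Field F] {L : Subgroup Fˣ}

theorem ext' {x y : Aff F L} (ha : x.a = y.a) (hb : x.b = y.b) : x = y := by
  cases x; cases y; simp_all

instance : Mul (Aff F L) := ⟨fun x y => ⟨x.a * y.a, x.b + ((x.a : Fˣ) : F) * y.b⟩⟩
instance : One (Aff F L) := ⟨⟨1, 0⟩⟩
instance : Inv (Aff F L) := ⟨fun x => ⟨x.a⁻¹, -(((x.a⁻¹ : L) : Fˣ) : F) * x.b⟩⟩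

theorem mul_a (x y : Aff F L) : (x * y).a = x.a * y.a := rfl
theorem mul_b (x y : Aff F L) : (x * y).b = x.b + ((x.a : Fˣ) : F) * y.b := rfl
theorem one_a : (1 : Aff F L).a = 1 := rfl
theorem one_b : (1 : Aff F L).b = 0 := rfl
theorem inv_a (x : Aff F L) : (x⁻¹).a = x.a⁻¹ := rfl
theorem inv_b (x : Aff F L) : (x⁻¹).b = -(((x.a⁻¹ : L) : Fˣ) : F) * x.b := rfl

instance : Group (Aff F L) := Group.ofLeftAxioms
  (by intro x y z; apply ext' <;> simp [mul_a, mul_b, mul_assoc, mul_add, add_assoc])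
  (by intro x; apply ext' <;> simp [mul_a, mul_b, one_a, one_b])
  (by intro x; apply ext' <;> simp [mul_a, mul_b, one_a, one_b, inv_a, inv_b])

/-- elements with linear part in `H` and translation part in `W` -/
def J (H : Subgroup L) (W : AddSubgroup F)
    (hW : ∀ h ∈ H, ∀ w ∈ W, (((h : L) : Fˣ) : F) * w ∈ W) : Subgroup (Aff F L) where
  carrier := {x | x.a ∈ H ∧ x.b ∈ W}
  one_mem' := ⟨H.one_mem, W.zero_mem⟩
  mul_mem' := by
    rintro x y ⟨hxa, hxb⟩ ⟨hya, hyb⟩
    exact ⟨H.mul_mem hxa hya, W.add_mem hxb (hW _ hxa _ hyb)⟩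
  inv_mem' := by
    rintro x ⟨hxa, hxb⟩
    refine ⟨H.inv_mem hxa, ?_⟩
    show -(((x.a⁻¹ : L) : Fˣ) : F) * x.b ∈ W
    rw [neg_mul]
    exact W.neg_mem (hW _ (H.inv_mem hxa) _ hxb)

theorem mem_J (H : Subgroup L) (W : AddSubgroup F) (hW) (x : Aff F L) :
    x ∈ J H W hW ↔ x.a ∈ H ∧ x.b ∈ W := Iff.rfl

end Aff

/-- irreducibility of a multiplicative subgroup acting on the additive group of the field -/
def Irr {F : Type} [Field F] (L : Subgroup Fˣ) : Prop :=
  ∀ W : AddSubgroup F, (∀ a ∈ L, ∀ w ∈ W, ((a : Fˣ) : F) * w ∈ W) → W = ⊥ ∨ W = ⊤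

theorem irr_top {F : Type} [Field F] : Irr (⊤ : Subgroup Fˣ) := by
  intro W hW
  by_cases h : W = ⊥
  · exact Or.inl h
  · right
    obtain ⟨w', hw0'⟩ := (AddSubgroup.ne_bot_iff_exists_ne_zero).mp h
    obtain ⟨w, hw⟩ := w'
    have hw0 : w ≠ 0 := fun h0 => hw0' (Subtype.ext h0)
    rw [eq_top_iff]
    intro x _
    by_cases hx : x = 0
    · rw [hx]; exact W.zero_mem
    · have hu : x * w⁻¹ ≠ 0 := mul_ne_zero hx (inv_ne_zero hw0)
      have := hW (Units.mk0 _ hu) trivial w hw
      rwa [Units.val_mk0, inv_mul_cancel_right₀ hw0] at this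

theorem main {F : Type} [Field F] [Finite F] (L : Subgroup Fˣ) (hL : Irr L)
    (H : Subgroup L) (hH : IsCoatom H) (W : AddSubgroup F)
    (hW : ∀ h ∈ H, ∀ w ∈ W, (((h : L) : Fˣ) : F) * w ∈ W) (hW0 : W ≠ ⊥) (hW1 : W ≠ ⊤) :
    ∃ (M H' K : Subgroup (Aff F L)), IsCoatom M ∧ M.index = Nat.card F ∧ H' ≤ M ∧
      IsCoatom (H'.subgroupOf M) ∧ IsCoatom K ∧ H' ≤ K ∧ ¬ IsCoatom (H'.subgroupOf K) := by
  classical
  have hbot : ∀ (H0 : Subgroup L), ∀ h ∈ H0, ∀ w ∈ (⊥ : AddSubgroup F), (((h : L) : Fˣ) : F) * w ∈ (⊥ : AddSubgroup F) := by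
    intro H0 h _ w hw
    rw [AddSubgroup.mem_bot] at hw ⊢
    rw [hw, mul_zero]
  have htop : ∀ (H0 : Subgroup L), ∀ h ∈ H0, ∀ w ∈ (⊤ : AddSubgroup F), (((h : L) : Fˣ) : F) * w ∈ (⊤ : AddSubgroup F) := by
    intro H0 h _ w hw
    trivial
  let M : Subgroup (Aff F L) := Aff.J ⊤ ⊥ (hbot ⊤)
  let H' : Subgroup (Aff F L) := Aff.J H ⊥ (hbot H)
  let K : Subgroup (Aff F L) := Aff.J H ⊤ (htop H)
  let Jm : Subgroup (Aff F L) := Aff.J H W hW
  have hMmem : ∀ x : Aff F L, x ∈ M ↔ x.b = 0 := by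
    intro x
    show (x.a ∈ (⊤ : Subgroup L) ∧ x.b ∈ (⊥ : AddSubgroup F)) ↔ _
    simp
  have hH'mem : ∀ x : Aff F L, x ∈ H' ↔ x.a ∈ H ∧ x.b = 0 := by
    intro x
    show (x.a ∈ H ∧ x.b ∈ (⊥ : AddSubgroup F)) ↔ _
    simp
  have hKmem : ∀ x : Aff F L, x ∈ K ↔ x.a ∈ H := by
    intro x
    show (x.a ∈ H ∧ x.b ∈ (⊤ : AddSubgroup F)) ↔ _
    simp
  have hJmem : ∀ x : Aff F L, x ∈ Jm ↔ x.a ∈ H ∧ x.b ∈ W := fun x => Iff.rfl
  obtain ⟨a0, ha0⟩ : ∃ a0 : L, a0 ∉ H := by
    by_contra hcon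
    push Not at hcon
    exact hH.1 (eq_top_iff.mpr fun x _ => hcon x)
  -- decomposition
  have hdec : ∀ x : Aff F L, x = (⟨1, x.b⟩ : Aff F L) * ⟨x.a, 0⟩ := by
    intro x
    apply Aff.ext' <;> simp [Aff.mul_a, Aff.mul_b]
  refine ⟨M, H', K, ?_, ?_, ?_, ?_, ?_, ?_, ?_⟩
  · -- M coatom
    constructor
    · intro h
      have : (⟨1, 1⟩ : Aff F L) ∈ M := by rw [h]; trivial
      rw [hMmem] at this
      exact one_ne_zero this
    · intro X hX
      let WX : AddSubgroup F :=
        { carrier := {b | (⟨1, b⟩ : Aff F L) ∈ X}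
          zero_mem' := X.one_mem
          add_mem' := by
            intro b b' hb hb'
            have := X.mul_mem hb hb'
            have e : (⟨1, b⟩ : Aff F L) * ⟨1, b'⟩ = ⟨1, b + b'⟩ := by
              apply Aff.ext' <;> simp [Aff.mul_a, Aff.mul_b]
            rwa [e] at this
          neg_mem' := by
            intro b hb
            have := X.inv_mem hb
            have e : (⟨1, b⟩ : Aff F L)⁻¹ = ⟨1, -b⟩ := by
              apply Aff.ext' <;> simp [Aff.inv_a, Aff.inv_b]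
            rwa [e] at this }
      have hWXinv : ∀ a ∈ L, ∀ w ∈ WX, ((a : Fˣ) : F) * w ∈ WX := by
        intro a ha w hw
        have h1 : (⟨⟨a, ha⟩, 0⟩ : Aff F L) ∈ X := hX.le ((hMmem _).mpr rfl)
        have := X.mul_mem (X.mul_mem h1 hw) (X.inv_mem h1)
        have e : (⟨⟨a, ha⟩, 0⟩ : Aff F L) * ⟨1, w⟩ * (⟨⟨a, ha⟩, 0⟩ : Aff F L)⁻¹ = ⟨1, (a : F) * w⟩ := by
          apply Aff.ext' <;> simp [Aff.mul_a, Aff.mul_b, Aff.inv_a, Aff.inv_b]
        rwa [e] at this
      obtain ⟨x, hxX, hxM⟩ := SetLike.exists_of_lt hX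
      have hxb : x.b ≠ 0 := fun h => hxM ((hMmem x).mpr h)
      have hxW : x.b ∈ WX := by
        have h1 : (⟨x.a, 0⟩ : Aff F L) ∈ X := hX.le ((hMmem _).mpr rfl)
        have := X.mul_mem hxX (X.inv_mem h1)
        have e : x * (⟨x.a, 0⟩ : Aff F L)⁻¹ = ⟨1, x.b⟩ := by
          apply Aff.ext' <;> simp [Aff.mul_a, Aff.mul_b, Aff.inv_a, Aff.inv_b]
        rwa [e] at this
      have hWXtop : WX = ⊤ := by
        rcases hL WX hWXinv with h | h
        · exfalso
          rw [h, AddSubgroup.mem_bot] at hxW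
          exact hxb hxW
        · exact h
      rw [eq_top_iff]
      intro y _
      rw [hdec y]
      refine X.mul_mem ?_ (hX.le ((hMmem _).mpr rfl))
      have : y.b ∈ WX := by rw [hWXtop]; trivial
      exact this
  · -- index
    have e1 : Aff F L ≃ L × F :=
      ⟨fun x => (x.a, x.b), fun p => ⟨p.1, p.2⟩, fun x => rfl, fun p => rfl⟩
    have e2 : M ≃ L :=
      ⟨fun x => x.1.a, fun a => ⟨⟨a, 0⟩, (hMmem _).mpr rfl⟩,
        fun x => Subtype.ext (Aff.ext' rfl ((hMmem _).mp x.2).symm), fun a => rfl⟩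
    have h1 : Nat.card (Aff F L) = Nat.card L * Nat.card F := by
      rw [Nat.card_congr e1, Nat.card_prod]
    have h2 : Nat.card M = Nat.card L := Nat.card_congr e2
    have h3 := M.index_mul_card
    rw [h1, h2, mul_comm] at h3
    exact Nat.eq_of_mul_eq_mul_left Nat.card_pos h3
  · intro x hx
    exact (hMmem x).mpr ((hH'mem x).mp hx).2
  · -- H' coatom of M
    constructor
    · rw [Ne, Subgroup.subgroupOf_eq_top]
      intro hle
      have : (⟨a0, 0⟩ : Aff F L) ∈ H' := hle ((hMmem _).mpr rfl)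
      exact ha0 ((hH'mem _).mp this).1
    · intro X hX
      let ι : L →* M :=
        { toFun := fun a => ⟨⟨a, 0⟩, (hMmem _).mpr rfl⟩
          map_one' := rfl
          map_mul' := by
            intro a a'
            apply Subtype.ext
            apply Aff.ext' <;> simp [Aff.mul_a, Aff.mul_b] }
      have hιsurj : ∀ y : M, y = ι y.1.a := by
        intro y
        exact Subtype.ext (Aff.ext' rfl ((hMmem _).mp y.2))
      have hle : H ≤ X.comap ι := by
        intro a ha
        show ι a ∈ X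
        apply hX.le
        rw [Subgroup.mem_subgroupOf]
        exact (hH'mem _).mpr ⟨ha, rfl⟩
      obtain ⟨x, hxX, hxH⟩ := SetLike.exists_of_lt hX
      have hxa : x.1.a ∉ H := by
        intro h
        apply hxH
        rw [Subgroup.mem_subgroupOf]
        exact (hH'mem _).mpr ⟨h, (hMmem _).mp x.2⟩
      have hlt : H < X.comap ι := by
        refine lt_of_le_of_ne hle ?_
        intro h
        apply hxa
        rw [h]
        show ι x.1.a ∈ X
        rw [← hιsurj x]; exact hxX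
      have htop' := hH.2 _ hlt
      rw [eq_top_iff]
      intro y _
      rw [hιsurj y]
      have : y.1.a ∈ X.comap ι := by rw [htop']; trivial
      exact this
  · -- K coatom
    constructor
    · intro h
      have : (⟨a0, 0⟩ : Aff F L) ∈ K := by rw [h]; trivial
      exact ha0 ((hKmem _).mp this)
    · intro X hX
      let ι : L →* Aff F L :=
        { toFun := fun a => ⟨a, 0⟩
          map_one' := rfl
          map_mul' := by
            intro a a'
            apply Aff.ext' <;> simp [Aff.mul_a, Aff.mul_b] }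
      have hle : H ≤ X.comap ι := by
        intro a ha
        show ι a ∈ X
        exact hX.le ((hKmem _).mpr ha)
      obtain ⟨x, hxX, hxK⟩ := SetLike.exists_of_lt hX
      have hxa : x.a ∉ H := fun h => hxK ((hKmem _).mpr h)
      have hxι : ι x.a ∈ X := by
        have h1 : (⟨1, -x.b⟩ : Aff F L) ∈ X := hX.le ((hKmem _).mpr H.one_mem)
        have := X.mul_mem h1 hxX
        have e : (⟨1, -x.b⟩ : Aff F L) * x = ι x.a := by
          apply Aff.ext' <;> simp [Aff.mul_a, Aff.mul_b, ι]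
        rwa [e] at this
      have hlt : H < X.comap ι := by
        refine lt_of_le_of_ne hle ?_
        intro h
        apply hxa
        rw [h]
        exact hxι
      have htop' := hH.2 _ hlt
      rw [eq_top_iff]
      intro y _
      rw [hdec y]
      refine X.mul_mem (hX.le ((hKmem _).mpr H.one_mem)) ?_
      have : y.a ∈ X.comap ι := by rw [htop']; trivial
      exact this
  · intro x hx
    exact (hKmem x).mpr ((hH'mem x).mp hx).1
  · intro hco
    obtain ⟨w', hw0'⟩ := (AddSubgroup.ne_bot_iff_exists_ne_zero).mp hW0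
    obtain ⟨w, hw⟩ := w'
    have hw0 : w ≠ 0 := fun h0 => hw0' (Subtype.ext h0)
    obtain ⟨v, hv⟩ : ∃ v : F, v ∉ W := by
      by_contra hcon
      push Not at hcon
      exact hW1 (eq_top_iff.mpr fun x _ => hcon x)
    have hJK : Jm ≤ K := fun x hx => (hKmem x).mpr ((hJmem x).mp hx).1
    have hlt : H'.subgroupOf K < Jm.subgroupOf K := by
      rw [SetLike.lt_iff_le_and_exists]
      constructor
      · intro x hx
        rw [Subgroup.mem_subgroupOf] at hx ⊢
        have := (hH'mem _).mp hx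
        exact (hJmem _).mpr ⟨this.1, by rw [this.2]; exact W.zero_mem⟩
      · have h1 : (⟨1, w⟩ : Aff F L) ∈ Jm := (hJmem _).mpr ⟨H.one_mem, hw⟩
        refine ⟨⟨⟨1, w⟩, hJK h1⟩, Subgroup.mem_subgroupOf.mpr h1, ?_⟩
        intro h
        rw [Subgroup.mem_subgroupOf] at h
        exact hw0 ((hH'mem _).mp h).2
    have htop' := hco.2 _ hlt
    rw [Subgroup.subgroupOf_eq_top] at htop'
    have h2 : (⟨1, v⟩ : Aff F L) ∈ K := (hKmem _).mpr H.one_mem
    exact hv ((hJmem _).mp (htop' h2)).2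

/-- For every prime p and every d ≥ 2 there is a finite group G with a maximal subgroup M of index p^d and a maximal subgroup H of M that is not second maximal in G: some maximal subgroup K of G contains H without H being maximal in K. (One may take G the affine group V ⋊ GL(V) of V = 𝔽_p^d, M = GL(V), H the stabiliser in M of a line W of V, and K = V ⋊ H, with H < W ⋊ H < K.) So the prime-index hypothesis in the second-maximality criterion cannot be relaxed to prime-power index. -/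
theorem result (p d : ℕ) (hp : p.Prime)
    (hd : 2 ≤ d) :
    ∃ (G : Type) (_ : Group G) (_ : Finite G) (M H K : Subgroup G), IsCoatom M ∧ M.index = p ^ d ∧ H ≤ M ∧
      IsCoatom (H.subgroupOf M) ∧ IsCoatom K ∧ H ≤ K ∧ ¬ IsCoatom (H.subgroupOf K) := by
  classical
  haveI : Fact p.Prime := ⟨hp⟩
  let F := GaloisField p d
  have hd0 : d ≠ 0 := by omega
  have hcardF : Nat.card F = p ^ d := GaloisField.card p d hd0
  haveI : Finite F := Nat.finite_of_card_ne_zero (by rw [hcardF]; exact pow_ne_zero _ hp.ne_zero)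
  -- the additive subgroup generated by 1
  let W1 : AddSubgroup F := AddSubgroup.zmultiples (1 : F)
  have hW1card : Nat.card W1 = p := by
    rw [Nat.card_zmultiples]
    exact CharP.eq F (CharP.addOrderOf_one F) (inferInstance : CharP F p)
  have hW1bot : W1 ≠ ⊥ := by
    intro h
    have : (1 : F) ∈ W1 := AddSubgroup.mem_zmultiples 1
    rw [h, AddSubgroup.mem_bot] at this
    exact one_ne_zero this
  have hW1top : W1 ≠ ⊤ := by
    intro h
    have h1 : Nat.card W1 = Nat.card F := by rw [h]; exact AddSubgroup.card_top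
    rw [hW1card, hcardF] at h1
    have : p ^ 1 < p ^ d := Nat.pow_lt_pow_right hp.one_lt (by omega)
    rw [pow_one] at this
    omega
  -- a minimal irreducible subgroup
  obtain ⟨L, hLirr, hLmin⟩ := wellFounded_lt.has_min {L : Subgroup Fˣ | Irr L} ⟨⊤, irr_top⟩
  have hLnontriv : (⊥ : Subgroup L) ≠ ⊤ := by
    intro h
    have hall : ∀ a ∈ L, a = 1 := by
      intro a ha
      have : (⟨a, ha⟩ : L) ∈ (⊥ : Subgroup L) := by rw [h]; trivial
      rw [Subgroup.mem_bot] at this
      exact congrArg Subtype.val this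
    rcases hLirr W1 (fun a ha w hw => by rw [hall a ha, Units.val_one, one_mul]; exact hw) with h1 | h1
    · exact hW1bot h1
    · exact hW1top h1
  obtain ⟨H, hH, -⟩ := (eq_top_or_exists_le_coatom (⊥ : Subgroup L)).resolve_left hLnontriv
  have hHlt : H.map L.subtype < L := by
    refine lt_of_le_of_ne ?_ ?_
    · rintro _ ⟨x, -, rfl⟩; exact x.2
    · intro h
      apply hH.1
      rw [eq_top_iff]
      intro x _
      have : (x : Fˣ) ∈ H.map L.subtype := by rw [h]; exact x.2
      obtain ⟨y, hy, hyx⟩ := this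
      have : y = x := Subtype.ext hyx
      rw [← this]; exact hy
  have hnotirr : ¬ Irr (H.map L.subtype) := fun h => hLmin _ h hHlt
  unfold Irr at hnotirr
  push Not at hnotirr
  obtain ⟨W, hWinv, hW0, hW1⟩ := hnotirr
  have hW : ∀ h ∈ H, ∀ w ∈ W, (((h : L) : Fˣ) : F) * w ∈ W := by
    intro h hh w hw
    exact hWinv _ ⟨h, hh, rfl⟩ w hw
  obtain ⟨M, H', K, h1, h2, h3, h4, h5, h6, h7⟩ := main L hLirr H hH W hW hW0 hW1
  refine ⟨Aff F L, inferInstance, ?_, M, H', K, h1, ?_, h3, h4, h5, h6, h7⟩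
  · have e1 : Aff F L ≃ L × F :=
      ⟨fun x => (x.a, x.b), fun p => ⟨p.1, p.2⟩, fun x => rfl, fun p => rfl⟩
    exact Finite.of_equiv _ e1.symm
  · rw [h2, hcardF]

end Cfsg.Agent.S5895
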