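import Cfsg.Statements.S5896
import Mathlib

set_option autoImplicit false
open Cfsg

namespace Cfsg.Agent.S5896

open scoped commutatorElement

abbrev S2 (R : Type) [CommRing R] : Type := Matrix.SpecialLinearGroup (Fin 2) R

section gen
variable {R : Type} [CommRing R]

theorem sl_ext (g h : S2 R)
    (h00 : g.1 0 0 = h.1 0 0) (h01 : g.1 0 1 = h.1 0 1) (h10 : g.1 1 0 = h.1 1 0)
    (h11 : g.1 1 1 = h.1 1 1) : g = h := by
  apply Matrix.SpecialLinearGroup.ext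
  intro i j
  fin_cases i <;> fin_cases j
  · exact h00
  · exact h01
  · exact h10
  · exact h11

theorem mul00 (g h : S2 R) : (g * h).1 0 0 = g.1 0 0 * h.1 0 0 + g.1 0 1 * h.1 1 0 := by
  show (g.1 * h.1) 0 0 = _
  simp [Matrix.mul_apply, Fin.sum_univ_two]
theorem mul01 (g h : S2 R) : (g * h).1 0 1 = g.1 0 0 * h.1 0 1 + g.1 0 1 * h.1 1 1 := by
  show (g.1 * h.1) 0 1 = _
  simp [Matrix.mul_apply, Fin.sum_univ_two]
theorem mul10 (g h : S2 R) : (g * h).1 1 0 = g.1 1 0 * h.1 0 0 + g.1 1 1 * h.1 1 0 := by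
  show (g.1 * h.1) 1 0 = _
  simp [Matrix.mul_apply, Fin.sum_univ_two]
theorem mul11 (g h : S2 R) : (g * h).1 1 1 = g.1 1 0 * h.1 0 1 + g.1 1 1 * h.1 1 1 := by
  show (g.1 * h.1) 1 1 = _
  simp [Matrix.mul_apply, Fin.sum_univ_two]

theorem inv00 (g : S2 R) : (g⁻¹).1 0 0 = g.1 1 1 := by
  rw [Matrix.SpecialLinearGroup.coe_inv, Matrix.adjugate_fin_two]; rfl
theorem inv01 (g : S2 R) : (g⁻¹).1 0 1 = - g.1 0 1 := by
  rw [Matrix.SpecialLinearGroup.coe_inv, Matrix.adjugate_fin_two]; rfl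
theorem inv10 (g : S2 R) : (g⁻¹).1 1 0 = - g.1 1 0 := by
  rw [Matrix.SpecialLinearGroup.coe_inv, Matrix.adjugate_fin_two]; rfl
theorem inv11 (g : S2 R) : (g⁻¹).1 1 1 = g.1 0 0 := by
  rw [Matrix.SpecialLinearGroup.coe_inv, Matrix.adjugate_fin_two]; rfl

theorem det_eq (g : S2 R) : g.1 0 0 * g.1 1 1 - g.1 0 1 * g.1 1 0 = 1 := by
  have h := g.2
  rw [Matrix.det_fin_two] at h
  exact h

theorem one00 : (1 : S2 R).1 0 0 = 1 := by simp
theorem one01 : (1 : S2 R).1 0 1 = 0 := by simp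
theorem one10 : (1 : S2 R).1 1 0 = 0 := by simp
theorem one11 : (1 : S2 R).1 1 1 = 1 := by simp

def U (x : R) : S2 R := ⟨!![1, x; 0, 1], by rw [Matrix.det_fin_two_of]; ring⟩
def L (y : R) : S2 R := ⟨!![1, 0; y, 1], by rw [Matrix.det_fin_two_of]; ring⟩
def Dg (a a' : R) (h : a * a' = 1) : S2 R :=
  ⟨!![a, 0; 0, a'], by rw [Matrix.det_fin_two_of]; linear_combination h⟩
def Wm (c c' : R) (h : c * c' = 1) : S2 R :=
  ⟨!![0, -c'; c, 0], by rw [Matrix.det_fin_two_of]; linear_combination h⟩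

theorem U00 (x : R) : (U x).1 0 0 = 1 := rfl
theorem U01 (x : R) : (U x).1 0 1 = x := rfl
theorem U10 (x : R) : (U x).1 1 0 = 0 := rfl
theorem U11 (x : R) : (U x).1 1 1 = 1 := rfl
theorem L00 (x : R) : (L x).1 0 0 = 1 := rfl
theorem L01 (x : R) : (L x).1 0 1 = 0 := rfl
theorem L10 (x : R) : (L x).1 1 0 = x := rfl
theorem L11 (x : R) : (L x).1 1 1 = 1 := rfl
theorem D00 (a a' : R) (h : a * a' = 1) : (Dg a a' h).1 0 0 = a := rfl
theorem D01 (a a' : R) (h : a * a' = 1) : (Dg a a' h).1 0 1 = 0 := rfl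
theorem D10 (a a' : R) (h : a * a' = 1) : (Dg a a' h).1 1 0 = 0 := rfl
theorem D11 (a a' : R) (h : a * a' = 1) : (Dg a a' h).1 1 1 = a' := rfl
theorem W00 (a a' : R) (h : a * a' = 1) : (Wm a a' h).1 0 0 = 0 := rfl
theorem W01 (a a' : R) (h : a * a' = 1) : (Wm a a' h).1 0 1 = -a' := rfl
theorem W10 (a a' : R) (h : a * a' = 1) : (Wm a a' h).1 1 0 = a := rfl
theorem W11 (a a' : R) (h : a * a' = 1) : (Wm a a' h).1 1 1 = 0 := rfl

theorem comm_DU (a a' : R) (h : a * a' = 1) (z : R) :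
    ⁅Dg a a' h, U z⁆ = U ((a * a - 1) * z) := by
  refine sl_ext _ _ ?_ ?_ ?_ ?_
  · simp only [mul00, mul01, mul10, mul11, inv00, inv01, inv10, inv11, U00, U01, U10, U11, L00, L01, L10, L11, D00, D01, D10, D11, W00, W01, W10, W11, one00, one01, one10, one11, commutatorElement_def]
    linear_combination h
  · simp only [mul00, mul01, mul10, mul11, inv00, inv01, inv10, inv11, U00, U01, U10, U11, L00, L01, L10, L11, D00, D01, D10, D11, W00, W01, W10, W11, one00, one01, one10, one11, commutatorElement_def]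
    linear_combination (-z) * h
  · simp only [mul00, mul01, mul10, mul11, inv00, inv01, inv10, inv11, U00, U01, U10, U11, L00, L01, L10, L11, D00, D01, D10, D11, W00, W01, W10, W11, one00, one01, one10, one11, commutatorElement_def]
    ring
  · simp only [mul00, mul01, mul10, mul11, inv00, inv01, inv10, inv11, U00, U01, U10, U11, L00, L01, L10, L11, D00, D01, D10, D11, W00, W01, W10, W11, one00, one01, one10, one11, commutatorElement_def]
    linear_combination h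

theorem comm_DL (a a' : R) (h : a' * a = 1) (z : R) :
    ⁅Dg a' a h, L z⁆ = L ((a * a - 1) * z) := by
  refine sl_ext _ _ ?_ ?_ ?_ ?_
  · simp only [mul00, mul01, mul10, mul11, inv00, inv01, inv10, inv11, U00, U01, U10, U11, L00, L01, L10, L11, D00, D01, D10, D11, W00, W01, W10, W11, one00, one01, one10, one11, commutatorElement_def]
    linear_combination h
  · simp only [mul00, mul01, mul10, mul11, inv00, inv01, inv10, inv11, U00, U01, U10, U11, L00, L01, L10, L11, D00, D01, D10, D11, W00, W01, W10, W11, one00, one01, one10, one11, commutatorElement_def]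
    ring
  · simp only [mul00, mul01, mul10, mul11, inv00, inv01, inv10, inv11, U00, U01, U10, U11, L00, L01, L10, L11, D00, D01, D10, D11, W00, W01, W10, W11, one00, one01, one10, one11, commutatorElement_def]
    linear_combination (-z) * h
  · simp only [mul00, mul01, mul10, mul11, inv00, inv01, inv10, inv11, U00, U01, U10, U11, L00, L01, L10, L11, D00, D01, D10, D11, W00, W01, W10, W11, one00, one01, one10, one11, commutatorElement_def]
    linear_combination h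

theorem Dg_inv (a a' : R) (h : a * a' = 1) (h' : a' * a = 1) :
    Dg a' a h' = (Dg a a' h)⁻¹ := by
  refine sl_ext _ _ ?_ ?_ ?_ ?_ <;> simp only [mul00, mul01, mul10, mul11, inv00, inv01, inv10, inv11, U00, U01, U10, U11, L00, L01, L10, L11, D00, D01, D10, D11, W00, W01, W10, W11, one00, one01, one10, one11, commutatorElement_def] <;> ring

theorem diag_w (a a' : R) (h : a * a' = 1) :
    Dg a a' h = U a * L (-a') * U a * (U (-1) * L 1 * U (-1)) := by
  refine sl_ext _ _ ?_ ?_ ?_ ?_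
  · simp only [mul00, mul01, mul10, mul11, inv00, inv01, inv10, inv11, U00, U01, U10, U11, L00, L01, L10, L11, D00, D01, D10, D11, W00, W01, W10, W11, one00, one01, one10, one11, commutatorElement_def]
    linear_combination a * h
  · simp only [mul00, mul01, mul10, mul11, inv00, inv01, inv10, inv11, U00, U01, U10, U11, L00, L01, L10, L11, D00, D01, D10, D11, W00, W01, W10, W11, one00, one01, one10, one11, commutatorElement_def]
    linear_combination (-1 : R) * h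
  · simp only [mul00, mul01, mul10, mul11, inv00, inv01, inv10, inv11, U00, U01, U10, U11, L00, L01, L10, L11, D00, D01, D10, D11, W00, W01, W10, W11, one00, one01, one10, one11, commutatorElement_def]
    linear_combination h
  · simp only [mul00, mul01, mul10, mul11, inv00, inv01, inv10, inv11, U00, U01, U10, U11, L00, L01, L10, L11, D00, D01, D10, D11, W00, W01, W10, W11, one00, one01, one10, one11, commutatorElement_def]
    ring

theorem unit_fact (g : S2 R) (a' : R) (h : g.1 0 0 * a' = 1) :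
    g = L (g.1 1 0 * a') * Dg (g.1 0 0) a' h * U (g.1 0 1 * a') := by
  have hd := det_eq g
  refine sl_ext _ _ ?_ ?_ ?_ ?_
  · simp only [mul00, mul01, mul10, mul11, inv00, inv01, inv10, inv11, U00, U01, U10, U11, L00, L01, L10, L11, D00, D01, D10, D11, W00, W01, W10, W11, one00, one01, one10, one11, commutatorElement_def]
    ring
  · simp only [mul00, mul01, mul10, mul11, inv00, inv01, inv10, inv11, U00, U01, U10, U11, L00, L01, L10, L11, D00, D01, D10, D11, W00, W01, W10, W11, one00, one01, one10, one11, commutatorElement_def]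
    linear_combination (-(g.1 0 1)) * h
  · simp only [mul00, mul01, mul10, mul11, inv00, inv01, inv10, inv11, U00, U01, U10, U11, L00, L01, L10, L11, D00, D01, D10, D11, W00, W01, W10, W11, one00, one01, one10, one11, commutatorElement_def]
    linear_combination (-(g.1 1 0)) * h
  · simp only [mul00, mul01, mul10, mul11, inv00, inv01, inv10, inv11, U00, U01, U10, U11, L00, L01, L10, L11, D00, D01, D10, D11, W00, W01, W10, W11, one00, one01, one10, one11, commutatorElement_def]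
    linear_combination (-(g.1 1 1 + a' * g.1 1 0 * g.1 0 1)) * h + a' * hd

theorem bruhat (g : S2 R) (c' : R) (h : g.1 1 0 * c' = 1) :
    g = U (g.1 0 0 * c') * Wm (g.1 1 0) c' h * U (g.1 1 1 * c') := by
  have hd := det_eq g
  refine sl_ext _ _ ?_ ?_ ?_ ?_
  · simp only [mul00, mul01, mul10, mul11, inv00, inv01, inv10, inv11, U00, U01, U10, U11, L00, L01, L10, L11, D00, D01, D10, D11, W00, W01, W10, W11, one00, one01, one10, one11, commutatorElement_def]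
    linear_combination (-(g.1 0 0)) * h
  · simp only [mul00, mul01, mul10, mul11, inv00, inv01, inv10, inv11, U00, U01, U10, U11, L00, L01, L10, L11, D00, D01, D10, D11, W00, W01, W10, W11, one00, one01, one10, one11, commutatorElement_def]
    linear_combination (-(g.1 0 0 * g.1 1 1 * c')) * h - c' * hd - (g.1 0 1) * h
  · simp only [mul00, mul01, mul10, mul11, inv00, inv01, inv10, inv11, U00, U01, U10, U11, L00, L01, L10, L11, D00, D01, D10, D11, W00, W01, W10, W11, one00, one01, one10, one11, commutatorElement_def]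
    ring
  · simp only [mul00, mul01, mul10, mul11, inv00, inv01, inv10, inv11, U00, U01, U10, U11, L00, L01, L10, L11, D00, D01, D10, D11, W00, W01, W10, W11, one00, one01, one10, one11, commutatorElement_def]
    linear_combination (-(g.1 1 1)) * h

theorem W_rel (c c' c2 c2' : R) (h : c * c' = 1) (h2 : c2 * c2' = 1)
    (h3 : (c2 * c') * (c * c2') = 1) :
    Wm c2 c2' h2 = Wm c c' h * Dg (c2 * c') (c * c2') h3 := by
  refine sl_ext _ _ ?_ ?_ ?_ ?_
  · simp only [mul00, mul01, mul10, mul11, inv00, inv01, inv10, inv11, U00, U01, U10, U11, L00, L01, L10, L11, D00, D01, D10, D11, W00, W01, W10, W11, one00, one01, one10, one11, commutatorElement_def]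
    ring
  · simp only [mul00, mul01, mul10, mul11, inv00, inv01, inv10, inv11, U00, U01, U10, U11, L00, L01, L10, L11, D00, D01, D10, D11, W00, W01, W10, W11, one00, one01, one10, one11, commutatorElement_def]
    linear_combination (c2') * h
  · simp only [mul00, mul01, mul10, mul11, inv00, inv01, inv10, inv11, U00, U01, U10, U11, L00, L01, L10, L11, D00, D01, D10, D11, W00, W01, W10, W11, one00, one01, one10, one11, commutatorElement_def]
    linear_combination (-c2) * h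
  · simp only [mul00, mul01, mul10, mul11, inv00, inv01, inv10, inv11, U00, U01, U10, U11, L00, L01, L10, L11, D00, D01, D10, D11, W00, W01, W10, W11, one00, one01, one10, one11, commutatorElement_def]
    ring

theorem diag_from_comm (x y a' : R) (h : (1 + x * y + x * x * y * y) * a' = 1) :
    Dg (1 + x * y + x * x * y * y) a' h
      = L (-(x * y * y * a')) * ⁅U x, L y⁆ * U (x * x * y * a') := by
  refine sl_ext _ _ ?_ ?_ ?_ ?_
  · simp only [mul00, mul01, mul10, mul11, inv00, inv01, inv10, inv11, U00, U01, U10, U11, L00, L01, L10, L11, D00, D01, D10, D11, W00, W01, W10, W11, one00, one01, one10, one11, commutatorElement_def]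
    ring
  · simp only [mul00, mul01, mul10, mul11, inv00, inv01, inv10, inv11, U00, U01, U10, U11, L00, L01, L10, L11, D00, D01, D10, D11, W00, W01, W10, W11, one00, one01, one10, one11, commutatorElement_def]
    linear_combination (-(x * x * y)) * h
  · simp only [mul00, mul01, mul10, mul11, inv00, inv01, inv10, inv11, U00, U01, U10, U11, L00, L01, L10, L11, D00, D01, D10, D11, W00, W01, W10, W11, one00, one01, one10, one11, commutatorElement_def]
    linear_combination (x * y * y) * h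
  · simp only [mul00, mul01, mul10, mul11, inv00, inv01, inv10, inv11, U00, U01, U10, U11, L00, L01, L10, L11, D00, D01, D10, D11, W00, W01, W10, W11, one00, one01, one10, one11, commutatorElement_def]
    linear_combination (x * x * x * y * y * y * a' + 1 - x * y) * h

end gen

section gen2
variable {R : Type} [CommRing R]

theorem comm00 (g h : S2 R) : (⁅g, h⁆).1 0 0 = 1
    + (g.1 0 1 * h.1 1 0 - h.1 0 1 * g.1 1 0) * (h.1 1 0 * g.1 0 1 + h.1 1 1 * g.1 1 1)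
    + (h.1 0 1 * (g.1 0 0 - g.1 1 1) - g.1 0 1 * (h.1 0 0 - h.1 1 1))
      * (-(h.1 1 0 * g.1 0 0 + h.1 1 1 * g.1 1 0)) := by
  have hg := det_eq g
  have hh := det_eq h
  simp only [mul00, mul01, mul10, mul11, inv00, inv01, inv10, inv11, U00, U01, U10, U11, L00, L01, L10, L11, D00, D01, D10, D11, W00, W01, W10, W11, one00, one01, one10, one11, commutatorElement_def]
  linear_combination (h.1 0 0 * h.1 1 1 - h.1 0 1 * h.1 1 0) * hg + hh

theorem comm01 (g h : S2 R) : (⁅g, h⁆).1 0 1 =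
    (g.1 0 1 * h.1 1 0 - h.1 0 1 * g.1 1 0) * (-(h.1 0 0 * g.1 0 1 + h.1 0 1 * g.1 1 1))
    + (h.1 0 1 * (g.1 0 0 - g.1 1 1) - g.1 0 1 * (h.1 0 0 - h.1 1 1))
      * (h.1 0 0 * g.1 0 0 + h.1 0 1 * g.1 1 0) := by
  simp only [mul00, mul01, mul10, mul11, inv00, inv01, inv10, inv11, U00, U01, U10, U11, L00, L01, L10, L11, D00, D01, D10, D11, W00, W01, W10, W11, one00, one01, one10, one11, commutatorElement_def]
  ring

theorem comm10 (g h : S2 R) : (⁅g, h⁆).1 1 0 =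
    (g.1 1 0 * (h.1 0 0 - h.1 1 1) - h.1 1 0 * (g.1 0 0 - g.1 1 1))
      * (h.1 1 0 * g.1 0 1 + h.1 1 1 * g.1 1 1)
    + (g.1 1 0 * h.1 0 1 - h.1 1 0 * g.1 0 1) * (-(h.1 1 0 * g.1 0 0 + h.1 1 1 * g.1 1 0)) := by
  simp only [mul00, mul01, mul10, mul11, inv00, inv01, inv10, inv11, U00, U01, U10, U11, L00, L01, L10, L11, D00, D01, D10, D11, W00, W01, W10, W11, one00, one01, one10, one11, commutatorElement_def]
  ring

theorem comm11 (g h : S2 R) : (⁅g, h⁆).1 1 1 = 1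
    + (g.1 1 0 * (h.1 0 0 - h.1 1 1) - h.1 1 0 * (g.1 0 0 - g.1 1 1))
      * (-(h.1 0 0 * g.1 0 1 + h.1 0 1 * g.1 1 1))
    + (g.1 1 0 * h.1 0 1 - h.1 1 0 * g.1 0 1) * (h.1 0 0 * g.1 0 0 + h.1 0 1 * g.1 1 0) := by
  have hg := det_eq g
  have hh := det_eq h
  simp only [mul00, mul01, mul10, mul11, inv00, inv01, inv10, inv11, U00, U01, U10, U11, L00, L01, L10, L11, D00, D01, D10, D11, W00, W01, W10, W11, one00, one01, one10, one11, commutatorElement_def]
  linear_combination (h.1 0 0 * h.1 1 1 - h.1 0 1 * h.1 1 0) * hg + hh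

def Hs (π : R) : Subgroup (S2 R) where
  carrier := {g | π ∣ g.1 1 0}
  mul_mem' := by
    intro g h hg hh
    show π ∣ (g * h).1 1 0
    rw [mul10]
    exact dvd_add (Dvd.dvd.mul_right hg _) (Dvd.dvd.mul_left hh _)
  one_mem' := by
    show π ∣ (1 : S2 R).1 1 0
    rw [one10]; exact dvd_zero _
  inv_mem' := by
    intro g hg
    show π ∣ (g⁻¹).1 1 0
    rw [inv10]; exact (dvd_neg).2 hg

def H1 (π : R) : Subgroup (S2 R) where
  carrier := {g | π ∣ g.1 1 0 ∧ π ∣ g.1 0 0 - 1 ∧ π ∣ g.1 1 1 - 1}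
  mul_mem' := by
    rintro g h ⟨g1, g2, g3⟩ ⟨h1, h2, h3⟩
    refine ⟨?_, ?_, ?_⟩
    · show π ∣ (g * h).1 1 0
      rw [mul10]
      exact dvd_add (Dvd.dvd.mul_right g1 _) (Dvd.dvd.mul_left h1 _)
    · show π ∣ (g * h).1 0 0 - 1
      rw [mul00]
      have e : g.1 0 0 * h.1 0 0 + g.1 0 1 * h.1 1 0 - 1
          = (g.1 0 0 - 1) * h.1 0 0 + (h.1 0 0 - 1) + g.1 0 1 * h.1 1 0 := by ring
      rw [e]
      exact dvd_add (dvd_add (Dvd.dvd.mul_right g2 _) h2) (Dvd.dvd.mul_left h1 _)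
    · show π ∣ (g * h).1 1 1 - 1
      rw [mul11]
      have e : g.1 1 0 * h.1 0 1 + g.1 1 1 * h.1 1 1 - 1
          = g.1 1 0 * h.1 0 1 + (g.1 1 1 - 1) * h.1 1 1 + (h.1 1 1 - 1) := by ring
      rw [e]
      exact dvd_add (dvd_add (Dvd.dvd.mul_right g1 _) (Dvd.dvd.mul_right g3 _)) h3
  one_mem' := by
    refine ⟨?_, ?_, ?_⟩
    · show π ∣ (1 : S2 R).1 1 0
      rw [one10]; exact dvd_zero _
    · show π ∣ (1 : S2 R).1 0 0 - 1
      rw [one00, sub_self]; exact dvd_zero _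
    · show π ∣ (1 : S2 R).1 1 1 - 1
      rw [one11, sub_self]; exact dvd_zero _
  inv_mem' := by
    rintro g ⟨g1, g2, g3⟩
    refine ⟨?_, ?_, ?_⟩
    · show π ∣ (g⁻¹).1 1 0
      rw [inv10]; exact (dvd_neg).2 g1
    · show π ∣ (g⁻¹).1 0 0 - 1
      rw [inv00]; exact g3
    · show π ∣ (g⁻¹).1 1 1 - 1
      rw [inv11]; exact g2

def Gam (π : R) : Subgroup (S2 R) where
  carrier := {g | π ∣ g.1 1 0 ∧ π ∣ g.1 0 1 ∧ π ∣ g.1 0 0 - 1 ∧ π ∣ g.1 1 1 - 1}
  mul_mem' := by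
    rintro g h ⟨g1, g4, g2, g3⟩ ⟨h1, h4, h2, h3⟩
    refine ⟨?_, ?_, ?_, ?_⟩
    · show π ∣ (g * h).1 1 0
      rw [mul10]
      exact dvd_add (Dvd.dvd.mul_right g1 _) (Dvd.dvd.mul_left h1 _)
    · show π ∣ (g * h).1 0 1
      rw [mul01]
      exact dvd_add (Dvd.dvd.mul_left h4 _) (Dvd.dvd.mul_right g4 _)
    · show π ∣ (g * h).1 0 0 - 1
      rw [mul00]
      have e : g.1 0 0 * h.1 0 0 + g.1 0 1 * h.1 1 0 - 1
          = (g.1 0 0 - 1) * h.1 0 0 + (h.1 0 0 - 1) + g.1 0 1 * h.1 1 0 := by ring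
      rw [e]
      exact dvd_add (dvd_add (Dvd.dvd.mul_right g2 _) h2) (Dvd.dvd.mul_left h1 _)
    · show π ∣ (g * h).1 1 1 - 1
      rw [mul11]
      have e : g.1 1 0 * h.1 0 1 + g.1 1 1 * h.1 1 1 - 1
          = g.1 1 0 * h.1 0 1 + (g.1 1 1 - 1) * h.1 1 1 + (h.1 1 1 - 1) := by ring
      rw [e]
      exact dvd_add (dvd_add (Dvd.dvd.mul_right g1 _) (Dvd.dvd.mul_right g3 _)) h3
  one_mem' := by
    refine ⟨?_, ?_, ?_, ?_⟩
    · show π ∣ (1 : S2 R).1 1 0
      rw [one10]; exact dvd_zero _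
    · show π ∣ (1 : S2 R).1 0 1
      rw [one01]; exact dvd_zero _
    · show π ∣ (1 : S2 R).1 0 0 - 1
      rw [one00, sub_self]; exact dvd_zero _
    · show π ∣ (1 : S2 R).1 1 1 - 1
      rw [one11, sub_self]; exact dvd_zero _
  inv_mem' := by
    rintro g ⟨g1, g4, g2, g3⟩
    refine ⟨?_, ?_, ?_, ?_⟩
    · show π ∣ (g⁻¹).1 1 0
      rw [inv10]; exact (dvd_neg).2 g1
    · show π ∣ (g⁻¹).1 0 1
      rw [inv01]; exact (dvd_neg).2 g4
    · show π ∣ (g⁻¹).1 0 0 - 1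
      rw [inv00]; exact g3
    · show π ∣ (g⁻¹).1 1 1 - 1
      rw [inv11]; exact g2

theorem comm_Hs_le (π : R) : ⁅Hs π, Hs π⁆ ≤ H1 π := by
  rw [Subgroup.commutator_le]
  intro g hg h hh
  have hg' : π ∣ g.1 1 0 := hg
  have hh' : π ∣ h.1 1 0 := hh
  have x00 : π ∣ g.1 0 1 * h.1 1 0 - h.1 0 1 * g.1 1 0 :=
    dvd_sub (Dvd.dvd.mul_left hh' _) (Dvd.dvd.mul_left hg' _)
  have x10 : π ∣ g.1 1 0 * (h.1 0 0 - h.1 1 1) - h.1 1 0 * (g.1 0 0 - g.1 1 1) :=
    dvd_sub (Dvd.dvd.mul_right hg' _) (Dvd.dvd.mul_right hh' _)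
  have x11 : π ∣ g.1 1 0 * h.1 0 1 - h.1 1 0 * g.1 0 1 :=
    dvd_sub (Dvd.dvd.mul_right hg' _) (Dvd.dvd.mul_right hh' _)
  have y10 : π ∣ -(h.1 1 0 * g.1 0 0 + h.1 1 1 * g.1 1 0) :=
    (dvd_neg).2 (dvd_add (Dvd.dvd.mul_right hh' _) (Dvd.dvd.mul_left hg' _))
  refine ⟨?_, ?_, ?_⟩
  · show π ∣ (⁅g, h⁆).1 1 0
    rw [comm10]
    exact dvd_add (Dvd.dvd.mul_right x10 _) (Dvd.dvd.mul_left y10 _)
  · show π ∣ (⁅g, h⁆).1 0 0 - 1
    rw [comm00, add_assoc, add_sub_cancel_left]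
    exact dvd_add (Dvd.dvd.mul_right x00 _) (Dvd.dvd.mul_left y10 _)
  · show π ∣ (⁅g, h⁆).1 1 1 - 1
    rw [comm11, add_assoc, add_sub_cancel_left]
    exact dvd_add (Dvd.dvd.mul_right x10 _) (Dvd.dvd.mul_right x11 _)

theorem comm_Gam_le (ρ σ : R) : ⁅Gam ρ, Gam σ⁆ ≤ Gam (ρ * σ) := by
  rw [Subgroup.commutator_le]
  rintro g ⟨g1, g4, g2, g3⟩ h ⟨h1, h4, h2, h3⟩
  have dg : ρ ∣ g.1 0 0 - g.1 1 1 := by
    have e : g.1 0 0 - g.1 1 1 = (g.1 0 0 - 1) - (g.1 1 1 - 1) := by ring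
    rw [e]; exact dvd_sub g2 g3
  have dh : σ ∣ h.1 0 0 - h.1 1 1 := by
    have e : h.1 0 0 - h.1 1 1 = (h.1 0 0 - 1) - (h.1 1 1 - 1) := by ring
    rw [e]; exact dvd_sub h2 h3
  have x00 : ρ * σ ∣ g.1 0 1 * h.1 1 0 - h.1 0 1 * g.1 1 0 := by
    have e : g.1 0 1 * h.1 1 0 - h.1 0 1 * g.1 1 0 = g.1 0 1 * h.1 1 0 - g.1 1 0 * h.1 0 1 := by ring
    rw [e]; exact dvd_sub (mul_dvd_mul g4 h1) (mul_dvd_mul g1 h4)
  have x01 : ρ * σ ∣ h.1 0 1 * (g.1 0 0 - g.1 1 1) - g.1 0 1 * (h.1 0 0 - h.1 1 1) := by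
    have e : h.1 0 1 * (g.1 0 0 - g.1 1 1) - g.1 0 1 * (h.1 0 0 - h.1 1 1)
        = (g.1 0 0 - g.1 1 1) * h.1 0 1 - g.1 0 1 * (h.1 0 0 - h.1 1 1) := by ring
    rw [e]; exact dvd_sub (mul_dvd_mul dg h4) (mul_dvd_mul g4 dh)
  have x10 : ρ * σ ∣ g.1 1 0 * (h.1 0 0 - h.1 1 1) - h.1 1 0 * (g.1 0 0 - g.1 1 1) := by
    have e : g.1 1 0 * (h.1 0 0 - h.1 1 1) - h.1 1 0 * (g.1 0 0 - g.1 1 1)
        = g.1 1 0 * (h.1 0 0 - h.1 1 1) - (g.1 0 0 - g.1 1 1) * h.1 1 0 := by ring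
    rw [e]; exact dvd_sub (mul_dvd_mul g1 dh) (mul_dvd_mul dg h1)
  have x11 : ρ * σ ∣ g.1 1 0 * h.1 0 1 - h.1 1 0 * g.1 0 1 := by
    have e : g.1 1 0 * h.1 0 1 - h.1 1 0 * g.1 0 1 = g.1 1 0 * h.1 0 1 - g.1 0 1 * h.1 1 0 := by ring
    rw [e]; exact dvd_sub (mul_dvd_mul g1 h4) (mul_dvd_mul g4 h1)
  refine ⟨?_, ?_, ?_, ?_⟩
  · show ρ * σ ∣ (⁅g, h⁆).1 1 0
    rw [comm10]
    exact dvd_add (Dvd.dvd.mul_right x10 _) (Dvd.dvd.mul_right x11 _)
  · show ρ * σ ∣ (⁅g, h⁆).1 0 1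
    rw [comm01]
    exact dvd_add (Dvd.dvd.mul_right x00 _) (Dvd.dvd.mul_right x01 _)
  · show ρ * σ ∣ (⁅g, h⁆).1 0 0 - 1
    rw [comm00, add_assoc, add_sub_cancel_left]
    exact dvd_add (Dvd.dvd.mul_right x00 _) (Dvd.dvd.mul_right x01 _)
  · show ρ * σ ∣ (⁅g, h⁆).1 1 1 - 1
    rw [comm11, add_assoc, add_sub_cancel_left]
    exact dvd_add (Dvd.dvd.mul_right x10 _) (Dvd.dvd.mul_right x11 _)

theorem comm_H1_le (π : R) : ⁅H1 π, H1 π⁆ ≤ Gam π := by
  rw [Subgroup.commutator_le]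
  rintro g ⟨g1, g2, g3⟩ h ⟨h1, h2, h3⟩
  have dg : π ∣ g.1 0 0 - g.1 1 1 := by
    have e : g.1 0 0 - g.1 1 1 = (g.1 0 0 - 1) - (g.1 1 1 - 1) := by ring
    rw [e]; exact dvd_sub g2 g3
  have dh : π ∣ h.1 0 0 - h.1 1 1 := by
    have e : h.1 0 0 - h.1 1 1 = (h.1 0 0 - 1) - (h.1 1 1 - 1) := by ring
    rw [e]; exact dvd_sub h2 h3
  have x00 : π ∣ g.1 0 1 * h.1 1 0 - h.1 0 1 * g.1 1 0 :=
    dvd_sub (Dvd.dvd.mul_left h1 _) (Dvd.dvd.mul_left g1 _)
  have x01 : π ∣ h.1 0 1 * (g.1 0 0 - g.1 1 1) - g.1 0 1 * (h.1 0 0 - h.1 1 1) :=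
    dvd_sub (Dvd.dvd.mul_left dg _) (Dvd.dvd.mul_left dh _)
  have x10 : π ∣ g.1 1 0 * (h.1 0 0 - h.1 1 1) - h.1 1 0 * (g.1 0 0 - g.1 1 1) :=
    dvd_sub (Dvd.dvd.mul_right g1 _) (Dvd.dvd.mul_right h1 _)
  have x11 : π ∣ g.1 1 0 * h.1 0 1 - h.1 1 0 * g.1 0 1 :=
    dvd_sub (Dvd.dvd.mul_right g1 _) (Dvd.dvd.mul_right h1 _)
  refine ⟨?_, ?_, ?_, ?_⟩
  · show π ∣ (⁅g, h⁆).1 1 0
    rw [comm10]
    exact dvd_add (Dvd.dvd.mul_right x10 _) (Dvd.dvd.mul_right x11 _)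
  · show π ∣ (⁅g, h⁆).1 0 1
    rw [comm01]
    exact dvd_add (Dvd.dvd.mul_right x00 _) (Dvd.dvd.mul_right x01 _)
  · show π ∣ (⁅g, h⁆).1 0 0 - 1
    rw [comm00, add_assoc, add_sub_cancel_left]
    exact dvd_add (Dvd.dvd.mul_right x00 _) (Dvd.dvd.mul_right x01 _)
  · show π ∣ (⁅g, h⁆).1 1 1 - 1
    rw [comm11, add_assoc, add_sub_cancel_left]
    exact dvd_add (Dvd.dvd.mul_right x10 _) (Dvd.dvd.mul_right x11 _)

theorem Gam_zero : Gam (0 : R) = ⊥ := by
  rw [Subgroup.eq_bot_iff_forall]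
  rintro g ⟨g1, g4, g2, g3⟩
  rw [zero_dvd_iff] at g1 g4 g2 g3
  refine sl_ext _ _ ?_ ?_ ?_ ?_
  · rw [one00]; exact sub_eq_zero.1 g2
  · rw [one01]; exact g4
  · rw [one10]; exact g1
  · rw [one11]; exact sub_eq_zero.1 g3

def Dn (π : R) : ℕ → Subgroup (S2 R)
  | 0 => Hs π
  | (m+1) => ⁅Dn π m, Dn π m⁆

theorem Dn_le (π : R) : ∀ m, Dn π (m+2) ≤ Gam (π ^ (2^m))
  | 0 => by
    show ⁅⁅Hs π, Hs π⁆, ⁅Hs π, Hs π⁆⁆ ≤ _
    rw [pow_zero, pow_one]
    exact (Subgroup.commutator_mono (comm_Hs_le π) (comm_Hs_le π)).trans (comm_H1_le π)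
  | (m+1) => by
    show ⁅Dn π (m+2), Dn π (m+2)⁆ ≤ _
    have e : π ^ (2^(m+1)) = π ^ (2^m) * π ^ (2^m) := by
      rw [← pow_add]; congr 1; ring
    rw [e]
    exact (Subgroup.commutator_mono (Dn_le π m) (Dn_le π m)).trans (comm_Gam_le _ _)

def Good (π : R) (K : Subgroup (S2 R)) (e : ℕ) : Prop :=
  (∀ x, U (π^e * x) ∈ K) ∧ (∀ y, L (π^e * y) ∈ K) ∧
  ∃ (a a' ε : R) (h : a * a' = 1), IsUnit ε ∧ a * a - 1 = π^e * ε ∧ Dg a a' h ∈ K

theorem ul_step (K : Subgroup (S2 R)) (a a' ε ε' ρ : R) (h : a * a' = 1) (hε : ε * ε' = 1)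
    (ha : a * a - 1 = ρ * ε) (hD : Dg a a' h ∈ K) (σ : R) :
    ((∀ x, U (σ * x) ∈ K) → ∀ x, U (ρ * σ * x) ∈ ⁅K, K⁆) ∧
    ((∀ x, L (σ * x) ∈ K) → ∀ x, L (ρ * σ * x) ∈ ⁅K, K⁆) := by
  constructor
  · intro hU x
    have e : U (ρ * σ * x) = ⁅Dg a a' h, U (σ * (ε' * x))⁆ := by
      rw [comm_DU, ha]
      congr 1
      linear_combination (-(ρ * σ * x)) * hε
    rw [e]
    exact Subgroup.commutator_mem_commutator hD (hU _)
  · intro hL x
    have h' : a' * a = 1 := by rw [mul_comm]; exact h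
    have hD' : Dg a' a h' ∈ K := by rw [Dg_inv a a' h h']; exact K.inv_mem hD
    have e : L (ρ * σ * x) = ⁅Dg a' a h', L (σ * (ε' * x))⁆ := by
      rw [comm_DL, ha]
      congr 1
      linear_combination (-(ρ * σ * x)) * hε
    rw [e]
    exact Subgroup.commutator_mem_commutator hD' (hL _)

theorem diag_step (π : R) (hloc : ∀ x : R, IsUnit x ∨ π ∣ x) (h1 : ¬ π ∣ 1) (h2 : IsUnit (2 : R))
    (K : Subgroup (S2 R)) (x y ρ : R) (hxy : x * y = ρ) (hπ : π ∣ ρ)
    (hU : ∀ z, U (ρ * z) ∈ K) (hL : ∀ z, L (ρ * z) ∈ K) (hc : ⁅U x, L y⁆ ∈ K) :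
    ∃ (a a' ε : R) (h : a * a' = 1), IsUnit ε ∧ a * a - 1 = ρ * ε ∧ Dg a a' h ∈ K := by
  have unit_of : ∀ t : R, π ∣ t - 1 → IsUnit t := by
    intro t ht
    rcases hloc t with hu | hd
    · exact hu
    · exfalso; apply h1
      have e : (1 : R) = t - (t - 1) := by ring
      rw [e]; exact dvd_sub hd ht
  have hA : IsUnit (1 + x * y + x * x * y * y) := by
    apply unit_of
    have e : 1 + x * y + x * x * y * y - 1 = ρ * (1 + ρ) := by rw [← hxy]; ring
    rw [e]; exact Dvd.dvd.mul_right hπ _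
  obtain ⟨a', ha'⟩ := hA.exists_right_inv
  have hε1 : IsUnit (1 + ρ) := by
    apply unit_of
    have e : 1 + ρ - 1 = ρ := by ring
    rw [e]; exact hπ
  have hε2 : IsUnit (2 + ρ + ρ * ρ) := by
    rcases hloc (2 + ρ + ρ * ρ) with hu | hd
    · exact hu
    · exfalso; apply h1
      have h2' : π ∣ (2 : R) := by
        have e : (2 : R) = (2 + ρ + ρ * ρ) - ρ * (1 + ρ) := by ring
        rw [e]; exact dvd_sub hd (Dvd.dvd.mul_right hπ _)
      exact h2'.trans h2.dvd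
  refine ⟨1 + x * y + x * x * y * y, a', (1 + ρ) * (2 + ρ + ρ * ρ), ha', hε1.mul hε2, ?_, ?_⟩
  · rw [← hxy]; ring
  · rw [diag_from_comm x y a' ha']
    refine K.mul_mem (K.mul_mem ?_ hc) ?_
    · have h0 := hL (-(y * a'))
      have e : ρ * -(y * a') = -(x * y * y * a') := by rw [← hxy]; ring
      rw [e] at h0; exact h0
    · have h0 := hU (x * a')
      have e : ρ * (x * a') = x * x * y * a' := by rw [← hxy]; ring
      rw [e] at h0; exact h0

theorem good_step (π : R) (hloc : ∀ x : R, IsUnit x ∨ π ∣ x) (h1 : ¬ π ∣ 1) (h2 : IsUnit (2 : R))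
    (K : Subgroup (S2 R)) (e : ℕ) (he : 1 ≤ e) (hG : Good π K e) : Good π ⁅K, K⁆ (e + e) := by
  obtain ⟨hU, hL, a, a', ε, h, hε, ha, hD⟩ := hG
  obtain ⟨ε', hε'⟩ := hε.exists_right_inv
  have st := ul_step K a a' ε ε' (π ^ e) h hε' ha hD (π ^ e)
  have hU' : ∀ x, U (π ^ (e + e) * x) ∈ ⁅K, K⁆ := by
    intro x; rw [pow_add]; exact st.1 hU x
  have hL' : ∀ x, L (π ^ (e + e) * x) ∈ ⁅K, K⁆ := by
    intro x; rw [pow_add]; exact st.2 hL x
  refine ⟨hU', hL', ?_⟩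
  have hu1 : U (π ^ e) ∈ K := by have h0 := hU 1; rwa [mul_one] at h0
  have hl1 : L (π ^ e) ∈ K := by have h0 := hL 1; rwa [mul_one] at h0
  exact diag_step π hloc h1 h2 ⁅K, K⁆ (π ^ e) (π ^ e) (π ^ (e + e)) (pow_add π e e).symm
    (dvd_pow_self π (by omega)) hU' hL' (Subgroup.commutator_mem_commutator hu1 hl1)

theorem good_base (π : R) (hloc : ∀ x : R, IsUnit x ∨ π ∣ x) (h1 : ¬ π ∣ 1) (h2 : IsUnit (2 : R))
    (h3 : IsUnit (3 : R)) : Good π ⁅Hs π, Hs π⁆ 1 := by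
  obtain ⟨t2, ht2⟩ := h2.exists_right_inv
  obtain ⟨t3, ht3⟩ := h3.exists_right_inv
  have hD : Dg 2 t2 ht2 ∈ Hs π := by
    show π ∣ (Dg 2 t2 ht2).1 1 0
    rw [D10]; exact dvd_zero _
  have ha : (2 : R) * 2 - 1 = 1 * 3 := by norm_num
  have st1 := ul_step (Hs π) 2 t2 3 t3 1 ht2 ht3 ha hD 1
  have stπ := ul_step (Hs π) 2 t2 3 t3 1 ht2 ht3 ha hD π
  have hUH : ∀ x, U x ∈ Hs π := by
    intro x; show π ∣ (U x).1 1 0; rw [U10]; exact dvd_zero _
  have hLH : ∀ x, L (π * x) ∈ Hs π := by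
    intro x; show π ∣ (L (π * x)).1 1 0; rw [L10]; exact Dvd.intro _ rfl
  have hU' : ∀ x, U (π ^ 1 * x) ∈ ⁅Hs π, Hs π⁆ := by
    intro x
    have h0 := st1.1 (fun z => hUH _) (π ^ 1 * x)
    rwa [one_mul, one_mul] at h0
  have hL' : ∀ x, L (π ^ 1 * x) ∈ ⁅Hs π, Hs π⁆ := by
    intro x
    have h0 := stπ.2 hLH x
    rw [one_mul] at h0
    rw [pow_one]; exact h0
  have hLπ : L π ∈ Hs π := by have h0 := hLH 1; rwa [mul_one] at h0
  have hd := diag_step π hloc h1 h2 ⁅Hs π, Hs π⁆ 1 π (π ^ 1) (by rw [one_mul, pow_one])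
    (by rw [pow_one]) hU' hL' (Subgroup.commutator_mem_commutator (hUH 1) hLπ)
  exact ⟨hU', hL', hd⟩

theorem good_all (π : R) (hloc : ∀ x : R, IsUnit x ∨ π ∣ x) (h1 : ¬ π ∣ 1) (h2 : IsUnit (2 : R))
    (h3 : IsUnit (3 : R)) : ∀ m, Good π (Dn π (m+1)) (2^m)
  | 0 => by rw [pow_zero]; exact good_base π hloc h1 h2 h3
  | (m+1) => by
    have e : 2^(m+1) = 2^m + 2^m := by ring
    rw [e]
    exact good_step π hloc h1 h2 (Dn π (m+1)) (2^m) Nat.one_le_two_pow (good_all π hloc h1 h2 h3 m)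

theorem perfect (π : R) (hloc : ∀ x : R, IsUnit x ∨ π ∣ x) (h1 : ¬ π ∣ 1) (h2 : IsUnit (2 : R))
    (h3 : IsUnit (3 : R)) : commutator (S2 R) = ⊤ := by
  obtain ⟨t2, ht2⟩ := h2.exists_right_inv
  obtain ⟨t3, ht3⟩ := h3.exists_right_inv
  have ha : (2 : R) * 2 - 1 = 1 * 3 := by norm_num
  have st := ul_step (⊤ : Subgroup (S2 R)) 2 t2 3 t3 1 ht2 ht3 ha (Subgroup.mem_top _) 1
  have hU : ∀ x, U x ∈ commutator (S2 R) := by
    intro x
    have h0 := st.1 (fun z => Subgroup.mem_top _) x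
    rw [one_mul, one_mul] at h0
    exact h0
  have hL : ∀ x, L x ∈ commutator (S2 R) := by
    intro x
    have h0 := st.2 (fun z => Subgroup.mem_top _) x
    rw [one_mul, one_mul] at h0
    exact h0
  have hD : ∀ (a a' : R) (h : a * a' = 1), Dg a a' h ∈ commutator (S2 R) := by
    intro a a' h
    rw [diag_w a a' h]
    exact Subgroup.mul_mem _ (Subgroup.mul_mem _ (Subgroup.mul_mem _ (hU _) (hL _)) (hU _))
      (Subgroup.mul_mem _ (Subgroup.mul_mem _ (hU _) (hL _)) (hU _))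
  have hunit : ∀ g : S2 R, IsUnit (g.1 0 0) → g ∈ commutator (S2 R) := by
    intro g hg
    obtain ⟨a', ha'⟩ := hg.exists_right_inv
    have h0 : L (g.1 1 0 * a') * Dg (g.1 0 0) a' ha' * U (g.1 0 1 * a') ∈ commutator (S2 R) :=
      Subgroup.mul_mem _ (Subgroup.mul_mem _ (hL _) (hD _ _ _)) (hU _)
    rwa [← unit_fact g a' ha'] at h0
  rw [eq_top_iff]
  intro g _
  rcases hloc (g.1 0 0) with hu | hd
  · exact hunit g hu
  · have hu' : IsUnit ((U 1 * g).1 0 0) := by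
      rw [mul00, U00, U01, one_mul, one_mul]
      rcases hloc (g.1 0 0 + g.1 1 0) with hu | hd2
      · exact hu
      · exfalso; apply h1
        have hc : π ∣ g.1 1 0 := (dvd_add_right hd).1 hd2
        have hdet := det_eq g
        rw [← hdet]
        exact dvd_sub (Dvd.dvd.mul_right hd _) (Dvd.dvd.mul_left hc _)
    have e : g = (U 1)⁻¹ * (U 1 * g) := by group
    rw [e]
    exact Subgroup.mul_mem _ (Subgroup.inv_mem _ (hU 1)) (hunit _ hu')

theorem coatom (π : R) (hloc : ∀ x : R, IsUnit x ∨ π ∣ x) (h1 : ¬ π ∣ 1) : IsCoatom (Hs π) := by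
  have hUH : ∀ x, U x ∈ Hs π := by
    intro x; show π ∣ (U x).1 1 0; rw [U10]; exact dvd_zero _
  have hDH : ∀ (a a' : R) (h : a * a' = 1), Dg a a' h ∈ Hs π := by
    intro a a' h; show π ∣ (Dg a a' h).1 1 0; rw [D10]; exact dvd_zero _
  refine ⟨?_, ?_⟩
  · intro htop
    have h0 : Wm 1 1 (one_mul 1) ∈ Hs π := by rw [htop]; exact Subgroup.mem_top _
    have h' : π ∣ (Wm 1 1 (one_mul 1)).1 1 0 := h0
    rw [W10] at h'
    exact h1 h'
  · intro K hK
    obtain ⟨g, hgK, hgH⟩ := SetLike.exists_of_lt hK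
    have hc : IsUnit (g.1 1 0) := by
      rcases hloc (g.1 1 0) with hu | hd
      · exact hu
      · exact absurd hd hgH
    obtain ⟨c', hc'⟩ := hc.exists_right_inv
    have hW : Wm (g.1 1 0) c' hc' ∈ K := by
      have e := bruhat g c' hc'
      have e2 : Wm (g.1 1 0) c' hc' = (U (g.1 0 0 * c'))⁻¹
          * (U (g.1 0 0 * c') * Wm (g.1 1 0) c' hc' * U (g.1 1 1 * c')) * (U (g.1 1 1 * c'))⁻¹ := by
        group
      rw [e2, ← e]
      exact K.mul_mem (K.mul_mem (K.inv_mem (hK.le (hUH _))) hgK) (K.inv_mem (hK.le (hUH _)))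
    rw [eq_top_iff]
    intro g2 _
    by_cases hg2 : g2 ∈ Hs π
    · exact hK.le hg2
    · have hc2 : IsUnit (g2.1 1 0) := by
        rcases hloc (g2.1 1 0) with hu | hd
        · exact hu
        · exact absurd hd hg2
      obtain ⟨c2', hc2'⟩ := hc2.exists_right_inv
      have h3 : (g2.1 1 0 * c') * (g.1 1 0 * c2') = 1 := by
        linear_combination (g2.1 1 0 * c2') * hc' + hc2'
      have hW2 : Wm (g2.1 1 0) c2' hc2' ∈ K := by
        rw [W_rel (g.1 1 0) c' (g2.1 1 0) c2' hc' hc2' h3]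
        exact K.mul_mem hW (hK.le (hDH _ _ _))
      have h0 : U (g2.1 0 0 * c2') * Wm (g2.1 1 0) c2' hc2' * U (g2.1 1 1 * c2') ∈ K :=
        K.mul_mem (K.mul_mem (hK.le (hUH _)) hW2) (hK.le (hUH _))
      rwa [← bruhat g2 c2' hc2'] at h0

end gen2

theorem map_derived {G : Type} [Group G] (H : Subgroup G) (D : ℕ → Subgroup G) (h0 : D 0 = H)
    (hs : ∀ m, D (m+1) = ⁅D m, D m⁆) : ∀ m, (derivedSeries H m).map H.subtype = D m := by
  intro m
  induction m with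
  | zero => rw [derivedSeries_zero, h0, ← MonoidHom.range_eq_map, Subgroup.range_subtype]
  | succ m ih => rw [derivedSeries_succ, Subgroup.map_commutator, ih, hs]

theorem zfacts (k : ℕ) (hk : 1 ≤ k) :
    (∀ x : ZMod (5^k), IsUnit x ∨ (5 : ZMod (5^k)) ∣ x) ∧ ¬ ((5 : ZMod (5^k)) ∣ 1) ∧
    IsUnit (2 : ZMod (5^k)) ∧ IsUnit (3 : ZMod (5^k)) ∧
    (∀ j, k ≤ j → (5 : ZMod (5^k))^j = 0) ∧ (∀ j, j < k → (5 : ZMod (5^k))^j ≠ 0) := by
  haveI : NeZero (5^k) := ⟨by positivity⟩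
  haveI : Fact (1 < 5^k) := ⟨Nat.one_lt_pow (by omega) (by norm_num)⟩
  have h5 : ((5:ℕ) : ZMod (5^k)) = 5 := by norm_num
  have hpow : (5 : ZMod (5^k))^k = 0 := by
    have h0 := ZMod.natCast_self (5^k)
    rw [Nat.cast_pow, h5] at h0
    exact h0
  refine ⟨?_, ?_, ?_, ?_, ?_, ?_⟩
  · intro x
    by_cases h : 5 ∣ x.val
    · right
      obtain ⟨t, ht⟩ := h
      refine ⟨(t : ZMod (5^k)), ?_⟩
      have h0 := ZMod.natCast_zmod_val x
      rw [ht] at h0
      rw [← h0]; push_cast; ring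
    · left
      have hc : Nat.Coprime x.val (5^k) :=
        Nat.Coprime.pow_right k (((Nat.Prime.coprime_iff_not_dvd Nat.prime_five).2 h).symm)
      have h0 := (ZMod.isUnit_iff_coprime x.val (5^k)).2 hc
      rwa [ZMod.natCast_zmod_val] at h0
  · intro h
    have hu : IsUnit (5 : ZMod (5^k)) := isUnit_of_dvd_one h
    have h0 := hu.pow k
    rw [hpow] at h0
    exact not_isUnit_zero h0
  · have h0 := (ZMod.isUnit_iff_coprime 2 (5^k)).2 (Nat.Coprime.pow_right k (by norm_num))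
    simpa using h0
  · have h0 := (ZMod.isUnit_iff_coprime 3 (5^k)).2 (Nat.Coprime.pow_right k (by norm_num))
    simpa using h0
  · intro j hj
    obtain ⟨i, rfl⟩ := Nat.exists_eq_add_of_le hj
    rw [pow_add, hpow, zero_mul]
  · intro j hj h0
    have h1 : ((5^j : ℕ) : ZMod (5^k)) = 0 := by rw [Nat.cast_pow, h5]; exact h0
    rw [ZMod.natCast_eq_zero_iff] at h1
    have h2 := Nat.le_of_dvd (by positivity) h1
    have h3 : 5^j < 5^k := Nat.pow_lt_pow_right (by norm_num) hj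
    omega

/-- Finite perfect groups have solvable maximal subgroups of unbounded derived length: for every d there is a finite perfect group G (equal to its commutator subgroup) with a solvable maximal subgroup H whose derived length exceeds d, i.e. the d-th term of the derived series of H is non-trivial. (Take the derived subgroup of a wreath product S ≀ A₅ with S solvable of large derived length, and H the preimage of a maximal subgroup of A₅.) -/
theorem result (d : ℕ) :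
    ∃ (G : Type) (_ : Group G) (_ : Finite G) (H : Subgroup G), commutator G = ⊤ ∧ IsCoatom H ∧ Group.IsSolvable H ∧
      derivedSeries H d ≠ ⊥ := by
  obtain ⟨hloc, h1, h2, h3, hz, hnz⟩ := zfacts (2^d + 1) (Nat.le_add_left 1 (2^d))
  haveI : NeZero (5^(2^d+1)) := ⟨by positivity⟩
  have hmap := map_derived (Hs (5 : ZMod (5^(2^d+1)))) (Dn 5) rfl (fun m => rfl)
  refine ⟨S2 (ZMod (5^(2^d+1))), inferInstance, inferInstance, Hs 5, perfect 5 hloc h1 h2 h3,
    coatom 5 hloc h1, ?_, ?_⟩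
  · rw [Group.isSolvable_def]
    refine ⟨d + 3, ?_⟩
    rw [← Subgroup.map_eq_bot_iff_of_injective _ (Subgroup.subtype_injective _), hmap]
    have hle := Dn_le (5 : ZMod (5^(2^d+1))) (d+1)
    have hz' : (5 : ZMod (5^(2^d+1)))^(2^(d+1)) = 0 := by
      apply hz
      have : 2^(d+1) = 2^d + 2^d := by ring
      have : 1 ≤ 2^d := Nat.one_le_two_pow
      omega
    rw [hz', Gam_zero] at hle
    exact le_bot_iff.1 hle
  · intro hbot
    have hbot' : derivedSeries (Hs (5 : ZMod (5^(2^d+1)))) (d+1) = ⊥ := by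
      rw [derivedSeries_succ, hbot, Subgroup.commutator_bot_left]
    have hD : Dn (5 : ZMod (5^(2^d+1))) (d+1) = ⊥ := by rw [← hmap, hbot', Subgroup.map_bot]
    have hG := good_all 5 hloc h1 h2 h3 d
    have hu := hG.1 1
    rw [hD, Subgroup.mem_bot, mul_one] at hu
    have h01 : (U ((5 : ZMod (5^(2^d+1)))^(2^d))).1 0 1 = (1 : S2 (ZMod (5^(2^d+1)))).1 0 1 := by
      rw [hu]
    rw [U01, one01] at h01
    exact hnz (2^d) (by omega) h01

end Cfsg.Agent.S5896
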