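import Cfsg.Statements.S5902
import Mathlib
import Cfsg.Agent.S5901

set_option autoImplicit false
open Cfsg

namespace Cfsg.Agent.S5902

/-- Let G be a finite group, X a subgroup whose own subgroup lattice is complemented, and suppose X lies in exactly one maximal subgroup M of G. Then every subgroup H of G not contained in the normal core of M has a complement in the subgroup lattice of G (some C with H ⊔ C = G and H ⊓ C = 1); in particular the subgroup lattice of G modulo the normal core of M is complemented. -/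
theorem result {G : Type*} [Group G] [Finite G] (X M : Subgroup G)
    (hK : ComplementedLattice (Subgroup X))
    (hM : IsCoatom M) (hXM : X ≤ M) (huniq : ∀ M' : Subgroup G, IsCoatom M' → X ≤ M' → M' = M) :
    (∀ H : Subgroup G, ¬ H ≤ M.normalCore → ∃ C : Subgroup G, H ⊔ C = ⊤ ∧ H ⊓ C = ⊥) ∧
    ComplementedLattice (Subgroup (G ⧸ M.normalCore)) := by
  classical
  have hX : X ≠ ⊤ := by
    rintro rfl
    exact hM.1 (top_le_iff.mp hXM)
  -- the interval [⊥, X] is complemented
  have hint : ∀ Y : Subgroup G, (⊥ : Subgroup G) ≤ Y → Y ≤ X →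
      ∃ C : Subgroup G, (⊥ : Subgroup G) ≤ C ∧ C ≤ X ∧ Y ⊔ C = X ∧ Y ⊓ C = ⊥ := by
    intro Y _ hYX
    obtain ⟨C', hC'⟩ := hK.exists_isCompl (Y.subgroupOf X)
    refine ⟨C'.map X.subtype, bot_le, Subgroup.map_subtype_le _, ?_, ?_⟩
    · have h1 := congrArg (Subgroup.map X.subtype) (codisjoint_iff.mp hC'.codisjoint)
      rw [Subgroup.map_sup, Subgroup.map_subgroupOf_eq_of_le hYX] at h1
      rw [h1, ← MonoidHom.range_eq_map, Subgroup.range_subtype]
    · have h1 := congrArg (Subgroup.map X.subtype) (disjoint_iff.mp hC'.disjoint)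
      rw [Subgroup.map_inf _ _ _ X.subtype_injective, Subgroup.map_subgroupOf_eq_of_le hYX,
        Subgroup.map_bot] at h1
      exact h1
  have hA : ∀ H : Subgroup G, ¬ H ≤ M.normalCore → ∃ C : Subgroup G, H ⊔ C = ⊤ ∧ H ⊓ C = ⊥ := by
    intro H hH
    rw [SetLike.not_le_iff_exists] at hH
    obtain ⟨h, hhH, hh⟩ := hH
    have : ∃ b : G, b * h * b⁻¹ ∉ M := by
      by_contra hcon
      push Not at hcon
      exact hh hcon
    obtain ⟨b, hb⟩ := this
    have hH' : ¬ H.map (MulAut.conj b).toMonoidHom ≤ M := by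
      intro hle
      exact hb (hle ⟨h, hhH, by simp [MulAut.conj_apply]⟩)
    obtain ⟨C', hsup, hinf⟩ := Cfsg.Agent.S5901.result ⊥ X M bot_le hX hint hM hXM huniq
      (H.map (MulAut.conj b).toMonoidHom) hH' (by simp)
    have hback : (H.map (MulAut.conj b).toMonoidHom).map (MulAut.conj b).symm.toMonoidHom = H := by
      rw [Subgroup.map_map]
      have : (MulAut.conj b).symm.toMonoidHom.comp (MulAut.conj b).toMonoidHom = MonoidHom.id G := by
        ext x; simp
      rw [this, Subgroup.map_id]
    refine ⟨C'.map (MulAut.conj b).symm.toMonoidHom, ?_, ?_⟩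
    · have h1 := congrArg (Subgroup.map (MulAut.conj b).symm.toMonoidHom) hsup
      rw [Subgroup.map_sup, hback, Subgroup.map_top_of_surjective _ (MulAut.conj b).symm.surjective] at h1
      exact h1
    · have h1 := congrArg (Subgroup.map (MulAut.conj b).symm.toMonoidHom) hinf
      rw [Subgroup.map_inf _ _ _ (MulAut.conj b).symm.injective, hback, Subgroup.map_bot] at h1
      exact h1
  refine ⟨hA, ⟨fun Hbar => ?_⟩⟩
  by_cases hbot : Hbar = ⊥
  · subst hbot
    exact ⟨⊤, isCompl_bot_top⟩
  · have hsurj : Function.Surjective (QuotientGroup.mk' M.normalCore) := QuotientGroup.mk'_surjective _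
    have hnle : ¬ Hbar.comap (QuotientGroup.mk' M.normalCore) ≤ M.normalCore := by
      intro hle
      apply hbot
      rw [Subgroup.eq_bot_iff_forall]
      intro x hx
      obtain ⟨g, rfl⟩ := hsurj x
      have : g ∈ M.normalCore := hle hx
      simpa using this
    obtain ⟨C, hsup, hinf⟩ := hA _ hnle
    refine ⟨C.map (QuotientGroup.mk' M.normalCore), ?_⟩
    rw [isCompl_iff, disjoint_iff, codisjoint_iff]
    constructor
    · rw [Subgroup.eq_bot_iff_forall]
      rintro x ⟨hx1, ⟨c, hc, rfl⟩⟩
      have : c ∈ Hbar.comap (QuotientGroup.mk' M.normalCore) ⊓ C := ⟨hx1, hc⟩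
      rw [hinf, Subgroup.mem_bot] at this
      rw [this]; simp
    · have h1 := congrArg (Subgroup.map (QuotientGroup.mk' M.normalCore)) hsup
      rw [Subgroup.map_sup, Subgroup.map_comap_eq_self_of_surjective hsurj,
        Subgroup.map_top_of_surjective _ hsurj] at h1
      exact h1

end Cfsg.Agent.S5902
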