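import Cfsg.Statements.S5903
import Mathlib
import Cfsg.Agent.S5901

set_option autoImplicit false
open Cfsg

namespace Cfsg.Agent.S5903

/-- Let G be a finite simple group, X a subgroup lying in exactly one maximal subgroup M of G, and N a subgroup of prime order with N ≤ X that is central in M. If the subgroup lattice of X/N is complemented, then the subgroup lattice of G is complemented. -/
theorem result {G : Type*} [Group G] [Finite G] [IsSimpleGroup G] (X M N : Subgroup G)
    (hM : IsCoatom M) (hXM : X ≤ M) (huniq : ∀ M' : Subgroup G, IsCoatom M' → X ≤ M' → M' = M)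
    (hNX : N ≤ X) (hN : (Nat.card N).Prime) (hcen : ∀ n ∈ N, ∀ m ∈ M, m * n = n * m)
    [(N.subgroupOf X).Normal] (hK : ComplementedLattice (Subgroup (X ⧸ N.subgroupOf X))) :
    ComplementedLattice (Subgroup G) := by
  classical
  have hX : X ≠ ⊤ := by
    rintro rfl
    exact hM.1 (top_le_iff.mp hXM)
  -- the interval [N, X] is complemented
  have hint : ∀ Y : Subgroup G, N ≤ Y → Y ≤ X →
      ∃ C : Subgroup G, N ≤ C ∧ C ≤ X ∧ Y ⊔ C = X ∧ Y ⊓ C = N := by
    intro Y hNY hYX
    have hsurj : Function.Surjective (QuotientGroup.mk' (N.subgroupOf X)) :=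
      QuotientGroup.mk'_surjective _
    have hker : (QuotientGroup.mk' (N.subgroupOf X)).ker = N.subgroupOf X := QuotientGroup.ker_mk' _
    obtain ⟨Cb, hCb⟩ := hK.exists_isCompl ((Y.subgroupOf X).map (QuotientGroup.mk' (N.subgroupOf X)))
    have hYc : ((Y.subgroupOf X).map (QuotientGroup.mk' (N.subgroupOf X))).comap
        (QuotientGroup.mk' (N.subgroupOf X)) = Y.subgroupOf X := by
      apply Subgroup.comap_map_eq_self
      rw [hker]
      exact Subgroup.subgroupOf_mono X hNY
    refine ⟨(Cb.comap (QuotientGroup.mk' (N.subgroupOf X))).map X.subtype, ?_,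
      Subgroup.map_subtype_le _, ?_, ?_⟩
    · intro n hn
      refine ⟨⟨n, hNX hn⟩, ?_, rfl⟩
      show QuotientGroup.mk' (N.subgroupOf X) ⟨n, hNX hn⟩ ∈ Cb
      have : QuotientGroup.mk' (N.subgroupOf X) ⟨n, hNX hn⟩ = 1 := by
        rw [← MonoidHom.mem_ker, hker]
        exact hn
      rw [this]; exact Cb.one_mem
    · have h1 : Y.subgroupOf X ⊔ Cb.comap (QuotientGroup.mk' (N.subgroupOf X)) = ⊤ := by
        rw [← hYc, Subgroup.comap_sup_eq _ _ _ hsurj, codisjoint_iff.mp hCb.codisjoint,
          Subgroup.comap_top]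
      have h2 := congrArg (Subgroup.map X.subtype) h1
      rw [Subgroup.map_sup, Subgroup.map_subgroupOf_eq_of_le hYX, ← MonoidHom.range_eq_map,
        Subgroup.range_subtype] at h2
      exact h2
    · have h1 : Y.subgroupOf X ⊓ Cb.comap (QuotientGroup.mk' (N.subgroupOf X)) = N.subgroupOf X := by
        rw [← hYc, ← Subgroup.comap_inf, disjoint_iff.mp hCb.disjoint, MonoidHom.comap_bot, hker]
      have h2 := congrArg (Subgroup.map X.subtype) h1
      rw [Subgroup.map_inf _ _ _ X.subtype_injective, Subgroup.map_subgroupOf_eq_of_le hYX,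
        Subgroup.map_subgroupOf_eq_of_le hNX] at h2
      exact h2
  -- N is nontrivial of prime order
  have hNbot : N ≠ ⊥ := by
    rintro rfl
    simp at hN
    exact Nat.not_prime_one hN
  obtain ⟨n0, hn0N, hn01⟩ : ∃ n ∈ N, n ≠ 1 := by
    by_contra hcon
    push Not at hcon
    exact hNbot ((Subgroup.eq_bot_iff_forall _).mpr hcon)
  have hdich : ∀ K : Subgroup G, K ⊓ N = ⊥ ∨ N ≤ K := by
    intro K
    have hdvd : Nat.card (K ⊓ N : Subgroup G) ∣ Nat.card N := Subgroup.card_dvd_of_le inf_le_right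
    rcases (Nat.dvd_prime hN).mp hdvd with h | h
    · left; exact Subgroup.eq_bot_of_card_eq _ h
    · right
      have : K ⊓ N = N := Subgroup.eq_of_le_of_card_ge inf_le_right (le_of_eq h.symm)
      rw [← this]; exact inf_le_left
  -- the core of M is trivial
  have hcore : M.normalCore = ⊥ := by
    rcases (M.normalCore_normal).eq_bot_or_eq_top with h | h
    · exact h
    · exact absurd (top_le_iff.mp (h ▸ M.normalCore_le)) hM.1
  refine ⟨fun H => ?_⟩
  by_cases hHbot : H = ⊥
  · subst hHbot; exact ⟨⊤, isCompl_bot_top⟩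
  by_cases hHtop : H = ⊤
  · subst hHtop; exact ⟨⊥, isCompl_top_bot⟩
  -- key claim
  have key : ∃ g : G, ¬ (∀ h ∈ H, g⁻¹ * h * g ∈ M) ∧ ¬ (∀ n ∈ N, g * n * g⁻¹ ∈ H) := by
    by_contra hcon
    have hass : ∀ g : G, (∀ h ∈ H, g⁻¹ * h * g ∈ M) ∨ (∀ n ∈ N, g * n * g⁻¹ ∈ H) := by
      intro g
      by_contra h
      exact hcon ⟨g, not_or.mp h⟩
    let SA : Set G := {x | ∃ g : G, (∀ n ∈ N, g * n * g⁻¹ ∈ H) ∧ ∃ n ∈ N, x = g * n * g⁻¹}
    let SB : Set G := {x | ∃ g : G, ¬ (∀ n ∈ N, g * n * g⁻¹ ∈ H) ∧ ∃ n ∈ N, x = g * n * g⁻¹}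
    have hSAH : SA ⊆ H := by
      rintro x ⟨g, hg, n, hn, rfl⟩
      exact hg n hn
    have hcomm : ∀ x ∈ SA, ∀ y ∈ SB, x * y = y * x := by
      rintro x hx y ⟨g', hg', n', hn', rfl⟩
      have hxH : x ∈ H := hSAH hx
      have hm : g'⁻¹ * x * g' ∈ M := (hass g').resolve_right hg' x hxH
      have hc := hcen n' hn' _ hm
      calc x * (g' * n' * g'⁻¹) = g' * ((g'⁻¹ * x * g') * n') * g'⁻¹ := by group
        _ = g' * (n' * (g'⁻¹ * x * g')) * g'⁻¹ := by rw [hc]
        _ = g' * n' * g'⁻¹ * x := by group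
    have hgen : Subgroup.closure (SA ∪ SB) = ⊤ := by
      have h1 : Subgroup.normalClosure (N : Set G) = ⊤ := by
        rcases (Subgroup.normalClosure_normal (s := (N : Set G))).eq_bot_or_eq_top with h | h
        · exfalso
          apply hNbot
          rw [eq_bot_iff, ← h]
          exact Subgroup.le_normalClosure
        · exact h
      rw [eq_top_iff, ← h1]
      apply Subgroup.closure_mono
      intro x hx
      rw [Group.mem_conjugatesOfSet_iff] at hx
      obtain ⟨a, ha, hax⟩ := hx
      obtain ⟨c, rfl⟩ := isConj_iff.mp hax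
      by_cases hc : ∀ n ∈ N, c * n * c⁻¹ ∈ H
      · exact Or.inl ⟨c, hc, a, ha, rfl⟩
      · exact Or.inr ⟨c, hc, a, ha, rfl⟩
    have hAH : Subgroup.closure SA ≤ H := (Subgroup.closure_le H).mpr hSAH
    have hAnorm : (Subgroup.closure SA).Normal := by
      rw [← Subgroup.normalizer_eq_top_iff, eq_top_iff, ← hgen, Subgroup.closure_le]
      rintro x (hx | hx)
      · exact Subgroup.le_normalizer (Subgroup.subset_closure hx)
      · apply Subgroup.centralizer_le_normalizer
        rw [Subgroup.mem_centralizer_iff]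
        intro a ha
        have : Subgroup.closure SA ≤ Subgroup.centralizer ({x} : Set G) := by
          rw [Subgroup.closure_le]
          intro y hy
          rw [SetLike.mem_coe, Subgroup.mem_centralizer_iff]
          intro z hz
          rw [Set.mem_singleton_iff] at hz
          subst hz
          exact (hcomm y hy z hx).symm
        have h2 := this ha
        rw [Subgroup.mem_centralizer_iff] at h2
        exact (h2 x rfl).symm
    have hAbot : Subgroup.closure SA = ⊥ := by
      rcases hAnorm.eq_bot_or_eq_top with h | h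
      · exact h
      · exact absurd (top_le_iff.mp (h ▸ hAH)) hHtop
    -- but SA contains a nontrivial element
    obtain ⟨h0, hh0H, hh01⟩ : ∃ h ∈ H, h ≠ 1 := by
      by_contra hcon2
      push Not at hcon2
      exact hHbot ((Subgroup.eq_bot_iff_forall _).mpr hcon2)
    have hh0core : h0 ∉ M.normalCore := by rw [hcore]; simpa using hh01
    have : ∃ b : G, b * h0 * b⁻¹ ∉ M := by
      by_contra hcon2
      push Not at hcon2
      exact hh0core hcon2
    obtain ⟨b, hb⟩ := this
    have hb' : ¬ (∀ h ∈ H, (b⁻¹)⁻¹ * h * b⁻¹ ∈ M) := by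
      intro hall
      apply hb
      have := hall h0 hh0H
      rwa [inv_inv] at this
    have hN' := (hass b⁻¹).resolve_left hb'
    have hmem : b⁻¹ * n0 * (b⁻¹)⁻¹ ∈ Subgroup.closure SA :=
      Subgroup.subset_closure ⟨b⁻¹, hN', n0, hn0N, rfl⟩
    rw [hAbot, Subgroup.mem_bot] at hmem
    apply hn01
    calc n0 = (b⁻¹)⁻¹ * (b⁻¹ * n0 * (b⁻¹)⁻¹) * b⁻¹ := by group
      _ = 1 := by rw [hmem]; group
  obtain ⟨g, hg1, hg2⟩ := key
  have hH'M : ¬ H.map (MulAut.conj g⁻¹).toMonoidHom ≤ M := by
    intro hle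
    apply hg1
    intro h hh
    have := hle ⟨h, hh, rfl⟩
    simpa [MulAut.conj_apply] using this
  have hH'N : H.map (MulAut.conj g⁻¹).toMonoidHom ⊓ N = ⊥ := by
    rcases hdich (H.map (MulAut.conj g⁻¹).toMonoidHom) with h | h
    · exact h
    · exfalso
      apply hg2
      intro n hn
      obtain ⟨h', hh', e⟩ := h hn
      have e' : g⁻¹ * h' * g = n := by simpa [MulAut.conj_apply] using e
      rw [← e']
      have : g * (g⁻¹ * h' * g) * g⁻¹ = h' := by group
      rw [this]; exact hh'
  obtain ⟨C', hsup, hinf⟩ := Cfsg.Agent.S5901.result N X M hNX hX hint hM hXM huniq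
    (H.map (MulAut.conj g⁻¹).toMonoidHom) hH'M hH'N
  have hback : (H.map (MulAut.conj g⁻¹).toMonoidHom).map (MulAut.conj g⁻¹).symm.toMonoidHom = H := by
    rw [Subgroup.map_map]
    have : (MulAut.conj g⁻¹).symm.toMonoidHom.comp (MulAut.conj g⁻¹).toMonoidHom = MonoidHom.id G := by
      ext x; simp; group
    rw [this, Subgroup.map_id]
  refine ⟨C'.map (MulAut.conj g⁻¹).symm.toMonoidHom, ?_⟩
  rw [isCompl_iff, disjoint_iff, codisjoint_iff]
  constructor
  · have h1 := congrArg (Subgroup.map (MulAut.conj g⁻¹).symm.toMonoidHom) hinf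
    rw [Subgroup.map_inf _ _ _ (MulAut.conj g⁻¹).symm.injective, hback, Subgroup.map_bot] at h1
    exact h1
  · have h1 := congrArg (Subgroup.map (MulAut.conj g⁻¹).symm.toMonoidHom) hsup
    rw [Subgroup.map_sup, hback, Subgroup.map_top_of_surjective _ (MulAut.conj g⁻¹).symm.surjective] at h1
    exact h1

end Cfsg.Agent.S5903
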