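import Cfsg.Statements.S5904
import Mathlib

set_option autoImplicit false
open scoped Pointwise
open Cfsg

namespace Cfsg.Agent.S5904

/-- the stabilizer of the partition `{O, Oᶜ}` -/
def partStab {Ω : Type*} (O : Set Ω) : Subgroup (Equiv.Perm Ω) where
  carrier := {g | g • O = O ∨ g • O = Oᶜ}
  one_mem' := Or.inl (one_smul _ _)
  mul_mem' := by
    rintro a b (ha | ha) (hb | hb)
    · left; rw [mul_smul, hb, ha]
    · right; rw [mul_smul, hb, Set.smul_set_compl, ha]
    · right; rw [mul_smul, hb, ha]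
    · left; rw [mul_smul, hb, Set.smul_set_compl, ha, compl_compl]
  inv_mem' := by
    rintro a (ha | ha)
    · left; rw [inv_smul_eq_iff, ha]
    · right; rw [inv_smul_eq_iff, Set.smul_set_compl, ha, compl_compl]

/-- Let Ω be a finite set with more than two elements and O ⊆ Ω a subset with exactly as many elements as its complement. Then the setwise stabilizer of O in the symmetric group on Ω is not a maximal subgroup (it is properly contained in the stabilizer of the partition {O, Ω ∖ O}, which is proper). -/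
theorem result {Ω : Type*} [Fintype Ω] [DecidableEq Ω] (hΩ : 2 < Fintype.card Ω)
    (O : Set Ω) (hO : Nat.card O = Nat.card ↥Oᶜ) :
    ¬ IsCoatom (MulAction.stabilizer (Equiv.Perm Ω) O) := by
  classical
  intro hco
  -- cardinalities
  have hsum : Nat.card O + Nat.card ↥Oᶜ = Fintype.card Ω := by
    have := Set.ncard_add_ncard_compl O
    rw [Nat.card_coe_set_eq, Nat.card_coe_set_eq, this, Nat.card_eq_fintype_card]
  have hO2 : 2 ≤ Nat.card O := by omega
  have hO2' : 2 ≤ O.ncard := by rwa [Nat.card_coe_set_eq] at hO2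
  have hOc2 : 2 ≤ Oᶜ.ncard := by rw [← Nat.card_coe_set_eq]; omega
  obtain ⟨a, ha, a', ha', haa'⟩ : ∃ a ∈ O, ∃ a' ∈ O, a ≠ a' := by
    have : 1 < O.ncard := hO2'
    rw [Set.one_lt_ncard_iff] at this
    obtain ⟨a, b, ha, hb, hab⟩ := this
    exact ⟨a, ha, b, hb, hab⟩
  obtain ⟨b, hb⟩ : ∃ b, b ∈ Oᶜ := by
    have : Oᶜ.ncard ≠ 0 := by omega
    exact (Set.nonempty_of_ncard_ne_zero this)
  -- the stabilizer is contained in partStab
  have hle : MulAction.stabilizer (Equiv.Perm Ω) O ≤ partStab O := by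
    intro g hg
    exact Or.inl (MulAction.mem_stabilizer_iff.mp hg)
  -- a permutation swapping `O` and `Oᶜ`
  obtain ⟨e⟩ : Nonempty (O ≃ ↥Oᶜ) := Finite.card_eq.mp hO
  let g : Equiv.Perm Ω := (Equiv.Set.sumCompl O).symm.trans
    ((Equiv.sumCongr e e.symm).trans ((Equiv.sumComm _ _).trans (Equiv.Set.sumCompl O)))
  have hg1 : ∀ x (hx : x ∈ O), g x = (e ⟨x, hx⟩ : Ω) := by
    intro x hx
    simp [g, Equiv.Set.sumCompl_symm_apply_of_mem hx]
  have hgO : g • O = Oᶜ := by
    ext y
    constructor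
    · rintro ⟨x, hx, rfl⟩
      change g x ∈ Oᶜ
      rw [hg1 x hx]
      exact (e ⟨x, hx⟩).2
    · intro hy
      refine ⟨(e.symm ⟨y, hy⟩ : Ω), (e.symm ⟨y, hy⟩).2, ?_⟩
      change g _ = y
      rw [hg1 _ (e.symm ⟨y, hy⟩).2]
      simp
  have hgK : g ∈ partStab O := Or.inr hgO
  have hgS : g ∉ MulAction.stabilizer (Equiv.Perm Ω) O := by
    intro h
    rw [MulAction.mem_stabilizer_iff, hgO] at h
    have : a ∈ Oᶜ := by rw [h]; exact ha
    exact this ha
  have hlt : MulAction.stabilizer (Equiv.Perm Ω) O < partStab O :=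
    lt_of_le_of_ne hle (fun h => hgS (h ▸ hgK))
  have htop := hco.2 _ hlt
  -- but a transposition is not in partStab
  have hsw : Equiv.swap a b ∈ partStab O := by rw [htop]; trivial
  have hb' : b ∉ O := hb
  rcases hsw with h | h
  · have : b ∈ Equiv.swap a b • O := ⟨a, ha, by simp⟩
    rw [h] at this
    exact hb' this
  · have : a' ∈ Equiv.swap a b • O := by
      refine ⟨a', ha', ?_⟩
      change Equiv.swap a b a' = a'
      rw [Equiv.swap_apply_of_ne_of_ne (Ne.symm haa')]
      rintro rfl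
      exact hb' ha'
    rw [h] at this
    exact this ha'

end Cfsg.Agent.S5904
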