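import Cfsg.Statements.S5905
import Mathlib
import Cfsg.Agent.Lib.Helper9.Wreath

set_option autoImplicit false
open Cfsg

namespace Cfsg.Agent.S5905

/-- Let Ω be a finite set and f : Ω → Fin b a map onto b ≥ 2 labels whose fibres all have the same size a ≥ 2 (a partition of Ω into b blocks of size a, so |Ω| = ab). Then the stabilizer of this partition in the symmetric group on Ω — the permutations g such that x and y lie in the same block exactly when g x and g y do, a group isomorphic to the imprimitive wreath product S_a ≀ S_b — is a maximal subgroup of the symmetric group. -/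
theorem result {Ω : Type*} [Fintype Ω] [DecidableEq Ω] (a b : ℕ) (ha : 2 ≤ a) (hb : 2 ≤ b)
    (f : Ω → Fin b) (hf : ∀ i : Fin b, Nat.card {x : Ω // f x = i} = a) :
    IsCoatom (Subgroup.closure {g : Equiv.Perm Ω | ∀ x y : Ω, f x = f y ↔ f (g x) = f (g y)}) := by
  classical
  have hclos : Subgroup.closure {g : Equiv.Perm Ω | ∀ x y : Ω, f x = f y ↔ f (g x) = f (g y)}
      = Lib.Helper9.blockStab f := Subgroup.closure_eq (Lib.Helper9.blockStab f)
  rw [hclos]
  have hfib : ∀ i : Fin b, ∃ x y : Ω, x ≠ y ∧ f x = i ∧ f y = i := by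
    intro i
    have h := hf i
    have h1 : 1 < Nat.card {x : Ω // f x = i} := by omega
    rw [Finite.one_lt_card_iff_nontrivial] at h1
    obtain ⟨⟨x, hx⟩, ⟨y, hy⟩, hne⟩ := exists_pair_ne {x : Ω // f x = i}
    exact ⟨x, y, fun h => hne (Subtype.ext h), hx, hy⟩
  have hcard : ∀ i j : Fin b, Nat.card {x : Ω // f x = i} = Nat.card {x : Ω // f x = j} :=
    fun i j => (hf i).trans (hf j).symm
  constructor
  · obtain ⟨x, y, hxy, hx, hy⟩ := hfib ⟨0, by omega⟩
    obtain ⟨z, _, _, hz, _⟩ := hfib ⟨1, by omega⟩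
    refine Lib.Helper9.blockStab_ne_top f x y z hxy (hx.trans hy.symm) ?_
    rw [hx, hz]
    simp [Fin.ext_iff]
  · intro L hL
    exact Lib.Helper9.eq_top_of_blockStab_lt f hcard L hL

end Cfsg.Agent.S5905
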