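import Cfsg.Statements.S5910
import Mathlib

set_option autoImplicit false
open Cfsg

namespace Cfsg.Agent.S5910

/-- Bitwise xor on `Fin 4`. -/
def x4 (a b : Fin 4) : Fin 4 := ⟨(a.val ^^^ b.val) % 4, Nat.mod_lt _ (by norm_num)⟩

/-- The ternary affine sum on `Fin 4 × Fin 2`, seen as the three-dimensional space over the field with two elements. -/
def t3 (p q r : Fin 4 × Fin 2) : Fin 4 × Fin 2 := (x4 (x4 p.1 q.1) r.1, p.2 + q.2 + r.2)

theorem perm4_affine : ∀ π : Equiv.Perm (Fin 4), ∀ i j k : Fin 4,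
    π (x4 (x4 i j) k) = x4 (x4 (π i) (π j)) (π k) := by decide

theorem tau_affine : ∀ τ : Fin 4 → Equiv.Perm (Fin 2), (∏ i, Equiv.Perm.sign (τ i)) = 1 →
    ∀ i j k : Fin 4, ∀ a b c : Fin 2, τ (x4 (x4 i j) k) (a + b + c) = τ i a + τ j b + τ k c := by
  decide

theorem exists_equiv {Ω : Type*} [Fintype Ω] (f : Ω → Fin 4)
    (hf : ∀ i : Fin 4, Nat.card {x : Ω // f x = i} = 2) :
    ∃ e : Ω ≃ Fin 4 × Fin 2, ∀ x, (e x).1 = f x := by
  refine ⟨(Equiv.sigmaFiberEquiv f).symm.trans ((Equiv.sigmaCongrRight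
    (fun i => Finite.equivFinOfCardEq (hf i))).trans (Equiv.sigmaEquivProd (Fin 4) (Fin 2))), ?_⟩
  intro x
  rfl

theorem key {Ω : Type*} [Fintype Ω] [DecidableEq Ω] (f : Ω → Fin 4) (e : Ω ≃ Fin 4 × Fin 2)
    (he : ∀ x, (e x).1 = f x) (g : Equiv.Perm Ω)
    (hg : ∀ x y : Ω, f x = f y ↔ f (g x) = f (g y)) (hs : Equiv.Perm.sign g = 1) (x y z : Ω) :
    g (e.symm (t3 (e x) (e y) (e z))) = e.symm (t3 (e (g x)) (e (g y)) (e (g z))) := by
  set g' : Equiv.Perm (Fin 4 × Fin 2) := (e.symm.trans g).trans e with hg'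
  have hg'a : ∀ p, g' p = e (g (e.symm p)) := fun p => rfl
  have hg'1 : ∀ p q : Fin 4 × Fin 2, p.1 = q.1 ↔ (g' p).1 = (g' q).1 := by
    intro p q
    have h1 := hg (e.symm p) (e.symm q)
    simp only [← he, Equiv.apply_symm_apply] at h1
    rw [hg'a, hg'a]
    exact h1
  have hs' : Equiv.Perm.sign g' = 1 := by
    rw [hg', Equiv.Perm.sign_symm_trans_trans]; exact hs
  have hπinj : Function.Injective (fun i : Fin 4 => (g' (i, 0)).1) := by
    intro i j hij
    exact (hg'1 (i, 0) (j, 0)).mpr hij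
  let π : Equiv.Perm (Fin 4) := Equiv.ofBijective _ (Finite.injective_iff_bijective.mp hπinj)
  have hτinj : ∀ i : Fin 4, Function.Injective (fun b : Fin 2 => (g' (i, b)).2) := by
    intro i b c hbc
    have h1 : (g' (i, b)).1 = (g' (i, c)).1 := (hg'1 (i, b) (i, c)).mp rfl
    have h2 : g' (i, b) = g' (i, c) := Prod.ext h1 hbc
    have h3 := g'.injective h2
    exact (Prod.mk.inj h3).2
  let τ : Fin 4 → Equiv.Perm (Fin 2) := fun i =>
    Equiv.ofBijective _ (Finite.injective_iff_bijective.mp (hτinj i))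
  have hform : ∀ p : Fin 4 × Fin 2, g' p = (π p.1, τ p.1 p.2) := by
    rintro ⟨i, b⟩
    apply Prod.ext
    · exact (hg'1 (i, b) (i, 0)).mp rfl
    · rfl
  have hg'eq : g' = Equiv.prodCongrLeft (fun _ : Fin 2 => π) * Equiv.prodCongrRight τ := by
    apply Equiv.ext
    intro p
    rw [hform]
    rfl
  have hprod : (∏ i, Equiv.Perm.sign (τ i)) = 1 := by
    have h1 := hs'
    rw [hg'eq, Equiv.Perm.sign_mul, Equiv.Perm.sign_prodCongrLeft,
      Equiv.Perm.sign_prodCongrRight] at h1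
    rw [Fin.prod_univ_two, Int.units_mul_self, one_mul] at h1
    exact h1
  have haff : ∀ p q r : Fin 4 × Fin 2, g' (t3 p q r) = t3 (g' p) (g' q) (g' r) := by
    intro p q r
    rw [hform, hform p, hform q, hform r]
    apply Prod.ext
    · exact perm4_affine π p.1 q.1 r.1
    · exact tau_affine τ hprod p.1 q.1 r.1 p.2 q.2 r.2
  apply e.injective
  rw [Equiv.apply_symm_apply]
  have h2 := haff (e x) (e y) (e z)
  rw [hg'a, hg'a, hg'a, hg'a] at h2
  simpa using h2

/-- An affine map which does not preserve the partition. -/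
def kk : Equiv.Perm (Fin 4 × Fin 2) := Equiv.swap (0, 1) (1, 0) * Equiv.swap (2, 1) (3, 0)

/-- A three-cycle, which is not affine. -/
def aa : Equiv.Perm (Fin 4 × Fin 2) := Equiv.swap (0, 0) (0, 1) * Equiv.swap (0, 1) (1, 0)

theorem kk_affine : ∀ p q r : Fin 4 × Fin 2, kk (t3 p q r) = t3 (kk p) (kk q) (kk r) := by
  decide

theorem kk_sign : Equiv.Perm.sign kk = 1 := by
  unfold kk
  rw [Equiv.Perm.sign_mul, Equiv.Perm.sign_swap (by decide), Equiv.Perm.sign_swap (by decide)]
  rfl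

theorem aa_sign : Equiv.Perm.sign aa = 1 := by
  unfold aa
  rw [Equiv.Perm.sign_mul, Equiv.Perm.sign_swap (by decide), Equiv.Perm.sign_swap (by decide)]
  rfl

theorem aa_not : aa (t3 (2, 0) (2, 1) (1, 1)) ≠ t3 (aa (2, 0)) (aa (2, 1)) (aa (1, 1)) := by
  decide

theorem kk_not : (kk (0, 1)).1 ≠ (kk (0, 0)).1 := by decide

/-- Let Ω be a set with 8 elements and f : Ω → Fin 4 a labelling whose four fibres all have size 2 (a partition of the 8 points into 4 pairs). Then the group of even permutations preserving this partition, (S₂ ≀ S₄) ∩ A₈, is not a maximal subgroup of the alternating group A₈ (it lies in a subgroup isomorphic to the affine group AGL₃(2)). -/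
theorem result {Ω : Type*} [Fintype Ω] [DecidableEq Ω] (h8 : Fintype.card Ω = 8)
    (f : Ω → Fin 4) (hf : ∀ i : Fin 4, Nat.card {x : Ω // f x = i} = 2) :
    ¬ IsCoatom ((Subgroup.closure {g : Equiv.Perm Ω | ∀ x y : Ω, f x = f y ↔ f (g x) = f (g y)} ⊓ alternatingGroup Ω).subgroupOf (alternatingGroup Ω)) := by
  classical
  obtain ⟨e, he⟩ := exists_equiv f hf
  let K : Subgroup (Equiv.Perm Ω) :=
    { carrier := {g | Equiv.Perm.sign g = 1 ∧
        ∀ x y z, g (e.symm (t3 (e x) (e y) (e z))) = e.symm (t3 (e (g x)) (e (g y)) (e (g z)))}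
      mul_mem' := by
        rintro a b ⟨ha1, ha2⟩ ⟨hb1, hb2⟩
        refine ⟨by rw [Equiv.Perm.sign_mul, ha1, hb1, one_mul], fun x y z => ?_⟩
        simp only [Equiv.Perm.mul_apply]
        rw [hb2, ha2]
      one_mem' := ⟨Equiv.Perm.sign_one, fun x y z => rfl⟩
      inv_mem' := by
        rintro a ⟨ha1, ha2⟩
        refine ⟨by rw [Equiv.Perm.sign_inv, ha1], fun x y z => ?_⟩
        apply a.injective
        rw [ha2]
        simp }
  have hmemK : ∀ g : Equiv.Perm Ω, g ∈ K ↔ (Equiv.Perm.sign g = 1 ∧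
        ∀ x y z, g (e.symm (t3 (e x) (e y) (e z))) = e.symm (t3 (e (g x)) (e (g y)) (e (g z)))) :=
    fun g => Iff.rfl
  have hS : ∀ g ∈ Subgroup.closure {g : Equiv.Perm Ω | ∀ x y : Ω, f x = f y ↔ f (g x) = f (g y)},
      ∀ x y : Ω, f x = f y ↔ f (g x) = f (g y) := by
    intro g hg
    induction hg using Subgroup.closure_induction with
    | mem g hg => exact hg
    | one => intro x y; rfl
    | mul a b _ _ ha hb =>
      intro x y
      rw [Equiv.Perm.mul_apply, Equiv.Perm.mul_apply, ← ha, ← hb]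
    | inv a _ ha =>
      intro x y
      have h1 := ha (a⁻¹ x) (a⁻¹ y)
      have e1 : a (a⁻¹ x) = x := by simp
      have e2 : a (a⁻¹ y) = y := by simp
      rw [e1, e2] at h1
      exact h1.symm
  have hKA : K ≤ alternatingGroup Ω := fun g hg => Equiv.Perm.mem_alternatingGroup.mpr hg.1
  have hHK : Subgroup.closure {g : Equiv.Perm Ω | ∀ x y : Ω, f x = f y ↔ f (g x) = f (g y)} ⊓
      alternatingGroup Ω ≤ K := by
    intro g hg
    have h1 := hS g hg.1
    have h2 : Equiv.Perm.sign g = 1 := Equiv.Perm.mem_alternatingGroup.mp hg.2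
    exact ⟨h2, fun x y z => key f e he g h1 h2 x y z⟩
  -- the two explicit elements
  have conj_apply : ∀ (p : Equiv.Perm (Fin 4 × Fin 2)) (x : Ω),
      ((e.trans p).trans e.symm) x = e.symm (p (e x)) := fun p x => rfl
  have hkK : ((e.trans kk).trans e.symm) ∈ K := by
    rw [hmemK]
    refine ⟨by rw [Equiv.Perm.sign_trans_trans_symm]; exact kk_sign, fun x y z => ?_⟩
    simp only [conj_apply, Equiv.apply_symm_apply]
    rw [kk_affine]
  have hkH : ((e.trans kk).trans e.symm) ∉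
      Subgroup.closure {g : Equiv.Perm Ω | ∀ x y : Ω, f x = f y ↔ f (g x) = f (g y)} ⊓
      alternatingGroup Ω := by
    intro hk
    have h0 : f (e.symm (0, 1)) = f (e.symm (0, 0)) := by
      rw [← he, ← he, Equiv.apply_symm_apply, Equiv.apply_symm_apply]
    have h1 := (hS _ hk.1 (e.symm (0, 1)) (e.symm (0, 0))).mp h0
    simp only [← he, conj_apply, Equiv.apply_symm_apply] at h1
    exact kk_not h1
  have haA : ((e.trans aa).trans e.symm) ∈ alternatingGroup Ω := by
    rw [Equiv.Perm.mem_alternatingGroup, Equiv.Perm.sign_trans_trans_symm]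
    exact aa_sign
  have haK : ((e.trans aa).trans e.symm) ∉ K := by
    intro ha
    rw [hmemK] at ha
    have h1 := ha.2 (e.symm (2, 0)) (e.symm (2, 1)) (e.symm (1, 1))
    simp only [conj_apply, Equiv.apply_symm_apply] at h1
    exact aa_not (e.symm.injective h1)
  intro hco
  have hlt : (Subgroup.closure {g : Equiv.Perm Ω | ∀ x y : Ω, f x = f y ↔ f (g x) = f (g y)} ⊓
      alternatingGroup Ω).subgroupOf (alternatingGroup Ω) < K.subgroupOf (alternatingGroup Ω) := by
    refine lt_of_le_of_ne ?_ ?_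
    · intro x hx
      rw [Subgroup.mem_subgroupOf] at hx ⊢
      exact hHK hx
    · intro heq
      have hk : (⟨_, hKA hkK⟩ : alternatingGroup Ω) ∈ K.subgroupOf (alternatingGroup Ω) := by
        rw [Subgroup.mem_subgroupOf]; exact hkK
      rw [← heq, Subgroup.mem_subgroupOf] at hk
      exact hkH hk
  have htop := hco.2 _ hlt
  rw [Subgroup.subgroupOf_eq_top] at htop
  exact haK (htop haA)

end Cfsg.Agent.S5910
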