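import Cfsg.Statements.S5911
import Mathlib

set_option autoImplicit false
open Cfsg

namespace Cfsg.Agent.S5911

open Nat in
theorem fact_lt (j : ℕ) : 2 ^ (j + 3) * (j + 4)! < (2 * j + 6)! := by
  induction j with
  | zero => decide
  | succ j ih =>
    have h1 : (2 * (j + 1) + 6)! = (2 * j + 8) * ((2 * j + 7) * (2 * j + 6)!) := by
      rw [show 2 * (j + 1) + 6 = (2 * j + 6) + 1 + 1 by ring, Nat.factorial_succ,
        Nat.factorial_succ]
    have h2 : (j + 1 + 4)! = (j + 5) * (j + 4)! := by
      rw [show j + 1 + 4 = (j + 4) + 1 by ring, Nat.factorial_succ]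
    have h3 : 2 ^ (j + 1 + 3) = 2 * 2 ^ (j + 3) := by ring
    rw [h1, h2, h3]
    have h4 : 2 * (j + 5) ≤ (2 * j + 8) * (2 * j + 7) := by nlinarith
    calc 2 * 2 ^ (j + 3) * ((j + 5) * (j + 4)!)
        = (2 * (j + 5)) * (2 ^ (j + 3) * (j + 4)!) := by ring
      _ < (2 * (j + 5)) * (2 * j + 6)! := (Nat.mul_lt_mul_left (by omega)).mpr ih
      _ ≤ ((2 * j + 8) * (2 * j + 7)) * (2 * j + 6)! := Nat.mul_le_mul_right _ h4
      _ = (2 * j + 8) * ((2 * j + 7) * (2 * j + 6)!) := by ring

open Nat in
theorem nt (m K : ℕ) (hK : 1 ≤ K) (h : m ! * 2 ^ K * K ! = (m + 2 * K - 2)! * 2) :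
    K = 1 ∨ (K = 3 ∧ m = 0) := by
  have hm : 0 < m ! := Nat.factorial_pos m
  rcases Nat.lt_or_ge K 2 with h1 | h1
  · left
    omega
  · right
    rcases Nat.lt_or_ge K 4 with h4 | h4
    · interval_cases K
      · exfalso
        have e : (m + 2 * 2 - 2)! = (m + 2) * ((m + 1) * m !) := by
          rw [show m + 2 * 2 - 2 = m + 1 + 1 by omega, Nat.factorial_succ, Nat.factorial_succ]
        rw [e] at h
        have h2 : (2 : ℕ)! = 2 := rfl
        rw [h2] at h
        have h' : m ! * ((m + 2) * (m + 1)) = m ! * 4 := by nlinarith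
        have h5 := Nat.eq_of_mul_eq_mul_left hm h'
        rcases Nat.eq_zero_or_pos m with h0 | h0
        · subst h0
          norm_num at h5
        · nlinarith
      · refine ⟨rfl, ?_⟩
        have e : (m + 2 * 3 - 2)! = (m + 4) * ((m + 3) * ((m + 2) * ((m + 1) * m !))) := by
          rw [show m + 2 * 3 - 2 = m + 1 + 1 + 1 + 1 by omega, Nat.factorial_succ,
            Nat.factorial_succ, Nat.factorial_succ, Nat.factorial_succ]
        rw [e] at h
        have h2 : (3 : ℕ)! = 6 := rfl
        rw [h2] at h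
        have h' : m ! * ((m + 4) * (m + 3) * ((m + 2) * (m + 1))) = m ! * 24 := by nlinarith
        have h5 := Nat.eq_of_mul_eq_mul_left hm h'
        by_contra hne
        have hpos : 1 ≤ m := Nat.one_le_iff_ne_zero.mpr hne
        have a : 20 ≤ (m + 4) * (m + 3) := by nlinarith
        have b : 6 ≤ (m + 2) * (m + 1) := by nlinarith
        have c := Nat.mul_le_mul a b
        omega
    · exfalso
      obtain ⟨j, rfl⟩ : ∃ j, K = j + 4 := ⟨K - 4, by omega⟩
      have e : m + 2 * (j + 4) - 2 = m + (2 * j + 6) := by omega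
      rw [e] at h
      have hdvd := Nat.factorial_mul_factorial_dvd_factorial_add m (2 * j + 6)
      have hle : m ! * (2 * j + 6)! ≤ (m + (2 * j + 6))! :=
        Nat.le_of_dvd (Nat.factorial_pos _) hdvd
      have hlt := fact_lt j
      have h5 : m ! * 2 ^ (j + 4) * (j + 4)! < m ! * 2 ^ (j + 4) * (j + 4)! := by
        calc m ! * 2 ^ (j + 4) * (j + 4)! = m ! * (2 ^ (j + 3) * (j + 4)!) * 2 := by ring
          _ < m ! * (2 * j + 6)! * 2 :=
              (Nat.mul_lt_mul_right (by norm_num)).mpr ((Nat.mul_lt_mul_left hm).mpr hlt)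
          _ ≤ (m + (2 * j + 6))! * 2 := Nat.mul_le_mul_right 2 hle
          _ = m ! * 2 ^ (j + 4) * (j + 4)! := h.symm
      exact lt_irrefl _ h5

open Equiv Equiv.Perm in
theorem swap_image {α β : Type*} [Fintype α] [DecidableEq α] [Fintype β] [DecidableEq β]
    (φ : Perm α →* Perm β) (hinj : Function.Injective φ) (hsurj : Function.Surjective φ)
    (hcard : Fintype.card β = Fintype.card α) (h6 : Fintype.card α ≠ 6) (a b : α)
    (hab : a ≠ b) : (φ (swap a b)).support.card = 2 := by
  obtain ⟨σ, hσ⟩ : ∃ σ, σ = φ (swap a b) := ⟨_, rfl⟩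
  rw [← hσ]
  have hσ1 : σ ≠ 1 := by
    intro h
    rw [hσ, ← map_one φ] at h
    exact hab (swap_eq_one_iff.mp (hinj h))
  have hσ2 : σ ^ 2 = 1 := by
    rw [hσ, ← map_pow, pow_two, swap_mul_self, map_one]
  haveI : Fact (Nat.Prime 2) := ⟨Nat.prime_two⟩
  have hord : orderOf σ = 2 := orderOf_eq_prime hσ2 hσ1
  obtain ⟨k, hk⟩ := cycleType_prime_order (σ := σ) (by
    rw [hord]
    exact Nat.prime_two)
  rw [hord] at hk
  have hcent : Nat.card (Subgroup.centralizer {σ})
      = Nat.card (Subgroup.centralizer {swap a b}) := by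
    apply Nat.card_congr
    symm
    refine Equiv.subtypeEquiv (Equiv.ofBijective φ ⟨hinj, hsurj⟩) ?_
    intro g
    rw [Subgroup.mem_centralizer_iff, Subgroup.mem_centralizer_iff]
    constructor
    · intro h x hx
      rw [Set.mem_singleton_iff] at hx
      rw [hx, hσ]
      show φ (swap a b) * φ g = φ g * φ (swap a b)
      rw [← map_mul, ← map_mul, h _ rfl]
    · intro h x hx
      rw [Set.mem_singleton_iff] at hx
      rw [hx]
      apply hinj
      rw [map_mul, map_mul, ← hσ]
      exact h _ rfl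
  have hsw : (swap a b).cycleType = {2} := isSwap_iff_cycleType.mp ⟨a, b, hab, rfl⟩
  rw [nat_card_centralizer, nat_card_centralizer, hsw, hk] at hcent
  have hsum := sum_cycleType_le σ
  rw [hk] at hsum
  simp only [Multiset.sum_replicate, Multiset.prod_replicate, smul_eq_mul, Multiset.sum_singleton,
    Multiset.prod_singleton] at hcent hsum
  rw [Multiset.toFinset_replicate, if_neg (Nat.succ_ne_zero k), Multiset.toFinset_singleton,
    Finset.prod_singleton, Finset.prod_singleton, Multiset.count_replicate_self,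
    Multiset.count_singleton_self, hcard] at hcent
  obtain ⟨m, hm⟩ : ∃ m, Fintype.card α = m + 2 * (k + 1) := by
    rw [hcard] at hsum
    exact ⟨Fintype.card α - 2 * (k + 1), by omega⟩
  have hnt := nt m (k + 1) (by omega) (by
    have e1 : Fintype.card α - (k + 1) * 2 = m := by omega
    have e2 : Fintype.card α - 2 = m + 2 * (k + 1) - 2 := by omega
    rw [e1, e2] at hcent
    rw [hcent, Nat.factorial_one, mul_one])
  have hk0 : k = 0 := by
    rcases hnt with h | ⟨h1, h2⟩
    · omega
    · exfalso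
      apply h6
      rw [hm, h1, h2]
  rw [← sum_cycleType, hk, hk0]
  rfl

open Equiv Equiv.Perm in
/-- a subgroup containing the transpositions `(a b)` for all `b ∉ {a, c}` contains the
stabiliser of `c` -/
theorem stab_le {Ω : Type*} [Fintype Ω] [DecidableEq Ω] (H : Subgroup (Perm Ω)) (a c : Ω)
    (hS : ∀ b, b ≠ a → b ≠ c → swap a b ∈ H) :
    MulAction.stabilizer (Perm Ω) c ≤ H := by
  have hsw : ∀ b b', b ≠ b' → b ≠ c → b' ≠ c → swap b b' ∈ H := by
    intro b b' hbb hb hb'
    by_cases h1 : b = a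
    · rw [h1]
      exact hS b' (fun h => hbb (by rw [h1, h])) hb'
    · by_cases h2 : b' = a
      · rw [h2, swap_comm]
        exact hS b h1 hb
      · have h3 := swap_mul_swap_mul_swap (x := b) (y := a) (z := b') h1 hbb
        have h4 : swap b' b ∈ H := by
          rw [← h3]
          have h5 : swap b a ∈ H := by
            rw [swap_comm]
            exact hS b h1 hb
          exact H.mul_mem (H.mul_mem (hS b' h2 hb') h5) (hS b' h2 hb')
        rw [swap_comm]
        exact h4
  have key : ∀ (k : ℕ) (g : Perm Ω), g.support.card = k → g c = c → g ∈ H := by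
    intro k
    induction k using Nat.strong_induction_on with
    | _ k ih =>
      intro g hk hgc
      by_cases hg1 : g = 1
      · rw [hg1]
        exact H.one_mem
      · obtain ⟨x, hx⟩ : ∃ x, g x ≠ x := by
          by_contra hcon
          push_neg at hcon
          exact hg1 (Equiv.ext hcon)
        have hxc : x ≠ c := by
          intro h
          rw [h] at hx
          exact hx hgc
        have hgxc : g x ≠ c := by
          intro h
          rw [← hgc] at h
          exact hxc (g.injective h)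
        have h1 := card_support_swap_mul hx
        have h2 : (swap x (g x) * g) c = c := by
          rw [Perm.mul_apply, hgc, swap_apply_of_ne_of_ne (Ne.symm hxc) (Ne.symm hgxc)]
        have h3 := ih _ (by rw [← hk]; exact h1) (swap x (g x) * g) rfl h2
        have h4 := H.mul_mem (hsw x (g x) (Ne.symm hx) hxc hgxc) h3
        rw [swap_mul_self_mul] at h4
        exact h4
  intro g hg
  rw [MulAction.mem_stabilizer_iff] at hg
  exact key _ g rfl hg

open Equiv Equiv.Perm in
theorem core {Ω : Type*} [Fintype Ω] [DecidableEq Ω] (h6 : Fintype.card Ω ≠ 6)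
    (H : Subgroup (Perm Ω)) (hH : H.index = Fintype.card Ω) (hcore : H.normalCore = ⊥) :
    ∃ x : Ω, H = MulAction.stabilizer (Perm Ω) x := by
  classical
  obtain ⟨n, hn⟩ : ∃ n, n = Fintype.card Ω := ⟨_, rfl⟩
  rw [← hn] at hH h6
  haveI : Fintype (Perm Ω ⧸ H) := Fintype.ofFinite _
  have hX : Fintype.card (Perm Ω ⧸ H) = n := by
    rw [← Nat.card_eq_fintype_card, ← Subgroup.index_eq_card, hH]
  have hn1 : 1 ≤ n := by
    have h1 : H.index ≠ 0 := Subgroup.index_ne_zero_of_finite
    omega
  haveI : Nonempty Ω := by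
    rw [← Fintype.card_pos_iff, ← hn]
    exact hn1
  obtain ⟨φ, hφ⟩ : ∃ φ : Perm Ω →* Perm (Perm Ω ⧸ H),
      φ = MulAction.toPermHom (Perm Ω) (Perm Ω ⧸ H) := ⟨_, rfl⟩
  have hinj : Function.Injective φ := by
    rw [← MonoidHom.ker_eq_bot_iff, hφ, ← Subgroup.normalCore_eq_ker, hcore]
  have hbij : Function.Bijective φ := by
    apply hinj.bijective_of_nat_card_le
    rw [Nat.card_perm, Nat.card_perm, Nat.card_eq_fintype_card, Nat.card_eq_fintype_card, hX, hn]
  have hfix : ∀ a b : Ω, a ≠ b →
      (Finset.univ.filter (fun x => φ (swap a b) x = x)).card = n - 2 := by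
    intro a b hab
    have h1 := swap_image φ hinj hbij.2 (by rw [hX, hn]) (by rw [← hn]; exact h6) a b hab
    have h2 : Finset.univ.filter (fun x => φ (swap a b) x = x) = (φ (swap a b)).supportᶜ := by
      ext x
      simp
    rw [h2, Finset.card_compl, h1, hX]
  have hfixH : ∀ (a b : Ω) (g : Perm Ω),
      φ (swap a b) (QuotientGroup.mk g) = QuotientGroup.mk g ↔ swap (g⁻¹ a) (g⁻¹ b) ∈ H := by
    intro a b g
    have h1 : φ (swap a b) (QuotientGroup.mk g) = QuotientGroup.mk (swap a b * g) := by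
      rw [hφ]
      rfl
    rw [h1, QuotientGroup.eq, mul_inv_rev, swap_inv]
    have h2 : g⁻¹ * swap a b * g = swap (g⁻¹ a) (g⁻¹ b) := by
      rw [mul_swap_eq_swap_mul, inv_mul_cancel_right]
    rw [h2]
  obtain ⟨d, hd⟩ : ∃ d : Ω → Ω → ℕ,
      d = fun a b => if a ≠ b ∧ swap a b ∈ H then 1 else 0 := ⟨_, rfl⟩
  obtain ⟨N, hN⟩ : ∃ N : ℕ, N = ∑ a, ∑ b, d a b := ⟨_, rfl⟩
  obtain ⟨Fc, hFc⟩ : ∃ Fc : Ω → Ω → (Perm Ω ⧸ H) → ℕ,
      Fc = fun a b x => if a ≠ b ∧ φ (swap a b) x = x then 1 else 0 := ⟨_, rfl⟩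
  have hcount : n * ((n - 1) * (n - 2)) = n * N := by
    have e1 : ∑ a : Ω, ∑ b : Ω, ∑ x : Perm Ω ⧸ H, Fc a b x = n * ((n - 1) * (n - 2)) := by
      have h1 : ∀ a b : Ω, ∑ x : Perm Ω ⧸ H, Fc a b x = if a ≠ b then n - 2 else 0 := by
        intro a b
        rw [hFc]
        by_cases hab : a = b
        · simp [hab]
        · rw [if_pos hab, ← hfix a b hab, Finset.card_filter]
          apply Finset.sum_congr rfl
          intro x _
          simp [hab]
      simp only [h1]
      have h2 : ∀ a : Ω, ∑ b : Ω, (if a ≠ b then n - 2 else 0) = (n - 1) * (n - 2) := by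
        intro a
        rw [← Finset.sum_filter, Finset.sum_const, Finset.filter_ne,
          Finset.card_erase_of_mem (Finset.mem_univ a), Finset.card_univ, ← hn, smul_eq_mul]
      simp only [h2]
      rw [Finset.sum_const, Finset.card_univ, ← hn, smul_eq_mul]
    have e2 : ∑ a : Ω, ∑ b : Ω, ∑ x : Perm Ω ⧸ H, Fc a b x = n * N := by
      have h1 : ∀ x : Perm Ω ⧸ H, ∑ a : Ω, ∑ b : Ω, Fc a b x = N := by
        intro x
        obtain ⟨g, rfl⟩ := QuotientGroup.mk_surjective x
        rw [hN, ← Equiv.sum_comp (g⁻¹ : Perm Ω) (fun a => ∑ b, d a b)]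
        apply Finset.sum_congr rfl
        intro a _
        rw [← Equiv.sum_comp (g⁻¹ : Perm Ω) (fun b => d (g⁻¹ a) b)]
        apply Finset.sum_congr rfl
        intro b _
        rw [hd, hFc]
        show (if a ≠ b ∧ φ (swap a b) (QuotientGroup.mk g) = QuotientGroup.mk g then 1 else 0)
          = if g⁻¹ a ≠ g⁻¹ b ∧ swap (g⁻¹ a) (g⁻¹ b) ∈ H then 1 else 0
        have h3 : (a ≠ b) ↔ (g⁻¹ a ≠ g⁻¹ b) := (g⁻¹).injective.ne_iff.symm
        have h4 : (a ≠ b ∧ φ (swap a b) (QuotientGroup.mk g) = QuotientGroup.mk g) ↔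
            (g⁻¹ a ≠ g⁻¹ b ∧ swap (g⁻¹ a) (g⁻¹ b) ∈ H) := by
          rw [hfixH a b g, h3]
        by_cases hc : (g⁻¹ a ≠ g⁻¹ b ∧ swap (g⁻¹ a) (g⁻¹ b) ∈ H)
        · rw [if_pos hc, if_pos (h4.mpr hc)]
        · rw [if_neg hc, if_neg (fun h => hc (h4.mp h))]
      calc ∑ a : Ω, ∑ b : Ω, ∑ x : Perm Ω ⧸ H, Fc a b x
          = ∑ a : Ω, ∑ x : Perm Ω ⧸ H, ∑ b : Ω, Fc a b x :=
            Finset.sum_congr rfl (fun a _ => Finset.sum_comm)
        _ = ∑ x : Perm Ω ⧸ H, ∑ a : Ω, ∑ b : Ω, Fc a b x := Finset.sum_comm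
        _ = n * N := by
            simp only [h1]
            rw [Finset.sum_const, Finset.card_univ, hX, smul_eq_mul]
    rw [← e1, e2]
  have hN' : N = (n - 1) * (n - 2) := (Nat.eq_of_mul_eq_mul_left (by omega) hcount).symm
  obtain ⟨a, ha⟩ : ∃ a : Ω, n - 2 ≤ ∑ b, d a b := by
    by_contra hcon
    push_neg at hcon
    have h1 : N ≤ n * (n - 3) := by
      rw [hN]
      calc ∑ a, ∑ b, d a b ≤ ∑ _a : Ω, (n - 3) :=
            Finset.sum_le_sum (fun a _ => by
              have h0 := hcon a
              omega)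
        _ = n * (n - 3) := by rw [Finset.sum_const, Finset.card_univ, ← hn, smul_eq_mul]
    rw [hN'] at h1
    obtain ⟨a⟩ := ‹Nonempty Ω›
    have h0 := hcon a
    obtain ⟨m, rfl⟩ : ∃ m, n = m + 3 := ⟨n - 3, by omega⟩
    have e1 : m + 3 - 1 = m + 2 := by omega
    have e2 : m + 3 - 2 = m + 1 := by omega
    have e3 : m + 3 - 3 = m := by omega
    rw [e1, e2, e3] at h1
    nlinarith
  have hdeg : ∑ b, d a b = (Finset.univ.filter (fun b => a ≠ b ∧ swap a b ∈ H)).card := by
    rw [Finset.card_filter, hd]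
  obtain ⟨T, hT⟩ : ∃ T : Finset Ω,
      T = Finset.univ.filter (fun b => a ≠ b ∧ swap a b ∉ H) := ⟨_, rfl⟩
  have hTcard : T.card ≤ 1 := by
    have h1 : (Finset.univ.filter (fun b => a ≠ b ∧ swap a b ∈ H)).card + T.card
        = (Finset.univ.erase a).card := by
      rw [hT, ← Finset.card_union_of_disjoint]
      · congr 1
        ext b
        simp only [Finset.mem_union, Finset.mem_filter, Finset.mem_univ, true_and,
          Finset.mem_erase, and_true]
        constructor
        · rintro (h | h)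
          · exact fun h' => h.1 h'.symm
          · exact fun h' => h.1 h'.symm
        · intro h
          by_cases h' : swap a b ∈ H
          · exact Or.inl ⟨fun h'' => h h''.symm, h'⟩
          · exact Or.inr ⟨fun h'' => h h''.symm, h'⟩
      · rw [Finset.disjoint_left]
        intro b hb hb'
        exact (Finset.mem_filter.mp hb').2.2 (Finset.mem_filter.mp hb).2.2
    rw [Finset.card_erase_of_mem (Finset.mem_univ a), Finset.card_univ, ← hn, ← hdeg] at h1
    omega
  obtain ⟨c, hc⟩ := Finset.card_le_one_iff_subset_singleton.mp hTcard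
  have hS : ∀ b, b ≠ a → b ≠ c → swap a b ∈ H := by
    intro b hba hbc
    by_contra h
    have h1 : b ∈ T := by
      rw [hT]
      exact Finset.mem_filter.mpr ⟨Finset.mem_univ b, Ne.symm hba, h⟩
    exact hbc (Finset.mem_singleton.mp (hc h1))
  have hle := stab_le H a c hS
  refine ⟨c, ?_⟩
  have hidx : (MulAction.stabilizer (Perm Ω) c).index = n := by
    rw [MulAction.index_stabilizer_of_transitive, Nat.card_eq_fintype_card, hn]
  have h1 := Subgroup.relIndex_mul_index hle
  rw [hidx, hH] at h1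
  have h2 : (MulAction.stabilizer (Perm Ω) c).relIndex H = 1 := by
    have h3 : (MulAction.stabilizer (Perm Ω) c).relIndex H * n = 1 * n := by rw [h1, one_mul]
    exact Nat.eq_of_mul_eq_mul_right (by omega) h3
  exact le_antisymm (Subgroup.relIndex_eq_one.mp h2) hle


open Equiv Equiv.Perm in
theorem core_bot_large {Ω : Type*} [Fintype Ω] [DecidableEq Ω] (h5 : 5 ≤ Fintype.card Ω)
    (H : Subgroup (Perm Ω)) (hH : H.index = Fintype.card Ω) : H.normalCore = ⊥ := by
  by_contra hne
  have hnt : Nontrivial H.normalCore := (Subgroup.nontrivial_iff_ne_bot _).mpr hne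
  have h1 := Equiv.Perm.alternatingGroup_le_of_normal (α := Ω) (by
    rw [Nat.card_eq_fintype_card]
    exact h5) hnt
  have h2 : alternatingGroup Ω ≤ H := le_trans h1 (Subgroup.normalCore_le H)
  have h3 := Subgroup.index_dvd_of_le h2
  haveI : Nontrivial Ω := Fintype.one_lt_card_iff_nontrivial.mp (by omega)
  rw [alternatingGroup.index_eq_two, hH] at h3
  have h4 := Nat.le_of_dvd (by norm_num) h3
  omega

open Equiv Equiv.Perm in
theorem small {Ω : Type*} [Fintype Ω] [DecidableEq Ω] (p : ℕ) (hp : p.Prime)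
    (hcard : Fintype.card Ω = p + 1) (H : Subgroup (Perm Ω)) (hH : H.index = Fintype.card Ω)
    (c : Perm Ω) (hord : orderOf c = p)
    (hnorm : ∀ h ∈ H, h * c * h⁻¹ ∈ Subgroup.zpowers c) :
    ∃ x : Ω, H = MulAction.stabilizer (Perm Ω) x := by
  obtain ⟨k, hk⟩ := cycleType_prime_order (σ := c) (by
    rw [hord]
    exact hp)
  rw [hord] at hk
  have hsum := sum_cycleType_le c
  rw [hk, Multiset.sum_replicate, smul_eq_mul, hcard] at hsum
  have hk0 : k = 0 := by
    have h2 := hp.two_le
    by_contra hne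
    have h3 : 2 ≤ k + 1 := by omega
    have h7 := Nat.mul_le_mul_right p h3
    omega
  have hsupp : c.support.card = p := by
    rw [← sum_cycleType, hk, hk0]
    simp
  have hfixcard : (c.supportᶜ).card = 1 := by
    rw [Finset.card_compl, hsupp, hcard]
    omega
  obtain ⟨y, hy⟩ := Finset.card_eq_one.mp hfixcard
  have hcy : c y = y := by
    have h1 : y ∈ c.supportᶜ := by
      rw [hy]
      exact Finset.mem_singleton_self y
    rw [Finset.mem_compl, notMem_support] at h1
    exact h1
  have huniq : ∀ w, c w = w → w = y := by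
    intro w hw
    have h1 : w ∈ c.supportᶜ := by
      rw [Finset.mem_compl, notMem_support]
      exact hw
    rw [hy] at h1
    exact Finset.mem_singleton.mp h1
  have hle : H ≤ MulAction.stabilizer (Perm Ω) y := by
    intro h hh
    rw [MulAction.mem_stabilizer_iff, Perm.smul_def]
    obtain ⟨i, hi⟩ := Subgroup.mem_zpowers_iff.mp (hnorm h hh)
    have h1 : (c ^ i) y = y := zpow_apply_eq_self_of_apply_eq_self hcy i
    rw [hi] at h1
    have h2 : c (h⁻¹ y) = h⁻¹ y := by
      have h3 : h⁻¹ ((h * c * h⁻¹) y) = h⁻¹ y := by rw [h1]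
      simpa [Perm.mul_apply] using h3
    have h4 := huniq _ h2
    have h5 : h (h⁻¹ y) = h y := by rw [h4]
    rw [← h5]
    simp
  refine ⟨y, ?_⟩
  have hidx : (MulAction.stabilizer (Perm Ω) y).index = Fintype.card Ω := by
    rw [MulAction.index_stabilizer_of_transitive, Nat.card_eq_fintype_card]
  have h1 := Subgroup.relIndex_mul_index hle
  rw [hidx, hH] at h1
  have hpos : 0 < Fintype.card Ω := by omega
  have h2 : H.relIndex (MulAction.stabilizer (Perm Ω) y) = 1 := by
    have h3 : H.relIndex (MulAction.stabilizer (Perm Ω) y) * Fintype.card Ω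
        = 1 * Fintype.card Ω := by rw [h1, one_mul]
    exact Nat.eq_of_mul_eq_mul_right hpos h3
  exact le_antisymm hle (Subgroup.relIndex_eq_one.mp h2)

open Equiv Equiv.Perm in
/-- the conjugation hypothesis of `small` from normality of the cyclic subgroup inside `H` -/
theorem small_norm {Ω : Type*} [Fintype Ω] [DecidableEq Ω] (H : Subgroup (Perm Ω)) (c : Perm Ω)
    (hcH : c ∈ H) (k idx : ℕ) (hcardH : Nat.card H = k * idx) (hk : orderOf c = k)
    (hk0 : 0 < k) (hidx : idx = 1 ∨ idx = 2) :
    ∀ h ∈ H, h * c * h⁻¹ ∈ Subgroup.zpowers c := by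
  have hle : Subgroup.zpowers c ≤ H := Subgroup.zpowers_le.mpr hcH
  have hcardK : Nat.card ((Subgroup.zpowers c).subgroupOf H) = k := by
    rw [Nat.card_congr (Subgroup.subgroupOfEquivOfLe hle).toEquiv, Nat.card_zpowers, hk]
  have hKidx : ((Subgroup.zpowers c).subgroupOf H).index = idx := by
    have h1 := Subgroup.card_mul_index ((Subgroup.zpowers c).subgroupOf H)
    rw [hcardK, hcardH] at h1
    exact Nat.eq_of_mul_eq_mul_left hk0 h1
  have hKn : ((Subgroup.zpowers c).subgroupOf H).Normal := by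
    rcases hidx with h1 | h1
    · rw [h1] at hKidx
      rw [Subgroup.index_eq_one.mp hKidx]
      infer_instance
    · rw [h1] at hKidx
      exact Subgroup.normal_of_index_eq_two hKidx
  intro h hh
  have h1 := hKn.conj_mem ⟨c, hcH⟩ (Subgroup.mem_subgroupOf.mpr (Subgroup.mem_zpowers c)) ⟨h, hh⟩
  rw [Subgroup.mem_subgroupOf] at h1
  exact h1

/-- Let Ω be a finite set whose size n is not 6. Then every subgroup of the symmetric group on Ω of index n is the stabilizer of a point. -/
theorem result {Ω : Type*} [Fintype Ω] [DecidableEq Ω] (h6 : Fintype.card Ω ≠ 6)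
    (H : Subgroup (Equiv.Perm Ω)) (hH : H.index = Fintype.card Ω) :
    ∃ x : Ω, H = MulAction.stabilizer (Equiv.Perm Ω) x := by
  classical
  by_cases h5 : 5 ≤ Fintype.card Ω
  · exact core h6 H hH (core_bot_large h5 H hH)
  · have hcardG : Nat.card (Equiv.Perm Ω) = (Fintype.card Ω).factorial := by
      rw [Nat.card_perm, Nat.card_eq_fintype_card]
    have hmul := Subgroup.card_mul_index H
    rw [hH, hcardG] at hmul
    have hidx0 : H.index ≠ 0 := Subgroup.index_ne_zero_of_finite
    rw [hH] at hidx0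
    have hcases : Fintype.card Ω = 1 ∨ Fintype.card Ω = 2 ∨ Fintype.card Ω = 3 ∨
        Fintype.card Ω = 4 := by omega
    have hbot : Nat.card H = 1 → H.normalCore = ⊥ := by
      intro hc1
      have h1 := Subgroup.normalCore_le H
      have h2 : H = ⊥ := Subgroup.eq_bot_of_card_eq H hc1
      exact le_bot_iff.mp (le_trans h1 (le_of_eq h2))
    rcases hcases with h1 | h1 | h1 | h1
    · rw [h1] at hmul
      exact core h6 H hH (hbot (by
        have h2 : (1 : ℕ).factorial = 1 := rfl
        rw [h2] at hmul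
        omega))
    · rw [h1] at hmul
      exact core h6 H hH (hbot (by
        have h2 : (2 : ℕ).factorial = 2 := rfl
        rw [h2] at hmul
        omega))
    · rw [h1] at hmul
      have hcH : Nat.card H = 2 := by
        have h2 : (3 : ℕ).factorial = 6 := rfl
        rw [h2] at hmul
        omega
      haveI : Fact (Nat.Prime 2) := ⟨Nat.prime_two⟩
      obtain ⟨x, hx⟩ := exists_prime_orderOf_dvd_card' (G := H) 2 (by rw [hcH])
      have hord : orderOf (x : Equiv.Perm Ω) = 2 := by
        rw [Subgroup.orderOf_coe]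
        exact hx
      exact small 2 Nat.prime_two h1 H hH (x : Equiv.Perm Ω) hord
        (small_norm H (x : Equiv.Perm Ω) x.2 2 1 (by rw [hcH]) hord (by norm_num) (Or.inl rfl))
    · rw [h1] at hmul
      have hcH : Nat.card H = 6 := by
        have h2 : (4 : ℕ).factorial = 24 := rfl
        rw [h2] at hmul
        omega
      haveI : Fact (Nat.Prime 3) := ⟨Nat.prime_three⟩
      obtain ⟨x, hx⟩ := exists_prime_orderOf_dvd_card' (G := H) 3 (by
        rw [hcH]
        norm_num)
      have hord : orderOf (x : Equiv.Perm Ω) = 3 := by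
        rw [Subgroup.orderOf_coe]
        exact hx
      exact small 3 Nat.prime_three h1 H hH (x : Equiv.Perm Ω) hord
        (small_norm H (x : Equiv.Perm Ω) x.2 3 2 (by rw [hcH]) hord (by norm_num) (Or.inr rfl))

end Cfsg.Agent.S5911
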