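import Cfsg.Statements.S5913
import Mathlib

set_option autoImplicit false
open Cfsg

namespace Cfsg.Agent.S5913

/-- Let S be a non-abelian simple group and n a natural number. Every normal subgroup N of the direct power S^n (functions Fin n → S) is a subproduct: there is a set T of coordinates such that N consists exactly of the elements whose coordinates outside T are trivial. In particular the minimal normal subgroups of S^n are its n factors. -/
theorem result {S : Type*} [Group S] [IsSimpleGroup S] (hS : ¬ IsMulCommutative S) (n : ℕ)
    (N : Subgroup (Fin n → S)) [N.Normal] :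
    ∃ T : Finset (Fin n), ∀ x : Fin n → S, x ∈ N ↔ ∀ i, i ∉ T → x i = 1 := by
  classical
  -- the centre of `S` is trivial
  have hcen : Subgroup.center S = ⊥ := by
    rcases (Subgroup.instNormalCenter (G := S)).eq_bot_or_eq_top with h | h
    · exact h
    · exact absurd (Subgroup.center_eq_top_iff.mp h) hS
  -- the coordinate subgroups
  have hK : ∀ i : Fin n, (∃ y ∈ N, y i ≠ 1) → ∀ s : S, Pi.mulSingle i s ∈ N := by
    rintro i ⟨y, hy, hyi⟩ s
    have hnorm : (N.comap (MonoidHom.mulSingle (fun _ : Fin n => S) i)).Normal :=
      Subgroup.Normal.comap inferInstance _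
    have hne : N.comap (MonoidHom.mulSingle (fun _ : Fin n => S) i) ≠ ⊥ := by
      -- find `t` not commuting with `y i`
      have : y i ∉ Subgroup.center S := by rw [hcen]; simpa using hyi
      rw [Subgroup.mem_center_iff] at this
      push Not at this
      obtain ⟨t, ht⟩ := this
      intro hbot
      have hmem : t * y i * t⁻¹ * (y i)⁻¹ ∈ N.comap (MonoidHom.mulSingle (fun _ : Fin n => S) i) := by
        rw [Subgroup.mem_comap]
        have h1 : Pi.mulSingle i t * y * (Pi.mulSingle i t)⁻¹ * y⁻¹ ∈ N :=
          N.mul_mem (Subgroup.Normal.conj_mem inferInstance y hy _) (N.inv_mem hy)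
        have h2 : Pi.mulSingle i t * y * (Pi.mulSingle i t)⁻¹ * y⁻¹
            = MonoidHom.mulSingle (fun _ : Fin n => S) i (t * y i * t⁻¹ * (y i)⁻¹) := by
          ext j
          by_cases hj : j = i
          · subst hj; simp
          · simp [Pi.mulSingle_eq_of_ne hj]
        rw [← h2]; exact h1
      rw [hbot, Subgroup.mem_bot] at hmem
      apply ht
      have : t * y i * t⁻¹ = y i := by
        rw [mul_inv_eq_one] at hmem; exact hmem
      calc t * y i = t * y i * t⁻¹ * t := by group
        _ = y i * t := by rw [this]
    have htop := hnorm.eq_bot_or_eq_top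
    rcases htop with h | h
    · exact absurd h hne
    · have : s ∈ N.comap (MonoidHom.mulSingle (fun _ : Fin n => S) i) := by rw [h]; trivial
      exact this
  refine ⟨Finset.univ.filter (fun i => ∃ y ∈ N, y i ≠ 1), fun x => ⟨?_, ?_⟩⟩
  · intro hx i hi
    by_contra hne
    exact hi (by simpa using ⟨x, hx, hne⟩)
  · intro hx
    have key : ∀ A : Finset (Fin n), (fun i => if i ∈ A then x i else 1) ∈ N := by
      intro A
      induction A using Finset.induction_on with
      | empty =>
        have : (fun i : Fin n => if i ∈ (∅ : Finset (Fin n)) then x i else 1) = 1 := by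
          ext j; simp
        rw [this]; exact N.one_mem
      | insert a A ha ih =>
        have hsingle : Pi.mulSingle a (x a) ∈ N := by
          by_cases hT : ∃ y ∈ N, y a ≠ 1
          · exact hK a hT _
          · have : x a = 1 := hx a (by simpa using hT)
            rw [this]; simpa using N.one_mem
        have heq : (fun i => if i ∈ insert a A then x i else 1)
            = (fun i => if i ∈ A then x i else 1) * Pi.mulSingle a (x a) := by
          ext j
          by_cases hj : j = a
          · subst hj; simp [ha]
          · simp [hj, Pi.mulSingle_eq_of_ne hj]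
        rw [heq]
        exact N.mul_mem ih hsingle
    have := key Finset.univ
    simpa using this

end Cfsg.Agent.S5913
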