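import Cfsg.Statements.S5914
import Mathlib

set_option autoImplicit false
open Cfsg

namespace Cfsg.Agent.S5914

theorem char_mem {A : Type*} [Group A] {H : Subgroup A} (hH : H.Characteristic)
    (φ : A ≃* A) {x : A} (hx : x ∈ H) : φ x ∈ H :=
  (Subgroup.characteristic_iff_le_comap.mp hH φ) hx

/-- coordinate permutation automorphism -/
def permAut (S : Type*) [Group S] {n : ℕ} (σ : Equiv.Perm (Fin n)) :
    (Fin n → S) ≃* (Fin n → S) where
  toFun f := f ∘ σ
  invFun f := f ∘ σ.symm
  left_inv f := by funext i; simp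
  right_inv f := by funext i; simp
  map_mul' _ _ := rfl

/-- shear automorphism for commutative `S` -/
def shearAut (S : Type*) [Group S] (hc : ∀ a b : S, a * b = b * a) {n : ℕ} (i j : Fin n)
    (hij : i ≠ j) : (Fin n → S) ≃* (Fin n → S) where
  toFun f := Function.update f j (f j * f i)
  invFun f := Function.update f j (f j * (f i)⁻¹)
  left_inv f := by
    funext k
    by_cases hk : k = j
    · subst hk
      simp [Function.update_of_ne hij]
    · simp [hk]
  right_inv f := by
    funext k
    by_cases hk : k = j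
    · subst hk
      simp [Function.update_of_ne hij]
    · simp [hk]
  map_mul' f g := by
    funext k
    by_cases hk : k = j
    · subst hk
      simp only [Pi.mul_apply, Function.update_self]
      rw [mul_assoc, mul_assoc]
      congr 1
      rw [← mul_assoc, hc (g k) (f i), mul_assoc]
    · simp [hk]

theorem pow_char {S : Type*} [Group S] [IsSimpleGroup S] {n : ℕ} (H : Subgroup (Fin n → S))
    (hH : H.Characteristic) : H = ⊥ ∨ H = ⊤ := by
  classical
  by_cases hbot : H = ⊥
  · exact Or.inl hbot
  right
  haveI := hH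
  have hHn : H.Normal := Subgroup.normal_of_characteristic H
  obtain ⟨h, hhH, hh1⟩ : ∃ h ∈ H, h ≠ 1 := by
    by_contra hcon
    apply hbot
    rw [Subgroup.eq_bot_iff_forall]
    intro x hx
    by_contra hx1
    exact hcon ⟨x, hx, hx1⟩
  obtain ⟨i, hi⟩ : ∃ i, h i ≠ 1 := by
    by_contra hcon
    apply hh1
    funext i
    by_contra hi
    exact hcon ⟨i, hi⟩
  have key : ∃ (j : Fin n) (t : S), t ≠ 1 ∧ Pi.mulSingle j t ∈ H := by
    by_cases hc : ∀ a b : S, a * b = b * a
    · by_cases hj : ∃ j, j ≠ i
      · obtain ⟨j, hj⟩ := hj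
        refine ⟨j, h i, hi, ?_⟩
        have h1 : shearAut S hc i j (Ne.symm hj) h ∈ H := char_mem hH _ hhH
        have h2 : shearAut S hc i j (Ne.symm hj) h * h⁻¹ ∈ H := H.mul_mem h1 (H.inv_mem hhH)
        convert h2 using 1
        funext k
        by_cases hk : k = j
        · subst hk
          simp only [shearAut, MulEquiv.coe_mk, Equiv.coe_fn_mk, Pi.mul_apply, Function.update_self,
            Pi.inv_apply, Pi.mulSingle_eq_same]
          rw [hc (h k) (h i), mul_inv_cancel_right]
        · simp [shearAut, hk]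
      · refine ⟨i, h i, hi, ?_⟩
        convert hhH using 1
        funext k
        have : k = i := by
          by_contra hk
          exact hj ⟨k, hk⟩
        subst this
        simp
    · have hcen : Subgroup.center S = ⊥ := by
        rcases (inferInstance : (Subgroup.center S).Normal).eq_bot_or_eq_top with h0 | h0
        · exact h0
        · exfalso
          apply hc
          intro a b
          have ha : a ∈ Subgroup.center S := by rw [h0]; trivial
          exact (Subgroup.mem_center_iff.mp ha b).symm
      obtain ⟨s, hs⟩ : ∃ s, s * h i ≠ h i * s := by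
        by_contra hcon
        apply hi
        have : h i ∈ Subgroup.center S := by
          rw [Subgroup.mem_center_iff]
          intro g
          by_contra hg
          exact hcon ⟨g, hg⟩
        rw [hcen] at this
        exact Subgroup.mem_bot.mp this
      refine ⟨i, s * h i * s⁻¹ * (h i)⁻¹, ?_, ?_⟩
      · intro h0
        apply hs
        have h1 := mul_inv_eq_one.mp h0
        exact mul_inv_eq_iff_eq_mul.mp h1
      · have h1 : Pi.mulSingle i s * h * (Pi.mulSingle i s)⁻¹ ∈ H := hHn.conj_mem h hhH _
        have h2 := H.mul_mem h1 (H.inv_mem hhH)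
        convert h2 using 1
        funext k
        by_cases hk : k = i
        · subst hk
          simp
        · simp [hk]
  obtain ⟨j, t, ht1, htH⟩ := key
  have hT : H.comap (MonoidHom.mulSingle (fun _ : Fin n => S) j) = ⊤ := by
    have hn : (H.comap (MonoidHom.mulSingle (fun _ : Fin n => S) j)).Normal :=
      Subgroup.Normal.comap hHn _
    rcases hn.eq_bot_or_eq_top with h0 | h0
    · exfalso
      apply ht1
      have : t ∈ H.comap (MonoidHom.mulSingle (fun _ : Fin n => S) j) := htH
      rw [h0] at this
      exact Subgroup.mem_bot.mp this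
    · exact h0
  have hall : ∀ (k : Fin n) (s : S), Pi.mulSingle k s ∈ H := by
    intro k s
    have h1 : Pi.mulSingle j s ∈ H := by
      have : s ∈ H.comap (MonoidHom.mulSingle (fun _ : Fin n => S) j) := by
        rw [hT]; trivial
      exact this
    have h2 := char_mem hH (permAut S (Equiv.swap j k)) h1
    convert h2 using 1
    funext l
    simp only [permAut, MulEquiv.coe_mk, Equiv.coe_fn_mk, Function.comp_apply]
    by_cases hl : l = k
    · subst hl
      simp
    · rw [Pi.mulSingle_eq_of_ne hl, Pi.mulSingle_eq_of_ne]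
      intro h3
      apply hl
      have := congrArg (Equiv.swap j k) h3
      simpa using this
  rw [Subgroup.eq_top_iff']
  intro x
  exact Subgroup.pi_mem_of_mulSingle_mem x (fun k => hall k (x k))

theorem exists_min_normal {G : Type*} [Group G] [Finite G] [Nontrivial G] :
    ∃ N : Subgroup G, N.Normal ∧ N ≠ ⊥ ∧
      ∀ K : Subgroup G, K.Normal → K ≤ N → K = ⊥ ∨ K = N := by
  classical
  have htop : (⊤ : Subgroup G) ≠ ⊥ := by
    intro h
    obtain ⟨x, hx⟩ := exists_ne (1 : G)
    exact hx (Subgroup.mem_bot.mp (h ▸ Subgroup.mem_top x))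
  have hne : {N : Subgroup G | N.Normal ∧ N ≠ ⊥}.Nonempty := ⟨⊤, inferInstance, htop⟩
  obtain ⟨N, hN, hmin⟩ := wellFounded_lt.has_min _ hne
  refine ⟨N, hN.1, hN.2, fun K hK hKN => ?_⟩
  by_cases hK0 : K = ⊥
  · exact Or.inl hK0
  · right
    by_contra hne'
    exact hmin K ⟨hK, hK0⟩ (lt_of_le_of_ne hKN hne')

open scoped Pointwise in
theorem forward {G : Type*} [Group G] [Finite G] [Nontrivial G]
    (hG : ∀ H : Subgroup G, H.Characteristic → H = ⊥ ∨ H = ⊤) :
    ∃ N : Subgroup G, IsSimpleGroup N ∧ ∃ k : ℕ, 1 ≤ k ∧ Nonempty ((Fin k → N) ≃* G) := by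
  classical
  obtain ⟨N, hNn, hN0, hNmin⟩ := exists_min_normal (G := G)
  haveI := hNn
  let P : Subgroup G → Prop := fun M => M.Normal ∧ N ≤ M ∧
      M ≤ N ⊔ Subgroup.centralizer (N : Set G) ∧
      ∃ k : ℕ, ∃ ψ : (Fin k → N) →* G, Function.Injective ψ ∧ ψ.range = M
  have hPN : P N := by
    refine ⟨hNn, le_refl _, le_sup_left, 1,
      N.subtype.comp (Pi.evalMonoidHom (fun _ : Fin 1 => N) 0), ?_, ?_⟩
    · intro f g hfg
      funext i
      have hi : i = 0 := Subsingleton.elim _ _
      subst hi
      exact Subtype.ext hfg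
    · ext x
      constructor
      · rintro ⟨f, rfl⟩
        exact (f 0).2
      · intro hx
        exact ⟨fun _ => ⟨x, hx⟩, rfl⟩
  obtain ⟨M, hPM, hMmax⟩ := wellFounded_gt.has_min {M | P M} ⟨N, hPN⟩
  obtain ⟨hMn, hNM, hMC, k, ψ, hψi, hψr⟩ := hPM
  haveI := hMn
  have hMtop : M = ⊤ := by
    by_contra hMtop
    have hex : ∃ φ : G ≃* G, ¬ N.map φ.toMonoidHom ≤ M := by
      by_contra hall
      have hall' : ∀ φ : G ≃* G, N.map φ.toMonoidHom ≤ M := fun φ => by
        by_contra h
        exact hall ⟨φ, h⟩
      have hchar : (⨆ φ : G ≃* G, N.map φ.toMonoidHom).Characteristic := by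
        rw [Subgroup.characteristic_iff_map_le]
        intro φ
        rw [Subgroup.map_iSup]
        apply iSup_le
        intro φ'
        rw [Subgroup.map_map]
        exact le_iSup (fun φ : G ≃* G => N.map φ.toMonoidHom) (φ'.trans φ)
      rcases hG _ hchar with h0 | h1
      · apply hN0
        have h2 : N ≤ ⨆ φ : G ≃* G, N.map φ.toMonoidHom := by
          intro x hx
          have h3 : x ∈ N.map (MulEquiv.refl G).toMonoidHom := ⟨x, hx, rfl⟩
          exact (le_iSup (fun φ : G ≃* G => N.map φ.toMonoidHom) (MulEquiv.refl G)) h3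
        rw [h0] at h2
        exact le_bot_iff.mp h2
      · apply hMtop
        rw [eq_top_iff, ← h1]
        exact iSup_le hall'
    obtain ⟨φ, hφ⟩ := hex
    have hN'n : (N.map φ.toMonoidHom).Normal := hNn.map φ.toMonoidHom φ.surjective
    haveI := hN'n
    have hdisj : N.map φ.toMonoidHom ⊓ M = ⊥ := by
      have hKn : ((N.map φ.toMonoidHom ⊓ M).comap φ.toMonoidHom).Normal :=
        Subgroup.Normal.comap inferInstance _
      have hKle : (N.map φ.toMonoidHom ⊓ M).comap φ.toMonoidHom ≤ N := by
        intro x hx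
        have hx1 : φ x ∈ N.map φ.toMonoidHom := hx.1
        obtain ⟨y, hy, hyx⟩ := hx1
        have : y = x := φ.injective hyx
        exact this ▸ hy
      rcases hNmin _ hKn hKle with h0 | h1
      · rw [Subgroup.eq_bot_iff_forall]
        intro x hx
        have h2 : φ.symm x ∈ (N.map φ.toMonoidHom ⊓ M).comap φ.toMonoidHom := by
          show φ (φ.symm x) ∈ N.map φ.toMonoidHom ⊓ M
          simpa using hx
        rw [h0] at h2
        have h3 := Subgroup.mem_bot.mp h2
        have h4 := congrArg φ h3
        simpa using h4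
      · exfalso
        apply hφ
        rintro x ⟨y, hy, rfl⟩
        have h2 : y ∈ (N.map φ.toMonoidHom ⊓ M).comap φ.toMonoidHom := by
          rw [h1]; exact hy
        exact h2.2
    have hcomm : ∀ m ∈ M, ∀ x ∈ N.map φ.toMonoidHom, m * x = x * m := fun m hm x hx =>
      Subgroup.commute_of_normal_of_disjoint M _ hMn hN'n
        (by rw [disjoint_iff, inf_comm]; exact hdisj) m x hm hx
    have hN'C : N.map φ.toMonoidHom ≤ Subgroup.centralizer (N : Set G) := by
      intro x hx
      rw [Subgroup.mem_centralizer_iff]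
      intro n hn
      exact hcomm n (hNM hn) x hx
    let φN : N →* G := φ.toMonoidHom.comp N.subtype
    have hφN : ∀ n : N, φN n ∈ N.map φ.toMonoidHom := fun n => ⟨n, n.2, rfl⟩
    have hφNi : ∀ n : N, φN n = 1 → n = 1 := by
      intro n hn
      have h1 : φ (n : G) = φ 1 := by rw [map_one]; exact hn
      exact Subtype.ext (φ.injective h1)
    have hψM : ∀ f, ψ f ∈ M := fun f => by
      rw [← hψr]; exact ⟨f, rfl⟩
    let Ψ : (Fin (k+1) → N) →* G :=
      { toFun := fun f => ψ (fun i => f i.castSucc) * φN (f (Fin.last k))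
        map_one' := by
          show ψ 1 * φN 1 = 1
          simp
        map_mul' := fun f g => by
          show ψ ((fun i => f i.castSucc) * (fun i => g i.castSucc))
              * φN (f (Fin.last k) * g (Fin.last k))
            = ψ (fun i => f i.castSucc) * φN (f (Fin.last k))
              * (ψ (fun i => g i.castSucc) * φN (g (Fin.last k)))
          rw [map_mul, map_mul]
          have h1 := hcomm (ψ (fun i => g i.castSucc)) (hψM _) (φN (f (Fin.last k))) (hφN _)
          rw [mul_assoc, ← mul_assoc (ψ (fun i => g i.castSucc)), h1]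
          group }
    have hΨ : ∀ f, Ψ f = ψ (fun i => f i.castSucc) * φN (f (Fin.last k)) := fun f => rfl
    have hΨi : Function.Injective Ψ := by
      rw [injective_iff_map_eq_one]
      intro f hf
      rw [hΨ] at hf
      have h1 : ψ (fun i => f i.castSucc) = (φN (f (Fin.last k)))⁻¹ := eq_inv_of_mul_eq_one_left hf
      have h2 : ψ (fun i => f i.castSucc) ∈ N.map φ.toMonoidHom ⊓ M :=
        ⟨by rw [h1]; exact Subgroup.inv_mem _ (hφN _), hψM _⟩
      rw [hdisj] at h2
      have h3 : ψ (fun i => f i.castSucc) = 1 := Subgroup.mem_bot.mp h2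
      have h4 : (fun i => f i.castSucc) = (1 : Fin k → N) := by
        apply hψi
        rw [h3, map_one]
      have h5 : f (Fin.last k) = 1 := by
        apply hφNi
        rw [h3, one_mul] at hf
        exact hf
      funext i
      induction i using Fin.lastCases with
      | last => exact h5
      | cast j => exact congrFun h4 j
    have hΨr : Ψ.range = M ⊔ N.map φ.toMonoidHom := by
      apply le_antisymm
      · rintro _ ⟨f, rfl⟩
        rw [hΨ]
        exact mul_mem (Subgroup.mem_sup_left (hψM _)) (Subgroup.mem_sup_right (hφN _))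
      · apply sup_le
        · intro m hm
          rw [← hψr] at hm
          obtain ⟨f0, rfl⟩ := hm
          refine ⟨Fin.snoc (α := fun _ => N) f0 1, ?_⟩
          rw [hΨ]
          simp
        · rintro _ ⟨n, hn, rfl⟩
          refine ⟨Fin.snoc (α := fun _ => N) 1 ⟨n, hn⟩, ?_⟩
          rw [hΨ]
          have h1 : (fun i : Fin k => Fin.snoc (α := fun _ => N) (1 : Fin k → N) ⟨n, hn⟩ i.castSucc)
              = (1 : Fin k → N) := by
            funext i
            simp
          rw [h1, map_one, one_mul]
          simp [φN]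
    have hP : P (M ⊔ N.map φ.toMonoidHom) :=
      ⟨inferInstance, le_trans hNM le_sup_left, sup_le hMC (le_trans hN'C le_sup_right),
        k + 1, Ψ, hΨi, hΨr⟩
    have hlt : M < M ⊔ N.map φ.toMonoidHom := by
      refine lt_of_le_of_ne le_sup_left (fun h => hφ ?_)
      have h1 : N.map φ.toMonoidHom ≤ M ⊔ N.map φ.toMonoidHom := le_sup_right
      rw [← h] at h1
      exact h1
    exact hMmax _ hP hlt
  have hsurj : Function.Surjective ψ := by
    rw [← MonoidHom.range_eq_top, hψr, hMtop]
  refine ⟨N, ?_, k, ?_, ⟨MulEquiv.ofBijective ψ ⟨hψi, hsurj⟩⟩⟩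
  · rw [Subgroup.isSimpleGroup_iff]
    refine ⟨hN0, fun K hKN hKn => ?_⟩
    have hKG : K.Normal := by
      constructor
      intro x hx g
      have hg : g ∈ N ⊔ Subgroup.centralizer (N : Set G) :=
        hMC (hMtop ▸ Subgroup.mem_top g)
      have hg' : g ∈ (N : Set G) * (Subgroup.centralizer (N : Set G) : Set G) := by
        rw [← Subgroup.normal_mul]; exact hg
      obtain ⟨n, hn, c, hc, rfl⟩ := Set.mem_mul.mp hg'
      have hcx : c * x * c⁻¹ = x := by
        have h1 := Subgroup.mem_centralizer_iff.mp hc x (hKN hx)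
        rw [← h1]
        group
      have h2 : n * c * x * (n * c)⁻¹ = n * (c * x * c⁻¹) * n⁻¹ := by group
      rw [h2, hcx]
      have h3 := hKn.conj_mem ⟨x, hKN hx⟩
        (by rw [Subgroup.mem_subgroupOf]; exact hx) ⟨n, hn⟩
      rw [Subgroup.mem_subgroupOf] at h3
      simpa using h3
    exact hNmin K hKG hKN
  · by_contra hk
    have hk0 : k = 0 := by omega
    subst hk0
    obtain ⟨x, hx⟩ := exists_ne (1 : G)
    obtain ⟨f, rfl⟩ := hsurj x
    apply hx
    have : f = 1 := Subsingleton.elim _ _
    rw [this, map_one]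

/-- A non-trivial finite group G is characteristically simple (its only characteristic subgroups are 1 and G) if and only if G is isomorphic to a direct power S^n (n ≥ 1) of some simple group S (possibly cyclic of prime order). -/
theorem result {G : Type*} [Group G] [Finite G] [Nontrivial G] :
    (∀ H : Subgroup G, H.Characteristic → H = ⊥ ∨ H = ⊤) ↔
    ∃ (S : Type) (_ : Group S) (_ : IsSimpleGroup S) (n : ℕ), 1 ≤ n ∧ Nonempty (G ≃* (Fin n → S)) := by
  constructor
  · intro hG
    obtain ⟨N, hNs, k, hk, ⟨e⟩⟩ := forward hG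
    haveI := hNs
    haveI : IsSimpleGroup (Shrink.{0} N) := (Shrink.mulEquiv : Shrink.{0} N ≃* N).isSimpleGroup
    exact ⟨Shrink.{0} N, inferInstance, inferInstance, k, hk,
      ⟨e.symm.trans (MulEquiv.piCongrRight (fun _ => (Shrink.mulEquiv : Shrink.{0} N ≃* N).symm))⟩⟩
  · rintro ⟨S, _, _, n, hn, ⟨e⟩⟩ H hH
    have hH' : (H.map e.toMonoidHom).Characteristic := by
      rw [Subgroup.characteristic_iff_map_le]
      intro φ
      rintro _ ⟨_, ⟨h, hh, rfl⟩, rfl⟩
      refine ⟨e.symm (φ (e h)), ?_, by simp⟩
      exact char_mem hH ((e.trans φ).trans e.symm) hh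
    rcases pow_char _ hH' with h0 | h1
    · left
      rw [Subgroup.eq_bot_iff_forall]
      intro x hx
      have h2 : e x ∈ H.map e.toMonoidHom := ⟨x, hx, rfl⟩
      rw [h0] at h2
      have h3 := Subgroup.mem_bot.mp h2
      exact e.injective (by rw [h3, map_one])
    · right
      rw [Subgroup.eq_top_iff']
      intro x
      have h2 : e x ∈ H.map e.toMonoidHom := by rw [h1]; trivial
      obtain ⟨y, hy, hyx⟩ := h2
      have h3 : y = x := e.injective hyx
      exact h3 ▸ hy

end Cfsg.Agent.S5914
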