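import Cfsg.Statements.S5947
import Mathlib

set_option autoImplicit false
open Cfsg

namespace Cfsg.Agent.S5947

section chain
variable {F : Type*} [Field F] {V : Type*} [AddCommGroup V] [Module F V] [Finite V]

/-- the pointwise fixer of a subspace -/
def fixer (X : Submodule F V) : Subgroup (Module.End F V)ˣ where
  carrier := {g | ∀ x ∈ X, (g : Module.End F V) x = x}
  one_mem' := fun x _ => rfl
  mul_mem' := fun {a b} ha hb x hx => by
    show (a : Module.End F V) ((b : Module.End F V) x) = x
    rw [hb x hx, ha x hx]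
  inv_mem' := fun {a} ha x hx => by
    have h := ha x hx
    calc ((a⁻¹ : (Module.End F V)ˣ) : Module.End F V) x
        = ((a⁻¹ : (Module.End F V)ˣ) : Module.End F V) ((a : Module.End F V) x) := by rw [h]
      _ = x := by rw [← Module.End.mul_apply, Units.inv_mul, Module.End.one_apply]

/-- invariance of a subspace under a group of linear maps -/
def Inv (U : Subgroup (Module.End F V)ˣ) (X : Submodule F V) : Prop :=
  ∀ u ∈ U, ∀ x ∈ X, (u : Module.End F V) x ∈ X

theorem inv_apply (a : (Module.End F V)ˣ) (x : V) :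
    ((a⁻¹ : (Module.End F V)ˣ) : Module.End F V) ((a : Module.End F V) x) = x := by
  rw [← Module.End.mul_apply, Units.inv_mul, Module.End.one_apply]

theorem step (U : Subgroup (Module.End F V)ˣ)
    (hc : ∀ a ∈ U, ∀ b ∈ U, a * b = b * a)
    (hN : ((Nat.card U : ℕ) : F) ≠ 0)
    (W X : Submodule F V) (hWX : W ≤ X) (hne : W ≠ X) (hW : Inv U W) (hX : Inv U X)
    (hadj : ∀ Y : Submodule F V, Inv U Y → W ≤ Y → Y ≤ X → Y = W ∨ Y = X) :
    Nat.card ↥(U ⊓ fixer W) + Nat.card ↥(U ⊓ fixer X) ≤
      Nat.card ↥(U ⊓ fixer X) * Nat.card (↥X ⧸ W.comap X.subtype) := by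
  classical
  haveI : Finite (Module.End F V) :=
    Finite.of_injective (fun f : Module.End F V => (f : V → V)) DFunLike.coe_injective
  haveI : Finite (↥X ⧸ W.comap X.subtype) :=
    Finite.of_surjective Submodule.Quotient.mk (Submodule.Quotient.mk_surjective _)
  haveI : Finite (↥(U ⊓ fixer W) ⧸ (U ⊓ fixer X).subgroupOf (U ⊓ fixer W)) :=
    Finite.of_surjective QuotientGroup.mk QuotientGroup.mk_surjective
  obtain ⟨x₀, hx₀X, hx₀W⟩ : ∃ x ∈ X, x ∉ W := SetLike.exists_of_lt (lt_of_le_of_ne hWX hne)
  have hHG : U ⊓ fixer X ≤ U ⊓ fixer W :=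
    inf_le_inf_left U (fun g hg x hx => hg x (hWX hx))
  have key : ∀ c ∈ U ⊓ fixer W, (c : Module.End F V) x₀ - x₀ ∈ W → c ∈ U ⊓ fixer X := by
    intro c hcG hcx
    refine ⟨hcG.1, ?_⟩
    let Y : Submodule F V := X ⊓ W.comap ((c : Module.End F V) - 1)
    have hYmem : ∀ x, x ∈ Y ↔ x ∈ X ∧ (c : Module.End F V) x - x ∈ W := fun x => Iff.rfl
    have hYinv : Inv U Y := by
      intro u hu x hx
      rw [hYmem] at hx ⊢
      refine ⟨hX u hu x hx.1, ?_⟩
      have hcu := congrArg (fun g : (Module.End F V)ˣ => (g : Module.End F V) x) (hc c hcG.1 u hu)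
      simp only [Units.val_mul, Module.End.mul_apply] at hcu
      rw [hcu, ← map_sub]
      exact hW u hu _ hx.2
    have hWY : W ≤ Y := fun w hw => (hYmem w).mpr ⟨hWX hw, by
      rw [hcG.2 w hw, sub_self]
      exact W.zero_mem⟩
    have hYX : Y ≤ X := inf_le_left
    have hYeq : Y = X := by
      rcases hadj Y hYinv hWY hYX with h | h
      · exfalso
        have h' : x₀ ∈ Y := (hYmem x₀).mpr ⟨hx₀X, hcx⟩
        rw [h] at h'
        exact hx₀W h'
      · exact h
    intro x hx
    have hxW : (c : Module.End F V) x - x ∈ W := by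
      have h' : x ∈ Y := by rw [hYeq]; exact hx
      exact ((hYmem x).mp h').2
    have hpow : ∀ k : ℕ, ((c ^ k : (Module.End F V)ˣ) : Module.End F V) x =
        x + k • ((c : Module.End F V) x - x) := by
      intro k
      induction k with
      | zero => simp
      | succ k ih =>
        rw [pow_succ', Units.val_mul, Module.End.mul_apply, ih, map_add, map_nsmul,
          hcG.2 _ hxW, succ_nsmul]
        abel
    have hcN : c ^ Nat.card U = 1 := by
      have h := pow_card_eq_one' (G := ↥U) (x := ⟨c, hcG.1⟩)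
      exact congrArg Subtype.val h
    have h2 := hpow (Nat.card U)
    rw [hcN, Units.val_one, Module.End.one_apply] at h2
    have h3 : (Nat.card U) • ((c : Module.End F V) x - x) = 0 := by
      have h4 : x + 0 = x + (Nat.card U) • ((c : Module.End F V) x - x) := by
        rw [add_zero]
        exact h2
      exact (add_left_cancel h4).symm
    rw [← Nat.cast_smul_eq_nsmul F] at h3
    rcases smul_eq_zero.mp h3 with h4 | h4
    · exact absurd h4 hN
    · exact sub_eq_zero.mp h4
  have hGx : ∀ a : ↥(U ⊓ fixer W), ((a : (Module.End F V)ˣ) : Module.End F V) x₀ ∈ X :=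
    fun a => hX a a.2.1 x₀ hx₀X
  let f : ↥(U ⊓ fixer W) → ↥X ⧸ W.comap X.subtype := fun a =>
    Submodule.Quotient.mk ⟨((a : (Module.End F V)ˣ) : Module.End F V) x₀, hGx a⟩
  have hf : ∀ a b : ↥(U ⊓ fixer W), f a = f b ↔
      a⁻¹ * b ∈ (U ⊓ fixer X).subgroupOf (U ⊓ fixer W) := by
    intro a b
    rw [Submodule.Quotient.eq, Subgroup.mem_subgroupOf]
    have hab : ((a⁻¹ * b : ↥(U ⊓ fixer W)) : (Module.End F V)ˣ) =
        (a : (Module.End F V)ˣ)⁻¹ * (b : (Module.End F V)ˣ) := rfl
    constructor
    · intro h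
      have h' : ((a : (Module.End F V)ˣ) : Module.End F V) x₀ -
          ((b : (Module.End F V)ˣ) : Module.End F V) x₀ ∈ W := h
      apply key _ (a⁻¹ * b).2
      rw [hab, Units.val_mul, Module.End.mul_apply]
      have h1 : ((b : (Module.End F V)ˣ) : Module.End F V) x₀ -
          ((a : (Module.End F V)ˣ) : Module.End F V) x₀ ∈ W := by
        have h2 := W.neg_mem h'
        rwa [neg_sub] at h2
      have h3 := ((U ⊓ fixer W).inv_mem a.2).2 _ h1
      rw [map_sub, inv_apply] at h3
      rw [h3]
      exact h1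
    · intro h
      have h1 := h.2 x₀ hx₀X
      rw [hab, Units.val_mul, Module.End.mul_apply] at h1
      have h2 : ((a : (Module.End F V)ˣ) : Module.End F V)
          ((((a : (Module.End F V)ˣ)⁻¹ : (Module.End F V)ˣ) : Module.End F V)
            (((b : (Module.End F V)ˣ) : Module.End F V) x₀)) =
          ((a : (Module.End F V)ˣ) : Module.End F V) x₀ := congrArg _ h1
      rw [← Module.End.mul_apply, Units.mul_inv, Module.End.one_apply] at h2
      show ((a : (Module.End F V)ˣ) : Module.End F V) x₀ -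
          ((b : (Module.End F V)ˣ) : Module.End F V) x₀ ∈ W
      rw [h2, sub_self]
      exact W.zero_mem
  have hf0 : ∀ a : ↥(U ⊓ fixer W), f a ≠ 0 := by
    intro a h
    rw [Submodule.Quotient.mk_eq_zero] at h
    have h' : ((a : (Module.End F V)ˣ) : Module.End F V) x₀ ∈ W := h
    have h2 := ((U ⊓ fixer W).inv_mem a.2).2 _ h'
    rw [inv_apply] at h2
    rw [← h2] at h'
    exact hx₀W h'
  let fq : Option (↥(U ⊓ fixer W) ⧸ (U ⊓ fixer X).subgroupOf (U ⊓ fixer W)) →
      ↥X ⧸ W.comap X.subtype := fun o =>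
    o.elim 0 (Quotient.lift f (fun a b hab => (hf a b).mpr (QuotientGroup.leftRel_apply.mp hab)))
  have hinj : Function.Injective fq := by
    intro o1 o2 h
    cases o1 with
    | none =>
      cases o2 with
      | none => rfl
      | some c2 =>
        exfalso
        induction c2 using Quotient.inductionOn with
        | _ b => exact hf0 b h.symm
    | some c1 =>
      cases o2 with
      | none =>
        exfalso
        induction c1 using Quotient.inductionOn with
        | _ a => exact hf0 a h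
      | some c2 =>
        induction c1 using Quotient.inductionOn with
        | _ a =>
          induction c2 using Quotient.inductionOn with
          | _ b =>
            have h' : f a = f b := h
            exact congrArg some (QuotientGroup.eq.mpr ((hf a b).mp h'))
  have hcard := Nat.card_le_card_of_injective fq hinj
  rw [Finite.card_option] at hcard
  have h1 : Nat.card ↥(U ⊓ fixer W) = Nat.card ↥((U ⊓ fixer X).subgroupOf (U ⊓ fixer W)) *
      ((U ⊓ fixer X).subgroupOf (U ⊓ fixer W)).index := (Subgroup.card_mul_index _).symm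
  have h2 : Nat.card ↥((U ⊓ fixer X).subgroupOf (U ⊓ fixer W)) = Nat.card ↥(U ⊓ fixer X) :=
    Nat.card_congr (Subgroup.subgroupOfEquivOfLe hHG).toEquiv
  rw [h1, h2, Subgroup.index_eq_card]
  calc Nat.card ↥(U ⊓ fixer X) * Nat.card (↥(U ⊓ fixer W) ⧸
          (U ⊓ fixer X).subgroupOf (U ⊓ fixer W)) + Nat.card ↥(U ⊓ fixer X)
      = Nat.card ↥(U ⊓ fixer X) * (Nat.card (↥(U ⊓ fixer W) ⧸
          (U ⊓ fixer X).subgroupOf (U ⊓ fixer W)) + 1) := by ring
    _ ≤ _ := Nat.mul_le_mul_left _ hcard

end chain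

theorem arith1 (u a b w' c' : ℕ) (h1 : u + a ≤ a * (w' + 1)) (h2 : a + b ≤ b * (c' + 1)) :
    u + b ≤ b * ((w' + 1) * (c' + 1)) := by
  have h1' : u ≤ a * w' := by nlinarith
  have h2' : a ≤ b * c' := by nlinarith
  have h3 : a * w' ≤ b * c' * w' := Nat.mul_le_mul_right w' h2'
  nlinarith

theorem arith2 (u a w' c' : ℕ) (hu : 1 ≤ u) (h0 : u + 1 = (w' + 1) * (c' + 1))
    (h1 : u + a ≤ a * (w' + 1)) (h2 : a + 1 ≤ 1 * (c' + 1)) : False := by
  have h1' : u ≤ a * w' := by nlinarith
  have h2' : a ≤ c' := by omega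
  have h3 : a * w' ≤ c' * w' := Nat.mul_le_mul_right w' h2'
  have hw : w' = 0 := by nlinarith
  have hc : c' = 0 := by nlinarith
  subst hw
  subst hc
  omega

section chain2
variable {F : Type*} [Field F] {V : Type*} [AddCommGroup V] [Module F V] [Finite V]

theorem bot_inv (U : Subgroup (Module.End F V)ˣ) : Inv U (⊥ : Submodule F V) :=
  fun u _ x hx => by
    rw [(Submodule.mem_bot F).mp hx, map_zero]
    exact Submodule.zero_mem _

theorem chain (U : Subgroup (Module.End F V)ˣ)
    (hc : ∀ a ∈ U, ∀ b ∈ U, a * b = b * a) (hN : ((Nat.card U : ℕ) : F) ≠ 0) :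
    ∀ (d : ℕ) (X : Submodule F V), Module.finrank F ↥X = d → X ≠ ⊥ → Inv U X →
      Nat.card U + Nat.card ↥(U ⊓ fixer X) ≤ Nat.card ↥(U ⊓ fixer X) * Nat.card ↥X := by
  intro d
  induction d using Nat.strong_induction_on with
  | _ d ih =>
    intro X hd hX0 hXinv
    haveI : Finite (Module.End F V) :=
      Finite.of_injective (fun f : Module.End F V => (f : V → V)) DFunLike.coe_injective
    haveI : Finite (Submodule F V) :=
      Finite.of_injective (fun W : Submodule F V => (W : Set V)) SetLike.coe_injective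
    obtain ⟨W, ⟨hWinv, hWX⟩, hWmax⟩ :=
      (Set.toFinite {W : Submodule F V | Inv U W ∧ W < X}).exists_maximal
        ⟨⊥, bot_inv U, bot_lt_iff_ne_bot.mpr hX0⟩
    have hadj : ∀ Y : Submodule F V, Inv U Y → W ≤ Y → Y ≤ X → Y = W ∨ Y = X := by
      intro Y hY hWY hYX
      by_cases h : Y = X
      · exact Or.inr h
      · exact Or.inl (le_antisymm (hWmax ⟨hY, lt_of_le_of_ne hYX h⟩ hWY) hWY)
    haveI : Finite (↥X ⧸ W.comap X.subtype) :=
      Finite.of_surjective Submodule.Quotient.mk (Submodule.Quotient.mk_surjective _)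
    have hs := step U hc hN W X hWX.le hWX.ne hWinv hXinv hadj
    have hq : Nat.card ↥X = Nat.card ↥(W.comap X.subtype) *
        Nat.card (↥X ⧸ W.comap X.subtype) := Submodule.card_eq_card_quotient_mul_card _
    have hW' : Nat.card ↥(W.comap X.subtype) = Nat.card ↥W :=
      Nat.card_congr (Submodule.comapSubtypeEquivOfLe hWX.le).toEquiv
    rw [hW'] at hq
    by_cases hW0 : W = ⊥
    · subst hW0
      have e1 : U ⊓ fixer (⊥ : Submodule F V) = U := inf_eq_left.mpr (fun g _ x hx => by
        rw [(Submodule.mem_bot F).mp hx, map_zero])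
      rw [e1] at hs
      have e2 : Nat.card ↥(⊥ : Submodule F V) = 1 := Nat.card_unique
      rw [e2, one_mul] at hq
      rw [hq]
      exact hs
    · have hlt : Module.finrank F ↥W < d := by
        rw [← hd]
        exact Submodule.finrank_lt_finrank_of_lt hWX
      have ihW := ih _ hlt W rfl hW0 hWinv
      rw [hq]
      have hw1 : 0 < Nat.card ↥W := Nat.card_pos
      have hc1 : 0 < Nat.card (↥X ⧸ W.comap X.subtype) := Nat.card_pos
      obtain ⟨w', hw'⟩ : ∃ w', Nat.card ↥W = w' + 1 := ⟨Nat.card ↥W - 1, by omega⟩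
      obtain ⟨c', hc'⟩ : ∃ c', Nat.card (↥X ⧸ W.comap X.subtype) = c' + 1 :=
        ⟨Nat.card (↥X ⧸ W.comap X.subtype) - 1, by omega⟩
      rw [hw'] at ihW ⊢
      rw [hc'] at hs ⊢
      exact arith1 _ _ _ w' c' ihW hs

theorem irred (U : Subgroup (Module.End F V)ˣ)
    (hc : ∀ a ∈ U, ∀ b ∈ U, a * b = b * a) (hN : ((Nat.card U : ℕ) : F) ≠ 0)
    (hcard : Nat.card U + 1 = Nat.card V) (W₀ : Submodule F V) (hW₀ : Inv U W₀) :
    W₀ = ⊥ ∨ W₀ = ⊤ := by
  by_contra hcon
  push_neg at hcon
  haveI : Finite (Module.End F V) :=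
    Finite.of_injective (fun f : Module.End F V => (f : V → V)) DFunLike.coe_injective
  haveI : Finite (Submodule F V) :=
    Finite.of_injective (fun W : Submodule F V => (W : Set V)) SetLike.coe_injective
  obtain ⟨W, ⟨hWinv, hWX⟩, hWmax⟩ :=
    (Set.toFinite {W : Submodule F V | Inv U W ∧ W < ⊤}).exists_maximal
      ⟨W₀, hW₀, lt_top_iff_ne_top.mpr hcon.2⟩
  have hW0 : W ≠ ⊥ := by
    rintro rfl
    exact hcon.1 (le_bot_iff.mp (hWmax ⟨hW₀, lt_top_iff_ne_top.mpr hcon.2⟩ bot_le))
  have htopinv : Inv U (⊤ : Submodule F V) := fun _ _ _ _ => Submodule.mem_top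
  have hadj : ∀ Y : Submodule F V, Inv U Y → W ≤ Y → Y ≤ ⊤ → Y = W ∨ Y = ⊤ := by
    intro Y hY hWY _
    by_cases h : Y = ⊤
    · exact Or.inr h
    · exact Or.inl (le_antisymm (hWmax ⟨hY, lt_top_iff_ne_top.mpr h⟩ hWY) hWY)
  haveI : Finite (↥(⊤ : Submodule F V) ⧸ W.comap (⊤ : Submodule F V).subtype) :=
    Finite.of_surjective Submodule.Quotient.mk (Submodule.Quotient.mk_surjective _)
  have hs := step U hc hN W ⊤ le_top hWX.ne hWinv htopinv hadj
  have hch := chain U hc hN _ W rfl hW0 hWinv
  have e1 : Nat.card ↥(U ⊓ fixer (⊤ : Submodule F V)) = 1 := by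
    have h : U ⊓ fixer (⊤ : Submodule F V) = ⊥ := by
      rw [eq_bot_iff]
      intro g hg
      rw [Subgroup.mem_bot]
      apply Units.ext
      apply LinearMap.ext
      intro x
      exact hg.2 x Submodule.mem_top
    rw [h]
    exact Subgroup.card_bot
  rw [e1] at hs
  have hq : Nat.card ↥(⊤ : Submodule F V) = Nat.card ↥(W.comap (⊤ : Submodule F V).subtype) *
      Nat.card (↥(⊤ : Submodule F V) ⧸ W.comap (⊤ : Submodule F V).subtype) :=
    Submodule.card_eq_card_quotient_mul_card _
  have hW' : Nat.card ↥(W.comap (⊤ : Submodule F V).subtype) = Nat.card ↥W :=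
    Nat.card_congr (Submodule.comapSubtypeEquivOfLe (le_top : W ≤ ⊤)).toEquiv
  have htop : Nat.card ↥(⊤ : Submodule F V) = Nat.card V :=
    Nat.card_congr (Submodule.topEquiv (R := F) (M := V)).toEquiv
  rw [hW', htop, ← hcard] at hq
  have hu1 : 0 < Nat.card U := Nat.card_pos
  have hw1 : 0 < Nat.card ↥W := Nat.card_pos
  have hc1 : 0 < Nat.card (↥(⊤ : Submodule F V) ⧸ W.comap (⊤ : Submodule F V).subtype) :=
    Nat.card_pos
  obtain ⟨w', hw'⟩ : ∃ w', Nat.card ↥W = w' + 1 := ⟨Nat.card ↥W - 1, by omega⟩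
  obtain ⟨c', hc'⟩ : ∃ c', Nat.card (↥(⊤ : Submodule F V) ⧸
      W.comap (⊤ : Submodule F V).subtype) = c' + 1 :=
    ⟨Nat.card (↥(⊤ : Submodule F V) ⧸ W.comap (⊤ : Submodule F V).subtype) - 1, by omega⟩
  rw [hw'] at hch hq
  rw [hc'] at hs hq
  exact arith2 _ _ w' c' hu1 hq hch hs

end chain2

section fin
variable {F K : Type*} [Field F] [Fintype F] [Field K] [Fintype K] [Algebra F K]
  {L : Type*} [Field L] [Fintype L] [Algebra F L]

theorem fin (U : Subgroup (Module.End F K)ˣ) (ι : L →ₐ[F] Module.End F K)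
    (hfin : Module.finrank F L = Module.finrank F K)
    (hU1 : ∀ u ∈ U, ∃ l : L, ι l = (u : Module.End F K))
    (hU2 : ∀ l : L, l ≠ 0 → ∃ u ∈ U, (u : Module.End F K) = ι l) :
    ∃ g : (Module.End F K)ˣ, U.map (MulAut.conj g).toMonoidHom =
      (Units.map ((Algebra.lmul F K : K →ₐ[F] Module.End F K) : K →* Module.End F K)).range := by
  classical
  obtain ⟨θ⟩ := FiniteField.nonempty_algHom_of_finrank_dvd (F := F) (K := K) (L := L)
    (by rw [hfin])
  have hθinj : Function.Injective θ := (θ : K →+* L).injective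
  have hcardKL : Fintype.card K = Fintype.card L := by
    rw [Module.card_eq_pow_finrank (K := F) (V := K),
      Module.card_eq_pow_finrank (K := F) (V := L), hfin]
  have hθsurj : Function.Surjective θ :=
    ((Fintype.bijective_iff_injective_and_card θ).mpr ⟨hθinj, hcardKL⟩).2
  let θ' : K →ₐ[F] Module.End F K := ι.comp θ
  have hθ' : ∀ k, θ' k = ι (θ k) := fun k => rfl
  let gl : K →ₗ[F] K :=
    { toFun := fun k => θ' k 1
      map_add' := fun a b => by rw [map_add, LinearMap.add_apply]
      map_smul' := fun c a => by rw [map_smul, LinearMap.smul_apply, RingHom.id_apply] }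
  have hgl : ∀ k, gl k = θ' k 1 := fun k => rfl
  have hmul : ∀ k x, gl (k * x) = θ' k (gl x) := by
    intro k x
    rw [hgl, hgl, map_mul, Module.End.mul_apply]
  have hunit0 : ∀ u : (Module.End F K)ˣ, ∀ x : K, (u : Module.End F K) x = 0 → x = 0 := by
    intro u x hx
    have h := inv_apply u x
    rw [hx, map_zero] at h
    exact h.symm
  have hglinj : Function.Injective gl := by
    rw [← LinearMap.ker_eq_bot, LinearMap.ker_eq_bot']
    intro k hk
    by_contra hk0
    have hθk : θ k ≠ 0 := fun h => hk0 (hθinj (by rw [h, map_zero]))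
    obtain ⟨u, hu, huk⟩ := hU2 (θ k) hθk
    rw [hgl, hθ', ← huk] at hk
    exact one_ne_zero (hunit0 u 1 hk)
  let G : K ≃ₗ[F] K := LinearEquiv.ofInjectiveEndo gl hglinj
  have hG : ∀ x, G x = gl x := fun x => congrFun (LinearEquiv.coe_ofInjectiveEndo gl hglinj) x
  let g : (Module.End F K)ˣ := ⟨G.toLinearMap, G.symm.toLinearMap,
    LinearMap.ext (fun x => by simp [Module.End.mul_apply]),
    LinearMap.ext (fun x => by simp [Module.End.mul_apply])⟩
  have hgv : ∀ x, (g : Module.End F K) x = gl x := fun x => hG x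
  have hrel : ∀ k : K, (g : Module.End F K) * (Algebra.lmul F K k) =
      θ' k * (g : Module.End F K) := by
    intro k
    apply LinearMap.ext
    intro x
    rw [Module.End.mul_apply, Module.End.mul_apply, hgv, hgv]
    exact hmul k x
  have hconj : ∀ (k' : Kˣ) (u : (Module.End F K)ˣ), (u : Module.End F K) = θ' (k' : K) →
      g⁻¹ * u * g = Units.map ((Algebra.lmul F K : K →ₐ[F] Module.End F K) :
        K →* Module.End F K) k' := by
    intro k' u hu
    apply Units.ext
    rw [Units.val_mul, Units.val_mul, hu, mul_assoc, ← hrel, ← mul_assoc, Units.inv_mul,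
      one_mul, Units.coe_map]
    rfl
  refine ⟨g⁻¹, ?_⟩
  ext x
  rw [Subgroup.mem_map, MonoidHom.mem_range]
  constructor
  · rintro ⟨u, hu, rfl⟩
    obtain ⟨l, hl⟩ := hU1 u hu
    obtain ⟨k, rfl⟩ := hθsurj l
    have hk0 : k ≠ 0 := by
      rintro rfl
      rw [map_zero, map_zero] at hl
      exact one_ne_zero (hunit0 u 1 (by rw [← hl]; rfl))
    refine ⟨Units.mk0 k hk0, ?_⟩
    rw [← hconj (Units.mk0 k hk0) u hl.symm]
    simp only [MulEquiv.coe_toMonoidHom, MulAut.conj_apply, inv_inv]
  · rintro ⟨k', rfl⟩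
    have hk0 : (k' : K) ≠ 0 := k'.ne_zero
    have hθk : θ (k' : K) ≠ 0 := fun h => hk0 (hθinj (by rw [h, map_zero]))
    obtain ⟨u, hu, huk⟩ := hU2 _ hθk
    refine ⟨u, hu, ?_⟩
    rw [← hconj k' u huk]
    simp only [MulEquiv.coe_toMonoidHom, MulAut.conj_apply, inv_inv]

end fin

/-- Let F ⊆ K be finite fields with |F| = q and [K : F] = n ≥ 2, regard K as an n-dimensional F-vector space, and let M ≤ GL_F(K) be the Singer group of multiplications by non-zero elements of K (cyclic of order q^n − 1). Assume (n, q) ≠ (6, 2), and that it is not the case that n = 2 with q a prime such that q + 1 is a power of 2. Then every abelian subgroup of GL_F(K) of order q^n − 1 is conjugate to M. -/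
theorem result {F K : Type*} [Field F] [Fintype F] [Field K] [Fintype K] [Algebra F K] (n : ℕ) (hn : 2 ≤ n) (hdim : Module.finrank F K = n)
    (hex1 : ¬ (n = 6 ∧ Fintype.card F = 2))
    (hex2 : ¬ (n = 2 ∧ (Fintype.card F).Prime ∧ ∃ a : ℕ, Fintype.card F + 1 = 2 ^ a))
    (U : Subgroup (Module.End F K)ˣ) (hU : IsMulCommutative U) (hcard : Nat.card U = Fintype.card K - 1) :
    ∃ g : (Module.End F K)ˣ, U.map (MulAut.conj g).toMonoidHom = (Units.map ((Algebra.lmul F K : K →ₐ[F] Module.End F K) : K →* Module.End F K)).range := by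
  classical
  haveI : Finite (Module.End F K) :=
    Finite.of_injective (fun f : Module.End F K => (f : K → K)) DFunLike.coe_injective
  have hq1 : 1 < Fintype.card F := Fintype.one_lt_card
  have hKcard : Fintype.card K = Fintype.card F ^ n := by
    rw [← hdim]
    exact Module.card_eq_pow_finrank
  have hK1 : 1 < Fintype.card K := Fintype.one_lt_card
  have hc : ∀ a ∈ U, ∀ b ∈ U, a * b = b * a := by
    intro a ha b hb
    have h := hU.is_comm.comm (⟨a, ha⟩ : ↥U) ⟨b, hb⟩
    exact congrArg Subtype.val h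
  have hcard' : Nat.card U + 1 = Nat.card K := by
    rw [hcard, Nat.card_eq_fintype_card]
    omega
  have hN : ((Nat.card U : ℕ) : F) ≠ 0 := by
    intro h0
    have h1 : ((Nat.card U + 1 : ℕ) : F) = 1 := by
      rw [Nat.cast_add, h0, zero_add, Nat.cast_one]
    rw [hcard', Nat.card_eq_fintype_card, hKcard, Nat.cast_pow, FiniteField.cast_card_eq_zero,
      zero_pow (by omega)] at h1
    exact zero_ne_one h1
  have hirr := irred U hc hN hcard'
  have hker : ∀ T : Module.End F K,
      (∀ u ∈ U, T * (u : Module.End F K) = (u : Module.End F K) * T) → T 1 = 0 → T = 0 := by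
    intro T hT hT1
    have hinv : Inv U (LinearMap.ker T) := by
      intro u hu x hx
      rw [LinearMap.mem_ker] at hx ⊢
      have h := congrArg (fun S : Module.End F K => S x) (hT u hu)
      simp only [Module.End.mul_apply] at h
      rw [h, hx, map_zero]
    rcases hirr _ hinv with h | h
    · exfalso
      have h1 : (1 : K) ∈ LinearMap.ker T := LinearMap.mem_ker.mpr hT1
      rw [h] at h1
      exact one_ne_zero ((Submodule.mem_bot F).mp h1)
    · exact LinearMap.ker_eq_top.mp h
  have hunit0 : ∀ u : (Module.End F K)ˣ, (u : Module.End F K) 1 ≠ 0 := by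
    intro u h
    have h' := inv_apply u (1 : K)
    rw [h, map_zero] at h'
    exact zero_ne_one h'
  let f : ↥U → Kˣ := fun u =>
    Units.mk0 (((u : (Module.End F K)ˣ) : Module.End F K) 1) (hunit0 u)
  have hfinj : Function.Injective f := by
    intro u u' h
    have h1 : ((u : (Module.End F K)ˣ) : Module.End F K) 1 =
        ((u' : (Module.End F K)ˣ) : Module.End F K) 1 := congrArg Units.val h
    have h2 := hker (((u : (Module.End F K)ˣ) : Module.End F K) -
        ((u' : (Module.End F K)ˣ) : Module.End F K)) (by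
      intro w hw
      rw [sub_mul, mul_sub, ← Units.val_mul, ← Units.val_mul, ← Units.val_mul, ← Units.val_mul,
        hc u u.2 w hw, hc u' u'.2 w hw]) (by
      rw [LinearMap.sub_apply, h1, sub_self])
    exact Subtype.ext (Units.ext (sub_eq_zero.mp h2))
  have hfsurj : Function.Surjective f := by
    have hb := hfinj.bijective_of_nat_card_le (by
      rw [Nat.card_eq_fintype_card, Fintype.card_units, hcard])
    exact hb.2
  have hcl : ∀ T : Module.End F K,
      (∀ u ∈ U, T * (u : Module.End F K) = (u : Module.End F K) * T) →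
      T = 0 ∨ ∃ u ∈ U, (u : Module.End F K) = T := by
    intro T hT
    by_cases h : T 1 = 0
    · exact Or.inl (hker T hT h)
    · right
      obtain ⟨u, hu⟩ := hfsurj (Units.mk0 (T 1) h)
      have hu1 : ((u : (Module.End F K)ˣ) : Module.End F K) 1 = T 1 := congrArg Units.val hu
      refine ⟨u, u.2, ?_⟩
      have h2 := hker (T - ((u : (Module.End F K)ˣ) : Module.End F K)) (by
        intro w hw
        rw [sub_mul, mul_sub, hT w hw, ← Units.val_mul, ← Units.val_mul, hc u u.2 w hw]) (by
        rw [LinearMap.sub_apply, hu1, sub_self])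
      exact (sub_eq_zero.mp h2).symm
  let E : Subalgebra F (Module.End F K) :=
    Subalgebra.centralizer F {T : Module.End F K | ∃ u ∈ U, (u : Module.End F K) = T}
  have hEmem : ∀ T : Module.End F K, T ∈ E ↔
      ∀ u ∈ U, T * (u : Module.End F K) = (u : Module.End F K) * T := by
    intro T
    rw [Subalgebra.mem_centralizer_iff]
    constructor
    · intro h u hu
      exact (h _ ⟨u, hu, rfl⟩).symm
    · rintro h _ ⟨u, hu, rfl⟩
      exact (h u hu).symm
  have hEU : ∀ u ∈ U, (u : Module.End F K) ∈ E := by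
    intro u hu
    rw [hEmem]
    intro w hw
    rw [← Units.val_mul, ← Units.val_mul, hc u hu w hw]
  have hE : ∀ T ∈ E, T = 0 ∨ ∃ u ∈ U, (u : Module.End F K) = T :=
    fun T hT => hcl T ((hEmem T).mp hT)
  have hfield : IsField ↥E :=
    { exists_pair_ne := ⟨0, 1, fun h => by
        have h1 : ((0 : ↥E) : Module.End F K) (1 : K) = ((1 : ↥E) : Module.End F K) (1 : K) := by
          rw [h]
        exact zero_ne_one h1⟩
      mul_comm := fun x y => by
        apply Subtype.ext
        show (x : Module.End F K) * (y : Module.End F K) =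
          (y : Module.End F K) * (x : Module.End F K)
        rcases hE x x.2 with hx | ⟨u, hu, hux⟩
        · rw [hx, zero_mul, mul_zero]
        · rw [← hux]
          exact ((hEmem _).mp y.2 u hu).symm
      mul_inv_cancel := fun {a} ha => by
        rcases hE a a.2 with h0 | ⟨u, hu, hua⟩
        · exact absurd (Subtype.ext h0) ha
        · refine ⟨⟨((u⁻¹ : (Module.End F K)ˣ) : Module.End F K), hEU _ (U.inv_mem hu)⟩, ?_⟩
          apply Subtype.ext
          show (a : Module.End F K) * ((u⁻¹ : (Module.End F K)ˣ) : Module.End F K) = 1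
          rw [← hua, Units.mul_inv] }
  let ev : ↥E →ₗ[F] K :=
    { toFun := fun T => (T : Module.End F K) 1
      map_add' := fun a b => rfl
      map_smul' := fun c a => rfl }
  have hevinj : Function.Injective ev := by
    intro a b hab
    have hab' : (a : Module.End F K) 1 = (b : Module.End F K) 1 := hab
    have h0 : ((a : Module.End F K) - (b : Module.End F K)) 1 = 0 := by
      rw [LinearMap.sub_apply, hab', sub_self]
    have h1 := hker ((a : Module.End F K) - (b : Module.End F K)) (by
      intro w hw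
      rw [sub_mul, mul_sub, (hEmem _).mp a.2 w hw, (hEmem _).mp b.2 w hw]) h0
    exact Subtype.ext (sub_eq_zero.mp h1)
  have hevsurj : Function.Surjective ev := by
    intro v
    by_cases hv : v = 0
    · exact ⟨0, by rw [map_zero, hv]⟩
    · obtain ⟨u, hu⟩ := hfsurj (Units.mk0 v hv)
      exact ⟨⟨_, hEU u u.2⟩, congrArg Units.val hu⟩
  have hfinE : Module.finrank F ↥E = Module.finrank F K :=
    LinearEquiv.finrank_eq (LinearEquiv.ofBijective ev ⟨hevinj, hevsurj⟩)
  exact @fin F K _ _ _ _ _ ↥E hfield.toField (Fintype.ofFinite _)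
    (inferInstanceAs (Algebra F ↥E)) U E.val hfinE
    (fun u hu => ⟨⟨_, hEU u hu⟩, rfl⟩)
    (fun l hl => by
      rcases hE l l.2 with h0 | ⟨u, hu, hul⟩
      · exact absurd (Subtype.ext h0) hl
      · exact ⟨u, hu, hul⟩)

end Cfsg.Agent.S5947
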